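import Mathlib
import Cfsg.Statements.S0158
import Cfsg.Agent.Lib.Helper3.Char
import Cfsg.Agent.Lib.Helper3.CharCore
import Cfsg.Agent.Lib.Helper3.CharArith

set_option autoImplicit false
open Cfsg
open Cfsg.Agent.Lib.Helper3.Char Cfsg.Agent.Lib.Helper3.CharCore Cfsg.Agent.Lib.Helper3.CharArith
open scoped ComplexConjugate
open Kronecker
open scoped Matrix

namespace Cfsg.Agent.S0158

theorem idem_inv_zero {E : Type*} [AddCommGroup E] [Module ℂ E] [FiniteDimensional ℂ E]
    (P τ : E →ₗ[ℂ] E) (hP : P * P = P) (h0 : LinearMap.trace ℂ E P = 0) :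
    LinearMap.trace ℂ E (τ * P) = 0 := by
  have hproj := LinearMap.IsIdempotentElem.isProj_range P hP
  have htr := hproj.trace
  rw [h0] at htr
  have hfr : Module.finrank ℂ (LinearMap.range P) = 0 := by exact_mod_cast htr.symm
  have hbot : LinearMap.range P = ⊥ := Submodule.finrank_eq_zero.mp hfr
  have hP0 : P = 0 := LinearMap.range_eq_bot.mp hbot
  rw [hP0, mul_zero, map_zero]

theorem idem_inv_one {E : Type*} [AddCommGroup E] [Module ℂ E] [FiniteDimensional ℂ E]
    (P τ : E →ₗ[ℂ] E) (hP : P * P = P) (hτ : τ * τ = 1) (hc : τ * P = P * τ)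
    (h1 : LinearMap.trace ℂ E P = 1) :
    ∃ (v : E) (c : ℂ), v ≠ 0 ∧ P v = v ∧ τ v = c • v ∧ (c = 1 ∨ c = -1) ∧
      LinearMap.trace ℂ E (τ * P) = c := by
  have hproj := LinearMap.IsIdempotentElem.isProj_range P hP
  have htr := hproj.trace
  rw [h1] at htr
  have hfr : Module.finrank ℂ (LinearMap.range P) = 1 := by exact_mod_cast htr.symm
  obtain ⟨w, hw0, hw⟩ := finrank_eq_one_iff'.mp hfr
  have hvr : (w : E) ∈ LinearMap.range P := w.2
  have hPv : P (w : E) = w := by
    obtain ⟨x, hx⟩ := hvr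
    rw [← hx, ← Module.End.mul_apply, hP]
  have hv0 : (w : E) ≠ 0 := fun h => hw0 (Subtype.ext h)
  have hspan : ∀ y ∈ LinearMap.range P, ∃ c : ℂ, c • (w : E) = y := by
    intro y hy
    obtain ⟨c, hc⟩ := hw ⟨y, hy⟩
    exact ⟨c, congrArg Subtype.val hc⟩
  have hτv : τ (w : E) ∈ LinearMap.range P := by
    refine ⟨τ (w : E), ?_⟩
    rw [← Module.End.mul_apply, ← hc, Module.End.mul_apply, hPv]
  obtain ⟨c, hcv⟩ := hspan _ hτv
  have hcc : c * c = 1 := by
    have h2 : τ (τ (w : E)) = w := by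
      rw [← Module.End.mul_apply, hτ, Module.End.one_apply]
    rw [← hcv, map_smul, ← hcv, smul_smul] at h2
    have h3 : (c * c - 1) • (w : E) = 0 := by rw [sub_smul, h2, one_smul, sub_self]
    rcases smul_eq_zero.mp h3 with h4 | h4
    · exact sub_eq_zero.mp h4
    · exact absurd h4 hv0
  have hτP : τ * P = c • P := by
    apply LinearMap.ext
    intro x
    obtain ⟨a, ha⟩ := hspan (P x) ⟨x, rfl⟩
    rw [Module.End.mul_apply, LinearMap.smul_apply, ← ha, map_smul, ← hcv, smul_comm]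
  refine ⟨w, c, hv0, hPv, hcv.symm, mul_self_eq_one_iff.mp hcc, ?_⟩
  rw [hτP, map_smul, h1, smul_eq_mul, mul_one]

noncomputable def pm {G : Type*} [Group G] [Fintype G] {n : ℕ}
    (M : G → Matrix (Fin n) (Fin n) ℂ) : Matrix (Fin n × Fin n) (Fin n × Fin n) ℂ :=
  (Nat.card G : ℂ)⁻¹ • ∑ g : G, (M g ⊗ₖ M g)

theorem pm_eq {G : Type*} [Group G] [Fintype G] {n : ℕ} (M : G → Matrix (Fin n) (Fin n) ℂ) :
    pm M = (Nat.card G : ℂ)⁻¹ • ∑ g : G, (M g ⊗ₖ M g) := rfl

noncomputable def tw (n : ℕ) : Matrix (Fin n × Fin n) (Fin n × Fin n) ℂ :=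
  (Equiv.prodComm (Fin n) (Fin n)).toPEquiv.toMatrix

theorem tw_eq (n : ℕ) : tw n = (Equiv.prodComm (Fin n) (Fin n)).toPEquiv.toMatrix := rfl

theorem kron_pm {G : Type*} [Group G] [Fintype G] {n : ℕ} (M : G → Matrix (Fin n) (Fin n) ℂ)
    (hmul : ∀ g h, M (g * h) = M g * M h) (g : G) : (M g ⊗ₖ M g) * pm M = pm M := by
  rw [pm_eq, Matrix.mul_smul, Matrix.mul_sum]
  congr 1
  have h1 : ∀ h : G, (M g ⊗ₖ M g) * (M h ⊗ₖ M h) = M (g * h) ⊗ₖ M (g * h) := by
    intro h
    rw [hmul, Matrix.mul_kronecker_mul]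
  rw [Finset.sum_congr rfl (fun h _ => h1 h)]
  exact Equiv.sum_comp (Equiv.mulLeft g) (fun k => M k ⊗ₖ M k)

theorem pm_idem {G : Type*} [Group G] [Fintype G] {n : ℕ} (M : G → Matrix (Fin n) (Fin n) ℂ)
    (hmul : ∀ g h, M (g * h) = M g * M h) : pm M * pm M = pm M := by
  have hG : (Nat.card G : ℂ) ≠ 0 := by exact_mod_cast Nat.card_pos.ne'
  have h0 : pm M * pm M = ((Nat.card G : ℂ)⁻¹ • ∑ g : G, (M g ⊗ₖ M g)) * pm M := rfl
  rw [h0, Matrix.smul_mul, Matrix.sum_mul, Finset.sum_congr rfl (fun g _ => kron_pm M hmul g),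
    Finset.sum_const, Finset.card_univ, ← Nat.card_eq_fintype_card, ← Nat.cast_smul_eq_nsmul ℂ,
    smul_smul, inv_mul_cancel₀ hG, one_smul]

theorem tw_mul {n : ℕ} (A : Matrix (Fin n × Fin n) (Fin n × Fin n) ℂ) (p q : Fin n × Fin n) :
    (tw n * A) p q = A (p.2, p.1) q := by
  rw [tw_eq, PEquiv.toMatrix_toPEquiv_mul]
  rfl

theorem mul_tw {n : ℕ} (A : Matrix (Fin n × Fin n) (Fin n × Fin n) ℂ) (p q : Fin n × Fin n) :
    (A * tw n) p q = A p (q.2, q.1) := by
  rw [tw_eq, PEquiv.mul_toMatrix_toPEquiv]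
  rfl

theorem tw_sq (n : ℕ) : tw n * tw n = 1 := by
  ext p q
  rw [tw_mul, tw_eq, PEquiv.toMatrix_apply, Matrix.one_apply]
  obtain ⟨p1, p2⟩ := p
  obtain ⟨q1, q2⟩ := q
  simp [Prod.ext_iff]

theorem pm_apply {G : Type*} [Group G] [Fintype G] {n : ℕ} (M : G → Matrix (Fin n) (Fin n) ℂ)
    (p q : Fin n × Fin n) :
    pm M p q = (Nat.card G : ℂ)⁻¹ * ∑ g : G, M g p.1 q.1 * M g p.2 q.2 := by
  rw [pm_eq, Matrix.smul_apply, Matrix.sum_apply, smul_eq_mul]
  rfl

theorem tw_pm_comm {G : Type*} [Group G] [Fintype G] {n : ℕ}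
    (M : G → Matrix (Fin n) (Fin n) ℂ) : tw n * pm M = pm M * tw n := by
  ext p q
  rw [tw_mul, mul_tw, pm_apply, pm_apply]
  congr 1
  apply Finset.sum_congr rfl
  intro g _
  exact mul_comm _ _

theorem trace_pm {G : Type*} [Group G] [Fintype G] {n : ℕ} (M : G → Matrix (Fin n) (Fin n) ℂ) :
    Matrix.trace (pm M) =
      (Nat.card G : ℂ)⁻¹ * ∑ g : G, Matrix.trace (M g) * Matrix.trace (M g) := by
  rw [pm_eq, Matrix.trace_smul, Matrix.trace_sum, smul_eq_mul]
  congr 1
  apply Finset.sum_congr rfl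
  intro g _
  exact Matrix.trace_kronecker _ _

theorem trace_tw_pm {G : Type*} [Group G] [Fintype G] {n : ℕ}
    (M : G → Matrix (Fin n) (Fin n) ℂ) :
    Matrix.trace (tw n * pm M) = (Nat.card G : ℂ)⁻¹ * ∑ g : G, Matrix.trace (M g * M g) := by
  have h0 : Matrix.trace (tw n * pm M) = ∑ p : Fin n × Fin n, (tw n * pm M) p p := rfl
  have h1 : ∀ p : Fin n × Fin n, (tw n * pm M) p p =
      (Nat.card G : ℂ)⁻¹ * ∑ g : G, M g p.2 p.1 * M g p.1 p.2 := by
    intro p
    rw [tw_mul, pm_apply]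
  rw [h0, Finset.sum_congr rfl (fun p _ => h1 p), ← Finset.mul_sum, Finset.sum_comm]
  congr 1
  apply Finset.sum_congr rfl
  intro g _
  have h2 : Matrix.trace (M g * M g) = ∑ j : Fin n, (M g * M g) j j := rfl
  rw [h2, Fintype.sum_prod_type, Finset.sum_comm]
  apply Finset.sum_congr rfl
  intro j _
  rw [Matrix.mul_apply]

theorem fs_main {G : Type*} [Group G] [Fintype G] {n : ℕ}
    (σ : Representation ℂ G (Fin n → ℂ)) (hirr : σ.IsIrreducible) :
    (σ.character ≠ (fun g => conj (σ.character g)) →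
      (Nat.card G : ℂ)⁻¹ * ∑ s : G, σ.character (s * s) = 0) ∧
    (σ.character = (fun g => conj (σ.character g)) →
      ∃ (B : Matrix (Fin n) (Fin n) ℂ) (c : ℂ), B ≠ 0 ∧
        (∀ g, LinearMap.toMatrix' (σ g) * B * (LinearMap.toMatrix' (σ g))ᵀ = B) ∧
        Bᵀ = c • B ∧ (c = 1 ∨ c = -1) ∧
        (Nat.card G : ℂ)⁻¹ * ∑ s : G, σ.character (s * s) = c) := by
  classical
  set M : G → Matrix (Fin n) (Fin n) ℂ := fun g => LinearMap.toMatrix' (σ g) with hM
  have hmul : ∀ g h, M (g * h) = M g * M h := by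
    intro g h
    change LinearMap.toMatrix' (σ (g * h)) = _
    rw [map_mul, LinearMap.toMatrix'_mul]
  have htr : ∀ g, Matrix.trace (M g) = σ.character g := by
    intro g
    change _ = LinearMap.trace ℂ (Fin n → ℂ) (σ g)
    rw [LinearMap.trace_eq_matrix_trace ℂ (Pi.basisFun ℂ (Fin n)),
      LinearMap.toMatrix_eq_toMatrix']
  have hχ : Cfsg.IsIrrCharacter G σ.character := ⟨n, σ, hirr, rfl⟩
  have hP : Matrix.toLin' (pm M) * Matrix.toLin' (pm M) = Matrix.toLin' (pm M) := by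
    rw [Module.End.mul_eq_comp, ← Matrix.toLin'_mul, pm_idem M hmul]
  have hτ : Matrix.toLin' (tw n) * Matrix.toLin' (tw n) = 1 := by
    rw [Module.End.mul_eq_comp, ← Matrix.toLin'_mul, tw_sq, Matrix.toLin'_one]
    rfl
  have hc : Matrix.toLin' (tw n) * Matrix.toLin' (pm M) =
      Matrix.toLin' (pm M) * Matrix.toLin' (tw n) := by
    rw [Module.End.mul_eq_comp, Module.End.mul_eq_comp, ← Matrix.toLin'_mul,
      ← Matrix.toLin'_mul, tw_pm_comm]
  have htrP : LinearMap.trace ℂ _ (Matrix.toLin' (pm M)) =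
      Cfsg.classInner σ.character (fun g => conj (σ.character g)) := by
    rw [Matrix.trace_toLin'_eq, trace_pm]
    unfold Cfsg.classInner
    congr 1
    apply Finset.sum_congr rfl
    intro g _
    rw [htr, Complex.conj_conj]
  have htrτP : LinearMap.trace ℂ _ (Matrix.toLin' (tw n) * Matrix.toLin' (pm M)) =
      (Nat.card G : ℂ)⁻¹ * ∑ s : G, σ.character (s * s) := by
    rw [Module.End.mul_eq_comp, ← Matrix.toLin'_mul, Matrix.trace_toLin'_eq, trace_tw_pm]
    congr 1
    apply Finset.sum_congr rfl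
    intro g _
    rw [← hmul, htr]
  rw [irr_orthonormal hχ (isIrr_conj hχ)] at htrP
  constructor
  · intro hne
    rw [if_neg hne] at htrP
    rw [← htrτP]
    exact idem_inv_zero _ _ hP htrP
  · intro heq
    rw [if_pos heq] at htrP
    obtain ⟨v, c, hv0, hPv, hτv, hc1, htrc⟩ := idem_inv_one _ _ hP hτ hc htrP
    refine ⟨Matrix.of (fun i j => v (i, j)), c, ?_, ?_, ?_, hc1, ?_⟩
    · intro h0
      apply hv0
      funext p
      have h00 := congrFun (congrFun h0 p.1) p.2
      simpa using h00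
    · intro g
      have h1 : Matrix.toLin' (M g ⊗ₖ M g) (Matrix.toLin' (pm M) v) = Matrix.toLin' (pm M) v := by
        rw [← LinearMap.comp_apply, ← Matrix.toLin'_mul, kron_pm M hmul g]
      rw [hPv, Matrix.toLin'_apply] at h1
      ext i j
      have h2 := congrFun h1 (i, j)
      rw [Matrix.mulVec, dotProduct, Fintype.sum_prod_type] at h2
      simp only [Matrix.kronecker_apply] at h2
      simp only [Matrix.mul_apply, Matrix.transpose_apply, Matrix.of_apply]
      rw [← h2, Finset.sum_comm]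
      apply Finset.sum_congr rfl
      intro k _
      rw [Finset.sum_mul]
      apply Finset.sum_congr rfl
      intro l _
      ring
    · ext i j
      have h3 := congrFun hτv (j, i)
      rw [Matrix.toLin'_apply, tw_eq, PEquiv.toMatrix_toPEquiv_mulVec] at h3
      simp only [Matrix.transpose_apply, Matrix.of_apply, Matrix.smul_apply, smul_eq_mul]
      have h4 : v (i, j) = c * v (j, i) := h3
      have h5 : c * c = 1 := by
        rcases hc1 with rfl | rfl <;> norm_num
      rw [h4, ← mul_assoc, h5, one_mul]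
    · rw [← htrτP]
      exact htrc

theorem result {G : Type*} [Group G] [Fintype G] {V : Type*} [AddCommGroup V] [Module ℂ V] [FiniteDimensional ℂ V] (ρ : Representation ℂ G V) [ρ.IsIrreducible] : ((Nat.card G : ℂ)⁻¹ * ∑ s : G, ρ.character (s * s) = 0 ∨ (Nat.card G : ℂ)⁻¹ * ∑ s : G, ρ.character (s * s) = 1 ∨ (Nat.card G : ℂ)⁻¹ * ∑ s : G, ρ.character (s * s) = -1) ∧ ((Nat.card G : ℂ)⁻¹ * ∑ s : G, ρ.character (s * s) = 0 ↔ ∃ s : G, (ρ.character s).im ≠ 0) := by
  classical
  obtain ⟨n, σ, ⟨e⟩⟩ := exists_coord ρ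
  have hσirr : σ.IsIrreducible := irreducible_of_equiv e inferInstance
  have hchar : ρ.character = σ.character := Representation.char_iso e
  rw [hchar]
  obtain ⟨h0, h1⟩ := fs_main σ hσirr
  by_cases hreal : σ.character = (fun g => conj (σ.character g))
  · obtain ⟨B, c, -, -, -, hc1, hνc⟩ := h1 hreal
    rw [hνc]
    constructor
    · rcases hc1 with rfl | rfl
      · exact Or.inr (Or.inl rfl)
      · exact Or.inr (Or.inr rfl)
    · constructor
      · intro hc0
        exfalso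
        rcases hc1 with rfl | rfl <;> norm_num at hc0
      · rintro ⟨s, hs⟩
        exfalso
        apply hs
        have h2 := congrFun hreal s
        exact Complex.conj_eq_iff_im.mp h2.symm
  · rw [h0 hreal]
    refine ⟨Or.inl rfl, ?_⟩
    constructor
    · intro _
      by_contra hcon
      push Not at hcon
      apply hreal
      funext g
      exact (Complex.conj_eq_iff_im.mpr (hcon g)).symm
    · intro _
      rfl

end Cfsg.Agent.S0158
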