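import Mathlib
import Cfsg.Statements.S0019
import Cfsg.Agent.S0003

set_option autoImplicit false
open Pointwise
open Cfsg

namespace Cfsg.Agent.S0019

theorem exists_conj_le {G : Type*} [Group G] [Finite G] {q : ℕ} [Fact q.Prime] (N H : Subgroup G)
    (hN : IsPGroup q N) (hq : ¬ q ∣ H.index) : ∃ g : G, ∀ n ∈ N, g⁻¹ * n * g ∈ H := by
  have h1 := hN.nonempty_fixed_point_of_prime_not_dvd_card (G ⧸ H)
    (by rwa [← Subgroup.index_eq_card])
  obtain ⟨x, hx⟩ := h1
  obtain ⟨g, rfl⟩ := QuotientGroup.mk_surjective x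
  refine ⟨g, fun n hn => ?_⟩
  have h2 := hx ⟨n, hn⟩
  have h3 : ((n * g : G) : G ⧸ H) = (g : G ⧸ H) := h2
  rw [QuotientGroup.eq] at h3
  have h4 := H.inv_mem h3
  simpa [mul_assoc] using h4

universe u in
theorem aux (n : ℕ) : ∀ (G : Type u) [Group G] [Finite G], Nat.card G = n →
    ∀ (H₁ H₂ H₃ : Subgroup G), Group.IsSolvable H₁ → Group.IsSolvable H₂ → Group.IsSolvable H₃ →
    (∀ g : G, ∃ x ∈ H₁, ∃ y ∈ H₂, g = x * y) → (∀ g : G, ∃ x ∈ H₁, ∃ y ∈ H₃, g = x * y) →
    H₂.index.Coprime H₃.index → Group.IsSolvable G := by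
  induction n using Nat.strong_induction_on with
  | _ n ih =>
    intro G _ _ hn H₁ H₂ H₃ h₁ h₂ h₃ h12 h13 hcop
    by_cases hH1 : H₁ = ⊥
    · have hsurj : Function.Surjective H₂.subtype := by
        intro g
        obtain ⟨x, hx, y, hy, rfl⟩ := h12 g
        rw [hH1, Subgroup.mem_bot] at hx
        subst hx
        exact ⟨⟨y, hy⟩, by simp⟩
      exact Group.isSolvable_of_surjective hsurj
    · haveI : Nontrivial ↥H₁ := (Subgroup.nontrivial_iff_ne_bot H₁).2 hH1
      obtain ⟨q, M₀, hq, hM₀n, -, hM₀ne, hM₀p⟩ := Cfsg.Agent.S0003.exists_normal_abelian_pgroup ↥H₁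
      haveI := Fact.mk hq
      set N : Subgroup G := M₀.map H₁.subtype with hNdef
      have hNp : IsPGroup q N := hM₀p.map _
      have hNne : N ≠ ⊥ := by
        intro h
        rw [hNdef, Subgroup.map_eq_bot_iff_of_injective _ (Subgroup.subtype_injective _)] at h
        exact hM₀ne h
      have hNnorm : ∀ x ∈ H₁, ∀ m ∈ N, x * m * x⁻¹ ∈ N := by
        rintro x hx m ⟨m', hm', rfl⟩
        exact ⟨⟨x, hx⟩ * m' * ⟨x, hx⟩⁻¹, hM₀n.conj_mem m' hm' ⟨x, hx⟩, by simp⟩
      have main : ∀ (K₂ K₃ : Subgroup G), Group.IsSolvable K₂ → Group.IsSolvable K₃ →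
          (∀ g : G, ∃ x ∈ H₁, ∃ y ∈ K₂, g = x * y) → (∀ g : G, ∃ x ∈ H₁, ∃ y ∈ K₃, g = x * y) →
          K₂.index.Coprime K₃.index → ¬ q ∣ K₂.index → Group.IsSolvable G := by
        intro K₂ K₃ k₂ k₃ k12 k13 kcop hqK
        obtain ⟨g, hg⟩ := exists_conj_le N K₂ hNp hqK
        obtain ⟨x, hx, y, hy, rfl⟩ := k12 g
        have hNK : N ≤ K₂ := by
          intro m hm
          have h1 := hg (x * m * x⁻¹) (hNnorm x hx m hm)
          have h2 : (x * y)⁻¹ * (x * m * x⁻¹) * (x * y) = y⁻¹ * m * y := by group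
          rw [h2] at h1
          have h3 := K₂.mul_mem (K₂.mul_mem hy h1) (K₂.inv_mem hy)
          have h4 : y * (y⁻¹ * m * y) * y⁻¹ = m := by group
          rwa [h4] at h3
        set M : Subgroup G := Subgroup.normalClosure (N : Set G) with hMdef
        have hMK : M ≤ K₂ := by
          rw [hMdef, Subgroup.normalClosure]
          rw [Subgroup.closure_le]
          intro a ha
          rw [Group.mem_conjugatesOfSet_iff] at ha
          obtain ⟨b, hb, hba⟩ := ha
          rw [isConj_iff] at hba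
          obtain ⟨c, rfl⟩ := hba
          obtain ⟨x', hx', y', hy', hc⟩ := k12 c⁻¹
          have hc' : c = y'⁻¹ * x'⁻¹ := by
            rw [← inv_inv c, hc]; group
          have h1 : c * b * c⁻¹ = y'⁻¹ * (x'⁻¹ * b * x'⁻¹⁻¹) * y' := by
            rw [hc']; group
          show c * b * c⁻¹ ∈ K₂
          rw [h1]
          exact K₂.mul_mem (K₂.mul_mem (K₂.inv_mem hy') (hNK (hNnorm _ (H₁.inv_mem hx') b hb))) hy'
        haveI hMn : M.Normal := Subgroup.normalClosure_normal
        have hNM : N ≤ M := Subgroup.le_normalClosure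
        have hMne : M ≠ ⊥ := fun h => hNne (le_bot_iff.1 (h ▸ hNM))
        haveI hMsolv : Group.IsSolvable M :=
          solvable_of_solvable_injective (Subgroup.inclusion_injective hMK)
        have hcardlt : Nat.card (G ⧸ M) < n := by
          rw [← hn, ← Subgroup.index_eq_card]
          have h1 := Subgroup.card_mul_index M
          have h2 : 1 < Nat.card M := (Subgroup.one_lt_card_iff_ne_bot M).2 hMne
          have h3 : 0 < M.index := Nat.pos_of_ne_zero Subgroup.index_ne_zero_of_finite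
          nlinarith
        have hsurj := QuotientGroup.mk'_surjective M
        have hsolvimg : ∀ K : Subgroup G, Group.IsSolvable K →
            Group.IsSolvable (K.map (QuotientGroup.mk' M)) := by
          intro K hK
          exact Group.isSolvable_of_surjective ((QuotientGroup.mk' M).subgroupMap_surjective K)
        have hprod : ∀ K : Subgroup G, (∀ g : G, ∃ x ∈ H₁, ∃ y ∈ K, g = x * y) →
            ∀ g : G ⧸ M, ∃ x ∈ H₁.map (QuotientGroup.mk' M), ∃ y ∈ K.map (QuotientGroup.mk' M),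
              g = x * y := by
          intro K hK g
          obtain ⟨g', rfl⟩ := hsurj g
          obtain ⟨x, hx, y, hy, rfl⟩ := hK g'
          exact ⟨_, Subgroup.mem_map_of_mem _ hx, _, Subgroup.mem_map_of_mem _ hy, map_mul _ _ _⟩
        have hcop' : ((K₂.map (QuotientGroup.mk' M)).index).Coprime
            ((K₃.map (QuotientGroup.mk' M)).index) :=
          Nat.Coprime.coprime_dvd_left (Subgroup.index_map_dvd K₂ hsurj)
            (Nat.Coprime.coprime_dvd_right (Subgroup.index_map_dvd K₃ hsurj) kcop)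
        haveI : Group.IsSolvable (G ⧸ M) :=
          ih _ hcardlt (G ⧸ M) rfl _ _ _ (hsolvimg H₁ h₁) (hsolvimg K₂ k₂) (hsolvimg K₃ k₃)
            (hprod K₂ k12) (hprod K₃ k13) hcop'
        exact solvable_of_ker_le_range M.subtype (QuotientGroup.mk' M) (by simp)
      by_cases hq2 : q ∣ H₂.index
      · have hq3 : ¬ q ∣ H₃.index := by
          intro hq3
          have := Nat.dvd_gcd hq2 hq3
          rw [hcop] at this
          exact hq.one_lt.ne' (Nat.dvd_one.1 this)
        exact main H₃ H₂ h₃ h₂ h13 h12 hcop.symm hq3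
      · exact main H₂ H₃ h₂ h₃ h12 h13 hcop hq2

theorem result {G : Type*} [Group G] [Finite G] (H₁ H₂ H₃ : Subgroup G)
    (h₁ : Group.IsSolvable H₁) (h₂ : Group.IsSolvable H₂) (h₃ : Group.IsSolvable H₃)
    (h12 : ∀ g : G, ∃ x ∈ H₁, ∃ y ∈ H₂, g = x * y) (h13 : ∀ g : G, ∃ x ∈ H₁, ∃ y ∈ H₃, g = x * y)
    (hcop : H₂.index.Coprime H₃.index) : Group.IsSolvable G :=
  aux _ G rfl H₁ H₂ H₃ h₁ h₂ h₃ h12 h13 hcop

end Cfsg.Agent.S0019
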