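import Mathlib
import Cfsg.Statements.S0020
import Cfsg.Agent.S0003

set_option autoImplicit false
open Pointwise
open Cfsg

namespace Cfsg.Agent.S0020

theorem index_inf_of_coprime {G : Type*} [Group G] [Finite G] (H K : Subgroup G)
    (h : Nat.Coprime H.index K.index) : (H ⊓ K).index = H.index * K.index := by
  apply Nat.le_antisymm Subgroup.index_inf_le
  apply Nat.le_of_dvd (Nat.pos_of_ne_zero Subgroup.index_ne_zero_of_finite)
  exact Nat.Coprime.mul_dvd_of_dvd_of_dvd h (Subgroup.index_dvd_of_le inf_le_left)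
    (Subgroup.index_dvd_of_le inf_le_right)

theorem mul_eq_of_card {G : Type*} [Group G] [Finite G] (A B T : Subgroup G) (hA : A ≤ T)
    (hB : B ≤ T) (hAB : A ⊓ B = ⊥) (hc : Nat.card A * Nat.card B = Nat.card T) :
    (A : Set G) * (B : Set G) = (T : Set G) := by
  apply Set.Subset.antisymm
  · rintro x ⟨a, ha, b, hb, rfl⟩
    exact T.mul_mem (hA ha) (hB hb)
  · have hinj : Function.Injective (fun x : A × B =>
        (⟨(x.1 : G) * (x.2 : G), T.mul_mem (hA x.1.2) (hB x.2.2)⟩ : T)) := by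
      rintro ⟨a, b⟩ ⟨a', b'⟩ h
      have h1 : (a : G) * (b : G) = (a' : G) * (b' : G) := by simpa using congrArg Subtype.val h
      have h2 : (a' : G)⁻¹ * (a : G) ∈ A ⊓ B := by
        apply Subgroup.mem_inf.2
        refine ⟨A.mul_mem (A.inv_mem a'.2) a.2, ?_⟩
        have e : (a' : G)⁻¹ * (a : G) = (b' : G) * (b : G)⁻¹ := by
          have e1 : (a : G) = (a' : G) * (b' : G) * (b : G)⁻¹ := by rw [← h1]; group
          rw [e1]; group
        rw [e]; exact B.mul_mem b'.2 (B.inv_mem b.2)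
      rw [hAB, Subgroup.mem_bot] at h2
      have ha : (a : G) = a' := by
        have e1 : (a : G) = (a' : G) * ((a' : G)⁻¹ * (a : G)) := by group
        rw [e1, h2, mul_one]
      have hb : (b : G) = b' := by
        rw [ha] at h1; exact mul_left_cancel h1
      exact Prod.ext (Subtype.ext ha) (Subtype.ext hb)
    have hbij := hinj.bijective_of_nat_card_le (by rw [Nat.card_prod, hc])
    intro x hx
    obtain ⟨⟨a, b⟩, hab⟩ := hbij.2 ⟨x, hx⟩
    have e : (a : G) * (b : G) = x := by simpa using congrArg Subtype.val hab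
    exact ⟨a, a.2, b, b.2, e⟩

theorem result {G : Type*} [Group G] [Finite G] [Group.IsSolvable G] :
    ∃ S : (p : Nat.Primes) → Sylow (p : ℕ) G,
      ∀ p q : Nat.Primes, (S p : Set G) * (S q : Set G) = (S q : Set G) * (S p : Set G) := by
  classical
  obtain ⟨N, hN⟩ : ∃ N, Nat.card G = N := ⟨_, rfl⟩
  have hN0 : N ≠ 0 := by rw [← hN]; exact Nat.card_pos.ne'
  obtain ⟨a, ha⟩ : ∃ a : ℕ → ℕ, a = fun q => N.factorization q := ⟨_, rfl⟩
  have hex : ∀ q : ℕ, ∃ H : Subgroup G, q.Prime → H.index = q ^ a q := by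
    intro q
    by_cases hq : q.Prime
    · have hdvd : q ^ a q ∣ N := by rw [ha]; exact Nat.ordProj_dvd N q
      have hpos : 0 < N / q ^ a q := Nat.div_pos (Nat.le_of_dvd (Nat.pos_of_ne_zero hN0) hdvd)
        (pow_pos hq.pos _)
      obtain ⟨H, hH⟩ := Cfsg.Agent.S0003.hall_exists N G hN (N / q ^ a q) (q ^ a q)
        (Nat.div_mul_cancel hdvd).symm
        (by rw [ha]; exact ((Nat.coprime_ordCompl hq hN0).symm.pow_right _))
      refine ⟨H, fun _ => ?_⟩
      have h1 := Subgroup.card_mul_index H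
      rw [hH, hN] at h1
      have h2 : N / q ^ a q * H.index = N / q ^ a q * q ^ a q := by
        rw [h1, Nat.div_mul_cancel hdvd]
      exact Nat.eq_of_mul_eq_mul_left hpos h2
    · exact ⟨⊤, fun h => absurd h hq⟩
  choose Hc hHc using hex
  obtain ⟨P, hP⟩ : ∃ P : Finset ℕ, P = N.primeFactors := ⟨_, rfl⟩
  have hIidx : ∀ T : Finset ℕ, (∀ q ∈ T, q.Prime) → (T.inf Hc).index = ∏ q ∈ T, q ^ a q := by
    intro T
    induction T using Finset.induction_on with
    | empty => intro _; simp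
    | insert q T hqT ih =>
      intro hprime
      have hq : q.Prime := hprime q (Finset.mem_insert_self q T)
      have hT : ∀ r ∈ T, r.Prime := fun r hr => hprime r (Finset.mem_insert_of_mem hr)
      have hcop : Nat.Coprime (Hc q).index (T.inf Hc).index := by
        rw [hHc q hq, ih hT]
        apply Nat.Coprime.prod_right
        intro r hr
        exact Nat.coprime_pow_primes _ _ hq (hT r hr) (fun h => hqT (h ▸ hr))
      rw [Finset.inf_insert, index_inf_of_coprime _ _ hcop, hHc q hq, ih hT,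
        Finset.prod_insert hqT]
  have hprodP : ∏ q ∈ P, q ^ a q = N := by
    have h1 := Nat.factorization_prod_pow_eq_self hN0
    rw [Finsupp.prod, Nat.support_factorization] at h1
    rw [hP, ha]
    exact h1
  have herase : ∀ (T : Finset ℕ) (r : ℕ), (r ∉ T → a r = 0) →
      r ^ a r * ∏ q ∈ T.erase r, q ^ a q = ∏ q ∈ T, q ^ a q := by
    intro T r h
    by_cases hr : r ∈ T
    · exact Finset.mul_prod_erase T (fun q => q ^ a q) hr
    · rw [Finset.erase_eq_of_notMem hr, h hr, pow_zero, one_mul]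
  have hanot : ∀ r : ℕ, r ∉ P → a r = 0 := by
    intro r hr
    have h1 : r ∉ N.factorization.support := by
      rw [Nat.support_factorization, ← hP]; exact hr
    rw [ha]
    exact Finsupp.notMem_support_iff.1 h1
  have hPprime : ∀ q ∈ P, q.Prime := fun q hq => by
    rw [hP] at hq; exact Nat.prime_of_mem_primeFactors hq
  have hcardS : ∀ p : ℕ, p.Prime →
      Nat.card ((P.erase p).inf Hc : Subgroup G) = p ^ (Nat.card G).factorization p := by
    intro p hp
    have h1 := hIidx (P.erase p) (fun q hq => hPprime q (Finset.mem_of_mem_erase hq))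
    have h2 := herase P p (hanot p)
    rw [hprodP, ← h1] at h2
    have h3 := Subgroup.card_mul_index ((P.erase p).inf Hc : Subgroup G)
    rw [hN] at h3
    have hpos : 0 < ((P.erase p).inf Hc : Subgroup G).index :=
      Nat.pos_of_ne_zero Subgroup.index_ne_zero_of_finite
    have h4 : Nat.card ((P.erase p).inf Hc : Subgroup G) = p ^ a p :=
      Nat.eq_of_mul_eq_mul_right hpos (h3.trans h2.symm)
    rw [h4, ha, hN]
  refine ⟨fun p => haveI : Fact (p : ℕ).Prime := ⟨p.2⟩;
    Sylow.ofCard ((P.erase (p : ℕ)).inf Hc) (hcardS p p.2), ?_⟩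
  intro p q
  by_cases hpq : p = q
  · subst hpq; rfl
  have hpq' : (p : ℕ) ≠ q := fun h => hpq (Subtype.ext h)
  change (((P.erase (p : ℕ)).inf Hc : Subgroup G) : Set G) *
      (((P.erase (q : ℕ)).inf Hc : Subgroup G) : Set G) =
    (((P.erase (q : ℕ)).inf Hc : Subgroup G) : Set G) *
      (((P.erase (p : ℕ)).inf Hc : Subgroup G) : Set G)
  have hSpT : (P.erase (p : ℕ)).inf Hc ≤ ((P.erase (p : ℕ)).erase (q : ℕ)).inf Hc :=
    Finset.inf_mono (Finset.erase_subset _ _)
  have hSqT : (P.erase (q : ℕ)).inf Hc ≤ ((P.erase (p : ℕ)).erase (q : ℕ)).inf Hc := by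
    rw [Finset.erase_right_comm]; exact Finset.inf_mono (Finset.erase_subset _ _)
  have hcT : Nat.card (((P.erase (p : ℕ)).erase (q : ℕ)).inf Hc : Subgroup G) =
      (p : ℕ) ^ a p * (q : ℕ) ^ a q := by
    have h1 := hIidx ((P.erase (p : ℕ)).erase (q : ℕ)) (fun r hr =>
      hPprime r (Finset.mem_of_mem_erase (Finset.mem_of_mem_erase hr)))
    have h2 := herase (P.erase (p : ℕ)) q (fun hq =>
      hanot q (fun hqP => hq (Finset.mem_erase.2 ⟨Ne.symm hpq', hqP⟩)))
    have h3 := herase P p (hanot p)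
    rw [hprodP, ← h2, ← h1] at h3
    have h4 := Subgroup.card_mul_index (((P.erase (p : ℕ)).erase (q : ℕ)).inf Hc : Subgroup G)
    rw [hN] at h4
    have hpos : 0 < (((P.erase (p : ℕ)).erase (q : ℕ)).inf Hc : Subgroup G).index :=
      Nat.pos_of_ne_zero Subgroup.index_ne_zero_of_finite
    apply Nat.eq_of_mul_eq_mul_right hpos
    rw [h4, ← h3]; ring
  have hcSp : Nat.card ((P.erase (p : ℕ)).inf Hc : Subgroup G) = (p : ℕ) ^ a p := by
    rw [hcardS p p.2, ha, hN]
  have hcSq : Nat.card ((P.erase (q : ℕ)).inf Hc : Subgroup G) = (q : ℕ) ^ a q := by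
    rw [hcardS q q.2, ha, hN]
  have hdisj : ((P.erase (p : ℕ)).inf Hc : Subgroup G) ⊓ (P.erase (q : ℕ)).inf Hc = ⊥ :=
    Subgroup.inf_eq_bot_of_coprime (by
      rw [hcSp, hcSq]; exact Nat.coprime_pow_primes _ _ p.2 q.2 hpq')
  rw [mul_eq_of_card _ _ _ hSpT hSqT hdisj (by rw [hcSp, hcSq, hcT]),
    mul_eq_of_card _ _ _ hSqT hSpT (by rw [inf_comm]; exact hdisj)
      (by rw [hcSp, hcSq, hcT, mul_comm])]

end Cfsg.Agent.S0020
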