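import Mathlib
import Cfsg.Statements.S0006
import Cfsg.Agent.S0019
import Cfsg.Agent.S0020
import Cfsg.Agent.S0144

set_option autoImplicit false
open Pointwise
open Cfsg

namespace Cfsg.Agent.S0006

theorem relIndex_eq_of_coprime {G : Type*} [Group G] [Finite G] (K H : Subgroup G)
    (hcop : K.index.Coprime H.index) : K.relIndex H = K.index := by
  have h1 := Cfsg.Agent.S0020.index_inf_of_coprime K H hcop
  have h2 := Subgroup.relIndex_mul_index (inf_le_right : K ⊓ H ≤ H)
  rw [Subgroup.inf_relIndex_right] at h2
  have h3 : 0 < H.index := Nat.pos_of_ne_zero Subgroup.index_ne_zero_of_finite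
  exact Nat.eq_of_mul_eq_mul_right h3 (h2.trans h1)

theorem exists_mul_of_coprime_index {G : Type*} [Group G] [Finite G] (H K : Subgroup G)
    (h : H.index.Coprime K.index) : ∀ g : G, ∃ x ∈ H, ∃ y ∈ K, g = x * y := by
  classical
  let f : ↥H ⧸ (K.subgroupOf H) → G ⧸ K :=
    Quotient.map' (fun x : ↥H => (x : G)) (by
      intro a b hab
      rw [QuotientGroup.leftRel_apply] at hab ⊢
      exact Subgroup.mem_subgroupOf.1 hab)
  have hf : ∀ x : ↥H, f (QuotientGroup.mk x) = ((x : G) : G ⧸ K) := fun x => rfl
  have hinj : Function.Injective f := by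
    intro a b
    induction a using QuotientGroup.induction_on with
    | H a =>
      induction b using QuotientGroup.induction_on with
      | H b =>
        intro hab
        rw [hf, hf, QuotientGroup.eq] at hab
        rw [QuotientGroup.eq]
        exact Subgroup.mem_subgroupOf.2 hab
  have hcard : Nat.card (G ⧸ K) ≤ Nat.card (↥H ⧸ (K.subgroupOf H)) := by
    have h1 : Nat.card (↥H ⧸ (K.subgroupOf H)) = K.relIndex H := rfl
    rw [h1, relIndex_eq_of_coprime K H h.symm]
    exact le_of_eq (Subgroup.index_eq_card K).symm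
  have hbij := hinj.bijective_of_nat_card_le hcard
  intro g
  obtain ⟨a, ha⟩ := hbij.2 (g : G ⧸ K)
  induction a using QuotientGroup.induction_on with
  | H a =>
    rw [hf, QuotientGroup.eq] at ha
    exact ⟨a, a.2, _, ha, by group⟩

universe u in
theorem aux (n : ℕ) : ∀ (G : Type u) [Group G] [Finite G], Nat.card G = n →
    (∀ p : ℕ, p.Prime → ∃ H : Subgroup G, H.index = p ^ (Nat.card G).factorization p) →
    Group.IsSolvable G := by
  induction n using Nat.strong_induction_on with
  | _ n ih =>
    intro G _ _ hn h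
    have hN0 : Nat.card G ≠ 0 := Nat.card_pos.ne'
    have hsub : ∀ p : ℕ, p.Prime → p ∣ Nat.card G → ∀ H : Subgroup G,
        H.index = p ^ (Nat.card G).factorization p → Group.IsSolvable H := by
      intro p hp hpd H hH
      have hcard := Subgroup.card_mul_index H
      have hHpos : 0 < Nat.card H := Nat.card_pos
      have hlt : Nat.card H < n := by
        have h1 : 1 < H.index := by
          rw [hH]
          exact Nat.one_lt_pow (Nat.pos_of_ne_zero
            ((Nat.Prime.factorization_pos_of_dvd hp hN0 hpd).ne')).ne' hp.one_lt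
        rw [← hn, ← hcard]; nlinarith
      apply ih _ hlt ↥H rfl
      intro r hr
      by_cases hrp : r = p
      · subst hrp
        refine ⟨⊤, ?_⟩
        have h0 : (Nat.card H).factorization r = 0 := by
          have h1 : (Nat.card H * r ^ (Nat.card G).factorization r).factorization r =
              (Nat.card G).factorization r := by rw [← hH, hcard]
          rw [Nat.factorization_mul hHpos.ne' (pow_ne_zero _ hr.ne_zero)] at h1
          simp [hr.factorization_pow] at h1
          exact h1
        rw [h0, pow_zero, Subgroup.index_top]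
      · obtain ⟨K, hK⟩ := h r hr
        refine ⟨K.subgroupOf H, ?_⟩
        have hcop : K.index.Coprime H.index := by
          rw [hK, hH]; exact Nat.Coprime.pow _ _ ((Nat.coprime_primes hr hp).2 hrp)
        have h1 : K.relIndex H = K.index := relIndex_eq_of_coprime K H hcop
        have h2 : (Nat.card H).factorization r = (Nat.card G).factorization r := by
          have h1 : (Nat.card H * p ^ (Nat.card G).factorization p).factorization r =
              (Nat.card G).factorization r := by rw [← hH, hcard]
          rw [Nat.factorization_mul hHpos.ne' (pow_ne_zero _ hp.ne_zero)] at h1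
          simp [hp.factorization_pow, Ne.symm hrp] at h1
          exact h1
        show K.relIndex H = _
        rw [h1, hK, h2]
    by_cases h3 : ∃ p₁ p₂ p₃ : ℕ, p₁.Prime ∧ p₂.Prime ∧ p₃.Prime ∧ p₁ ≠ p₂ ∧ p₁ ≠ p₃ ∧ p₂ ≠ p₃ ∧
        p₁ ∣ Nat.card G ∧ p₂ ∣ Nat.card G ∧ p₃ ∣ Nat.card G
    · obtain ⟨p₁, p₂, p₃, hp₁, hp₂, hp₃, h12, h13, h23, hd₁, hd₂, hd₃⟩ := h3
      obtain ⟨H₁, hH₁⟩ := h p₁ hp₁
      obtain ⟨H₂, hH₂⟩ := h p₂ hp₂
      obtain ⟨H₃, hH₃⟩ := h p₃ hp₃
      have c12 : H₁.index.Coprime H₂.index := by
        rw [hH₁, hH₂]; exact Nat.Coprime.pow _ _ ((Nat.coprime_primes hp₁ hp₂).2 h12)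
      have c13 : H₁.index.Coprime H₃.index := by
        rw [hH₁, hH₃]; exact Nat.Coprime.pow _ _ ((Nat.coprime_primes hp₁ hp₃).2 h13)
      have c23 : H₂.index.Coprime H₃.index := by
        rw [hH₂, hH₃]; exact Nat.Coprime.pow _ _ ((Nat.coprime_primes hp₂ hp₃).2 h23)
      exact Cfsg.Agent.S0019.result H₁ H₂ H₃ (hsub p₁ hp₁ hd₁ H₁ hH₁) (hsub p₂ hp₂ hd₂ H₂ hH₂)
        (hsub p₃ hp₃ hd₃ H₃ hH₃) (exists_mul_of_coprime_index H₁ H₂ c12)
        (exists_mul_of_coprime_index H₁ H₃ c13) c23
    · have hle : (Nat.card G).primeFactors.card ≤ 2 := by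
        by_contra hgt
        push_neg at hgt
        obtain ⟨a, ha, b, hb, c, hc, hab, hac, hbc⟩ := Finset.two_lt_card.1 hgt
        exact h3 ⟨a, b, c, Nat.prime_of_mem_primeFactors ha, Nat.prime_of_mem_primeFactors hb,
          Nat.prime_of_mem_primeFactors hc, hab, hac, hbc, Nat.dvd_of_mem_primeFactors ha,
          Nat.dvd_of_mem_primeFactors hb, Nat.dvd_of_mem_primeFactors hc⟩
      have hprod : (Nat.card G).factorization.prod (· ^ ·) = Nat.card G :=
        Nat.prod_factorization_pow_eq_self hN0
      rw [Finsupp.prod, Nat.support_factorization] at hprod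
      have hc : (Nat.card G).primeFactors.card = 0 ∨ (Nat.card G).primeFactors.card = 1 ∨
          (Nat.card G).primeFactors.card = 2 := by omega
      rcases hc with hc | hc | hc
      · rw [Finset.card_eq_zero] at hc
        rw [hc, Finset.prod_empty] at hprod
        exact Cfsg.Agent.S0144.result 2 2 0 0 Nat.prime_two Nat.prime_two (by rw [← hprod]; norm_num)
      · obtain ⟨p, hp⟩ := Finset.card_eq_one.1 hc
        have hpp : p.Prime :=
          Nat.prime_of_mem_primeFactors (by rw [hp]; exact Finset.mem_singleton_self p)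
        rw [hp, Finset.prod_singleton] at hprod
        exact Cfsg.Agent.S0144.result p p ((Nat.card G).factorization p) 0 hpp hpp
          (by rw [pow_zero, mul_one]; exact hprod.symm)
      · obtain ⟨p, q, hpq, hs⟩ := Finset.card_eq_two.1 hc
        have hpp : p.Prime := Nat.prime_of_mem_primeFactors (by rw [hs]; simp)
        have hqp : q.Prime := Nat.prime_of_mem_primeFactors (by rw [hs]; simp)
        rw [hs, Finset.prod_pair hpq] at hprod
        exact Cfsg.Agent.S0144.result p q _ _ hpp hqp hprod.symm

theorem result {G : Type*} [Group G] [Finite G]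
    (h : ∀ p : ℕ, p.Prime → ∃ H : Subgroup G, H.index = p ^ (Nat.card G).factorization p) :
    Group.IsSolvable G :=
  aux _ G rfl h

end Cfsg.Agent.S0006
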