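import Mathlib
import Cfsg.Statements.S0034

set_option autoImplicit false
open Pointwise
open Cfsg
open Finset

namespace Cfsg.Agent.S0034

theorem mem_conj_smul' {G : Type*} [Group G] (H : Subgroup G) (g x : G) :
    x ∈ MulAut.conj g • H ↔ g⁻¹ * x * g ∈ H := by
  rw [Subgroup.mem_pointwise_smul_iff_inv_smul_mem]
  simp [MulAut.smul_def]

theorem natCard_setOf {α : Type*} [Fintype α] (p : α → Prop) [DecidablePred p] :
    Nat.card {x // p x} = (univ.filter p).card := by
  rw [Nat.card_eq_fintype_card, Fintype.card_subtype]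

open Classical in
theorem ti_count_aux {G : Type*} [Group G] [Fintype G] (M : Subgroup G)
    (hTI : ∀ g : G, g ∉ M → M ⊓ MulAut.conj g • M = ⊥) :
    (univ.filter (fun x : G => x ≠ 1 ∧ ∃ g : G, g⁻¹ * x * g ∈ M)).card *
      (univ.filter (fun x : G => x ∈ M)).card
      = Fintype.card G * ((univ.filter (fun x : G => x ∈ M)).card - 1) := by
  set U := univ.filter (fun x : G => x ≠ 1 ∧ ∃ g : G, g⁻¹ * x * g ∈ M) with hU
  set Mf := univ.filter (fun x : G => x ∈ M) with hMf
  have key := Finset.sum_card_bipartiteAbove_eq_sum_card_bipartiteBelow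
    (s := (univ : Finset G)) (t := U) (r := fun g x => g⁻¹ * x * g ∈ M)
  have hL : ∀ g ∈ (univ : Finset G),
      (U.bipartiteAbove (fun g x => g⁻¹ * x * g ∈ M) g).card = Mf.card - 1 := by
    intro g _
    have h1 : (U.bipartiteAbove (fun g x => g⁻¹ * x * g ∈ M) g).card = (Mf.erase 1).card := by
      apply Finset.card_bij (fun x _ => g⁻¹ * x * g)
      · intro x hx
        simp only [Finset.bipartiteAbove, mem_filter, hU, mem_univ, true_and] at hx
        rw [mem_erase]
        refine ⟨?_, by simp [hMf, hx.2]⟩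
        intro h
        apply hx.1.1
        have e : x = g * (g⁻¹ * x * g) * g⁻¹ := by group
        rw [e, h]; group
      · intro x _ y _ h
        have hx : x = g * (g⁻¹ * x * g) * g⁻¹ := by group
        have hy : y = g * (g⁻¹ * y * g) * g⁻¹ := by group
        rw [hx, hy, h]
      · intro m hm
        rw [mem_erase] at hm
        have hmM : m ∈ M := by simpa [hMf] using hm.2
        have e : g⁻¹ * (g * m * g⁻¹) * g = m := by group
        refine ⟨g * m * g⁻¹, ?_, e⟩
        simp only [Finset.bipartiteAbove, mem_filter, hU, mem_univ, true_and]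
        refine ⟨⟨?_, g, by rw [e]; exact hmM⟩, by rw [e]; exact hmM⟩
        intro h
        apply hm.1
        rw [← e, h]; group
    rw [h1, Finset.card_erase_of_mem (by simp [hMf] : (1 : G) ∈ Mf)]
  have hR : ∀ x ∈ U,
      ((univ : Finset G).bipartiteBelow (fun g x => g⁻¹ * x * g ∈ M) x).card = Mf.card := by
    intro x hx
    simp only [hU, mem_filter, mem_univ, true_and] at hx
    obtain ⟨hx1, g₀, hg₀⟩ := hx
    apply Finset.card_bij (fun g _ => g₀⁻¹ * g)
    · intro g hg
      simp only [Finset.bipartiteBelow, mem_filter, mem_univ, true_and] at hg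
      simp only [hMf, mem_filter, mem_univ, true_and]
      by_contra hnot
      have h1 := hTI (g₀⁻¹ * g) hnot
      have h2' : g₀⁻¹ * x * g₀ ∈ MulAut.conj (g₀⁻¹ * g) • M := by
        rw [mem_conj_smul']
        have e : (g₀⁻¹ * g)⁻¹ * (g₀⁻¹ * x * g₀) * (g₀⁻¹ * g) = g⁻¹ * x * g := by group
        rw [e]; exact hg
      have h2 : g₀⁻¹ * x * g₀ ∈ M ⊓ MulAut.conj (g₀⁻¹ * g) • M := Subgroup.mem_inf.2 ⟨hg₀, h2'⟩
      rw [h1, Subgroup.mem_bot] at h2
      apply hx1
      have e : x = g₀ * (g₀⁻¹ * x * g₀) * g₀⁻¹ := by group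
      rw [e, h2]; group
    · intro a _ b _ h
      exact mul_left_cancel h
    · intro m hm
      have hmM : m ∈ M := by simpa [hMf] using hm
      refine ⟨g₀ * m, ?_, by group⟩
      simp only [Finset.bipartiteBelow, mem_filter, mem_univ, true_and]
      have e : (g₀ * m)⁻¹ * x * (g₀ * m) = m⁻¹ * (g₀⁻¹ * x * g₀) * m := by group
      rw [e]
      exact M.mul_mem (M.mul_mem (M.inv_mem hmM) hg₀) hmM
  rw [Finset.sum_congr rfl hL, Finset.sum_congr rfl hR, Finset.sum_const, Finset.sum_const,
    smul_eq_mul, smul_eq_mul, Finset.card_univ] at key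
  exact key.symm

/-- Counting the nonidentity elements lying in conjugates of a subgroup `M` meeting its
conjugates by outside elements trivially. -/
theorem ti_count {G : Type*} [Group G] [Finite G] (M : Subgroup G)
    (hTI : ∀ g : G, g ∉ M → M ⊓ MulAut.conj g • M = ⊥) :
    Nat.card {x : G // x ≠ 1 ∧ ∃ g : G, g⁻¹ * x * g ∈ M} * Nat.card M
      = Nat.card G * (Nat.card M - 1) := by
  classical
  haveI : Fintype G := Fintype.ofFinite G
  have h := ti_count_aux M hTI
  have e1 : Nat.card M = (univ.filter (fun x : G => x ∈ M)).card :=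
    natCard_setOf (fun x : G => x ∈ M)
  rw [natCard_setOf, e1, Nat.card_eq_fintype_card]
  convert h

theorem card_compl_subtype {α : Type*} [Finite α] (p : α → Prop) :
    Nat.card {x // p x} + Nat.card {x // ¬ p x} = Nat.card α := by
  classical
  rw [← Nat.card_sum]
  exact Nat.card_congr (Equiv.sumCompl p)

theorem result {G : Type*} [Group G] [Finite G] (H : Subgroup G) (hH : Cfsg.IsFrobeniusComplement H) :
    Nat.card (Cfsg.frobeniusKernel H) = H.index ∧ H.index % Nat.card H = 1 % Nat.card H := by
  classical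
  obtain ⟨h1, h2, hTI⟩ := hH
  constructor
  · have hc := ti_count H hTI
    have hs := card_compl_subtype (fun x : G => x ≠ 1 ∧ ∃ g : G, g⁻¹ * x * g ∈ H)
    have hK : Nat.card (Cfsg.frobeniusKernel H) =
        Nat.card {x : G // ¬ (x ≠ 1 ∧ ∃ g : G, g⁻¹ * x * g ∈ H)} := by
      apply Nat.card_congr
      apply Equiv.subtypeEquivRight
      intro x
      show (x = 1 ∨ ∀ g : G, x ∉ MulAut.conj g • H) ↔ _
      simp only [mem_conj_smul']
      tauto
    rw [hK]
    have hmn := Subgroup.card_mul_index H
    have hm : 0 < Nat.card H := Nat.card_pos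
    set m := Nat.card H with hmdef
    set n := H.index with hndef
    set u := Nat.card {x : G // x ≠ 1 ∧ ∃ g : G, g⁻¹ * x * g ∈ H} with hudef
    set k := Nat.card {x : G // ¬ (x ≠ 1 ∧ ∃ g : G, g⁻¹ * x * g ∈ H)} with hkdef
    obtain ⟨j, hj⟩ : ∃ j, m = j + 1 := ⟨m - 1, by omega⟩
    rw [hj] at hc hmn
    have hu : u = n * j := by
      apply Nat.eq_of_mul_eq_mul_right (Nat.succ_pos j)
      rw [hc, ← hmn]
      simp
      ring
    have : (j + 1) * n = j * n + n := by ring
    rw [← hmn, this, hu] at hs
    have : n * j = j * n := by ring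
    omega
  · let S : SubMulAction H (G ⧸ H) :=
      { carrier := {c | c ≠ ((1 : G) : G ⧸ H)}
        smul_mem' := by
          intro h c hc hcon
          apply hc
          have e : c = h⁻¹ • (h • c) := by rw [inv_smul_smul]
          rw [e, hcon]
          show ((((h⁻¹ : H) : G) * 1 : G) : G ⧸ H) = ((1 : G) : G ⧸ H)
          rw [QuotientGroup.eq]
          simp }
    have hfree : ∀ b : S, MulAction.stabilizer H b = ⊥ := by
      rintro ⟨c, hc⟩
      induction c using QuotientGroup.induction_on with
      | H g =>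
        rw [eq_bot_iff]
        intro h hh
        rw [MulAction.mem_stabilizer_iff] at hh
        have hh' : ((((h : G) * g : G)) : G ⧸ H) = (g : G ⧸ H) := congrArg Subtype.val hh
        rw [QuotientGroup.eq] at hh'
        have hgH : g ∉ H := by
          intro hg
          apply hc
          show (g : G ⧸ H) = ((1 : G) : G ⧸ H)
          rw [QuotientGroup.eq]
          simpa using H.inv_mem hg
        have h3 := hTI g hgH
        have h4' : (h : G) ∈ MulAut.conj g • H := by
          rw [mem_conj_smul']
          have e : g⁻¹ * (h : G) * g = (((h : G) * g)⁻¹ * g)⁻¹ := by group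
          rw [e]
          exact H.inv_mem hh'
        have h4 : (h : G) ∈ H ⊓ MulAut.conj g • H := Subgroup.mem_inf.2 ⟨h.2, h4'⟩
        rw [h3, Subgroup.mem_bot] at h4
        rw [Subgroup.mem_bot]
        exact Subtype.ext h4
    have e := MulAction.selfEquivOrbitsQuotientProd hfree
    have hcard : Nat.card S = Nat.card (Quotient (MulAction.orbitRel H S)) * Nat.card H := by
      rw [Nat.card_congr e, Nat.card_prod]
    have hS : Nat.card S + 1 = H.index := by
      have h5 := card_compl_subtype (fun c : G ⧸ H => c = ((1 : G) : G ⧸ H))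
      have h6 : Nat.card {c : G ⧸ H // c = ((1 : G) : G ⧸ H)} = 1 := by
        rw [Nat.card_eq_one_iff_unique]
        exact ⟨⟨fun a b => Subtype.ext (a.2.trans b.2.symm)⟩, ⟨⟨_, rfl⟩⟩⟩
      have h7 : Nat.card S = Nat.card {c : G ⧸ H // ¬ c = ((1 : G) : G ⧸ H)} :=
        Nat.card_congr (Equiv.subtypeEquivRight (fun c => Iff.rfl))
      rw [Subgroup.index_eq_card, ← h5, h6, h7, add_comm]
    rw [← hS, hcard]
    simp [Nat.add_mod]

end Cfsg.Agent.S0034
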