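import Mathlib
import Cfsg.Statements.S0035
import Cfsg.Agent.Lib.Helper3.Char
import Cfsg.Agent.Lib.Helper3.CharCore
import Cfsg.Agent.Lib.Helper3.CharTable
import Cfsg.Agent.Lib.Helper3.CharInd
import Cfsg.Agent.Lib.Helper3.CharArith
import Cfsg.Agent.Lib.Helper3.CharNormal
import Cfsg.Agent.S0034
import Cfsg.Agent.S0139

set_option autoImplicit false
open Cfsg
open Cfsg.Agent.Lib.Helper3.Char Cfsg.Agent.Lib.Helper3.CharCore Cfsg.Agent.Lib.Helper3.CharTable Cfsg.Agent.Lib.Helper3.CharInd Cfsg.Agent.Lib.Helper3.CharArith Cfsg.Agent.Lib.Helper3.CharNormal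
open scoped ComplexConjugate
open Pointwise
universe v

namespace Cfsg.Agent.S0035

theorem ind_frob {G : Type*} [Group G] [Fintype G] (H : Subgroup G)
    (hTI : ∀ g : G, g ∉ H → ∀ h ∈ H, g⁻¹ * h * g ∈ H → h = 1)
    (ψ : H → ℂ) (hψ : Cfsg.IsClassFunction H ψ) (h1 : ψ 1 = 0) (h : H) :
    Cfsg.indFun H ψ h = ψ h := by
  classical
  have _i : Fintype H := Fintype.ofFinite _
  have hcard : (Nat.card H : ℂ) ≠ 0 := by exact_mod_cast Nat.card_pos.ne'
  unfold Cfsg.indFun
  by_cases hh : h = 1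
  · subst hh
    have h0 : ∀ x : G, Cfsg.extendByZero H ψ (x⁻¹ * ((1 : H) : G) * x) = 0 := by
      intro x
      have e : x⁻¹ * ((1 : H) : G) * x = 1 := by simp
      rw [e, extendByZero_mem H ψ H.one_mem]
      exact h1
    rw [Finset.sum_congr rfl (fun x _ => h0 x), Finset.sum_const_zero, mul_zero, h1]
  · have h2 : ∑ x : G, Cfsg.extendByZero H ψ (x⁻¹ * (h : G) * x) = ∑ n : H, ψ h := by
      rw [sum_subgroup H (fun x => Cfsg.extendByZero H ψ (x⁻¹ * (h : G) * x))]
      · refine Finset.sum_congr rfl (fun n _ => ?_)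
        have hmem : (n : G)⁻¹ * (h : G) * (n : G) ∈ H :=
          H.mul_mem (H.mul_mem (H.inv_mem n.2) h.2) n.2
        rw [extendByZero_mem _ ψ hmem]
        have h3 := hψ h n⁻¹
        rw [← h3]
        congr 1
        apply Subtype.ext
        simp
      · intro x hx
        by_cases hmem : x⁻¹ * (h : G) * x ∈ H
        · exfalso
          exact hh (Subtype.ext (hTI x hx (h : G) h.2 hmem))
        · exact extendByZero_not_mem _ ψ hmem
    rw [h2, Finset.sum_const, Finset.card_univ, nsmul_eq_mul, ← Nat.card_eq_fintype_card,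
      ← mul_assoc, inv_mul_cancel₀ hcard, one_mul]

theorem ind_frob_off {G : Type*} [Group G] [Fintype G] (H : Subgroup G) (ψ : H → ℂ) (g : G)
    (hg : ∀ x : G, x⁻¹ * g * x ∉ H) : Cfsg.indFun H ψ g = 0 := by
  unfold Cfsg.indFun
  rw [Finset.sum_congr rfl (fun x _ => extendByZero_not_mem H ψ (hg x)), Finset.sum_const_zero,
    mul_zero]

theorem pm_irr {G : Type v} [Group G] [Fintype G] (ψ : G → ℂ) (hψ : Cfsg.IsClassFunction G ψ)
    (hint : ∀ χ : G → ℂ, Cfsg.IsIrrCharacter G χ → ∃ n : ℤ, Cfsg.classInner ψ χ = (n : ℂ))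
    (hnorm : Cfsg.classInner ψ ψ = 1) :
    ∃ χ : G → ℂ, Cfsg.IsIrrCharacter G χ ∧ (ψ = χ ∨ ψ = -χ) := by
  classical
  have _j : Fintype (Cfsg.IrrCharacter G) := Fintype.ofFinite _
  choose z hz using (fun χ : Cfsg.IrrCharacter G => hint χ χ.2)
  have hpar := parseval ψ ψ hψ
  rw [hnorm] at hpar
  have h1 : ∀ η : Cfsg.IrrCharacter G,
      Cfsg.classInner ψ η * Cfsg.classInner (η : G → ℂ) ψ = ((z η ^ 2 : ℤ) : ℂ) := by
    intro η
    rw [classInner_conj_symm ψ (η : G → ℂ), hz η, map_intCast]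
    push_cast
    ring
  rw [Finset.sum_congr rfl (fun η _ => h1 η), ← Int.cast_sum] at hpar
  have hsum : ∑ η : Cfsg.IrrCharacter G, z η ^ 2 = 1 := by exact_mod_cast hpar.symm
  have hex : ∃ η₀, z η₀ ≠ 0 := by
    by_contra hne
    push Not at hne
    have h0 : ∑ η : Cfsg.IrrCharacter G, z η ^ 2 = 0 :=
      Finset.sum_eq_zero (fun η _ => by rw [hne η]; rfl)
    rw [h0] at hsum
    exact absurd hsum (by norm_num)
  obtain ⟨η₀, hη₀⟩ := hex
  have hsplit := Finset.add_sum_erase Finset.univ (fun η => z η ^ 2) (Finset.mem_univ η₀)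
  rw [hsum] at hsplit
  have hnn : 0 ≤ ∑ η ∈ Finset.univ.erase η₀, z η ^ 2 :=
    Finset.sum_nonneg (fun η _ => sq_nonneg _)
  have hge : 1 ≤ z η₀ ^ 2 := by
    have : 0 < z η₀ ^ 2 := by positivity
    linarith
  have hz0sq : z η₀ ^ 2 = 1 := by linarith
  have hrest : ∑ η ∈ Finset.univ.erase η₀, z η ^ 2 = 0 := by linarith
  have hzero : ∀ η, η ≠ η₀ → z η = 0 := by
    intro η hne
    have h2 := (Finset.sum_eq_zero_iff_of_nonneg (fun η _ => sq_nonneg (z η))).mp hrest η
      (Finset.mem_erase.mpr ⟨hne, Finset.mem_univ η⟩)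
    exact (pow_eq_zero_iff two_ne_zero).mp h2
  have hψeq : ψ = (z η₀ : ℂ) • (η₀ : G → ℂ) := by
    have hexp := class_fun_expand ψ hψ
    rw [Finset.sum_eq_single η₀] at hexp
    · rw [hz η₀] at hexp
      exact hexp
    · intro η _ hne
      rw [hz η, hzero η hne]
      simp
    · intro h
      exact absurd (Finset.mem_univ η₀) h
  refine ⟨η₀, η₀.2, ?_⟩
  rcases sq_eq_one_iff.mp hz0sq with h | h
  · left
    rw [hψeq, h]
    simp
  · right
    rw [hψeq, h]
    simp

theorem frob_ext {G : Type v} [Group G] [Fintype G] (H : Subgroup G)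
    (hTI : ∀ g : G, g ∉ H → ∀ h ∈ H, g⁻¹ * h * g ∈ H → h = 1)
    (φ : H → ℂ) (hφ : Cfsg.IsIrrCharacter H φ) :
    ∃ χ : G → ℂ, Cfsg.IsIrrCharacter G χ ∧ (∀ h : H, χ h = φ h) ∧
      (∀ g : G, (∀ x : G, x⁻¹ * g * x ∉ H) → χ g = φ 1) := by
  classical
  have _i : Fintype H := Fintype.ofFinite _
  have hφc := isCharacter_of_irr hφ
  obtain ⟨d, hdpos, hd⟩ := irr_one_pos hφ
  let α : H → ℂ := fun h => φ h - φ 1
  have hαcf : Cfsg.IsClassFunction H α := by
    intro g x
    show φ (x * g * x⁻¹) - φ 1 = φ g - φ 1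
    rw [char_classFun hφc g x]
  have hα1 : α 1 = 0 := sub_self _
  let χ : G → ℂ := fun g => Cfsg.indFun H α g + φ 1
  have hχH : ∀ h : H, χ h = φ h := by
    intro h
    show Cfsg.indFun H α h + φ 1 = φ h
    rw [ind_frob H hTI α hαcf hα1 h]
    show φ h - φ 1 + φ 1 = φ h
    ring
  have hχoff : ∀ g : G, (∀ x : G, x⁻¹ * g * x ∉ H) → χ g = φ 1 := by
    intro g hg
    show Cfsg.indFun H α g + φ 1 = φ 1
    rw [ind_frob_off H α g hg, zero_add]
  have hχcf : Cfsg.IsClassFunction G χ := by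
    intro g x
    show Cfsg.indFun H α (x * g * x⁻¹) + φ 1 = Cfsg.indFun H α g + φ 1
    rw [indFun_classFun H α g x]
  have hχeq : χ = Cfsg.indFun H α + (φ 1) • (fun _ : G => (1 : ℂ)) := by
    funext g
    simp [χ]
  have hαeq : α = φ - (φ 1) • (fun _ : H => (1 : ℂ)) := by
    funext h
    simp [α]
  have hres : (fun h : H => χ h) = φ := funext hχH
  have h1G : Cfsg.IsIrrCharacter G (fun _ => (1 : ℂ)) := isIrr_one G
  have h1H : Cfsg.IsIrrCharacter H (fun _ => (1 : ℂ)) := isIrr_one H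
  have hform : ∀ F : G → ℂ, Cfsg.IsClassFunction G F →
      Cfsg.classInner χ F = Cfsg.classInner φ (fun h : H => F h) -
        φ 1 * Cfsg.classInner (fun _ : H => (1 : ℂ)) (fun h : H => F h) +
        φ 1 * Cfsg.classInner (fun _ : G => (1 : ℂ)) F := by
    intro F hF
    rw [hχeq, classInner_add_left, classInner_smul_left, frobenius H α F hF, hαeq,
      classInner_sub_left, classInner_smul_left]
  have hnorm : Cfsg.classInner χ χ = 1 := by
    rw [hform χ hχcf, hres, irr_inner_self hφ]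
    have h2 : Cfsg.classInner χ (fun _ : G => (1 : ℂ)) =
        Cfsg.classInner φ (fun _ : H => (1 : ℂ)) := by
      rw [hform _ (char_classFun (isCharacter_of_irr h1G))]
      rw [irr_inner_self h1H, irr_inner_self h1G]
      ring
    rw [classInner_conj_symm χ (fun _ : G => (1 : ℂ)), h2, ← classInner_conj_symm]
    ring
  have hint : ∀ η : G → ℂ, Cfsg.IsIrrCharacter G η →
      ∃ n : ℤ, Cfsg.classInner χ η = (n : ℂ) := by
    intro η hη
    have hηc := isCharacter_of_irr hη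
    have hηH : Cfsg.IsCharacter H (fun h : H => η h) := comp_isCharacter H.subtype hηc
    obtain ⟨a, ha⟩ := inner_char_nat hφc hηH
    obtain ⟨b, hb⟩ := inner_char_nat (isCharacter_of_irr h1H) hηH
    obtain ⟨c, hc⟩ := inner_char_nat (isCharacter_of_irr h1G) hηc
    refine ⟨(a : ℤ) - d * b + d * c, ?_⟩
    rw [hform η (char_classFun hηc), ha, hb, hc, hd]
    push_cast
    ring
  obtain ⟨η₀, hη₀, hcase⟩ := pm_irr χ hχcf hint hnorm
  rcases hcase with h | h
  · refine ⟨χ, ?_, hχH, hχoff⟩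
    rw [h]
    exact hη₀
  · exfalso
    obtain ⟨e, hepos, he⟩ := irr_one_pos hη₀
    have h1 : χ 1 = φ 1 := hχH 1
    rw [h, Pi.neg_apply, he, hd] at h1
    have h2 : ((e : ℤ) : ℂ) + ((d : ℤ) : ℂ) = 0 := by
      push_cast
      linear_combination -h1
    have h3 : (e : ℤ) + d = 0 := by exact_mod_cast h2
    omega

theorem result {G : Type*} [Group G] [Finite G] (H : Subgroup G) (hH : Cfsg.IsFrobeniusComplement H) :
    ∃ N : Subgroup G, (N : Set G) = Cfsg.frobeniusKernel H ∧ N.Normal ∧ Subgroup.IsComplement' N H := by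
  classical
  have _i : Fintype G := Fintype.ofFinite G
  have _j : Fintype H := Fintype.ofFinite H
  have hcount := (Cfsg.Agent.S0034.result H hH).1
  obtain ⟨hb, htop, hTI0⟩ := hH
  have hTI : ∀ g : G, g ∉ H → ∀ h ∈ H, g⁻¹ * h * g ∈ H → h = 1 := by
    intro g hg h hh hmem
    have h1 := hTI0 g hg
    have h2 : h ∈ MulAut.conj g • H := (Cfsg.Agent.S0034.mem_conj_smul' H g h).2 hmem
    have h3 : h ∈ H ⊓ MulAut.conj g • H := Subgroup.mem_inf.2 ⟨hh, h2⟩
    rw [h1, Subgroup.mem_bot] at h3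
    exact h3
  let S : Set (Σ n : ℕ, Representation ℂ G (Fin n → ℂ)) :=
    {p | ∀ g : G, (∀ x : G, x⁻¹ * g * x ∉ H) → p.2.character g = p.2.character 1}
  let N : Subgroup G := ⨅ p : S, MonoidHom.ker p.1.2
  have hNmem : ∀ x : G, x ∈ N ↔ ∀ p : S, p.1.2 x = 1 := by
    intro x
    simp only [N, Subgroup.mem_iInf, MonoidHom.mem_ker]
  have hNnormal : N.Normal := Subgroup.normal_iInf_normal (fun p => MonoidHom.normal_ker _)
  have hKN : ∀ x : G, x ∈ Cfsg.frobeniusKernel H → x ∈ N := by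
    intro x hx
    rcases hx with rfl | hx
    · exact N.one_mem
    · rw [hNmem]
      intro p
      have h1 : ∀ g : G, g⁻¹ * x * g ∉ H := fun g hg =>
        hx g ((Cfsg.Agent.S0034.mem_conj_smul' H g x).2 hg)
      have h2 := p.2 x h1
      have h3 : p.1.2.character 1 = (Module.finrank ℂ (Fin p.1.1 → ℂ) : ℂ) :=
        Representation.char_one p.1.2
      rw [h3] at h2
      exact (Cfsg.Agent.S0139.result p.1.2 x).mp h2
  have hNH : ∀ h : G, h ∈ N → h ∈ H → h = 1 := by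
    intro h hN hh
    have _k : Fintype (Cfsg.IrrCharacter H) := Fintype.ofFinite _
    have hφ : ∀ φ : Cfsg.IrrCharacter H, (φ : H → ℂ) ⟨h, hh⟩ = (φ : H → ℂ) 1 := by
      intro φ
      obtain ⟨χ, hχirr, hχH, hχoff⟩ := frob_ext H hTI φ.1 φ.2
      obtain ⟨n, ρ, _, hρ⟩ := hχirr
      have hχ1 : χ 1 = φ.1 1 := hχH 1
      have hS : (⟨n, ρ⟩ : Σ n : ℕ, Representation ℂ G (Fin n → ℂ)) ∈ S := by
        intro g hg
        show ρ.character g = ρ.character 1
        rw [hρ, hχoff g hg, hχ1]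
      have h1 := (hNmem h).mp hN ⟨⟨n, ρ⟩, hS⟩
      have h2 : ρ.character h = ρ.character 1 := by
        show LinearMap.trace ℂ _ (ρ h) = LinearMap.trace ℂ _ (ρ 1)
        rw [show ρ h = 1 from h1, show ρ 1 = 1 from map_one ρ]
      rw [hρ] at h2
      rw [← hχH ⟨h, hh⟩, ← hχ1]
      exact h2
    have hc1 := column_orth (G := H) (⟨h, hh⟩ : H) 1
    have hc2 := column_orth (G := H) (1 : H) 1
    have e : ∑ χ : Cfsg.IrrCharacter H, (χ : H → ℂ) ⟨h, hh⟩ * conj ((χ : H → ℂ) 1) =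
        ∑ χ : Cfsg.IrrCharacter H, (χ : H → ℂ) 1 * conj ((χ : H → ℂ) 1) :=
      Finset.sum_congr rfl (fun φ _ => by rw [hφ φ])
    rw [e, hc2] at hc1
    have h3 : Nat.card {y : H // y * 1 * y⁻¹ = 1} =
        Nat.card {y : H // y * ⟨h, hh⟩ * y⁻¹ = 1} := by exact_mod_cast hc1
    have h4 : 0 < Nat.card {y : H // y * 1 * y⁻¹ = 1} := by
      have : Nonempty {y : H // y * 1 * y⁻¹ = 1} := ⟨⟨1, by simp⟩⟩
      exact Nat.card_pos
    rw [h3] at h4
    have h5 : Nonempty {y : H // y * ⟨h, hh⟩ * y⁻¹ = 1} := (Nat.card_pos_iff.mp h4).1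
    obtain ⟨y, hy⟩ := h5
    have h6 : (⟨h, hh⟩ : H) = 1 := by
      have := congrArg (fun t => y⁻¹ * t * y) hy
      simpa [mul_assoc] using this
    exact congrArg Subtype.val h6
  have hNK : ∀ x : G, x ∈ N → x ∈ Cfsg.frobeniusKernel H := by
    intro x hx
    by_cases hx1 : x = 1
    · exact Or.inl hx1
    · right
      intro g hg
      have h1 : g⁻¹ * x * g ∈ H := (Cfsg.Agent.S0034.mem_conj_smul' H g x).1 hg
      have h2 : g⁻¹ * x * g ∈ N := by
        have := hNnormal.conj_mem x hx g⁻¹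
        simpa using this
      have h3 := hNH _ h2 h1
      apply hx1
      have := congrArg (fun t => g * t * g⁻¹) h3
      simpa [mul_assoc] using this
  have hset : (N : Set G) = Cfsg.frobeniusKernel H := Set.ext (fun x => ⟨hNK x, hKN x⟩)
  refine ⟨N, hset, hNnormal, ?_⟩
  apply Subgroup.isComplement'_of_card_mul_and_disjoint
  · have h1 : Nat.card N = H.index := by
      rw [← hcount, ← hset]
      rfl
    rw [h1, mul_comm]
    exact Subgroup.card_mul_index H
  · rw [Subgroup.disjoint_def]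
    intro x hxN hxH
    exact hNH x hxN hxH

end Cfsg.Agent.S0035
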