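import Mathlib
import Cfsg.Statements.S0068

set_option autoImplicit false
open Pointwise
open Cfsg

namespace Cfsg.Agent.S0068

/-- An involution acting without nontrivial fixed points on a finite normal subgroup inverts it. -/
theorem inverts {G : Type*} [Group G] [Finite G] (K : Subgroup G) [K.Normal] (s : G)
    (hss : s * s = 1) (hfix : K ⊓ Subgroup.centralizer {s} = ⊥) :
    ∀ k ∈ K, s * k * s⁻¹ = k⁻¹ := by
  have sinv : s⁻¹ = s := inv_eq_of_mul_eq_one_left hss
  let φ : K → K := fun k => ⟨(k : G)⁻¹ * (s * k * s⁻¹),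
    K.mul_mem (K.inv_mem k.2) (Subgroup.Normal.conj_mem inferInstance _ k.2 s)⟩
  have hinj : Function.Injective φ := by
    intro k l hkl
    have h1 : (k : G)⁻¹ * (s * k * s⁻¹) = (l : G)⁻¹ * (s * l * s⁻¹) := congrArg Subtype.val hkl
    have h2 : (l : G) * (k : G)⁻¹ ∈ K ⊓ Subgroup.centralizer {s} := by
      apply Subgroup.mem_inf.2
      refine ⟨K.mul_mem l.2 (K.inv_mem k.2), ?_⟩
      rw [Subgroup.mem_centralizer_iff]
      intro x hx
      rw [Set.mem_singleton_iff] at hx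
      subst hx
      have e1 : (l : G) * (k : G)⁻¹ * x = (l : G) * ((k : G)⁻¹ * (x * k * x⁻¹)) * x * (k : G)⁻¹ := by
        group
      rw [e1, h1]
      group
    rw [hfix, Subgroup.mem_bot] at h2
    apply Subtype.ext
    have e : (l : G) = (l : G) * (k : G)⁻¹ * k := by group
    rw [e, h2, one_mul]
  have hsurj : Function.Surjective φ := Finite.injective_iff_surjective.1 hinj
  intro k hk
  obtain ⟨m, hm⟩ := hsurj ⟨k, hk⟩
  have hm' : (m : G)⁻¹ * (s * m * s⁻¹) = k := congrArg Subtype.val hm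
  rw [← hm', sinv]
  have e1 : s * ((m : G)⁻¹ * (s * m * s)) * s = s * (m : G)⁻¹ * s * m * (s * s) := by group
  have e2 : ((m : G)⁻¹ * (s * m * s))⁻¹ = s⁻¹ * (m : G)⁻¹ * s⁻¹ * m := by group
  rw [e1, e2, hss, sinv, mul_one]

theorem result {G : Type*} [Group G] [Finite G] (K H : Subgroup G) [K.Normal]
    (hc : Subgroup.IsComplement' K H) (hK : K ≠ ⊥) (hfpf : ∀ h ∈ H, h ≠ 1 → K ⊓ Subgroup.centralizer {h} = ⊥)
    (heven : 2 ∣ Nat.card H) :
    (∃ s ∈ H, orderOf s = 2 ∧ (∀ t ∈ H, orderOf t = 2 → t = s) ∧ ∀ k ∈ K, s * k * s⁻¹ = k⁻¹) ∧ IsMulCommutative K := by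
  haveI : Fact (Nat.Prime 2) := ⟨Nat.prime_two⟩
  obtain ⟨s', hs'⟩ := exists_prime_orderOf_dvd_card' 2 heven
  set s : G := (s' : G) with hs
  have hsH : s ∈ H := s'.2
  have hord : orderOf s = 2 := by rw [hs, Subgroup.orderOf_coe]; exact hs'
  have key : ∀ t ∈ H, orderOf t = 2 → ∀ k ∈ K, t * k * t⁻¹ = k⁻¹ := by
    intro t ht hto
    have htt : t * t = 1 := by
      have := pow_orderOf_eq_one t
      rw [hto, pow_two] at this
      exact this
    have ht1 : t ≠ 1 := by
      intro h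
      rw [h, orderOf_one] at hto
      omega
    exact inverts K t htt (hfpf t ht ht1)
  have hsinv := key s hsH hord
  refine ⟨⟨s, hsH, hord, ?_, hsinv⟩, ?_⟩
  · intro t ht hto
    have htinv := key t ht hto
    by_contra hne
    have hne' : s⁻¹ * t ≠ 1 := by
      intro h
      apply hne
      have e : t = s * (s⁻¹ * t) := by group
      rw [e, h, mul_one]
    have h1 := hfpf (s⁻¹ * t) (H.mul_mem (H.inv_mem hsH) ht) hne'
    apply hK
    rw [eq_bot_iff, ← h1]
    intro k hk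
    apply Subgroup.mem_inf.2
    refine ⟨hk, ?_⟩
    rw [Subgroup.mem_centralizer_iff]
    intro x hx
    rw [Set.mem_singleton_iff] at hx
    subst hx
    have h2 := htinv k hk
    have h3 := hsinv k hk
    have h4 : t * k * t⁻¹ = s * k * s⁻¹ := h2.trans h3.symm
    calc s⁻¹ * t * k = s⁻¹ * (t * k * t⁻¹) * t := by group
      _ = s⁻¹ * (s * k * s⁻¹) * t := by rw [h4]
      _ = k * (s⁻¹ * t) := by group
  · refine ⟨⟨fun a b => ?_⟩⟩
    apply Subtype.ext
    show (a : G) * b = b * a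
    have h1 := hsinv _ (K.mul_mem a.2 b.2)
    have h2 := hsinv _ a.2
    have h3 := hsinv _ b.2
    have h4 : s * ((a : G) * b) * s⁻¹ = (s * a * s⁻¹) * (s * b * s⁻¹) := by group
    rw [h4, h2, h3] at h1
    have h5 : ((a : G)⁻¹ * (b : G)⁻¹)⁻¹ = (((a : G) * b)⁻¹)⁻¹ := by rw [h1]
    rw [inv_inv, mul_inv_rev, inv_inv, inv_inv] at h5
    exact h5.symm

end Cfsg.Agent.S0068
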