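import Mathlib
import Cfsg.Statements.S0096

set_option autoImplicit false
open Pointwise
open Cfsg
open scoped commutatorElement

namespace Cfsg.Agent.S0096

theorem comm_pow {P : Type*} [Group P] (hcz : ∀ x y : P, ⁅x, y⁆ ∈ Subgroup.center P)
    (x y : P) (k : ℕ) : ⁅x ^ k, y⁆ = ⁅x, y⁆ ^ k := by
  induction k with
  | zero => simp
  | succ k ih =>
    have e : ⁅x ^ (k + 1), y⁆ = (x * ⁅x ^ k, y⁆ * x⁻¹) * ⁅x, y⁆ := by
      rw [pow_succ', commutatorElement_def, commutatorElement_def, commutatorElement_def]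
      group
    have hc : x * ⁅x ^ k, y⁆ * x⁻¹ = ⁅x ^ k, y⁆ := by
      have h1 := Subgroup.mem_center_iff.1 (hcz (x ^ k) y) x
      rw [h1, mul_inv_cancel_right]
    rw [e, hc, ih, pow_succ]

theorem pow_mul_aux {P : Type*} [Group P] (x y c : P) (hc : ∀ g : P, g * c = c * g)
    (hyx : y * x = c * x * y) (n : ℕ) : y ^ n * x = c ^ n * x * y ^ n := by
  induction n with
  | zero => simp
  | succ n ih =>
    have hcn : ∀ g : P, g * c ^ n = c ^ n * g :=
      fun g => ((show Commute g c from hc g).pow_right n).eq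
    calc y ^ (n + 1) * x = y * (y ^ n * x) := by rw [pow_succ', mul_assoc]
      _ = y * (c ^ n * x * y ^ n) := by rw [ih]
      _ = (y * c ^ n) * x * y ^ n := by simp only [mul_assoc]
      _ = c ^ n * (y * x) * y ^ n := by rw [hcn y]; simp only [mul_assoc]
      _ = c ^ n * (c * x * y) * y ^ n := by rw [hyx]
      _ = c ^ (n + 1) * x * y ^ (n + 1) := by rw [pow_succ, pow_succ']; simp only [mul_assoc]

theorem mul_pow_aux {P : Type*} [Group P] (x y c : P) (hc : ∀ g : P, g * c = c * g)
    (hyx : y * x = c * x * y) (n : ℕ) : (x * y) ^ n = c ^ (n.choose 2) * x ^ n * y ^ n := by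
  induction n with
  | zero => simp
  | succ n ih =>
    have hcn : ∀ (g : P) (k : ℕ), g * c ^ k = c ^ k * g :=
      fun g k => ((show Commute g c from hc g).pow_right k).eq
    have hch : (n + 1).choose 2 = n.choose 2 + n := by
      rw [show 2 = 1 + 1 from rfl, Nat.choose_succ_succ', Nat.choose_one_right, add_comm]
    calc (x * y) ^ (n + 1) = (x * y) ^ n * (x * y) := pow_succ _ _
      _ = c ^ (n.choose 2) * x ^ n * y ^ n * (x * y) := by rw [ih]
      _ = c ^ (n.choose 2) * x ^ n * (y ^ n * x) * y := by simp only [mul_assoc]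
      _ = c ^ (n.choose 2) * x ^ n * (c ^ n * x * y ^ n) * y := by
          rw [pow_mul_aux x y c hc hyx n]
      _ = c ^ (n.choose 2) * (x ^ n * c ^ n) * x * y ^ n * y := by simp only [mul_assoc]
      _ = c ^ (n.choose 2) * (c ^ n * x ^ n) * x * y ^ n * y := by rw [hcn (x ^ n) n]
      _ = (c ^ (n.choose 2) * c ^ n) * (x ^ n * x) * (y ^ n * y) := by simp only [mul_assoc]
      _ = c ^ ((n + 1).choose 2) * x ^ (n + 1) * y ^ (n + 1) := by
          rw [← pow_add, ← pow_succ, ← pow_succ, hch]

theorem result {P : Type*} [Group P] [Finite P] {p : ℕ} [Fact p.Prime] (hp : p ≠ 2) (hP : IsPGroup p P) (h2 : ⁅commutator P, (⊤ : Subgroup P)⁆ = ⊥) (g : P) (hg : g ∈ Subgroup.closure {x : P | x ^ p = 1}) : g ^ p = 1 := by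
  have hpp : p.Prime := Fact.out
  have hcz : ∀ x y : P, ⁅x, y⁆ ∈ Subgroup.center P := by
    intro x y
    have h1 : commutator P ≤ Subgroup.centralizer ((⊤ : Subgroup P) : Set P) :=
      Subgroup.commutator_eq_bot_iff_le_centralizer.1 h2
    have h3 : ⁅x, y⁆ ∈ commutator P := by
      rw [commutator_eq_closure]
      exact Subgroup.subset_closure ⟨x, y, rfl⟩
    have h4 := h1 h3
    rw [Subgroup.mem_centralizer_iff] at h4
    rw [Subgroup.mem_center_iff]
    intro g
    exact h4 g (Subgroup.mem_top g)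
  have hchoose : p ∣ p.choose 2 := by
    apply Nat.Prime.dvd_choose_self hpp (by norm_num)
    have := hpp.two_le
    omega
  let T : Subgroup P :=
    { carrier := {w | w ^ p = 1}
      mul_mem' := by
        intro x y hx hy
        have hx' : x ^ p = 1 := hx
        have hy' : y ^ p = 1 := hy
        have hc : ∀ g : P, g * ⁅y, x⁆ = ⁅y, x⁆ * g :=
          fun g => Subgroup.mem_center_iff.1 (hcz y x) g
        have hyx : y * x = ⁅y, x⁆ * x * y := by rw [commutatorElement_def]; group
        have hcp : ⁅y, x⁆ ^ p = 1 := by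
          rw [← comm_pow hcz, hy', commutatorElement_def]; group
        obtain ⟨m, hm⟩ := hchoose
        show (x * y) ^ p = 1
        rw [mul_pow_aux x y ⁅y, x⁆ hc hyx p, hx', hy', hm, pow_mul, hcp, one_pow, one_mul, one_mul]
      one_mem' := one_pow _
      inv_mem' := by
        intro a ha
        have ha' : a ^ p = 1 := ha
        show a⁻¹ ^ p = 1
        rw [inv_pow, ha', inv_one] }
  have hle : Subgroup.closure {x : P | x ^ p = 1} ≤ T := by
    rw [Subgroup.closure_le]
    intro x hx
    exact hx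
  exact hle hg

end Cfsg.Agent.S0096
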