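import Cfsg.Statements.S0120
import Mathlib
import Cfsg.Agent.S2910

set_option autoImplicit false
open Cfsg

namespace Cfsg.Agent.S0120

theorem result {G : Type*} [Group G] [Finite G] {p : ℕ} [Fact p.Prime] (hp : p ≠ 2) (hG : IsPGroup p G) (a : MulAut G) (ha : Nat.Coprime (orderOf a) p) (h : ∀ x : G, x ^ p = 1 → a x = x) : a = 1 := by
  haveI hfa : Finite (MulAut G) :=
    Finite.of_injective (fun e : MulAut G => (e : G → G)) DFunLike.coe_injective
  haveI hfs : Finite (G ⋊[MonoidHom.id (MulAut G)] MulAut G) :=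
    Finite.of_equiv _ SemidirectProduct.equivProd.symm
  obtain ⟨Q, hQ⟩ : ∃ Q : Subgroup (G ⋊[MonoidHom.id (MulAut G)] MulAut G),
      Q = (SemidirectProduct.inl : G →* G ⋊[MonoidHom.id (MulAut G)] MulAut G).range := ⟨_, rfl⟩
  obtain ⟨g, hg⟩ : ∃ g : G ⋊[MonoidHom.id (MulAut G)] MulAut G,
      g = SemidirectProduct.inr a := ⟨_, rfl⟩
  have hgm : g ^ orderOf a = 1 := by
    rw [hg, ← map_pow, pow_orderOf_eq_one, map_one]
  have hQp : IsPGroup p Q := by
    rw [hQ]
    exact hG.of_surjective _ (MonoidHom.rangeRestrict_surjective _)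
  have hQn : Q.Normal := by
    rw [hQ, SemidirectProduct.range_inl_eq_ker_rightHom]
    infer_instance
  have hgQ : g ∈ Subgroup.normalizer (Q : Set (G ⋊[MonoidHom.id (MulAut G)] MulAut G)) := by
    rw [Subgroup.normalizer_eq_top_iff.2 hQn]
    exact Subgroup.mem_top g
  have hconj : ∀ y : G, (SemidirectProduct.inl (a y) : G ⋊[MonoidHom.id (MulAut G)] MulAut G) =
      g * SemidirectProduct.inl y * g⁻¹ := by
    intro y
    have h1 := SemidirectProduct.inl_aut (φ := MonoidHom.id (MulAut G)) a y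
    rw [hg, ← map_inv]
    exact h1
  have key := Cfsg.Agent.S2910.autA hp g (orderOf a) ha hgm _ Q rfl hQp hgQ (by
    intro x hx hyp
    rw [hQ] at hx
    obtain ⟨y, rfl⟩ := hx
    have hy : y ^ p = 1 := by
      apply SemidirectProduct.inl_injective (φ := MonoidHom.id (MulAut G))
      rw [map_pow, hyp, map_one]
    have h1 := hconj y
    rw [h y hy] at h1
    calc SemidirectProduct.inl y * g = (g * SemidirectProduct.inl y * g⁻¹) * g := by rw [← h1]
      _ = g * SemidirectProduct.inl y := by group)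
  ext y
  have h3 := key (SemidirectProduct.inl y) (by rw [hQ]; exact ⟨y, rfl⟩)
  have h1 := hconj y
  apply SemidirectProduct.inl_injective (φ := MonoidHom.id (MulAut G))
  rw [h1, ← h3]
  simp

end Cfsg.Agent.S0120
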