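import Mathlib
import Cfsg.Statements.S0159
import Cfsg.Agent.Lib.Helper3.CharGal
import Cfsg.Agent.Lib.Helper3.CharEig
import Cfsg.Agent.Lib.Helper3.CharLinear

set_option autoImplicit false
open Cfsg
open scoped ComplexConjugate
open Cfsg.Agent.Lib.Helper3.Char Cfsg.Agent.Lib.Helper3.CharCore Cfsg.Agent.Lib.Helper3.CharInt Cfsg.Agent.Lib.Helper3.CharEig Cfsg.Agent.Lib.Helper3.CharArith Cfsg.Agent.Lib.Helper3.CharLinear

namespace Cfsg.Agent.S0159

theorem result {G : Type*} [Group G] [Fintype G] : (Nat.card {s : G // s * s = 1} : ℂ) = ∑ᶠ χ : Cfsg.IrrCharacter G, ((Nat.card G : ℂ)⁻¹ * ∑ s : G, (χ : G → ℂ) (s * s)) * (χ : G → ℂ) 1 := by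
  classical
  have _j : Fintype (Cfsg.IrrCharacter G) := Fintype.ofFinite _
  rw [finsum_eq_sum_of_fintype]
  let θ : G → ℂ := fun g => ∑ s : G, if s * s = g then (1 : ℂ) else 0
  have hcf : Cfsg.IsClassFunction G θ := by
    intro g k
    change ∑ s : G, (if s * s = k * g * k⁻¹ then (1 : ℂ) else 0) =
      ∑ s : G, if s * s = g then (1 : ℂ) else 0
    rw [← Equiv.sum_comp (MulAut.conj k).toEquiv
      (fun s => if s * s = k * g * k⁻¹ then (1 : ℂ) else 0)]
    refine Finset.sum_congr rfl (fun s _ => ?_)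
    have e : ((MulAut.conj k).toEquiv s * (MulAut.conj k).toEquiv s = k * g * k⁻¹) ↔ s * s = g := by
      have h1 : (MulAut.conj k).toEquiv s * (MulAut.conj k).toEquiv s = k * (s * s) * k⁻¹ := by
        simp [mul_assoc]
      rw [h1]
      constructor
      · intro h
        have := congrArg (fun t => k⁻¹ * t * k) h
        simpa [mul_assoc] using this
      · intro h
        rw [h]
    simp only [e]
  have hinner : ∀ χ : Cfsg.IrrCharacter G, Cfsg.classInner θ χ =
      (Nat.card G : ℂ)⁻¹ * ∑ s : G, conj ((χ : G → ℂ) (s * s)) := by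
    intro χ
    unfold Cfsg.classInner
    congr 1
    have h1 : ∀ g : G, θ g * conj ((χ : G → ℂ) g) =
        ∑ s : G, if s * s = g then conj ((χ : G → ℂ) (s * s)) else 0 := by
      intro g
      change (∑ s : G, if s * s = g then (1 : ℂ) else 0) * conj ((χ : G → ℂ) g) = _
      rw [Finset.sum_mul]
      refine Finset.sum_congr rfl (fun s _ => ?_)
      split_ifs with hs
      · rw [one_mul, hs]
      · rw [zero_mul]
    rw [Finset.sum_congr rfl (fun g _ => h1 g), Finset.sum_comm]
    refine Finset.sum_congr rfl (fun s _ => ?_)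
    rw [Finset.sum_ite_eq, if_pos (Finset.mem_univ _)]
  have h2 := congrFun (class_fun_expand θ hcf) 1
  simp only [Finset.sum_apply, Pi.smul_apply, smul_eq_mul] at h2
  have h3 : θ 1 = (Nat.card {s : G // s * s = 1} : ℂ) := by
    change ∑ s : G, (if s * s = 1 then (1 : ℂ) else 0) = _
    rw [Finset.sum_boole, Nat.card_eq_fintype_card, Fintype.card_subtype]
  rw [h3] at h2
  have h4 := congrArg conj h2
  rw [Complex.conj_natCast, map_sum] at h4
  rw [h4]
  refine Finset.sum_congr rfl (fun χ _ => ?_)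
  rw [hinner χ, map_mul, map_mul, map_inv₀, Complex.conj_natCast, map_sum]
  obtain ⟨n, -, hn⟩ := irr_one_pos χ.2
  rw [hn, Complex.conj_natCast]
  simp only [Complex.conj_conj]

end Cfsg.Agent.S0159
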