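import Cfsg.Statements.S4252

import Mathlib

set_option autoImplicit false
open Cfsg
open scoped Pointwise

namespace Cfsg.Agent.S4252

theorem aux_mem {G Ω : Type*} [Group G] [MulAction G Ω] (α : Ω) (g x : G) :
    x ∈ MulAut.conj g • MulAction.stabilizer G α ↔ x • (g • α) = g • α := by
  rw [Subgroup.mem_pointwise_smul_iff_inv_smul_mem]
  have e : (MulAut.conj g)⁻¹ • x = g⁻¹ * x * g := by simp [MulAut.smul_def]
  rw [e, MulAction.mem_stabilizer_iff, mul_smul, mul_smul, inv_smul_eq_iff]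

theorem result {G Ω : Type*} [Group G] [Finite G] [Fintype Ω] [MulAction G Ω] (hΩ : 1 < Fintype.card Ω)
    (htrans : ∀ α β : Ω, ∃ g : G, g • α = β) (hnreg : ∃ g : G, g ≠ 1 ∧ ∃ α : Ω, g • α = α)
    (hfix : ∀ g : G, g ≠ 1 → ∀ α β : Ω, g • α = α → g • β = β → α = β) (α : Ω) :
    Cfsg.IsFrobeniusComplement (MulAction.stabilizer G α) ∧
      Cfsg.frobeniusKernel (MulAction.stabilizer G α) = {g : G | g = 1 ∨ ∀ ω : Ω, g • ω ≠ ω} := by
  refine ⟨⟨?_, ?_, ?_⟩, ?_⟩
  · obtain ⟨g, hg1, β, hgβ⟩ := hnreg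
    obtain ⟨k, hk⟩ := htrans α β
    intro hbot
    have hmem : k⁻¹ * g * k ∈ MulAction.stabilizer G α := by
      rw [MulAction.mem_stabilizer_iff, mul_smul, mul_smul, hk, hgβ, ← hk, inv_smul_smul]
    rw [hbot, Subgroup.mem_bot] at hmem
    apply hg1
    calc g = k * (k⁻¹ * g * k) * k⁻¹ := by group
      _ = 1 := by rw [hmem]; group
  · intro htop
    obtain ⟨β, hβ⟩ : ∃ β, β ≠ α := Fintype.exists_ne_of_one_lt_card hΩ α
    obtain ⟨g, hg⟩ := htrans α β
    have hmem : g ∈ MulAction.stabilizer G α := by rw [htop]; trivial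
    rw [MulAction.mem_stabilizer_iff] at hmem
    exact hβ (hg.symm.trans hmem)
  · intro g hg
    rw [eq_bot_iff]
    intro x hx
    rw [Subgroup.mem_bot]
    by_contra hx1
    obtain ⟨h1, h2⟩ := hx
    have h2' := (aux_mem α g x).mp h2
    have h1' : x • α = α := MulAction.mem_stabilizer_iff.mp h1
    exact hg (MulAction.mem_stabilizer_iff.mpr (hfix x hx1 α (g • α) h1' h2').symm)
  · ext x
    simp only [Cfsg.frobeniusKernel, Set.mem_setOf_eq]
    constructor
    · rintro (h | h)
      · left; exact h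
      · right
        intro ω
        obtain ⟨g, rfl⟩ := htrans α ω
        intro hfixed
        exact h g ((aux_mem α g x).mpr hfixed)
    · rintro (h | h)
      · left; exact h
      · right
        intro g hmem
        exact h (g • α) ((aux_mem α g x).mp hmem)

end Cfsg.Agent.S4252
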