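import Cfsg.Statements.S0338
import Mathlib
import Cfsg.Agent.S0035
import Cfsg.Agent.S4252
import Cfsg.Agent.S3383

set_option autoImplicit false
open Cfsg

namespace Cfsg.Agent.S0338

open scoped Pointwise

theorem frob_action {L Ω' : Type*} [Group L] [Finite L] [Fintype Ω'] [MulAction L Ω']
    (hΩ : 1 < Fintype.card Ω')
    (htrans : ∀ α β : Ω', ∃ g : L, g • α = β) (hnreg : ∃ g : L, g ≠ 1 ∧ ∃ α : Ω', g • α = α)
    (hfix : ∀ g : L, g ≠ 1 → ∀ α β : Ω', g • α = α → g • β = β → α = β) :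
    ∃ K : Subgroup L, K.Characteristic ∧ (∀ x : L, x ∈ K ↔ (x = 1 ∨ ∀ ω : Ω', x • ω ≠ ω)) ∧
      Nat.card K = Fintype.card Ω' ∧ (∀ N : Subgroup L, N.Normal → K ≤ N ∨ N ≤ K) ∧
      ∀ α β : Ω', ∃ k ∈ K, k • α = β := by
  classical
  obtain ⟨α0⟩ : Nonempty Ω' := by
    rw [← Fintype.card_pos_iff]; omega
  obtain ⟨hFC, hker⟩ := Cfsg.Agent.S4252.result hΩ htrans hnreg hfix α0
  obtain ⟨K, hK, hKn, hKc⟩ := Cfsg.Agent.S0035.result _ hFC
  obtain ⟨hchar, hcomp⟩ := Cfsg.Agent.S3383.result _ hFC K hK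
  have hmem : ∀ x : L, x ∈ K ↔ (x = 1 ∨ ∀ ω : Ω', x • ω ≠ ω) := by
    intro x
    rw [← SetLike.mem_coe, hK, hker]
    rfl
  haveI : MulAction.IsPretransitive L Ω' := ⟨htrans⟩
  have hcard : Nat.card K = Fintype.card Ω' := by
    have h1 := hKc.card_mul
    have h2 := Subgroup.card_mul_index (MulAction.stabilizer L α0)
    have h3 := MulAction.index_stabilizer_of_transitive L α0
    rw [h3] at h2
    rw [← h2, mul_comm] at h1
    have h4 : 0 < Nat.card (MulAction.stabilizer L α0) := Nat.card_pos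
    rw [← Nat.card_eq_fintype_card]
    exact Nat.eq_of_mul_eq_mul_left h4 h1
  refine ⟨K, hchar, hmem, hcard, hcomp, ?_⟩
  intro α β
  have hinj : Function.Injective (fun k : K => (k : L) • α) := by
    intro k1 k2 h12
    simp only at h12
    have h3 : ((k1 : L)⁻¹ * (k2 : L)) • α = α := by
      rw [mul_smul, ← h12, inv_smul_smul]
    have h4 : ((k1 : L)⁻¹ * (k2 : L)) ∈ K := K.mul_mem (K.inv_mem k1.2) k2.2
    rcases (hmem _).mp h4 with h5 | h5
    · exact Subtype.ext (inv_mul_eq_one.mp h5)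
    · exact absurd h3 (h5 α)
  have hbij : Function.Bijective (fun k : K => (k : L) • α) :=
    hinj.bijective_of_nat_card_le (by rw [hcard, Nat.card_eq_fintype_card])
  obtain ⟨k, hk⟩ := hbij.2 β
  exact ⟨k, k.2, hk⟩

theorem inv_fix {G Ω : Type*} [Group G] [MulAction G Ω] [Fintype Ω]
    (hodd : Odd (Fintype.card Ω)) (t : G) (ht : t * t = 1) :
    (∃ c : Ω, t • c = c) ∧
      (∀ a b : Ω, a ≠ b → t • a = a → t • b = b → ∃ c : Ω, c ≠ a ∧ c ≠ b ∧ t • c = c) := by
  classical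
  let f : Function.End Ω := fun x => t • x
  have hf : f ^ 2 ^ 1 = 1 := by
    funext x
    show (f ^ 2 ^ 1) x = x
    rw [pow_one, pow_two]
    show t • (t • x) = x
    rw [← mul_smul, ht, one_smul]
  haveI : Fact (Nat.Prime 2) := ⟨Nat.prime_two⟩
  have hmod := Equiv.Perm.card_fixedPoints_modEq (p := 2) (n := 1) hf
  have hoddF : Odd (Fintype.card (Function.fixedPoints f)) := by
    rw [Nat.odd_iff] at hodd ⊢
    rw [← hmod]
    exact hodd
  have hFmem : ∀ x : Ω, x ∈ Function.fixedPoints f ↔ t • x = x := fun x => Iff.rfl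
  constructor
  · have hpos : 0 < Fintype.card (Function.fixedPoints f) := hoddF.pos
    obtain ⟨⟨c, hc⟩⟩ := Fintype.card_pos_iff.mp hpos
    exact ⟨c, (hFmem c).mp hc⟩
  · intro a b hab hta htb
    by_contra hcon
    push Not at hcon
    have hF : Function.fixedPoints f = {a, b} := by
      ext x
      rw [hFmem]
      constructor
      · intro hx
        by_contra hx2
        simp only [Set.mem_insert_iff, Set.mem_singleton_iff, not_or] at hx2
        exact hcon x hx2.1 hx2.2 hx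
      · rintro (rfl | hx)
        · exact hta
        · rw [Set.mem_singleton_iff] at hx
          rw [hx]; exact htb
    have hc2 : Fintype.card (Function.fixedPoints f) = 2 := by
      rw [← Nat.card_eq_fintype_card, hF, Nat.card_coe_set_eq, Set.ncard_pair hab]
    rw [hc2] at hoddF
    exact absurd hoddF (by decide)

theorem ntrans {G Ω : Type*} [Group G] [MulAction G Ω] [FaithfulSMul G Ω]
    (h2 : ∀ a b c d : Ω, a ≠ b → c ≠ d → ∃ g : G, g • a = c ∧ g • b = d)
    (N : Subgroup G) (hNn : N.Normal) (hN : N ≠ ⊥) : ∀ a b : Ω, ∃ x ∈ N, x • a = b := by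
  obtain ⟨x, hxN, hx1⟩ : ∃ x ∈ N, x ≠ 1 := by
    by_contra hcon
    push Not at hcon
    exact hN ((Subgroup.eq_bot_iff_forall N).mpr hcon)
  obtain ⟨a0, ha0⟩ : ∃ a0 : Ω, x • a0 ≠ a0 := by
    by_contra hcon
    push Not at hcon
    apply hx1
    apply FaithfulSMul.eq_of_smul_eq_smul (α := Ω)
    intro a
    rw [hcon a, one_smul]
  intro a b
  by_cases hab : a = b
  · exact ⟨1, N.one_mem, by rw [one_smul, hab]⟩
  obtain ⟨g, hg1, hg2⟩ := h2 a0 (x • a0) a b (Ne.symm ha0) hab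
  refine ⟨g * x * g⁻¹, hNn.conj_mem x hxN g, ?_⟩
  rw [mul_smul, mul_smul, ← hg1, inv_smul_smul, hg2]

theorem inv_gen {G Ω : Type*} [Group G] [Finite G] [MulAction G Ω] [Fintype Ω]
    (hodd : Odd (Fintype.card Ω))
    (h3 : ∀ g : G, ∀ a b c : Ω, a ≠ b → b ≠ c → a ≠ c → g • a = a → g • b = b → g • c = c → g = 1)
    (N : Subgroup G) (hNn : N.Normal) (t : G) (htN : t ∈ N) (ht : t * t = 1) (a : Ω)
    (hta : t • a ≠ a) : ∀ h : G, h • a = a → h • (t • a) = t • a → h ∈ N := by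
  classical
  obtain ⟨b, hb⟩ : ∃ b : Ω, b = t • a := ⟨_, rfl⟩
  rw [← hb]
  have htb : t • b = a := by rw [hb, ← mul_smul, ht, one_smul]
  have hab : a ≠ b := by rw [hb]; exact Ne.symm hta
  obtain ⟨⟨c, hc⟩, hfix2⟩ := inv_fix hodd t ht
  have ht1 : t ≠ 1 := by
    intro h; apply hta; rw [h, one_smul]
  have hca : c ≠ a := by
    intro h; rw [h] at hc; exact hta hc
  have hcb : c ≠ b := by
    intro h; rw [h, htb] at hc; exact hab hc
  have huniq : ∀ d : Ω, t • d = d → d = c := by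
    intro d hd
    by_contra hdc
    obtain ⟨e, he1, he2, he3⟩ := hfix2 c d (Ne.symm hdc) hc hd
    exact ht1 (h3 t c d e (Ne.symm hdc) (Ne.symm he2) (Ne.symm he1) hc hd he3)
  let H : Subgroup G := MulAction.stabilizer G a ⊓ MulAction.stabilizer G b
  have hHmem : ∀ x : G, x ∈ H ↔ x • a = a ∧ x • b = b := by
    intro x
    simp only [H, Subgroup.mem_inf, MulAction.mem_stabilizer_iff]
  have hφ : ∀ x : G, x ∈ H → x⁻¹ * t * x * t ∈ H := by
    intro x hx
    obtain ⟨hxa, hxb⟩ := (hHmem x).mp hx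
    rw [hHmem]
    constructor
    · rw [mul_smul, mul_smul, mul_smul, ← hb, hxb, htb, inv_smul_eq_iff, hxa]
    · rw [mul_smul, mul_smul, mul_smul, htb, hxa, ← hb, inv_smul_eq_iff, hxb]
  let φ : H → H := fun x => ⟨(x : G)⁻¹ * t * x * t, hφ x x.2⟩
  have hinj : Function.Injective φ := by
    intro x y hxy
    have h1 : (x : G)⁻¹ * t * x * t = (y : G)⁻¹ * t * y * t := congrArg Subtype.val hxy
    have h2 : (x : G)⁻¹ * t * x = (y : G)⁻¹ * t * y := mul_right_cancel h1
    have h4 : ((y : G) * (x : G)⁻¹) * t = t * ((y : G) * (x : G)⁻¹) := by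
      have e1 : (y : G) * ((x : G)⁻¹ * t * x) * (x : G)⁻¹ = (y : G) * ((y : G)⁻¹ * t * y) * (x : G)⁻¹ := by
        rw [h2]
      have e2 : (y : G) * ((x : G)⁻¹ * t * x) * (x : G)⁻¹ = ((y : G) * (x : G)⁻¹) * t := by group
      have e3 : (y : G) * ((y : G)⁻¹ * t * y) * (x : G)⁻¹ = t * ((y : G) * (x : G)⁻¹) := by group
      rw [← e2, ← e3]; exact e1
    have h5 : ((y : G) * (x : G)⁻¹) • c = c := by
      apply huniq
      rw [← mul_smul, ← h4, mul_smul, hc]
    obtain ⟨hxa, hxb⟩ := (hHmem x).mp x.2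
    obtain ⟨hya, hyb⟩ := (hHmem y).mp y.2
    have h6 : ((y : G) * (x : G)⁻¹) • a = a := by
      rw [mul_smul, inv_smul_eq_iff.mpr hxa.symm, hya]
    have h7 : ((y : G) * (x : G)⁻¹) • b = b := by
      rw [mul_smul, inv_smul_eq_iff.mpr hxb.symm, hyb]
    have h8 := h3 _ a b c hab (Ne.symm hcb) (Ne.symm hca) h6 h7 h5
    exact Subtype.ext (mul_inv_eq_one.mp h8).symm
  have hsurj : Function.Surjective φ := Finite.injective_iff_surjective.mp hinj
  intro h hha hhb
  obtain ⟨x, hx⟩ := hsurj ⟨h, (hHmem h).mpr ⟨hha, hhb⟩⟩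
  have hx' : (x : G)⁻¹ * t * x * t = h := congrArg Subtype.val hx
  rw [← hx']
  apply N.mul_mem _ htN
  have := hNn.conj_mem t htN (x : G)⁻¹
  simpa using this

/-- A Zassenhaus group of odd degree is a simple group. -/
theorem result {G Ω : Type*} [Group G] [MulAction G Ω] [Fintype Ω]
    (hZ : Cfsg.IsZassenhausGroup G Ω) (hodd : Odd (Fintype.card Ω)) : IsSimpleGroup G := by
  classical
  obtain ⟨hfaith, h2t, h3, ⟨g0, hg0, a0, b0, hab0, hga0, hgb0⟩, hreg⟩ := hZ
  haveI := hfaith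
  haveI : Finite G := Finite.of_injective _ (MulAction.toPerm_injective (α := G) (β := Ω))
  have h2 : ∀ a b c d : Ω, a ≠ b → c ≠ d → ∃ g : G, g • a = c ∧ g • b = d := by
    intro a b c d hab hcd
    exact (MulAction.is_two_pretransitive_iff.mp h2t) hab hcd
  have hn3 : 3 ≤ Fintype.card Ω := by
    have h2' : 1 < Fintype.card Ω := Fintype.one_lt_card_iff.mpr ⟨a0, b0, hab0⟩
    obtain ⟨m, hm⟩ := hodd
    omega
  refine { exists_pair_ne := ⟨g0, 1, hg0⟩, eq_bot_or_eq_top_of_normal := ?_ }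
  intro N hNn
  by_cases hN : N = ⊥
  · exact Or.inl hN
  right
  have hNt := ntrans h2 N hNn hN
  haveI hNpt : MulAction.IsPretransitive N Ω := ⟨fun x y => by
    obtain ⟨n, hn, hxy⟩ := hNt x y
    exact ⟨⟨n, hn⟩, hxy⟩⟩
  obtain ⟨a, ha⟩ := hreg N hNn hNpt
  obtain ⟨x0, hx0N, hx0a, hx01⟩ : ∃ x0 ∈ N, x0 • a = a ∧ x0 ≠ 1 := by
    by_contra hcon
    push Not at hcon
    apply ha
    rw [Subgroup.eq_bot_iff_forall]
    intro x hx
    exact Subtype.ext (hcon x.1 x.2 hx)
  obtain ⟨b, hba⟩ : ∃ b : Ω, b ≠ a := by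
    by_cases h : a0 = a
    · exact ⟨b0, fun h' => hab0 (h.trans h'.symm)⟩
    · exact ⟨a0, h⟩
  let L : Subgroup G := MulAction.stabilizer G a
  letI inst : MulAction L {x : Ω // x ≠ a} :=
    { smul := fun g x => ⟨(g : G) • x.1, fun h => x.2 (smul_left_cancel (g : G) (h.trans g.2.symm))⟩
      one_smul := fun x => Subtype.ext (one_smul G x.1)
      mul_smul := fun g g' x => Subtype.ext (mul_smul (g : G) (g' : G) x.1) }
  have hsm : ∀ (g : L) (x : {x : Ω // x ≠ a}), ((g • x : {x : Ω // x ≠ a}) : Ω) = (g : G) • (x : Ω) :=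
    fun _ _ => rfl
  have hcard' : Fintype.card {x : Ω // x ≠ a} = Fintype.card Ω - 1 := Set.card_ne_eq a
  obtain ⟨K, hKchar, hKmem, hKcard, hKcomp, hKtrans⟩ :=
    frob_action (L := L) (Ω' := {x : Ω // x ≠ a}) (by rw [hcard']; omega)
      (by
        intro α β
        obtain ⟨g, hg1, hg2⟩ := h2 a α.1 a β.1 (Ne.symm α.2) (Ne.symm β.2)
        exact ⟨⟨g, hg1⟩, Subtype.ext hg2⟩)
      (by
        obtain ⟨σ, hσ1, hσ2⟩ := h2 a0 b0 a b hab0 (Ne.symm hba)
        have hfa : (σ * g0 * σ⁻¹) • a = a := by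
          rw [mul_smul, mul_smul, inv_smul_eq_iff.mpr hσ1.symm, hga0, hσ1]
        have hfb : (σ * g0 * σ⁻¹) • b = b := by
          rw [mul_smul, mul_smul, inv_smul_eq_iff.mpr hσ2.symm, hgb0, hσ2]
        refine ⟨⟨σ * g0 * σ⁻¹, hfa⟩, ?_, ⟨b, hba⟩, Subtype.ext hfb⟩
        intro h
        have h' : σ * g0 * σ⁻¹ = 1 := congrArg Subtype.val h
        apply hg0
        have : g0 = σ⁻¹ * (σ * g0 * σ⁻¹) * σ := by group
        rw [this, h']; group)
      (by
        intro g hg α β hα hβ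
        by_contra hαβ
        apply hg
        have h1 : (g : G) • α.1 = α.1 := congrArg Subtype.val hα
        have h2' : (g : G) • β.1 = β.1 := congrArg Subtype.val hβ
        have hαβ' : α.1 ≠ β.1 := fun h => hαβ (Subtype.ext h)
        exact Subtype.ext (h3 (g : G) a α.1 β.1 (Ne.symm α.2) hαβ' (Ne.symm β.2) g.2 h1 h2'))
  have hNL : (N.subgroupOf L).Normal := inferInstance
  rcases hKcomp (N.subgroupOf L) hNL with hKN | hNK
  · -- K ≤ N: N contains an involution
    have hKeven : 2 ∣ Nat.card K := by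
      rw [hKcard, hcard']; obtain ⟨m, hm⟩ := hodd; omega
    haveI : Fact (Nat.Prime 2) := ⟨Nat.prime_two⟩
    obtain ⟨k, hk⟩ := exists_prime_orderOf_dvd_card' (G := K) 2 hKeven
    obtain ⟨t, htdef⟩ : ∃ t : G, t = ((k : L) : G) := ⟨_, rfl⟩
    have htN : t ∈ N := by
      have := hKN k.2
      rw [htdef]
      exact Subgroup.mem_subgroupOf.mp this
    have htt : t * t = 1 := by
      have h1 : k ^ 2 = 1 := by rw [← hk]; exact pow_orderOf_eq_one k
      have h2' : ((k * k : K) : L) = 1 := by rw [← pow_two, h1]; rfl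
      have h3' : (((k : L) * (k : L) : L) : G) = 1 := by
        have : ((k * k : K) : L) = (k : L) * (k : L) := rfl
        rw [← this, h2']; rfl
      rw [htdef]
      exact h3'
    have ht1 : t ≠ 1 := by
      intro h
      have : k = 1 := Subtype.ext (Subtype.ext (htdef ▸ h))
      rw [this, orderOf_one] at hk
      omega
    obtain ⟨a', ha'⟩ : ∃ a' : Ω, t • a' ≠ a' := by
      by_contra hcon
      push Not at hcon
      apply ht1
      apply FaithfulSMul.eq_of_smul_eq_smul (α := Ω)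
      intro x
      rw [hcon x, one_smul]
    have hgen := inv_gen hodd h3 N hNn t htN htt a' ha'
    have hgen2 : ∀ h : G, h • a = a → h • b = b → h ∈ N := by
      intro h hha hhb
      obtain ⟨σ, hσ1, hσ2⟩ := h2 a' (t • a') a b (Ne.symm ha') (Ne.symm hba)
      have e1 : (σ⁻¹ * h * σ) • a' = a' := by
        rw [mul_smul, mul_smul, hσ1, hha, inv_smul_eq_iff, hσ1]
      have e2 : (σ⁻¹ * h * σ) • (t • a') = t • a' := by
        rw [mul_smul, mul_smul, hσ2, hhb, inv_smul_eq_iff, hσ2]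
      have e3 := hgen _ e1 e2
      have e4 := hNn.conj_mem _ e3 σ
      have e5 : σ * (σ⁻¹ * h * σ) * σ⁻¹ = h := by group
      rwa [e5] at e4
    have hLN : ∀ g : G, g • a = a → g ∈ N := by
      intro g hg
      obtain ⟨k', hk'K, hk'⟩ := hKtrans ⟨b, hba⟩ ((⟨g, hg⟩ : L) • (⟨b, hba⟩ : {x : Ω // x ≠ a}))
      have hk'b : (k' : G) • b = g • b := congrArg Subtype.val hk'
      have hk'N : (k' : G) ∈ N := Subgroup.mem_subgroupOf.mp (hKN hk'K)
      have hk'a : (k' : G) • a = a := k'.2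
      have e1 : ((k' : G)⁻¹ * g) • a = a := by
        rw [mul_smul, hg, inv_smul_eq_iff, hk'a]
      have e2 : ((k' : G)⁻¹ * g) • b = b := by
        rw [mul_smul, ← hk'b, inv_smul_smul]
      have e3 := hgen2 _ e1 e2
      have e4 := N.mul_mem hk'N e3
      rwa [mul_inv_cancel_left] at e4
    rw [eq_top_iff]
    intro g _
    obtain ⟨x, hxN, hx⟩ := hNt a (g • a)
    have e1 : (x⁻¹ * g) • a = a := by
      rw [mul_smul, ← hx, inv_smul_smul]
    have e2 := N.mul_mem hxN (hLN _ e1)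
    rwa [mul_inv_cancel_left] at e2
  · -- N_a ≤ K: N is a Frobenius group, its kernel is a regular normal subgroup
    exfalso
    have hfixN : ∀ g : N, g ≠ 1 → ∀ α β : Ω, g • α = α → g • β = β → α = β := by
      intro g hg α β hα hβ
      by_contra hαβ
      apply hg
      obtain ⟨y, hyN, hy⟩ := hNt a α
      have hgα : (g : G) • α = α := hα
      have hgβ : (g : G) • β = β := hβ
      have hxN : y⁻¹ * (g : G) * y ∈ N := by
        have := hNn.conj_mem (g : G) g.2 y⁻¹
        simpa using this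
      have hxa : (y⁻¹ * (g : G) * y) • a = a := by
        rw [mul_smul, mul_smul, hy, hgα, inv_smul_eq_iff, hy]
      have hx : (⟨y⁻¹ * (g : G) * y, hxa⟩ : L) ∈ K := hNK (Subgroup.mem_subgroupOf.mpr hxN)
      have hne : y⁻¹ • β ≠ a := by
        intro h
        apply hαβ
        rw [inv_smul_eq_iff, hy] at h
        exact h.symm
      rcases (hKmem _).mp hx with h1 | h1
      · have h1' : y⁻¹ * (g : G) * y = 1 := congrArg Subtype.val h1
        have : (g : G) = y * (y⁻¹ * (g : G) * y) * y⁻¹ := by group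
        apply Subtype.ext
        rw [this, h1']
        simp
      · exfalso
        apply h1 ⟨y⁻¹ • β, hne⟩
        apply Subtype.ext
        show (y⁻¹ * (g : G) * y) • (y⁻¹ • β) = y⁻¹ • β
        rw [mul_smul, mul_smul, smul_inv_smul, hgβ]
    obtain ⟨M, hMchar, hMmem, hMcard, hMcomp, hMtrans⟩ :=
      frob_action (L := N) (Ω' := Ω) (by omega)
        (fun α β => by
          obtain ⟨n, hn, hxy⟩ := hNt α β
          exact ⟨⟨n, hn⟩, hxy⟩)
        ⟨⟨x0, hx0N⟩, fun h => hx01 (congrArg Subtype.val h), a, hx0a⟩ hfixN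
    haveI := hMchar
    haveI := hNn
    have hM'n : (M.map N.subtype).Normal := ConjAct.normal_of_characteristic_of_normal
    have hM't : MulAction.IsPretransitive (M.map N.subtype) Ω := ⟨fun x y => by
      obtain ⟨m, hm, hxy⟩ := hMtrans x y
      exact ⟨⟨(m : G), Subgroup.mem_map_of_mem _ hm⟩, hxy⟩⟩
    obtain ⟨c, hc⟩ := hreg (M.map N.subtype) hM'n hM't
    apply hc
    rw [Subgroup.eq_bot_iff_forall]
    intro x hx
    have hxc : (x : G) • c = c := hx
    obtain ⟨m, hm, hmx⟩ := Subgroup.mem_map.mp x.2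
    rcases (hMmem m).mp hm with h1 | h1
    · apply Subtype.ext
      rw [← hmx, h1]
      rfl
    · exfalso
      apply h1 c
      show (m : G) • c = c
      have : (m : G) = (x : G) := hmx
      rw [this, hxc]

end Cfsg.Agent.S0338
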