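import Mathlib
import Cfsg.Statements.S0436

set_option autoImplicit false
open Cfsg

namespace Cfsg.Agent.S0436

/-- For distinct commuting members a, b of a set of 3-transpositions E, a member e of E centralises the product a * b if and only if it centralises both a and b. -/
theorem result {G : Type*} [Group G] {E : Set G} (hE : Cfsg.IsThreeTranspositionSet E) {a b e : G} (ha : a ∈ E) (hb : b ∈ E) (he : e ∈ E) (hab : a ≠ b) (hcomm : Commute a b) : Commute e (a * b) ↔ (Commute e a ∧ Commute e b) := by
  obtain ⟨hord, h3⟩ := hE
  have sq : ∀ d ∈ E, d * d = 1 := fun d hd => by
    have := hord d hd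
    rw [← pow_two, ← this, pow_orderOf_eq_one]
  have ha2 := sq a ha
  have hb2 := sq b hb
  have he2 := sq e he
  constructor
  · intro hc
    have hc' : e * (a * b) = a * b * e := hc
    have key : Commute e a := by
      by_contra hna
      have h1 : e * a * e = a * e * a := by
        rcases h3 e he a ha with h | h
        · exfalso
          apply hna
          have h' : e * a * (e * a) = 1 := by rw [← pow_two]; exact h
          have h2 : a * e * (e * a) = 1 := by
            calc a * e * (e * a) = a * (e * e) * a := by simp only [mul_assoc]
              _ = 1 := by rw [he2, mul_one, ha2]
          exact mul_right_cancel (h'.trans h2.symm)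
        · have h' : e * a * e * (a * e * a) = 1 := by
            have : (e * a) ^ 3 = e * a * e * (a * e * a) := by
              simp only [pow_succ, pow_zero, one_mul, mul_assoc]
            rw [← this]; exact h
          have h2 : a * e * a * (a * e * a) = 1 := by
            calc a * e * a * (a * e * a) = a * e * (a * a) * e * a := by simp only [mul_assoc]
              _ = a * (e * e) * a := by rw [ha2]; simp only [mul_one, mul_assoc]
              _ = 1 := by rw [he2, mul_one, ha2]
          exact mul_right_cancel (h'.trans h2.symm)
      have h4 : e * b * e = a * e * b := by
        calc e * b * e = e * (a * (a * b)) * e := by rw [← mul_assoc a a b, ha2, one_mul]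
          _ = e * a * (a * b * e) := by simp only [mul_assoc]
          _ = e * a * (e * (a * b)) := by rw [← hc']
          _ = e * a * e * (a * b) := by simp only [mul_assoc]
          _ = a * e * a * (a * b) := by rw [h1]
          _ = a * e * (a * a) * b := by simp only [mul_assoc]
          _ = a * e * b := by rw [ha2, mul_one]
      have h5 : e * b * (e * b) = a * e := by
        calc e * b * (e * b) = e * b * e * b := by simp only [mul_assoc]
          _ = a * e * (b * b) := by rw [h4]; simp only [mul_assoc]
          _ = a * e := by rw [hb2, mul_one]
      rcases h3 e he b hb with h | h
      · rw [pow_two, h5] at h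
        have hae : a = e⁻¹ := mul_eq_one_iff_eq_inv.mp h
        apply hna
        rw [hae]
        exact (Commute.refl e).inv_right
      · have h6 : (e * b) ^ 3 = e * b * (e * b) * (e * b) := by
          simp only [pow_succ, pow_zero, one_mul]
        rw [h6, h5] at h
        have h7 : a * b = 1 := by
          calc a * b = a * (e * e) * b := by rw [he2, mul_one]
            _ = a * e * (e * b) := by simp only [mul_assoc]
            _ = 1 := h
        apply hab
        have h8 : a * b = b * b := by rw [h7, hb2]
        exact mul_right_cancel h8
    refine ⟨key, ?_⟩
    have h9 : Commute e (a⁻¹ * (a * b)) := key.inv_right.mul_right hc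
    rwa [inv_mul_cancel_left] at h9
  · rintro ⟨h1, h2⟩
    exact h1.mul_right h2

end Cfsg.Agent.S0436
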