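import Mathlib
import Cfsg.Agent.S0436
import Cfsg.Statements.S0437

set_option autoImplicit false
open Cfsg

namespace Cfsg.Agent.S0437

/-- For three distinct, pairwise commuting members a, b, c of a set of 3-transpositions E, a member e of E centralises a * b * c if and only if it centralises each of a, b and c. -/
theorem result {G : Type*} [Group G] {E : Set G} (hE : Cfsg.IsThreeTranspositionSet E) {a b c e : G} (ha : a ∈ E) (hb : b ∈ E) (hc : c ∈ E) (he : e ∈ E) (hab : a ≠ b) (hac : a ≠ c) (hbc : b ≠ c) (h₁ : Commute a b) (h₂ : Commute a c) (h₃ : Commute b c) : Commute e (a * b * c) ↔ (Commute e a ∧ Commute e b ∧ Commute e c) := by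
  have hE' := hE
  obtain ⟨hord, h3⟩ := hE
  have sq : ∀ d ∈ E, d * d = 1 := fun d hd => by
    have := hord d hd
    rw [← pow_two, ← this, pow_orderOf_eq_one]
  have ha2 := sq a ha
  have hb2 := sq b hb
  have hc2 := sq c hc
  have he2 := sq e he
  constructor
  · intro hz
    by_cases hea : Commute e a
    · have h1 : Commute e (a⁻¹ * (a * b * c)) := hea.inv_right.mul_right hz
      rw [mul_assoc a b c, inv_mul_cancel_left] at h1
      have := (Cfsg.Agent.S0436.result hE' hb hc he hbc h₃).mp h1
      exact ⟨hea, this.1, this.2⟩
    by_cases heb : Commute e b
    · have h0 : a * b * c = b * (a * c) := by rw [h₁.eq, mul_assoc]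
      have h1 : Commute e (b⁻¹ * (a * b * c)) := heb.inv_right.mul_right hz
      rw [h0, inv_mul_cancel_left] at h1
      have := (Cfsg.Agent.S0436.result hE' ha hc he hac h₂).mp h1
      exact ⟨this.1, heb, this.2⟩
    by_cases hec : Commute e c
    · have h1 : Commute e (a * b * c * c⁻¹) := hz.mul_right hec.inv_right
      rw [mul_inv_cancel_right] at h1
      have := (Cfsg.Agent.S0436.result hE' ha hb he hab h₁).mp h1
      exact ⟨this.1, this.2, hec⟩
    exfalso
    have cube : ∀ d ∈ E, ¬ Commute e d → e * d * e = d * e * d := by
      intro d hd hnd
      have hd2 := sq d hd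
      rcases h3 e he d hd with h | h
      · exfalso
        apply hnd
        have h' : e * d * (e * d) = 1 := by rw [← pow_two]; exact h
        have h2 : d * e * (e * d) = 1 := by
          calc d * e * (e * d) = d * (e * e) * d := by simp only [mul_assoc]
            _ = 1 := by rw [he2, mul_one, hd2]
        exact mul_right_cancel (h'.trans h2.symm)
      · have h' : e * d * e * (d * e * d) = 1 := by
          have : (e * d) ^ 3 = e * d * e * (d * e * d) := by
            simp only [pow_succ, pow_zero, one_mul, mul_assoc]
          rw [← this]; exact h
        have h2 : d * e * d * (d * e * d) = 1 := by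
          calc d * e * d * (d * e * d) = d * e * (d * d) * e * d := by simp only [mul_assoc]
            _ = d * (e * e) * d := by rw [hd2]; simp only [mul_one, mul_assoc]
            _ = 1 := by rw [he2, mul_one, hd2]
        exact mul_right_cancel (h'.trans h2.symm)
    have h1a := cube a ha hea
    have h1b := cube b hb heb
    have h1c := cube c hc hec
    have hz' : e * (a * b * c) = a * b * c * e := hz
    have haa : a * (a * b * c) = b * c := by
      simp only [← mul_assoc, ha2, one_mul]
    have s1 : e * (b * c) * e = a * e * (b * c) := by
      calc e * (b * c) * e = e * (a * (a * b * c)) * e := by rw [haa]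
        _ = e * a * (a * b * c * e) := by simp only [mul_assoc]
        _ = e * a * (e * (a * b * c)) := by rw [← hz']
        _ = e * a * e * (a * (b * c)) := by simp only [mul_assoc]
        _ = a * e * a * (a * (b * c)) := by rw [h1a]
        _ = a * e * (a * a) * (b * c) := by simp only [mul_assoc]
        _ = a * e * (b * c) := by rw [ha2, mul_one]
    have s2 : e * (b * c) * e = b * e * b * (c * e * c) := by
      calc e * (b * c) * e = e * b * (e * e) * c * e := by rw [he2, mul_one]; simp only [mul_assoc]
        _ = (e * b * e) * (e * c * e) := by simp only [mul_assoc]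
        _ = b * e * b * (c * e * c) := by rw [h1b, h1c]
    have s3 : a * e * b = b * e * b * (c * e) := by
      have h : a * e * b * c = b * e * b * (c * e) * c := by
        calc a * e * b * c = a * e * (b * c) := by simp only [mul_assoc]
          _ = b * e * b * (c * e * c) := s1.symm.trans s2
          _ = b * e * b * (c * e) * c := by simp only [mul_assoc]
      exact mul_right_cancel h
    have s5 : b * e * b = e * (b * c) := by
      have h : a * (b * e * b) = a * (e * (b * c)) := by
        calc a * (b * e * b) = (a * b) * e * b := by simp only [mul_assoc]
          _ = (b * a) * e * b := by rw [h₁.eq]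
          _ = b * (a * e * b) := by simp only [mul_assoc]
          _ = b * (b * e * b * (c * e)) := by rw [s3]
          _ = (b * b) * (e * (b * c) * e) := by simp only [mul_assoc]
          _ = a * e * (b * c) := by rw [hb2, one_mul, s1]
          _ = a * (e * (b * c)) := by simp only [mul_assoc]
      exact mul_left_cancel h
    have s6 : b * e = e * c := by
      calc b * e = b * e * (b * b) := by rw [hb2, mul_one]
        _ = (b * e * b) * b := by simp only [mul_assoc]
        _ = e * (b * c) * b := by rw [s5]
        _ = e * (c * b) * b := by rw [h₃.eq]
        _ = e * c * (b * b) := by simp only [mul_assoc]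
        _ = e * c := by rw [hb2, mul_one]
    have s7 : c = b * e * b := by
      calc c = (e * e) * c := by rw [he2, one_mul]
        _ = e * (e * c) := by rw [mul_assoc]
        _ = e * (b * e) := by rw [s6]
        _ = e * b * e := by rw [mul_assoc]
        _ = b * e * b := h1b
    apply heb
    show e * b = b * e
    have h8 : b * c = c * b := h₃.eq
    rw [s7] at h8
    calc e * b = (b * b) * e * b := by rw [hb2, one_mul]
      _ = b * (b * e * b) := by simp only [mul_assoc]
      _ = b * e * b * b := h8
      _ = b * e * (b * b) := by simp only [mul_assoc]
      _ = b * e := by rw [hb2, mul_one]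
  · rintro ⟨h1, h2, h3'⟩
    exact (h1.mul_right h2).mul_right h3'

end Cfsg.Agent.S0437
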