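import Mathlib
import Cfsg.Statements.S0438

set_option autoImplicit false
open Cfsg

namespace Cfsg.Agent.S0438

/-- Let E be a set of 3-transpositions closed under conjugation, and x an involutory automorphism of the group mapping E to itself. If some a in E fails to commute with its image x a, then x fixes an element of E. -/
theorem result {G : Type*} [Group G] {E : Set G} (hE : Cfsg.IsThreeTranspositionSet E) (hconj : ∀ g : G, ∀ d ∈ E, g * d * g⁻¹ ∈ E) (x : G ≃* G) (hx : ∀ g : G, x (x g) = g) (hxE : ∀ d ∈ E, x d ∈ E) {a : G} (ha : a ∈ E) (h : ¬ Commute a (x a)) : ∃ d ∈ E, x d = d := by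
  obtain ⟨hord, h3⟩ := hE
  have sq : ∀ d ∈ E, d * d = 1 := fun d hd => by
    have := hord d hd
    rw [← pow_two, ← this, pow_orderOf_eq_one]
  have ha2 := sq a ha
  have hxa := hxE a ha
  have hb2 := sq (x a) hxa
  have h1 : a * x a * a = x a * a * x a := by
    rcases h3 a ha (x a) hxa with h' | h'
    · exfalso
      apply h
      have h'' : a * x a * (a * x a) = 1 := by rw [← pow_two]; exact h'
      have h2 : x a * a * (a * x a) = 1 := by
        calc x a * a * (a * x a) = x a * (a * a) * x a := by simp only [mul_assoc]
          _ = 1 := by rw [ha2, mul_one, hb2]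
      exact mul_right_cancel (h''.trans h2.symm)
    · have h'' : a * x a * a * (x a * a * x a) = 1 := by
        have : (a * x a) ^ 3 = a * x a * a * (x a * a * x a) := by
          simp only [pow_succ, pow_zero, one_mul, mul_assoc]
        rw [← this]; exact h'
      have h2 : x a * a * x a * (x a * a * x a) = 1 := by
        calc x a * a * x a * (x a * a * x a) = x a * a * (x a * x a) * a * x a := by
              simp only [mul_assoc]
          _ = x a * (a * a) * x a := by rw [hb2]; simp only [mul_one, mul_assoc]
          _ = 1 := by rw [ha2, mul_one, hb2]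
      exact mul_right_cancel (h''.trans h2.symm)
  refine ⟨a * x a * a, ?_, ?_⟩
  · have := hconj a (x a) hxa
    have hinv : a⁻¹ = a := inv_eq_of_mul_eq_one_left ha2
    rwa [hinv] at this
  · rw [map_mul, map_mul, hx a, h1]

end Cfsg.Agent.S0438
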