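import Mathlib
import Cfsg.Statements.S0586
import Cfsg.Agent.Lib.Helper2.Fit

set_option autoImplicit false
open Pointwise
open Cfsg
open scoped commutatorElement

namespace Cfsg.Agent.S0586

open Cfsg.Agent.Lib.Helper2

/-- If `L ⊴ G`, `L ≤ K` and `L ≤ Φ(K)` then `L ≤ Φ(G)`. -/
theorem le_frattini_of_le {G : Type*} [Group G] [Finite G] (L K : Subgroup G) [hL : L.Normal]
    (hLK : L ≤ K) (h : L.subgroupOf K ≤ frattini K) : L ≤ frattini G := by
  simp_rw [frattini, Order.radical, le_iInf_iff]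
  intro M hM
  by_contra hLM
  have hsup : L ⊔ M = ⊤ :=
    hM.2 _ (lt_of_le_of_ne le_sup_right (fun e => hLM (e ▸ le_sup_left)))
  have hK : M.subgroupOf K ⊔ frattini K = ⊤ := by
    rw [eq_top_iff]
    intro k _
    have hk : (k : G) ∈ ((L ⊔ M : Subgroup G) : Set G) := by rw [hsup]; trivial
    rw [Subgroup.normal_mul] at hk
    obtain ⟨l, hl, m, hm, e⟩ := hk
    have hmK : m ∈ K := by
      have h1 : m = l⁻¹ * k := by rw [← e]; group
      rw [h1]; exact K.mul_mem (K.inv_mem (hLK hl)) k.2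
    have e' : k = (⟨l, hLK hl⟩ : K) * ⟨m, hmK⟩ := Subtype.ext e.symm
    rw [e']
    exact Subgroup.mul_mem _ (Subgroup.mem_sup_right (h (Subgroup.mem_subgroupOf.2 hl)))
      (Subgroup.mem_sup_left (Subgroup.mem_subgroupOf.2 hm))
  have h1 := frattini_nongenerating hK
  rw [Subgroup.subgroupOf_eq_top] at h1
  exact hLM (hLK.trans h1)

theorem commutator_le_frattini_of_nilpotent {F : Type*} [Group F] [Finite F]
    [Group.IsNilpotent F] : commutator F ≤ frattini F := by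
  simp_rw [frattini, Order.radical, le_iInf_iff]
  intro M hM
  haveI hMn : M.Normal := Subgroup.NormalizerCondition.normal_of_coatom M normalizerCondition_of_isNilpotent hM
  rw [commutator_def, Subgroup.commutator_le]
  intro a _ b _
  obtain ⟨x, -, hxM⟩ := SetLike.exists_of_lt (lt_top_iff_ne_top.2 hM.1)
  have hsup : M ⊔ Subgroup.zpowers x = ⊤ :=
    hM.2 _ (lt_of_le_of_ne le_sup_left
      (fun e => hxM (e ▸ Subgroup.mem_sup_right (Subgroup.mem_zpowers x))))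
  have key : ∀ c : F, ∃ i : ℤ, (QuotientGroup.mk' M) c = ((QuotientGroup.mk' M) x) ^ i := by
    intro c
    have hc : c ∈ ((M ⊔ Subgroup.zpowers x : Subgroup F) : Set F) := by rw [hsup]; trivial
    rw [Subgroup.normal_mul] at hc
    obtain ⟨m, hm, y, hy, rfl⟩ := hc
    obtain ⟨i, rfl⟩ := Subgroup.mem_zpowers_iff.1 hy
    refine ⟨i, ?_⟩
    have hm1 : (QuotientGroup.mk' M) m = 1 := (QuotientGroup.eq_one_iff m).2 hm
    rw [map_mul, map_zpow, hm1, one_mul]
  obtain ⟨i, hi⟩ := key a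
  obtain ⟨j, hj⟩ := key b
  have h1 : (QuotientGroup.mk' M) ⁅a, b⁆ = 1 := by
    rw [map_commutatorElement, hi, hj, commutatorElement_eq_one_iff_mul_comm]
    exact (Commute.zpow_zpow_self _ i j).eq
  exact (QuotientGroup.eq_one_iff _).1 h1

/-- Gaschütz: with trivial Frattini subgroup, every abelian normal subgroup is complemented. -/
theorem exists_complement {G : Type*} [Group G] [Finite G] (hΦ : frattini G = ⊥)
    (N : Subgroup G) [hN : N.Normal] (hab : ∀ x ∈ N, ∀ y ∈ N, x * y = y * x) :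
    ∃ K : Subgroup G, N ⊓ K = ⊥ ∧ N ⊔ K = ⊤ := by
  classical
  haveI : Nonempty {K : Subgroup G // N ⊔ K = ⊤} := ⟨⟨⊤, sup_top_eq _⟩⟩
  obtain ⟨⟨K, hK⟩, hmin⟩ :=
    Finite.exists_min (fun K : {K : Subgroup G // N ⊔ K = ⊤} => Nat.card (K : Subgroup G))
  refine ⟨K, ?_, hK⟩
  have hdecomp : ∀ g : G, ∃ n ∈ N, ∃ k ∈ K, g = n * k := by
    intro g
    have hg : g ∈ ((N ⊔ K : Subgroup G) : Set G) := by rw [hK]; trivial
    rw [Subgroup.normal_mul] at hg
    obtain ⟨n, hn, k, hk, e⟩ := hg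
    exact ⟨n, hn, k, hk, e.symm⟩
  haveI hLn : (N ⊓ K).Normal := by
    constructor
    intro l hl g
    obtain ⟨n, hn, k, hk, rfl⟩ := hdecomp g
    obtain ⟨hlN, hlK⟩ := Subgroup.mem_inf.1 hl
    have h1 : k * l * k⁻¹ ∈ N ⊓ K :=
      Subgroup.mem_inf.2 ⟨hN.conj_mem l hlN k, K.mul_mem (K.mul_mem hk hlK) (K.inv_mem hk)⟩
    have h2 : n * k * l * (n * k)⁻¹ = n * (k * l * k⁻¹) * n⁻¹ := by group
    rw [h2, hab n hn _ h1.1, mul_assoc, mul_inv_cancel, mul_one]
    exact h1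
  have hfr : (N ⊓ K).subgroupOf K ≤ frattini K := by
    simp_rw [frattini, Order.radical, le_iInf_iff]
    intro M hM
    by_contra hLM
    have hsup : (N ⊓ K).subgroupOf K ⊔ M = ⊤ :=
      hM.2 _ (lt_of_le_of_ne le_sup_right (fun e => hLM (e ▸ le_sup_left)))
    have hM' : N ⊔ M.map K.subtype = ⊤ := by
      rw [eq_top_iff, ← hK]
      apply sup_le le_sup_left
      intro k hk
      have hk'' : (⟨k, hk⟩ : K) ∈ ((((N ⊓ K).subgroupOf K ⊔ M : Subgroup K)) : Set K) := by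
        rw [hsup]; trivial
      rw [Subgroup.normal_mul] at hk''
      obtain ⟨l, hl, m, hm, e⟩ := hk''
      have e' : k = (l : G) * (m : G) := by
        have := congrArg Subtype.val e
        simpa using this.symm
      rw [e']
      exact Subgroup.mul_mem _ (Subgroup.mem_sup_left (Subgroup.mem_subgroupOf.1 hl).1)
        (Subgroup.mem_sup_right ⟨m, hm, rfl⟩)
    have h1 := hmin ⟨M.map K.subtype, hM'⟩
    have h2 : Nat.card (M.map K.subtype) = Nat.card M :=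
      Subgroup.card_map_of_injective (Subgroup.subtype_injective K)
    have h3 : Nat.card M < Nat.card K := by
      apply lt_of_le_of_ne (Subgroup.card_le_card_group M)
      intro e
      exact hM.1 (Subgroup.eq_top_of_card_eq M e)
    simp only at h1
    omega
  have h4 := le_frattini_of_le (N ⊓ K) K inf_le_right hfr
  rw [hΦ] at h4
  exact le_bot_iff.1 h4

theorem result {G : Type*} [Group G] [Finite G] (hΦ : frattini G = ⊥) : Cfsg.fittingSubgroup G = sSup {N : Subgroup G | N.Normal ∧ N ≠ ⊥ ∧ IsMulCommutative N ∧ ∀ K : Subgroup G, K.Normal → K ≤ N → K = ⊥ ∨ K = N} := by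
  classical
  haveI hFn : (Cfsg.fittingSubgroup G).Normal := Fit.fitting_normal
  haveI hFnil : Group.IsNilpotent ↥(Cfsg.fittingSubgroup G) := Fit.fitting_nilpotent
  have hFab : ∀ x ∈ Cfsg.fittingSubgroup G, ∀ y ∈ Cfsg.fittingSubgroup G, x * y = y * x := by
    have h1 : (commutator ↥(Cfsg.fittingSubgroup G)) ≤ frattini ↥(Cfsg.fittingSubgroup G) :=
      commutator_le_frattini_of_nilpotent
    haveI hLn : (⁅Cfsg.fittingSubgroup G, Cfsg.fittingSubgroup G⁆ : Subgroup G).Normal :=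
      Subgroup.commutator_normal _ _
    have hLF : ⁅Cfsg.fittingSubgroup G, Cfsg.fittingSubgroup G⁆ ≤ Cfsg.fittingSubgroup G :=
      Subgroup.commutator_le_right _ _
    have h2 : (⁅Cfsg.fittingSubgroup G, Cfsg.fittingSubgroup G⁆ : Subgroup G).subgroupOf
        (Cfsg.fittingSubgroup G) ≤ frattini ↥(Cfsg.fittingSubgroup G) := by
      intro x hx
      apply h1
      rw [Subgroup.mem_subgroupOf, ← Subgroup.map_subtype_commutator] at hx
      obtain ⟨y, hy, e⟩ := hx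
      have : y = x := Subtype.ext e
      exact this ▸ hy
    have h3 := le_frattini_of_le _ _ hLF h2
    rw [hΦ] at h3
    intro x hx y hy
    have h4 : ⁅x, y⁆ ∈ (⁅Cfsg.fittingSubgroup G, Cfsg.fittingSubgroup G⁆ : Subgroup G) :=
      Subgroup.commutator_mem_commutator hx hy
    have h5 := h3 h4
    rw [Subgroup.mem_bot, commutatorElement_eq_one_iff_mul_comm] at h5
    exact h5
  have hSF : sSup {N : Subgroup G | N.Normal ∧ N ≠ ⊥ ∧ IsMulCommutative N ∧
      ∀ K : Subgroup G, K.Normal → K ≤ N → K = ⊥ ∨ K = N} ≤ Cfsg.fittingSubgroup G := by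
    apply sSup_le
    rintro N ⟨hNn, -, hNc, -⟩
    apply Fit.le_fitting N hNn
    letI : CommGroup ↥N :=
      { (inferInstance : Group ↥N) with mul_comm := fun a b => hNc.is_comm.comm a b }
    exact (inferInstance : Group.IsNilpotent ↥N)
  apply le_antisymm _ hSF
  haveI hSn : (sSup {N : Subgroup G | N.Normal ∧ N ≠ ⊥ ∧ IsMulCommutative N ∧
      ∀ K : Subgroup G, K.Normal → K ≤ N → K = ⊥ ∨ K = N}).Normal :=
    Subgroup.sSup_normal _ (fun N hN => hN.1)
  obtain ⟨K, hK1, hK2⟩ := exists_complement hΦ (sSup {N : Subgroup G | N.Normal ∧ N ≠ ⊥ ∧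
      IsMulCommutative N ∧ ∀ K : Subgroup G, K.Normal → K ≤ N → K = ⊥ ∨ K = N})
    (fun x hx y hy => hFab x (hSF hx) y (hSF hy))
  have hdecomp : ∀ g : G, ∃ s ∈ sSup {N : Subgroup G | N.Normal ∧ N ≠ ⊥ ∧ IsMulCommutative N ∧
      ∀ K : Subgroup G, K.Normal → K ≤ N → K = ⊥ ∨ K = N}, ∃ k ∈ K, g = s * k := by
    intro g
    have hg : g ∈ ((sSup {N : Subgroup G | N.Normal ∧ N ≠ ⊥ ∧ IsMulCommutative N ∧
      ∀ K : Subgroup G, K.Normal → K ≤ N → K = ⊥ ∨ K = N} ⊔ K : Subgroup G) : Set G) := by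
      rw [hK2]; trivial
    rw [Subgroup.normal_mul] at hg
    obtain ⟨n, hn, k, hk, e⟩ := hg
    exact ⟨n, hn, k, hk, e.symm⟩
  have hDn : (Cfsg.fittingSubgroup G ⊓ K).Normal := by
    constructor
    intro d hd g
    obtain ⟨s, hs, k, hk, rfl⟩ := hdecomp g
    obtain ⟨hdF, hdK⟩ := Subgroup.mem_inf.1 hd
    have h1 : k * d * k⁻¹ ∈ Cfsg.fittingSubgroup G ⊓ K :=
      Subgroup.mem_inf.2 ⟨hFn.conj_mem d hdF k, K.mul_mem (K.mul_mem hk hdK) (K.inv_mem hk)⟩
    have h2 : s * k * d * (s * k)⁻¹ = s * (k * d * k⁻¹) * s⁻¹ := by group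
    rw [h2, hFab s (hSF hs) _ h1.1, mul_assoc, mul_inv_cancel, mul_one]
    exact h1
  have hD : Cfsg.fittingSubgroup G ⊓ K = ⊥ := by
    by_contra hne
    haveI : Nonempty {N : Subgroup G // N.Normal ∧ N ≠ ⊥ ∧ N ≤ Cfsg.fittingSubgroup G ⊓ K} :=
      ⟨⟨Cfsg.fittingSubgroup G ⊓ K, hDn, hne, le_refl _⟩⟩
    obtain ⟨⟨N₀, hN₀n, hN₀ne, hN₀D⟩, hmin⟩ := Finite.exists_min
      (fun N : {N : Subgroup G // N.Normal ∧ N ≠ ⊥ ∧ N ≤ Cfsg.fittingSubgroup G ⊓ K} =>
        Nat.card (N : Subgroup G))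
    have hN₀S : N₀ ∈ {N : Subgroup G | N.Normal ∧ N ≠ ⊥ ∧ IsMulCommutative N ∧
        ∀ K : Subgroup G, K.Normal → K ≤ N → K = ⊥ ∨ K = N} := by
      refine ⟨hN₀n, hN₀ne,
        ⟨⟨fun a b => Subtype.ext (hFab a (hN₀D a.2).1 b (hN₀D b.2).1)⟩⟩, ?_⟩
      intro K' hK'n hK'N
      by_cases hK'b : K' = ⊥
      · exact Or.inl hK'b
      · right
        have h1 := hmin ⟨K', hK'n, hK'b, hK'N.trans hN₀D⟩
        exact Subgroup.eq_of_le_of_card_ge hK'N h1
    have h1 : N₀ ≤ sSup {N : Subgroup G | N.Normal ∧ N ≠ ⊥ ∧ IsMulCommutative N ∧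
        ∀ K : Subgroup G, K.Normal → K ≤ N → K = ⊥ ∨ K = N} ⊓ K :=
      le_inf (le_sSup hN₀S) (hN₀D.trans inf_le_right)
    rw [hK1] at h1
    exact hN₀ne (le_bot_iff.1 h1)
  intro f hf
  obtain ⟨s, hs, k, hk, rfl⟩ := hdecomp f
  have hkF : k ∈ Cfsg.fittingSubgroup G := by
    have h1 : k = s⁻¹ * (s * k) := by group
    rw [h1]; exact Subgroup.mul_mem _ (Subgroup.inv_mem _ (hSF hs)) hf
  have hk1 : k ∈ Cfsg.fittingSubgroup G ⊓ K := Subgroup.mem_inf.2 ⟨hkF, hk⟩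
  rw [hD, Subgroup.mem_bot] at hk1
  rw [hk1, mul_one]; exact hs

end Cfsg.Agent.S0586
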