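import Cfsg.Statements.S5913

set_option autoImplicit false
open Cfsg

namespace Cfsg.Agent.S5913

theorem comm_single {S : Type*} [Group S] (n : ℕ) (i : Fin n) (s : S) (y : Fin n → S) :
    Pi.mulSingle i s * y * (Pi.mulSingle i s)⁻¹ * y⁻¹ = Pi.mulSingle i (s * y i * s⁻¹ * (y i)⁻¹) := by
  funext j
  by_cases h : j = i
  · subst h; simp
  · simp [Pi.mulSingle_eq_of_ne h]

theorem result {S : Type*} [Group S] [IsSimpleGroup S] (hS : ¬ IsMulCommutative S) (n : ℕ)
    (N : Subgroup (Fin n → S)) [N.Normal] :
    ∃ T : Finset (Fin n), ∀ x : Fin n → S, x ∈ N ↔ ∀ i, i ∉ T → x i = 1 := by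
  classical
  refine ⟨Finset.univ.filter (fun i => ∃ y ∈ N, y i ≠ 1), ?_⟩
  intro x
  constructor
  · intro hx i hi
    by_contra h
    apply hi
    simp only [Finset.mem_filter, Finset.mem_univ, true_and]
    exact ⟨x, hx, h⟩
  · intro hx
    have hcen : Subgroup.center S = ⊥ := by
      rcases (inferInstance : (Subgroup.center S).Normal).eq_bot_or_eq_top with h | h
      · exact h
      · exfalso
        apply hS
        refine ⟨⟨fun a b => ?_⟩⟩
        have hb : b ∈ Subgroup.center S := h ▸ Subgroup.mem_top b
        exact (Subgroup.mem_center_iff.mp hb a)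
    have hfac : ∀ i, Pi.mulSingle i (x i) ∈ N := by
      intro i
      by_cases hi : i ∈ Finset.univ.filter (fun i => ∃ y ∈ N, y i ≠ 1)
      · simp only [Finset.mem_filter, Finset.mem_univ, true_and] at hi
        obtain ⟨y, hy, hyi⟩ := hi
        let Ni : Subgroup S := N.comap (MonoidHom.mulSingle (fun _ : Fin n => S) i)
        have hNi : Ni.Normal := Subgroup.Normal.comap inferInstance _
        have hne : Ni ≠ ⊥ := by
          have hnc : y i ∉ Subgroup.center S := by
            rw [hcen, Subgroup.mem_bot]; exact hyi
          rw [Subgroup.mem_center_iff] at hnc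
          simp only [not_forall] at hnc
          obtain ⟨s, hs⟩ := hnc
          intro hbot
          have hmem : s * y i * s⁻¹ * (y i)⁻¹ ∈ Ni := by
            show Pi.mulSingle i (s * y i * s⁻¹ * (y i)⁻¹) ∈ N
            rw [← comm_single]
            exact N.mul_mem (Subgroup.Normal.conj_mem inferInstance y hy _) (N.inv_mem hy)
          rw [hbot, Subgroup.mem_bot] at hmem
          apply hs
          have : s * y i = y i * s := by
            have h2 : s * y i * s⁻¹ = y i := by
              rw [mul_inv_eq_one] at hmem; exact hmem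
            calc s * y i = s * y i * s⁻¹ * s := by group
              _ = y i * s := by rw [h2]
          exact this
        have htop : Ni = ⊤ := (hNi.eq_bot_or_eq_top).resolve_left hne
        have : x i ∈ Ni := htop ▸ Subgroup.mem_top _
        exact this
      · rw [hx i hi, Pi.mulSingle_one]
        exact N.one_mem
    have hprod := Finset.noncommProd_mulSingle x
    rw [← hprod]
    exact Subgroup.noncommProd_mem N _ (fun i _ => hfac i)

end Cfsg.Agent.S5913
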