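import Cfsg.Statements.S5914
import Cfsg.Agent.S5913

set_option autoImplicit false
open Cfsg

namespace Cfsg.Agent.S5914

theorem indep_option {G : Type*} [Group G] {ι : Type*} (H : ι → Subgroup G) (H' : Subgroup G)
    (hn' : H'.Normal) (hind : iSupIndep H) (hdis : Disjoint H' (⨆ i, H i)) :
    iSupIndep (fun o : Option ι => o.elim H' H) := by
  intro o
  cases o with
  | none =>
    show Disjoint H' (⨆ (j : Option ι) (_ : j ≠ none), j.elim H' H)
    refine hdis.mono_right ?_
    apply iSup₂_le
    intro j hj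
    cases j with
    | none => exact absurd rfl hj
    | some i => exact le_iSup H i
  | some i =>
    show Disjoint (H i) (⨆ (j : Option ι) (_ : j ≠ some i), j.elim H' H)
    have hle : (⨆ (j : Option ι) (_ : j ≠ some i), (j.elim H' H))
        ≤ H' ⊔ ⨆ (j : ι) (_ : j ≠ i), H j := by
      apply iSup₂_le
      intro j hj
      cases j with
      | none => exact le_sup_left
      | some j' =>
        exact le_sup_of_le_right
          (le_iSup₂ (f := fun j (_ : j ≠ i) => H j) j' (fun h => hj (by rw [h])))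
    refine Disjoint.mono_right hle ?_
    rw [Subgroup.disjoint_def]
    intro x hx1 hx2
    rw [← SetLike.mem_coe, Subgroup.normal_mul] at hx2
    obtain ⟨h', hh', r, hr, hxeq⟩ := hx2
    have hxeq' : h' * r = x := hxeq
    subst hxeq'
    have hRle : (⨆ (j : ι) (_ : j ≠ i), H j) ≤ ⨆ j, H j := iSup₂_le (fun j _ => le_iSup H j)
    have h1 : h' ∈ ⨆ j, H j := by
      have : h' = (h' * r) * r⁻¹ := by group
      rw [this]
      exact Subgroup.mul_mem _ (le_iSup H i hx1) (Subgroup.inv_mem _ (hRle hr))
    have h2 : h' = 1 := Subgroup.disjoint_def.mp hdis hh' h1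
    rw [h2, one_mul] at hx1 ⊢
    exact Subgroup.disjoint_def.mp (hind i) hx1 hr

theorem assemble {G : Type*} [Group G] [Finite G] [Nontrivial G] (N : Subgroup G)
    (ι : Type) [Fintype ι] (φ : ι → (G ≃* G))
    (hnorm : ∀ i, (N.map (φ i).toMonoidHom).Normal)
    (hmin : ∀ i, ∀ K : Subgroup G, K.Normal → K ≤ N.map (φ i).toMonoidHom →
      K = ⊥ ∨ K = N.map (φ i).toMonoidHom)
    (hN0 : N ≠ ⊥)
    (hind : iSupIndep (fun i => N.map (φ i).toMonoidHom))
    (htop : (⨆ i, N.map (φ i).toMonoidHom) = ⊤) :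
    ∃ (S : Type) (_ : Group S) (_ : IsSimpleGroup S) (n : ℕ),
      1 ≤ n ∧ Nonempty (G ≃* (Fin n → S)) := by
  classical
  have hne : Nonempty ι := by
    by_contra h
    rw [not_nonempty_iff] at h
    rw [iSup_of_empty] at htop
    exact bot_ne_top htop
  obtain ⟨i₀⟩ := hne
  have hcomm : Pairwise fun i j => ∀ x y : G, x ∈ N.map (φ i).toMonoidHom →
      y ∈ N.map (φ j).toMonoidHom → Commute x y := by
    intro i j hij x y hx hy
    exact Subgroup.commute_of_normal_of_disjoint _ _ (hnorm i) (hnorm j)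
      (hind.pairwiseDisjoint hij) x y hx hy
  have hinj := Subgroup.injective_noncommPiCoprod_of_iSupIndep (hcomm := hcomm) hind
  have hsurj : Function.Surjective (Subgroup.noncommPiCoprod hcomm) := by
    rw [← MonoidHom.range_eq_top, Subgroup.noncommPiCoprod_range, htop]
  have hNnt : Nontrivial N := (Subgroup.nontrivial_iff_ne_bot N).mpr hN0
  have hsimple0 : IsSimpleGroup (N.map (φ i₀).toMonoidHom) := by
    have hnt : Nontrivial (N.map (φ i₀).toMonoidHom) := by
      rw [Subgroup.nontrivial_iff_ne_bot]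
      intro h
      exact hN0 ((Subgroup.map_eq_bot_iff_of_injective N (φ i₀).injective).mp h)
    refine { toNontrivial := hnt, eq_bot_or_eq_top_of_normal := ?_ }
    intro K hK
    have hcen : (⨆ (j : ι) (_ : j ≠ i₀), N.map (φ j).toMonoidHom)
        ≤ Subgroup.centralizer ((N.map (φ i₀).toMonoidHom : Subgroup G) : Set G) := by
      apply iSup₂_le
      intro j hj x hx
      rw [Subgroup.mem_centralizer_iff]
      intro h hh
      exact (hcomm hj x h hx hh).eq.symm
    have hsplit : N.map (φ i₀).toMonoidHom ⊔ (⨆ (j : ι) (_ : j ≠ i₀), N.map (φ j).toMonoidHom)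
        = ⊤ := by
      rw [← htop]
      apply le_antisymm
      · exact sup_le (le_iSup (fun i => N.map (φ i).toMonoidHom) i₀)
          (iSup₂_le (fun j _ => le_iSup (fun i => N.map (φ i).toMonoidHom) j))
      · apply iSup_le
        intro j
        by_cases hj : j = i₀
        · rw [hj]
          exact le_sup_left
        · exact le_sup_of_le_right
            (le_iSup₂ (f := fun j (_ : j ≠ i₀) => N.map (φ j).toMonoidHom) j hj)
    have hKn : (K.map (N.map (φ i₀).toMonoidHom).subtype).Normal := by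
      constructor
      intro k hk g
      have hg : g ∈ ((N.map (φ i₀).toMonoidHom ⊔
          (⨆ (j : ι) (_ : j ≠ i₀), N.map (φ j).toMonoidHom) : Subgroup G) : Set G) := by
        rw [hsplit]
        trivial
      have := hnorm i₀
      rw [Subgroup.normal_mul] at hg
      obtain ⟨a, ha, r, hr, rfl⟩ := hg
      obtain ⟨k₀, hk₀, rfl⟩ := Subgroup.mem_map.mp hk
      have hrk : r * (k₀ : G) = (k₀ : G) * r :=
        (Subgroup.mem_centralizer_iff.mp (hcen hr) _ k₀.2).symm
      have e : a * r * (k₀ : G) * (a * r)⁻¹ = a * (k₀ : G) * a⁻¹ := by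
        calc a * r * (k₀ : G) * (a * r)⁻¹ = a * (r * (k₀ : G)) * r⁻¹ * a⁻¹ := by group
          _ = a * ((k₀ : G) * r) * r⁻¹ * a⁻¹ := by rw [hrk]
          _ = a * (k₀ : G) * a⁻¹ := by group
      show a * r * (k₀ : G) * (a * r)⁻¹ ∈ K.map (N.map (φ i₀).toMonoidHom).subtype
      rw [e]
      exact Subgroup.mem_map.mpr ⟨⟨a, ha⟩ * k₀ * ⟨a, ha⟩⁻¹, hK.conj_mem k₀ hk₀ _, rfl⟩
    rcases hmin i₀ _ hKn (Subgroup.map_subtype_le K) with h | h
    · left
      exact (Subgroup.map_eq_bot_iff_of_injective K (Subgroup.subtype_injective _)).mp h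
    · right
      rw [eq_top_iff]
      intro x _
      have hx : (x : G) ∈ K.map (N.map (φ i₀).toMonoidHom).subtype := by
        rw [h]
        exact x.2
      obtain ⟨y, hy, hyx⟩ := Subgroup.mem_map.mp hx
      have : y = x := Subtype.ext hyx
      rw [← this]
      exact hy
  have hsimpleN : IsSimpleGroup N :=
    @MulEquiv.isSimpleGroup _ _ _ _ hsimple0 ((φ i₀).subgroupMap N)
  have hsimpleS : IsSimpleGroup (Shrink.{0} N) :=
    (Shrink.mulEquiv : Shrink.{0} N ≃* N).isSimpleGroup
  have hne' : Nonempty ι := ⟨i₀⟩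
  refine ⟨Shrink.{0} N, inferInstance, hsimpleS, Fintype.card ι, Fintype.card_pos, ?_⟩
  have e1 : G ≃* (∀ i, N.map (φ i).toMonoidHom) :=
    (MulEquiv.ofBijective (Subgroup.noncommPiCoprod hcomm) ⟨hinj, hsurj⟩).symm
  have e2 : (∀ i, N.map (φ i).toMonoidHom) ≃* (ι → Shrink.{0} N) :=
    MulEquiv.piCongrRight (fun i => (((φ i).subgroupMap N).symm.trans
      (Shrink.mulEquiv : Shrink.{0} N ≃* N).symm))
  have e3 : (ι → Shrink.{0} N) ≃* (Fin (Fintype.card ι) → Shrink.{0} N) :=
    MulEquiv.arrowCongr (Fintype.equivFin ι) (MulEquiv.refl _)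
  exact ⟨e1.trans (e2.trans e3)⟩

theorem forward {G : Type*} [Group G] [Finite G] [Nontrivial G]
    (hchar : ∀ H : Subgroup G, H.Characteristic → H = ⊥ ∨ H = ⊤) :
    ∃ (S : Type) (_ : Group S) (_ : IsSimpleGroup S) (n : ℕ),
      1 ≤ n ∧ Nonempty (G ≃* (Fin n → S)) := by
  classical
  obtain ⟨N, -, hNmin⟩ := (Set.toFinite {N : Subgroup G | N.Normal ∧ N ≠ ⊥}).exists_le_minimal
    (a := ⊤) ⟨inferInstance, top_ne_bot⟩
  obtain ⟨⟨hNn, hN0⟩, hmin⟩ := hNmin
  have hmin' : ∀ K : Subgroup G, K.Normal → K ≤ N → K = ⊥ ∨ K = N := by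
    intro K hK hle
    by_cases h : K = ⊥
    · exact Or.inl h
    · exact Or.inr (le_antisymm hle (hmin ⟨hK, h⟩ hle))
  have hmap_normal : ∀ φ : G ≃* G, (N.map φ.toMonoidHom).Normal :=
    fun φ => hNn.map _ φ.surjective
  have hmap_min : ∀ φ : G ≃* G, ∀ K : Subgroup G, K.Normal → K ≤ N.map φ.toMonoidHom →
      K = ⊥ ∨ K = N.map φ.toMonoidHom := by
    intro φ K hK hle
    have h1 : K.comap φ.toMonoidHom ≤ N := by
      intro x hx
      obtain ⟨y, hy, hyx⟩ := Subgroup.mem_map.mp (hle (Subgroup.mem_comap.mp hx))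
      have : y = x := φ.injective hyx
      rw [← this]
      exact hy
    rcases hmin' _ (hK.comap _) h1 with h | h
    · left
      rw [← Subgroup.map_comap_eq_self_of_surjective (f := φ.toMonoidHom) φ.surjective K, h,
        Subgroup.map_bot]
    · right
      rw [← Subgroup.map_comap_eq_self_of_surjective (f := φ.toMonoidHom) φ.surjective K, h]
  have hC : (⨆ φ : G ≃* G, N.map φ.toMonoidHom) = ⊤ := by
    have hCchar : (⨆ φ : G ≃* G, N.map φ.toMonoidHom).Characteristic := by
      rw [Subgroup.characteristic_iff_map_le]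
      intro ψ
      rw [Subgroup.map_iSup]
      apply iSup_le
      intro φ
      rw [Subgroup.map_map]
      exact le_iSup (fun φ : G ≃* G => N.map φ.toMonoidHom) (φ.trans ψ)
    rcases hchar _ hCchar with h | h
    · exfalso
      apply hN0
      rw [eq_bot_iff, ← h]
      have := le_iSup (fun φ : G ≃* G => N.map φ.toMonoidHom) (MulEquiv.refl G)
      refine le_trans ?_ this
      intro x hx
      exact Subgroup.mem_map.mpr ⟨x, hx, rfl⟩
    · exact h
  have hmain : ∀ M : Subgroup G,
      (∃ (ι : Type) (_ : Fintype ι) (φ : ι → (G ≃* G)),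
        iSupIndep (fun i => N.map (φ i).toMonoidHom) ∧ (⨆ i, N.map (φ i).toMonoidHom) = M) →
      ∃ (ι : Type) (_ : Fintype ι) (φ : ι → (G ≃* G)),
        iSupIndep (fun i => N.map (φ i).toMonoidHom) ∧ (⨆ i, N.map (φ i).toMonoidHom) = ⊤ := by
    intro M
    induction M using WellFoundedGT.induction with
    | _ M ih =>
      rintro ⟨ι, hι, φ, hind, hM⟩
      by_cases hMtop : M = ⊤
      · exact ⟨ι, hι, φ, hind, hM.trans hMtop⟩
      · have hex : ∃ φ₀ : G ≃* G, ¬ (N.map φ₀.toMonoidHom ≤ M) := by
          by_contra hcon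
          push Not at hcon
          apply hMtop
          rw [eq_top_iff, ← hC]
          exact iSup_le hcon
        obtain ⟨φ₀, hφ₀⟩ := hex
        have hMn : M.Normal := by
          rw [← hM]
          have : ∀ i, (N.map (φ i).toMonoidHom).Normal := fun i => hmap_normal (φ i)
          infer_instance
        have hdis : Disjoint (N.map φ₀.toMonoidHom) (⨆ i, N.map (φ i).toMonoidHom) := by
          rw [hM, disjoint_iff]
          have := hmap_normal φ₀
          rcases hmap_min φ₀ (N.map φ₀.toMonoidHom ⊓ M) inferInstance inf_le_left with h | h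
          · exact h
          · exact absurd (h ▸ inf_le_right) hφ₀
        have hind' := indep_option (fun i => N.map (φ i).toMonoidHom) (N.map φ₀.toMonoidHom)
          (hmap_normal φ₀) hind hdis
        have hfam : (fun o : Option ι => o.elim (N.map φ₀.toMonoidHom)
            (fun i => N.map (φ i).toMonoidHom))
            = fun o : Option ι => N.map (o.elim φ₀ φ).toMonoidHom := by
          funext o
          cases o <;> rfl
        rw [hfam] at hind'
        apply ih (N.map φ₀.toMonoidHom ⊔ M)
        · refine lt_of_le_of_ne le_sup_right ?_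
          intro h
          apply hφ₀
          rw [h]
          exact le_sup_left
        · refine ⟨Option ι, inferInstance, fun o => o.elim φ₀ φ, hind', ?_⟩
          rw [iSup_option]
          show N.map φ₀.toMonoidHom ⊔ (⨆ i, N.map (φ i).toMonoidHom) = N.map φ₀.toMonoidHom ⊔ M
          rw [hM]
  obtain ⟨ι, hι, φ, hind, htop⟩ := hmain ⊥ ⟨PEmpty, inferInstance, fun i => i.elim,
    fun i => i.elim, iSup_of_empty _⟩
  exact assemble N ι φ (fun i => hmap_normal (φ i)) (fun i => hmap_min (φ i)) hN0 hind htop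

theorem perm_equiv (S : Type*) [Group S] (n : ℕ) (σ : Equiv.Perm (Fin n)) :
    ∃ ψ : (Fin n → S) ≃* (Fin n → S), ∀ x i, ψ x i = x (σ i) := by
  refine ⟨{ toFun := fun x => x ∘ σ
            invFun := fun x => x ∘ σ.symm
            left_inv := ?_
            right_inv := ?_
            map_mul' := fun x y => rfl }, fun x i => rfl⟩
  · intro x
    funext i
    simp
  · intro x
    funext i
    simp

theorem shear_equiv (S : Type*) [Group S] (hS : ∀ a b : S, a * b = b * a) (n : ℕ)
    (i j : Fin n) (hij : i ≠ j) :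
    ∃ ψ : (Fin n → S) ≃* (Fin n → S), ∀ x, ψ x = x * Pi.mulSingle j (x i) := by
  classical
  refine ⟨{ toFun := fun x => x * Pi.mulSingle j (x i)
            invFun := fun x => x * Pi.mulSingle j (x i)⁻¹
            left_inv := ?_
            right_inv := ?_
            map_mul' := ?_ }, fun x => rfl⟩
  · intro x
    funext l
    by_cases hl : l = j
    · subst hl
      simp [Pi.mulSingle_eq_of_ne hij]
    · simp [Pi.mulSingle_eq_of_ne hl]
  · intro x
    funext l
    by_cases hl : l = j
    · subst hl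
      simp [Pi.mulSingle_eq_of_ne hij]
    · simp [Pi.mulSingle_eq_of_ne hl]
  · intro x y
    funext l
    by_cases hl : l = j
    · subst hl
      simp only [Pi.mul_apply, Pi.mulSingle_eq_same]
      calc x l * y l * (x i * y i) = x l * ((y l * x i) * y i) := by group
        _ = x l * ((x i * y l) * y i) := by rw [hS (y l) (x i)]
        _ = x l * x i * (y l * y i) := by group
    · simp [Pi.mulSingle_eq_of_ne hl]

theorem backward_P {S : Type} [Group S] [IsSimpleGroup S] (n : ℕ) (H : Subgroup (Fin n → S))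
    (hH : ∀ ψ : (Fin n → S) ≃* (Fin n → S), ∀ x ∈ H, ψ x ∈ H) : H = ⊥ ∨ H = ⊤ := by
  classical
  have hHn : H.Normal := ⟨fun x hx g => hH (MulAut.conj g) x hx⟩
  by_cases hS : IsMulCommutative S
  · by_cases hbot : H = ⊥
    · exact Or.inl hbot
    right
    obtain ⟨x, hx, hx1⟩ : ∃ x ∈ H, x ≠ 1 := by
      by_contra hcon
      push Not at hcon
      exact hbot ((Subgroup.eq_bot_iff_forall H).mpr hcon)
    obtain ⟨i, hi⟩ : ∃ i, x i ≠ 1 := by
      by_contra h
      push Not at h
      exact hx1 (funext h)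
    have hcommS : ∀ a b : S, a * b = b * a := fun a b => hS.is_comm.comm a b
    have hgen : ∀ s : S, ∃ m : ℤ, (x i) ^ m = s := by
      have hn : (Subgroup.zpowers (x i)).Normal := ⟨fun a ha g => by
        rw [hcommS g a, mul_inv_cancel_right]
        exact ha⟩
      have htop := hn.eq_bot_or_eq_top.resolve_left
        (fun h => hi (Subgroup.zpowers_eq_bot.mp h))
      intro s
      have hs : s ∈ Subgroup.zpowers (x i) := htop ▸ Subgroup.mem_top s
      exact Subgroup.mem_zpowers_iff.mp hs
    have hpow : ∀ (j : Fin n) (a : S) (m : ℤ),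
        (Pi.mulSingle j (a ^ m) : Fin n → S) = (Pi.mulSingle j a : Fin n → S) ^ m :=
      fun j a m => map_zpow (MonoidHom.mulSingle (fun _ : Fin n => S) j) a m
    have h1 : ∀ j, j ≠ i → ∀ s : S, (Pi.mulSingle j s : Fin n → S) ∈ H := by
      intro j hj s
      obtain ⟨ψ, hψ⟩ := shear_equiv S hcommS n i j (Ne.symm hj)
      have h2 : (Pi.mulSingle j (x i) : Fin n → S) ∈ H := by
        have := H.mul_mem (H.inv_mem hx) (hH ψ x hx)
        rw [hψ, inv_mul_cancel_left] at this
        exact this
      obtain ⟨m, rfl⟩ := hgen s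
      rw [hpow]
      exact H.zpow_mem h2 m
    have h2 : ∀ y : Fin n → S, y i = 1 → y ∈ H := by
      intro y hy
      rw [← Finset.noncommProd_mulSingle y]
      apply Subgroup.noncommProd_mem
      intro j _
      by_cases hj : j = i
      · rw [hj, hy, Pi.mulSingle_one]
        exact H.one_mem
      · exact h1 j hj (y j)
    have h3 : (Pi.mulSingle i (x i) : Fin n → S) ∈ H := by
      have : (Pi.mulSingle i (x i) : Fin n → S) = x * (x⁻¹ * Pi.mulSingle i (x i)) := by group
      rw [this]
      exact H.mul_mem hx (h2 _ (by simp))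
    have h4 : ∀ j, ∀ s : S, (Pi.mulSingle j s : Fin n → S) ∈ H := by
      intro j s
      by_cases hj : j = i
      · subst hj
        obtain ⟨m, rfl⟩ := hgen s
        rw [hpow]
        exact H.zpow_mem h3 m
      · exact h1 j hj s
    rw [eq_top_iff]
    intro y _
    rw [← Finset.noncommProd_mulSingle y]
    exact Subgroup.noncommProd_mem H _ (fun j _ => h4 j (y j))
  · obtain ⟨T, hT⟩ := Cfsg.Agent.S5913.result hS n H
    by_cases hT0 : T = ∅
    · left
      rw [eq_bot_iff]
      intro x hx
      rw [Subgroup.mem_bot]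
      funext i
      exact (hT x).mp hx i (by rw [hT0]; simp)
    by_cases hT1 : T = Finset.univ
    · right
      rw [eq_top_iff]
      intro x _
      exact (hT x).mpr (fun i hi => absurd (by rw [hT1]; simp) hi)
    exfalso
    obtain ⟨i, hi⟩ := Finset.nonempty_iff_ne_empty.mpr hT0
    obtain ⟨j, hj⟩ : ∃ j, j ∉ T := by
      by_contra h
      push Not at h
      exact hT1 (Finset.eq_univ_iff_forall.mpr h)
    obtain ⟨s, hs⟩ := exists_ne (1 : S)
    have hx : (Pi.mulSingle i s : Fin n → S) ∈ H :=
      (hT _).mpr (fun k hk => by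
        have hki : k ≠ i := fun h => hk (by rw [h]; exact hi)
        simp [Pi.mulSingle_eq_of_ne hki])
    obtain ⟨ψ, hψ⟩ := perm_equiv S n (Equiv.swap i j)
    have := (hT _).mp (hH ψ _ hx) j hj
    rw [hψ, Equiv.swap_apply_right, Pi.mulSingle_eq_same] at this
    exact hs this

theorem result {G : Type*} [Group G] [Finite G] [Nontrivial G] :
    (∀ H : Subgroup G, H.Characteristic → H = ⊥ ∨ H = ⊤) ↔
    ∃ (S : Type) (_ : Group S) (_ : IsSimpleGroup S) (n : ℕ), 1 ≤ n ∧ Nonempty (G ≃* (Fin n → S)) := by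
  constructor
  · exact forward
  · rintro ⟨S, instG, instS, n, hn, ⟨e⟩⟩ H hH
    have key : H.map e.toMonoidHom = ⊥ ∨ H.map e.toMonoidHom = ⊤ := by
      apply backward_P n (H.map e.toMonoidHom)
      intro ψ x hx
      obtain ⟨h, hh, rfl⟩ := Subgroup.mem_map.mp hx
      have hfix := (Subgroup.characteristic_iff_map_le.mp hH) (e.trans (ψ.trans e.symm))
      have hmem : (e.trans (ψ.trans e.symm)) h ∈ H := hfix (Subgroup.mem_map.mpr ⟨h, hh, rfl⟩)
      refine Subgroup.mem_map.mpr ⟨_, hmem, ?_⟩
      simp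
    rcases key with h | h
    · left
      exact (Subgroup.map_eq_bot_iff_of_injective H e.injective).mp h
    · right
      rw [eq_top_iff]
      intro x _
      have hx : e x ∈ H.map e.toMonoidHom := by
        rw [h]
        trivial
      obtain ⟨y, hy, hyx⟩ := Subgroup.mem_map.mp hx
      have : y = x := e.injective hyx
      rw [← this]
      exact hy

end Cfsg.Agent.S5914
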