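import Mathlib
import Cfsg.Agent.S5914
import Cfsg.Statements.S0721

set_option autoImplicit false
open Cfsg

namespace Cfsg.Agent.S0721

/-- A minimal normal subgroup of a finite group is isomorphic to a direct power `T ^ m` of a simple group `T` (possibly of prime order). -/
theorem result {H : Type*} [Group H] [Finite H] (N : Subgroup H) [N.Normal] (hN : N ≠ ⊥) (hmin : ∀ M : Subgroup H, M.Normal → M ≤ N → M = ⊥ ∨ M = N) : ∃ (T : Type) (_ : Group T) (m : ℕ), IsSimpleGroup T ∧ 0 < m ∧ Nonempty (N ≃* (Fin m → T)) := by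
  haveI : Nontrivial N := (Subgroup.nontrivial_iff_ne_bot N).2 hN
  have hchar : ∀ K : Subgroup N, K.Characteristic → K = ⊥ ∨ K = ⊤ := by
    intro K hK
    have hKn : (K.map N.subtype).Normal := by
      constructor
      intro x hx h
      obtain ⟨y, hy, rfl⟩ := Subgroup.mem_map.1 hx
      have h1 := (Subgroup.characteristic_iff_map_le.1 hK) (MulAut.conjNormal h)
      have h2 : (MulAut.conjNormal h) y ∈ K := h1 (Subgroup.mem_map.2 ⟨y, hy, rfl⟩)
      refine Subgroup.mem_map.2 ⟨_, h2, ?_⟩
      simp [MulAut.conjNormal_apply]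
    rcases hmin _ hKn (Subgroup.map_subtype_le K) with h | h
    · left
      exact (Subgroup.map_eq_bot_iff_of_injective K N.subtype_injective).1 h
    · right
      rw [eq_top_iff]
      intro x _
      have hx : (x : H) ∈ K.map N.subtype := by rw [h]; exact x.2
      obtain ⟨y, hy, hyx⟩ := Subgroup.mem_map.1 hx
      have e : y = x := Subtype.ext hyx
      rw [← e]
      exact hy
  obtain ⟨S, iG, iS, n, hn, he⟩ := Cfsg.Agent.S5914.forward hchar
  exact ⟨S, iG, n, iS, hn, he⟩

end Cfsg.Agent.S0721
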