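import Mathlib
import Cfsg.Statements.S0876
import Cfsg.Agent.Lib.Helper3.Char
import Cfsg.Agent.Lib.Helper3.CharCore
import Cfsg.Agent.Lib.Helper3.CharTable
import Cfsg.Agent.Lib.Helper3.BlkLocal
import Cfsg.Agent.Lib.Helper3.BlkDef
import Cfsg.Agent.Lib.Helper3.BlkCong

set_option autoImplicit false
open Cfsg
open Cfsg.Agent.Lib.Helper3.Char Cfsg.Agent.Lib.Helper3.CharCore Cfsg.Agent.Lib.Helper3.CharTable Cfsg.Agent.Lib.Helper3.BlkLocal Cfsg.Agent.Lib.Helper3.BlkDef Cfsg.Agent.Lib.Helper3.BlkCong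
open scoped ComplexConjugate

namespace Cfsg.Agent.S0876

theorem result {G : Type*} [Group G] [Finite G] (p : ℕ) (M : Ideal Cfsg.AlgInt) (hM : Cfsg.IsPModular p M) (x y a b : G) (ha : Cfsg.IsPPart p x a) (hb : Cfsg.IsPPart p y b) : IsConj (a⁻¹ * x) (b⁻¹ * y) ↔ ∀ χ : Cfsg.IrrCharacter G, Cfsg.MemLocalIdeal M ((χ : G → ℂ) x - (χ : G → ℂ) y) := by
  classical
  have _fg : Fintype G := Fintype.ofFinite G
  have _fi : Fintype (Cfsg.IrrCharacter G) := Fintype.ofFinite _
  have hp := hM.1
  have _fp : Fact p.Prime := ⟨hp⟩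
  have hMp := hM.2.1.isPrime
  obtain ⟨u, hau, hcu, ⟨k, hk⟩, hureg⟩ := ha
  obtain ⟨v, hbv, hcv, ⟨k', hk'⟩, hvreg⟩ := hb
  have eu : a⁻¹ * x = u := by rw [← hau, inv_mul_cancel_left]
  have ev : b⁻¹ * y = v := by rw [← hbv, inv_mul_cancel_left]
  rw [eu, ev]
  have hxa : ∀ χ : Cfsg.IrrCharacter G,
      Cfsg.MemLocalIdeal M ((χ : G → ℂ) x - (χ : G → ℂ) u) := by
    intro χ
    rw [← hau]
    exact char_cong hM (isCharacter_of_irr χ.2) a u hcu.eq k (by
      rw [← hk]
      exact pow_orderOf_eq_one a)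
  have hyb : ∀ χ : Cfsg.IrrCharacter G,
      Cfsg.MemLocalIdeal M ((χ : G → ℂ) y - (χ : G → ℂ) v) := by
    intro χ
    rw [← hbv]
    exact char_cong hM (isCharacter_of_irr χ.2) b v hcv.eq k' (by
      rw [← hk']
      exact pow_orderOf_eq_one b)
  have hord : ∀ t g : G, orderOf (t * g * t⁻¹) = orderOf g := by
    intro t g
    exact (SemiconjBy.orderOf_eq t (show SemiconjBy t g (t * g * t⁻¹) by
      unfold SemiconjBy
      group)).symm
  constructor
  · intro hconj χ
    have h1 : (χ : G → ℂ) u = (χ : G → ℂ) v := by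
      obtain ⟨t, ht⟩ := isConj_iff.mp hconj
      rw [← ht]
      exact (char_classFun (isCharacter_of_irr χ.2) u t).symm
    have h2 := li_sub hMp (hxa χ) (hyb χ)
    have e : ((χ : G → ℂ) x - (χ : G → ℂ) u) - ((χ : G → ℂ) y - (χ : G → ℂ) v) =
        (χ : G → ℂ) x - (χ : G → ℂ) y := by
      rw [h1]
      ring
    rw [e] at h2
    exact h2
  · intro hall
    have huv : ∀ χ : Cfsg.IrrCharacter G,
        Cfsg.MemLocalIdeal M ((χ : G → ℂ) u - (χ : G → ℂ) v) := by
      intro χ
      have h2 := li_sub hMp (li_sub hMp (hall χ) (hxa χ)) (li_neg (hyb χ))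
      have e : (((χ : G → ℂ) x - (χ : G → ℂ) y) - ((χ : G → ℂ) x - (χ : G → ℂ) u)) -
          (-((χ : G → ℂ) y - (χ : G → ℂ) v)) = (χ : G → ℂ) u - (χ : G → ℂ) v := by ring
      rw [e] at h2
      exact h2
    by_contra hnc
    obtain ⟨P₀⟩ : Nonempty (Sylow p (Subgroup.centralizer ({u} : Set G))) := inferInstance
    obtain ⟨P, hP⟩ : ∃ P : Subgroup G, P = (P₀ : Subgroup (Subgroup.centralizer ({u} : Set G))).map
        (Subgroup.centralizer ({u} : Set G)).subtype := ⟨_, rfl⟩
    have hPp : IsPGroup p P := by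
      rw [hP]
      exact P₀.isPGroup'.map _
    have hPc : ∀ w ∈ P, w * u = u * w := by
      intro w hw
      rw [hP] at hw
      obtain ⟨t, _, rfl⟩ := hw
      exact (Subgroup.mem_centralizer_iff.mp t.2 u rfl).symm
    have hPcard : Nat.card P = Nat.card P₀ := by
      rw [hP]
      exact Subgroup.card_map_of_injective (Subgroup.subtype_injective _)
    have _fP : Fintype P := Fintype.ofFinite _
    obtain ⟨c, hc⟩ : ∃ c : Cfsg.IrrCharacter G → ℂ, c = fun χ : Cfsg.IrrCharacter G =>
        (Nat.card P : ℂ)⁻¹ * ∑ w : P, (χ : G → ℂ) (u * (w : G)) := ⟨_, rfl⟩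
    have hcint : ∀ χ, IsIntegral ℤ (c χ) := by
      intro χ
      rw [hc]
      exact avg_char_integral (isCharacter_of_irr χ.2) u P hPc
    have hΘ : ∀ g : G, ∑ χ : Cfsg.IrrCharacter G, conj (c χ) * (χ : G → ℂ) g =
        (Nat.card P : ℂ)⁻¹ * ∑ w : P, (Nat.card {t : G // t * g * t⁻¹ = u * (w : G)} : ℂ) := by
      intro g
      have e1 : ∀ χ : Cfsg.IrrCharacter G, conj (c χ) * (χ : G → ℂ) g =
          (Nat.card P : ℂ)⁻¹ * ∑ w : P, (χ : G → ℂ) g * conj ((χ : G → ℂ) (u * (w : G))) := by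
        intro χ
        rw [hc]
        simp only [map_mul, map_inv₀, Complex.conj_natCast, map_sum]
        rw [mul_assoc, Finset.sum_mul]
        congr 1
        exact Finset.sum_congr rfl (fun w _ => mul_comm _ _)
      rw [Finset.sum_congr rfl (fun χ _ => e1 χ), ← Finset.mul_sum, Finset.sum_comm]
      congr 1
      exact Finset.sum_congr rfl (fun w _ => column_orth g (u * (w : G)))
    have hN0 : ∀ g : G, ¬ p ∣ orderOf g → ∀ w : P, w ≠ 1 →
        (Nat.card {t : G // t * g * t⁻¹ = u * (w : G)} : ℂ) = 0 := by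
      intro g hg w hw
      have h0 : Nat.card {t : G // t * g * t⁻¹ = u * (w : G)} = 0 := by
        rw [Nat.card_eq_zero]
        left
        constructor
        rintro ⟨t, ht⟩
        obtain ⟨kw, hkw⟩ := hPp w
        have hkw' : (w : G) ^ (p ^ kw) = 1 := by
          have := congrArg (Subtype.val) hkw
          simpa using this
        have h2 : p ∣ orderOf (u * (w : G)) :=
          psing_mul hp u (w : G) hureg (hPc w w.2) kw hkw' (fun h => hw (Subtype.ext h))
        rw [← ht, hord] at h2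
        exact hg h2
      rw [h0, Nat.cast_zero]
    have hNu : Nat.card {t : G // t * u * t⁻¹ = u * ((1 : P) : G)} =
        Nat.card (Subgroup.centralizer ({u} : Set G)) := by
      apply Nat.card_congr
      refine Equiv.subtypeEquivRight (fun t => ?_)
      rw [Subgroup.mem_centralizer_iff]
      constructor
      · intro h z hz
        rw [Set.mem_singleton_iff.mp hz]
        rw [OneMemClass.coe_one, mul_one] at h
        exact (mul_inv_eq_iff_eq_mul.mp h).symm
      · intro h
        rw [OneMemClass.coe_one, mul_one]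
        exact mul_inv_eq_iff_eq_mul.mpr (h u rfl).symm
    have hNv : (Nat.card {t : G // t * v * t⁻¹ = u * ((1 : P) : G)} : ℂ) = 0 := by
      have h0 : Nat.card {t : G // t * v * t⁻¹ = u * ((1 : P) : G)} = 0 := by
        rw [Nat.card_eq_zero]
        left
        constructor
        rintro ⟨t, ht⟩
        rw [OneMemClass.coe_one, mul_one] at ht
        exact hnc (isConj_iff.mpr ⟨t, ht⟩).symm
      rw [h0, Nat.cast_zero]
    have hΘu : ∑ χ : Cfsg.IrrCharacter G, conj (c χ) * (χ : G → ℂ) u =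
        (Nat.card P : ℂ)⁻¹ * (Nat.card (Subgroup.centralizer ({u} : Set G)) : ℂ) := by
      rw [hΘ u, Finset.sum_eq_single (1 : P), hNu]
      · intro w _ hw
        exact hN0 u hureg w hw
      · intro h
        exact absurd (Finset.mem_univ _) h
    have hΘv : ∑ χ : Cfsg.IrrCharacter G, conj (c χ) * (χ : G → ℂ) v = 0 := by
      rw [hΘ v, Finset.sum_eq_zero, mul_zero]
      intro w _
      by_cases hw : w = 1
      · rw [hw]
        exact hNv
      · exact hN0 v hvreg w hw
    have key : Cfsg.MemLocalIdeal M (∑ χ : Cfsg.IrrCharacter G,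
        conj (c χ) * ((χ : G → ℂ) u - (χ : G → ℂ) v)) :=
      li_sum hMp _ _ (fun χ _ => li_mul_left hMp (lr_of_isIntegral hMp
        (map_isIntegral_int (starRingEnd ℂ) (hcint χ))) (huv χ))
    simp only [mul_sub, Finset.sum_sub_distrib] at key
    rw [hΘu, hΘv, sub_zero] at key
    have hidx := (P₀ : Subgroup (Subgroup.centralizer ({u} : Set G))).card_mul_index
    have hP0 : (Nat.card P : ℂ) ≠ 0 := by exact_mod_cast Nat.card_pos.ne'
    have e : (Nat.card P : ℂ)⁻¹ * (Nat.card (Subgroup.centralizer ({u} : Set G)) : ℂ) =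
        (((P₀ : Subgroup (Subgroup.centralizer ({u} : Set G))).index : ℕ) : ℂ) := by
      rw [← hidx, hPcard]
      push_cast
      rw [hPcard] at hP0
      field_simp
    rw [e] at key
    exact P₀.not_dvd_index ((li_nat_iff hM _).mp key)

end Cfsg.Agent.S0876
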