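import Cfsg.Statements.S1254
import Mathlib
import Cfsg.Agent.S0071

set_option autoImplicit false
open Cfsg

namespace Cfsg.Agent.S1254

/-- stability: an odd-order element acting as multiplication by a commuting 2-element acts trivially -/
theorem stab {X : Type*} [Group X] (g q c : X) (n : ℕ) (ho : Nat.Coprime (orderOf g) 2)
    (hgc : g * c = c * g) (hq : g * q * g⁻¹ = c * q) (hc : c ^ (2 ^ n) = 1) : c = 1 := by
  have key : ∀ k : ℕ, g ^ k * q * (g ^ k)⁻¹ = c ^ k * q := by
    intro k
    induction k with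
    | zero => simp
    | succ k ih =>
      have h1 : g ^ (k + 1) * q * (g ^ (k + 1))⁻¹ = g * (g ^ k * q * (g ^ k)⁻¹) * g⁻¹ := by
        rw [pow_succ']; group
      rw [h1, ih]
      have h2 : g * (c ^ k * q) * g⁻¹ = (g * c ^ k * g⁻¹) * (g * q * g⁻¹) := by group
      have hcomm : Commute g (c ^ k) := (show Commute g c from hgc).pow_right k
      have h3 : g * c ^ k * g⁻¹ = c ^ k := by
        rw [hcomm.eq]; group
      rw [h2, h3, hq, pow_succ, mul_assoc]
  have h1 := key (orderOf g)
  rw [pow_orderOf_eq_one] at h1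
  have h2 : c ^ (orderOf g) = 1 := by
    have : c ^ (orderOf g) * q = q := by rw [← h1]; group
    exact mul_eq_right.1 this
  have h3 : orderOf c ∣ orderOf g := orderOf_dvd_of_pow_eq_one h2
  have h4 : orderOf c ∣ 2 ^ n := orderOf_dvd_of_pow_eq_one hc
  have h5 : Nat.Coprime (orderOf c) (2 ^ n) :=
    Nat.Coprime.coprime_dvd_left h3 (Nat.Coprime.pow_right n ho)
  have h6 : orderOf c = 1 := Nat.Coprime.eq_one_of_dvd h5 h4
  exact orderOf_eq_one_iff.1 h6

/-- an odd-order element normalizing a cyclic 2-group centralizes it -/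
theorem cyc {X : Type*} [Group X] (g : X) (ho : Nat.Coprime (orderOf g) 2) :
    ∀ n : ℕ, ∀ q : X, q ^ (2 ^ n) = 1 → g * q * g⁻¹ ∈ Subgroup.zpowers q → g * q * g⁻¹ = q := by
  intro n
  induction n with
  | zero =>
    intro q hq _
    simp only [pow_zero, pow_one] at hq
    rw [hq]; group
  | succ n ih =>
    intro q hq hmem
    obtain ⟨j, hj⟩ := Subgroup.mem_zpowers_iff.1 hmem
    have hq2 : (q ^ 2) ^ (2 ^ n) = 1 := by
      rw [← pow_mul, ← pow_succ']; exact hq
    have hconj2 : g * q ^ 2 * g⁻¹ = (q ^ 2) ^ j := by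
      have : g * q ^ 2 * g⁻¹ = (g * q * g⁻¹) ^ 2 := by rw [pow_two, pow_two]; group
      rw [this, ← hj, ← zpow_natCast, ← zpow_natCast, ← zpow_mul, ← zpow_mul, mul_comm]
    have hih := ih (q ^ 2) hq2 (by rw [hconj2]; exact Subgroup.zpow_mem_zpowers _ _)
    have hcomm2 : Commute g (q ^ 2) := by
      show g * q ^ 2 = q ^ 2 * g
      calc g * q ^ 2 = (g * q ^ 2 * g⁻¹) * g := by group
        _ = q ^ 2 * g := by rw [hih]
    rcases Int.even_or_odd j with ⟨i, hi⟩ | ⟨i, hi⟩
    · have hqj : q ^ j = (q ^ 2) ^ i := by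
        rw [hi, ← two_mul, zpow_mul, zpow_two, pow_two]
      have hc : Commute g (g * q * g⁻¹) := by
        rw [← hj, hqj]; exact hcomm2.zpow_right i
      have h1 : g * (g * q * g⁻¹) * g⁻¹ = g * q * g⁻¹ := by
        rw [hc.eq]; group
      calc g * q * g⁻¹ = g⁻¹ * (g * (g * q * g⁻¹) * g⁻¹) * g := by group
        _ = g⁻¹ * (g * q * g⁻¹) * g := by rw [h1]
        _ = q := by group
    · have hqj : q ^ j = (q ^ 2) ^ i * q := by
        rw [hi, zpow_add, zpow_one, zpow_mul, zpow_two, pow_two]
      have hc : Commute g ((q ^ 2) ^ i) := hcomm2.zpow_right i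
      have hx : (q ^ 2) ^ (2 ^ (n + 1)) = 1 := by
        rw [pow_succ 2 n, pow_mul (q ^ 2) (2 ^ n) 2, hq2, one_pow]
      have hc2 : ((q ^ 2) ^ i) ^ (2 ^ (n + 1)) = 1 := by
        rw [← zpow_natCast, ← zpow_mul, mul_comm, zpow_mul, zpow_natCast, hx, one_zpow]
      have h1 := stab g q ((q ^ 2) ^ i) (n + 1) ho hc.eq (by rw [← hj, hqj]) hc2
      rw [← hj, hqj, h1, one_mul]

section dihedral

variable {X : Type*} [Group X] (S : Subgroup X) (m : ℕ) [NeZero m] (eS : ↥S ≃* DihedralGroup m)

/-- the rotation generator -/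
noncomputable def rot : X := ((eS.symm (DihedralGroup.r 1) : ↥S) : X)

theorem rot_mem : rot S m eS ∈ S := (eS.symm (DihedralGroup.r 1)).2

theorem dih_cases (x : X) (hx : x ∈ S) :
    x ∈ Subgroup.zpowers (rot S m eS) ∨ ∃ i, eS ⟨x, hx⟩ = DihedralGroup.sr i := by
  cases h : eS ⟨x, hx⟩ with
  | r i =>
    left
    have h1 : (⟨x, hx⟩ : ↥S) = eS.symm (DihedralGroup.r i) := by
      rw [← h, MulEquiv.symm_apply_apply]
    have h2 : (DihedralGroup.r i : DihedralGroup m) = (DihedralGroup.r 1) ^ (i.val) := by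
      rw [DihedralGroup.r_one_pow, ZMod.natCast_zmod_val]
    rw [h2, map_pow] at h1
    have h3 : x = (rot S m eS) ^ (i.val) := by
      have := congrArg (fun y : ↥S => (y : X)) h1
      simpa [rot] using this
    rw [h3]
    exact Subgroup.pow_mem _ (Subgroup.mem_zpowers _) _
  | sr i => right; exact ⟨i, rfl⟩

theorem refl_sq (x : X) (hx : x ∈ S) (hxa : x ∉ Subgroup.zpowers (rot S m eS)) : x * x = 1 := by
  rcases dih_cases S m eS x hx with h | ⟨i, hi⟩
  · exact absurd h hxa
  · have h1 : eS (⟨x, hx⟩ * ⟨x, hx⟩) = 1 := by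
      rw [map_mul, hi, DihedralGroup.sr_mul_self]
    have h2 : (⟨x, hx⟩ * ⟨x, hx⟩ : ↥S) = 1 := by
      have := eS.injective (h1.trans (map_one eS).symm)
      exact this
    have := congrArg (fun y : ↥S => (y : X)) h2
    simpa using this

theorem refl_mul (x y : X) (hx : x ∈ S) (hy : y ∈ S)
    (hxa : x ∉ Subgroup.zpowers (rot S m eS)) (hya : y ∉ Subgroup.zpowers (rot S m eS)) :
    x * y ∈ Subgroup.zpowers (rot S m eS) := by
  rcases dih_cases S m eS x hx with h | ⟨i, hi⟩
  · exact absurd h hxa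
  rcases dih_cases S m eS y hy with h | ⟨j, hj⟩
  · exact absurd h hya
  rcases dih_cases S m eS (x * y) (S.mul_mem hx hy) with h | ⟨k, hk⟩
  · exact h
  · exfalso
    have h1 : eS (⟨x * y, S.mul_mem hx hy⟩) = eS (⟨x, hx⟩ * ⟨y, hy⟩) := rfl
    rw [map_mul, hi, hj, DihedralGroup.sr_mul_sr] at h1
    rw [h1] at hk
    cases hk

end dihedral

/-- product decomposition of `C ⊔ T` when `T` normalizes `C` -/
theorem sup_decomp {X : Type*} [Group X] (C T : Subgroup X)
    (hT : ∀ s ∈ T, ∀ c ∈ C, s * c * s⁻¹ ∈ C) (g : X) (hg : g ∈ C ⊔ T) :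
    ∃ c ∈ C, ∃ s ∈ T, g = c * s := by
  let M : Subgroup X :=
    { carrier := {x | ∃ c ∈ C, ∃ s ∈ T, x = c * s}
      one_mem' := ⟨1, C.one_mem, 1, T.one_mem, by simp⟩
      mul_mem' := by
        rintro x y ⟨c₁, hc₁, s₁, hs₁, rfl⟩ ⟨c₂, hc₂, s₂, hs₂, rfl⟩
        refine ⟨c₁ * (s₁ * c₂ * s₁⁻¹), C.mul_mem hc₁ (hT s₁ hs₁ c₂ hc₂), s₁ * s₂,
          T.mul_mem hs₁ hs₂, by group⟩
      inv_mem' := by
        rintro x ⟨c, hc, s, hs, rfl⟩
        refine ⟨s⁻¹ * c⁻¹ * s⁻¹⁻¹, hT s⁻¹ (T.inv_mem hs) c⁻¹ (C.inv_mem hc), s⁻¹, T.inv_mem hs,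
          by group⟩ }
  have h1 : C ⊔ T ≤ M := by
    apply sup_le
    · intro c hc; exact ⟨c, hc, 1, T.one_mem, by simp⟩
    · intro s hs; exact ⟨1, C.one_mem, s, hs, by simp⟩
  exact h1 hg

theorem odd_in {X : Type*} [Group X] (C T : Subgroup X)
    (hT : ∀ s ∈ T, ∀ c ∈ C, s * c * s⁻¹ ∈ C) (hT2 : ∀ s ∈ T, ∃ k : ℕ, s ^ (2 ^ k) = 1)
    (g : X) (hg : g ∈ C ⊔ T) (ho : Nat.Coprime (orderOf g) 2) : g ∈ C := by
  obtain ⟨c, hc, s, hs, rfl⟩ := sup_decomp C T hT g hg
  obtain ⟨k, hk⟩ := hT2 s hs
  have key : ∀ j : ℕ, ∃ c' ∈ C, (c * s) ^ j = c' * s ^ j := by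
    intro j
    induction j with
    | zero => exact ⟨1, C.one_mem, by simp⟩
    | succ j ih =>
      obtain ⟨c', hc', h⟩ := ih
      refine ⟨c' * (s ^ j * c * (s ^ j)⁻¹), C.mul_mem hc' (hT _ (T.pow_mem hs j) c hc), ?_⟩
      rw [pow_succ, h, pow_succ]; group
  obtain ⟨c', hc', h⟩ := key (2 ^ k)
  rw [hk, mul_one] at h
  have h2 : (c * s) ^ (2 ^ k) ∈ C := by rw [h]; exact hc'
  by_cases h1 : orderOf (c * s) = 1
  · rw [orderOf_eq_one_iff.1 h1]; exact C.one_mem
  · have hgt : 1 < orderOf (c * s) := by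
      have : orderOf (c * s) ≠ 0 := by
        intro h0; rw [h0] at ho; simp at ho
      omega
    have hcop : Nat.Coprime (2 ^ k) (orderOf (c * s)) := (Nat.Coprime.pow_right k ho).symm
    obtain ⟨u, -, hu⟩ := Nat.exists_mul_mod_eq_one_of_coprime hcop hgt
    have h3 : (c * s) ^ (2 ^ k * u) = c * s := by
      rw [← pow_mod_orderOf, hu, pow_one]
    rw [← h3, pow_mul]
    exact C.pow_mem h2 u

theorem central {X : Type*} [Group X] (S : Subgroup X) (hS2 : IsPGroup 2 S) (m : ℕ) [NeZero m]
    (eS : ↥S ≃* DihedralGroup m)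
    (hyp : ∀ U : Subgroup X, U ≤ S → IsKleinFour U → Subgroup.normalizer (U : Set X) =
      Subgroup.centralizer (U : Set X) ⊔ (S ⊓ Subgroup.normalizer (U : Set X)))
    (Q : Subgroup X) (hQS : Q ≤ S) (g : X) (hg : g ∈ Subgroup.normalizer (Q : Set X))
    (ho : Nat.Coprime (orderOf g) 2) : g ∈ Subgroup.centralizer (Q : Set X) := by
  rw [Subgroup.mem_centralizer_iff]
  have hgQ : ∀ q ∈ Q, g * q * g⁻¹ ∈ Q := fun q hq => (Subgroup.mem_normalizer_iff.1 hg q).1 hq
  have hel2 : ∀ x ∈ S, ∃ k : ℕ, x ^ (2 ^ k) = 1 := by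
    intro x hx
    obtain ⟨k, hk⟩ := hS2 ⟨x, hx⟩
    refine ⟨k, ?_⟩
    have := congrArg (fun y : ↥S => (y : X)) hk
    simpa using this
  obtain ⟨n, hn⟩ := hel2 _ (rot_mem S m eS)
  generalize ha : rot S m eS = a at hn
  have hA2 : ∀ x ∈ Subgroup.zpowers a, x ^ (2 ^ n) = 1 := by
    intro x hx
    obtain ⟨j, rfl⟩ := Subgroup.mem_zpowers_iff.1 hx
    rw [← zpow_natCast, ← zpow_mul, mul_comm, zpow_mul, zpow_natCast, hn, one_zpow]
  have hsq : ∀ x ∈ S, x ∉ Subgroup.zpowers a → x * x = 1 := by
    intro x hx hxa; rw [← ha] at hxa; exact refl_sq S m eS x hx hxa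
  have hmul : ∀ x ∈ S, ∀ y ∈ S, x ∉ Subgroup.zpowers a → y ∉ Subgroup.zpowers a →
      x * y ∈ Subgroup.zpowers a := by
    intro x hx y hy hxa hya; rw [← ha] at hxa hya ⊢; exact refl_mul S m eS x y hx hy hxa hya
  -- the cyclic part
  haveI : IsCyclic ↥(Q ⊓ Subgroup.zpowers a) := Subgroup.isCyclic_of_le (inf_le_right)
  obtain ⟨b, hb⟩ := (Subgroup.isCyclic_iff_exists_zpowers_eq_top _).1
    (inferInstance : IsCyclic ↥(Q ⊓ Subgroup.zpowers a))
  have hbmem : b ∈ Q ⊓ Subgroup.zpowers a := by rw [← hb]; exact Subgroup.mem_zpowers b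
  have hbQ : b ∈ Q := hbmem.1
  have hbA : b ∈ Subgroup.zpowers a := hbmem.2
  have hbgen : ∀ y ∈ Q, y ∈ Subgroup.zpowers a → y ∈ Subgroup.zpowers b := by
    intro y hy hya
    rw [hb]; exact ⟨hy, hya⟩
  have hb2n : b ^ (2 ^ n) = 1 := hA2 b hbA
  by_cases hQA : Q ≤ Subgroup.zpowers a
  · -- cyclic case
    have h1 : g * b * g⁻¹ = b :=
      cyc g ho n b hb2n (hbgen _ (hgQ b hbQ) (hQA (hgQ b hbQ)))
    have hcb : Commute g b := by
      show g * b = b * g
      calc g * b = (g * b * g⁻¹) * g := by group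
        _ = b * g := by rw [h1]
    intro q hq
    obtain ⟨j, rfl⟩ := Subgroup.mem_zpowers_iff.1 (hbgen q hq (hQA hq))
    exact ((hcb.zpow_right j).eq).symm
  · obtain ⟨t, htQ, htA⟩ := SetLike.not_le_iff_exists.1 hQA
    have htS : t ∈ S := hQS htQ
    have htt : t * t = 1 := hsq t htS htA
    have htinv : t⁻¹ = t := inv_eq_of_mul_eq_one_left htt
    have hdecomp : ∀ q ∈ Q, q ∈ Subgroup.zpowers b ∨ ∃ k : ℤ, q = t * b ^ k := by
      intro q hq
      by_cases hqA : q ∈ Subgroup.zpowers a
      · left; exact hbgen q hq hqA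
      · right
        have h1 : t * q ∈ Subgroup.zpowers b :=
          hbgen _ (Q.mul_mem htQ hq) (hmul t htS q (hQS hq) htA hqA)
        obtain ⟨k, hk⟩ := Subgroup.mem_zpowers_iff.1 h1
        refine ⟨k, ?_⟩
        rw [hk]
        calc q = (t * t) * q := by rw [htt, one_mul]
          _ = t * (t * q) := by group
    by_cases hbb : b * b = 1
    · -- elementary case
      have hbk : ∀ k : ℤ, b ^ k = 1 ∨ b ^ k = b := by
        intro k
        have hb2 : b ^ (2 : ℤ) = 1 := by
          rw [show (2 : ℤ) = ((2 : ℕ) : ℤ) from rfl, zpow_natCast, pow_two]; exact hbb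
        rcases Int.even_or_odd k with ⟨i, hi⟩ | ⟨i, hi⟩
        · left; rw [hi, ← two_mul, zpow_mul, hb2, one_zpow]
        · right; rw [hi, zpow_add, zpow_mul, hb2, one_zpow, one_mul, zpow_one]
      have hQel : ∀ q ∈ Q, q = 1 ∨ q = b ∨ q = t ∨ q = t * b := by
        intro q hq
        rcases hdecomp q hq with h | ⟨k, hk⟩
        · obtain ⟨k, rfl⟩ := Subgroup.mem_zpowers_iff.1 h
          rcases hbk k with h1 | h1
          · left; exact h1
          · right; left; exact h1
        · rcases hbk k with h1 | h1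
          · right; right; left; rw [hk, h1, mul_one]
          · right; right; right; rw [hk, h1]
      have ht1 : t ≠ 1 := by
        intro h; apply htA; rw [h]; exact Subgroup.one_mem _
      by_cases hb1 : b = 1
      · have hQel' : ∀ q ∈ Q, q = 1 ∨ q = t := by
          intro q hq
          rcases hQel q hq with h | h | h | h
          · left; exact h
          · left; rw [h, hb1]
          · right; exact h
          · right; rw [h, hb1, mul_one]
        have hgt : g * t * g⁻¹ = t := by
          rcases hQel' _ (hgQ t htQ) with h | h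
          · exfalso; apply ht1
            calc t = g⁻¹ * (g * t * g⁻¹) * g := by group
              _ = 1 := by rw [h]; group
          · exact h
        intro q hq
        rcases hQel' q hq with h | h
        · rw [h]; simp
        · rw [h]
          calc t * g = (g * t * g⁻¹) * g := by rw [hgt]
            _ = g * t := by group
      · -- Klein four
        have htb : t * b ∈ Q := Q.mul_mem htQ hbQ
        have htbA : t * b ∉ Subgroup.zpowers a := by
          intro h; apply htA
          have : t = (t * b) * b⁻¹ := by group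
          rw [this]; exact Subgroup.mul_mem _ h (Subgroup.inv_mem _ hbA)
        have hset : (Q : Set X) = {1, b, t, t * b} := by
          ext q
          simp only [SetLike.mem_coe, Set.mem_insert_iff, Set.mem_singleton_iff]
          constructor
          · intro hq; exact hQel q hq
          · rintro (h | h | h | h)
            · rw [h]; exact Q.one_mem
            · rw [h]; exact hbQ
            · rw [h]; exact htQ
            · rw [h]; exact htb
        have hcard : Nat.card ↥Q = 4 := by
          have h0 : Nat.card ↥Q = (Q : Set X).ncard := Nat.card_coe_set_eq _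
          rw [h0, hset]
          have hne1 : (1 : X) ∉ ({b, t, t * b} : Set X) := by
            simp only [Set.mem_insert_iff, Set.mem_singleton_iff, not_or]
            refine ⟨fun h => hb1 h.symm, fun h => ht1 h.symm, fun h => ?_⟩
            apply htbA; rw [← h]; exact Subgroup.one_mem _
          have hne2 : b ∉ ({t, t * b} : Set X) := by
            simp only [Set.mem_insert_iff, Set.mem_singleton_iff, not_or]
            refine ⟨fun h => htA (h ▸ hbA), fun h => ?_⟩
            apply htbA; rw [← h]; exact hbA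
          have hne3 : t ≠ t * b := by
            intro h; apply hb1
            exact (mul_eq_left.1 h.symm)
          rw [Set.ncard_insert_of_notMem hne1, Set.ncard_insert_of_notMem hne2, Set.ncard_pair hne3]
        have hexp2 : ∀ q : ↥Q, q ^ 2 = 1 := by
          rintro ⟨q, hq⟩
          apply Subtype.ext
          show q ^ 2 = 1
          rw [pow_two]
          rcases hQel q hq with h | h | h | h
          · rw [h]; simp
          · rw [h]; exact hbb
          · rw [h]; exact htt
          · rw [h]; exact hsq _ (hQS htb) htbA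
        haveI : Nontrivial ↥Q := ⟨⟨⟨t, htQ⟩, 1, fun h => ht1 (congrArg Subtype.val h)⟩⟩
        have hKF : IsKleinFour ↥Q :=
          { card_four := hcard
            exponent_two := (Monoid.exponent_eq_prime_iff Nat.prime_two).2
              (fun q hq => orderOf_eq_prime (hexp2 q) hq) }
        have h1 := hyp Q hQS hKF
        have hg' : g ∈ Subgroup.centralizer (Q : Set X) ⊔ (S ⊓ Subgroup.normalizer (Q : Set X)) := by
          rw [← h1]; exact hg
        have hnorm : ∀ s ∈ S ⊓ Subgroup.normalizer (Q : Set X),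
            ∀ c ∈ Subgroup.centralizer (Q : Set X), s * c * s⁻¹ ∈ Subgroup.centralizer (Q : Set X) := by
          intro s hs c hc
          rw [Subgroup.mem_centralizer_iff] at hc ⊢
          intro q hq
          have hq' : s⁻¹ * q * s ∈ Q := by
            have := (Subgroup.mem_normalizer_iff.1 (Subgroup.inv_mem _ hs.2) q).1 hq
            simpa using this
          have h2 := hc _ hq'
          calc q * (s * c * s⁻¹) = s * ((s⁻¹ * q * s) * c) * s⁻¹ := by group
            _ = s * (c * (s⁻¹ * q * s)) * s⁻¹ := by rw [h2]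
            _ = s * c * s⁻¹ * q := by group
        have h2 := odd_in _ _ hnorm (fun s hs => hel2 s hs.1) g hg' ho
        rw [Subgroup.mem_centralizer_iff] at h2
        exact h2
    · -- big cyclic part
      have h1 : g * b * g⁻¹ ∈ Subgroup.zpowers a := by
        by_contra hcon
        have h2 := hsq _ (hQS (hgQ b hbQ)) hcon
        apply hbb
        calc b * b = g⁻¹ * ((g * b * g⁻¹) * (g * b * g⁻¹)) * g := by group
          _ = 1 := by rw [h2]; group
      have h2 : g * b * g⁻¹ = b := cyc g ho n b hb2n (hbgen _ (hgQ b hbQ) h1)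
      have hcb : Commute g b := by
        show g * b = b * g
        calc g * b = (g * b * g⁻¹) * g := by group
          _ = b * g := by rw [h2]
      have hcz : ∀ y ∈ Subgroup.zpowers b, Commute g y := by
        intro y hy
        obtain ⟨j, rfl⟩ := Subgroup.mem_zpowers_iff.1 hy
        exact hcb.zpow_right j
      have h3 : g * t * g⁻¹ ∉ Subgroup.zpowers a := by
        intro hcon
        have h4 := hcz _ (hbgen _ (hgQ t htQ) hcon)
        apply htA
        have h5 : g * t * g⁻¹ = t := by
          calc g * t * g⁻¹ = g⁻¹ * (g * (g * t * g⁻¹)) := by group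
            _ = g⁻¹ * ((g * t * g⁻¹) * g) := by rw [h4.eq]
            _ = t := by group
        rw [← h5]; exact hcon
      have h4 : (g * t * g⁻¹) * t ∈ Subgroup.zpowers a :=
        hmul _ (hQS (hgQ t htQ)) t htS h3 htA
      have h5 : (g * t * g⁻¹) * t ∈ Subgroup.zpowers b :=
        hbgen _ (Q.mul_mem (hgQ t htQ) htQ) h4
      have h6 : g * t * g⁻¹ = ((g * t * g⁻¹) * t) * t := by
        rw [mul_assoc (g * t * g⁻¹) t t, htt, mul_one]
      have h7 := stab g t ((g * t * g⁻¹) * t) n ho (hcz _ h5).eq h6 (hA2 _ h4)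
      have h8 : g * t * g⁻¹ = t := by
        rw [h6, h7, one_mul]
      have hct : Commute g t := by
        show g * t = t * g
        calc g * t = (g * t * g⁻¹) * g := by group
          _ = t * g := by rw [h8]
      intro q hq
      rcases hdecomp q hq with h | ⟨k, hk⟩
      · exact ((hcz q h).eq).symm
      · rw [hk]
        exact ((hct.mul_right (hcb.zpow_right k)).eq).symm

theorem result {X : Type*} [Group X] [Finite X] (S : Sylow 2 X) (m : ℕ) (hm : 2 ≤ m) (eS : (S : Subgroup X) ≃* DihedralGroup m) : Cfsg.HasNormalPComplement 2 X ↔ ∀ U : Subgroup X, U ≤ S → IsKleinFour U → Subgroup.normalizer (U : Set X) = Subgroup.centralizer (U : Set X) ⊔ ((S : Subgroup X) ⊓ Subgroup.normalizer (U : Set X)) := by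
  haveI : NeZero m := ⟨by omega⟩
  constructor
  · rintro ⟨P, N, hN, hc⟩ U hUS _
    haveI := hN
    have hcardN : Nat.card N = (P : Subgroup X).index := by
      have h1 := hc.card_mul_card
      have h2 := Subgroup.card_mul_index (P : Subgroup X)
      have h3 : 0 < Nat.card (P : Subgroup X) := Nat.card_pos
      have h4 : Nat.card N * Nat.card (P : Subgroup X) =
          (P : Subgroup X).index * Nat.card (P : Subgroup X) := by
        rw [h1, mul_comm, h2]
      exact Nat.eq_of_mul_eq_mul_right h3 h4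
    have hcardS : Nat.card (S : Subgroup X) = Nat.card (P : Subgroup X) := by
      rw [Sylow.card_eq_multiplicity, Sylow.card_eq_multiplicity]
    have hcop2 : Nat.Coprime (Nat.card N) 2 := by
      rw [hcardN]
      exact (Nat.Coprime.symm ((Nat.Prime.coprime_iff_not_dvd Nat.prime_two).2 P.not_dvd_index))
    have hcop : Nat.Coprime (Nat.card N) (Nat.card (S : Subgroup X)) := by
      rw [Sylow.card_eq_multiplicity]
      exact Nat.Coprime.pow_right _ hcop2
    have hcS : N.IsComplement' (S : Subgroup X) := by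
      apply Subgroup.isComplement'_of_coprime _ hcop
      rw [hcardS]; exact hc.card_mul_card
    have hdisj : N ⊓ (S : Subgroup X) = ⊥ := disjoint_iff.1 hcS.disjoint
    apply le_antisymm
    · intro x hx
      obtain ⟨⟨⟨s, hs⟩, ⟨k, hk⟩⟩, hsk⟩ := hcS.symm.2 x
      have hsk' : s * k = x := hsk
      have hkC : k ∈ Subgroup.centralizer (U : Set X) := by
        rw [Subgroup.mem_centralizer_iff]
        intro u hu
        have h1 : x * u * x⁻¹ ∈ (S : Subgroup X) := hUS ((Subgroup.mem_normalizer_iff.1 hx u).1 hu)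
        have h2 : k * u * k⁻¹ ∈ (S : Subgroup X) := by
          have : k * u * k⁻¹ = s⁻¹ * (x * u * x⁻¹) * s := by rw [← hsk']; group
          rw [this]
          exact Subgroup.mul_mem _ (Subgroup.mul_mem _ (Subgroup.inv_mem _ hs) h1) hs
        have h3 : k * u * k⁻¹ * u⁻¹ ∈ N ⊓ (S : Subgroup X) := by
          refine ⟨?_, Subgroup.mul_mem _ h2 (Subgroup.inv_mem _ (hUS hu))⟩
          have : k * u * k⁻¹ * u⁻¹ = k * (u * k⁻¹ * u⁻¹) := by group
          rw [this]
          exact N.mul_mem hk (hN.conj_mem _ (N.inv_mem hk) u)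
        rw [hdisj, Subgroup.mem_bot] at h3
        calc u * k = (k * u * k⁻¹ * u⁻¹)⁻¹ * (k * u) := by group
          _ = k * u := by rw [h3]; group
      have hsN : s ∈ Subgroup.normalizer (U : Set X) := by
        have : s = x * k⁻¹ := by rw [← hsk']; group
        rw [this]
        exact Subgroup.mul_mem _ hx (Subgroup.inv_mem _ (Subgroup.centralizer_le_normalizer _ hkC))
      rw [← hsk', sup_comm]
      exact Subgroup.mul_mem_sup ⟨hs, hsN⟩ hkC
    · exact sup_le (Subgroup.centralizer_le_normalizer _) inf_le_right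
  · intro hyp
    have h := (Cfsg.Agent.S0071.result S).2
      (fun Q hQ g hg ho => central (S : Subgroup X) S.isPGroup' m eS hyp Q hQ g hg ho)
    obtain ⟨N, hN, hc⟩ := h
    exact ⟨S, N, hN, hc⟩

end Cfsg.Agent.S1254
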