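import Mathlib
import Cfsg.Agent.Lib.Helper2.Comp
import Cfsg.Statements.S1326

set_option autoImplicit false
open Cfsg
open Cfsg.Agent.Lib.Helper2

namespace Cfsg.Agent.S1326

/-- For a finite group X: the Fitting subgroup contains its centralizer if and only if the layer of X is trivial. -/
theorem result {X : Type*} [Group X] [Finite X] : Subgroup.centralizer (Cfsg.fittingSubgroup X : Set X) ≤ Cfsg.fittingSubgroup X ↔ Cfsg.layer X = ⊥ := by
  constructor
  · intro h
    unfold Cfsg.layer
    rw [sSup_eq_bot]
    intro L hL
    exfalso
    have h1 : L ≤ Cfsg.layer X := Comp.le_layer hL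
    have h2 : Cfsg.layer X ≤ Subgroup.centralizer (Cfsg.fittingSubgroup X : Set X) := by
      rw [← Subgroup.commutator_eq_bot_iff_le_centralizer]
      exact Comp.layer_comm_fitting
    have hsolv : Group.IsSolvable ↥(Cfsg.fittingSubgroup X) := by
      haveI := Fit.fitting_nilpotent (G := X)
      infer_instance
    exact Sub.not_le_solvable hL.2 hsolv (h1.trans (h2.trans h))
  · intro h
    have h1 := Comp.centralizer_genFitting_le (G := X)
    unfold Cfsg.generalizedFittingSubgroup at h1
    rw [h, bot_sup_eq] at h1
    exact h1

end Cfsg.Agent.S1326
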