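import Mathlib
import Cfsg.Statements.S1466
import Cfsg.Agent.S1894

set_option autoImplicit false
open Cfsg

namespace Cfsg.Agent.S1466

theorem result {R : Type*} [Group R] [Finite R] (p : ℕ) [Fact p.Prime] (hR : IsPGroup p R) [Nontrivial R] :
    (∀ i : ℕ, 0 < i → Subgroup.center R ≤ Subgroup.centralizer ((Cfsg.puigSeq R i : Subgroup R) : Set R) ∧
        Subgroup.centralizer ((Cfsg.puigSeq R i : Subgroup R) : Set R) ≤ Cfsg.puigSeq R i) ∧
      (Subgroup.center R ≤ Subgroup.centralizer ((Cfsg.puigLower R : Subgroup R) : Set R) ∧ Subgroup.centralizer ((Cfsg.puigLower R : Subgroup R) : Set R) ≤ Cfsg.puigLower R) ∧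
      (Subgroup.center R ≤ Subgroup.centralizer ((Cfsg.puigSubgroup R : Subgroup R) : Set R) ∧ Subgroup.centralizer ((Cfsg.puigSubgroup R : Subgroup R) : Set R) ≤ Cfsg.puigSubgroup R) ∧
      Cfsg.puigSubgroup R ≠ ⊥ ∧ Cfsg.puigLower R ≠ ⊥ := by
  obtain ⟨C, hCn, _, _, hCC, hCeq⟩ :=
    Cfsg.Agent.S1894.exists_max_abelian_normal hR (⊤ : Subgroup R) (⊥ : Subgroup R) bot_le
      (by intro g hg; rw [Subgroup.mem_bot] at hg; subst hg; exact Subgroup.one_mem _)
  rw [top_inf_eq] at hCeq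
  have hCcomm : IsMulCommutative ↥C :=
    ⟨⟨fun a b => Subtype.ext (Subgroup.mem_centralizer_iff.mp (hCC b.2) a a.2)⟩⟩
  have hstep : ∀ X : Subgroup R, C ≤ Cfsg.puigStep X := fun X =>
    le_sSup ⟨hCcomm, Subgroup.le_normalizer_of_normal⟩
  have hseq : ∀ i : ℕ, 0 < i → C ≤ Cfsg.puigSeq R i := by
    intro i hi
    obtain ⟨j, rfl⟩ := Nat.exists_eq_succ_of_ne_zero hi.ne'
    exact hstep _
  have hkey : ∀ L : Subgroup R, C ≤ L → Subgroup.center R ≤ Subgroup.centralizer (L : Set R) ∧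
      Subgroup.centralizer (L : Set R) ≤ L := by
    intro L hL
    refine ⟨Subgroup.center_le_centralizer _, ?_⟩
    calc Subgroup.centralizer (L : Set R) ≤ Subgroup.centralizer (C : Set R) := Subgroup.centralizer_le hL
      _ = C := hCeq
      _ ≤ L := hL
  have hlow : C ≤ Cfsg.puigLower R :=
    (hseq 2 (by norm_num)).trans (le_iSup (fun n => Cfsg.puigSeq R (2 * n)) 1)
  have hup : C ≤ Cfsg.puigSubgroup R := le_iInf (fun n => hseq (2 * n + 1) (Nat.succ_pos _))
  have hC0 : C ≠ ⊥ := by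
    intro h0
    rw [h0] at hCeq
    have h1 : (1 : R) ∈ Subgroup.centralizer (((⊥ : Subgroup R) : Subgroup R) : Set R) := Subgroup.one_mem _
    obtain ⟨x, hx⟩ := exists_ne (1 : R)
    have h2 : x ∈ Subgroup.centralizer (((⊥ : Subgroup R) : Subgroup R) : Set R) := by
      rw [Subgroup.mem_centralizer_iff]
      intro h hh
      have h3 : h = 1 := hh
      rw [h3, one_mul, mul_one]
    rw [hCeq, Subgroup.mem_bot] at h2
    exact hx h2
  refine ⟨fun i hi => hkey _ (hseq i hi), hkey _ hlow, hkey _ hup, ?_, ?_⟩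
  · intro h0
    exact hC0 (le_bot_iff.mp (h0 ▸ hup))
  · intro h0
    exact hC0 (le_bot_iff.mp (h0 ▸ hlow))

end Cfsg.Agent.S1466
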