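import Cfsg.Statements.S1898

set_option autoImplicit false
open Cfsg
open scoped commutatorElement

namespace Cfsg.Agent.S1898

/-- Let X be a finite 2-group whose derived subgroup is elementary abelian and central. Then the subgroup generated by the elements of order dividing 4 has exponent dividing 4, and every automorphism of X fixing each element of order dividing 4 has 2-power order. -/
theorem result {X : Type*} [Group X] [Finite X] (hX : IsPGroup 2 X)
    (hel : Cfsg.IsElementaryAbelian 2 (commutator X)) (hcen : commutator X ≤ Subgroup.center X) :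
    (∀ x ∈ Subgroup.closure {g : X | g ^ 4 = 1}, x ^ 4 = 1) ∧
      ∀ φ : MulAut X, (∀ g : X, g ^ 4 = 1 → φ g = g) → ∃ k : ℕ, φ ^ (2 ^ k) = 1 := by
  have hcm : ∀ x y : X, ⁅x, y⁆ ∈ commutator X := fun x y =>
    Subgroup.commutator_mem_commutator (Subgroup.mem_top x) (Subgroup.mem_top y)
  have hdz : ∀ x y g : X, g * ⁅x, y⁆ = ⁅x, y⁆ * g := fun x y g =>
    (Subgroup.mem_center_iff.mp (hcen (hcm x y)) g)
  have hsq : ∀ x y : X, ⁅x, y⁆ ^ 2 = 1 := fun x y => hel.2 _ (hcm x y)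
  have hyx : ∀ x y : X, y * x = ⁅y, x⁆ * (x * y) := by
    intro x y
    rw [commutatorElement_def]; group
  have hS : ∀ y x : X, y ^ 2 * x = x * y ^ 2 := by
    intro y x
    have h1 := hyx x y
    calc y ^ 2 * x = y * (y * x) := by rw [sq, mul_assoc]
      _ = y * (⁅y, x⁆ * (x * y)) := by rw [h1]
      _ = (y * ⁅y, x⁆) * (x * y) := by rw [mul_assoc]
      _ = (⁅y, x⁆ * y) * (x * y) := by rw [hdz y x y]
      _ = ⁅y, x⁆ * ((y * x) * y) := by simp only [mul_assoc]
      _ = ⁅y, x⁆ * ((⁅y, x⁆ * (x * y)) * y) := by rw [h1]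
      _ = (⁅y, x⁆ * ⁅y, x⁆) * (x * y ^ 2) := by simp only [mul_assoc, sq]
      _ = x * y ^ 2 := by rw [← sq, hsq, one_mul]
  have e1 : ∀ x y : X, (x * y) ^ 2 = ⁅y, x⁆ * (x ^ 2 * y ^ 2) := by
    intro x y
    calc (x * y) ^ 2 = x * (y * x) * y := by rw [sq]; simp only [mul_assoc]
      _ = x * (⁅y, x⁆ * (x * y)) * y := by rw [hyx x y]
      _ = (x * ⁅y, x⁆) * (x * y) * y := by simp only [mul_assoc]
      _ = (⁅y, x⁆ * x) * (x * y) * y := by rw [hdz y x x]
      _ = ⁅y, x⁆ * (x ^ 2 * y ^ 2) := by simp only [mul_assoc, sq]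
  have e2 : ∀ x y : X, (x * y) ^ 4 = x ^ 4 * y ^ 4 := by
    intro x y
    calc (x * y) ^ 4 = ((x * y) ^ 2) ^ 2 := by rw [← pow_mul]
      _ = (⁅y, x⁆ * (x ^ 2 * y ^ 2)) ^ 2 := by rw [e1]
      _ = ⁅y, x⁆ * (x ^ 2 * y ^ 2) * (⁅y, x⁆ * (x ^ 2 * y ^ 2)) := sq _
      _ = ⁅y, x⁆ * ((x ^ 2 * y ^ 2) * ⁅y, x⁆) * (x ^ 2 * y ^ 2) := by simp only [mul_assoc]
      _ = ⁅y, x⁆ * (⁅y, x⁆ * (x ^ 2 * y ^ 2)) * (x ^ 2 * y ^ 2) := by rw [hdz y x (x ^ 2 * y ^ 2)]
      _ = (⁅y, x⁆ * ⁅y, x⁆) * (x ^ 2 * (y ^ 2 * x ^ 2) * y ^ 2) := by simp only [mul_assoc]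
      _ = (⁅y, x⁆ * ⁅y, x⁆) * (x ^ 2 * (x ^ 2 * y ^ 2) * y ^ 2) := by rw [hS y (x ^ 2)]
      _ = x ^ 4 * y ^ 4 := by rw [← sq, hsq, one_mul]; group
  constructor
  · intro x hx
    induction hx using Subgroup.closure_induction with
    | mem g hg => exact hg
    | one => exact one_pow 4
    | mul a b _ _ ha hb => rw [e2, ha, hb, one_mul]
    | inv a _ ha => rw [inv_pow, ha, inv_one]
  · intro φ hφ
    have hpos : 0 < orderOf φ := orderOf_pos φ
    obtain ⟨k, m, hm, hkm⟩ := Nat.exists_eq_two_pow_mul_odd hpos.ne'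
    refine ⟨k, ?_⟩
    have hψm : (φ ^ (2 ^ k)) ^ m = 1 := by
      rw [← pow_mul, ← hkm, pow_orderOf_eq_one]
    have hφj : ∀ (j : ℕ) (g : X), g ^ 4 = 1 → (φ ^ j) g = g := by
      intro j g hg
      induction j with
      | zero => simp
      | succ j ih => rw [pow_succ, MulAut.mul_apply, hφ g hg, ih]
    have hψfix : ∀ g : X, g ^ 4 = 1 → (φ ^ (2 ^ k)) g = g := fun g hg => hφj _ g hg
    have hψ : ∀ (j : ℕ) (x : X), x ^ (2 ^ j) = 1 → (φ ^ (2 ^ k)) x = x := by
      intro j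
      induction j with
      | zero =>
        intro x hx
        rw [pow_zero, pow_one] at hx
        rw [hx, map_one]
      | succ j ih =>
        intro x hx
        have hx2 : (x ^ 2) ^ (2 ^ j) = 1 := by rw [← pow_mul, ← pow_succ']; exact hx
        have h1 : (φ ^ (2 ^ k)) (x ^ 2) = x ^ 2 := ih _ hx2
        obtain ⟨c, hc⟩ : ∃ c : X, (φ ^ (2 ^ k)) x = x * c := ⟨x⁻¹ * (φ ^ (2 ^ k)) x, by group⟩
        have h3 : (x * c) ^ 2 = x ^ 2 := by rw [← hc, ← map_pow, h1]
        have h4 : (x * c) ^ 2 = ⁅c, x⁆ * (x ^ 2 * c ^ 2) := e1 x c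
        have h5 : ⁅c, x⁆ * c ^ 2 = 1 := by
          have h6 : x ^ 2 * (⁅c, x⁆ * c ^ 2) = x ^ 2 * 1 := by
            rw [mul_one, ← mul_assoc, hdz c x (x ^ 2), mul_assoc, ← h4, h3]
          exact mul_left_cancel h6
        have h7 : c ^ 4 = 1 := by
          have h8 : c ^ 2 = ⁅c, x⁆⁻¹ := eq_inv_of_mul_eq_one_right h5
          calc c ^ 4 = (c ^ 2) ^ 2 := by rw [← pow_mul]
            _ = (⁅c, x⁆⁻¹) ^ 2 := by rw [h8]
            _ = 1 := by rw [inv_pow, hsq, inv_one]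
        have h9 : (φ ^ (2 ^ k)) c = c := hψfix c h7
        have h10 : ∀ i : ℕ, ((φ ^ (2 ^ k)) ^ i) x = x * c ^ i := by
          intro i
          induction i with
          | zero => simp
          | succ i ihi =>
            rw [pow_succ', MulAut.mul_apply, ihi, map_mul, map_pow, h9, hc, mul_assoc, ← pow_succ']
        have h11 : c ^ m = 1 := by
          have h12 := h10 m
          rw [hψm, MulAut.one_apply] at h12
          exact mul_left_cancel (a := x) (by rw [mul_one]; exact h12.symm)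
        have h13 : c = 1 := by
          have d1 : orderOf c ∣ 4 := orderOf_dvd_of_pow_eq_one h7
          have d2 : orderOf c ∣ m := orderOf_dvd_of_pow_eq_one h11
          have d3 : orderOf c ∣ Nat.gcd 4 m := Nat.dvd_gcd d1 d2
          have hg : Nat.gcd 4 m = 1 := by
            have h14 : Nat.Coprime (2 ^ 2) m := Nat.Coprime.pow_left 2 (Nat.coprime_two_left.mpr hm)
            exact h14
          rw [hg, Nat.dvd_one, orderOf_eq_one_iff] at d3
          exact d3
        rw [hc, h13, mul_one]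
    ext x
    obtain ⟨j, hj⟩ := hX x
    rw [MulAut.one_apply]
    exact hψ j x hj

end Cfsg.Agent.S1898
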