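import Cfsg.Statements.S1899

set_option autoImplicit false
open Cfsg

namespace Cfsg.Agent.S1899

/-- Let a dihedral group of order 2n, n odd and n > 1, act on a finite abelian 2-group A through automorphisms d and t with d^n = 1, t² = 1 and t d t⁻¹ = d⁻¹, and suppose that d fixes only the identity. Then A is the internal direct product of C_A(t) and its image under d. -/
theorem result {A : Type*} [CommGroup A] [Finite A] (hA : IsPGroup 2 A)
    {n : ℕ} (hn : Odd n) (hn1 : 1 < n) (d t : MulAut A) (hd : d ^ n = 1) (ht : t ^ 2 = 1) (hdt : t * d * t⁻¹ = d⁻¹)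
    (hfix : ∀ a : A, d a = a → a = 1) :
    (MulEquiv.toMonoidHom t).eqLocus (MonoidHom.id A) ⊓ ((MulEquiv.toMonoidHom t).eqLocus (MonoidHom.id A)).map d.toMonoidHom = ⊥ ∧
      (MulEquiv.toMonoidHom t).eqLocus (MonoidHom.id A) ⊔ ((MulEquiv.toMonoidHom t).eqLocus (MonoidHom.id A)).map d.toMonoidHom = ⊤ := by
  have htt : ∀ a : A, t (t a) = a := by
    intro a
    have h := congrArg (fun f : MulAut A => f a) ht
    simpa [sq, MulAut.mul_apply] using h
  have hdt2 : ∀ a : A, t (d a) = d⁻¹ (t a) := by
    intro a
    have h : t * d = d⁻¹ * t := by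
      rw [← hdt]; group
    have h' := congrArg (fun f : MulAut A => f a) h
    simpa [MulAut.mul_apply] using h'
  have key : ∀ y : A, d (d y) = y → d y = y := by
    intro y hy
    obtain ⟨k, rfl⟩ := hn
    have h1 : ∀ j : ℕ, ((d ^ 2) ^ j) y = y := by
      intro j
      induction j with
      | zero => simp
      | succ j ih =>
        rw [pow_succ, MulAut.mul_apply]
        have : (d ^ 2) y = y := by simpa [sq, MulAut.mul_apply] using hy
        rw [this, ih]
    have h2 : d * (d ^ 2) ^ k = 1 := by
      rw [← hd, ← pow_mul, pow_succ']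
    have h3 := congrArg (fun f : MulAut A => f y) h2
    simp only [MulAut.mul_apply, MulAut.one_apply] at h3
    rw [h1 k] at h3
    exact h3
  constructor
  · rw [eq_bot_iff]
    rintro x ⟨hx1, hx2⟩
    obtain ⟨y, hy, rfl⟩ := hx2
    have hy' : t y = y := hy
    have hx' : t (d y) = d y := hx1
    rw [hdt2, hy'] at hx'
    have h4 : d (d y) = y := by
      have := congrArg d hx'
      simpa using this.symm
    have h5 := key y h4
    have h6 := hfix y h5
    rw [Subgroup.mem_bot]
    subst h6
    simp
  · rw [eq_top_iff]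
    intro a _
    let f : A →* A := (d * d).toMonoidHom * (MonoidHom.id A)⁻¹
    have hf : ∀ b : A, f b = d (d b) * b⁻¹ := by
      intro b
      simp [f, MulAut.mul_apply]
    have hinj : Function.Injective f := by
      rw [injective_iff_map_eq_one]
      intro b hb
      rw [hf] at hb
      have : d (d b) = b := by
        rw [mul_inv_eq_one] at hb; exact hb
      exact hfix b (key b this)
    have hsurj : Function.Surjective f := Finite.surjective_of_injective hinj
    obtain ⟨b, rfl⟩ := hsurj a
    rw [hf]
    have hB1 : t b * b ∈ (MulEquiv.toMonoidHom t).eqLocus (MonoidHom.id A) := by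
      change t (t b * b) = t b * b
      rw [map_mul, htt, mul_comm]
    have he : t (d⁻¹ (t b)) = d b := by
      have := hdt2 b
      rw [← this, htt]
    have hB2 : d⁻¹ (t b) * d b ∈ (MulEquiv.toMonoidHom t).eqLocus (MonoidHom.id A) := by
      change t (d⁻¹ (t b) * d b) = d⁻¹ (t b) * d b
      rw [map_mul, he, hdt2, mul_comm]
    have hB3 : d (d⁻¹ (t b) * d b) ∈ ((MulEquiv.toMonoidHom t).eqLocus (MonoidHom.id A)).map d.toMonoidHom :=
      Subgroup.mem_map_of_mem _ hB2
    have heq : d (d b) * b⁻¹ = (t b * b)⁻¹ * d (d⁻¹ (t b) * d b) := by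
      rw [map_mul]
      have : d (d⁻¹ (t b)) = t b := by simp
      rw [this, mul_inv_rev]
      have hc : ∀ x y z : A, z * y⁻¹ = (y⁻¹ * x⁻¹) * (x * z) := by
        intro x y z
        rw [mul_comm z y⁻¹, mul_assoc, inv_mul_cancel_left]
      exact hc (t b) b (d (d b))
    rw [heq]
    exact Subgroup.mul_mem_sup (inv_mem hB1) hB3

end Cfsg.Agent.S1899
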