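import Cfsg.Statements.S3800
import Mathlib
import Cfsg.Agent.Lib.Helper6.PPrime

set_option autoImplicit false
open Cfsg

namespace Cfsg.Agent.S3800

open Cfsg.Agent.Lib.Helper6.PPrime

/-- Let G be a finite group, N a normal subgroup of G whose order is prime to p, and P a p-subgroup of G. Then in G/N the normalizer of the image of P is the image of N_G(P), and the centralizer of the image of P is the image of C_G(P). -/
theorem result {G : Type*} [Group G] [Finite G] {p : ℕ} [Fact p.Prime] (N : Subgroup G) [N.Normal] (hN : (Nat.card N).Coprime p) (P : Subgroup G) (hP : IsPGroup p P) : Subgroup.normalizer ((P.map (QuotientGroup.mk' N)) : Set (G ⧸ N)) = (Subgroup.normalizer (P : Set G)).map (QuotientGroup.mk' N) ∧ Subgroup.centralizer ((P.map (QuotientGroup.mk' N)) : Set (G ⧸ N)) = (Subgroup.centralizer (P : Set G)).map (QuotientGroup.mk' N) := by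
  classical
  have hp := (Fact.out : p.Prime)
  have hlift : ∀ a b : G, (QuotientGroup.mk' N a) = QuotientGroup.mk' N b → b ∈ P → a ∈ P ⊔ N := by
    intro a b hab hb
    have h1 : b⁻¹ * a ∈ N := (QuotientGroup.eq (s := N)).1 hab.symm
    have : a = b * (b⁻¹ * a) := by group
    rw [this]
    exact Subgroup.mul_mem _ (Subgroup.mem_sup_left hb) (Subgroup.mem_sup_right h1)
  have hdisj : ∀ g : G, g ∈ P → g ∈ N → g = 1 := by
    intro g hgP hgN
    obtain ⟨k, hk⟩ := hP ⟨g, hgP⟩
    have hk' : g ^ p ^ k = 1 := congrArg Subtype.val hk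
    have h1 : orderOf g ∣ p ^ k := orderOf_dvd_of_pow_eq_one hk'
    have h2 : orderOf g ∣ Nat.card N := by
      have := orderOf_dvd_natCard (⟨g, hgN⟩ : N)
      rwa [Subgroup.orderOf_mk] at this
    have h3 : orderOf g ∣ 1 := by
      have hc : (Nat.card N).Coprime (p ^ k) := Nat.Coprime.pow_right k hN
      have := Nat.dvd_gcd h2 h1
      rwa [hc.gcd_eq_one] at this
    exact orderOf_eq_one_iff.1 (Nat.dvd_one.1 h3)
  have hmkn : ∀ n ∈ N, ∀ x : G, QuotientGroup.mk' N (n * x) = QuotientGroup.mk' N x := by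
    intro n hn x
    have : QuotientGroup.mk' N n = 1 := (QuotientGroup.eq_one_iff n).2 hn
    rw [map_mul, this, one_mul]
  refine ⟨?_, ?_⟩
  · apply le_antisymm
    · intro y hy
      obtain ⟨x, rfl⟩ := QuotientGroup.mk'_surjective N y
      have hx : ∀ u ∈ P, x * u * x⁻¹ ∈ P ⊔ N := by
        intro u hu
        have h1 := (Subgroup.mem_normalizer_iff.1 hy (QuotientGroup.mk' N u)).1
          (Subgroup.mem_map_of_mem _ hu)
        obtain ⟨u', hu', he⟩ := h1
        apply hlift _ u' _ hu'
        rw [he]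
        simp
      obtain ⟨n, hn, hnx⟩ := exists_mul_mem_normalizer N hN P hP x hx
      exact ⟨n * x, hnx, hmkn n hn x⟩
    · exact Subgroup.le_normalizer_map _
  · apply le_antisymm
    · intro y hy
      obtain ⟨x, rfl⟩ := QuotientGroup.mk'_surjective N y
      have hcomm : ∀ u ∈ P, QuotientGroup.mk' N u * QuotientGroup.mk' N x
          = QuotientGroup.mk' N x * QuotientGroup.mk' N u := by
        intro u hu
        exact (Subgroup.mem_centralizer_iff.1 hy) _ (Subgroup.mem_map_of_mem _ hu)
      have hx : ∀ u ∈ P, x * u * x⁻¹ ∈ P ⊔ N := by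
        intro u hu
        apply hlift _ u _ hu
        rw [map_mul, map_mul, ← hcomm u hu]
        simp
      obtain ⟨n, hn, hnx⟩ := exists_mul_mem_normalizer N hN P hP x hx
      have hmk := hmkn n hn x
      refine ⟨n * x, ?_, hmk⟩
      change n * x ∈ Subgroup.centralizer (P : Set G)
      rw [Subgroup.mem_centralizer_iff]
      intro u hu
      have h1 : (n * x) * u * (n * x)⁻¹ ∈ P := (Subgroup.mem_normalizer_iff.1 hnx u).1 hu
      have h2 : (n * x) * u * (n * x)⁻¹ * u⁻¹ ∈ P := P.mul_mem h1 (P.inv_mem hu)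
      have h3 : (n * x) * u * (n * x)⁻¹ * u⁻¹ ∈ N := by
        rw [← QuotientGroup.eq_one_iff]
        have := hcomm u hu
        rw [← hmk] at this
        change QuotientGroup.mk' N ((n * x) * u * (n * x)⁻¹ * u⁻¹) = 1
        rw [map_mul, map_mul, map_mul, map_inv, map_inv, ← this]
        group
      have h4 := hdisj _ h2 h3
      rw [mul_inv_eq_one, mul_inv_eq_iff_eq_mul] at h4
      exact h4.symm
    · rintro _ ⟨g, hg, rfl⟩
      rw [Subgroup.mem_centralizer_iff]
      rintro _ ⟨u, hu, rfl⟩
      rw [← map_mul, ← map_mul, (Subgroup.mem_centralizer_iff.1 hg) u hu]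

end Cfsg.Agent.S3800
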