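import Mathlib
import Cfsg.Statements.S1900
import Cfsg.Agent.S0003
import Cfsg.Agent.S0058
import Cfsg.Agent.S0579
import Cfsg.Agent.S3800

set_option autoImplicit false
open Pointwise
open Cfsg
open scoped commutatorElement

namespace Cfsg.Agent.S1900

universe u

/-- The inductive statement. -/
def Stmt (p q n : ℕ) : Prop :=
  ∀ (S : Type u) [Group S] [Finite S], Nat.card S ≤ n → ∀ (P Q X₁ X₂ : Subgroup S),
    P.Normal → IsPGroup p P → P ⊔ Q = ⊤ → IsMulCommutative Q → (∀ a ∈ Q, a ^ q = 1) →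
    X₁ ≤ Q → X₂ ≤ Q → X₁ ≠ X₂ → Nat.card X₁ = q → Nat.card X₂ = q →
    (∀ X : Subgroup S, X ≤ Q → Nat.card X = q → X ≠ X₁ → X ≠ X₂ →
      P ⊓ Subgroup.centralizer (X : Set S) = ⊥) →
    ⁅P ⊓ Subgroup.centralizer (X₁ : Set S), P ⊓ Subgroup.centralizer (X₂ : Set S)⁆ = ⊥

theorem gen {S : Type*} [Group S] [Finite S] (q : ℕ) [Fact q.Prime] (X : Subgroup S)
    (hc : Nat.card X = q) : ∃ x ∈ X, x ≠ 1 ∧ ∀ y ∈ X, ∃ k : ℤ, x ^ k = y := by
  have hq : q.Prime := Fact.out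
  have hne : X ≠ ⊥ := by
    intro h
    rw [h, Subgroup.card_bot] at hc
    exact hq.one_lt.ne hc
  obtain ⟨⟨x, hx⟩, hx1⟩ := (Subgroup.ne_bot_iff_exists_ne_one).1 hne
  have hx1' : x ≠ 1 := fun h => hx1 (Subtype.ext h)
  refine ⟨x, hx, hx1', ?_⟩
  have hord : orderOf x = q := by
    have h1 : orderOf (⟨x, hx⟩ : ↥X) ∣ Nat.card X := orderOf_dvd_natCard _
    rw [Subgroup.orderOf_mk, hc] at h1
    rcases (Nat.dvd_prime hq).1 h1 with h2 | h2
    · exact absurd (orderOf_eq_one_iff.1 h2) hx1'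
    · exact h2
  have hle : Subgroup.zpowers x ≤ X := by rw [Subgroup.zpowers_le]; exact hx
  have heq : Subgroup.zpowers x = X :=
    Subgroup.eq_of_le_of_card_ge hle (by rw [Nat.card_zpowers, hord, hc])
  intro y hy
  rw [← heq] at hy
  exact Subgroup.mem_zpowers_iff.1 hy

theorem disj {S : Type*} [Group S] [Finite S] (q : ℕ) [Fact q.Prime] (P Q X₁ X₂ : Subgroup S)
    (hQcomm : ∀ a ∈ Q, ∀ b ∈ Q, a * b = b * a) (hQe : ∀ a ∈ Q, a ^ q = 1)
    (h₁ : X₁ ≤ Q) (h₂ : X₂ ≤ Q) (h₁₂ : X₁ ≠ X₂) (hc₁ : Nat.card X₁ = q) (hc₂ : Nat.card X₂ = q)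
    (honly : ∀ X : Subgroup S, X ≤ Q → Nat.card X = q → X ≠ X₁ → X ≠ X₂ →
      P ⊓ Subgroup.centralizer (X : Set S) = ⊥) :
    (P ⊓ Subgroup.centralizer (X₁ : Set S)) ⊓ (P ⊓ Subgroup.centralizer (X₂ : Set S)) = ⊥ := by
  have hq : q.Prime := Fact.out
  obtain ⟨x, hx, hx1, hxg⟩ := gen q X₁ hc₁
  obtain ⟨y, hy, hy1, hyg⟩ := gen q X₂ hc₂
  have hxy : x * y = y * x := hQcomm x (h₁ hx) y (h₂ hy)
  have hxyQ : x * y ∈ Q := Q.mul_mem (h₁ hx) (h₂ hy)
  have hyX₁ : y ∉ X₁ := by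
    intro h
    apply h₁₂
    have hle : X₂ ≤ X₁ := by
      intro z hz
      obtain ⟨k, rfl⟩ := hyg z hz
      exact X₁.zpow_mem h k
    exact (Subgroup.eq_of_le_of_card_ge hle (by rw [hc₁, hc₂])).symm
  have hxX₂ : x ∉ X₂ := by
    intro h
    apply h₁₂
    have hle : X₁ ≤ X₂ := by
      intro z hz
      obtain ⟨k, rfl⟩ := hxg z hz
      exact X₂.zpow_mem h k
    exact Subgroup.eq_of_le_of_card_ge hle (by rw [hc₁, hc₂])
  have hxy1 : x * y ≠ 1 := by
    intro h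
    apply hyX₁
    have e : y = x⁻¹ * (x * y) := by group
    rw [e, h, mul_one]; exact X₁.inv_mem hx
  have hord : orderOf (x * y) = q := by
    have h1 : (x * y) ^ q = 1 := by
      rw [(show Commute x y from hxy).mul_pow, hQe x (h₁ hx), hQe y (h₂ hy), one_mul]
    have h2 := orderOf_dvd_of_pow_eq_one h1
    rcases (Nat.dvd_prime hq).1 h2 with h3 | h3
    · exact absurd (orderOf_eq_one_iff.1 h3) hxy1
    · exact h3
  have hX₃c : Nat.card (Subgroup.zpowers (x * y)) = q := by rw [Nat.card_zpowers, hord]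
  have hX₃Q : Subgroup.zpowers (x * y) ≤ Q := by rw [Subgroup.zpowers_le]; exact hxyQ
  have hX₃1 : Subgroup.zpowers (x * y) ≠ X₁ := by
    intro h
    have h1 : x * y ∈ X₁ := h ▸ Subgroup.mem_zpowers (x * y)
    apply hyX₁
    have e : y = x⁻¹ * (x * y) := by group
    rw [e]; exact X₁.mul_mem (X₁.inv_mem hx) h1
  have hX₃2 : Subgroup.zpowers (x * y) ≠ X₂ := by
    intro h
    have h1 : x * y ∈ X₂ := h ▸ Subgroup.mem_zpowers (x * y)
    apply hxX₂
    have e : x = (x * y) * y⁻¹ := by group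
    rw [e]; exact X₂.mul_mem h1 (X₂.inv_mem hy)
  have h3 := honly _ hX₃Q hX₃c hX₃1 hX₃2
  rw [eq_bot_iff, ← h3]
  intro t ht
  obtain ⟨ht1, ht2⟩ := Subgroup.mem_inf.1 ht
  obtain ⟨htP, htc1⟩ := Subgroup.mem_inf.1 ht1
  obtain ⟨-, htc2⟩ := Subgroup.mem_inf.1 ht2
  refine Subgroup.mem_inf.2 ⟨htP, ?_⟩
  rw [Subgroup.mem_centralizer_iff]
  intro z hz
  obtain ⟨k, rfl⟩ := Subgroup.mem_zpowers_iff.1 hz
  have hcx : x * t = t * x := Subgroup.mem_centralizer_iff.1 htc1 x hx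
  have hcy : y * t = t * y := Subgroup.mem_centralizer_iff.1 htc2 y hy
  have hc : Commute (x * y) t := by
    show x * y * t = t * (x * y)
    rw [mul_assoc, hcy, ← mul_assoc, hcx, mul_assoc]
  exact (hc.zpow_left k).eq

theorem not_cyc {S : Type*} [Group S] [Finite S] (q : ℕ) [Fact q.Prime] (Q X₁ X₂ : Subgroup S)
    (hQe : ∀ a ∈ Q, a ^ q = 1) (h₁ : X₁ ≤ Q) (h₂ : X₂ ≤ Q) (h₁₂ : X₁ ≠ X₂)
    (hc₁ : Nat.card X₁ = q) (hc₂ : Nat.card X₂ = q) : ¬ IsCyclic ↥Q := by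
  intro hcyc
  obtain ⟨g, hg⟩ := IsCyclic.exists_generator (α := ↥Q)
  have h1 : orderOf g = Nat.card ↥Q := orderOf_eq_card_of_forall_mem_zpowers hg
  have h2 : g ^ q = 1 := Subtype.ext (hQe g g.2)
  have h3 : Nat.card ↥Q ∣ q := h1 ▸ orderOf_dvd_of_pow_eq_one h2
  have hq : q.Prime := Fact.out
  have h4 : Nat.card ↥Q ≤ q := Nat.le_of_dvd hq.pos h3
  have e1 : X₁ = Q := Subgroup.eq_of_le_of_card_ge h₁ (by rw [hc₁]; exact h4)
  have e2 : X₂ = Q := Subgroup.eq_of_le_of_card_ge h₂ (by rw [hc₂]; exact h4)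
  exact h₁₂ (e1.trans e2.symm)

theorem gen_sup {S : Type*} [Group S] [Finite S] (p q : ℕ) [Fact p.Prime] [Fact q.Prime]
    (hpq : p ≠ q) (P Q X₁ X₂ K : Subgroup S) (hPp : IsPGroup p P) (hQc : IsMulCommutative Q)
    (hQe : ∀ a ∈ Q, a ^ q = 1) (h₁ : X₁ ≤ Q) (h₂ : X₂ ≤ Q) (h₁₂ : X₁ ≠ X₂)
    (hc₁ : Nat.card X₁ = q) (hc₂ : Nat.card X₂ = q)
    (honly : ∀ X : Subgroup S, X ≤ Q → Nat.card X = q → X ≠ X₁ → X ≠ X₂ →
      P ⊓ Subgroup.centralizer (X : Set S) = ⊥)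
    (hKP : K ≤ P) (hKn : Q ≤ Subgroup.normalizer (K : Set S)) :
    K ≤ (K ⊓ Subgroup.centralizer (X₁ : Set S)) ⊔ (K ⊓ Subgroup.centralizer (X₂ : Set S)) := by
  have hp : p.Prime := Fact.out
  have hq : q.Prime := Fact.out
  haveI := hQc
  have hQp : IsPGroup q Q := by
    intro g
    refine ⟨1, ?_⟩
    rw [pow_one]
    exact Subtype.ext (hQe g g.2)
  obtain ⟨i, hi⟩ := IsPGroup.iff_card.1 hQp
  obtain ⟨j, hj⟩ := IsPGroup.iff_card.1 (hPp.to_le hKP)
  have hcop : (Nat.card Q).Coprime (Nat.card K) := by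
    rw [hi, hj]
    exact Nat.Coprime.pow _ _ ((Nat.coprime_primes hq hp).2 (Ne.symm hpq))
  have hgen := S0058.result Q K (not_cyc q Q X₁ X₂ hQe h₁ h₂ h₁₂ hc₁ hc₂) hKn hcop
  conv_lhs => rw [← hgen]
  apply iSup_le
  intro a
  apply iSup_le
  rintro ⟨haQ, ha1⟩
  by_cases hbot : K ⊓ Subgroup.centralizer ({a} : Set S) = ⊥
  · rw [hbot]; exact bot_le
  · have hord : orderOf a = q := by
      have h2 := orderOf_dvd_of_pow_eq_one (hQe a haQ)
      rcases (Nat.dvd_prime hq).1 h2 with h3 | h3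
      · exact absurd (orderOf_eq_one_iff.1 h3) ha1
      · exact h3
    have hXc : Nat.card (Subgroup.zpowers a) = q := by rw [Nat.card_zpowers, hord]
    have hXQ : Subgroup.zpowers a ≤ Q := by rw [Subgroup.zpowers_le]; exact haQ
    have hle : K ⊓ Subgroup.centralizer ({a} : Set S) ≤
        K ⊓ Subgroup.centralizer ((Subgroup.zpowers a : Subgroup S) : Set S) := by
      intro t ht
      obtain ⟨ht1, ht2⟩ := Subgroup.mem_inf.1 ht
      refine Subgroup.mem_inf.2 ⟨ht1, ?_⟩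
      rw [Subgroup.mem_centralizer_iff]
      intro z hz
      obtain ⟨k, rfl⟩ := Subgroup.mem_zpowers_iff.1 hz
      have hc : Commute a t := Subgroup.mem_centralizer_iff.1 ht2 a (Set.mem_singleton a)
      exact (hc.zpow_left k).eq
    have hne : P ⊓ Subgroup.centralizer ((Subgroup.zpowers a : Subgroup S) : Set S) ≠ ⊥ := by
      intro h
      apply hbot
      rw [eq_bot_iff, ← h]
      exact hle.trans (inf_le_inf_right _ hKP)
    by_cases hX1 : Subgroup.zpowers a = X₁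
    · rw [hX1] at hle
      exact hle.trans le_sup_left
    · by_cases hX2 : Subgroup.zpowers a = X₂
      · rw [hX2] at hle
        exact hle.trans le_sup_right
      · exact absurd (honly _ hXQ hXc hX1 hX2) hne

theorem stepN (p q : ℕ) [Fact p.Prime] [Fact q.Prime] (hpq : p ≠ q) (n : ℕ)
    (ih : Stmt.{u} p q n)
    (S : Type u) [Group S] [Finite S] (hcard : Nat.card S ≤ n + 1) (P Q X₁ X₂ : Subgroup S)
    (hPn : P.Normal) (hPp : IsPGroup p P) (hS : P ⊔ Q = ⊤) (hQc : IsMulCommutative Q)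
    (hQe : ∀ a ∈ Q, a ^ q = 1) (h₁ : X₁ ≤ Q) (h₂ : X₂ ≤ Q) (h₁₂ : X₁ ≠ X₂)
    (hc₁ : Nat.card X₁ = q) (hc₂ : Nat.card X₂ = q)
    (honly : ∀ X : Subgroup S, X ≤ Q → Nat.card X = q → X ≠ X₁ → X ≠ X₂ →
      P ⊓ Subgroup.centralizer (X : Set S) = ⊥)
    (hN : P ⊓ Subgroup.centralizer (P : Set S) ⊓ Subgroup.centralizer (X₁ : Set S) ≠ ⊥) :
    ⁅P ⊓ Subgroup.centralizer (X₁ : Set S), P ⊓ Subgroup.centralizer (X₂ : Set S)⁆ = ⊥ := by
  have hp : p.Prime := Fact.out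
  have hq : q.Prime := Fact.out
  haveI := hPn
  have hQcomm : ∀ a ∈ Q, ∀ b ∈ Q, a * b = b * a := by
    intro a ha b hb
    haveI := hQc
    have h1 := mul_comm' (⟨a, ha⟩ : ↥Q) ⟨b, hb⟩
    exact congrArg Subtype.val h1
  obtain ⟨N, hNdef⟩ : ∃ N : Subgroup S, N = P ⊓ Subgroup.centralizer (P : Set S) ⊓
      Subgroup.centralizer (X₁ : Set S) := ⟨_, rfl⟩
  rw [← hNdef] at hN
  have hNP : N ≤ P := by rw [hNdef]; exact inf_le_left.trans inf_le_left
  have hNZ : ∀ n ∈ N, ∀ u ∈ P, u * n = n * u := by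
    intro n hn u hu
    rw [hNdef] at hn
    exact Subgroup.mem_centralizer_iff.1 (Subgroup.mem_inf.1 (Subgroup.mem_inf.1 hn).1).2 u hu
  have hNX : ∀ n ∈ N, ∀ x ∈ X₁, x * n = n * x := by
    intro n hn x hx
    rw [hNdef] at hn
    exact Subgroup.mem_centralizer_iff.1 (Subgroup.mem_inf.1 hn).2 x hx
  haveI hNn : N.Normal := by
    constructor
    intro n hn g
    have hg : g ∈ P ⊔ Q := by rw [hS]; exact Subgroup.mem_top g
    obtain ⟨u, hu, a, ha, rfl⟩ := Subgroup.mem_sup_of_normal_left.1 hg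
    have h1 : a * n * a⁻¹ ∈ N := by
      rw [hNdef]
      refine Subgroup.mem_inf.2 ⟨Subgroup.mem_inf.2 ⟨hPn.conj_mem n (hNP hn) a, ?_⟩, ?_⟩
      · rw [Subgroup.mem_centralizer_iff]
        intro v hv
        have hv' : a⁻¹ * v * a ∈ P := by
          have h0 := hPn.conj_mem v hv a⁻¹
          rwa [inv_inv] at h0
        have h2 := hNZ n hn _ hv'
        have e1 : v * (a * n * a⁻¹) = a * ((a⁻¹ * v * a) * n) * a⁻¹ := by group
        rw [e1, h2]; group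
      · rw [Subgroup.mem_centralizer_iff]
        intro x hx
        have h2 := hNX n hn x hx
        have h3 := hQcomm x (h₁ hx) a ha
        have h4 : x * a⁻¹ = a⁻¹ * x := by
          have e4 : x * a⁻¹ = a⁻¹ * (a * x) * a⁻¹ := by group
          rw [e4, ← h3]; group
        calc x * (a * n * a⁻¹) = (x * a) * n * a⁻¹ := by group
          _ = a * (x * n) * a⁻¹ := by rw [h3]; group
          _ = a * n * (x * a⁻¹) := by rw [h2]; group
          _ = a * n * a⁻¹ * x := by rw [h4]; group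
    have e : u * a * n * (u * a)⁻¹ = u * (a * n * a⁻¹) * u⁻¹ := by group
    rw [e]
    have h2 := hNZ _ h1 u hu
    rw [h2]
    have e2 : a * n * a⁻¹ * u * u⁻¹ = a * n * a⁻¹ := by group
    rw [e2]; exact h1
  obtain ⟨kN, hkN⟩ := IsPGroup.iff_card.1 (hPp.to_le hNP)
  have hNq : (Nat.card N).Coprime q := by
    rw [hkN]; exact Nat.Coprime.pow_left kN ((Nat.coprime_primes hp hq).2 hpq)
  have hQN : ∀ a ∈ Q, a ∈ N → a = 1 := by
    intro a ha haN
    have h1 : a ^ Nat.card N = 1 := by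
      have h2 := pow_card_eq_one' (G := ↥N) (x := ⟨a, haN⟩)
      exact congrArg Subtype.val h2
    exact S0579.eq_one_of_pow_coprime h1 (hQe a ha) hNq
  have hsub : ∀ A : Subgroup S, A ≤ Q → A ⊓ N = ⊥ := by
    intro A hA
    rw [eq_bot_iff]
    intro a ha
    obtain ⟨ha1, ha2⟩ := Subgroup.mem_inf.1 ha
    exact Subgroup.mem_bot.2 (hQN a (hA ha1) ha2)
  have hcardmap : ∀ A : Subgroup S, A ≤ Q →
      Nat.card (A.map (QuotientGroup.mk' N)) = Nat.card A := by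
    intro A hA
    have h1 := S0003.card_map_mk A N
    rw [hsub A hA, Subgroup.card_bot, mul_one] at h1
    exact h1
  have hmapinj : ∀ A B : Subgroup S, A ≤ Q → B ≤ Q →
      A.map (QuotientGroup.mk' N) ≤ B.map (QuotientGroup.mk' N) → A ≤ B := by
    intro A B hA hB hAB a ha
    obtain ⟨b, hb, hba⟩ := Subgroup.mem_map.1 (hAB (Subgroup.mem_map_of_mem _ ha))
    have h0 : QuotientGroup.mk' N (b⁻¹ * a) = 1 := by
      rw [map_mul, map_inv, hba, inv_mul_cancel]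
    have h1 : b⁻¹ * a ∈ N := (QuotientGroup.eq_one_iff _).1 h0
    have h2 := hQN _ (Q.mul_mem (Q.inv_mem (hB hb)) (hA ha)) h1
    have h3 : a = b := (inv_mul_eq_one.1 h2).symm
    rw [h3]; exact hb
  have hcardq : Nat.card (S ⧸ N) ≤ n := by
    have h1 := Subgroup.card_eq_card_quotient_mul_card_subgroup N
    have h2 : 2 ≤ Nat.card N := (Subgroup.one_lt_card_iff_ne_bot N).2 hN
    have h3 : Nat.card (S ⧸ N) * 2 ≤ Nat.card (S ⧸ N) * Nat.card N := Nat.mul_le_mul_left _ h2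
    have h4 : 0 < Nat.card (S ⧸ N) := Nat.card_pos
    omega
  have hsurj := QuotientGroup.mk'_surjective N
  have hIH := ih (S ⧸ N) hcardq (P.map (QuotientGroup.mk' N)) (Q.map (QuotientGroup.mk' N))
    (X₁.map (QuotientGroup.mk' N)) (X₂.map (QuotientGroup.mk' N))
    (hPn.map _ hsurj) (hPp.map _)
    (by rw [← Subgroup.map_sup, hS]; exact Subgroup.map_top_of_surjective _ hsurj)
    ⟨⟨fun u v => Subtype.ext (by
        obtain ⟨a, ha, hu⟩ := Subgroup.mem_map.1 u.2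
        obtain ⟨b, hb, hv⟩ := Subgroup.mem_map.1 v.2
        show (u : S ⧸ N) * (v : S ⧸ N) = (v : S ⧸ N) * (u : S ⧸ N)
        rw [← hu, ← hv, ← map_mul, ← map_mul, hQcomm a ha b hb])⟩⟩
    (by
      intro z hz
      obtain ⟨a, ha, rfl⟩ := Subgroup.mem_map.1 hz
      rw [← map_pow, hQe a ha, map_one])
    (Subgroup.map_mono h₁) (Subgroup.map_mono h₂)
    (by
      intro h
      apply h₁₂
      exact le_antisymm (hmapinj X₁ X₂ h₁ h₂ h.le) (hmapinj X₂ X₁ h₂ h₁ h.ge))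
    (by rw [hcardmap X₁ h₁, hc₁]) (by rw [hcardmap X₂ h₂, hc₂])
    (by
      intro Y hY hYc hY1 hY2
      obtain ⟨X, hXdef⟩ : ∃ X : Subgroup S, X = Q ⊓ Y.comap (QuotientGroup.mk' N) := ⟨_, rfl⟩
      have hXQ : X ≤ Q := hXdef ▸ inf_le_left
      have hXY : X.map (QuotientGroup.mk' N) = Y := by
        apply le_antisymm
        · rw [Subgroup.map_le_iff_le_comap, hXdef]; exact inf_le_right
        · intro y hy
          obtain ⟨a, ha, rfl⟩ := Subgroup.mem_map.1 (hY hy)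
          exact Subgroup.mem_map_of_mem _ (hXdef ▸ Subgroup.mem_inf.2 ⟨ha, hy⟩)
      have hXc : Nat.card X = q := by rw [← hcardmap X hXQ, hXY, hYc]
      have hX1 : X ≠ X₁ := by intro h; apply hY1; rw [← hXY, h]
      have hX2 : X ≠ X₂ := by intro h; apply hY2; rw [← hXY, h]
      have h0 := honly X hXQ hXc hX1 hX2
      have hXp : IsPGroup q X := by
        intro g
        refine ⟨1, ?_⟩
        rw [pow_one]
        exact Subtype.ext (hQe g (hXQ g.2))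
      have hlift := (S3800.result N hNq X hXp).2
      rw [hXY] at hlift
      rw [eq_bot_iff]
      intro w hw
      obtain ⟨hw1, hw2⟩ := Subgroup.mem_inf.1 hw
      rw [hlift] at hw2
      obtain ⟨c, hc, rfl⟩ := Subgroup.mem_map.1 hw2
      obtain ⟨u', hu', huc⟩ := Subgroup.mem_map.1 hw1
      have h1 : u'⁻¹ * c ∈ N := by
        have h0' : QuotientGroup.mk' N (u'⁻¹ * c) = 1 := by
          rw [map_mul, map_inv, huc, inv_mul_cancel]
        exact (QuotientGroup.eq_one_iff _).1 h0'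
      have hcP : c ∈ P := by
        have e : c = u' * (u'⁻¹ * c) := by group
        rw [e]; exact P.mul_mem hu' (hNP h1)
      have hc1 : c ∈ P ⊓ Subgroup.centralizer (X : Set S) := Subgroup.mem_inf.2 ⟨hcP, hc⟩
      rw [h0, Subgroup.mem_bot] at hc1
      rw [hc1, map_one]; exact Subgroup.mem_bot.2 rfl)
  have hcomN : ∀ a ∈ P ⊓ Subgroup.centralizer (X₁ : Set S),
      ∀ b ∈ P ⊓ Subgroup.centralizer (X₂ : Set S), ⁅a, b⁆ ∈ N := by
    have hmem : ∀ (X : Subgroup S) (a : S), a ∈ P ⊓ Subgroup.centralizer (X : Set S) →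
        QuotientGroup.mk' N a ∈ P.map (QuotientGroup.mk' N) ⊓ Subgroup.centralizer
          ((X.map (QuotientGroup.mk' N) : Subgroup (S ⧸ N)) : Set (S ⧸ N)) := by
      intro X a ha
      obtain ⟨ha1, ha2⟩ := Subgroup.mem_inf.1 ha
      refine Subgroup.mem_inf.2 ⟨Subgroup.mem_map_of_mem _ ha1, ?_⟩
      rw [Subgroup.mem_centralizer_iff]
      intro z hz
      obtain ⟨x, hx, rfl⟩ := Subgroup.mem_map.1 hz
      rw [← map_mul, ← map_mul, Subgroup.mem_centralizer_iff.1 ha2 x hx]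
    intro a ha b hb
    have h1 := Subgroup.commutator_mem_commutator (hmem X₁ a ha) (hmem X₂ b hb)
    rw [hIH, Subgroup.mem_bot, ← map_commutatorElement] at h1
    exact (QuotientGroup.eq_one_iff _).1 h1
  obtain ⟨x, hx, hx1, hxg⟩ := gen q X₁ hc₁
  have hdisj := disj q P Q X₁ X₂ hQcomm hQe h₁ h₂ h₁₂ hc₁ hc₂ honly
  have hxP₂ : ∀ b ∈ P ⊓ Subgroup.centralizer (X₂ : Set S),
      x * b * x⁻¹ ∈ P ⊓ Subgroup.centralizer (X₂ : Set S) := by
    intro b hb
    obtain ⟨hb1, hb2⟩ := Subgroup.mem_inf.1 hb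
    refine Subgroup.mem_inf.2 ⟨hPn.conj_mem b hb1 x, ?_⟩
    rw [Subgroup.mem_centralizer_iff]
    intro y hy
    have h1 := Subgroup.mem_centralizer_iff.1 hb2 y hy
    have h2 := hQcomm y (h₂ hy) x (h₁ hx)
    have h3 : y * x⁻¹ = x⁻¹ * y := by
      have e4 : y * x⁻¹ = x⁻¹ * (x * y) * x⁻¹ := by group
      rw [e4, ← h2]; group
    calc y * (x * b * x⁻¹) = (y * x) * b * x⁻¹ := by group
      _ = x * (y * b) * x⁻¹ := by rw [h2]; group
      _ = x * b * (y * x⁻¹) := by rw [h1]; group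
      _ = x * b * x⁻¹ * y := by rw [h3]; group
  have hsurjf : ∀ b ∈ P ⊓ Subgroup.centralizer (X₂ : Set S),
      ∃ b₀ ∈ P ⊓ Subgroup.centralizer (X₂ : Set S), b = b₀⁻¹ * (x * b₀ * x⁻¹) := by
    have hinj : Function.Injective (fun b : ↥(P ⊓ Subgroup.centralizer (X₂ : Set S)) =>
        (⟨(b : S)⁻¹ * (x * (b : S) * x⁻¹),
          Subgroup.mul_mem _ (Subgroup.inv_mem _ b.2) (hxP₂ b b.2)⟩ :
            ↥(P ⊓ Subgroup.centralizer (X₂ : Set S)))) := by
      intro b b' hbb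
      have h1 : (b : S)⁻¹ * (x * (b : S) * x⁻¹) = (b' : S)⁻¹ * (x * (b' : S) * x⁻¹) :=
        congrArg Subtype.val hbb
      have h2 : x * ((b' : S) * (b : S)⁻¹) = ((b' : S) * (b : S)⁻¹) * x := by
        have e1 : ((b' : S) * (b : S)⁻¹) * x =
            (b' : S) * ((b : S)⁻¹ * (x * (b : S) * x⁻¹)) * x * (b : S)⁻¹ := by group
        rw [e1, h1]; group
      have h3 : (b' : S) * (b : S)⁻¹ ∈ (P ⊓ Subgroup.centralizer (X₁ : Set S)) ⊓
          (P ⊓ Subgroup.centralizer (X₂ : Set S)) := by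
        have hmem : (b' : S) * (b : S)⁻¹ ∈ P ⊓ Subgroup.centralizer (X₂ : Set S) :=
          Subgroup.mul_mem _ b'.2 (Subgroup.inv_mem _ b.2)
        refine Subgroup.mem_inf.2 ⟨Subgroup.mem_inf.2 ⟨(Subgroup.mem_inf.1 hmem).1, ?_⟩, hmem⟩
        rw [Subgroup.mem_centralizer_iff]
        intro z hz
        obtain ⟨k, rfl⟩ := hxg z hz
        exact ((show Commute x ((b' : S) * (b : S)⁻¹) from h2).zpow_left k).eq
      rw [hdisj, Subgroup.mem_bot] at h3
      apply Subtype.ext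
      exact (mul_inv_eq_one.1 h3).symm
    have hsurj' := Finite.injective_iff_surjective.1 hinj
    intro b hb
    obtain ⟨b₀, hb₀⟩ := hsurj' ⟨b, hb⟩
    exact ⟨b₀, b₀.2, (congrArg Subtype.val hb₀).symm⟩
  rw [eq_bot_iff, Subgroup.commutator_le]
  intro a ha b hb
  rw [Subgroup.mem_bot, commutatorElement_eq_one_iff_commute]
  obtain ⟨b₀, hb₀, rfl⟩ := hsurjf b hb
  have hc₀ := hcomN a ha b₀ hb₀
  have hax : x * a = a * x := Subgroup.mem_centralizer_iff.1 (Subgroup.mem_inf.1 ha).2 x hx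
  have hcx : x * ⁅a, b₀⁆ = ⁅a, b₀⁆ * x := hNX _ hc₀ x hx
  obtain ⟨c, hcdef⟩ : ∃ c : S, c = ⁅a, b₀⁆ := ⟨_, rfl⟩
  rw [← hcdef] at hcx
  have h1 : a * b₀ * a⁻¹ = c * b₀ := by rw [hcdef, commutatorElement_def]; group
  have h2 : a * x * a⁻¹ = x := by rw [← hax]; group
  have h3 : c⁻¹ * x * c = x := by rw [mul_assoc, hcx]; group
  have h4 : a * (b₀⁻¹ * (x * b₀ * x⁻¹)) * a⁻¹ = b₀⁻¹ * (x * b₀ * x⁻¹) := by
    have e1 : a * (b₀⁻¹ * (x * b₀ * x⁻¹)) * a⁻¹ =
        (a * b₀ * a⁻¹)⁻¹ * (a * x * a⁻¹) * (a * b₀ * a⁻¹) * (a * x * a⁻¹)⁻¹ := by group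
    rw [e1, h1, h2]
    have e2 : (c * b₀)⁻¹ * x * (c * b₀) * x⁻¹ = b₀⁻¹ * (c⁻¹ * x * c) * b₀ * x⁻¹ := by group
    rw [e2, h3]; group
  show a * (b₀⁻¹ * (x * b₀ * x⁻¹)) = b₀⁻¹ * (x * b₀ * x⁻¹) * a
  have e3 : a * (b₀⁻¹ * (x * b₀ * x⁻¹)) = (a * (b₀⁻¹ * (x * b₀ * x⁻¹)) * a⁻¹) * a := by group
  rw [e3, h4]

theorem aux (p q : ℕ) [Fact p.Prime] [Fact q.Prime] (hpq : p ≠ q) : ∀ n : ℕ, Stmt.{u} p q n := by
  intro n
  induction n with
  | zero =>
    intro S _ _ hcard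
    have h1 : 0 < Nat.card S := Nat.card_pos
    omega
  | succ n ih =>
    intro S _ _ hcard P Q X₁ X₂ hPn hPp hS hQc hQe h₁ h₂ h₁₂ hc₁ hc₂ honly
    by_cases hPbot : P = ⊥
    · rw [hPbot, bot_inf_eq, Subgroup.commutator_bot_left]
    · have hK : P ⊓ Subgroup.centralizer (P : Set S) ≠ ⊥ := by
        haveI : Nontrivial ↥P := (Subgroup.nontrivial_iff_ne_bot P).2 hPbot
        haveI := hPp.center_nontrivial
        obtain ⟨z, hz⟩ := exists_ne (1 : ↥(Subgroup.center ↥P))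
        intro hbot
        apply hz
        have h2 : ((z : ↥P) : S) ∈ P ⊓ Subgroup.centralizer (P : Set S) := by
          refine Subgroup.mem_inf.2 ⟨(z : ↥P).2, ?_⟩
          rw [Subgroup.mem_centralizer_iff]
          intro u hu
          have h3 := Subgroup.mem_center_iff.1 z.2 ⟨u, hu⟩
          exact congrArg Subtype.val h3
        rw [hbot, Subgroup.mem_bot] at h2
        exact Subtype.ext (Subtype.ext h2)
      have hKn : Q ≤ Subgroup.normalizer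
          ((P ⊓ Subgroup.centralizer (P : Set S) : Subgroup S) : Set S) := by
        have hconj : ∀ g : S, ∀ k ∈ P ⊓ Subgroup.centralizer (P : Set S),
            g * k * g⁻¹ ∈ P ⊓ Subgroup.centralizer (P : Set S) := by
          intro g k hk
          obtain ⟨hk1, hk2⟩ := Subgroup.mem_inf.1 hk
          refine Subgroup.mem_inf.2 ⟨hPn.conj_mem k hk1 g, ?_⟩
          rw [Subgroup.mem_centralizer_iff]
          intro v hv
          have hv' : g⁻¹ * v * g ∈ P := by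
            have h0 := hPn.conj_mem v hv g⁻¹
            rwa [inv_inv] at h0
          have h2 := Subgroup.mem_centralizer_iff.1 hk2 _ hv'
          have e1 : v * (g * k * g⁻¹) = g * ((g⁻¹ * v * g) * k) * g⁻¹ := by group
          rw [e1, h2]; group
        intro g _
        rw [Subgroup.mem_set_normalizer_iff]
        intro k
        constructor
        · intro hk; exact hconj g k hk
        · intro hk
          have h1 := hconj g⁻¹ _ hk
          have e2 : g⁻¹ * (g * k * g⁻¹) * g⁻¹⁻¹ = k := by group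
          rw [e2] at h1
          exact h1
      have hsup := gen_sup p q hpq P Q X₁ X₂ (P ⊓ Subgroup.centralizer (P : Set S)) hPp hQc hQe
        h₁ h₂ h₁₂ hc₁ hc₂ honly inf_le_left hKn
      by_cases hN1 : P ⊓ Subgroup.centralizer (P : Set S) ⊓ Subgroup.centralizer (X₁ : Set S) = ⊥
      · have hN2 : P ⊓ Subgroup.centralizer (P : Set S) ⊓
            Subgroup.centralizer (X₂ : Set S) ≠ ⊥ := by
          intro hN2
          rw [hN1, hN2, sup_bot_eq] at hsup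
          exact hK (le_bot_iff.1 hsup)
        have h := stepN p q hpq n ih S hcard P Q X₂ X₁ hPn hPp hS hQc hQe h₂ h₁ (Ne.symm h₁₂)
          hc₂ hc₁ (fun X hX hc h2 h1 => honly X hX hc h1 h2) hN2
        rw [Subgroup.commutator_comm]
        exact h
      · exact stepN p q hpq n ih S hcard P Q X₁ X₂ hPn hPp hS hQc hQe h₁ h₂ h₁₂ hc₁ hc₂
          honly hN1

theorem result {S : Type*} [Group S] [Finite S] {p q : ℕ} [Fact p.Prime] [Fact q.Prime] (hpq : p ≠ q)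
    (P : Sylow p S) [(P : Subgroup S).Normal] (Q : Subgroup S) (hQ : Cfsg.IsElementaryAbelian q Q) (hQc : Nat.card Q = q ^ 2)
    (hS : (P : Subgroup S) ⊔ Q = ⊤)
    (X₁ X₂ : Subgroup S) (h₁ : X₁ ≤ Q) (h₂ : X₂ ≤ Q) (h₁₂ : X₁ ≠ X₂) (hc₁ : Nat.card X₁ = q) (hc₂ : Nat.card X₂ = q)
    (hf₁ : (P : Subgroup S) ⊓ Subgroup.centralizer (X₁ : Set S) ≠ ⊥)
    (hf₂ : (P : Subgroup S) ⊓ Subgroup.centralizer (X₂ : Set S) ≠ ⊥)
    (honly : ∀ X : Subgroup S, X ≤ Q → Nat.card X = q →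
      (P : Subgroup S) ⊓ Subgroup.centralizer (X : Set S) ≠ ⊥ → X = X₁ ∨ X = X₂) :
    ⁅(P : Subgroup S) ⊓ Subgroup.centralizer (X₁ : Set S), (P : Subgroup S) ⊓ Subgroup.centralizer (X₂ : Set S)⁆ = ⊥ ∧
      ((P : Subgroup S) ⊓ Subgroup.centralizer (X₁ : Set S)) ⊓ ((P : Subgroup S) ⊓ Subgroup.centralizer (X₂ : Set S)) = ⊥ ∧
      ((P : Subgroup S) ⊓ Subgroup.centralizer (X₁ : Set S)) ⊔ ((P : Subgroup S) ⊓ Subgroup.centralizer (X₂ : Set S)) = P := by
  obtain ⟨hQcm, hQe⟩ := hQ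
  have hPn : (P : Subgroup S).Normal := inferInstance
  have honly' : ∀ X : Subgroup S, X ≤ Q → Nat.card X = q → X ≠ X₁ → X ≠ X₂ →
      (P : Subgroup S) ⊓ Subgroup.centralizer (X : Set S) = ⊥ := by
    intro X hX hc h1 h2
    by_contra h
    rcases honly X hX hc h with h3 | h3
    · exact h1 h3
    · exact h2 h3
  have hQcomm : ∀ a ∈ Q, ∀ b ∈ Q, a * b = b * a := by
    intro a ha b hb
    haveI := hQcm
    have h1 := mul_comm' (⟨a, ha⟩ : ↥Q) ⟨b, hb⟩
    exact congrArg Subtype.val h1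
  refine ⟨aux p q hpq (Nat.card S) S le_rfl (P : Subgroup S) Q X₁ X₂ hPn P.2 hS hQcm hQe
    h₁ h₂ h₁₂ hc₁ hc₂ honly', disj q (P : Subgroup S) Q X₁ X₂ hQcomm hQe h₁ h₂ h₁₂ hc₁ hc₂ honly',
    ?_⟩
  apply le_antisymm (sup_le inf_le_left inf_le_left)
  have hKn : Q ≤ Subgroup.normalizer (((P : Subgroup S)) : Set S) := by
    intro g _
    rw [Subgroup.mem_set_normalizer_iff]
    intro k
    constructor
    · intro hk; exact hPn.conj_mem k hk g
    · intro hk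
      have h1 := hPn.conj_mem _ hk g⁻¹
      have e2 : g⁻¹ * (g * k * g⁻¹) * g⁻¹⁻¹ = k := by group
      rw [e2] at h1
      exact h1
  exact gen_sup p q hpq (P : Subgroup S) Q X₁ X₂ (P : Subgroup S) P.2 hQcm hQe
    h₁ h₂ h₁₂ hc₁ hc₂ honly' le_rfl hKn

end Cfsg.Agent.S1900
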