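import Cfsg.Statements.S1939

set_option autoImplicit false
open Cfsg
open scoped Pointwise

namespace Cfsg.Agent.S1939

theorem mem_of_smul {G : Type*} [Group G] {p : ℕ} (S U : Sylow p G) (h : G)
    (hh : h • S = U) (x : G) (hx : x ∈ U) : h⁻¹ * x * h ∈ (S : Subgroup G) := by
  rw [← hh] at hx
  have h1 : x ∈ MulAut.conj h • (S : Subgroup G) := by
    rw [← Sylow.coe_subgroup_smul]; exact hx
  rw [Subgroup.mem_pointwise_smul_iff_inv_smul_mem] at h1
  simpa [MulAut.smul_def] using h1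

theorem smul_mem_of_mem {G : Type*} [Group G] {p : ℕ} (S U : Sylow p G) (h : G)
    (hh : h • S = U) (x : G) (hx : x ∈ S) : h * x * h⁻¹ ∈ (U : Subgroup G) := by
  rw [← hh]
  have h1 : MulAut.conj h • x ∈ MulAut.conj h • (S : Subgroup G) :=
    Subgroup.smul_mem_pointwise_smul x _ _ hx
  rw [← Sylow.coe_subgroup_smul] at h1
  simpa [MulAut.smul_def] using h1

/-- Let S be a Sylow p-subgroup of the finite group G and a an element of S that is the only G-conjugate of a lying in S. Then every power of a has the same property: for every n, the only G-conjugate of a^n lying in S is a^n. -/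
theorem result {G : Type*} [Group G] [Finite G] {p : ℕ} [Fact p.Prime] (S : Sylow p G) (a : G)
    (haS : a ∈ (S : Subgroup G)) (hwc : ∀ g : G, g * a * g⁻¹ ∈ (S : Subgroup G) → g * a * g⁻¹ = a) (n : ℕ) :
    ∀ g : G, g * a ^ n * g⁻¹ ∈ (S : Subgroup G) → g * a ^ n * g⁻¹ = a ^ n := by
  intro g hg
  have hcen : ∀ s ∈ (S : Subgroup G), s * a = a * s := by
    intro s hs
    have h1 : s * a * s⁻¹ ∈ (S : Subgroup G) :=
      Subgroup.mul_mem _ (Subgroup.mul_mem _ hs haS) (Subgroup.inv_mem _ hs)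
    have h2 := hwc s h1
    calc s * a = s * a * s⁻¹ * s := by group
      _ = a * s := by rw [h2]
  have hyb : g * a ^ n * g⁻¹ = (g * a * g⁻¹) ^ n := by rw [conj_pow]
  have haC : a ∈ Subgroup.centralizer ({g * a ^ n * g⁻¹} : Set G) := by
    rw [Subgroup.mem_centralizer_iff]
    intro z hz
    rw [Set.mem_singleton_iff] at hz
    subst hz
    exact hcen _ hg
  have hbC : g * a * g⁻¹ ∈ Subgroup.centralizer ({g * a ^ n * g⁻¹} : Set G) := by
    rw [Subgroup.mem_centralizer_iff]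
    intro z hz
    rw [Set.mem_singleton_iff] at hz
    subst hz
    rw [hyb]
    exact (Commute.pow_self (g * a * g⁻¹) n).eq
  obtain ⟨k, hk⟩ := (IsPGroup.iff_orderOf.mp S.2) ⟨a, haS⟩
  have hoa : orderOf a = p ^ k := by
    rw [← hk]
    exact (Subgroup.orderOf_mk a haS).symm
  have hob : orderOf (g * a * g⁻¹) = p ^ k := by
    rw [← hoa]
    exact (MulAut.conj g).orderOf_eq a
  have hpa : IsPGroup p (Subgroup.zpowers
      (⟨a, haC⟩ : Subgroup.centralizer ({g * a ^ n * g⁻¹} : Set G))) := by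
    apply IsPGroup.of_card (n := k)
    rw [Nat.card_zpowers, Subgroup.orderOf_mk, hoa]
  have hpb : IsPGroup p (Subgroup.zpowers
      (⟨g * a * g⁻¹, hbC⟩ : Subgroup.centralizer ({g * a ^ n * g⁻¹} : Set G))) := by
    apply IsPGroup.of_card (n := k)
    rw [Nat.card_zpowers, Subgroup.orderOf_mk, hob]
  obtain ⟨R, hR⟩ := hpa.exists_le_sylow
  obtain ⟨R', hR'⟩ := hpb.exists_le_sylow
  obtain ⟨c, hc⟩ := MulAction.exists_smul_eq (Subgroup.centralizer ({g * a ^ n * g⁻¹} : Set G)) R' R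
  have haR : (⟨a, haC⟩ : Subgroup.centralizer ({g * a ^ n * g⁻¹} : Set G)) ∈ R :=
    hR (Subgroup.mem_zpowers _)
  have hbR' : (⟨g * a * g⁻¹, hbC⟩ : Subgroup.centralizer ({g * a ^ n * g⁻¹} : Set G)) ∈ R' :=
    hR' (Subgroup.mem_zpowers _)
  have hcb := smul_mem_of_mem R' R c hc _ hbR'
  have hpR : IsPGroup p ((R : Subgroup (Subgroup.centralizer ({g * a ^ n * g⁻¹} : Set G))).map
      (Subgroup.centralizer ({g * a ^ n * g⁻¹} : Set G)).subtype) := R.2.map _
  obtain ⟨U, hU⟩ := hpR.exists_le_sylow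
  obtain ⟨h, hh⟩ := MulAction.exists_smul_eq G S U
  have haU : a ∈ U := hU (Subgroup.mem_map.mpr ⟨⟨a, haC⟩, haR, rfl⟩)
  have hcbU : (c : G) * (g * a * g⁻¹) * (c : G)⁻¹ ∈ U := hU (Subgroup.mem_map.mpr ⟨_, hcb, rfl⟩)
  have e1 : h⁻¹ * a * h = a := by
    have h1 := mem_of_smul S U h hh a haU
    have h2 := hwc h⁻¹ (by rw [inv_inv]; exact h1)
    rw [inv_inv] at h2
    exact h2
  have e2 : h⁻¹ * ((c : G) * (g * a * g⁻¹) * (c : G)⁻¹) * h = a := by
    have h1 := mem_of_smul S U h hh _ hcbU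
    have h3 : h⁻¹ * ((c : G) * (g * a * g⁻¹) * (c : G)⁻¹) * h
        = (h⁻¹ * (c : G) * g) * a * (h⁻¹ * (c : G) * g)⁻¹ := by group
    rw [h3] at h1 ⊢
    exact hwc _ h1
  have e1' : h * a * h⁻¹ = a := by
    calc h * a * h⁻¹ = h * (h⁻¹ * a * h) * h⁻¹ := by rw [e1]
      _ = a := by group
  have e3 : (c : G) * (g * a * g⁻¹) * (c : G)⁻¹ = a := by
    calc (c : G) * (g * a * g⁻¹) * (c : G)⁻¹
        = h * (h⁻¹ * ((c : G) * (g * a * g⁻¹) * (c : G)⁻¹) * h) * h⁻¹ := by group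
      _ = h * a * h⁻¹ := by rw [e2]
      _ = a := e1'
  have e4 : (c : G) * (g * a ^ n * g⁻¹) * (c : G)⁻¹ = a ^ n := by
    have h5 : (c : G) * (g * a ^ n * g⁻¹) * (c : G)⁻¹ = ((c : G) * (g * a * g⁻¹) * (c : G)⁻¹) ^ n := by
      rw [conj_pow, conj_pow]
    rw [h5, e3]
  have e5 : (c : G) * (g * a ^ n * g⁻¹) = (g * a ^ n * g⁻¹) * (c : G) := by
    have := c.2
    rw [Subgroup.mem_centralizer_iff] at this
    exact (this _ (Set.mem_singleton _)).symm
  calc g * a ^ n * g⁻¹ = (g * a ^ n * g⁻¹) * (c : G) * (c : G)⁻¹ := by group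
    _ = (c : G) * (g * a ^ n * g⁻¹) * (c : G)⁻¹ := by rw [← e5]
    _ = a ^ n := e4

end Cfsg.Agent.S1939
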