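import Cfsg.Statements.S1940
import Mathlib

set_option autoImplicit false
open Cfsg

namespace Cfsg.Agent.S1940

/-- Let the finite group L act by automorphisms on the finite abelian group M, and let N be an L-invariant subgroup of M such that M/N is a p-group on which L acts trivially (every l • m lies in the coset mN). If every element of M is a product of an element of N and an element fixed by a Sylow p-subgroup T of L, then every element of M is a product of an element of N and an element fixed by all of L. -/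
theorem result {L : Type*} [Group L] [Finite L] {M : Type*} [CommGroup M] [Finite M] [MulDistribMulAction L M]
    {p : ℕ} [Fact p.Prime] (N : Subgroup M) (hN : ∀ (l : L) (m : M), m ∈ N → l • m ∈ N)
    (hquot : IsPGroup p (M ⧸ N)) (htriv : ∀ (l : L) (m : M), (l • m) * m⁻¹ ∈ N) (T : Sylow p L)
    (hT : ∀ m : M, ∃ n ∈ N, ∃ c : M, (∀ t ∈ (T : Subgroup L), t • c = c) ∧ m = n * c) :
    ∀ m : M, ∃ n ∈ N, ∃ c : M, (∀ l : L, l • c = c) ∧ m = n * c := by
  classical
  intro m
  obtain ⟨n, hn, c, hc, rfl⟩ := hT m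
  have _i : Fintype (L ⧸ (T : Subgroup L)) := Fintype.ofFinite _
  obtain ⟨c', hc'def⟩ : ∃ c' : M, c' = ∏ q : L ⧸ (T : Subgroup L), (Quotient.out q : L) • c := ⟨_, rfl⟩
  have hfix : ∀ l : L, l • c' = c' := by
    intro l
    rw [hc'def, Finset.smul_prod']
    have h1 : ∀ q : L ⧸ (T : Subgroup L),
        l • ((Quotient.out q : L) • c) = (Quotient.out (l • q) : L) • c := by
      intro q
      have h2' : ((Quotient.out (l • q) : L) : L ⧸ (T : Subgroup L)) =
          ((l * Quotient.out q : L) : L ⧸ (T : Subgroup L)) := by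
        rw [QuotientGroup.out_eq']
        have h6 : l • q = l • ((Quotient.out q : L) : L ⧸ (T : Subgroup L)) := by
          rw [QuotientGroup.out_eq']
        rw [h6]
        rfl
      have h2 : ((Quotient.out (l • q) : L)⁻¹ * (l * Quotient.out q)) ∈ (T : Subgroup L) :=
        QuotientGroup.eq.mp h2'
      have h3 := hc _ h2
      rw [smul_smul]
      have h4 : l * Quotient.out q = Quotient.out (l • q) * ((Quotient.out (l • q) : L)⁻¹ * (l * Quotient.out q)) := by
        group
      rw [h4, ← smul_smul, h3]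
    rw [Finset.prod_congr rfl (fun q _ => h1 q)]
    exact Fintype.prod_equiv (MulAction.toPerm l) _ _ (fun q => rfl)
  obtain ⟨ν, hν, hνc⟩ : ∃ ν ∈ N, c' = ν * c ^ (Fintype.card (L ⧸ (T : Subgroup L))) := by
    refine ⟨∏ q : L ⧸ (T : Subgroup L), ((Quotient.out q : L) • c) * c⁻¹, ?_, ?_⟩
    · exact Subgroup.prod_mem _ (fun q _ => htriv _ c)
    · rw [Finset.prod_mul_distrib, Finset.prod_const, Finset.card_univ, ← hc'def, inv_pow,
        inv_mul_cancel_right]
  have hk : ¬ p ∣ Fintype.card (L ⧸ (T : Subgroup L)) := by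
    have h1 := T.not_dvd_index
    rw [Subgroup.index_eq_card, Nat.card_eq_fintype_card] at h1
    exact h1
  obtain ⟨j, hj⟩ := hquot (QuotientGroup.mk c)
  have hcN : c ^ p ^ j ∈ N := by
    rw [← QuotientGroup.mk_pow, QuotientGroup.eq_one_iff] at hj
    exact hj
  have hp : p.Prime := Fact.out
  have hcop : Nat.Coprime (Fintype.card (L ⧸ (T : Subgroup L))) (p ^ j) :=
    Nat.Coprime.pow_right j ((Nat.Prime.coprime_iff_not_dvd hp).mpr hk).symm
  obtain ⟨a, b, hab⟩ : ∃ a b : ℕ, Fintype.card (L ⧸ (T : Subgroup L)) * a = p ^ j * b + 1 := by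
    rcases Nat.lt_or_ge 1 (p ^ j) with h1 | h1
    · obtain ⟨a, -, ha⟩ := Nat.exists_mul_mod_eq_one_of_coprime hcop h1
      refine ⟨a, Fintype.card (L ⧸ (T : Subgroup L)) * a / p ^ j, ?_⟩
      have := Nat.div_add_mod (Fintype.card (L ⧸ (T : Subgroup L)) * a) (p ^ j)
      rw [ha] at this
      exact this.symm
    · have h2 : p ^ j = 1 := by
        have := pow_pos hp.pos j
        omega
      have h3 : 0 < Fintype.card (L ⧸ (T : Subgroup L)) := Fintype.card_pos
      refine ⟨1, Fintype.card (L ⧸ (T : Subgroup L)) - 1, ?_⟩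
      rw [h2]
      omega
  have e1 : c ^ (Fintype.card (L ⧸ (T : Subgroup L)) * a) = (c ^ p ^ j) ^ b * c := by
    rw [hab, pow_succ, pow_mul]
  have e2 : c' ^ a = ν ^ a * c ^ (Fintype.card (L ⧸ (T : Subgroup L)) * a) := by
    rw [hνc, mul_pow, ← pow_mul]
  refine ⟨n * ((ν ^ a)⁻¹ * ((c ^ p ^ j) ^ b)⁻¹), ?_, c' ^ a, ?_, ?_⟩
  · exact N.mul_mem hn (N.mul_mem (N.inv_mem (N.pow_mem hν a)) (N.inv_mem (N.pow_mem hcN b)))
  · intro l
    rw [smul_pow', hfix l]
  · rw [e2, e1]
    have h5 : ∀ x y z w : M, x * z = x * (y⁻¹ * w⁻¹) * (y * (w * z)) := by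
      intro x y z w
      have h6 : (y⁻¹ * w⁻¹) * (y * w) = 1 := by rw [← mul_inv, inv_mul_cancel]
      calc x * z = x * (1 * z) := by rw [one_mul]
        _ = x * ((y⁻¹ * w⁻¹) * (y * w) * z) := by rw [h6]
        _ = x * (y⁻¹ * w⁻¹) * (y * (w * z)) := by simp only [mul_assoc]
    exact h5 n (ν ^ a) c ((c ^ p ^ j) ^ b)

end Cfsg.Agent.S1940
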