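import Cfsg.Statements.S1941
import Mathlib
import Cfsg.Agent.Lib.Helper2.Comp
import Cfsg.Agent.Lib.Helper2.Fit
import Cfsg.Agent.Lib.Helper5.PCore

set_option autoImplicit false
open Cfsg

namespace Cfsg.Agent.S1941

open Cfsg.Agent.Lib.Helper2

open scoped IsMulCommutative in
theorem avg {G : Type*} [Group G] [Finite G] (Z T : Subgroup G) (hZn : Z.Normal)
    (hZc : ∀ a ∈ Z, ∀ b ∈ Z, a * b = b * a)
    (e : ℕ) (hZe : ∀ z ∈ Z, z ^ e = 1) (hcop : Nat.Coprime T.index e)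
    (d : G → G) (hdZ : ∀ g, d g ∈ Z) (hd : ∀ g h, d (g * h) = d g * (g * d h * g⁻¹))
    (hdT : ∀ t ∈ T, d t = 1) :
    ∃ v ∈ Z, ∀ h, d h = v * (h * v⁻¹ * h⁻¹) := by
  classical
  haveI : IsMulCommutative ↥Z := ⟨⟨fun a b => Subtype.ext (hZc a a.2 b b.2)⟩⟩
  letI : Fintype (G ⧸ T) := Fintype.ofFinite _
  have hconst : ∀ g : G, ∀ t ∈ T, d (g * t) = d g := by
    intro g t ht
    rw [hd, hdT t ht]; simp
  obtain ⟨w, hw⟩ : ∃ w : ↥Z, w = ∏ q : G ⧸ T, (⟨d q.out, hdZ _⟩ : ↥Z) := ⟨_, rfl⟩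
  have key : ∀ h : G, (w : G) = d h ^ T.index * (h * (w : G) * h⁻¹) := by
    intro h
    have h1 : ∏ q : G ⧸ T, (⟨d (h • q).out, hdZ _⟩ : ↥Z) = w := by
      rw [hw]
      exact Equiv.prod_comp (MulAction.toPerm h) (fun q : G ⧸ T => (⟨d q.out, hdZ _⟩ : ↥Z))
    have h2 : ∀ q : G ⧸ T, (⟨d (h • q).out, hdZ _⟩ : ↥Z) =
        (⟨d h, hdZ h⟩ : ↥Z) * (MulAut.conjNormal h (⟨d q.out, hdZ _⟩ : ↥Z)) := by
      intro q
      apply Subtype.ext
      have hq : (h • q) = QuotientGroup.mk (h * q.out) := by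
        conv_lhs => rw [← QuotientGroup.out_eq' q]
        rfl
      obtain ⟨t, ht⟩ := QuotientGroup.mk_out_eq_mul T (h * q.out)
      rw [← hq] at ht
      show d (h • q).out = d h * (h * d q.out * h⁻¹)
      rw [ht, hconst _ _ t.2, hd]
    rw [Finset.prod_congr rfl (fun q _ => h2 q), Finset.prod_mul_distrib, Finset.prod_const,
      ← map_prod, ← hw] at h1
    have h3 := congrArg Subtype.val h1
    have hidx : Fintype.card (G ⧸ T) = T.index := by
      rw [Subgroup.index_eq_card, Nat.card_eq_fintype_card]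
    simp only [Subgroup.coe_mul, Subgroup.coe_pow, MulAut.conjNormal_apply,
      Finset.card_univ, hidx] at h3
    exact h3.symm
  have hb := Nat.gcd_eq_gcd_ab T.index e
  have hg : Nat.gcd T.index e = 1 := hcop
  rw [hg] at hb
  refine ⟨(w : G) ^ (Nat.gcdA T.index e), Z.zpow_mem w.2 _, ?_⟩
  intro h
  have k := key h
  have hn : d h ^ T.index = (w : G) * (h * (w : G)⁻¹ * h⁻¹) := by
    have : d h ^ T.index = (w : G) * (h * (w : G) * h⁻¹)⁻¹ := by
      rw [eq_mul_inv_iff_mul_eq]; exact k.symm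
    rw [this]; group
  have hz : d h = (d h ^ T.index) ^ (Nat.gcdA T.index e) := by
    have h1 : d h ^ ((T.index : ℤ) * Nat.gcdA T.index e + (e : ℤ) * Nat.gcdB T.index e) = d h := by
      rw [← hb]; simp
    rw [zpow_add, zpow_mul, zpow_mul, zpow_natCast, zpow_natCast, hZe _ (hdZ h), one_zpow,
      mul_one] at h1
    exact h1.symm
  rw [hz, hn]
  have hc : Commute (w : G) (h * (w : G)⁻¹ * h⁻¹) :=
    hZc _ w.2 _ (hZn.conj_mem _ (Z.inv_mem w.2) h)
  rw [hc.mul_zpow, conj_zpow, inv_zpow]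

theorem result {G : Type*} [Group G] [Finite G] {p : ℕ} [Fact p.Prime] (hcore : Cfsg.pPrimeCore p G = ⊥)
    (T : Sylow p G) (α : MulAut G) (hα : ∃ j : ℕ, orderOf α = p ^ j) (hfixT : ∀ x ∈ (T : Subgroup G), α x = x)
    (hfixE : ∀ x ∈ Cfsg.layer G, α x = x) : ∃ g : G, ∀ x : G, α x = g * x * g⁻¹ := by
  have hp : p.Prime := Fact.out
  obtain ⟨F, hF⟩ : ∃ F : Subgroup G, F = Cfsg.generalizedFittingSubgroup G := ⟨_, rfl⟩
  haveI hFn : F.Normal := by rw [hF]; exact Comp.genFitting_normal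
  have hfitT : Cfsg.fittingSubgroup G ≤ (T : Subgroup G) := by
    rw [Fit.fitting_eq_iSup_pCore]
    apply iSup_le
    intro q
    by_cases hqp : (q : ℕ) = p
    · rw [hqp]; exact Cfsg.Agent.Lib.Helper5.PCore.pCore_le_sylow T
    · have h1 : Cfsg.pCore (q : ℕ) G ≤ Cfsg.pPrimeCore p G := by
        apply le_sSup
        refine ⟨Fit.pCore_normal _, ?_⟩
        haveI : Fact (q : ℕ).Prime := ⟨q.2⟩
        obtain ⟨k, hk⟩ := (IsPGroup.iff_card.1 (Fit.pCore_isPGroup (q : ℕ) (G := G)))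
        rw [hk]
        exact Nat.Coprime.pow_left k ((Nat.coprime_primes q.2 hp).2 hqp)
      rw [hcore] at h1
      exact h1.trans bot_le
  have hfix : ∀ f ∈ F, α f = f := by
    intro f hf
    have hle : F ≤ MonoidHom.eqLocus (α : G →* G) (MonoidHom.id G) := by
      rw [hF]
      unfold Cfsg.generalizedFittingSubgroup
      apply sup_le
      · intro y hy; exact hfixE y hy
      · intro y hy; exact hfixT y (hfitT hy)
    exact hle hf
  obtain ⟨Z, hZ⟩ : ∃ Z : Subgroup G, Z = Subgroup.centralizer (F : Set G) := ⟨_, rfl⟩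
  have hZF : Z ≤ F := by rw [hZ, hF]; exact Comp.centralizer_genFitting_le
  haveI hZn : Z.Normal := by rw [hZ]; exact Subgroup.normal_centralizer
  have hZc : ∀ a ∈ Z, ∀ b ∈ Z, a * b = b * a := by
    intro a ha b hb
    rw [hZ, Subgroup.mem_centralizer_iff] at ha
    exact (ha b (hZF hb)).symm
  have hZT : Z ≤ (T : Subgroup G) := by
    have hnil : Group.IsNilpotent ↥Z := by
      apply Comp.nilpotent_of_commutator_central
      have : ⁅Z, Z⁆ = ⊥ := by
        rw [Subgroup.commutator_eq_bot_iff_le_centralizer]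
        intro a ha
        rw [Subgroup.mem_centralizer_iff]
        intro b hb
        exact hZc b hb a ha
      rw [this]
      exact Subgroup.commutator_bot_left Z
    exact (Fit.le_fitting Z hZn hnil).trans hfitT
  have hdZ : ∀ g : G, α g * g⁻¹ ∈ Z := by
    intro g
    rw [hZ, Subgroup.mem_centralizer_iff]
    intro f hf
    have h1 : g⁻¹ * f * g ∈ F := by
      have := hFn.conj_mem f hf g⁻¹
      simpa using this
    have h2 := hfix _ h1
    rw [map_mul, map_mul, map_inv, hfix f hf] at h2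
    calc f * (α g * g⁻¹) = α g * ((α g)⁻¹ * f * α g) * g⁻¹ := by group
      _ = α g * (g⁻¹ * f * g) * g⁻¹ := by rw [h2]
      _ = (α g * g⁻¹) * f := by group
  have hd : ∀ g h : G, α (g * h) * (g * h)⁻¹ = α g * g⁻¹ * (g * (α h * h⁻¹) * g⁻¹) := by
    intro g h
    rw [map_mul]; group
  have hdT : ∀ t ∈ (T : Subgroup G), α t * t⁻¹ = 1 := by
    intro t ht
    rw [hfixT t ht, mul_inv_cancel]
  have hZe : ∀ z ∈ Z, z ^ Nat.card ↥(T : Subgroup G) = 1 := by
    intro z hz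
    have := pow_card_eq_one' (G := ↥(T : Subgroup G)) (x := ⟨z, hZT hz⟩)
    exact congrArg Subtype.val this
  have hcop : Nat.Coprime (T : Subgroup G).index (Nat.card ↥(T : Subgroup G)) := by
    obtain ⟨k, hk⟩ := IsPGroup.iff_card.1 T.isPGroup'
    rw [hk]
    exact Nat.Coprime.pow_right k ((Nat.Prime.coprime_iff_not_dvd hp).2 T.not_dvd_index).symm
  obtain ⟨v, -, hvd⟩ := avg Z (T : Subgroup G) hZn hZc _ hZe hcop (fun g => α g * g⁻¹) hdZ hd hdT
  refine ⟨v, fun x => ?_⟩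
  have h1 := hvd x
  calc α x = (α x * x⁻¹) * x := by group
    _ = v * (x * v⁻¹ * x⁻¹) * x := by rw [h1]
    _ = v * x * v⁻¹ := by group

end Cfsg.Agent.S1941
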