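import Cfsg.Statements.S2579
import Mathlib

set_option autoImplicit false
open Cfsg

namespace Cfsg.Agent.S2579

open Module

/-- a normal-form basis for a square-zero endomorphism -/
theorem exists_basis_sq_zero {K V : Type*} [Field K] [AddCommGroup V] [Module K V]
    [FiniteDimensional K V] (N : V →ₗ[K] V) (hN : ∀ x, N (N x) = 0) (r k : ℕ)
    (hr : Module.finrank K (LinearMap.range N) = r) (hk : r + r + k = Module.finrank K V) :
    ∃ b : Module.Basis (Fin r ⊕ (Fin r ⊕ Fin k)) K V,
      (∀ x, N (b (Sum.inl x)) = b (Sum.inr (Sum.inl x))) ∧ (∀ y, N (b (Sum.inr y)) = 0) := by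
  classical
  let bu : Module.Basis (Fin r) K (LinearMap.range N) := Module.finBasisOfFinrankEq K _ hr
  have hv : ∀ i, ∃ v, N v = (bu i : V) := fun i => (bu i).2
  choose v hv using hv
  have hRK : LinearMap.range N ≤ LinearMap.ker N := by
    rintro _ ⟨y, rfl⟩
    exact hN y
  obtain ⟨C, hC⟩ := Submodule.exists_isCompl (LinearMap.range N)
  obtain ⟨D, hDdef⟩ : ∃ D : Submodule K V, D = C ⊓ LinearMap.ker N := ⟨_, rfl⟩
  have hDK : D ≤ LinearMap.ker N := by rw [hDdef]; exact inf_le_right
  have hRD : Disjoint (LinearMap.range N) D := by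
    rw [hDdef]
    exact hC.disjoint.mono_right inf_le_left
  have hsup : LinearMap.range N ⊔ D = LinearMap.ker N := by
    rw [hDdef, ← sup_inf_assoc_of_le C hRK, hC.sup_eq_top, top_inf_eq]
  have hDdim : Module.finrank K D = k := by
    have h1 := Submodule.finrank_sup_add_finrank_inf_eq (LinearMap.range N) D
    rw [hsup, hRD.eq_bot, finrank_bot, add_zero] at h1
    have h2 := LinearMap.finrank_range_add_finrank_ker N
    omega
  let bw : Module.Basis (Fin k) K D := Module.finBasisOfFinrankEq K _ hDdim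
  have li_u : LinearIndependent K (fun i => (bu i : V)) :=
    bu.linearIndependent.map' (LinearMap.range N).subtype (Submodule.ker_subtype _)
  have li_w : LinearIndependent K (fun j => (bw j : V)) :=
    bw.linearIndependent.map' D.subtype (Submodule.ker_subtype _)
  have hspan_u : Submodule.span K (Set.range (fun i => (bu i : V))) ≤ LinearMap.range N := by
    rw [Submodule.span_le]
    rintro _ ⟨i, rfl⟩
    exact (bu i).2
  have hspan_w : Submodule.span K (Set.range (fun j => (bw j : V))) ≤ D := by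
    rw [Submodule.span_le]
    rintro _ ⟨i, rfl⟩
    exact (bw i).2
  have li_uw : LinearIndependent K (Sum.elim (fun i => (bu i : V)) (fun j => (bw j : V))) :=
    LinearIndependent.sum_type li_u li_w (hRD.mono hspan_u hspan_w)
  have li_v : LinearIndependent K v := by
    apply LinearIndependent.of_comp N
    have : N ∘ v = fun i => (bu i : V) := funext hv
    rw [this]
    exact li_u
  have hspan_uw : Submodule.span K (Set.range (Sum.elim (fun i => (bu i : V))
      (fun j => (bw j : V)))) ≤ LinearMap.ker N := by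
    rw [Submodule.span_le]
    rintro _ ⟨i | j, rfl⟩
    · exact hRK (bu i).2
    · exact hDK (bw j).2
  have hdisj : Disjoint (Submodule.span K (Set.range v))
      (Submodule.span K (Set.range (Sum.elim (fun i => (bu i : V)) (fun j => (bw j : V))))) := by
    apply Disjoint.mono_right hspan_uw
    rw [Submodule.disjoint_def]
    intro x hx hxK
    rw [Submodule.mem_span_range_iff_exists_fun] at hx
    obtain ⟨c, rfl⟩ := hx
    rw [LinearMap.mem_ker, map_sum] at hxK
    simp only [map_smul, hv] at hxK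
    have hc := Fintype.linearIndependent_iff.1 li_u c hxK
    simp [hc]
  have li : LinearIndependent K
      (Sum.elim v (Sum.elim (fun i => (bu i : V)) (fun j => (bw j : V)))) :=
    LinearIndependent.sum_type li_v li_uw hdisj
  have hcard : Fintype.card (Fin r ⊕ (Fin r ⊕ Fin k)) = Module.finrank K V := by
    simp only [Fintype.card_sum, Fintype.card_fin]
    omega
  refine ⟨basisOfLinearIndependentOfCardEqFinrank' _ li hcard, ?_, ?_⟩
  · intro x
    rw [coe_basisOfLinearIndependentOfCardEqFinrank']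
    exact hv x
  · intro y
    rw [coe_basisOfLinearIndependentOfCardEqFinrank']
    rcases y with i | j
    · exact hRK (bu i).2
    · exact hDK (bw j).2

/-- conjugating square-zero endomorphisms of equal rank, with determinant one -/
theorem conj_sq_zero {K V : Type*} [Field K] [AddCommGroup V] [Module K V]
    [FiniteDimensional K V] (N N' : V →ₗ[K] V) (hN : ∀ x, N (N x) = 0) (hN' : ∀ x, N' (N' x) = 0)
    (hrk : Module.finrank K (LinearMap.range N) = Module.finrank K (LinearMap.range N'))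
    (hadj : 2 * Module.finrank K (LinearMap.range N) < Module.finrank K V ∨
      (1 ≤ Module.finrank K (LinearMap.range N) ∧ ∀ δ : K, ∃ ε : K, ε * ε = δ)) :
    ∃ g : V →ₗ[K] V, LinearMap.det g = 1 ∧ ∀ x, g (N x) = N' (g x) := by
  classical
  obtain ⟨r, hr⟩ : ∃ r, r = Module.finrank K (LinearMap.range N) := ⟨_, rfl⟩
  have h2r : 2 * r ≤ Module.finrank K V := by
    have hRK : LinearMap.range N ≤ LinearMap.ker N := by
      rintro _ ⟨y, rfl⟩
      exact hN y
    have h1 := Submodule.finrank_mono hRK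
    have h2 := LinearMap.finrank_range_add_finrank_ker N
    omega
  obtain ⟨k, hk⟩ : ∃ k, r + r + k = Module.finrank K V :=
    ⟨Module.finrank K V - 2 * r, by omega⟩
  obtain ⟨b, hb1, hb2⟩ := exists_basis_sq_zero N hN r k hr.symm hk
  obtain ⟨b', hb1', hb2'⟩ := exists_basis_sq_zero N' hN' r k (by rw [← hrk, hr]) hk
  let g₀ : V ≃ₗ[K] V := b.equiv b' (Equiv.refl _)
  have hg₀b : ∀ i, g₀ (b i) = b' i := fun i => by
    show b.equiv b' (Equiv.refl _) (b i) = b' i
    rw [Module.Basis.equiv_apply]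
    rfl
  have hg₀ : (g₀ : V →ₗ[K] V) ∘ₗ N = N' ∘ₗ (g₀ : V →ₗ[K] V) := by
    apply b.ext
    intro i
    simp only [LinearMap.comp_apply, LinearEquiv.coe_coe]
    rcases i with x | y
    · rw [hb1, hg₀b, hg₀b, hb1']
    · rw [hb2, hg₀b, hb2', map_zero]
  obtain ⟨δ, hδ⟩ : ∃ δ, δ = LinearMap.det (g₀ : V →ₗ[K] V) := ⟨_, rfl⟩
  have hδ0 : δ ≠ 0 := by
    rw [hδ]
    exact (LinearEquiv.isUnit_det' g₀).ne_zero
  -- the weights
  have hw : ∃ w : Fin r ⊕ (Fin r ⊕ Fin k) → K, (∏ i, w i = δ⁻¹) ∧
      ∀ x, w (Sum.inl x) = w (Sum.inr (Sum.inl x)) := by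
    rcases hadj with h | ⟨h1, h2⟩
    · have hk0 : 0 < k := by omega
      refine ⟨Sum.elim (fun _ => 1) (Sum.elim (fun _ => 1)
        (fun j => if j = (⟨0, hk0⟩ : Fin k) then δ⁻¹ else 1)), ?_, ?_⟩
      · rw [Fintype.prod_sum_type, Fintype.prod_sum_type]
        simp
      · intro x
        rfl
    · have hr0 : 0 < r := by omega
      obtain ⟨ε, hε⟩ := h2 δ⁻¹
      refine ⟨Sum.elim (fun i => if i = (⟨0, hr0⟩ : Fin r) then ε else 1)
        (Sum.elim (fun i => if i = (⟨0, hr0⟩ : Fin r) then ε else 1) (fun _ => 1)), ?_, ?_⟩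
      · rw [Fintype.prod_sum_type, Fintype.prod_sum_type]
        simp [hε]
      · intro x
        rfl
  obtain ⟨w, hw1, hw2⟩ := hw
  let d : V →ₗ[K] V := b'.constr K (fun i => w i • b' i)
  have hdb : ∀ i, d (b' i) = w i • b' i := fun i => Module.Basis.constr_basis _ _ _ _
  have hdet : LinearMap.det d = δ⁻¹ := by
    rw [← LinearMap.det_toMatrix b']
    have hM : LinearMap.toMatrix b' b' d = Matrix.diagonal w := by
      ext i j
      rw [LinearMap.toMatrix_apply, hdb, map_smul, Finsupp.smul_apply, Module.Basis.repr_self_apply,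
        Matrix.diagonal_apply]
      by_cases hij : i = j
      · subst hij
        simp
      · rw [if_neg (fun h => hij h.symm), if_neg hij]
        simp
    rw [hM, Matrix.det_diagonal, hw1]
  have hdN : d ∘ₗ N' = N' ∘ₗ d := by
    apply b'.ext
    intro i
    simp only [LinearMap.comp_apply]
    rcases i with x | y
    · rw [hb1', hdb, hdb, map_smul, hb1', hw2]
    · rw [hb2', hdb, map_smul, hb2', map_zero, smul_zero]
  refine ⟨d ∘ₗ (g₀ : V →ₗ[K] V), ?_, ?_⟩
  · rw [LinearMap.det_comp, hdet, ← hδ, inv_mul_cancel₀ hδ0]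
  · intro x
    have h1 := LinearMap.congr_fun hg₀ x
    have h2 := LinearMap.congr_fun hdN (g₀ x)
    simp only [LinearMap.comp_apply, LinearEquiv.coe_coe] at h1 h2 ⊢
    rw [h1, h2]

/-- matrix version -/
theorem sl_conj_sq_zero {F : Type*} [Field F] {n : ℕ} (A B : Matrix (Fin n) (Fin n) F)
    (hA : (A - 1) * (A - 1) = 0) (hB : (B - 1) * (B - 1) = 0)
    (hrk : (A - 1).rank = (B - 1).rank)
    (hadj : 2 * (A - 1).rank < n ∨ (1 ≤ (A - 1).rank ∧ ∀ δ : F, ∃ ε : F, ε * ε = δ)) :
    ∃ G : Matrix (Fin n) (Fin n) F, G.det = 1 ∧ G * A = B * G := by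
  classical
  have hsq : ∀ M : Matrix (Fin n) (Fin n) F, M * M = 0 →
      ∀ x, Matrix.mulVecLin M (Matrix.mulVecLin M x) = 0 := by
    intro M hM x
    rw [Matrix.mulVecLin_apply, Matrix.mulVecLin_apply, Matrix.mulVec_mulVec, hM, Matrix.zero_mulVec]
  have hrkA : (A - 1).rank = Module.finrank F (LinearMap.range (Matrix.mulVecLin (A - 1))) := rfl
  have hrkB : (B - 1).rank = Module.finrank F (LinearMap.range (Matrix.mulVecLin (B - 1))) := rfl
  rw [hrkA, hrkB] at hrk
  rw [hrkA] at hadj
  have hadj' : 2 * Module.finrank F (LinearMap.range (Matrix.mulVecLin (A - 1))) <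
        Module.finrank F (Fin n → F) ∨
      (1 ≤ Module.finrank F (LinearMap.range (Matrix.mulVecLin (A - 1))) ∧
        ∀ δ : F, ∃ ε : F, ε * ε = δ) := by
    rw [Module.finrank_fin_fun]
    exact hadj
  have key := conj_sq_zero (K := F) (V := Fin n → F) (Matrix.mulVecLin (A - 1))
    (Matrix.mulVecLin (B - 1)) (hsq _ hA) (hsq _ hB) hrk hadj'
  obtain ⟨g, hg1, hg2⟩ := key
  refine ⟨LinearMap.toMatrix' g, ?_, ?_⟩
  · rw [LinearMap.det_toMatrix', hg1]
  · have h1 : g ∘ₗ Matrix.mulVecLin (A - 1) = Matrix.mulVecLin (B - 1) ∘ₗ g := LinearMap.ext hg2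
    have h2 := congrArg LinearMap.toMatrix' h1
    rw [LinearMap.toMatrix'_comp, LinearMap.toMatrix'_comp, ← Matrix.toLin'_apply',
      ← Matrix.toLin'_apply', LinearMap.toMatrix'_toLin', LinearMap.toMatrix'_toLin'] at h2
    rw [mul_sub, sub_mul, mul_one, one_mul] at h2
    exact sub_left_injective h2

theorem result {F : Type*} [Field F] [Finite F] {n : ℕ} (hn : 3 ≤ n) (s t : Matrix.SpecialLinearGroup (Fin n) F) (hs : Cfsg.IsTransvection (s : Matrix (Fin n) (Fin n) F)) (ht : Cfsg.IsTransvection (t : Matrix (Fin n) (Fin n) F)) : IsConj s t := by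
  classical
  obtain ⟨G, hG1, hG2⟩ := sl_conj_sq_zero (s : Matrix (Fin n) (Fin n) F) (t : Matrix (Fin n) (Fin n) F)
    hs.2 ht.2 (by rw [hs.1, ht.1]) (Or.inl (by rw [hs.1]; omega))
  obtain ⟨g', hg'⟩ : ∃ g' : Matrix.SpecialLinearGroup (Fin n) F,
      (g' : Matrix (Fin n) (Fin n) F) = G := ⟨⟨G, hG1⟩, rfl⟩
  rw [isConj_iff]
  refine ⟨g', ?_⟩
  rw [mul_inv_eq_iff_eq_mul]
  apply Subtype.ext
  simp only [Matrix.SpecialLinearGroup.coe_mul]
  rw [hg']
  exact hG2

end Cfsg.Agent.S2579
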