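import Cfsg.Statements.S2162
import Mathlib
import Cfsg.Agent.S2579

set_option autoImplicit false
open Cfsg

namespace Cfsg.Agent.S2162

theorem sq_zero_of_order_two {F : Type*} [Field F] [CharP F 2] {n : ℕ}
    (a : Matrix.SpecialLinearGroup (Fin n) F) (ha : orderOf a = 2) :
    ((a : Matrix (Fin n) (Fin n) F) - 1) * ((a : Matrix (Fin n) (Fin n) F) - 1) = 0 ∧
      1 ≤ ((a : Matrix (Fin n) (Fin n) F) - 1).rank := by
  have h2 : a ^ 2 = 1 := by rw [← ha]; exact pow_orderOf_eq_one a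
  have h1 : a ≠ 1 := by
    intro h
    rw [h, orderOf_one] at ha
    omega
  have h3 : (a : Matrix (Fin n) (Fin n) F) * (a : Matrix (Fin n) (Fin n) F) = 1 := by
    have := congrArg (fun x : Matrix.SpecialLinearGroup (Fin n) F => (x : Matrix (Fin n) (Fin n) F)) h2
    simpa [pow_two] using this
  have h20 : (2 : Matrix (Fin n) (Fin n) F) = 0 := by
    have h : (2 : F) = 0 := CharTwo.two_eq_zero
    ext i j
    by_cases hij : i = j
    · subst hij
      simp [Matrix.ofNat_apply, h]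
    · simp [Matrix.ofNat_apply, hij]
  constructor
  · have e : ((a : Matrix (Fin n) (Fin n) F) - 1) * ((a : Matrix (Fin n) (Fin n) F) - 1) =
        (a : Matrix (Fin n) (Fin n) F) * (a : Matrix (Fin n) (Fin n) F) -
          2 * (a : Matrix (Fin n) (Fin n) F) + 1 := by
      rw [sub_mul, mul_sub, mul_one, one_mul, two_mul]
      abel
    rw [e, h3, h20, zero_mul, sub_zero]
    have : (1 : Matrix (Fin n) (Fin n) F) + 1 = 2 := by norm_num
    rw [this, h20]
  · rw [Nat.one_le_iff_ne_zero]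
    intro h0
    apply h1
    apply Subtype.ext
    have h4 : (a : Matrix (Fin n) (Fin n) F) - 1 = 0 := by
      have hr : ((a : Matrix (Fin n) (Fin n) F) - 1).rank =
          Module.finrank F (LinearMap.range (Matrix.mulVecLin ((a : Matrix (Fin n) (Fin n) F) - 1))) := rfl
      rw [hr, Submodule.finrank_eq_zero, LinearMap.range_eq_bot] at h0
      have h5 := congrArg LinearMap.toMatrix' h0
      rw [← Matrix.toLin'_apply', LinearMap.toMatrix'_toLin'] at h5
      simpa using h5
    rw [sub_eq_zero] at h4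
    rw [h4]
    rfl

theorem result {F : Type*} [Field F] [Fintype F] [CharP F 2] {n : ℕ} (hn : 3 ≤ n) (a b : Matrix.SpecialLinearGroup (Fin n) F) (ha : orderOf a = 2) (hb : orderOf b = 2) :
    IsConj a b ↔ ((a : Matrix (Fin n) (Fin n) F) - 1).rank = ((b : Matrix (Fin n) (Fin n) F) - 1).rank := by
  classical
  obtain ⟨ha1, ha2⟩ := sq_zero_of_order_two a ha
  obtain ⟨hb1, hb2⟩ := sq_zero_of_order_two b hb
  constructor
  · intro h
    rw [isConj_iff] at h
    obtain ⟨c, hc⟩ := h
    have h1 : (b : Matrix (Fin n) (Fin n) F) - 1 =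
        (c : Matrix (Fin n) (Fin n) F) * ((a : Matrix (Fin n) (Fin n) F) - 1) *
          ((c⁻¹ : Matrix.SpecialLinearGroup (Fin n) F) : Matrix (Fin n) (Fin n) F) := by
      have h2 : (c : Matrix (Fin n) (Fin n) F) *
          ((c⁻¹ : Matrix.SpecialLinearGroup (Fin n) F) : Matrix (Fin n) (Fin n) F) = 1 := by
        rw [← Matrix.SpecialLinearGroup.coe_mul, mul_inv_cancel]
        rfl
      rw [mul_sub, sub_mul, mul_one, h2, ← hc]
      simp only [Matrix.SpecialLinearGroup.coe_mul]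
    rw [h1, Matrix.rank_mul_eq_left_of_isUnit_det, Matrix.rank_mul_eq_right_of_isUnit_det]
    · rw [c.2]; exact isUnit_one
    · rw [(c⁻¹).2]; exact isUnit_one
  · intro hrk
    have hsq : ∀ δ : F, ∃ ε : F, ε * ε = δ := by
      intro δ
      obtain ⟨r, hr⟩ := FiniteField.isSquare_of_char_two (ringChar.eq F 2) δ
      exact ⟨r, hr.symm⟩
    obtain ⟨G, hG1, hG2⟩ := Cfsg.Agent.S2579.sl_conj_sq_zero (a : Matrix (Fin n) (Fin n) F)
      (b : Matrix (Fin n) (Fin n) F) ha1 hb1 hrk (Or.inr ⟨ha2, hsq⟩)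
    obtain ⟨g', hg'⟩ : ∃ g' : Matrix.SpecialLinearGroup (Fin n) F,
        (g' : Matrix (Fin n) (Fin n) F) = G := ⟨⟨G, hG1⟩, rfl⟩
    rw [isConj_iff]
    refine ⟨g', ?_⟩
    rw [mul_inv_eq_iff_eq_mul]
    apply Subtype.ext
    simp only [Matrix.SpecialLinearGroup.coe_mul]
    rw [hg']
    exact hG2

end Cfsg.Agent.S2162
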