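import Cfsg.Statements.S2163
import Mathlib

set_option autoImplicit false
open Cfsg

namespace Cfsg.Agent.S2163

/-- the involution exchanging `i` and `i + (n-ℓ)` for `i < ℓ` -/
def tauFun (n ℓ : ℕ) (h2 : 2 * ℓ ≤ n) (i : Fin n) : Fin n :=
  if h : i.val < ℓ then ⟨i.val + (n - ℓ), by have := i.2; omega⟩
  else if h' : n - ℓ ≤ i.val then ⟨i.val - (n - ℓ), by have := i.2; omega⟩
  else i

theorem tauFun_val (n ℓ : ℕ) (h2 : 2 * ℓ ≤ n) (i : Fin n) :
    (tauFun n ℓ h2 i).val = if i.val < ℓ then i.val + (n - ℓ)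
      else if n - ℓ ≤ i.val then i.val - (n - ℓ) else i.val := by
  unfold tauFun; split_ifs <;> rfl

theorem tauFun_invol (n ℓ : ℕ) (h2 : 2 * ℓ ≤ n) : Function.Involutive (tauFun n ℓ h2) := by
  intro i
  apply Fin.ext
  have := i.2
  simp only [tauFun_val]
  split_ifs <;> omega

/-- the involution as a permutation -/
def tau (n ℓ : ℕ) (h2 : 2 * ℓ ≤ n) : Equiv.Perm (Fin n) := (tauFun_invol n ℓ h2).toPerm _

theorem tau_apply (n ℓ : ℕ) (h2 : 2 * ℓ ≤ n) (i : Fin n) : tau n ℓ h2 i = tauFun n ℓ h2 i := rfl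

theorem tau_tau (n ℓ : ℕ) (h2 : 2 * ℓ ≤ n) (i : Fin n) : tau n ℓ h2 (tau n ℓ h2 i) = i :=
  tauFun_invol n ℓ h2 i

/-- its permutation matrix -/
def Qm (F : Type*) [Field F] (n ℓ : ℕ) (h2 : 2 * ℓ ≤ n) : Matrix (Fin n) (Fin n) F :=
  (tau n ℓ h2).toPEquiv.toMatrix

theorem Qm_apply' (F : Type*) [Field F] (n ℓ : ℕ) (h2 : 2 * ℓ ≤ n) (i j : Fin n) :
    Qm F n ℓ h2 i j = if tau n ℓ h2 i = j then 1 else 0 := by
  unfold Qm
  rw [PEquiv.toMatrix_toPEquiv_eq, Matrix.submatrix_apply, Matrix.one_apply]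
  rfl

theorem tau_eq_iff (n ℓ : ℕ) (h2 : 2 * ℓ ≤ n) (i j : Fin n) :
    tau n ℓ h2 i = j ↔ ((j.val < ℓ ∧ i.val = j.val + (n - ℓ)) ∨ (i.val < ℓ ∧ j.val = i.val + (n - ℓ)) ∨
        (i = j ∧ ℓ ≤ i.val ∧ i.val < n - ℓ)) := by
  rw [tau_apply, Fin.ext_iff, tauFun_val]
  have := i.2
  have := j.2
  simp only [Fin.ext_iff]
  split_ifs <;> omega

theorem Qm_apply (F : Type*) [Field F] (n ℓ : ℕ) (h2 : 2 * ℓ ≤ n) (i j : Fin n) :
    Qm F n ℓ h2 i j = if (j.val < ℓ ∧ i.val = j.val + (n - ℓ)) ∨ (i.val < ℓ ∧ j.val = i.val + (n - ℓ)) ∨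
        (i = j ∧ ℓ ≤ i.val ∧ i.val < n - ℓ) then 1 else 0 := by
  rw [Qm_apply']
  exact if_congr (tau_eq_iff n ℓ h2 i j) rfl rfl

theorem Qm_det (F : Type*) [Field F] [CharP F 2] (n ℓ : ℕ) (h2 : 2 * ℓ ≤ n) :
    (Qm F n ℓ h2).det = 1 := by
  unfold Qm
  rw [Matrix.det_permutation]
  rcases Int.units_eq_one_or (Equiv.Perm.sign (tau n ℓ h2)) with h | h
  · rw [h]; simp
  · rw [h]; simp [CharTwo.neg_eq]

/-- the diagonal idempotent onto the first `ℓ` coordinates -/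
def Dm (F : Type*) [Field F] (n ℓ : ℕ) : Matrix (Fin n) (Fin n) F :=
  Matrix.diagonal (fun j => if j.val < ℓ then (1 : F) else 0)

theorem Dm_rank (F : Type*) [Field F] (n ℓ : ℕ) (h2 : 2 * ℓ ≤ n) : (Dm F n ℓ).rank = ℓ := by
  classical
  unfold Dm
  rw [Matrix.rank_diagonal]
  have e : {i : Fin n // (if i.val < ℓ then (1 : F) else 0) ≠ 0} ≃ Fin ℓ :=
    { toFun := fun i => ⟨i.1.val, by
        by_contra h
        exact i.2 (if_neg h)⟩
      invFun := fun k => ⟨⟨k.val, by have := k.2; omega⟩, by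
        rw [if_pos k.2]; exact one_ne_zero⟩
      left_inv := fun i => rfl
      right_inv := fun k => rfl }
  rw [Fintype.card_congr e, Fintype.card_fin]

theorem Dm_Qm_Dm (F : Type*) [Field F] (n ℓ : ℕ) (h2 : 2 * ℓ ≤ n) :
    Dm F n ℓ * Qm F n ℓ h2 * Dm F n ℓ = 0 := by
  ext i j
  unfold Dm
  rw [Matrix.mul_diagonal, Matrix.diagonal_mul, Qm_apply, Matrix.zero_apply]
  have := i.2
  have := j.2
  split_ifs with h1 h3 h4 <;> simp
  all_goals (simp only [Fin.ext_iff] at h3; omega)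

theorem Dm_Dm (F : Type*) [Field F] (n ℓ : ℕ) : Dm F n ℓ * Dm F n ℓ = Dm F n ℓ := by
  unfold Dm
  rw [Matrix.diagonal_mul_diagonal]
  congr 1
  ext j
  split_ifs <;> simp

theorem result {F : Type*} [Field F] [Fintype F] [CharP F 2] {n : ℕ} (hn : 3 ≤ n) (ℓ : ℕ) (h1 : 1 ≤ ℓ) (h2 : 2 * ℓ ≤ n) :
    ∃ a : Matrix.SpecialLinearGroup (Fin n) F, (a : Matrix (Fin n) (Fin n) F) = 1 + Matrix.of (fun i j : Fin n => if j.val < ℓ ∧ i.val = j.val + (n - ℓ) then (1 : F) else 0) ∧ orderOf a = 2 ∧ ((a : Matrix (Fin n) (Fin n) F) - 1).rank = ℓ := by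
  classical
  have h2F : (2 : F) = 0 := CharTwo.two_eq_zero
  have hE : Matrix.of (fun i j : Fin n => if j.val < ℓ ∧ i.val = j.val + (n - ℓ) then (1 : F) else 0)
      = Qm F n ℓ h2 * Dm F n ℓ := by
    ext i j
    unfold Dm
    rw [Matrix.mul_diagonal, Qm_apply, Matrix.of_apply]
    have := i.2
    have := j.2
    split_ifs with h3 h4 h5 <;> simp
    all_goals (simp only [Fin.ext_iff] at *; omega)
  generalize Matrix.of (fun i j : Fin n => if j.val < ℓ ∧ i.val = j.val + (n - ℓ) then (1 : F) else 0) = M0 at hE ⊢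
  have hEE : M0 * M0 = 0 := by
    calc M0 * M0 = Qm F n ℓ h2 * (Dm F n ℓ * Qm F n ℓ h2 * Dm F n ℓ) := by
          rw [hE]; simp only [Matrix.mul_assoc]
      _ = 0 := by rw [Dm_Qm_Dm, Matrix.mul_zero]
  have hadd : M0 + M0 = 0 := by
    ext i j
    simp [CharTwo.add_self_eq_zero]
  have hsq : (1 + M0) * (1 + M0) = 1 := by
    rw [add_mul, mul_add, mul_add, one_mul, one_mul, mul_one, hEE, add_zero, add_assoc, hadd,
      add_zero]
  have hdet : (1 + M0).det = 1 := by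
    have h := congrArg Matrix.det hsq
    rw [Matrix.det_mul, Matrix.det_one] at h
    have : ((1 + M0).det - 1) * ((1 + M0).det - 1) = 0 := by
      linear_combination h - (1 + M0).det * h2F + h2F
    have := mul_self_eq_zero.mp this
    exact sub_eq_zero.mp this
  obtain ⟨a, ha⟩ : ∃ a : Matrix.SpecialLinearGroup (Fin n) F,
      (a : Matrix (Fin n) (Fin n) F) = 1 + M0 := ⟨⟨1 + M0, hdet⟩, rfl⟩
  refine ⟨a, ha, ?_, ?_⟩
  · haveI : Fact (Nat.Prime 2) := ⟨Nat.prime_two⟩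
    apply orderOf_eq_prime
    · rw [pow_two]
      apply Subtype.ext
      simp only [Matrix.SpecialLinearGroup.coe_mul, Matrix.SpecialLinearGroup.coe_one, ha]
      exact hsq
    · intro h
      have h' : 1 + M0 = 1 := by rw [← ha, h]; rfl
      have h'' : M0 = 0 := by simpa using h'
      have h3 := congrFun (congrFun h'' ⟨n - ℓ, by omega⟩) ⟨0, by omega⟩
      rw [hE] at h3
      unfold Dm at h3
      rw [Matrix.mul_diagonal, Qm_apply] at h3
      simp at h3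
      omega
  · rw [ha, add_sub_cancel_left, hE,
      Matrix.rank_mul_eq_right_of_isUnit_det _ _ (by rw [Qm_det]; exact isUnit_one), Dm_rank F n ℓ h2]

end Cfsg.Agent.S2163
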