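import Cfsg.Statements.S2165
import Mathlib

set_option autoImplicit false
open Cfsg

namespace Cfsg.Agent.S2165

/-- the involution exchanging `i` and `i + (n-ℓ)` for `i < ℓ` -/
def tauFun (n ℓ : ℕ) (h2 : 2 * ℓ ≤ n) (i : Fin n) : Fin n :=
  if h : i.val < ℓ then ⟨i.val + (n - ℓ), by have := i.2; omega⟩
  else if h' : n - ℓ ≤ i.val then ⟨i.val - (n - ℓ), by have := i.2; omega⟩
  else i

theorem tauFun_val (n ℓ : ℕ) (h2 : 2 * ℓ ≤ n) (i : Fin n) :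
    (tauFun n ℓ h2 i).val = if i.val < ℓ then i.val + (n - ℓ)
      else if n - ℓ ≤ i.val then i.val - (n - ℓ) else i.val := by
  unfold tauFun; split_ifs <;> rfl

theorem tauFun_invol (n ℓ : ℕ) (h2 : 2 * ℓ ≤ n) : Function.Involutive (tauFun n ℓ h2) := by
  intro i
  apply Fin.ext
  have := i.2
  simp only [tauFun_val]
  split_ifs <;> omega

/-- the involution as a permutation -/
def tau (n ℓ : ℕ) (h2 : 2 * ℓ ≤ n) : Equiv.Perm (Fin n) := (tauFun_invol n ℓ h2).toPerm _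

theorem tau_apply (n ℓ : ℕ) (h2 : 2 * ℓ ≤ n) (i : Fin n) : tau n ℓ h2 i = tauFun n ℓ h2 i := rfl

theorem tau_tau (n ℓ : ℕ) (h2 : 2 * ℓ ≤ n) (i : Fin n) : tau n ℓ h2 (tau n ℓ h2 i) = i :=
  tauFun_invol n ℓ h2 i

/-- its permutation matrix -/
def Qm (F : Type*) [Field F] (n ℓ : ℕ) (h2 : 2 * ℓ ≤ n) : Matrix (Fin n) (Fin n) F :=
  (tau n ℓ h2).toPEquiv.toMatrix

theorem Qm_apply' (F : Type*) [Field F] (n ℓ : ℕ) (h2 : 2 * ℓ ≤ n) (i j : Fin n) :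
    Qm F n ℓ h2 i j = if tau n ℓ h2 i = j then 1 else 0 := by
  unfold Qm
  rw [PEquiv.toMatrix_toPEquiv_eq, Matrix.submatrix_apply, Matrix.one_apply]
  rfl

theorem tau_eq_iff (n ℓ : ℕ) (h2 : 2 * ℓ ≤ n) (i j : Fin n) :
    tau n ℓ h2 i = j ↔ ((j.val < ℓ ∧ i.val = j.val + (n - ℓ)) ∨ (i.val < ℓ ∧ j.val = i.val + (n - ℓ)) ∨
        (i = j ∧ ℓ ≤ i.val ∧ i.val < n - ℓ)) := by
  rw [tau_apply, Fin.ext_iff, tauFun_val]
  have := i.2
  have := j.2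
  simp only [Fin.ext_iff]
  split_ifs <;> omega

theorem Qm_apply (F : Type*) [Field F] (n ℓ : ℕ) (h2 : 2 * ℓ ≤ n) (i j : Fin n) :
    Qm F n ℓ h2 i j = if (j.val < ℓ ∧ i.val = j.val + (n - ℓ)) ∨ (i.val < ℓ ∧ j.val = i.val + (n - ℓ)) ∨
        (i = j ∧ ℓ ≤ i.val ∧ i.val < n - ℓ) then 1 else 0 := by
  rw [Qm_apply']
  exact if_congr (tau_eq_iff n ℓ h2 i j) rfl rfl

theorem Qm_det (F : Type*) [Field F] [CharP F 2] (n ℓ : ℕ) (h2 : 2 * ℓ ≤ n) :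
    (Qm F n ℓ h2).det = 1 := by
  unfold Qm
  rw [Matrix.det_permutation]
  rcases Int.units_eq_one_or (Equiv.Perm.sign (tau n ℓ h2)) with h | h
  · rw [h]; simp
  · rw [h]; simp [CharTwo.neg_eq]

/-- the diagonal idempotent onto the first `ℓ` coordinates -/
def Dm (F : Type*) [Field F] (n ℓ : ℕ) : Matrix (Fin n) (Fin n) F :=
  Matrix.diagonal (fun j => if j.val < ℓ then (1 : F) else 0)

theorem Dm_rank (F : Type*) [Field F] (n ℓ : ℕ) (h2 : 2 * ℓ ≤ n) : (Dm F n ℓ).rank = ℓ := by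
  classical
  unfold Dm
  rw [Matrix.rank_diagonal]
  have e : {i : Fin n // (if i.val < ℓ then (1 : F) else 0) ≠ 0} ≃ Fin ℓ :=
    { toFun := fun i => ⟨i.1.val, by
        by_contra h
        exact i.2 (if_neg h)⟩
      invFun := fun k => ⟨⟨k.val, by have := k.2; omega⟩, by
        rw [if_pos k.2]; exact one_ne_zero⟩
      left_inv := fun i => rfl
      right_inv := fun k => rfl }
  rw [Fintype.card_congr e, Fintype.card_fin]

theorem Dm_Qm_Dm (F : Type*) [Field F] (n ℓ : ℕ) (h2 : 2 * ℓ ≤ n) :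
    Dm F n ℓ * Qm F n ℓ h2 * Dm F n ℓ = 0 := by
  ext i j
  unfold Dm
  rw [Matrix.mul_diagonal, Matrix.diagonal_mul, Qm_apply, Matrix.zero_apply]
  have := i.2
  have := j.2
  split_ifs with h1 h3 h4 <;> simp
  all_goals (simp only [Fin.ext_iff] at h3; omega)

theorem Dm_Dm (F : Type*) [Field F] (n ℓ : ℕ) : Dm F n ℓ * Dm F n ℓ = Dm F n ℓ := by
  unfold Dm
  rw [Matrix.diagonal_mul_diagonal]
  congr 1
  ext j
  split_ifs <;> simp

theorem tau_lt_iff (n ℓ : ℕ) (h2 : 2 * ℓ ≤ n) (i : Fin n) :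
    (tau n ℓ h2 i).val < ℓ ↔ n - ℓ ≤ i.val := by
  rw [tau_apply, tauFun_val]
  have := i.2
  split_ifs <;> omega

theorem Qm_Qm (F : Type*) [Field F] (n ℓ : ℕ) (h2 : 2 * ℓ ≤ n) :
    Qm F n ℓ h2 * Qm F n ℓ h2 = 1 := by
  show (tau n ℓ h2).toPEquiv.toMatrix * Qm F n ℓ h2 = 1
  rw [PEquiv.toMatrix_toPEquiv_mul]
  ext i j
  rw [Matrix.submatrix_apply, Qm_apply', tau_tau, Matrix.one_apply]
  rfl

theorem Qm_Dm_Qm (F : Type*) [Field F] (n ℓ : ℕ) (h2 : 2 * ℓ ≤ n) (i j : Fin n) :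
    (Qm F n ℓ h2 * Dm F n ℓ * Qm F n ℓ h2) i j =
      if i = j then (if n - ℓ ≤ i.val then (1 : F) else 0) else 0 := by
  rw [Matrix.mul_assoc]
  show (((tau n ℓ h2).toPEquiv.toMatrix : Matrix (Fin n) (Fin n) F) * (Dm F n ℓ * Qm F n ℓ h2)) i j = _
  rw [PEquiv.toMatrix_toPEquiv_mul, Matrix.submatrix_apply]
  unfold Dm
  rw [Matrix.diagonal_mul, Qm_apply', tau_tau]
  simp only [tau_lt_iff, id]
  split_ifs <;> simp

theorem Qm_key (F : Type*) [Field F] (n ℓ : ℕ) (h2 : 2 * ℓ ≤ n) :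
    Qm F n ℓ h2 - 1 = (Qm F n ℓ h2 - 1) * Dm F n ℓ * (1 - Qm F n ℓ h2) := by
  have e : (Qm F n ℓ h2 - 1) * Dm F n ℓ * (1 - Qm F n ℓ h2) =
      Qm F n ℓ h2 * Dm F n ℓ - Dm F n ℓ - Qm F n ℓ h2 * Dm F n ℓ * Qm F n ℓ h2
        + Dm F n ℓ * Qm F n ℓ h2 := by noncomm_ring
  rw [e]
  ext i j
  rw [Matrix.add_apply, Matrix.sub_apply, Matrix.sub_apply, Matrix.sub_apply, Qm_Dm_Qm,
    Matrix.one_apply]
  unfold Dm
  rw [Matrix.mul_diagonal, Matrix.diagonal_mul, Matrix.diagonal_apply, Qm_apply]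
  have := i.2
  have := j.2
  split_ifs <;> simp
  all_goals (simp only [Fin.ext_iff] at *; omega)

theorem result {F : Type*} [Field F] [Fintype F] [CharP F 2] {n q : ℕ} (hF : Fintype.card F = q ^ 2) (hn : 3 ≤ n) (ℓ : ℕ) (h1 : 1 ≤ ℓ) (h2 : 2 * ℓ ≤ n) :
    ∃ a : ↥(Cfsg.SU n F q), (((a : Matrix.SpecialLinearGroup (Fin n) F) : Matrix (Fin n) (Fin n) F) = Matrix.of (fun i j : Fin n => if (j.val < ℓ ∧ i.val = j.val + (n - ℓ)) ∨ (i.val < ℓ ∧ j.val = i.val + (n - ℓ)) ∨ (i = j ∧ ℓ ≤ i.val ∧ i.val < n - ℓ) then (1 : F) else 0)) ∧ orderOf a = 2 ∧ ((((a : Matrix.SpecialLinearGroup (Fin n) F) : Matrix (Fin n) (Fin n) F)) - 1).rank = ℓ := by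
  classical
  have hQ : Matrix.of (fun i j : Fin n => if (j.val < ℓ ∧ i.val = j.val + (n - ℓ)) ∨ (i.val < ℓ ∧ j.val = i.val + (n - ℓ)) ∨ (i = j ∧ ℓ ≤ i.val ∧ i.val < n - ℓ) then (1 : F) else 0) = Qm F n ℓ h2 := by
    ext i j
    rw [Matrix.of_apply, Qm_apply]
  rw [hQ]
  obtain ⟨a0, ha0⟩ : ∃ a : Matrix.SpecialLinearGroup (Fin n) F,
      (a : Matrix (Fin n) (Fin n) F) = Qm F n ℓ h2 := ⟨⟨_, Qm_det F n ℓ h2⟩, rfl⟩
  have hmem : a0 ∈ Cfsg.SU n F q := by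
    intro u v
    show Cfsg.hermForm n F q (Matrix.mulVec (a0 : Matrix (Fin n) (Fin n) F) u)
      (Matrix.mulVec (a0 : Matrix (Fin n) (Fin n) F) v) = Cfsg.hermForm n F q u v
    rw [ha0]
    unfold Qm
    rw [PEquiv.toMatrix_toPEquiv_mulVec, PEquiv.toMatrix_toPEquiv_mulVec]
    unfold Cfsg.hermForm
    exact Equiv.sum_comp (tau n ℓ h2) (fun i => u i * v i ^ q)
  refine ⟨⟨a0, hmem⟩, ha0, ?_, ?_⟩
  · haveI : Fact (Nat.Prime 2) := ⟨Nat.prime_two⟩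
    apply orderOf_eq_prime
    · rw [pow_two]
      apply Subtype.ext
      apply Subtype.ext
      show (a0 : Matrix (Fin n) (Fin n) F) * (a0 : Matrix (Fin n) (Fin n) F) = 1
      rw [ha0]
      exact Qm_Qm F n ℓ h2
    · intro h
      have h' : Qm F n ℓ h2 = 1 := by
        rw [← ha0]
        have := congrArg (fun x : ↥(Cfsg.SU n F q) =>
          ((x : Matrix.SpecialLinearGroup (Fin n) F) : Matrix (Fin n) (Fin n) F)) h
        simpa using this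
      have h3 := congrFun (congrFun h' ⟨0, by omega⟩) ⟨0, by omega⟩
      rw [Qm_apply, Matrix.one_apply_eq] at h3
      simp at h3
      omega
  · show ((a0 : Matrix (Fin n) (Fin n) F) - 1).rank = ℓ
    rw [ha0]
    have hD : Dm F n ℓ = Dm F n ℓ * (Qm F n ℓ h2 - 1) * (- Dm F n ℓ) := by
      rw [Matrix.mul_sub, Matrix.sub_mul, Matrix.mul_neg, Matrix.mul_neg, Dm_Qm_Dm, Matrix.mul_one,
        Dm_Dm]
      simp
    apply le_antisymm
    · rw [Qm_key]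
      calc _ ≤ ((Qm F n ℓ h2 - 1) * Dm F n ℓ).rank := Matrix.rank_mul_le_left _ _
        _ ≤ (Dm F n ℓ).rank := Matrix.rank_mul_le_right _ _
        _ = ℓ := Dm_rank F n ℓ h2
    · calc ℓ = (Dm F n ℓ).rank := (Dm_rank F n ℓ h2).symm
        _ = (Dm F n ℓ * (Qm F n ℓ h2 - 1) * (- Dm F n ℓ)).rank := by rw [← hD]
        _ ≤ (Dm F n ℓ * (Qm F n ℓ h2 - 1)).rank := Matrix.rank_mul_le_left _ _
        _ ≤ (Qm F n ℓ h2 - 1).rank := Matrix.rank_mul_le_right _ _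

end Cfsg.Agent.S2165
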