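import Cfsg.Statements.S2167
import Mathlib

set_option autoImplicit false
open Cfsg

namespace Cfsg.Agent.S2167

/-- An alternating bilinear form on a finite-dimensional space has even rank. -/
theorem alt_even.{u, v} (K : Type u) [Field K] : ∀ (d : ℕ) (V : Type v) [AddCommGroup V] [Module K V]
    [FiniteDimensional K V] (B : LinearMap.BilinForm K V), (∀ x, B x x = 0) →
    Module.finrank K V = d → Even (Module.finrank K (LinearMap.range B)) := by
  intro d
  induction d using Nat.strong_induction_on with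
  | _ d ih =>
  intro V _ _ _ B halt hd
  by_cases hB : B = 0
  · have h0 : LinearMap.range B = ⊥ := by
      rw [hB]
      exact LinearMap.range_zero
    rw [h0, finrank_bot]
    exact ⟨0, rfl⟩
  · have hex : ∃ u v, B u v ≠ 0 := by
      by_contra h
      apply hB
      ext u v
      by_contra h'
      exact h ⟨u, v, h'⟩
    obtain ⟨u, v, huv⟩ := hex
    have hskew : ∀ x y, B x y = - B y x := by
      intro x y
      have := halt (x + y)
      simp only [map_add, LinearMap.add_apply, halt, zero_add, add_zero] at this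
      linear_combination this
    have hvu : B v u = - B u v := hskew v u
    let ψ : V →ₗ[K] K × K := (B u).prod (B v)
    have hψa : ∀ x, ψ x = (B u x, B v x) := fun x => rfl
    have hψ : LinearMap.range ψ = ⊤ := by
      rw [LinearMap.range_eq_top]
      rintro ⟨a, b⟩
      refine ⟨(a / B u v) • v - (b / B u v) • u, ?_⟩
      rw [hψa]
      simp only [map_sub, map_smul, smul_eq_mul, halt, mul_zero,
        sub_zero, zero_sub, hvu, Prod.mk.injEq]
      constructor
      · field_simp
      · field_simp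
    have hW : Module.finrank K (LinearMap.ker ψ) + 2 = Module.finrank K V := by
      have h1 := LinearMap.finrank_range_add_finrank_ker ψ
      rw [hψ, finrank_top, Module.finrank_prod, Module.finrank_self] at h1
      omega
    have hmemW : ∀ w : V, w ∈ LinearMap.ker ψ ↔ B u w = 0 ∧ B v w = 0 := by
      intro w
      rw [LinearMap.mem_ker, hψa, Prod.mk_eq_zero]
    have hker : (LinearMap.ker (B.restrict (LinearMap.ker ψ))).map (LinearMap.ker ψ).subtype =
        LinearMap.ker B := by
      ext x
      constructor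
      · rintro ⟨w, hw, rfl⟩
        rw [LinearMap.mem_ker]
        ext y
        have hw' : ∀ z : LinearMap.ker ψ, B (w : V) (z : V) = 0 := by
          intro z
          have h1 := LinearMap.mem_ker.1 hw
          have h2 := congrArg (fun g => g z) h1
          simpa using h2
        obtain ⟨hwu, hwv⟩ := (hmemW w).1 w.2
        have hy : y - (-(B v y / B u v)) • u - (B u y / B u v) • v ∈ LinearMap.ker ψ := by
          rw [hmemW]
          constructor
          · simp only [map_sub, map_smul, smul_eq_mul, halt, mul_zero, sub_zero]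
            field_simp
            ring
          · simp only [map_sub, map_smul, smul_eq_mul, halt, mul_zero, sub_zero, hvu]
            field_simp
            ring
        have h3 := hw' ⟨_, hy⟩
        simp only [Submodule.coe_subtype, map_sub, map_smul, smul_eq_mul] at h3 ⊢
        have hwu' : B (w : V) u = 0 := by rw [hskew, hwu, neg_zero]
        have hwv' : B (w : V) v = 0 := by rw [hskew, hwv, neg_zero]
        rw [hwu', hwv'] at h3
        simpa using h3
      · intro hx
        rw [LinearMap.mem_ker] at hx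
        have hxW : x ∈ LinearMap.ker ψ := by
          rw [hmemW]
          constructor
          · rw [hskew, hx]; simp
          · rw [hskew, hx]; simp
        refine ⟨⟨x, hxW⟩, ?_, rfl⟩
        rw [SetLike.mem_coe, LinearMap.mem_ker]
        ext z
        simp [hx]
    have h1 := LinearMap.finrank_range_add_finrank_ker B
    have h2 := LinearMap.finrank_range_add_finrank_ker (B.restrict (LinearMap.ker ψ))
    have h3 : Module.finrank K (LinearMap.ker B) =
        Module.finrank K (LinearMap.ker (B.restrict (LinearMap.ker ψ))) := by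
      rw [← hker, Submodule.finrank_map_subtype_eq]
    have hIH := ih (Module.finrank K (LinearMap.ker ψ)) (by omega) (LinearMap.ker ψ)
      (B.restrict (LinearMap.ker ψ)) (fun x => halt x) rfl
    have h4 : Module.finrank K (LinearMap.range B) =
        Module.finrank K (LinearMap.range (B.restrict (LinearMap.ker ψ))) + 2 := by omega
    rw [h4]
    exact hIH.add even_two

open Matrix

theorem sf_add_left {F : Type*} [CommRing F] (m : ℕ) (u u' v : Fin m ⊕ Fin m → F) :
    Cfsg.sympForm m F (u + u') v = Cfsg.sympForm m F u v + Cfsg.sympForm m F u' v := by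
  simp [Cfsg.sympForm, add_dotProduct]

theorem sf_add_right {F : Type*} [CommRing F] (m : ℕ) (u v v' : Fin m ⊕ Fin m → F) :
    Cfsg.sympForm m F u (v + v') = Cfsg.sympForm m F u v + Cfsg.sympForm m F u v' := by
  simp [Cfsg.sympForm, Matrix.mulVec_add, dotProduct_add]

theorem sf_smul_left {F : Type*} [CommRing F] (m : ℕ) (c : F) (u v : Fin m ⊕ Fin m → F) :
    Cfsg.sympForm m F (c • u) v = c * Cfsg.sympForm m F u v := by
  simp [Cfsg.sympForm, smul_dotProduct]

theorem sf_smul_right {F : Type*} [CommRing F] (m : ℕ) (c : F) (u v : Fin m ⊕ Fin m → F) :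
    Cfsg.sympForm m F u (c • v) = c * Cfsg.sympForm m F u v := by
  simp [Cfsg.sympForm, Matrix.mulVec_smul, dotProduct_smul]

theorem sf_self {F : Type*} [CommRing F] (m : ℕ) (v : Fin m ⊕ Fin m → F) :
    Cfsg.sympForm m F v v = 0 := by
  simp only [Cfsg.sympForm, Matrix.J, dotProduct, Fintype.sum_sum_type, Matrix.fromBlocks_mulVec,
    Sum.elim_inl, Sum.elim_inr, Matrix.zero_mulVec, Matrix.one_mulVec, Matrix.neg_mulVec, zero_add,
    add_zero, Pi.neg_apply, Function.comp_apply]
  rw [← Finset.sum_add_distrib]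
  apply Finset.sum_eq_zero
  intro i _
  ring

theorem sf_skew {F : Type*} [CommRing F] (m : ℕ) (u v : Fin m ⊕ Fin m → F) :
    Cfsg.sympForm m F u v = - Cfsg.sympForm m F v u := by
  have h := sf_self m (u + v)
  rw [sf_add_left, sf_add_right, sf_add_right, sf_self, sf_self] at h
  linear_combination h

theorem sf_pres {F : Type*} [CommRing F] (m : ℕ) (A : Matrix (Fin m ⊕ Fin m) (Fin m ⊕ Fin m) F)
    (hA : Aᵀ * Matrix.J (Fin m) F * A = Matrix.J (Fin m) F) (u v : Fin m ⊕ Fin m → F) :
    Cfsg.sympForm m F (A *ᵥ u) (A *ᵥ v) = Cfsg.sympForm m F u v := by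
  unfold Cfsg.sympForm
  have h1 : ∀ w : Fin m ⊕ Fin m → F, (A *ᵥ u) ⬝ᵥ w = u ⬝ᵥ (Aᵀ *ᵥ w) := by
    intro w
    rw [dotProduct_comm, Matrix.dotProduct_mulVec, ← Matrix.mulVec_transpose, dotProduct_comm]
  rw [h1, Matrix.mulVec_mulVec, Matrix.mulVec_mulVec, hA]

theorem result {F : Type*} [Field F] [Fintype F] [CharP F 2] {m : ℕ} (hm : 2 ≤ m) (a : ↥(Matrix.symplecticGroup (Fin m) F)) (ha : orderOf a = 2) :
    (Nat.card {v : Fin m ⊕ Fin m → F // Cfsg.sympForm m F v (Matrix.mulVec ((a : ↥(Matrix.symplecticGroup (Fin m) F)) : Matrix (Fin m ⊕ Fin m) (Fin m ⊕ Fin m) F) v) = 0} = Fintype.card F ^ (2 * m) ∨ Nat.card {v : Fin m ⊕ Fin m → F // Cfsg.sympForm m F v (Matrix.mulVec ((a : ↥(Matrix.symplecticGroup (Fin m) F)) : Matrix (Fin m ⊕ Fin m) (Fin m ⊕ Fin m) F) v) = 0} * Fintype.card F = Fintype.card F ^ (2 * m)) ∧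
    ((∀ v : Fin m ⊕ Fin m → F, Cfsg.sympForm m F v (Matrix.mulVec ((a : ↥(Matrix.symplecticGroup (Fin m) F)) : Matrix (Fin m ⊕ Fin m) (Fin m ⊕ Fin m) F) v) = 0) → Even (((a : ↥(Matrix.symplecticGroup (Fin m) F)) : Matrix (Fin m ⊕ Fin m) (Fin m ⊕ Fin m) F) - 1).rank) := by
  classical
  obtain ⟨A, hAdef⟩ : ∃ A : Matrix (Fin m ⊕ Fin m) (Fin m ⊕ Fin m) F,
      A = ((a : ↥(Matrix.symplecticGroup (Fin m) F)) : Matrix (Fin m ⊕ Fin m) (Fin m ⊕ Fin m) F) :=
    ⟨_, rfl⟩
  rw [← hAdef]
  have hA : Aᵀ * Matrix.J (Fin m) F * A = Matrix.J (Fin m) F := by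
    rw [hAdef]
    exact SymplecticGroup.mem_iff'.1 a.2
  have hAA : A * A = 1 := by
    have h1 : a * a = 1 := by
      have := pow_orderOf_eq_one a
      rw [ha, sq] at this
      exact this
    have h2 := congrArg (fun b : ↥(Matrix.symplecticGroup (Fin m) F) =>
      (b : Matrix (Fin m ⊕ Fin m) (Fin m ⊕ Fin m) F)) h1
    rw [hAdef]
    exact h2
  have hAAv : ∀ v : Fin m ⊕ Fin m → F, A *ᵥ (A *ᵥ v) = v := by
    intro v
    rw [Matrix.mulVec_mulVec, hAA, Matrix.one_mulVec]
  -- φ is additive and quadratic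
  have hφadd : ∀ u v : Fin m ⊕ Fin m → F,
      Cfsg.sympForm m F (u + v) (A *ᵥ (u + v)) =
        Cfsg.sympForm m F u (A *ᵥ u) + Cfsg.sympForm m F v (A *ᵥ v) := by
    intro u v
    rw [Matrix.mulVec_add, sf_add_left, sf_add_right, sf_add_right]
    have h1 : Cfsg.sympForm m F v (A *ᵥ u) = - Cfsg.sympForm m F u (A *ᵥ v) := by
      rw [← sf_pres m A hA v (A *ᵥ u), hAAv, sf_skew]
    rw [h1]
    ring
  have hφsmul : ∀ (c : F) (v : Fin m ⊕ Fin m → F),
      Cfsg.sympForm m F (c • v) (A *ᵥ (c • v)) = c * c * Cfsg.sympForm m F v (A *ᵥ v) := by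
    intro c v
    rw [Matrix.mulVec_smul, sf_smul_left, sf_smul_right]
    ring
  have hcardV : Nat.card (Fin m ⊕ Fin m → F) = Fintype.card F ^ (2 * m) := by
    rw [Nat.card_eq_fintype_card, Fintype.card_fun, Fintype.card_sum, Fintype.card_fin, two_mul]
  constructor
  · by_cases hall : ∀ v : Fin m ⊕ Fin m → F, Cfsg.sympForm m F v (A *ᵥ v) = 0
    · left
      rw [Nat.card_congr (Equiv.subtypeUnivEquiv hall), hcardV]
    · right
      rw [not_forall] at hall
      obtain ⟨v₀, hv₀⟩ := hall
      let φ : (Fin m ⊕ Fin m → F) →+ F :=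
        AddMonoidHom.mk' (fun v => Cfsg.sympForm m F v (A *ᵥ v)) hφadd
      have hφ : ∀ v, φ v = Cfsg.sympForm m F v (A *ᵥ v) := fun v => rfl
      have hsurj : Function.Surjective φ := by
        intro z
        obtain ⟨c, hc⟩ := FiniteField.isSquare_of_char_two (ringChar.eq F 2)
          (z / Cfsg.sympForm m F v₀ (A *ᵥ v₀))
        refine ⟨c • v₀, ?_⟩
        rw [hφ, hφsmul, ← hc]
        field_simp
      have h1 := AddSubgroup.card_eq_card_quotient_mul_card_addSubgroup φ.ker
      have h2 : Nat.card ((Fin m ⊕ Fin m → F) ⧸ φ.ker) = Fintype.card F := by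
        rw [Nat.card_congr (QuotientAddGroup.quotientKerEquivOfSurjective φ hsurj).toEquiv,
          Nat.card_eq_fintype_card]
      have h3 : Nat.card {v : Fin m ⊕ Fin m → F // Cfsg.sympForm m F v (A *ᵥ v) = 0} =
          Nat.card φ.ker := by
        apply Nat.card_congr
        exact Equiv.subtypeEquivRight (fun v => by rw [AddMonoidHom.mem_ker, hφ])
      rw [h3, ← hcardV, h1, h2, mul_comm]
  · intro hall
    have halt : ∀ x : Fin m ⊕ Fin m → F,
        Matrix.toBilin' ((Matrix.J (Fin m) F * (A - 1))ᵀ) x x = 0 := by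
      intro x
      rw [Matrix.toBilin'_apply', Matrix.mulVec_transpose, dotProduct_comm, ← Matrix.dotProduct_mulVec,
        ← Matrix.mulVec_mulVec, Matrix.sub_mulVec, Matrix.one_mulVec]
      have h1 := hall x
      have h2 := sf_self m x
      unfold Cfsg.sympForm at h1 h2
      rw [Matrix.mulVec_sub, dotProduct_sub, h1, h2, sub_zero]
    have hev := alt_even F _ (Fin m ⊕ Fin m → F) (Matrix.toBilin' ((Matrix.J (Fin m) F * (A - 1))ᵀ))
      halt rfl
    have hker : LinearMap.ker (Matrix.toBilin' ((Matrix.J (Fin m) F * (A - 1))ᵀ)) =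
        LinearMap.ker (Matrix.mulVecLin (Matrix.J (Fin m) F * (A - 1))) := by
      ext x
      rw [LinearMap.mem_ker, LinearMap.mem_ker, Matrix.mulVecLin_apply]
      constructor
      · intro h
        have h1 : ∀ y : Fin m ⊕ Fin m → F, ((Matrix.J (Fin m) F * (A - 1)) *ᵥ x) ⬝ᵥ y = 0 := by
          intro y
          have h2 := congrArg (fun g => g y) h
          simp only [LinearMap.zero_apply] at h2
          rw [Matrix.toBilin'_apply', Matrix.mulVec_transpose, dotProduct_comm,
            ← Matrix.dotProduct_mulVec, dotProduct_comm] at h2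
          exact h2
        exact dotProduct_eq_zero _ h1
      · intro h
        apply LinearMap.ext
        intro y
        rw [Matrix.toBilin'_apply', Matrix.mulVec_transpose, dotProduct_comm,
            ← Matrix.dotProduct_mulVec, h]
        simp
    have h1 := LinearMap.finrank_range_add_finrank_ker
      (Matrix.toBilin' ((Matrix.J (Fin m) F * (A - 1))ᵀ))
    have h2 := LinearMap.finrank_range_add_finrank_ker
      (Matrix.mulVecLin (Matrix.J (Fin m) F * (A - 1)))
    rw [hker] at h1
    have h3 : (Matrix.J (Fin m) F * (A - 1)).rank =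
        Module.finrank F (LinearMap.range (Matrix.toBilin' ((Matrix.J (Fin m) F * (A - 1))ᵀ))) := by
      unfold Matrix.rank
      omega
    rw [← Matrix.rank_mul_eq_right_of_isUnit_det (Matrix.J (Fin m) F) (A - 1) (Matrix.isUnit_det_J _ _), h3]
    exact hev

end Cfsg.Agent.S2167
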