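import Cfsg.Statements.S2627
import Cfsg.Agent.S2609
import Cfsg.Agent.S2628

set_option autoImplicit false
open Cfsg


namespace Cfsg.Agent.S2627

open Matrix
open Cfsg.Agent.S0750 (pl pl_add_left pl_add_right pl_sub_left pl_sub_right pl_smul_left
  pl_smul_right pl_comm pl_self Q_add Q_smul Q_sub pl_zero_right)
open Cfsg.Agent.S0786 (mat mat_mul mat_one mat_iso mat_pl mat_inj mat_ext RQ exists_unit
  refl_mulVec refl_iso gen_refl wittR)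
open Cfsg.Agent.S2635 (SR K2 SS_mem S_sq S_inv K_norm K_par comm_mem_K)
open Cfsg.Agent.S2628 (psum osum osum_apply pl_osum osum_nondeg)
open Cfsg.Agent.S0789 (dk dk_refl mem_K2_iff omega_eq_K2)
open Cfsg.Agent.S2629 (K2_det mem_K2_iff_det)
open Cfsg.Agent.S2609 (sq_refl_mul sq_one mem_comm_iff_sq)

section
variable {F : Type*} [Field F] {ι₁ ι₂ : Type} [Fintype ι₁] [DecidableEq ι₁] [Fintype ι₂]
  [DecidableEq ι₂]

theorem embed_iso (Q₁ : QuadraticForm F (ι₁ → F)) (Q₂ : QuadraticForm F (ι₂ → F))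
    (M : Matrix ι₁ ι₁ F) (hM : ∀ x, Q₁ (M *ᵥ x) = Q₁ x) :
    ∀ x, osum Q₁ Q₂ (Matrix.fromBlocks M 0 0 1 *ᵥ x) = osum Q₁ Q₂ x := by
  intro v
  rw [osum_apply, osum_apply, Matrix.fromBlocks_mulVec, Sum.elim_comp_inl, Sum.elim_comp_inr,
    Matrix.zero_mulVec, Matrix.zero_mulVec, zero_add, add_zero, Matrix.one_mulVec, hM]

theorem refl_embed (Q₁ : QuadraticForm F (ι₁ → F)) (Q₂ : QuadraticForm F (ι₂ → F))
    (v : ι₁ → F) :
    Cfsg.reflectionMatrix (⇑(osum Q₁ Q₂)) (Sum.elim v 0) =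
      Matrix.fromBlocks (Cfsg.reflectionMatrix (⇑Q₁) v) 0 0 1 := by
  rw [Matrix.ext_iff_mulVec]
  intro x
  rw [refl_mulVec, Matrix.fromBlocks_mulVec, refl_mulVec, osum_apply, pl_osum]
  unfold psum
  rw [Sum.elim_comp_inl, Sum.elim_comp_inr, map_zero, add_zero, pl_comm Q₂ 0, pl_zero_right,
    add_zero, Matrix.zero_mulVec, Matrix.zero_mulVec, add_zero, zero_add, Matrix.one_mulVec]
  funext i
  rcases i with i | i
  · simp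
  · simp

end

section
variable {F : Type*} [Field F] {ι : Type} [Fintype ι] [DecidableEq ι]

theorem K2_flip (Q : QuadraticForm F (ι → F)) (hQ : (QuadraticMap.polarBilin Q).Nondegenerate)
    (hR : RQ Q = ⊤) (r : ↥(Cfsg.isometryGroup F ⇑Q)) (hr : r ∈ SR Q)
    (h : ↥(Cfsg.isometryGroup F ⇑Q)) : r * h ∈ K2 Q ↔ h ∉ K2 Q := by
  rw [mem_K2_iff Q hQ hR, mem_K2_iff Q hQ hR]
  exact dk_refl Q hQ r hr h

theorem exists_list (Q : QuadraticForm F (ι → F)) (hR : RQ Q = ⊤)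
    (g : ↥(Cfsg.isometryGroup F ⇑Q)) :
    ∃ l : List ↥(Cfsg.isometryGroup F ⇑Q), (∀ y ∈ l, y ∈ SR Q) ∧ l.prod = g := by
  have hg : g ∈ Subgroup.closure (SR Q) := by
    have : g ∈ RQ Q := by rw [hR]; exact Subgroup.mem_top g
    exact this
  induction hg using Subgroup.closure_induction with
  | mem y hy => exact ⟨[y], by simpa using hy, by simp⟩
  | one => exact ⟨[], by simp, by simp⟩
  | mul x y _ _ hx hy =>
    obtain ⟨l₁, h₁, rfl⟩ := hx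
    obtain ⟨l₂, h₂, rfl⟩ := hy
    refine ⟨l₁ ++ l₂, ?_, List.prod_append⟩
    intro y hy
    rcases List.mem_append.1 hy with h | h
    · exact h₁ y h
    · exact h₂ y h
  | inv x _ hx =>
    obtain ⟨l, h₁, rfl⟩ := hx
    refine ⟨(l.map (fun x => x⁻¹)).reverse, ?_, (List.prod_inv_reverse l).symm⟩
    intro y hy
    rw [List.mem_reverse, List.mem_map] at hy
    obtain ⟨z, hz, rfl⟩ := hy
    rw [S_inv Q z (h₁ z hz)]
    exact h₁ z hz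

end

section
variable {F : Type*} [Field F] [Fintype F] {ι₁ ι₂ : Type} [Fintype ι₁] [DecidableEq ι₁]
  [Fintype ι₂] [DecidableEq ι₂]

theorem embed_both (Q₁ : QuadraticForm F (ι₁ → F)) (Q₂ : QuadraticForm F (ι₂ → F))
    (h₁ : (QuadraticMap.polarBilin Q₁).Nondegenerate)
    (h₂ : (QuadraticMap.polarBilin Q₂).Nondegenerate)
    (hR₁ : RQ Q₁ = ⊤) (hR : RQ (osum Q₁ Q₂) = ⊤) :
    ∀ (l : List ↥(Cfsg.isometryGroup F ⇑Q₁)), (∀ y ∈ l, y ∈ SR Q₁) →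
      ∀ g : ↥(Cfsg.isometryGroup F ⇑(osum Q₁ Q₂)),
        mat (osum Q₁ Q₂) g = Matrix.fromBlocks (mat Q₁ l.prod) 0 0 1 →
        (g ∈ K2 (osum Q₁ Q₂) ↔ l.prod ∈ K2 Q₁) ∧
          (Cfsg.Agent.S2609.sq (osum Q₁ Q₂) g ↔ Cfsg.Agent.S2609.sq Q₁ l.prod) := by
  have hQ := osum_nondeg Q₁ Q₂ h₁ h₂
  intro l
  induction l with
  | nil =>
    intro _ g hg
    rw [List.prod_nil] at hg ⊢
    have hg1 : g = 1 := by
      apply mat_ext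
      intro x
      rw [hg, mat_one, mat_one, Matrix.fromBlocks_one]
    rw [hg1]
    exact ⟨iff_of_true (Subgroup.one_mem _) (Subgroup.one_mem _),
      iff_of_true (sq_one _) (sq_one _)⟩
  | cons y l ih =>
    intro hl g hg
    rw [List.prod_cons] at hg ⊢
    obtain ⟨v, hv, hyv⟩ := hl y List.mem_cons_self
    have hyv' : mat Q₁ y = Cfsg.reflectionMatrix (⇑Q₁) v := hyv
    obtain ⟨h, hh⟩ := exists_unit (osum Q₁ Q₂) hQ (Matrix.fromBlocks (mat Q₁ l.prod) 0 0 1)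
      (embed_iso Q₁ Q₂ _ (mat_iso Q₁ l.prod))
    have hQw : osum Q₁ Q₂ (Sum.elim v 0) = Q₁ v := by
      rw [osum_apply, Sum.elim_comp_inl, Sum.elim_comp_inr, map_zero, add_zero]
    have hw : osum Q₁ Q₂ (Sum.elim v 0) ≠ 0 := by
      rw [hQw]
      exact hv
    obtain ⟨r, hr⟩ := exists_unit (osum Q₁ Q₂) hQ
      (Cfsg.reflectionMatrix (⇑(osum Q₁ Q₂)) (Sum.elim v 0)) (refl_iso _ _ hw)
    have hgr : g = r * h := by
      apply mat_ext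
      intro x
      rw [hg, mat_mul, mat_mul, hr, hh, refl_embed, hyv', Matrix.fromBlocks_multiply]
      simp
    obtain ⟨ih1, ih2⟩ := ih (fun z hz => hl z (List.mem_cons_of_mem _ hz)) h hh
    have hrS : r ∈ SR (osum Q₁ Q₂) := ⟨Sum.elim v 0, hw, hr⟩
    have hyS : y ∈ SR Q₁ := ⟨v, hv, hyv⟩
    constructor
    · rw [hgr, K2_flip _ hQ hR r hrS h, K2_flip Q₁ h₁ hR₁ y hyS l.prod, ih1]
    · rw [hgr, sq_refl_mul _ hQ r h _ hw hr, sq_refl_mul Q₁ h₁ y l.prod v hv hyv', ih2, hQw]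

end

theorem main {F : Type*} [Field F] [Fintype F] {k l : ℕ} (h : Fintype.card F ≠ 2 ∨ (k ≠ 4 ∧ k + l ≠ 4)) (Q₁ : QuadraticForm F (Fin k → F)) (Q₂ : QuadraticForm F (Fin l → F)) (h₁ : (QuadraticMap.polarBilin Q₁).Nondegenerate) (h₂ : (QuadraticMap.polarBilin Q₂).Nondegenerate) (g₁ : ↥(Cfsg.isometryGroup F ⇑Q₁)) : (∃ g : ↥(Cfsg.isometryGroup F (fun v : Fin k ⊕ Fin l → F => Q₁ (v ∘ Sum.inl) + Q₂ (v ∘ Sum.inr))), g ∈ Cfsg.Omega F (fun v : Fin k ⊕ Fin l → F => Q₁ (v ∘ Sum.inl) + Q₂ (v ∘ Sum.inr)) ∧ ((g : Matrix.GeneralLinearGroup (Fin k ⊕ Fin l) F) : Matrix (Fin k ⊕ Fin l) (Fin k ⊕ Fin l) F) = Matrix.fromBlocks ((g₁ : Matrix.GeneralLinearGroup (Fin k) F) : Matrix (Fin k) (Fin k) F) 0 0 1) ↔ g₁ ∈ Cfsg.Omega F ⇑Q₁ := by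
  have hQ := osum_nondeg Q₁ Q₂ h₁ h₂
  have hFn₁ : Fintype.card F ≠ 2 ∨ Fintype.card (Fin k) ≠ 4 := by
    rw [Fintype.card_fin]
    rcases h with h | h
    · exact Or.inl h
    · exact Or.inr h.1
  have hFn : Fintype.card F ≠ 2 ∨ Fintype.card (Fin k ⊕ Fin l) ≠ 4 := by
    rw [Fintype.card_sum, Fintype.card_fin, Fintype.card_fin]
    rcases h with h | h
    · exact Or.inl h
    · exact Or.inr h.2
  have hR₁ := gen_refl hFn₁ Q₁ h₁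
  have hR := gen_refl hFn (osum Q₁ Q₂) hQ
  obtain ⟨L, hL, hLp⟩ := exists_list Q₁ hR₁ g₁
  obtain ⟨g₀, hg₀⟩ := exists_unit (osum Q₁ Q₂) hQ (Matrix.fromBlocks (mat Q₁ g₁) 0 0 1)
    (embed_iso Q₁ Q₂ _ (mat_iso Q₁ g₁))
  have key : ∀ g : ↥(Cfsg.isometryGroup F ⇑(osum Q₁ Q₂)),
      mat (osum Q₁ Q₂) g = Matrix.fromBlocks (mat Q₁ g₁) 0 0 1 →
      (g ∈ commutator ↥(Cfsg.isometryGroup F ⇑(osum Q₁ Q₂)) ↔
        g₁ ∈ commutator ↥(Cfsg.isometryGroup F ⇑Q₁)) := by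
    intro g hg
    obtain ⟨e1, e2⟩ := embed_both Q₁ Q₂ h₁ h₂ hR₁ hR L hL g (by rw [hLp]; exact hg)
    rw [hLp] at e1 e2
    by_cases h2 : (2 : F) = 0
    · haveI : CharP F 2 := CharTwo.of_one_ne_zero_of_two_eq_zero one_ne_zero h2
      rw [omega_eq_K2 hFn (osum Q₁ Q₂) hQ, omega_eq_K2 hFn₁ Q₁ h₁]
      exact e1
    · rw [mem_comm_iff_sq h2 hFn (osum Q₁ Q₂) hQ, mem_comm_iff_sq h2 hFn₁ Q₁ h₁,
        ← mem_K2_iff_det h2 (osum Q₁ Q₂) hQ hR, ← mem_K2_iff_det h2 Q₁ h₁ hR₁, e1, e2]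
  show (∃ g : ↥(Cfsg.isometryGroup F ⇑(osum Q₁ Q₂)),
    g ∈ commutator ↥(Cfsg.isometryGroup F ⇑(osum Q₁ Q₂)) ∧
      mat (osum Q₁ Q₂) g = Matrix.fromBlocks (mat Q₁ g₁) 0 0 1) ↔
    g₁ ∈ commutator ↥(Cfsg.isometryGroup F ⇑Q₁)
  constructor
  · rintro ⟨g, hgm, hg⟩
    exact (key g hg).1 hgm
  · intro hh
    exact ⟨g₀, (key g₀ hg₀).2 hh, hg₀⟩

theorem result {F : Type*} [Field F] [Fintype F] {k l : ℕ} (h : Fintype.card F ≠ 2 ∨ (k ≠ 4 ∧ k + l ≠ 4)) (Q₁ : QuadraticForm F (Fin k → F)) (Q₂ : QuadraticForm F (Fin l → F)) (h₁ : (QuadraticMap.polarBilin Q₁).Nondegenerate) (h₂ : (QuadraticMap.polarBilin Q₂).Nondegenerate) (g₁ : ↥(Cfsg.isometryGroup F ⇑Q₁)) : (∃ g : ↥(Cfsg.isometryGroup F (fun v : Fin k ⊕ Fin l → F => Q₁ (v ∘ Sum.inl) + Q₂ (v ∘ Sum.inr))), g ∈ Cfsg.Omega F (fun v : Fin k ⊕ Fin l → F => Q₁ (v ∘ Sum.inl) + Q₂ (v ∘ Sum.inr)) ∧ ((g : Matrix.GeneralLinearGroup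 (Fin k ⊕ Fin l) F) : Matrix (Fin k ⊕ Fin l) (Fin k ⊕ Fin l) F) = Matrix.fromBlocks ((g₁ : Matrix.GeneralLinearGroup (Fin k) F) : Matrix (Fin k) (Fin k) F) 0 0 1) ↔ g₁ ∈ Cfsg.Omega F ⇑Q₁ := by
  exact main h Q₁ Q₂ h₁ h₂ g₁

end Cfsg.Agent.S2627
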