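import Cfsg.Statements.S2172
import Cfsg.Agent.S2630
import Cfsg.Agent.S2627
import Cfsg.Agent.S0832

set_option autoImplicit false
open Cfsg


namespace Cfsg.Agent.S2172

open Matrix
open Cfsg.Agent.S0750 (pl pl_add_left pl_add_right pl_sub_left pl_sub_right pl_smul_left
  pl_smul_right pl_comm pl_self Q_add Q_smul Q_sub pl_zero_right)
open Cfsg.Agent.S0786 (mat mat_mul mat_one mat_iso mat_pl mat_inj mat_ext RQ exists_unit
  refl_mulVec refl_iso gen_refl wittR)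
open Cfsg.Agent.S2635 (SR K2 SS_mem S_sq S_inv K_norm K_par comm_mem_K)
open Cfsg.Agent.S0789 (omega_eq_K2 mem_omega_iff dk)
open Cfsg.Agent.S2630 (IsLag parity_K2 pc pc_one pc_flip)
open Cfsg.Agent.S2627 (K2_flip)

section
variable {F : Type*} [Field F] {ι : Type} [Fintype ι] [DecidableEq ι]

theorem fixed_ns_of_rank [CharP F 2] (Q : QuadraticForm F (ι → F))
    (hQ : (QuadraticMap.polarBilin Q).Nondegenerate) (M : Matrix ι ι F) (hM : M * M = 1)
    (m : ℕ) (hcard : Fintype.card ι = 2 * m) (hrk : (M - 1).rank ≠ m) :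
    ∃ x, M *ᵥ x = x ∧ Q x ≠ 0 := by
  have h2 : (2 : F) = 0 := by
    have := CharP.cast_eq_zero F 2
    exact_mod_cast this
  have hNN : (M - 1) * (M - 1) = 0 := by
    have e : (M - 1) * (M - 1) = M * M - M - M + 1 := by noncomm_ring
    rw [e, hM]
    have e2 : (1 : Matrix ι ι F) - M - M + 1 = (2 : F) • (1 - M) := by
      rw [two_smul]
      abel
    rw [e2, h2, zero_smul]
  by_contra hcon
  push_neg at hcon
  have hker : ∀ x ∈ LinearMap.ker (Matrix.mulVecLin (M - 1)), Q x = 0 := by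
    intro x hx
    apply hcon x
    have h5 : (M - 1) *ᵥ x = 0 := hx
    rw [Matrix.sub_mulVec, Matrix.one_mulVec, sub_eq_zero] at h5
    exact h5
  have hle : LinearMap.range (Matrix.mulVecLin (M - 1)) ≤
      LinearMap.ker (Matrix.mulVecLin (M - 1)) := by
    rintro _ ⟨z, rfl⟩
    show (M - 1) *ᵥ ((M - 1) *ᵥ z) = 0
    rw [Matrix.mulVec_mulVec, hNN, Matrix.zero_mulVec]
  have h3 := LinearMap.finrank_range_add_finrank_ker (Matrix.mulVecLin (M - 1))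
  have h4 := Submodule.finrank_mono hle
  rw [Module.finrank_fintype_fun_eq_card, hcard] at h3
  have hrk' : Module.finrank F (LinearMap.range (Matrix.mulVecLin (M - 1))) ≠ m := hrk
  have hTT : LinearMap.ker (Matrix.mulVecLin (M - 1)) ≤
      LinearMap.BilinForm.orthogonal (QuadraticMap.polarBilin Q)
        (LinearMap.ker (Matrix.mulVecLin (M - 1))) := by
    intro x hx y hy
    show pl Q y x = 0
    have h := Q_add Q y x
    rw [hker y hy, hker x hx, hker (y + x) (Submodule.add_mem _ hy hx)] at h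
    linear_combination -h
  have h5 := LinearMap.BilinForm.finrank_orthogonal hQ
    (LinearMap.ker (Matrix.mulVecLin (M - 1)))
  have h6 := Submodule.finrank_mono hTT
  rw [Module.finrank_fintype_fun_eq_card, hcard] at h5
  omega

end

theorem main' {F : Type*} [Field F] [Fintype F] [CharP F 2] {m : ℕ} (hm : 4 ≤ m)
    (t s : ↥(Cfsg.isometryGroup F ⇑(Cfsg.Agent.S1629.Qp m F))) (ht : orderOf t = 2)
    (htO : t ∈ commutator ↥(Cfsg.isometryGroup F ⇑(Cfsg.Agent.S1629.Qp m F)))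
    (hconj : IsConj t s) :
    (¬ ((mat (Cfsg.Agent.S1629.Qp m F) t - 1).rank = m ∧
        ∀ v : Fin m ⊕ Fin m → F, Cfsg.Agent.S1629.Qp m F
          (v + mat (Cfsg.Agent.S1629.Qp m F) t *ᵥ v) = 0) →
      ∃ g ∈ commutator ↥(Cfsg.isometryGroup F ⇑(Cfsg.Agent.S1629.Qp m F)), g * t * g⁻¹ = s) ∧
    (((mat (Cfsg.Agent.S1629.Qp m F) t - 1).rank = m ∧
        ∀ v : Fin m ⊕ Fin m → F, Cfsg.Agent.S1629.Qp m F
          (v + mat (Cfsg.Agent.S1629.Qp m F) t *ᵥ v) = 0) →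
      ((∃ g ∈ commutator ↥(Cfsg.isometryGroup F ⇑(Cfsg.Agent.S1629.Qp m F)), g * t * g⁻¹ = s) ↔
        Even (Module.finrank F ↥(LinearMap.range
          (Matrix.mulVecLin (mat (Cfsg.Agent.S1629.Qp m F) t - 1)) ⊓
          LinearMap.range (Matrix.mulVecLin (mat (Cfsg.Agent.S1629.Qp m F) s - 1)))))) := by
  have hFn : Fintype.card F ≠ 2 ∨ Fintype.card (Fin m ⊕ Fin m) ≠ 4 := by
    right
    rw [Fintype.card_sum, Fintype.card_fin]
    omega
  have hQ := Cfsg.Agent.S1629.Qp_nondeg m F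
  have hR := gen_refl hFn (Cfsg.Agent.S1629.Qp m F) hQ
  have h2 : (2 : F) = 0 := by
    have := CharP.cast_eq_zero F 2
    exact_mod_cast this
  obtain ⟨c0, hc0⟩ := isConj_iff.1 hconj
  have htt : t * t = 1 := by
    have h5 := pow_orderOf_eq_one t
    rw [ht, pow_two] at h5
    exact h5
  have hMM : mat (Cfsg.Agent.S1629.Qp m F) t * mat (Cfsg.Agent.S1629.Qp m F) t = 1 := by
    rw [← mat_mul, htt, mat_one]
  have hOm := omega_eq_K2 hFn (Cfsg.Agent.S1629.Qp m F) hQ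
  have hpl : ∀ x y : Fin m ⊕ Fin m → F, pl (Cfsg.Agent.S1629.Qp m F) x y =
      Cfsg.Agent.S0832.pol m x y := fun x y => Cfsg.Agent.S1629.polar_plus m x y
  constructor
  · intro hnc
    obtain ⟨x, hx, hxQ⟩ : ∃ x, mat (Cfsg.Agent.S1629.Qp m F) t *ᵥ x = x ∧
        Cfsg.Agent.S1629.Qp m F x ≠ 0 := by
      by_cases hv : ∃ v, Cfsg.Agent.S1629.Qp m F
          (v + mat (Cfsg.Agent.S1629.Qp m F) t *ᵥ v) ≠ 0
      · obtain ⟨v, hv⟩ := hv
        refine ⟨v + mat (Cfsg.Agent.S1629.Qp m F) t *ᵥ v, ?_, hv⟩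
        rw [Matrix.mulVec_add, Matrix.mulVec_mulVec, hMM, Matrix.one_mulVec, add_comm]
      · push_neg at hv
        have hrk : (mat (Cfsg.Agent.S1629.Qp m F) t - 1).rank ≠ m := fun h => hnc ⟨h, hv⟩
        exact fixed_ns_of_rank (Cfsg.Agent.S1629.Qp m F) hQ _ hMM m
          (by rw [Fintype.card_sum, Fintype.card_fin]; omega) hrk
    obtain ⟨r, hr⟩ := exists_unit (Cfsg.Agent.S1629.Qp m F) hQ
      (Cfsg.reflectionMatrix (⇑(Cfsg.Agent.S1629.Qp m F)) x) (refl_iso _ x hxQ)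
    have hrS : r ∈ SR (Cfsg.Agent.S1629.Qp m F) := ⟨x, hxQ, hr⟩
    have hcomm : t * r = r * t :=
      Cfsg.Agent.S1629.conj_refl (Cfsg.Agent.S1629.Qp m F) t r r x hr (by rw [hx]; exact hr)
    rw [hOm]
    by_cases hcK : c0 ∈ K2 (Cfsg.Agent.S1629.Qp m F)
    · exact ⟨c0, hcK, hc0⟩
    · refine ⟨c0 * r, ?_, ?_⟩
      · have h5 : r * c0⁻¹ ∈ K2 (Cfsg.Agent.S1629.Qp m F) :=
          (K2_flip _ hQ hR r hrS c0⁻¹).2 (fun h => hcK (by simpa using (K2 _).inv_mem h))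
        have h6 := (K2 (Cfsg.Agent.S1629.Qp m F)).inv_mem h5
        rw [_root_.mul_inv_rev, inv_inv, S_inv _ r hrS] at h6
        exact h6
      · have e : c0 * r * t * (c0 * r)⁻¹ = c0 * (r * t * r⁻¹) * c0⁻¹ := by group
        rw [e, ← hcomm, mul_inv_cancel_right]
        exact hc0
  · rintro ⟨hrk, hv⟩
    obtain ⟨E, hE⟩ : ∃ E : Submodule F (Fin m ⊕ Fin m → F), E = LinearMap.range
        (Matrix.mulVecLin (mat (Cfsg.Agent.S1629.Qp m F) t - 1)) := ⟨_, rfl⟩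
    rw [← hE]
    have hEts : ∀ x ∈ E, Cfsg.Agent.S1629.Qp m F x = 0 := by
      intro x hx
      rw [hE] at hx
      obtain ⟨z, rfl⟩ := hx
      show Cfsg.Agent.S1629.Qp m F ((mat (Cfsg.Agent.S1629.Qp m F) t - 1) *ᵥ z) = 0
      have e : (mat (Cfsg.Agent.S1629.Qp m F) t - 1) *ᵥ z =
          z + mat (Cfsg.Agent.S1629.Qp m F) t *ᵥ z := by
        rw [Matrix.sub_mulVec, Matrix.one_mulVec]
        have h5 : z + z = 0 := by rw [← two_smul F z, h2, zero_smul]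
        calc mat (Cfsg.Agent.S1629.Qp m F) t *ᵥ z - z
            = mat (Cfsg.Agent.S1629.Qp m F) t *ᵥ z - z + (z + z) := by rw [h5, add_zero]
          _ = z + mat (Cfsg.Agent.S1629.Qp m F) t *ᵥ z := by abel
      rw [e]
      exact hv z
    have hEdim : Module.finrank F E = m := by
      rw [hE]
      exact hrk
    have hLag : IsLag (Cfsg.Agent.S1629.Qp m F) E := by
      refine ⟨hEts, ?_⟩
      intro y hy
      have hle : E ≤ (Cfsg.Agent.S0832.polB m).orthogonal E :=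
        Cfsg.Agent.S0832.ts_le_orth E hEts
      have hfr : Module.finrank F E =
          Module.finrank F ((Cfsg.Agent.S0832.polB m (F := F)).orthogonal E) := by
        rw [Cfsg.Agent.S0832.finrank_orth, hEdim]
        omega
      have heq := Submodule.eq_of_le_of_finrank_eq hle hfr
      rw [heq]
      intro n hn
      show Cfsg.Agent.S0832.pol m n y = 0
      have h5 := hy n hn
      rw [hpl, Cfsg.Agent.S0832.pol_comm] at h5
      exact h5
    have hpar : ∀ g, g ∈ K2 (Cfsg.Agent.S1629.Qp m F) ↔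
        Even (pc (Cfsg.Agent.S1629.Qp m F) E m g) := fun g =>
      parity_K2 (Cfsg.Agent.S1629.Qp m F) hQ hR (pc (Cfsg.Agent.S1629.Qp m F) E m)
        (pc_one (Cfsg.Agent.S1629.Qp m F) E m hEdim)
        (fun r hr g' => pc_flip (Cfsg.Agent.S1629.Qp m F) hQ E hLag m hEdim r hr g') g
    have hmap : ∀ g : ↥(Cfsg.isometryGroup F ⇑(Cfsg.Agent.S1629.Qp m F)), g * t * g⁻¹ = s →
        E.map (Matrix.mulVecLin (mat (Cfsg.Agent.S1629.Qp m F) g)) =
          LinearMap.range (Matrix.mulVecLin (mat (Cfsg.Agent.S1629.Qp m F) s - 1)) := by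
      intro g hg
      have hgt : mat (Cfsg.Agent.S1629.Qp m F) g * mat (Cfsg.Agent.S1629.Qp m F) t =
          mat (Cfsg.Agent.S1629.Qp m F) s * mat (Cfsg.Agent.S1629.Qp m F) g := by
        rw [← mat_mul, ← mat_mul]
        congr 1
        rw [← hg]
        group
      have key : ∀ w, mat (Cfsg.Agent.S1629.Qp m F) g *ᵥ
          ((mat (Cfsg.Agent.S1629.Qp m F) t - 1) *ᵥ w) =
          (mat (Cfsg.Agent.S1629.Qp m F) s - 1) *ᵥ (mat (Cfsg.Agent.S1629.Qp m F) g *ᵥ w) := by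
        intro w
        rw [Matrix.mulVec_mulVec, Matrix.mulVec_mulVec, Matrix.sub_mul, Matrix.mul_sub, hgt,
          Matrix.one_mul, Matrix.mul_one]
      rw [hE]
      apply le_antisymm
      · rintro _ ⟨_, ⟨w, rfl⟩, rfl⟩
        exact ⟨mat (Cfsg.Agent.S1629.Qp m F) g *ᵥ w, (key w).symm⟩
      · rintro _ ⟨z, rfl⟩
        obtain ⟨w, rfl⟩ := (Matrix.mulVec_surjective_iff_isUnit.2 g.1.isUnit) z
        exact ⟨(mat (Cfsg.Agent.S1629.Qp m F) t - 1) *ᵥ w, ⟨w, rfl⟩, key w⟩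
    have hmeven : Even m := by
      have h5 := (mem_omega_iff hFn (Cfsg.Agent.S1629.Qp m F) hQ t).1 htO
      unfold dk at h5
      rw [hrk] at h5
      exact h5
    have hdle : Module.finrank F ↥(E ⊓ LinearMap.range
        (Matrix.mulVecLin (mat (Cfsg.Agent.S1629.Qp m F) s - 1))) ≤ m := by
      have h7 := Submodule.finrank_mono (inf_le_left : E ⊓ LinearMap.range
        (Matrix.mulVecLin (mat (Cfsg.Agent.S1629.Qp m F) s - 1)) ≤ E)
      omega
    constructor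
    · rintro ⟨g, hgO, hg⟩
      rw [hOm] at hgO
      have h5 := (hpar g).1 hgO
      unfold pc at h5
      rw [hmap g hg, Nat.even_sub hdle] at h5
      exact h5.1 hmeven
    · intro hev
      refine ⟨c0, ?_, hc0⟩
      rw [hOm, hpar c0]
      unfold pc
      rw [hmap c0 hc0, Nat.even_sub hdle]
      exact ⟨fun _ => hev, fun _ => hmeven⟩

theorem main {F : Type*} [Field F] [Fintype F] [CharP F 2] {m : ℕ} (hm : 4 ≤ m) (t s : ↥(Cfsg.isometryGroup F (Cfsg.quadFormPlus m F))) (ht : orderOf t = 2) (hs : orderOf s = 2) (htO : t ∈ Cfsg.Omega F (Cfsg.quadFormPlus m F)) (hsO : s ∈ Cfsg.Omega F (Cfsg.quadFormPlus m F)) (hconj : IsConj t s) :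
    (¬ (((((t : ↥(Cfsg.isometryGroup F (Cfsg.quadFormPlus m F))) : GL (Fin m ⊕ Fin m) F) : Matrix (Fin m ⊕ Fin m) (Fin m ⊕ Fin m) F) - 1).rank = m ∧ ∀ v : Fin m ⊕ Fin m → F, Cfsg.quadFormPlus m F (v + Matrix.mulVec (((t : ↥(Cfsg.isometryGroup F (Cfsg.quadFormPlus m F))) : GL (Fin m ⊕ Fin m) F) : Matrix (Fin m ⊕ Fin m) (Fin m ⊕ Fin m) F) v) = 0) →
      ∃ g ∈ Cfsg.Omega F (Cfsg.quadFormPlus m F), g * t * g⁻¹ = s) ∧
    ((((((t : ↥(Cfsg.isometryGroup F (Cfsg.quadFormPlus m F))) : GL (Fin m ⊕ Fin m) F) : Matrix (Fin m ⊕ Fin m) (Fin m ⊕ Fin m) F) - 1).rank = m ∧ ∀ v : Fin m ⊕ Fin m → F, Cfsg.quadFormPlus m F (v + Matrix.mulVec (((t : ↥(Cfsg.isometryGroup F (Cfsg.quadFormPlus m F))) : GL (Fin m ⊕ Fin m) F) : Matrix (Fin m ⊕ Fin m) (Fin m ⊕ Fin m) F) v) = 0) →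
      ((∃ g ∈ Cfsg.Omega F (Cfsg.quadFormPlus m F), g * t * g⁻¹ = s) ↔
        Even (Module.finrank F ↥(LinearMap.range (Matrix.toLin' ((((t : ↥(Cfsg.isometryGroup F (Cfsg.quadFormPlus m F))) : GL (Fin m ⊕ Fin m) F) : Matrix (Fin m ⊕ Fin m) (Fin m ⊕ Fin m) F) - 1)) ⊓ LinearMap.range (Matrix.toLin' ((((s : ↥(Cfsg.isometryGroup F (Cfsg.quadFormPlus m F))) : GL (Fin m ⊕ Fin m) F) : Matrix (Fin m ⊕ Fin m) (Fin m ⊕ Fin m) F) - 1)))))) := by
  exact main' hm t s ht htO hconj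

theorem result {F : Type*} [Field F] [Fintype F] [CharP F 2] {m : ℕ} (hm : 4 ≤ m) (t s : ↥(Cfsg.isometryGroup F (Cfsg.quadFormPlus m F))) (ht : orderOf t = 2) (hs : orderOf s = 2) (htO : t ∈ Cfsg.Omega F (Cfsg.quadFormPlus m F)) (hsO : s ∈ Cfsg.Omega F (Cfsg.quadFormPlus m F)) (hconj : IsConj t s) :
    (¬ (((((t : ↥(Cfsg.isometryGroup F (Cfsg.quadFormPlus m F))) : GL (Fin m ⊕ Fin m) F) : Matrix (Fin m ⊕ Fin m) (Fin m ⊕ Fin m) F) - 1).rank = m ∧ ∀ v : Fin m ⊕ Fin m → F, Cfsg.quadFormPlus m F (v + Matrix.mulVec (((t : ↥(Cfsg.isometryGroup F (Cfsg.quadFormPlus m F))) : GL (Fin m ⊕ Fin m) F) : Matrix (Fin m ⊕ Fin m) (Fin m ⊕ Fin m) F) v) = 0) →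
      ∃ g ∈ Cfsg.Omega F (Cfsg.quadFormPlus m F), g * t * g⁻¹ = s) ∧
    ((((((t : ↥(Cfsg.isometryGroup F (Cfsg.quadFormPlus m F))) : GL (Fin m ⊕ Fin m) F) : Matrix (Fin m ⊕ Fin m) (Fin m ⊕ Fin m) F) - 1).rank = m ∧ ∀ v : Fin m ⊕ Fin m → F, Cfsg.quadFormPlus m F (v + Matrix.mulVec (((t : ↥(Cfsg.isometryGroup F (Cfsg.quadFormPlus m F))) : GL (Fin m ⊕ Fin m) F) : Matrix (Fin m ⊕ Fin m) (Fin m ⊕ Fin m) F) v) = 0) →
      ((∃ g ∈ Cfsg.Omega F (Cfsg.quadFormPlus m F), g * t * g⁻¹ = s) ↔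
        Even (Module.finrank F ↥(LinearMap.range (Matrix.toLin' ((((t : ↥(Cfsg.isometryGroup F (Cfsg.quadFormPlus m F))) : GL (Fin m ⊕ Fin m) F) : Matrix (Fin m ⊕ Fin m) (Fin m ⊕ Fin m) F) - 1)) ⊓ LinearMap.range (Matrix.toLin' ((((s : ↥(Cfsg.isometryGroup F (Cfsg.quadFormPlus m F))) : GL (Fin m ⊕ Fin m) F) : Matrix (Fin m ⊕ Fin m) (Fin m ⊕ Fin m) F) - 1)))))) := by
  exact main hm t s ht hs htO hsO hconj

end Cfsg.Agent.S2172
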