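import Cfsg.Statements.S2173
import Cfsg.Agent.S2171
import Cfsg.Agent.S2615
import Cfsg.Agent.S2627

set_option autoImplicit false
open Cfsg


namespace Cfsg.Agent.S2173

open Matrix
open Cfsg.Agent.S0750 (pl pl_add_left pl_add_right pl_sub_left pl_sub_right pl_smul_left
  pl_smul_right pl_comm pl_self Q_add Q_smul Q_sub pl_zero_right)
open Cfsg.Agent.S0786 (mat mat_mul mat_one mat_iso mat_pl mat_inj mat_ext RQ exists_unit
  refl_mulVec refl_iso gen_refl wittR)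
open Cfsg.Agent.S2635 (SR K2 SS_mem S_sq S_inv K_norm K_par comm_mem_K)
open Cfsg.Agent.S0789 (omega_eq_K2)
open Cfsg.Agent.S1630 (polM Qm polar_minus polM_comm)
open Cfsg.Agent.S2171 (Qm_nondeg2 aniso_ne)
open Cfsg.Agent.S2615 (polM_single_inl polM_single_inr)
open Cfsg.Agent.S2627 (K2_flip)

/-- the Witt index of the minus-type form: no totally singular family of size `k + 1` -/
theorem witt_index {F : Type*} [Field F] [Fintype F] (k : ℕ) (c d : F)
    (hcd : ∀ z₁ z₂ : F, z₁ ^ 2 + c * z₁ * z₂ + d * z₂ ^ 2 = 0 → z₁ = 0 ∧ z₂ = 0)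
    (hQ : (QuadraticMap.polarBilin (Qm k c d)).Nondegenerate)
    (hFn : Fintype.card F ≠ 2 ∨ Fintype.card ((Fin k ⊕ Fin k) ⊕ Fin 2) ≠ 4)
    (b : Fin (k + 1) → (Fin k ⊕ Fin k) ⊕ Fin 2 → F) (hLI : LinearIndependent F b)
    (hb0 : ∀ i, Qm k c d (b i) = 0) (hbpl : ∀ i j, pl (Qm k c d) (b i) (b j) = 0) : False := by
  have hpl : ∀ x y : (Fin k ⊕ Fin k) ⊕ Fin 2 → F,
      pl (Qm k c d) x y = polM k c d x y := fun x y => polar_minus c d x y
  have hLI' : LinearIndependent F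
      (fun i : Fin k => (Pi.single (Sum.inl (Sum.inl i)) (1 : F) : (Fin k ⊕ Fin k) ⊕ Fin 2 → F)) := by
    rw [Fintype.linearIndependent_iff]
    intro a ha i
    have h5 := congrFun ha (Sum.inl (Sum.inl i))
    simpa [Finset.sum_apply, Pi.single_apply] using h5
  have hQe : ∀ i : Fin k, Qm k c d (Pi.single (Sum.inl (Sum.inl i)) 1) = 0 := by
    intro i
    show Cfsg.quadFormMinus k F c d _ = 0
    unfold Cfsg.quadFormMinus
    simp
  obtain ⟨g, -, hg⟩ := wittR hFn (Qm k c d) hQ k (fun i => b (Fin.castSucc i))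
    (fun i => Pi.single (Sum.inl (Sum.inl i)) 1)
    (hLI.comp _ (Fin.castSucc_injective k)) hLI'
    (fun i => by rw [hb0, hQe])
    (fun i j => by
      rw [hbpl, hpl, polM_single_inl]
      simp)
  obtain ⟨y, hy⟩ : ∃ y, y = mat (Qm k c d) g *ᵥ b (Fin.last k) := ⟨_, rfl⟩
  have hQy : Qm k c d y = 0 := by rw [hy, mat_iso, hb0]
  have hy0 : ∀ i : Fin k, y (Sum.inl (Sum.inr i)) = 0 := by
    intro i
    have h5 : pl (Qm k c d) (Pi.single (Sum.inl (Sum.inl i)) 1) y = 0 := by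
      rw [hy, ← hg i, mat_pl, hbpl]
    rw [hpl, polM_single_inl] at h5
    exact h5
  have hz : y (Sum.inr 0) = 0 ∧ y (Sum.inr 1) = 0 := by
    apply hcd
    have h5 : Cfsg.quadFormMinus k F c d y = 0 := hQy
    unfold Cfsg.quadFormMinus at h5
    have h6 : ∑ i : Fin k, y (Sum.inl (Sum.inl i)) * y (Sum.inl (Sum.inr i)) = 0 :=
      Finset.sum_eq_zero (fun i _ => by rw [hy0 i, mul_zero])
    rw [h6, zero_add] at h5
    exact h5
  have hysum : y = ∑ i : Fin k, y (Sum.inl (Sum.inl i)) •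
      (Pi.single (Sum.inl (Sum.inl i)) (1 : F) : (Fin k ⊕ Fin k) ⊕ Fin 2 → F) := by
    funext j
    rcases j with (j | j) | j
    · simp [Finset.sum_apply, Pi.single_apply]
    · rw [hy0 j]
      simp [Finset.sum_apply, Pi.single_apply]
    · fin_cases j
      · show y (Sum.inr 0) = _
        rw [hz.1]
        simp [Finset.sum_apply, Pi.single_apply]
      · show y (Sum.inr 1) = _
        rw [hz.2]
        simp [Finset.sum_apply, Pi.single_apply]
  have hsum : ∑ i : Fin k, y (Sum.inl (Sum.inl i)) • b (Fin.castSucc i) = b (Fin.last k) := by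
    apply mat_inj (Qm k c d) g
    rw [Matrix.mulVec_sum, ← hy]
    conv_rhs => rw [hysum]
    exact Finset.sum_congr rfl (fun i _ => by rw [Matrix.mulVec_smul, hg i])
  have hc := Fintype.linearIndependent_iff.1 hLI
    (Fin.lastCases (-1) (fun i => y (Sum.inl (Sum.inl i))))
    (by
      rw [Fin.sum_univ_castSucc]
      simp only [Fin.lastCases_castSucc, Fin.lastCases_last]
      rw [hsum]
      simp) (Fin.last k)
  rw [Fin.lastCases_last] at hc
  exact one_ne_zero (neg_eq_zero.1 hc)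

/-- an involution of the minus-type orthogonal group in characteristic two fixes a
nonsingular vector -/
theorem exists_fixed_ns {F : Type*} [Field F] [Fintype F] [CharP F 2] (k : ℕ) (c d : F)
    (hcd : ∀ z₁ z₂ : F, z₁ ^ 2 + c * z₁ * z₂ + d * z₂ ^ 2 = 0 → z₁ = 0 ∧ z₂ = 0)
    (hQ : (QuadraticMap.polarBilin (Qm k c d)).Nondegenerate)
    (hFn : Fintype.card F ≠ 2 ∨ Fintype.card ((Fin k ⊕ Fin k) ⊕ Fin 2) ≠ 4)
    (M : Matrix ((Fin k ⊕ Fin k) ⊕ Fin 2) ((Fin k ⊕ Fin k) ⊕ Fin 2) F) (hM : M * M = 1) :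
    ∃ x, M *ᵥ x = x ∧ Qm k c d x ≠ 0 := by
  have h2 : (2 : F) = 0 := by
    have := CharP.cast_eq_zero F 2
    exact_mod_cast this
  have hNN : (M - 1) * (M - 1) = 0 := by
    have e : (M - 1) * (M - 1) = M * M - M - M + 1 := by noncomm_ring
    rw [e, hM]
    have e2 : (1 : Matrix ((Fin k ⊕ Fin k) ⊕ Fin 2) ((Fin k ⊕ Fin k) ⊕ Fin 2) F) - M - M + 1 =
        (2 : F) • (1 - M) := by
      rw [two_smul]
      abel
    rw [e2, h2, zero_smul]
  by_contra hcon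
  push_neg at hcon
  have hker : ∀ x ∈ LinearMap.ker (Matrix.mulVecLin (M - 1)), Qm k c d x = 0 := by
    intro x hx
    apply hcon x
    have h5 : (M - 1) *ᵥ x = 0 := hx
    rw [Matrix.sub_mulVec, Matrix.one_mulVec, sub_eq_zero] at h5
    exact h5
  have hle : LinearMap.range (Matrix.mulVecLin (M - 1)) ≤
      LinearMap.ker (Matrix.mulVecLin (M - 1)) := by
    rintro _ ⟨z, rfl⟩
    show (M - 1) *ᵥ ((M - 1) *ᵥ z) = 0
    rw [Matrix.mulVec_mulVec, hNN, Matrix.zero_mulVec]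
  have h3 := LinearMap.finrank_range_add_finrank_ker (Matrix.mulVecLin (M - 1))
  have h4 := Submodule.finrank_mono hle
  rw [Module.finrank_fintype_fun_eq_card, Fintype.card_sum, Fintype.card_sum, Fintype.card_fin,
    Fintype.card_fin] at h3
  have h5 : k + 1 ≤ Module.finrank F (LinearMap.ker (Matrix.mulVecLin (M - 1))) := by omega
  obtain ⟨bC⟩ : Nonempty (Module.Basis
      (Fin (Module.finrank F (LinearMap.ker (Matrix.mulVecLin (M - 1))))) F
      (LinearMap.ker (Matrix.mulVecLin (M - 1)))) := ⟨Module.finBasis F _⟩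
  have hLI : LinearIndependent F (fun i : Fin (k + 1) =>
      ((bC (Fin.castLE h5 i) : LinearMap.ker (Matrix.mulVecLin (M - 1))) :
        (Fin k ⊕ Fin k) ⊕ Fin 2 → F)) :=
    (bC.linearIndependent.map' (Submodule.subtype _) (Submodule.ker_subtype _)).comp _
      (Fin.castLE_injective h5)
  have hpl0 : ∀ x ∈ LinearMap.ker (Matrix.mulVecLin (M - 1)),
      ∀ y ∈ LinearMap.ker (Matrix.mulVecLin (M - 1)), pl (Qm k c d) x y = 0 := by
    intro x hx y hy
    have h := Q_add (Qm k c d) x y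
    rw [hker x hx, hker y hy, hker (x + y) (Submodule.add_mem _ hx hy)] at h
    linear_combination -h
  exact witt_index k c d hcd hQ hFn _ hLI (fun i => hker _ (bC _).2)
    (fun i j => hpl0 _ (bC _).2 _ (bC _).2)

theorem main' {F : Type*} [Field F] [Fintype F] [CharP F 2] {m : ℕ} (hm : 4 ≤ m) (c d : F)
    (hcd : ∀ z₁ z₂ : F, z₁ ^ 2 + c * z₁ * z₂ + d * z₂ ^ 2 = 0 → z₁ = 0 ∧ z₂ = 0)
    (t s : ↥(Cfsg.isometryGroup F ⇑(Qm (m - 1) c d))) (ht : orderOf t = 2)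
    (hconj : IsConj t s) :
    ∃ g ∈ commutator ↥(Cfsg.isometryGroup F ⇑(Qm (m - 1) c d)), g * t * g⁻¹ = s := by
  have hFn : Fintype.card F ≠ 2 ∨ Fintype.card ((Fin (m - 1) ⊕ Fin (m - 1)) ⊕ Fin 2) ≠ 4 := by
    right
    rw [Fintype.card_sum, Fintype.card_sum, Fintype.card_fin, Fintype.card_fin]
    omega
  have hQ := Qm_nondeg2 (m - 1) c d (aniso_ne c d hcd)
  have hR := gen_refl hFn (Qm (m - 1) c d) hQ
  obtain ⟨c0, hc0⟩ := isConj_iff.1 hconj
  have htt : t * t = 1 := by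
    have h5 := pow_orderOf_eq_one t
    rw [ht, pow_two] at h5
    exact h5
  have hMM : mat (Qm (m - 1) c d) t * mat (Qm (m - 1) c d) t = 1 := by
    rw [← mat_mul, htt, mat_one]
  obtain ⟨x, hx, hxQ⟩ := exists_fixed_ns (m - 1) c d hcd hQ hFn _ hMM
  obtain ⟨r, hr⟩ := exists_unit (Qm (m - 1) c d) hQ
    (Cfsg.reflectionMatrix (⇑(Qm (m - 1) c d)) x) (refl_iso _ x hxQ)
  have hrS : r ∈ SR (Qm (m - 1) c d) := ⟨x, hxQ, hr⟩
  have hcomm : t * r = r * t :=
    Cfsg.Agent.S1629.conj_refl (Qm (m - 1) c d) t r r x hr (by rw [hx]; exact hr)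
  rw [omega_eq_K2 hFn (Qm (m - 1) c d) hQ]
  by_cases hcK : c0 ∈ K2 (Qm (m - 1) c d)
  · exact ⟨c0, hcK, hc0⟩
  · refine ⟨c0 * r, ?_, ?_⟩
    · have h5 : r * c0⁻¹ ∈ K2 (Qm (m - 1) c d) :=
        (K2_flip _ hQ hR r hrS c0⁻¹).2 (fun h => hcK (by simpa using (K2 _).inv_mem h))
      have h6 := (K2 (Qm (m - 1) c d)).inv_mem h5
      rw [_root_.mul_inv_rev, inv_inv, S_inv _ r hrS] at h6
      exact h6
    · have e : c0 * r * t * (c0 * r)⁻¹ = c0 * (r * t * r⁻¹) * c0⁻¹ := by group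
      rw [e, ← hcomm, mul_inv_cancel_right]
      exact hc0

theorem main {F : Type*} [Field F] [Fintype F] [CharP F 2] {m : ℕ} (hm : 4 ≤ m) (c d : F) (hcd : ∀ z₁ z₂ : F, z₁ ^ 2 + c * z₁ * z₂ + d * z₂ ^ 2 = 0 → z₁ = 0 ∧ z₂ = 0) (t s : ↥(Cfsg.isometryGroup F (Cfsg.quadFormMinus (m - 1) F c d))) (ht : orderOf t = 2) (hs : orderOf s = 2) (htO : t ∈ Cfsg.Omega F (Cfsg.quadFormMinus (m - 1) F c d)) (hsO : s ∈ Cfsg.Omega F (Cfsg.quadFormMinus (m - 1) F c d)) (hconj : IsConj t s) :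
    ∃ g ∈ Cfsg.Omega F (Cfsg.quadFormMinus (m - 1) F c d), g * t * g⁻¹ = s := by
  exact main' hm c d hcd t s ht hconj

theorem result {F : Type*} [Field F] [Fintype F] [CharP F 2] {m : ℕ} (hm : 4 ≤ m) (c d : F) (hcd : ∀ z₁ z₂ : F, z₁ ^ 2 + c * z₁ * z₂ + d * z₂ ^ 2 = 0 → z₁ = 0 ∧ z₂ = 0) (t s : ↥(Cfsg.isometryGroup F (Cfsg.quadFormMinus (m - 1) F c d))) (ht : orderOf t = 2) (hs : orderOf s = 2) (htO : t ∈ Cfsg.Omega F (Cfsg.quadFormMinus (m - 1) F c d)) (hsO : s ∈ Cfsg.Omega F (Cfsg.quadFormMinus (m - 1) F c d)) (hconj : IsConj t s) :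
    ∃ g ∈ Cfsg.Omega F (Cfsg.quadFormMinus (m - 1) F c d), g * t * g⁻¹ = s := by
  exact main hm c d hcd t s ht hs htO hsO hconj

end Cfsg.Agent.S2173
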