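import Cfsg.Statements.S2231
import Mathlib

set_option autoImplicit false
open Cfsg

namespace Cfsg.Agent.S2231

open Matrix
open scoped Pointwise

/-- all `p`-subgroups are commutative -/
def PAb (p : ℕ) (G : Type*) [Group G] : Prop :=
  ∀ P : Subgroup G, IsPGroup p P → ∀ a ∈ P, ∀ b ∈ P, a * b = b * a

theorem PAb_subgroup {p : ℕ} {G : Type*} [Group G] (h : PAb p G) (H : Subgroup G) : PAb p H := by
  intro P hP a ha b hb
  have h1 := h (P.map H.subtype) (hP.map H.subtype) (a : G) ⟨a, ha, rfl⟩ (b : G) ⟨b, hb, rfl⟩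
  exact Subtype.ext h1

theorem PAb_equiv {p : ℕ} {G G' : Type*} [Group G] [Group G'] (e : G ≃* G') (h : PAb p G) :
    PAb p G' := by
  intro P hP a ha b hb
  have h1 := h (P.map e.symm.toMonoidHom) (hP.map _) (e.symm a) ⟨a, ha, rfl⟩ (e.symm b)
    ⟨b, hb, rfl⟩
  have h2 := congrArg e h1
  simpa using h2

theorem PAb_quotient {p : ℕ} [Fact p.Prime] {G : Type*} [Group G] [Finite G] (h : PAb p G)
    (N : Subgroup G) [N.Normal] : PAb p (G ⧸ N) := by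
  intro Q hQ a ha b hb
  obtain ⟨S', hS'⟩ := hQ.exists_le_sylow
  obtain ⟨S⟩ : Nonempty (Sylow p G) := inferInstance
  obtain ⟨g, hg⟩ := MulAction.exists_smul_eq (G ⧸ N)
    (S.mapSurjective (QuotientGroup.mk'_surjective N)) S'
  have ha' : a ∈ MulAut.conj g • (S.map (QuotientGroup.mk' N) : Subgroup (G ⧸ N)) := by
    have h1 : a ∈ S' := hS' ha
    rw [← hg] at h1
    exact h1
  have hb' : b ∈ MulAut.conj g • (S.map (QuotientGroup.mk' N) : Subgroup (G ⧸ N)) := by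
    have h1 : b ∈ S' := hS' hb
    rw [← hg] at h1
    exact h1
  rw [Subgroup.mem_smul_pointwise_iff_exists] at ha' hb'
  obtain ⟨s, ⟨t, ht, rfl⟩, rfl⟩ := ha'
  obtain ⟨s', ⟨t', ht', rfl⟩, rfl⟩ := hb'
  have htt : t * t' = t' * t := h S S.isPGroup' t ht t' ht'
  have hxy : (QuotientGroup.mk' N) t * (QuotientGroup.mk' N) t' =
      (QuotientGroup.mk' N) t' * (QuotientGroup.mk' N) t := by
    rw [← map_mul, htt, map_mul]
  simp only [MulAut.smul_def, MulAut.conj_apply]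
  have e : ∀ x y : G ⧸ N, g * x * g⁻¹ * (g * y * g⁻¹) = g * (x * y) * g⁻¹ := fun x y => by group
  rw [e, e, hxy]

theorem sl2_comm_of_trace {K : Type*} [Field K]
    (g h : Matrix.SpecialLinearGroup (Fin 2) K)
    (hg : (g : Matrix (Fin 2) (Fin 2) K).trace = 2) (hh : (h : Matrix (Fin 2) (Fin 2) K).trace = 2)
    (hgh : ((g * h : Matrix.SpecialLinearGroup (Fin 2) K) : Matrix (Fin 2) (Fin 2) K).trace = 2) :
    g * h = h * g := by
  have dg := g.2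
  have dh := h.2
  rw [Matrix.det_fin_two] at dg dh
  rw [Matrix.trace_fin_two] at hg hh hgh
  simp only [Matrix.SpecialLinearGroup.coe_mul, Matrix.mul_apply, Fin.sum_univ_two] at hgh
  have F1 : ((g : Matrix (Fin 2) (Fin 2) K) 0 0 - 1) ^ 2 +
      (g : Matrix (Fin 2) (Fin 2) K) 0 1 * (g : Matrix (Fin 2) (Fin 2) K) 1 0 = 0 := by
    linear_combination -dg + (g : Matrix (Fin 2) (Fin 2) K) 0 0 * hg
  have F2 : ((h : Matrix (Fin 2) (Fin 2) K) 0 0 - 1) ^ 2 +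
      (h : Matrix (Fin 2) (Fin 2) K) 0 1 * (h : Matrix (Fin 2) (Fin 2) K) 1 0 = 0 := by
    linear_combination -dh + (h : Matrix (Fin 2) (Fin 2) K) 0 0 * hh
  have F3 : 2 * ((g : Matrix (Fin 2) (Fin 2) K) 0 0 - 1) * ((h : Matrix (Fin 2) (Fin 2) K) 0 0 - 1) +
      (g : Matrix (Fin 2) (Fin 2) K) 0 1 * (h : Matrix (Fin 2) (Fin 2) K) 1 0 +
      (g : Matrix (Fin 2) (Fin 2) K) 1 0 * (h : Matrix (Fin 2) (Fin 2) K) 0 1 = 0 := by
    linear_combination hgh + ((h : Matrix (Fin 2) (Fin 2) K) 0 0 - 2) * hg -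
      (g : Matrix (Fin 2) (Fin 2) K) 1 1 * hh
  have E1 : ((g : Matrix (Fin 2) (Fin 2) K) 0 0 - 1) * (h : Matrix (Fin 2) (Fin 2) K) 0 1 -
      ((h : Matrix (Fin 2) (Fin 2) K) 0 0 - 1) * (g : Matrix (Fin 2) (Fin 2) K) 0 1 = 0 := by
    have hsq : (((g : Matrix (Fin 2) (Fin 2) K) 0 0 - 1) * (h : Matrix (Fin 2) (Fin 2) K) 0 1 -
      ((h : Matrix (Fin 2) (Fin 2) K) 0 0 - 1) * (g : Matrix (Fin 2) (Fin 2) K) 0 1) ^ 2 = 0 := by
      linear_combination ((h : Matrix (Fin 2) (Fin 2) K) 0 1) ^ 2 * F1 -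
        ((g : Matrix (Fin 2) (Fin 2) K) 0 1 * (h : Matrix (Fin 2) (Fin 2) K) 0 1) * F3 +
        ((g : Matrix (Fin 2) (Fin 2) K) 0 1) ^ 2 * F2
    exact pow_eq_zero_iff (two_ne_zero) |>.1 hsq
  have E2 : ((h : Matrix (Fin 2) (Fin 2) K) 0 0 - 1) * (g : Matrix (Fin 2) (Fin 2) K) 1 0 -
      ((g : Matrix (Fin 2) (Fin 2) K) 0 0 - 1) * (h : Matrix (Fin 2) (Fin 2) K) 1 0 = 0 := by
    have hsq : (((h : Matrix (Fin 2) (Fin 2) K) 0 0 - 1) * (g : Matrix (Fin 2) (Fin 2) K) 1 0 -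
      ((g : Matrix (Fin 2) (Fin 2) K) 0 0 - 1) * (h : Matrix (Fin 2) (Fin 2) K) 1 0) ^ 2 = 0 := by
      linear_combination ((g : Matrix (Fin 2) (Fin 2) K) 1 0) ^ 2 * F2 -
        ((g : Matrix (Fin 2) (Fin 2) K) 1 0 * (h : Matrix (Fin 2) (Fin 2) K) 1 0) * F3 +
        ((h : Matrix (Fin 2) (Fin 2) K) 1 0) ^ 2 * F1
    exact pow_eq_zero_iff (two_ne_zero) |>.1 hsq
  have E3 : (g : Matrix (Fin 2) (Fin 2) K) 0 1 * (h : Matrix (Fin 2) (Fin 2) K) 1 0 -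
      (h : Matrix (Fin 2) (Fin 2) K) 0 1 * (g : Matrix (Fin 2) (Fin 2) K) 1 0 = 0 := by
    have hsq : ((g : Matrix (Fin 2) (Fin 2) K) 0 1 * (h : Matrix (Fin 2) (Fin 2) K) 1 0 -
      (h : Matrix (Fin 2) (Fin 2) K) 0 1 * (g : Matrix (Fin 2) (Fin 2) K) 1 0) ^ 2 = 0 := by
      linear_combination ((g : Matrix (Fin 2) (Fin 2) K) 0 1 * (h : Matrix (Fin 2) (Fin 2) K) 1 0 +
          (g : Matrix (Fin 2) (Fin 2) K) 1 0 * (h : Matrix (Fin 2) (Fin 2) K) 0 1 -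
          2 * ((g : Matrix (Fin 2) (Fin 2) K) 0 0 - 1) * ((h : Matrix (Fin 2) (Fin 2) K) 0 0 - 1)) * F3 -
        4 * ((h : Matrix (Fin 2) (Fin 2) K) 0 1 * (h : Matrix (Fin 2) (Fin 2) K) 1 0) * F1 +
        4 * ((g : Matrix (Fin 2) (Fin 2) K) 0 0 - 1) ^ 2 * F2
    exact pow_eq_zero_iff (two_ne_zero) |>.1 hsq
  apply Subtype.ext
  rw [Matrix.SpecialLinearGroup.coe_mul, Matrix.SpecialLinearGroup.coe_mul]
  ext i j
  fin_cases i <;> fin_cases j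
  · simp only [Matrix.mul_apply, Fin.sum_univ_two, Fin.zero_eta]
    linear_combination E3
  · simp only [Matrix.mul_apply, Fin.sum_univ_two, Fin.zero_eta, Fin.mk_one]
    linear_combination 2 * E1 + (g : Matrix (Fin 2) (Fin 2) K) 0 1 * hh -
      (h : Matrix (Fin 2) (Fin 2) K) 0 1 * hg
  · simp only [Matrix.mul_apply, Fin.sum_univ_two, Fin.zero_eta, Fin.mk_one]
    linear_combination 2 * E2 + (h : Matrix (Fin 2) (Fin 2) K) 1 0 * hg -
      (g : Matrix (Fin 2) (Fin 2) K) 1 0 * hh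
  · simp only [Matrix.mul_apply, Fin.sum_univ_two, Fin.mk_one]
    linear_combination -E3

theorem trace_eq_two_of_pow {p : ℕ} [Fact p.Prime] {K : Type*} [Field K] [CharP K p]
    (g : Matrix.SpecialLinearGroup (Fin 2) K) (k : ℕ) (hg : g ^ (p ^ k) = 1) :
    (g : Matrix (Fin 2) (Fin 2) K).trace = 2 := by
  have h1 : (g : Matrix (Fin 2) (Fin 2) K) ^ (p ^ k) = 1 := by
    have := congrArg (fun x : Matrix.SpecialLinearGroup (Fin 2) K => (x : Matrix (Fin 2) (Fin 2) K)) hg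
    simpa using this
  have h2 : ((g : Matrix (Fin 2) (Fin 2) K) - 1) ^ (p ^ k) = 0 := by
    rw [sub_pow_char_pow_of_commute _ _ (Commute.one_right _), h1, one_pow, sub_self]
  have h3 : IsNilpotent ((g : Matrix (Fin 2) (Fin 2) K) - 1) := ⟨_, h2⟩
  have h4 := (Matrix.isNilpotent_trace_of_isNilpotent h3).eq_zero
  rw [Matrix.trace_sub, Matrix.trace_one] at h4
  simp only [Fintype.card_fin, Nat.cast_ofNat] at h4
  linear_combination h4

theorem PAb_SL2 {p : ℕ} [Fact p.Prime] {K : Type*} [Field K] [CharP K p] :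
    PAb p (Matrix.SpecialLinearGroup (Fin 2) K) := by
  intro P hP a ha b hb
  have tr : ∀ x ∈ P, (x : Matrix (Fin 2) (Fin 2) K).trace = 2 := by
    intro x hx
    obtain ⟨k, hk⟩ := hP ⟨x, hx⟩
    have hk' : x ^ (p ^ k) = 1 := by
      have := congrArg Subtype.val hk
      simpa using this
    exact trace_eq_two_of_pow x k hk'
  exact sl2_comm_of_trace a b (tr a ha) (tr b hb) (tr _ (P.mul_mem ha hb))

/-- unitriangular elements of `SL₃` -/
def IsUT {p : ℕ} (g : Matrix.SpecialLinearGroup (Fin 3) (ZMod p)) : Prop :=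
  (g : Matrix (Fin 3) (Fin 3) (ZMod p)) 1 0 = 0 ∧ (g : Matrix (Fin 3) (Fin 3) (ZMod p)) 2 0 = 0 ∧
  (g : Matrix (Fin 3) (Fin 3) (ZMod p)) 2 1 = 0 ∧ (g : Matrix (Fin 3) (Fin 3) (ZMod p)) 0 0 = 1 ∧
  (g : Matrix (Fin 3) (Fin 3) (ZMod p)) 1 1 = 1 ∧ (g : Matrix (Fin 3) (Fin 3) (ZMod p)) 2 2 = 1

theorem IsUT_mul {p : ℕ} (g h : Matrix.SpecialLinearGroup (Fin 3) (ZMod p)) (hg : IsUT g)
    (hh : IsUT h) : IsUT (g * h) := by
  obtain ⟨g1, g2, g3, g4, g5, g6⟩ := hg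
  obtain ⟨h1, h2, h3, h4, h5, h6⟩ := hh
  refine ⟨?_, ?_, ?_, ?_, ?_, ?_⟩ <;>
    simp [Matrix.SpecialLinearGroup.coe_mul, Matrix.mul_apply, Fin.sum_univ_three, g1, g2, g3, g4,
      g5, g6, h1, h2, h3, h4, h5, h6]

theorem IsUT_one {p : ℕ} : IsUT (1 : Matrix.SpecialLinearGroup (Fin 3) (ZMod p)) := by
  refine ⟨?_, ?_, ?_, ?_, ?_, ?_⟩ <;> simp

theorem IsUT_pow {p : ℕ} (g : Matrix.SpecialLinearGroup (Fin 3) (ZMod p)) (hg : IsUT g) (k : ℕ) :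
    IsUT (g ^ k) := by
  induction k with
  | zero => rw [pow_zero]; exact IsUT_one
  | succ k ih => rw [pow_succ]; exact IsUT_mul _ _ ih hg

theorem IsUT_pow_p {p : ℕ} [Fact p.Prime] (hp : p ≠ 2)
    (g : Matrix.SpecialLinearGroup (Fin 3) (ZMod p)) (hg : IsUT g) : g ^ p = 1 := by
  obtain ⟨g1, g2, g3, g4, g5, g6⟩ := hg
  have hp3 : 3 ≤ p := by
    have := (Fact.out : p.Prime).two_le
    omega
  have hN3 : ((g : Matrix (Fin 3) (Fin 3) (ZMod p)) - 1) ^ 3 = 0 := by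
    rw [pow_succ, pow_two]
    ext i j
    fin_cases i <;> fin_cases j <;>
      simp [Matrix.mul_apply, Fin.sum_univ_three, g1, g2, g3, g4, g5, g6]
  have hNp : ((g : Matrix (Fin 3) (Fin 3) (ZMod p)) - 1) ^ p = 0 := pow_eq_zero_of_le hp3 hN3
  have h1 : (g : Matrix (Fin 3) (Fin 3) (ZMod p)) ^ p = 1 := by
    have h2 : (g : Matrix (Fin 3) (Fin 3) (ZMod p)) =
        ((g : Matrix (Fin 3) (Fin 3) (ZMod p)) - 1) + 1 := by abel
    rw [h2, add_pow_char_of_commute _ (Commute.one_right _), hNp, one_pow, zero_add]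
  apply Subtype.ext
  rw [Matrix.SpecialLinearGroup.coe_pow, h1]
  rfl

/-- the unitriangular subgroup -/
def UT (p : ℕ) [Fact p.Prime] (hp : p ≠ 2) :
    Subgroup (Matrix.SpecialLinearGroup (Fin 3) (ZMod p)) where
  carrier := {g | IsUT g}
  mul_mem' := fun {a b} ha hb => IsUT_mul a b ha hb
  one_mem' := IsUT_one
  inv_mem' := fun {g} hg => by
    have h1 := IsUT_pow_p hp g hg
    have h2 : g ^ (p - 1) = g⁻¹ := by
      apply eq_inv_of_mul_eq_one_left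
      rw [← pow_succ, Nat.sub_add_cancel (Fact.out : p.Prime).one_le, h1]
    show IsUT g⁻¹
    rw [← h2]
    exact IsUT_pow g hg _

theorem UT_isPGroup (p : ℕ) [Fact p.Prime] (hp : p ≠ 2) : IsPGroup p (UT p hp) := by
  intro g
  refine ⟨1, ?_⟩
  apply Subtype.ext
  rw [pow_one]
  simp only [Subgroup.coe_pow, Subgroup.coe_one]
  exact IsUT_pow_p hp g.1 g.2

def xq (p : ℕ) : Matrix.SpecialLinearGroup (Fin 3) (ZMod p) :=
  ⟨!![1, 1, 0; 0, 1, 0; 0, 0, 1], by simp [Matrix.det_fin_three]⟩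

def yq (p : ℕ) : Matrix.SpecialLinearGroup (Fin 3) (ZMod p) :=
  ⟨!![1, 0, 0; 0, 1, 1; 0, 0, 1], by simp [Matrix.det_fin_three]⟩

theorem xq_val (p : ℕ) : ((xq p : Matrix.SpecialLinearGroup (Fin 3) (ZMod p)) :
    Matrix (Fin 3) (Fin 3) (ZMod p)) = !![1, 1, 0; 0, 1, 0; 0, 0, 1] := rfl

theorem yq_val (p : ℕ) : ((yq p : Matrix.SpecialLinearGroup (Fin 3) (ZMod p)) :
    Matrix (Fin 3) (Fin 3) (ZMod p)) = !![1, 0, 0; 0, 1, 1; 0, 0, 1] := rfl

theorem qd_not_PAb {p : ℕ} [Fact p.Prime] (hp : p ≠ 2) : ¬ PAb p ↥(Cfsg.qd p) := by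
  intro h
  have hx : xq p ∈ Cfsg.qd p := Subgroup.subset_closure (by simp [xq_val])
  have hy : yq p ∈ Cfsg.qd p := Subgroup.subset_closure (by simp [yq_val])
  have hxU : xq p ∈ UT p hp := by
    show IsUT (xq p)
    refine ⟨?_, ?_, ?_, ?_, ?_, ?_⟩ <;> simp [xq_val]
  have hyU : yq p ∈ UT p hp := by
    show IsUT (yq p)
    refine ⟨?_, ?_, ?_, ?_, ?_, ?_⟩ <;> simp [yq_val]
  have h1 := h ((UT p hp).subgroupOf (Cfsg.qd p)) (UT_isPGroup p hp).comap_subtype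
    ⟨xq p, hx⟩ (by rw [Subgroup.mem_subgroupOf]; exact hxU)
    ⟨yq p, hy⟩ (by rw [Subgroup.mem_subgroupOf]; exact hyU)
  have h2 : xq p * yq p = yq p * xq p := congrArg Subtype.val h1
  have h3 := congrArg (fun g : Matrix.SpecialLinearGroup (Fin 3) (ZMod p) =>
    (g : Matrix (Fin 3) (Fin 3) (ZMod p)) 0 2) h2
  simp [Matrix.SpecialLinearGroup.coe_mul, xq_val, yq_val, Matrix.mul_apply, Fin.sum_univ_three] at h3

theorem result {p : ℕ} [Fact p.Prime] (hp : p ≠ 2) {K : Type*} [Field K] [Fintype K] [CharP K p] : ¬ Cfsg.Involves ↥(Cfsg.qd p) (Matrix.ProjectiveSpecialLinearGroup (Fin 2) K) := by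
  classical
  rintro ⟨K₁, R, hn, ⟨e⟩⟩
  have := hn
  have h1 : PAb p (Matrix.SpecialLinearGroup (Fin 2) K) := PAb_SL2
  have h2 : PAb p (Matrix.ProjectiveSpecialLinearGroup (Fin 2) K) :=
    PAb_quotient h1 (Subgroup.center _)
  have h3 : PAb p K₁ := PAb_subgroup h2 K₁
  have h4 : PAb p (K₁ ⧸ R.subgroupOf K₁) := PAb_quotient h3 _
  have h5 : PAb p (Cfsg.qd p) := PAb_equiv e h4
  exact qd_not_PAb hp h5

end Cfsg.Agent.S2231
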