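import Cfsg.Statements.S2268

set_option autoImplicit false
open Cfsg

namespace Cfsg.Agent.S2268

theorem result {G : Type*} [Group G] [Finite G] {p : ℕ} [Fact p.Prime]
    (P : Sylow p G) (hP : IsMulCommutative (P : Subgroup G)) (Q : Subgroup G) (hQ : Q ≤ (P : Subgroup G)) :
    Subgroup.normalizer (Q : Set G) =
      (Subgroup.normalizer (Q : Set G) ⊓ Subgroup.normalizer ((P : Subgroup G) : Set G)) ⊔ Subgroup.centralizer (Q : Set G) ∧
    ((Subgroup.centralizer (Q : Set G)).subgroupOf (Subgroup.normalizer (Q : Set G))).index ∣ ((Subgroup.centralizer ((P : Subgroup G) : Set G)).subgroupOf (Subgroup.normalizer ((P : Subgroup G) : Set G))).index := by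
  classical
  -- basic inclusions
  have hCQN : Subgroup.centralizer (Q : Set G) ≤ Subgroup.normalizer (Q : Set G) := by
    intro g hg
    rw [Subgroup.mem_normalizer_iff]
    intro h
    constructor
    · intro hh
      have : g * h * g⁻¹ = h := by
        have := hg h hh
        rw [← this, mul_inv_cancel_right]
      rw [this]; exact hh
    · intro hh
      have h1 := hg (g * h * g⁻¹) hh
      have : h = g * h * g⁻¹ := by
        have h2 : g * h * g⁻¹ * g = g * (g * h * g⁻¹) := h1
        have h3 : g * h = g * (g * h * g⁻¹) := by simpa using h2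
        exact mul_left_cancel h3
      rw [this]; exact hh
  have hPCQ : (P : Subgroup G) ≤ Subgroup.centralizer (Q : Set G) := by
    intro g hg h hh
    have := hP.is_comm.comm (⟨h, hQ hh⟩ : (P : Subgroup G)) ⟨g, hg⟩
    exact congrArg Subtype.val this
  have hCPCQ : Subgroup.centralizer ((P : Subgroup G) : Set G) ≤ Subgroup.centralizer (Q : Set G) :=
    Subgroup.centralizer_le hQ
  have hCPNP : Subgroup.centralizer ((P : Subgroup G) : Set G) ≤ Subgroup.normalizer ((P : Subgroup G) : Set G) := by
    intro g hg
    rw [Subgroup.mem_normalizer_iff]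
    intro h
    constructor
    · intro hh
      have : g * h * g⁻¹ = h := by
        have := hg h hh
        rw [← this, mul_inv_cancel_right]
      rw [this]; exact hh
    · intro hh
      have h1 := hg (g * h * g⁻¹) hh
      have : h = g * h * g⁻¹ := by
        have h2 : g * h * g⁻¹ * g = g * (g * h * g⁻¹) := h1
        have h3 : g * h = g * (g * h * g⁻¹) := by simpa using h2
        exact mul_left_cancel h3
      rw [this]; exact hh
  have hPN : (P : Subgroup G) ≤ Subgroup.normalizer (Q : Set G) := hPCQ.trans hCQN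
  -- normality of C(Q) in N(Q)
  haveI hnorm : ((Subgroup.centralizer (Q : Set G)).subgroupOf (Subgroup.normalizer (Q : Set G))).Normal := by
    constructor
    intro c hc n
    rw [Subgroup.mem_subgroupOf] at hc ⊢
    intro h hh
    have hn := (Subgroup.mem_normalizer_iff.mp n.2)
    -- n⁻¹ h n ∈ Q
    have h1 : (n : G)⁻¹ * h * (n : G) ∈ Q := by
      have := (hn ((n : G)⁻¹ * h * (n : G)))
      rw [this]
      simpa [mul_assoc] using hh
    have h2 := hc _ h1
    simp only [Subgroup.coe_mul, Subgroup.coe_inv]
    have h3 : (n : G)⁻¹ * h * (n : G) * (c : G) = (c : G) * ((n : G)⁻¹ * h * (n : G)) := h2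
    calc h * ((n : G) * (c : G) * (n : G)⁻¹)
        = (n : G) * ((n : G)⁻¹ * h * (n : G) * (c : G)) * (n : G)⁻¹ := by group
      _ = (n : G) * ((c : G) * ((n : G)⁻¹ * h * (n : G))) * (n : G)⁻¹ := by rw [h3]
      _ = (n : G) * (c : G) * (n : G)⁻¹ * h := by group
  -- Frattini
  have hms : ∀ x : ↥(Subgroup.normalizer (Q : Set G)),
      x ∈ ((P.subtype hPN : Sylow p _) : Subgroup _) ↔ (x : G) ∈ (P : Subgroup G) := by
    intro x
    rw [Sylow.coe_subtype, Subgroup.mem_subgroupOf]
  have hfr := Sylow.normalizer_sup_eq_top' (N := (Subgroup.centralizer (Q : Set G)).subgroupOf (Subgroup.normalizer (Q : Set G)))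
    (P.subtype hPN) (by
      intro x hx
      rw [hms] at hx
      rw [Subgroup.mem_subgroupOf]
      exact hPCQ hx)
  have key : Subgroup.normalizer (Q : Set G) =
      (Subgroup.normalizer (Q : Set G) ⊓ Subgroup.normalizer ((P : Subgroup G) : Set G)) ⊔ Subgroup.centralizer (Q : Set G) := by
    apply le_antisymm
    · intro n hn
      have hmem : (⟨n, hn⟩ : Subgroup.normalizer (Q : Set G)) ∈ (⊤ : Subgroup (Subgroup.normalizer (Q : Set G))) := trivial
      rw [← hfr, ← SetLike.mem_coe, Subgroup.mul_normal] at hmem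
      obtain ⟨y, hy, z, hz, hyz⟩ := hmem
      have hyz' : (y : G) * (z : G) = n := congrArg Subtype.val hyz
      rw [← hyz']
      apply Subgroup.mul_mem
      · apply Subgroup.mem_sup_left
        refine ⟨y.2, ?_⟩
        have hy' := Subgroup.mem_set_normalizer_iff.mp hy
        show (y : G) ∈ Subgroup.normalizer ((P : Subgroup G) : Set G)
        rw [Subgroup.mem_set_normalizer_iff]
        intro g
        constructor
        · intro hg
          have h1 : (⟨g, hPN hg⟩ : ↥(Subgroup.normalizer (Q : Set G))) ∈ ((P.subtype hPN : Sylow p _) : Subgroup _) :=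
            (hms _).mpr hg
          have h2 := (hms _).mp ((hy' ⟨g, hPN hg⟩).mp h1)
          exact h2
        · intro hg
          have hgN : g ∈ Subgroup.normalizer (Q : Set G) := by
            have h1 : (y : G) * g * (y : G)⁻¹ ∈ Subgroup.normalizer (Q : Set G) := hPN hg
            have h2 := Subgroup.mul_mem _ (Subgroup.mul_mem _ (Subgroup.inv_mem _ y.2) h1) y.2
            simpa [mul_assoc] using h2
          have h1 : y * (⟨g, hgN⟩ : ↥(Subgroup.normalizer (Q : Set G))) * y⁻¹ ∈ ((P.subtype hPN : Sylow p _) : Subgroup _) :=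
            (hms _).mpr hg
          exact (hms _).mp ((hy' ⟨g, hgN⟩).mpr h1)
      · apply Subgroup.mem_sup_right
        exact Subgroup.mem_subgroupOf.mp hz
    · exact sup_le inf_le_left hCQN
  refine ⟨key, ?_⟩
  have hMN : Subgroup.normalizer (Q : Set G) ⊓ Subgroup.normalizer ((P : Subgroup G) : Set G) ≤ Subgroup.normalizer (Q : Set G) := inf_le_left
  have htop : (Subgroup.normalizer (Q : Set G) ⊓ Subgroup.normalizer ((P : Subgroup G) : Set G)).subgroupOf (Subgroup.normalizer (Q : Set G)) ⊔
      (Subgroup.centralizer (Q : Set G)).subgroupOf (Subgroup.normalizer (Q : Set G)) = ⊤ := by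
    rw [← Subgroup.subgroupOf_sup hMN hCQN, ← key, Subgroup.subgroupOf_self]
  have e1 : ((Subgroup.centralizer (Q : Set G)).subgroupOf (Subgroup.normalizer (Q : Set G))).index =
      (Subgroup.centralizer (Q : Set G)).relIndex (Subgroup.normalizer (Q : Set G) ⊓ Subgroup.normalizer ((P : Subgroup G) : Set G)) := by
    rw [← Subgroup.relIndex_top_right, ← htop, Subgroup.relIndex_sup_right, Subgroup.relIndex_subgroupOf hMN]
  rw [e1]
  have e2 : (Subgroup.centralizer (Q : Set G)).relIndex (Subgroup.normalizer (Q : Set G) ⊓ Subgroup.normalizer ((P : Subgroup G) : Set G)) ∣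
      (Subgroup.centralizer ((P : Subgroup G) : Set G)).relIndex (Subgroup.normalizer (Q : Set G) ⊓ Subgroup.normalizer ((P : Subgroup G) : Set G)) :=
    Subgroup.relIndex_dvd_of_le_left _ hCPCQ
  have e3 : (Subgroup.centralizer ((P : Subgroup G) : Set G)).relIndex (Subgroup.normalizer (Q : Set G) ⊓ Subgroup.normalizer ((P : Subgroup G) : Set G)) ∣
      (Subgroup.centralizer ((P : Subgroup G) : Set G)).relIndex (Subgroup.normalizer ((P : Subgroup G) : Set G)) := by
    rw [← Subgroup.relIndex_mul_relIndex (H := Subgroup.centralizer ((P : Subgroup G) : Set G))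
      (K := Subgroup.normalizer (Q : Set G) ⊓ Subgroup.normalizer ((P : Subgroup G) : Set G))
      (L := Subgroup.normalizer ((P : Subgroup G) : Set G)) (le_inf (hCPCQ.trans hCQN) hCPNP) inf_le_right]
    exact dvd_mul_right _ _
  exact e2.trans e3

end Cfsg.Agent.S2268
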