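import Cfsg.Statements.S2270
import Mathlib

set_option autoImplicit false
open Cfsg

namespace Cfsg.Agent.S2270

theorem centralizer_normal_in_normalizer {G : Type*} [Group G] (Q : Subgroup G) :
    ((Subgroup.centralizer (Q : Set G)).subgroupOf (Subgroup.normalizer (Q : Set G))).Normal := by
  constructor
  intro c hc n
  rw [Subgroup.mem_subgroupOf] at hc ⊢
  intro h hh
  have hn := (Subgroup.mem_normalizer_iff.mp n.2)
  have h1 : (n : G)⁻¹ * h * (n : G) ∈ Q := by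
    have := (hn ((n : G)⁻¹ * h * (n : G)))
    rw [this]
    simpa [mul_assoc] using hh
  have h2 := hc _ h1
  simp only [Subgroup.coe_mul, Subgroup.coe_inv]
  have h3 : (n : G)⁻¹ * h * (n : G) * (c : G) = (c : G) * ((n : G)⁻¹ * h * (n : G)) := h2
  calc h * ((n : G) * (c : G) * (n : G)⁻¹)
      = (n : G) * ((n : G)⁻¹ * h * (n : G) * (c : G)) * (n : G)⁻¹ := by group
    _ = (n : G) * ((c : G) * ((n : G)⁻¹ * h * (n : G))) * (n : G)⁻¹ := by rw [h3]
    _ = (n : G) * (c : G) * (n : G)⁻¹ * h := by group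

theorem result (n : ℕ) (hn : 3 ≤ n) {p : ℕ} [Fact p.Prime] (hp : p ≠ 2) (hpn : p ≤ n)
    (P : Sylow p (Equiv.Perm (Fin n))) (hP : IsMulCommutative (P : Subgroup (Equiv.Perm (Fin n)))) :
    2 ∣ ((Subgroup.centralizer ((P : Subgroup (Equiv.Perm (Fin n))) : Set (Equiv.Perm (Fin n)))).subgroupOf (Subgroup.normalizer ((P : Subgroup (Equiv.Perm (Fin n))) : Set (Equiv.Perm (Fin n))))).index := by
  classical
  have hp' : p.Prime := Fact.out
  have hdvd : p ∣ Nat.card (Equiv.Perm (Fin n)) := by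
    rw [Nat.card_eq_fintype_card, Fintype.card_perm, Fintype.card_fin]
    exact Nat.dvd_factorial hp'.pos hpn
  have hdvdP : p ∣ Nat.card (P : Subgroup (Equiv.Perm (Fin n))) := P.dvd_card_of_dvd_card hdvd
  obtain ⟨x0, hx0⟩ := exists_prime_orderOf_dvd_card' p hdvdP
  have hxP : (x0 : Equiv.Perm (Fin n)) ∈ (P : Subgroup (Equiv.Perm (Fin n))) := x0.2
  have hxo : orderOf (x0 : Equiv.Perm (Fin n)) = p := by rw [Subgroup.orderOf_coe]; exact hx0
  generalize (x0 : Equiv.Perm (Fin n)) = x at hxP hxo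
  have hconj : IsConj x x⁻¹ := Equiv.Perm.isConj_iff_cycleType_eq.mpr (Equiv.Perm.cycleType_inv x).symm
  obtain ⟨c, hc⟩ := isConj_iff.mp hconj
  have hy : (c⁻¹)⁻¹ * x * c⁻¹ ∈ (P : Subgroup (Equiv.Perm (Fin n))) := by
    rw [inv_inv, hc]
    exact Subgroup.inv_mem _ hxP
  haveI : IsMulCommutative (P : Subgroup (Equiv.Perm (Fin n))) := hP
  obtain ⟨m, hm, hmx⟩ := Sylow.conj_eq_normalizer_conj_of_mem P x c⁻¹ hxP hy
  rw [inv_inv, hc] at hmx
  -- hmx : x⁻¹ = m⁻¹ * x * m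
  have hxne : x⁻¹ ≠ x := by
    intro h
    have h2 : x ^ 2 = 1 := by
      rw [pow_two]
      calc x * x = x⁻¹ * x := by rw [h]
        _ = 1 := inv_mul_cancel x
    have := orderOf_dvd_of_pow_eq_one h2
    rw [hxo] at this
    exact hp ((Nat.prime_dvd_prime_iff_eq hp' Nat.prime_two).mp this)
  have hcomm2 : Commute (m ^ 2) x := by
    have h1 : m⁻¹ * x⁻¹ * m = x := by
      have : (m⁻¹ * x * m)⁻¹ = m⁻¹ * x⁻¹ * m := by group
      rw [← this, ← hmx, inv_inv]
    show m ^ 2 * x = x * m ^ 2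
    have h2 : m⁻¹ * (m⁻¹ * x * m) * m = x := by rw [← hmx]; exact h1
    rw [pow_two]
    calc m * m * x = m * m * (m⁻¹ * (m⁻¹ * x * m) * m) := by rw [h2]
      _ = x * (m * m) := by group
  have hodd : ∀ i : ℕ, ¬ Commute (m ^ (2 * i + 1)) x := by
    intro i hcomm
    have h1 : Commute ((m ^ 2) ^ i) x := hcomm2.pow_left i
    have h2 : (m ^ 2) ^ i * (m * x) = (m ^ 2) ^ i * (x * m) := by
      have e : m ^ (2 * i + 1) = (m ^ 2) ^ i * m := by rw [pow_succ, pow_mul]
      rw [e] at hcomm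
      calc (m ^ 2) ^ i * (m * x) = ((m ^ 2) ^ i * m) * x := by group
        _ = x * ((m ^ 2) ^ i * m) := hcomm.eq
        _ = (x * (m ^ 2) ^ i) * m := by group
        _ = ((m ^ 2) ^ i * x) * m := by rw [h1.eq]
        _ = (m ^ 2) ^ i * (x * m) := by group
    have h3 : m * x = x * m := mul_left_cancel h2
    apply hxne
    rw [hmx, mul_assoc, ← h3, inv_mul_cancel_left]
  haveI := centralizer_normal_in_normalizer (P : Subgroup (Equiv.Perm (Fin n)))
  have hq := orderOf_dvd_natCard (QuotientGroup.mk (⟨m, hm⟩ : ↥(Subgroup.normalizer ((P : Subgroup (Equiv.Perm (Fin n))) : Set (Equiv.Perm (Fin n))))) :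
    ↥(Subgroup.normalizer ((P : Subgroup (Equiv.Perm (Fin n))) : Set (Equiv.Perm (Fin n)))) ⧸
      (Subgroup.centralizer ((P : Subgroup (Equiv.Perm (Fin n))) : Set (Equiv.Perm (Fin n)))).subgroupOf
        (Subgroup.normalizer ((P : Subgroup (Equiv.Perm (Fin n))) : Set (Equiv.Perm (Fin n)))))
  refine Dvd.dvd.trans ?_ hq
  have hpow := pow_orderOf_eq_one (QuotientGroup.mk (⟨m, hm⟩ : ↥(Subgroup.normalizer ((P : Subgroup (Equiv.Perm (Fin n))) : Set (Equiv.Perm (Fin n))))) :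
    ↥(Subgroup.normalizer ((P : Subgroup (Equiv.Perm (Fin n))) : Set (Equiv.Perm (Fin n)))) ⧸
      (Subgroup.centralizer ((P : Subgroup (Equiv.Perm (Fin n))) : Set (Equiv.Perm (Fin n)))).subgroupOf
        (Subgroup.normalizer ((P : Subgroup (Equiv.Perm (Fin n))) : Set (Equiv.Perm (Fin n)))))
  generalize orderOf (QuotientGroup.mk (⟨m, hm⟩ : ↥(Subgroup.normalizer ((P : Subgroup (Equiv.Perm (Fin n))) : Set (Equiv.Perm (Fin n))))) :
    ↥(Subgroup.normalizer ((P : Subgroup (Equiv.Perm (Fin n))) : Set (Equiv.Perm (Fin n)))) ⧸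
      (Subgroup.centralizer ((P : Subgroup (Equiv.Perm (Fin n))) : Set (Equiv.Perm (Fin n)))).subgroupOf
        (Subgroup.normalizer ((P : Subgroup (Equiv.Perm (Fin n))) : Set (Equiv.Perm (Fin n))))) = j at hpow ⊢
  rw [← QuotientGroup.mk_pow, QuotientGroup.eq_one_iff, Subgroup.mem_subgroupOf] at hpow
  have hcj : Commute (m ^ j) x := by
    have := hpow x hxP
    exact this.symm
  by_contra hnd
  have hjodd : Odd j := Nat.not_even_iff_odd.mp (fun h => hnd (even_iff_two_dvd.mp h))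
  obtain ⟨i, rfl⟩ := hjodd
  exact hodd i hcj

end Cfsg.Agent.S2270
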