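import Cfsg.Statements.S2331
import Mathlib

set_option autoImplicit false
open Cfsg

namespace Cfsg.Agent.S2331

open Matrix

theorem card_class_mul_card_centralizer {G : Type*} [Group G] [Finite G] (g : G) :
    Nat.card (ConjClasses.mk g).carrier * Nat.card (Subgroup.centralizer ({g} : Set G)) =
      Nat.card G := by
  classical
  have := Fintype.ofFinite G
  rw [Subgroup.nat_card_centralizer_nat_card_stabilizer, ← ConjAct.orbit_eq_carrier_conjClasses]
  have h := MulAction.card_orbit_mul_card_stabilizer_eq_card_group (ConjAct G) g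
  simp only [← Nat.card_eq_fintype_card] at h
  exact h

theorem card_SL2 {F : Type*} [Field F] [Fintype F] :
    Nat.card (Matrix.SpecialLinearGroup (Fin 2) F) =
      Fintype.card F * (Fintype.card F ^ 2 - 1) := by
  classical
  have hGL := Matrix.card_GL_field (𝔽 := F) 2
  rw [Fin.prod_univ_two] at hGL
  simp only [Fin.val_zero, Fin.val_one, pow_zero, pow_one] at hGL
  have hsurj : Function.Surjective (Matrix.GeneralLinearGroup.det : GL (Fin 2) F →* Fˣ) := by
    intro a
    refine ⟨Matrix.GeneralLinearGroup.mkOfDetNeZero !![(a : F), 0; 0, 1]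
      (by simp [Matrix.det_fin_two_of]), ?_⟩
    apply Units.ext
    simp [Matrix.GeneralLinearGroup.mkOfDetNeZero, Matrix.det_fin_two_of]
  have hker : Nat.card (Matrix.GeneralLinearGroup.det : GL (Fin 2) F →* Fˣ).ker =
      Nat.card (Matrix.SpecialLinearGroup (Fin 2) F) := by
    symm
    apply Nat.card_congr
    refine Equiv.ofBijective (fun g => ⟨Matrix.SpecialLinearGroup.toGL g, ?_⟩) ⟨?_, ?_⟩
    · rw [MonoidHom.mem_ker]
      apply Units.ext
      simp
    · intro g h hgh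
      exact Matrix.SpecialLinearGroup.toGL_injective (congrArg Subtype.val hgh)
    · rintro ⟨x, hx⟩
      rw [MonoidHom.mem_ker] at hx
      have hx' : (x : Matrix (Fin 2) (Fin 2) F).det = 1 := by
        have := congrArg Units.val hx
        simpa using this
      refine ⟨⟨(x : Matrix (Fin 2) (Fin 2) F), hx'⟩, ?_⟩
      apply Subtype.ext
      apply Units.ext
      rfl
  have h1 := Subgroup.card_eq_card_quotient_mul_card_subgroup
    (Matrix.GeneralLinearGroup.det : GL (Fin 2) F →* Fˣ).ker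
  have h2 : Nat.card (GL (Fin 2) F ⧸ (Matrix.GeneralLinearGroup.det : GL (Fin 2) F →* Fˣ).ker) =
      Nat.card Fˣ := Nat.card_congr (QuotientGroup.quotientKerEquivOfSurjective _ hsurj).toEquiv
  rw [h2, hker, Nat.card_units, Nat.card_eq_fintype_card (α := F), hGL] at h1
  have hq : 1 < Fintype.card F := Fintype.one_lt_card
  have e : Fintype.card F ^ 2 - Fintype.card F = (Fintype.card F - 1) * Fintype.card F := by
    rw [Nat.sub_mul, one_mul, sq]
  rw [e] at h1
  have h3 : (Fintype.card F - 1) * Nat.card (Matrix.SpecialLinearGroup (Fin 2) F) =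
      (Fintype.card F - 1) * (Fintype.card F * (Fintype.card F ^ 2 - 1)) := by
    rw [← h1]; ring
  exact Nat.eq_of_mul_eq_mul_left (by omega) h3

/-- the upper unitriangular element -/
def uu {F : Type*} [Field F] (b : F) : Matrix.SpecialLinearGroup (Fin 2) F :=
  ⟨!![1, b; 0, 1], by simp [Matrix.det_fin_two_of]⟩

theorem uu_val {F : Type*} [Field F] (b : F) :
    ((uu b : Matrix.SpecialLinearGroup (Fin 2) F) : Matrix (Fin 2) (Fin 2) F) = !![1, b; 0, 1] := rfl

theorem sl2_conj_iff {F : Type*} [Field F] (g h : Matrix.SpecialLinearGroup (Fin 2) F) :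
    IsConj g h ↔ ∃ x : Matrix.SpecialLinearGroup (Fin 2) F, x * g = h * x := by
  rw [isConj_iff]
  constructor
  · rintro ⟨x, hx⟩
    exact ⟨x, mul_inv_eq_iff_eq_mul.1 hx⟩
  · rintro ⟨x, hx⟩
    exact ⟨x, mul_inv_eq_iff_eq_mul.2 hx⟩

theorem sl2_det {F : Type*} [Field F] (x : Matrix.SpecialLinearGroup (Fin 2) F) :
    (x : Matrix (Fin 2) (Fin 2) F) 0 0 * (x : Matrix (Fin 2) (Fin 2) F) 1 1 -
      (x : Matrix (Fin 2) (Fin 2) F) 0 1 * (x : Matrix (Fin 2) (Fin 2) F) 1 0 = 1 := by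
  have h := x.2
  rw [Matrix.det_fin_two] at h
  exact h

theorem sl2_ext {F : Type*} [Field F] (g h : Matrix.SpecialLinearGroup (Fin 2) F)
    (h00 : (g : Matrix (Fin 2) (Fin 2) F) 0 0 = (h : Matrix (Fin 2) (Fin 2) F) 0 0)
    (h01 : (g : Matrix (Fin 2) (Fin 2) F) 0 1 = (h : Matrix (Fin 2) (Fin 2) F) 0 1)
    (h10 : (g : Matrix (Fin 2) (Fin 2) F) 1 0 = (h : Matrix (Fin 2) (Fin 2) F) 1 0)
    (h11 : (g : Matrix (Fin 2) (Fin 2) F) 1 1 = (h : Matrix (Fin 2) (Fin 2) F) 1 1) : g = h := by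
  apply Subtype.ext
  ext i j
  fin_cases i <;> fin_cases j <;> assumption

theorem uu_conj {F : Type*} [Field F] (b b' : F) (hb : b ≠ 0) (hb' : b' ≠ 0) :
    IsConj (uu b) (uu b') ↔ IsSquare (b * b') := by
  rw [sl2_conj_iff]
  constructor
  · rintro ⟨x, hx⟩
    have hd := sl2_det x
    have e00 := congrArg (fun m : Matrix.SpecialLinearGroup (Fin 2) F =>
      (m : Matrix (Fin 2) (Fin 2) F) 0 0) hx
    have e01 := congrArg (fun m : Matrix.SpecialLinearGroup (Fin 2) F =>
      (m : Matrix (Fin 2) (Fin 2) F) 0 1) hx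
    simp [uu_val, Matrix.SpecialLinearGroup.coe_mul, Matrix.mul_apply, Fin.sum_univ_two] at e00 e01
    rcases e00 with e00 | e00
    · exact absurd e00 hb'
    · rw [e00, mul_zero, sub_zero] at hd
      refine ⟨(x : Matrix (Fin 2) (Fin 2) F) 0 0 * b, ?_⟩
      linear_combination (-b * b') * hd - (b * (x : Matrix (Fin 2) (Fin 2) F) 0 0) * e01
  · rintro ⟨s, hs⟩
    have hs0 : s ≠ 0 := by
      rintro rfl
      simp at hs
      rcases hs with h | h
      · exact hb h
      · exact hb' h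
    obtain ⟨x, hx⟩ : ∃ x : Matrix.SpecialLinearGroup (Fin 2) F,
        (x : Matrix (Fin 2) (Fin 2) F) = !![s / b, 0; 0, b / s] :=
      ⟨⟨_, by rw [Matrix.det_fin_two_of]; field_simp; ring⟩, rfl⟩
    refine ⟨x, ?_⟩
    apply sl2_ext <;> simp [uu_val, hx, Matrix.SpecialLinearGroup.coe_mul, Matrix.mul_apply, Fin.sum_univ_two]
    field_simp
    linear_combination -hs

theorem trace2_conj {F : Type*} [Field F] (g : Matrix.SpecialLinearGroup (Fin 2) F)
    (htr : (g : Matrix (Fin 2) (Fin 2) F) 0 0 + (g : Matrix (Fin 2) (Fin 2) F) 1 1 = 2)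
    (hne : g ≠ 1) : ∃ b : F, b ≠ 0 ∧ IsConj (uu b) g := by
  have hd := sl2_det g
  by_cases hc : (g : Matrix (Fin 2) (Fin 2) F) 1 0 = 0
  · rw [hc, mul_zero, sub_zero] at hd
    have ha : (g : Matrix (Fin 2) (Fin 2) F) 0 0 = 1 := by
      have : ((g : Matrix (Fin 2) (Fin 2) F) 0 0 - 1) * ((g : Matrix (Fin 2) (Fin 2) F) 0 0 - 1) = 0 := by
        linear_combination (g : Matrix (Fin 2) (Fin 2) F) 0 0 * htr - hd
      exact sub_eq_zero.1 (mul_self_eq_zero.1 this)
    have hdd : (g : Matrix (Fin 2) (Fin 2) F) 1 1 = 1 := by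
      rw [ha] at htr
      linear_combination htr
    have hgu : g = uu ((g : Matrix (Fin 2) (Fin 2) F) 0 1) := by
      apply sl2_ext <;> simp [uu_val, ha, hc, hdd]
    refine ⟨(g : Matrix (Fin 2) (Fin 2) F) 0 1, ?_, ?_⟩
    · intro h0
      apply hne
      rw [hgu, h0]
      apply sl2_ext <;> simp [uu_val]
    · rw [← hgu]
  · obtain ⟨x, hx⟩ : ∃ x : Matrix.SpecialLinearGroup (Fin 2) F,
        (x : Matrix (Fin 2) (Fin 2) F) = !![(g : Matrix (Fin 2) (Fin 2) F) 0 0 - 1,
          -((g : Matrix (Fin 2) (Fin 2) F) 1 0)⁻¹; (g : Matrix (Fin 2) (Fin 2) F) 1 0, 0] :=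
      ⟨⟨_, by rw [Matrix.det_fin_two_of]; field_simp; ring⟩, rfl⟩
    refine ⟨-((g : Matrix (Fin 2) (Fin 2) F) 1 0)⁻¹, by simpa using hc, ?_⟩
    rw [sl2_conj_iff]
    refine ⟨x, ?_⟩
    apply sl2_ext <;> simp [uu_val, hx, Matrix.SpecialLinearGroup.coe_mul, Matrix.mul_apply, Fin.sum_univ_two]
    · linear_combination -(g : Matrix (Fin 2) (Fin 2) F) 0 0 * htr + hd
    · field_simp
      ring
    · linear_combination -(g : Matrix (Fin 2) (Fin 2) F) 1 0 * htr

/-- the companion matrix of trace `t` -/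
def comp {F : Type*} [Field F] (t : F) : Matrix.SpecialLinearGroup (Fin 2) F :=
  ⟨!![0, -1; 1, t], by simp [Matrix.det_fin_two_of]⟩

theorem comp_val {F : Type*} [Field F] (t : F) :
    ((comp t : Matrix.SpecialLinearGroup (Fin 2) F) : Matrix (Fin 2) (Fin 2) F) = !![0, -1; 1, t] := rfl

def tr2 {F : Type*} [Field F] (g : Matrix.SpecialLinearGroup (Fin 2) F) : F :=
  (g : Matrix (Fin 2) (Fin 2) F) 0 0 + (g : Matrix (Fin 2) (Fin 2) F) 1 1

theorem tr2_conj {F : Type*} [Field F] (g h : Matrix.SpecialLinearGroup (Fin 2) F)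
    (hc : IsConj g h) : tr2 g = tr2 h := by
  obtain ⟨x, hx⟩ := isConj_iff.1 hc
  have h1 : (h : Matrix (Fin 2) (Fin 2) F) =
      (x : Matrix (Fin 2) (Fin 2) F) * ((g : Matrix (Fin 2) (Fin 2) F) *
        ((x⁻¹ : Matrix.SpecialLinearGroup (Fin 2) F) : Matrix (Fin 2) (Fin 2) F)) := by
    rw [← hx, Matrix.SpecialLinearGroup.coe_mul, Matrix.SpecialLinearGroup.coe_mul, mul_assoc]
  have h2 : (g : Matrix (Fin 2) (Fin 2) F) =
      ((g : Matrix (Fin 2) (Fin 2) F) *
        ((x⁻¹ : Matrix.SpecialLinearGroup (Fin 2) F) : Matrix (Fin 2) (Fin 2) F)) *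
        (x : Matrix (Fin 2) (Fin 2) F) := by
    rw [mul_assoc, ← Matrix.SpecialLinearGroup.coe_mul, inv_mul_cancel,
      Matrix.SpecialLinearGroup.coe_one, mul_one]
  have h3 : (g : Matrix (Fin 2) (Fin 2) F).trace = (h : Matrix (Fin 2) (Fin 2) F).trace := by
    rw [h1, Matrix.trace_mul_comm, ← h2]
  rw [Matrix.trace_fin_two, Matrix.trace_fin_two] at h3
  exact h3

theorem tr2_uu {F : Type*} [Field F] (b : F) : tr2 (uu b) = 2 := by
  simp [tr2, uu_val]
  norm_num

theorem uu_eq_one_iff {F : Type*} [Field F] (b : F) :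
    uu b = (1 : Matrix.SpecialLinearGroup (Fin 2) F) ↔ b = 0 := by
  constructor
  · intro h
    have := congrArg (fun m : Matrix.SpecialLinearGroup (Fin 2) F =>
      (m : Matrix (Fin 2) (Fin 2) F) 0 1) h
    simpa [uu_val] using this
  · rintro rfl
    apply sl2_ext <;> simp [uu_val]

theorem tr2_comp {F : Type*} [Field F] (t : F) : tr2 (comp t) = t := by
  simp [tr2, comp_val]

theorem comp_conj2 {F : Type*} [Field F] [Fintype F] [CharP F 2]
    (g : Matrix.SpecialLinearGroup (Fin 2) F) (ht : tr2 g ≠ 0) :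
    IsConj (comp (tr2 g)) g := by
  have hd := sl2_det g
  have hneg : ∀ a : F, -a = a := fun a => CharTwo.neg_eq a
  have hform : ∃ v1 v2 : F, (g : Matrix (Fin 2) (Fin 2) F) 1 0 * v1 ^ 2 +
      ((g : Matrix (Fin 2) (Fin 2) F) 1 1 - (g : Matrix (Fin 2) (Fin 2) F) 0 0) * v1 * v2 +
      (-(g : Matrix (Fin 2) (Fin 2) F) 0 1) * v2 ^ 2 = 1 := by
    by_cases hA : (g : Matrix (Fin 2) (Fin 2) F) 1 0 = 0
    · have hB : (g : Matrix (Fin 2) (Fin 2) F) 1 1 - (g : Matrix (Fin 2) (Fin 2) F) 0 0 ≠ 0 := by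
        intro h
        apply ht
        unfold tr2
        have : (g : Matrix (Fin 2) (Fin 2) F) 0 0 + (g : Matrix (Fin 2) (Fin 2) F) 1 1 =
            (g : Matrix (Fin 2) (Fin 2) F) 1 1 - (g : Matrix (Fin 2) (Fin 2) F) 0 0 := by
          rw [sub_eq_add_neg, hneg, add_comm]
        rw [this, h]
      refine ⟨(1 + (g : Matrix (Fin 2) (Fin 2) F) 0 1) /
        ((g : Matrix (Fin 2) (Fin 2) F) 1 1 - (g : Matrix (Fin 2) (Fin 2) F) 0 0), 1, ?_⟩
      rw [hA]
      field_simp
      ring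
    · obtain ⟨r, hr⟩ := FiniteField.isSquare_of_char_two (ringChar.eq F 2)
        ((g : Matrix (Fin 2) (Fin 2) F) 1 0)⁻¹
      refine ⟨r, 0, ?_⟩
      have : r ^ 2 = ((g : Matrix (Fin 2) (Fin 2) F) 1 0)⁻¹ := by rw [hr, sq]
      rw [this]
      field_simp
      ring
  obtain ⟨v1, v2, hv⟩ := hform
  obtain ⟨x, hx⟩ : ∃ x : Matrix.SpecialLinearGroup (Fin 2) F,
      (x : Matrix (Fin 2) (Fin 2) F) = !![v1, (g : Matrix (Fin 2) (Fin 2) F) 0 0 * v1 +
        (g : Matrix (Fin 2) (Fin 2) F) 0 1 * v2; v2, (g : Matrix (Fin 2) (Fin 2) F) 1 0 * v1 +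
        (g : Matrix (Fin 2) (Fin 2) F) 1 1 * v2] :=
    ⟨⟨_, by rw [Matrix.det_fin_two_of]; linear_combination hv⟩, rfl⟩
  rw [sl2_conj_iff]
  refine ⟨x, ?_⟩
  apply sl2_ext <;>
    simp [comp_val, tr2, hx, Matrix.SpecialLinearGroup.coe_mul, Matrix.mul_apply, Fin.sum_univ_two]
  · linear_combination (v1) * hd
  · linear_combination (v2) * hd

def rep2 {F : Type*} [Field F] : {t : F // t ≠ 0} ⊕ Bool → Matrix.SpecialLinearGroup (Fin 2) F
  | Sum.inl t => comp t.1
  | Sum.inr false => 1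
  | Sum.inr true => uu 1

theorem rep2_bij {F : Type*} [Field F] [Fintype F] [CharP F 2] :
    Function.Bijective (fun t : {t : F // t ≠ 0} ⊕ Bool => ConjClasses.mk (rep2 t)) := by
  have h20 : (2 : F) = 0 := CharTwo.two_eq_zero
  have htr1 : tr2 (1 : Matrix.SpecialLinearGroup (Fin 2) F) = 0 := by
    simp [tr2]
    linear_combination h20
  constructor
  · intro t t' htt
    have hc : IsConj (rep2 t) (rep2 t') := ConjClasses.mk_eq_mk_iff_isConj.1 htt
    have hT := tr2_conj _ _ hc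
    rcases t with t | b <;> rcases t' with t' | b'
    · simp only [rep2, tr2_comp] at hT
      rw [Subtype.ext hT]
    · exfalso
      cases b' <;> simp only [rep2, tr2_comp, tr2_uu, htr1, h20] at hT
      · exact t.2 hT
      · exact t.2 hT
    · exfalso
      cases b <;> simp only [rep2, tr2_comp, tr2_uu, htr1, h20] at hT
      · exact t'.2 hT.symm
      · exact t'.2 hT.symm
    · cases b <;> cases b'
      · rfl
      · exfalso
        simp only [rep2] at hc
        rw [isConj_one_right] at hc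
        exact one_ne_zero ((uu_eq_one_iff (1 : F)).1 hc)
      · exfalso
        simp only [rep2] at hc
        rw [isConj_one_left] at hc
        exact one_ne_zero ((uu_eq_one_iff (1 : F)).1 hc)
      · rfl
  · intro C
    obtain ⟨g, rfl⟩ := ConjClasses.mk_surjective C
    by_cases ht : tr2 g = 0
    · by_cases h1 : g = 1
      · exact ⟨Sum.inr false, by rw [h1]; rfl⟩
      · obtain ⟨b, hb, hbg⟩ := trace2_conj g (by
          have : tr2 g = 2 := by rw [ht, h20]
          exact this) h1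
        refine ⟨Sum.inr true, ?_⟩
        apply ConjClasses.mk_eq_mk_iff_isConj.2
        refine IsConj.trans ?_ hbg
        change IsConj (uu 1) (uu b)
        rw [uu_conj _ _ one_ne_zero hb, one_mul]
        exact FiniteField.isSquare_of_char_two (ringChar.eq F 2) b
    · refine ⟨Sum.inl ⟨tr2 g, ht⟩, ?_⟩
      apply ConjClasses.mk_eq_mk_iff_isConj.2
      exact comp_conj2 g ht

theorem result {F : Type*} [Field F] [Fintype F] [CharP F 2] :
    Nat.card (ConjClasses (Matrix.SpecialLinearGroup (Fin 2) F)) = Fintype.card F + 1 := by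
  classical
  rw [← Nat.card_eq_of_bijective _ (rep2_bij (F := F))]
  have hc1 : Nat.card {t : F // t ≠ 0} = Fintype.card F - 1 := by
    rw [Nat.card_eq_fintype_card, Fintype.card_subtype_compl, Fintype.card_subtype_eq]
  rw [Nat.card_sum, hc1, Nat.card_eq_fintype_card, Fintype.card_bool]
  have := Fintype.card_pos (α := F)
  omega

end Cfsg.Agent.S2331
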