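import Cfsg.Statements.S2352
import Mathlib

set_option autoImplicit false
open Cfsg

set_option maxHeartbeats 1000000
namespace Cfsg.Agent.S2352

/-- a reduced nonempty word acts nontrivially under a suitable substitution of permutations -/
theorem perm_word (L : List (ℕ × Bool)) (hL : FreeGroup.IsReduced L) (hne : L ≠ []) :
    ∃ f : ℕ → Equiv.Perm (Fin (L.length + 1)),
      (L.map (fun x => cond x.2 (f x.1) (f x.1)⁻¹)).prod ≠ 1 := by
  classical
  obtain ⟨m, hm⟩ : ∃ m, m = L.length := ⟨_, rfl⟩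
  rw [← hm]
  have hmpos : 0 < m := by rw [hm]; exact List.length_pos_iff.2 hne
  have hadj : ∀ (i : ℕ) (a b : ℕ × Bool), L[i]? = some a → L[i + 1]? = some b →
      a.1 = b.1 → a.2 = b.2 := by
    intro i a b ha hb
    rw [List.getElem?_eq_some_iff] at ha hb
    obtain ⟨h1, rfl⟩ := ha
    obtain ⟨h2, rfl⟩ := hb
    exact List.IsChain.getElem hL i h2
  have hlt : ∀ (i : ℕ) (a : ℕ × Bool), L[i]? = some a → i < m := by
    intro i a ha
    rw [List.getElem?_eq_some_iff] at ha
    obtain ⟨h1, _⟩ := ha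
    rw [hm]
    exact h1
  have hex : ∀ x : ℕ, ∃ g : Equiv.Perm (Fin (m + 1)),
      ∀ (i : ℕ) (hi : i < m), (L[i]? = some (x, true) → g ⟨i + 1, by omega⟩ = ⟨i, by omega⟩) ∧
        (L[i]? = some (x, false) → g ⟨i, by omega⟩ = ⟨i + 1, by omega⟩) := by
    intro x
    obtain ⟨φ, hφ⟩ : ∃ φ : Fin (m + 1) → Fin (m + 1), ∀ j : Fin (m + 1),
        ((1 ≤ (j : ℕ) ∧ L[(j : ℕ) - 1]? = some (x, true)) → (φ j : ℕ) = (j : ℕ) - 1) ∧
        (¬ (1 ≤ (j : ℕ) ∧ L[(j : ℕ) - 1]? = some (x, true)) → (j : ℕ) < m →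
          (φ j : ℕ) = (j : ℕ) + 1) := by
      refine ⟨fun j => if 1 ≤ (j : ℕ) ∧ L[(j : ℕ) - 1]? = some (x, true) then
        ⟨(j : ℕ) - 1, by have := j.2; omega⟩ else ⟨min ((j : ℕ) + 1) m, by omega⟩, ?_⟩
      intro j
      constructor
      · intro h
        simp only [if_pos h]
      · intro h hj
        simp only [if_neg h]
        exact min_eq_left (by omega)
    have hAB : ∀ j : ℕ, ¬ ((1 ≤ j ∧ L[j - 1]? = some (x, true)) ∧ L[j]? = some (x, false)) := by
      rintro j ⟨⟨h1, h2⟩, h3⟩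
      have h4 := hadj (j - 1) (x, true) (x, false) h2
        (by rw [show j - 1 + 1 = j by omega]; exact h3) rfl
      simp at h4
    have hinj : Set.InjOn φ {j : Fin (m + 1) | (1 ≤ (j : ℕ) ∧ L[(j : ℕ) - 1]? = some (x, true)) ∨
        L[(j : ℕ)]? = some (x, false)} := by
      intro j hj j' hj' hjj'
      have hval := congrArg Fin.val hjj'
      apply Fin.ext
      by_cases hA : 1 ≤ (j : ℕ) ∧ L[(j : ℕ) - 1]? = some (x, true)
      · by_cases hA' : 1 ≤ (j' : ℕ) ∧ L[(j' : ℕ) - 1]? = some (x, true)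
        · rw [(hφ j).1 hA, (hφ j').1 hA'] at hval
          omega
        · have hB' : L[(j' : ℕ)]? = some (x, false) := hj'.resolve_left hA'
          have hj'm := hlt _ _ hB'
          rw [(hφ j).1 hA, (hφ j').2 hA' hj'm] at hval
          exfalso
          have h4 := hadj (j' : ℕ) (x, false) (x, true) hB'
            (by rw [show (j' : ℕ) + 1 = (j : ℕ) - 1 by omega]; exact hA.2) rfl
          simp at h4
      · have hB : L[(j : ℕ)]? = some (x, false) := hj.resolve_left hA
        have hjm := hlt _ _ hB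
        by_cases hA' : 1 ≤ (j' : ℕ) ∧ L[(j' : ℕ) - 1]? = some (x, true)
        · rw [(hφ j).2 hA hjm, (hφ j').1 hA'] at hval
          exfalso
          have h4 := hadj (j : ℕ) (x, false) (x, true) hB
            (by rw [show (j : ℕ) + 1 = (j' : ℕ) - 1 by omega]; exact hA'.2) rfl
          simp at h4
        · have hB' : L[(j' : ℕ)]? = some (x, false) := hj'.resolve_left hA'
          have hj'm := hlt _ _ hB'
          rw [(hφ j).2 hA hjm, (hφ j').2 hA' hj'm] at hval
          omega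
    obtain ⟨g, hg⟩ := Set.MapsTo.exists_equiv_extend_of_card_eq
      (t := (Finset.univ : Finset (Fin (m + 1)))) (by simp) (f := φ)
      (s := {j : Fin (m + 1) | (1 ≤ (j : ℕ) ∧ L[(j : ℕ) - 1]? = some (x, true)) ∨
        L[(j : ℕ)]? = some (x, false)}) (fun j _ => by simp) hinj
    refine ⟨g.trans (Equiv.subtypeUnivEquiv (fun y => Finset.mem_univ y)), ?_⟩
    intro i hi
    constructor
    · intro h
      have hA : 1 ≤ ((⟨i + 1, by omega⟩ : Fin (m + 1)) : ℕ) ∧
          L[((⟨i + 1, by omega⟩ : Fin (m + 1)) : ℕ) - 1]? = some (x, true) := by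
        simp only [Nat.add_sub_cancel]
        exact ⟨by omega, h⟩
      have h5 := hg ⟨i + 1, by omega⟩ (Or.inl hA)
      apply Fin.ext
      show ((g ⟨i + 1, by omega⟩ : Fin (m + 1)) : ℕ) = i
      rw [h5, (hφ _).1 hA]
      simp
    · intro h
      have hnA : ¬ (1 ≤ ((⟨i, by omega⟩ : Fin (m + 1)) : ℕ) ∧
          L[((⟨i, by omega⟩ : Fin (m + 1)) : ℕ) - 1]? = some (x, true)) := by
        intro hA
        exact hAB i ⟨hA, h⟩
      have h5 := hg ⟨i, by omega⟩ (Or.inr h)
      apply Fin.ext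
      show ((g ⟨i, by omega⟩ : Fin (m + 1)) : ℕ) = i + 1
      rw [h5, (hφ _).2 hnA hi]
  choose f hf using hex
  refine ⟨f, ?_⟩
  have key : ∀ (d k : ℕ) (hk : k + d = m),
      ((L.drop k).map (fun x => cond x.2 (f x.1) (f x.1)⁻¹)).prod ⟨m, by omega⟩ =
        ⟨k, by omega⟩ := by
    intro d
    induction d with
    | zero =>
      intro k hk
      have hk' : k = m := by omega
      subst hk'
      rw [List.drop_of_length_le (by omega)]
      simp
    | succ d ih =>
      intro k hk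
      have hkm : k < L.length := by omega
      rw [List.drop_eq_getElem_cons hkm, List.map_cons, List.prod_cons, Equiv.Perm.mul_apply,
        ih (k + 1) (by omega)]
      have hLk : L[k]? = some L[k] := List.getElem?_eq_getElem hkm
      rcases hval : L[k] with ⟨x, b⟩
      rw [hval] at hLk
      cases b
      · simp only [cond_false]
        rw [Equiv.Perm.inv_eq_iff_eq]
        exact ((hf x k (by omega)).2 hLk).symm
      · simp only [cond_true]
        exact (hf x k (by omega)).1 hLk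
  intro h1
  have h2 := key m 0 (by omega)
  rw [List.drop_zero, h1] at h2
  have h3 := congrArg Fin.val h2
  simp at h3
  omega

theorem embed_alt (M n : ℕ) (hn : 2 * M ≤ n) :
    ∃ Θ : Equiv.Perm (Fin M) →* Equiv.Perm (Fin n), Function.Injective Θ ∧
      ∀ σ, Equiv.Perm.sign (Θ σ) = 1 := by
  classical
  obtain ⟨ι⟩ : Nonempty ((Fin M ⊕ Fin M) ↪ Fin n) :=
    Function.Embedding.nonempty_of_card_le (by simp; omega)
  refine ⟨(Equiv.Perm.viaEmbeddingHom ι).comp ((Equiv.Perm.sumCongrHom (Fin M) (Fin M)).comp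
    (MonoidHom.prod (MonoidHom.id _) (MonoidHom.id _))), ?_, ?_⟩
  · apply (Equiv.Perm.viaEmbeddingHom_injective ι).comp
    apply Equiv.Perm.sumCongrHom_injective.comp
    intro a b h
    exact (Prod.ext_iff.1 h).1
  · intro σ
    rw [MonoidHom.comp_apply, Equiv.Perm.viaEmbeddingHom_apply]
    unfold Equiv.Perm.viaEmbedding
    rw [Equiv.Perm.sign_extendDomain]
    show Equiv.Perm.sign (Equiv.sumCongr σ σ) = 1
    rw [Equiv.Perm.sign_sumCongr, Int.units_mul_self]

theorem result (w : FreeGroup ℕ) (hw : w ≠ 1) :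
    ∃ N : ℕ, ∀ n : ℕ, N ≤ n → ∃ f : ℕ → alternatingGroup (Fin n), FreeGroup.lift f w ≠ 1 := by
  classical
  have hL : FreeGroup.IsReduced w.toWord := FreeGroup.isReduced_toWord
  have hne : w.toWord ≠ [] := fun h => hw (FreeGroup.toWord_eq_nil_iff.1 h)
  obtain ⟨f, hf⟩ := perm_word w.toWord hL hne
  have hlift : FreeGroup.lift f w ≠ 1 := by
    have h1 : FreeGroup.lift f w = FreeGroup.lift f (FreeGroup.mk w.toWord) := by
      rw [FreeGroup.mk_toWord]
    rw [h1, FreeGroup.lift_mk]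
    exact hf
  refine ⟨2 * (w.toWord.length + 1), fun n hn => ?_⟩
  obtain ⟨Θ, hΘinj, hΘsign⟩ := embed_alt (w.toWord.length + 1) n hn
  refine ⟨fun x => ⟨Θ (f x), Equiv.Perm.mem_alternatingGroup.2 (hΘsign _)⟩, ?_⟩
  intro h1
  apply hlift
  apply hΘinj
  rw [map_one]
  have h2 : (alternatingGroup (Fin n)).subtype.comp (FreeGroup.lift
      (fun x => (⟨Θ (f x), Equiv.Perm.mem_alternatingGroup.2 (hΘsign _)⟩ : alternatingGroup (Fin n)))) =
      Θ.comp (FreeGroup.lift f) := by
    apply FreeGroup.ext_hom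
    intro a
    simp
  have h3 := DFunLike.congr_fun h2 w
  simp only [MonoidHom.comp_apply] at h3
  rw [← h3, h1]
  simp

end Cfsg.Agent.S2352
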