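import Cfsg.Statements.S2353
import Mathlib

set_option autoImplicit false
open Cfsg

set_option maxHeartbeats 1000000
namespace Cfsg.Agent.S2353

open Polynomial

/-- action of a letter on a column vector of polynomials -/
noncomputable def act (R : Type*) [CommRing R] (a : ℕ × Bool) (v : R[X] × R[X]) : R[X] × R[X] :=
  if a.2 then (v.1 + X ^ (a.1 + 1) * (X ^ (a.1 + 1) * v.1 + v.2), X ^ (a.1 + 1) * v.1 + v.2)
  else (v.1 - X ^ (a.1 + 1) * v.2, v.2 - X ^ (a.1 + 1) * (v.1 - X ^ (a.1 + 1) * v.2))

/-- second column of the generic word matrix -/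
noncomputable def vec (R : Type*) [CommRing R] : List (ℕ × Bool) → R[X] × R[X]
  | [] => (0, 1)
  | a :: L => act R a (vec R L)

theorem vec_map {R S : Type*} [CommRing R] [CommRing S] (φ : R →+* S) (L : List (ℕ × Bool)) :
    (vec R L).1.map φ = (vec S L).1 ∧ (vec R L).2.map φ = (vec S L).2 := by
  induction L with
  | nil => simp [vec]
  | cons a L ih =>
    obtain ⟨i, b⟩ := a
    cases b
    · simp [vec, act, ih.1, ih.2]
    · simp [vec, act, ih.1, ih.2]

theorem lemB {F : Type*} [Field F] (s p q : F[X]) (hs : 0 < degree s)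
    (hpq : degree p < degree q) : degree q < degree (s * q + p) := by
  have hq : q ≠ 0 := by
    rintro rfl
    simp at hpq
  have hs0 : s ≠ 0 := by
    rintro rfl
    simp at hs
  have h1 : degree q < degree (s * q) := by
    rw [degree_mul, degree_eq_natDegree hq, degree_eq_natDegree hs0]
    have h2 : 0 < natDegree s := natDegree_pos_iff_degree_pos.2 hs
    norm_cast
    omega
  rw [degree_add_eq_left_of_degree_lt (hpq.trans h1)]
  exact h1

theorem degS {F : Type*} [Field F] (i : ℕ) : 0 < degree (X ^ (i + 1) : F[X]) := by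
  rw [degree_X_pow]
  exact_mod_cast Nat.succ_pos i

theorem degNegS {F : Type*} [Field F] (i : ℕ) : 0 < degree (-X ^ (i + 1) : F[X]) := by
  rw [degree_neg]
  exact degS i

theorem degDiff {F : Type*} [Field F] (i j : ℕ) (hij : i ≠ j) :
    0 < degree (X ^ (i + 1) - X ^ (j + 1) : F[X]) := by
  rcases lt_or_gt_of_ne hij with h | h
  · rw [degree_sub_eq_right_of_degree_lt]
    · exact degS j
    · rw [degree_X_pow, degree_X_pow]
      exact_mod_cast Nat.succ_lt_succ h
  · rw [degree_sub_eq_left_of_degree_lt]
    · exact degS i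
    · rw [degree_X_pow, degree_X_pow]
      exact_mod_cast Nat.succ_lt_succ h

/-- the degree invariant -/
def Inv (F : Type*) [Field F] (L : List (ℕ × Bool)) (v : F[X] × F[X]) : Prop :=
  match L with
  | [] => v.1 = 0 ∧ v.2 = 1
  | (i, true) :: _ => degree v.2 < degree v.1 ∧ degree (v.1 - X ^ (i + 1) * v.2) < degree v.2
  | (i, false) :: _ => degree v.1 < degree v.2 ∧ degree (v.2 + X ^ (i + 1) * v.1) < degree v.1

theorem inv_vec (F : Type*) [Field F] (L : List (ℕ × Bool)) (hL : FreeGroup.IsReduced L) :
    Inv F L (vec F L) := by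
  induction L with
  | nil => exact ⟨rfl, rfl⟩
  | cons a L ih =>
    obtain ⟨j, c⟩ := a
    cases L with
    | nil =>
      cases c
      · -- inverse letter
        have h1 : vec F [(j, false)] = (-X ^ (j + 1), X ^ (j + 1) * X ^ (j + 1) + 1) := by
          simp only [vec, act, Bool.false_eq_true, if_false]
          refine Prod.ext ?_ ?_ <;> simp <;> ring
        rw [h1]
        refine ⟨?_, ?_⟩
        · show degree (-X ^ (j + 1) : F[X]) < degree (X ^ (j + 1) * X ^ (j + 1) + 1 : F[X])
          rw [degree_neg]
          apply lemB _ _ _ (degS j)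
          rw [degree_one]
          exact degS j
        · show degree ((X ^ (j + 1) * X ^ (j + 1) + 1 : F[X]) + X ^ (j + 1) * (-X ^ (j + 1))) <
            degree (-X ^ (j + 1) : F[X])
          have h2 : ((X ^ (j + 1) * X ^ (j + 1) + 1 : F[X]) + X ^ (j + 1) * (-X ^ (j + 1))) = 1 := by
            ring
          rw [h2, degree_one]
          exact degNegS j
      · have h1 : vec F [(j, true)] = (X ^ (j + 1), 1) := by
          simp only [vec, act, if_true]
          refine Prod.ext ?_ ?_ <;> simp
        rw [h1]
        refine ⟨?_, ?_⟩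
        · show degree (1 : F[X]) < degree (X ^ (j + 1) : F[X])
          rw [degree_one]
          exact degS j
        · show degree ((X ^ (j + 1) : F[X]) - X ^ (j + 1) * 1) < degree (1 : F[X])
          rw [mul_one, sub_self, degree_zero, degree_one]
          exact WithBot.bot_lt_coe 0
    | cons b L =>
      have hred := FreeGroup.isReduced_cons_cons.1 hL
      have ih' := ih hred.2
      have hadj := hred.1
      obtain ⟨i, d⟩ := b
      obtain ⟨x, hx⟩ : ∃ x, x = (vec F ((i, d) :: L)).1 := ⟨_, rfl⟩
      obtain ⟨y, hy⟩ : ∃ y, y = (vec F ((i, d) :: L)).2 := ⟨_, rfl⟩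
      cases c <;> cases d
      · -- a = (j, false), b = (i, false)
        have hv : vec F ((j, false) :: (i, false) :: L) =
            (-X ^ (j + 1) * y + x, -X ^ (j + 1) * (-X ^ (j + 1) * y + x) + y) := by
          rw [hx, hy]
          show act F (j, false) (vec F ((i, false) :: L)) = _
          simp only [act, Bool.false_eq_true, if_false]
          refine Prod.ext ?_ ?_ <;> simp <;> ring
        rw [hv]
        have h1 : degree x < degree y := by rw [hx, hy]; exact ih'.1
        have h3 := lemB _ _ _ (degNegS (F := F) j) h1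
        have h4 := lemB _ _ _ (degNegS (F := F) j) h3
        refine ⟨h4, ?_⟩
        show degree ((-X ^ (j + 1) * (-X ^ (j + 1) * y + x) + y) +
          X ^ (j + 1) * (-X ^ (j + 1) * y + x)) < degree (-X ^ (j + 1) * y + x)
        have h5 : (-X ^ (j + 1) * (-X ^ (j + 1) * y + x) + y) +
          X ^ (j + 1) * (-X ^ (j + 1) * y + x) = y := by ring
        rw [h5]
        exact h3
      · -- a = (j, false), b = (i, true)
        have hji : j ≠ i := by
          intro h
          have := hadj h
          simp at this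
        have hv : vec F ((j, false) :: (i, true) :: L) =
            ((X ^ (i + 1) - X ^ (j + 1)) * y + (x - X ^ (i + 1) * y),
              -X ^ (j + 1) * ((X ^ (i + 1) - X ^ (j + 1)) * y + (x - X ^ (i + 1) * y)) + y) := by
          rw [hx, hy]
          show act F (j, false) (vec F ((i, true) :: L)) = _
          simp only [act, Bool.false_eq_true, if_false]
          refine Prod.ext ?_ ?_ <;> simp <;> ring
        rw [hv]
        have h2 : degree (x - X ^ (i + 1) * y) < degree y := by rw [hx, hy]; exact ih'.2
        have h3 := lemB _ _ _ (degDiff (F := F) i j (Ne.symm hji)) h2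
        have h4 := lemB _ _ _ (degNegS (F := F) j) h3
        refine ⟨h4, ?_⟩
        show degree ((-X ^ (j + 1) * ((X ^ (i + 1) - X ^ (j + 1)) * y + (x - X ^ (i + 1) * y)) + y) +
          X ^ (j + 1) * ((X ^ (i + 1) - X ^ (j + 1)) * y + (x - X ^ (i + 1) * y))) <
          degree ((X ^ (i + 1) - X ^ (j + 1)) * y + (x - X ^ (i + 1) * y))
        have h5 : (-X ^ (j + 1) * ((X ^ (i + 1) - X ^ (j + 1)) * y + (x - X ^ (i + 1) * y)) + y) +
          X ^ (j + 1) * ((X ^ (i + 1) - X ^ (j + 1)) * y + (x - X ^ (i + 1) * y)) = y := by ring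
        rw [h5]
        exact h3
      · -- a = (j, true), b = (i, false)
        have hji : j ≠ i := by
          intro h
          have := hadj h
          simp at this
        have hv : vec F ((j, true) :: (i, false) :: L) =
            (X ^ (j + 1) * ((X ^ (j + 1) - X ^ (i + 1)) * x + (y + X ^ (i + 1) * x)) + x,
              (X ^ (j + 1) - X ^ (i + 1)) * x + (y + X ^ (i + 1) * x)) := by
          rw [hx, hy]
          show act F (j, true) (vec F ((i, false) :: L)) = _
          simp only [act, if_true]
          refine Prod.ext ?_ ?_ <;> simp <;> ring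
        rw [hv]
        have h2 : degree (y + X ^ (i + 1) * x) < degree x := by rw [hx, hy]; exact ih'.2
        have h3 := lemB _ _ _ (degDiff (F := F) j i hji) h2
        have h4 := lemB _ _ _ (degS (F := F) j) h3
        refine ⟨h4, ?_⟩
        show degree ((X ^ (j + 1) * ((X ^ (j + 1) - X ^ (i + 1)) * x + (y + X ^ (i + 1) * x)) + x) -
          X ^ (j + 1) * ((X ^ (j + 1) - X ^ (i + 1)) * x + (y + X ^ (i + 1) * x))) <
          degree ((X ^ (j + 1) - X ^ (i + 1)) * x + (y + X ^ (i + 1) * x))
        have h5 : (X ^ (j + 1) * ((X ^ (j + 1) - X ^ (i + 1)) * x + (y + X ^ (i + 1) * x)) + x) -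
          X ^ (j + 1) * ((X ^ (j + 1) - X ^ (i + 1)) * x + (y + X ^ (i + 1) * x)) = x := by ring
        rw [h5]
        exact h3
      · -- a = (j, true), b = (i, true)
        have hv : vec F ((j, true) :: (i, true) :: L) =
            (X ^ (j + 1) * (X ^ (j + 1) * x + y) + x, X ^ (j + 1) * x + y) := by
          rw [hx, hy]
          show act F (j, true) (vec F ((i, true) :: L)) = _
          simp only [act, if_true]
          refine Prod.ext ?_ ?_ <;> simp <;> ring
        rw [hv]
        have h1 : degree y < degree x := by rw [hx, hy]; exact ih'.1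
        have h3 := lemB _ _ _ (degS (F := F) j) h1
        have h4 := lemB _ _ _ (degS (F := F) j) h3
        refine ⟨h4, ?_⟩
        show degree ((X ^ (j + 1) * (X ^ (j + 1) * x + y) + x) -
          X ^ (j + 1) * (X ^ (j + 1) * x + y)) < degree (X ^ (j + 1) * x + y)
        have h5 : (X ^ (j + 1) * (X ^ (j + 1) * x + y) + x) -
          X ^ (j + 1) * (X ^ (j + 1) * x + y) = x := by ring
        rw [h5]
        exact h3

theorem vec_ne_zero (F : Type*) [Field F] (L : List (ℕ × Bool)) (hL : FreeGroup.IsReduced L)
    (hne : L ≠ []) : (vec F L).1 ≠ 0 := by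
  have h := inv_vec F L hL
  intro h0
  cases L with
  | nil => exact hne rfl
  | cons a L =>
    obtain ⟨i, b⟩ := a
    cases b
    · have h1 : degree ((vec F ((i, false) :: L)).2 + X ^ (i + 1) * (vec F ((i, false) :: L)).1) <
          degree (vec F ((i, false) :: L)).1 := h.2
      rw [h0] at h1
      simp at h1
    · have h1 : degree (vec F ((i, true) :: L)).2 < degree (vec F ((i, true) :: L)).1 := h.1
      rw [h0] at h1
      simp at h1

/-- the generators -/
def Gm (F : Type*) [Field F] (c : F) (i : ℕ) : Matrix.SpecialLinearGroup (Fin 2) F :=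
  ⟨!![1 + c ^ (i + 1) * c ^ (i + 1), c ^ (i + 1); c ^ (i + 1), 1], by
    rw [Matrix.det_fin_two_of]; ring⟩

theorem entries (F : Type*) [Field F] (c : F) (L : List (ℕ × Bool)) :
    (((L.map (fun a => cond a.2 (Gm F c a.1) (Gm F c a.1)⁻¹)).prod :
      Matrix.SpecialLinearGroup (Fin 2) F) : Matrix (Fin 2) (Fin 2) F) 0 1 = eval c (vec F L).1 ∧
    (((L.map (fun a => cond a.2 (Gm F c a.1) (Gm F c a.1)⁻¹)).prod :
      Matrix.SpecialLinearGroup (Fin 2) F) : Matrix (Fin 2) (Fin 2) F) 1 1 = eval c (vec F L).2 := by
  induction L with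
  | nil => simp [vec]
  | cons a L ih =>
    obtain ⟨i, b⟩ := a
    rw [List.map_cons, List.prod_cons, Matrix.SpecialLinearGroup.coe_mul, Matrix.mul_apply,
      Matrix.mul_apply, Fin.sum_univ_two, Fin.sum_univ_two, ih.1, ih.2]
    cases b
    · have hinv : ((Gm F c i)⁻¹ : Matrix.SpecialLinearGroup (Fin 2) F).1 =
          !![1, -c ^ (i + 1); -c ^ (i + 1), 1 + c ^ (i + 1) * c ^ (i + 1)] := by
        rw [Matrix.SpecialLinearGroup.coe_inv, Matrix.adjugate_fin_two]
        simp [Gm]
      simp only [cond_false, hinv]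
      simp only [vec, act, Bool.false_eq_true, if_false, eval_sub, eval_mul, eval_pow, eval_X]
      constructor
      · simp
        ring
      · simp
        ring
    · have hG : (Gm F c i).1 = !![1 + c ^ (i + 1) * c ^ (i + 1), c ^ (i + 1); c ^ (i + 1), 1] := rfl
      simp only [cond_true, hG]
      simp only [vec, act, if_true, eval_add, eval_mul, eval_pow, eval_X]
      constructor
      · simp
        ring
      · simp

theorem result (w : FreeGroup ℕ) (hw : w ≠ 1) :
    ∃ N : ℕ, ∀ (F : Type*) [Field F] [Fintype F], N ≤ Fintype.card F →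
      ∃ f : ℕ → Matrix.ProjectiveSpecialLinearGroup (Fin 2) F, FreeGroup.lift f w ≠ 1 := by
  classical
  have hL : FreeGroup.IsReduced w.toWord := FreeGroup.isReduced_toWord
  have hne : w.toWord ≠ [] := fun h => hw (FreeGroup.toWord_eq_nil_iff.1 h)
  refine ⟨(vec ℤ w.toWord).1.natDegree + 1, ?_⟩
  intro F _ _ hcard
  have hP : (vec F w.toWord).1 ≠ 0 := vec_ne_zero F _ hL hne
  have hdeg : (vec F w.toWord).1.natDegree < Fintype.card F := by
    rw [← (vec_map (Int.castRingHom F) w.toWord).1]
    have := Polynomial.natDegree_map_le (f := Int.castRingHom F) (p := (vec ℤ w.toWord).1)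
    omega
  obtain ⟨c, hc⟩ := Polynomial.exists_eval_ne_zero_of_natDegree_lt_card _ hP
    (by rw [Cardinal.mk_fintype]; exact_mod_cast hdeg)
  refine ⟨fun i => QuotientGroup.mk (Gm F c i), ?_⟩
  have h2 : (QuotientGroup.mk' (Subgroup.center (Matrix.SpecialLinearGroup (Fin 2) F))).comp
      (FreeGroup.lift (Gm F c)) = FreeGroup.lift (fun i => (QuotientGroup.mk (Gm F c i) :
        Matrix.ProjectiveSpecialLinearGroup (Fin 2) F)) := by
    apply FreeGroup.ext_hom
    intro a
    simp
  rw [← h2, MonoidHom.comp_apply, QuotientGroup.mk'_apply, Ne, QuotientGroup.eq_one_iff]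
  intro hcen
  have h3 : FreeGroup.lift (Gm F c) w = ((w.toWord).map
      (fun a => cond a.2 (Gm F c a.1) (Gm F c a.1)⁻¹)).prod := by
    conv_lhs => rw [← FreeGroup.mk_toWord (x := w)]
    rw [FreeGroup.lift_mk]
  rw [h3] at hcen
  rw [Matrix.SpecialLinearGroup.mem_center_iff] at hcen
  obtain ⟨r, _, hr⟩ := hcen
  have h4 := (entries F c w.toWord).1
  rw [← hr] at h4
  apply hc
  rw [← h4]
  simp

end Cfsg.Agent.S2353
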