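import Cfsg.Statements.S2430
import Mathlib
import Cfsg.Agent.S2429
import Cfsg.Agent.S2428

set_option autoImplicit false
open Cfsg

namespace Cfsg.Agent.S2430

open scoped Pointwise

/-- conjugation as an isomorphism between two subgroups. -/
def conjEquiv {G : Type*} [Group G] (A B : Subgroup G) (x : G)
    (h : ∀ y, y ∈ B ↔ x⁻¹ * y * x ∈ A) : A ≃* B where
  toFun a := ⟨x * a * x⁻¹, (h _).mpr (by
    have e : x⁻¹ * (x * (a : G) * x⁻¹) * x = a := by group
    rw [e]; exact a.2)⟩
  invFun b := ⟨x⁻¹ * b * x, (h _).mp b.2⟩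
  left_inv a := by
    apply Subtype.ext
    show x⁻¹ * (x * (a : G) * x⁻¹) * x = a
    group
  right_inv b := by
    apply Subtype.ext
    show x * (x⁻¹ * (b : G) * x) * x⁻¹ = b
    group
  map_mul' a b := by
    apply Subtype.ext
    show x * ((a : G) * b) * x⁻¹ = x * a * x⁻¹ * (x * b * x⁻¹)
    group

/-- Sylow subgroups contained (up to conjugacy) in a cyclic self-centralizing "torus". -/
theorem sylow_in_torus {G : Type*} [Group G] [Finite G] (ℓ : ℕ) [Fact ℓ.Prime] (T : Subgroup G)
    [hTc : IsCyclic T]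
    (hℓT : ℓ ∣ Nat.card T)
    (hℓG : (Nat.card G).factorization ℓ = (Nat.card T).factorization ℓ)
    (hcent : ∀ g ∈ T, g ≠ 1 → g ^ (ℓ ^ (Nat.card T).factorization ℓ) = 1 →
      Subgroup.centralizer ({g} : Set G) = T)
    (P : Sylow ℓ G) :
    Nat.card (Subgroup.centralizer ((P : Subgroup G) : Set G)) = Nat.card T ∧
    IsCyclic (Subgroup.centralizer ((P : Subgroup G) : Set G)) ∧
    Nat.card (Subgroup.normalizer ((P : Subgroup G) : Set G)) =
      Nat.card (Subgroup.normalizer (T : Set G)) := by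
  classical
  set a := (Nat.card T).factorization ℓ with ha
  have hℓ : ℓ.Prime := Fact.out
  have hTcomm : ∀ s ∈ T, ∀ t ∈ T, s * t = t * s := by
    intro s hs t ht
    letI := IsCyclic.commGroup (α := T)
    have := mul_comm (⟨s, hs⟩ : T) ⟨t, ht⟩
    exact congrArg Subtype.val this
  let P0 : Subgroup G :=
    { carrier := {t | t ∈ T ∧ t ^ (ℓ ^ a) = 1}
      mul_mem' := by
        rintro s t ⟨hs, hs'⟩ ⟨ht, ht'⟩
        exact ⟨T.mul_mem hs ht, by
          rw [(show Commute s t from hTcomm s hs t ht).mul_pow, hs', ht', one_mul]⟩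
      one_mem' := ⟨T.one_mem, one_pow _⟩
      inv_mem' := by
        rintro s ⟨hs, hs'⟩
        exact ⟨T.inv_mem hs, by rw [inv_pow, hs', inv_one]⟩ }
  have hP0mem : ∀ t, t ∈ P0 ↔ t ∈ T ∧ t ^ (ℓ ^ a) = 1 := fun t => Iff.rfl
  have hcardP0 : Nat.card P0 = ℓ ^ a := by
    letI := IsCyclic.commGroup (α := T)
    have h1 := IsCyclic.card_powMonoidHom_ker (G := T) (ℓ ^ a)
    have h2 : Nat.card P0 = Nat.card ((powMonoidHom (ℓ ^ a) : T →* T).ker) := by
      apply Nat.card_congr
      exact
        { toFun := fun t => ⟨⟨t.1, t.2.1⟩, by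
            rw [MonoidHom.mem_ker, powMonoidHom_apply]
            exact Subtype.ext t.2.2⟩
          invFun := fun t => ⟨t.1.1, ⟨t.1.2, by
            have := t.2
            rw [MonoidHom.mem_ker, powMonoidHom_apply] at this
            exact congrArg Subtype.val this⟩⟩
          left_inv := fun t => rfl
          right_inv := fun t => rfl }
    rw [h2, h1]
    exact Nat.gcd_eq_right (Nat.ordProj_dvd _ _)
  have hP0card' : Nat.card P0 = ℓ ^ (Nat.card G).factorization ℓ := by rw [hcardP0, hℓG]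
  obtain ⟨x, hx⟩ := MulAction.exists_smul_eq G P (Sylow.ofCard P0 hP0card')
  have hconj : ∀ y, y ∈ P0 ↔ x⁻¹ * y * x ∈ (P : Subgroup G) := by
    intro y
    have h1 : (P0 : Subgroup G) = MulAut.conj x • (P : Subgroup G) := by
      have := congrArg (fun S : Sylow ℓ G => (S : Subgroup G)) hx
      simp only [Sylow.coe_ofCard] at this
      rw [← this]; rfl
    rw [h1, Subgroup.mem_pointwise_smul_iff_inv_smul_mem, MulAut.smul_def, MulAut.conj_inv_apply]
  have hP0T : ∀ t ∈ P0, t ∈ T := fun t ht => ht.1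
  have ha1 : 1 ≤ a := hℓ.factorization_pos_of_dvd Nat.card_pos.ne' hℓT
  obtain ⟨g, hgP, hg1⟩ : ∃ g ∈ P0, g ≠ 1 := by
    by_contra hcon
    push_neg at hcon
    have h3 : P0 = ⊥ := (Subgroup.eq_bot_iff_forall _).mpr hcon
    rw [h3, Subgroup.card_bot] at hcardP0
    have : 1 < ℓ ^ a := Nat.one_lt_pow (by omega) hℓ.one_lt
    omega
  have hC0 : Subgroup.centralizer (P0 : Set G) = T := by
    apply le_antisymm
    · intro y hy
      rw [← hcent g hgP.1 hg1 hgP.2, Subgroup.mem_centralizer_singleton_iff]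
      exact (Subgroup.mem_centralizer_iff.mp hy g hgP).symm
    · intro t ht
      rw [Subgroup.mem_centralizer_iff]
      intro p hp
      exact hTcomm p (hP0T p hp) t ht
  have hN0 : Subgroup.normalizer (P0 : Set G) = Subgroup.normalizer (T : Set G) := by
    ext y
    rw [Subgroup.mem_set_normalizer_iff, Subgroup.mem_set_normalizer_iff]
    constructor
    · intro hy t
      simp only [SetLike.mem_coe]
      rw [← hC0, Subgroup.mem_centralizer_iff, Subgroup.mem_centralizer_iff]
      constructor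
      · intro ht p hp
        have hp' : y⁻¹ * p * y ∈ P0 := by
          apply (hy (y⁻¹ * p * y)).mpr
          have e : y * (y⁻¹ * p * y) * y⁻¹ = p := by group
          rw [e]; exact hp
        have h3 := ht _ hp'
        calc p * (y * t * y⁻¹) = y * ((y⁻¹ * p * y) * t) * y⁻¹ := by group
          _ = y * (t * (y⁻¹ * p * y)) * y⁻¹ := by rw [h3]
          _ = y * t * y⁻¹ * p := by group
      · intro ht p hp
        have hp' : y * p * y⁻¹ ∈ P0 := (hy p).mp hp
        have h3 := ht _ hp'
        have h4 : y * (p * t) * y⁻¹ = y * (t * p) * y⁻¹ := by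
          calc y * (p * t) * y⁻¹ = (y * p * y⁻¹) * (y * t * y⁻¹) := by group
            _ = (y * t * y⁻¹) * (y * p * y⁻¹) := h3
            _ = y * (t * p) * y⁻¹ := by group
        exact mul_left_cancel (mul_right_cancel h4)
    · intro hy n
      simp only [SetLike.mem_coe, hP0mem]
      have h3 := hy n
      simp only [SetLike.mem_coe] at h3
      rw [← h3, conj_pow, conj_eq_one_iff]
  have hCconj : ∀ y, y ∈ Subgroup.centralizer (P0 : Set G) ↔
      x⁻¹ * y * x ∈ Subgroup.centralizer ((P : Subgroup G) : Set G) := by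
    intro y
    rw [Subgroup.mem_centralizer_iff, Subgroup.mem_centralizer_iff]
    constructor
    · intro h p hp
      have hp' : x * p * x⁻¹ ∈ P0 := by
        apply (hconj _).mpr
        have e : x⁻¹ * (x * p * x⁻¹) * x = p := by group
        rw [e]; exact hp
      have h3 := h _ hp'
      calc p * (x⁻¹ * y * x) = x⁻¹ * ((x * p * x⁻¹) * y) * x := by group
        _ = x⁻¹ * (y * (x * p * x⁻¹)) * x := by rw [h3]
        _ = x⁻¹ * y * x * p := by group
    · intro h p hp
      have hp' := (hconj p).mp hp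
      have h3 := h _ hp'
      have h4 : x⁻¹ * (p * y) * x = x⁻¹ * (y * p) * x := by
        calc x⁻¹ * (p * y) * x = (x⁻¹ * p * x) * (x⁻¹ * y * x) := by group
          _ = (x⁻¹ * y * x) * (x⁻¹ * p * x) := h3
          _ = x⁻¹ * (y * p) * x := by group
      exact mul_left_cancel (mul_right_cancel h4)
  have hNconj : ∀ y, y ∈ Subgroup.normalizer (P0 : Set G) ↔
      x⁻¹ * y * x ∈ Subgroup.normalizer ((P : Subgroup G) : Set G) := by
    intro y
    rw [Subgroup.mem_set_normalizer_iff, Subgroup.mem_set_normalizer_iff]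
    simp only [SetLike.mem_coe]
    constructor
    · intro h n
      have h1 := h (x * n * x⁻¹)
      rw [hconj, hconj] at h1
      have e1 : x⁻¹ * (x * n * x⁻¹) * x = n := by group
      have e2 : x⁻¹ * (y * (x * n * x⁻¹) * y⁻¹) * x = x⁻¹ * y * x * n * (x⁻¹ * y * x)⁻¹ := by
        group
      rw [e1, e2] at h1
      exact h1
    · intro h n
      have h1 := h (x⁻¹ * n * x)
      rw [hconj, hconj]
      have e2 : x⁻¹ * y * x * (x⁻¹ * n * x) * (x⁻¹ * y * x)⁻¹ = x⁻¹ * (y * n * y⁻¹) * x := by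
        group
      rw [e2] at h1
      exact h1
  have e1 := conjEquiv (Subgroup.centralizer ((P : Subgroup G) : Set G))
    (Subgroup.centralizer (P0 : Set G)) x hCconj
  have e2 := conjEquiv (Subgroup.normalizer ((P : Subgroup G) : Set G))
    (Subgroup.normalizer (P0 : Set G)) x hNconj
  refine ⟨?_, ?_, ?_⟩
  · rw [Nat.card_congr e1.toEquiv, hC0]
  · have : IsCyclic (Subgroup.centralizer (P0 : Set G)) := by rw [hC0]; exact hTc
    exact isCyclic_of_surjective e1.symm.toMonoidHom e1.symm.surjective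
  · rw [Nat.card_congr e2.toEquiv, hN0]


theorem odd_order_sq {G : Type*} [Group G] (g : G) (ℓ a : ℕ) (hℓ : ℓ.Prime) (hℓ2 : ℓ ≠ 2)
    (h1 : g * g = 1) (h2 : g ^ (ℓ ^ a) = 1) : g = 1 := by
  have d1 : orderOf g ∣ 2 := orderOf_dvd_of_pow_eq_one (by rw [pow_two]; exact h1)
  have d2 : orderOf g ∣ ℓ ^ a := orderOf_dvd_of_pow_eq_one h2
  have hc : Nat.Coprime 2 (ℓ ^ a) :=
    Nat.Coprime.pow_right a ((Nat.coprime_primes Nat.prime_two hℓ).mpr hℓ2.symm)
  have d3 : orderOf g ∣ 1 := by
    rw [← hc]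
    exact Nat.dvd_gcd d1 d2
  exact orderOf_eq_one_iff.mp (Nat.dvd_one.mp d3)

theorem fact_eq {q ℓ : ℕ} (hℓ : ℓ.Prime) (hℓ2 : ℓ ≠ 2) (hq : 2 ≤ q) :
    (ℓ ∣ q - 1 → (q * (q ^ 2 - 1)).factorization ℓ = (q - 1).factorization ℓ) ∧
    (ℓ ∣ q + 1 → (q * (q ^ 2 - 1)).factorization ℓ = (q + 1).factorization ℓ) := by
  have hqq : q ^ 2 - 1 = (q - 1) * (q + 1) := by
    obtain ⟨r, hr⟩ : ∃ r, q = r + 1 := ⟨q - 1, by omega⟩
    rw [hr]
    have : (r + 1) ^ 2 = (r + 1 - 1) * (r + 1 + 1) + 1 := by simp; ring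
    omega
  have h0 : q ≠ 0 := by omega
  have h1 : q - 1 ≠ 0 := by omega
  have h2 : q + 1 ≠ 0 := by omega
  have hfac : (q * (q ^ 2 - 1)).factorization ℓ
      = q.factorization ℓ + ((q - 1).factorization ℓ + (q + 1).factorization ℓ) := by
    rw [hqq, Nat.factorization_mul h0 (Nat.mul_ne_zero h1 h2), Nat.factorization_mul h1 h2]
    rfl
  have h2ℓ : ¬ ℓ ∣ 2 := by
    intro h
    exact hℓ2 ((Nat.prime_dvd_prime_iff_eq hℓ Nat.prime_two).mp h)
  constructor
  · intro hd
    have n1 : ¬ ℓ ∣ q := by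
      intro h
      have : ℓ ∣ q - (q - 1) := Nat.dvd_sub h hd
      have e : q - (q - 1) = 1 := by omega
      rw [e] at this
      exact hℓ.one_lt.ne' (Nat.dvd_one.mp this)
    have n2 : ¬ ℓ ∣ q + 1 := by
      intro h
      have : ℓ ∣ q + 1 - (q - 1) := Nat.dvd_sub h hd
      have e : q + 1 - (q - 1) = 2 := by omega
      rw [e] at this
      exact h2ℓ this
    rw [hfac, Nat.factorization_eq_zero_of_not_dvd n1, Nat.factorization_eq_zero_of_not_dvd n2]
    omega
  · intro hd
    have n1 : ¬ ℓ ∣ q := by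
      intro h
      have : ℓ ∣ q + 1 - q := Nat.dvd_sub hd h
      have e : q + 1 - q = 1 := by omega
      rw [e] at this
      exact hℓ.one_lt.ne' (Nat.dvd_one.mp this)
    have n2 : ¬ ℓ ∣ q - 1 := by
      intro h
      have : ℓ ∣ q + 1 - (q - 1) := Nat.dvd_sub hd h
      have e : q + 1 - (q - 1) = 2 := by omega
      rw [e] at this
      exact h2ℓ this
    rw [hfac, Nat.factorization_eq_zero_of_not_dvd n1, Nat.factorization_eq_zero_of_not_dvd n2]
    omega

theorem mem_range_D {F : Type*} [Field F] (g : Matrix.SpecialLinearGroup (Fin 2) F) :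
    g ∈ (S2475.D : Fˣ →* Matrix.SpecialLinearGroup (Fin 2) F).range ↔
      g.1 0 1 = 0 ∧ g.1 1 0 = 0 := by
  constructor
  · rintro ⟨u, rfl⟩
    constructor <;> simp [S2475.D_val]
  · rintro ⟨h01, h10⟩
    have hd := S2429.det2 g
    rw [h01, zero_mul, sub_zero] at hd
    have h00 : g.1 0 0 ≠ 0 := by
      intro h
      rw [h, zero_mul] at hd
      exact zero_ne_one hd
    refine ⟨Units.mk0 _ h00, ?_⟩
    apply S2429.sl2_ext'
    · simp [S2475.D_val]
    · simp [S2475.D_val, h01]
    · simp [S2475.D_val, h10]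
    · simp [S2475.D_val]
      exact (eq_inv_of_mul_eq_one_right hd).symm

theorem D_inj {F : Type*} [Field F] :
    Function.Injective (S2475.D : Fˣ → Matrix.SpecialLinearGroup (Fin 2) F) := by
  intro a b h
  have h1 := congrArg (fun m : Matrix.SpecialLinearGroup (Fin 2) F => m.1 0 0) h
  simp [S2475.D_val] at h1
  exact Units.ext h1

theorem result {F : Type*} [Field F] [Fintype F] (hodd : Odd (Fintype.card F)) (ℓ : ℕ) [Fact ℓ.Prime] (hℓ : ℓ ≠ 2)
    (P : Sylow ℓ (Matrix.SpecialLinearGroup (Fin 2) F)) :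
    (ℓ ∣ Fintype.card F - 1 →
      Nat.card (Subgroup.centralizer ((P : Subgroup (Matrix.SpecialLinearGroup (Fin 2) F)) : Set (Matrix.SpecialLinearGroup (Fin 2) F))) = Fintype.card F - 1 ∧
      IsCyclic (Subgroup.centralizer ((P : Subgroup (Matrix.SpecialLinearGroup (Fin 2) F)) : Set (Matrix.SpecialLinearGroup (Fin 2) F))) ∧
      Nat.card (Subgroup.normalizer ((P : Subgroup (Matrix.SpecialLinearGroup (Fin 2) F)) : Set (Matrix.SpecialLinearGroup (Fin 2) F))) = 2 * (Fintype.card F - 1)) ∧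
    (ℓ ∣ Fintype.card F + 1 →
      Nat.card (Subgroup.centralizer ((P : Subgroup (Matrix.SpecialLinearGroup (Fin 2) F)) : Set (Matrix.SpecialLinearGroup (Fin 2) F))) = Fintype.card F + 1 ∧
      IsCyclic (Subgroup.centralizer ((P : Subgroup (Matrix.SpecialLinearGroup (Fin 2) F)) : Set (Matrix.SpecialLinearGroup (Fin 2) F))) ∧
      Nat.card (Subgroup.normalizer ((P : Subgroup (Matrix.SpecialLinearGroup (Fin 2) F)) : Set (Matrix.SpecialLinearGroup (Fin 2) F))) = 2 * (Fintype.card F + 1)) := by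
  classical
  have hℓp : ℓ.Prime := Fact.out
  have hodd' : Fintype.card F % 2 = 1 := Nat.odd_iff.mp hodd
  have hq2 : 2 ≤ Fintype.card F := Fintype.one_lt_card
  have hcardG : Nat.card (Matrix.SpecialLinearGroup (Fin 2) F)
      = Fintype.card F * (Fintype.card F ^ 2 - 1) := S2325.card_SL2
  obtain ⟨hf1, hf2⟩ := fact_eq (q := Fintype.card F) hℓp hℓ hq2
  constructor
  · intro hdvd
    have hDcyc : IsCyclic (S2475.D : Fˣ →* Matrix.SpecialLinearGroup (Fin 2) F).range :=
      isCyclic_of_surjective _ (S2475.D : Fˣ →* Matrix.SpecialLinearGroup (Fin 2) F).rangeRestrict_surjective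
    have hDcard : Nat.card (S2475.D : Fˣ →* Matrix.SpecialLinearGroup (Fin 2) F).range
        = Fintype.card F - 1 := by
      rw [← Nat.card_congr (MonoidHom.ofInjective D_inj).toEquiv, Nat.card_units,
        Nat.card_eq_fintype_card]
    have hcentD : ∀ g ∈ (S2475.D : Fˣ →* Matrix.SpecialLinearGroup (Fin 2) F).range, g ≠ 1 →
        g ^ (ℓ ^ (Nat.card (S2475.D : Fˣ →* Matrix.SpecialLinearGroup (Fin 2) F).range).factorization ℓ) = 1 →
        Subgroup.centralizer ({g} : Set (Matrix.SpecialLinearGroup (Fin 2) F))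
          = (S2475.D : Fˣ →* Matrix.SpecialLinearGroup (Fin 2) F).range := by
      intro g hg hg1 hgpow
      obtain ⟨h01, h10⟩ := (mem_range_D g).mp hg
      have hda : g.1 0 0 ^ 2 ≠ 1 := by
        intro h
        apply hg1
        apply odd_order_sq g ℓ _ hℓp hℓ _ hgpow
        have hd := S2429.det2 g
        apply S2429.sl2_ext'
        · rw [S2429.mul00]; simp; grind
        · rw [S2429.mul01]; simp; grind
        · rw [S2429.mul10]; simp; grind
        · rw [S2429.mul11]; simp; grind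
      have hres := S2428.result hodd g h01 h10 hda
      ext x
      rw [hres.1 x, mem_range_D]
    obtain ⟨h1, h2, h3⟩ := sylow_in_torus ℓ
      (S2475.D : Fˣ →* Matrix.SpecialLinearGroup (Fin 2) F).range
      (by rw [hDcard]; exact hdvd) (by rw [hcardG, hDcard]; exact hf1 hdvd) hcentD P
    have hND : Nat.card (Subgroup.normalizer
        (((S2475.D : Fˣ →* Matrix.SpecialLinearGroup (Fin 2) F).range :
          Subgroup (Matrix.SpecialLinearGroup (Fin 2) F)) : Set (Matrix.SpecialLinearGroup (Fin 2) F)))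
        = 2 * (Fintype.card F - 1) := by
      obtain ⟨ζ, hζ⟩ := IsCyclic.exists_generator (α := Fˣ)
      have hord : orderOf ζ = Fintype.card F - 1 := by
        rw [orderOf_eq_card_of_forall_mem_zpowers hζ, Nat.card_units, Nat.card_eq_fintype_card]
      have hζ2 : (ζ : F) ^ 2 ≠ 1 := by
        intro h
        have h' : ζ ^ 2 = 1 := Units.ext (by simpa using h)
        have d1 := orderOf_dvd_of_pow_eq_one h'
        rw [hord] at d1
        have l1 := Nat.le_of_dvd (by norm_num) d1
        have l2 := Nat.le_of_dvd (by omega) hdvd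
        have l3 := hℓp.two_le
        omega
      have hres := S2428.result hodd (S2475.D ζ) (by simp [S2475.D_val]) (by simp [S2475.D_val])
        (by simpa [S2475.D_val] using hζ2)
      have hC : Subgroup.centralizer ({S2475.D ζ} : Set (Matrix.SpecialLinearGroup (Fin 2) F))
          = (S2475.D : Fˣ →* Matrix.SpecialLinearGroup (Fin 2) F).range := by
        ext x
        rw [hres.1 x, mem_range_D]
      rw [← hC]
      exact hres.2.1
    exact ⟨by rw [h1, hDcard], h2, by rw [h3, hND]⟩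
  · intro hdvd
    obtain ⟨T', hcyc, hcard, hCT, hcent, hconj, hN, hk, hsq⟩ := S2429.result hodd
    have hcentT : ∀ g ∈ T', g ≠ 1 → g ^ (ℓ ^ (Nat.card T').factorization ℓ) = 1 →
        Subgroup.centralizer ({g} : Set (Matrix.SpecialLinearGroup (Fin 2) F)) = T' := by
      intro g hg hg1 hgpow
      apply hcent g hg
      · intro h
        exact hg1 (Subtype.ext h)
      · intro h
        apply hg1
        apply odd_order_sq g ℓ _ hℓp hℓ _ hgpow
        apply Subtype.ext
        rw [Matrix.SpecialLinearGroup.coe_mul, h]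
        simp
    obtain ⟨h1, h2, h3⟩ := sylow_in_torus ℓ T'
      (by rw [hcard]; exact hdvd) (by rw [hcardG, hcard]; exact hf2 hdvd) hcentT P
    exact ⟨by rw [h1, hcard], h2, by rw [h3, hN]⟩

end Cfsg.Agent.S2430
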