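import Cfsg.Statements.S2466
import Mathlib

set_option autoImplicit false
open Cfsg

namespace Cfsg.Agent.S2466

theorem prime_dvd_mlcm {p : ℕ} (hp : p.Prime) (m : Multiset ℕ) (h : p ∣ m.lcm) :
    ∃ a ∈ m, p ∣ a := by
  induction m using Multiset.induction_on with
  | empty =>
    rw [Multiset.lcm_zero] at h
    exact absurd (Nat.dvd_one.mp h) hp.one_lt.ne'
  | cons a s ih =>
    rw [Multiset.lcm_cons] at h
    rcases hp.dvd_or_dvd_of_dvd_lcm h with h1 | h1
    · exact ⟨a, Multiset.mem_cons_self a s, h1⟩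
    · obtain ⟨b, hb, hpb⟩ := ih h1
      exact ⟨b, Multiset.mem_cons_of_mem hb, hpb⟩

theorem result (n r s : ℕ) (hr : r.Prime) (hs : s.Prime) (hr2 : r ≠ 2) (hs2 : s ≠ 2) (hrs : r ≠ s) (hrn : r ≤ n) (hsn : s ≤ n) :
    (r * s ∈ Set.range (orderOf : alternatingGroup (Fin n) → ℕ)) ↔ r + s ≤ n := by
  classical
  have hcop : Nat.Coprime r s := (Nat.coprime_primes hr hs).mpr hrs
  constructor
  · rintro ⟨⟨σ, hσ⟩, hord⟩
    have hord' : orderOf σ = r * s := by rw [← hord]; exact (Subgroup.orderOf_mk σ hσ).symm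
    have hlcm : σ.cycleType.lcm = r * s := by rw [Equiv.Perm.lcm_cycleType, hord']
    have hsum : σ.cycleType.sum ≤ n := by simpa using σ.sum_cycleType_le
    obtain ⟨c1, hc1, hrc1⟩ := prime_dvd_mlcm hr σ.cycleType (by rw [hlcm]; exact dvd_mul_right r s)
    have hc1pos : 0 < c1 := by have := Equiv.Perm.two_le_of_mem_cycleType hc1; omega
    by_cases hsc1 : s ∣ c1
    · have h1 : r * s ∣ c1 := hcop.mul_dvd_of_dvd_of_dvd hrc1 hsc1
      have h2 : c1 ≤ σ.cycleType.sum := Multiset.le_sum_of_mem hc1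
      have h3 : r * s ≤ c1 := Nat.le_of_dvd hc1pos h1
      have h4 : r + s ≤ r * s := by nlinarith [hr.two_le, hs.two_le]
      omega
    · obtain ⟨t, ht⟩ := Multiset.exists_cons_of_mem hc1
      rw [ht, Multiset.lcm_cons] at hlcm
      have h1 : s ∣ t.lcm := by
        have : s ∣ GCDMonoid.lcm c1 t.lcm := by rw [hlcm]; exact dvd_mul_left s r
        rcases hs.dvd_or_dvd_of_dvd_lcm this with h | h
        · exact absurd h hsc1
        · exact h
      obtain ⟨c2, hc2, hsc2⟩ := prime_dvd_mlcm hs t h1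
      have hc2pos : 0 < c2 := by
        have : c2 ∈ σ.cycleType := by rw [ht]; exact Multiset.mem_cons_of_mem hc2
        have := Equiv.Perm.two_le_of_mem_cycleType this
        omega
      rw [ht, Multiset.sum_cons] at hsum
      have h2 : c2 ≤ t.sum := Multiset.le_sum_of_mem hc2
      have := Nat.le_of_dvd hc1pos hrc1
      have := Nat.le_of_dvd hc2pos hsc2
      omega
  · intro hle
    obtain ⟨g, hg⟩ := (Equiv.Perm.exists_with_cycleType_iff (α := Fin n) (m := {r, s})).mpr
      ⟨by simpa using hle, by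
        intro a ha
        simp only [Multiset.insert_eq_cons, Multiset.mem_cons, Multiset.mem_singleton] at ha
        rcases ha with rfl | rfl
        · exact hr.two_le
        · exact hs.two_le⟩
    have hsign : Equiv.Perm.sign g = 1 := by
      rw [Equiv.Perm.sign_of_cycleType, hg]
      apply Even.neg_one_pow
      have h1 := hr.odd_of_ne_two hr2
      have h2 := hs.odd_of_ne_two hs2
      simp only [Multiset.insert_eq_cons, Multiset.sum_cons, Multiset.sum_singleton,
        Multiset.card_cons, Multiset.card_singleton]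
      rcases h1 with ⟨a, rfl⟩
      rcases h2 with ⟨b, rfl⟩
      exact ⟨a + b + 2, by ring⟩
    refine ⟨⟨g, Equiv.Perm.mem_alternatingGroup.mpr hsign⟩, ?_⟩
    rw [Subgroup.orderOf_mk, ← Equiv.Perm.lcm_cycleType, hg]
    simp only [Multiset.insert_eq_cons, Multiset.lcm_cons, Multiset.lcm_singleton, normalize_eq]
    exact hcop.lcm_eq_mul

end Cfsg.Agent.S2466
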