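import Cfsg.Statements.S2467
import Mathlib

set_option autoImplicit false
open Cfsg

namespace Cfsg.Agent.S2467

theorem prime_dvd_mlcm {p : ℕ} (hp : p.Prime) (m : Multiset ℕ) (h : p ∣ m.lcm) :
    ∃ a ∈ m, p ∣ a := by
  induction m using Multiset.induction_on with
  | empty =>
    rw [Multiset.lcm_zero] at h
    exact absurd (Nat.dvd_one.mp h) hp.one_lt.ne'
  | cons a s ih =>
    rw [Multiset.lcm_cons] at h
    rcases hp.dvd_or_dvd_of_dvd_lcm h with h1 | h1
    · exact ⟨a, Multiset.mem_cons_self a s, h1⟩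
    · obtain ⟨b, hb, hpb⟩ := ih h1
      exact ⟨b, Multiset.mem_cons_of_mem hb, hpb⟩

theorem parity_aux (m : Multiset ℕ) :
    (m.sum + Multiset.card m) % 2 = (Multiset.card (m.filter Even)) % 2 := by
  induction m using Multiset.induction_on with
  | empty => simp
  | cons a s ih =>
    rw [Multiset.sum_cons, Multiset.card_cons]
    by_cases ha : Even a
    · rw [Multiset.filter_cons_of_pos _ ha, Multiset.card_cons]
      have := Nat.even_iff.mp ha
      omega
    · rw [Multiset.filter_cons_of_neg _ ha]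
      have := Nat.odd_iff.mp (Nat.not_even_iff_odd.mp ha)
      omega

theorem result (n r : ℕ) (hn : 4 ≤ n) (hr : r.Prime) (hr2 : r ≠ 2) (hrn : r ≤ n) :
    (2 * r ∈ Set.range (orderOf : alternatingGroup (Fin n) → ℕ)) ↔ r + 4 ≤ n := by
  classical
  have hrodd : Odd r := hr.odd_of_ne_two hr2
  have hcop : Nat.Coprime 2 r := (Nat.coprime_primes Nat.prime_two hr).mpr (Ne.symm hr2)
  constructor
  · rintro ⟨⟨σ, hσ⟩, hord⟩
    have hord' : orderOf σ = 2 * r := by rw [← hord]; exact (Subgroup.orderOf_mk σ hσ).symm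
    have hlcm : σ.cycleType.lcm = 2 * r := by rw [Equiv.Perm.lcm_cycleType, hord']
    have hsum : σ.cycleType.sum ≤ n := by simpa using σ.sum_cycleType_le
    have hsign : Equiv.Perm.sign σ = 1 := Equiv.Perm.mem_alternatingGroup.mp hσ
    rw [Equiv.Perm.sign_of_cycleType, neg_one_pow_eq_one_iff_even (by decide)] at hsign
    have hpar := parity_aux σ.cycleType
    have hE0 : Multiset.card (σ.cycleType.filter Even) % 2 = 0 := by
      rw [← hpar]; exact Nat.even_iff.mp hsign
    obtain ⟨c, hc, h2c⟩ := prime_dvd_mlcm Nat.prime_two σ.cycleType (by rw [hlcm]; exact dvd_mul_right 2 r)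
    have hcE : c ∈ σ.cycleType.filter Even := Multiset.mem_filter.mpr ⟨hc, (even_iff_two_dvd).mpr h2c⟩
    have hE1 : 0 < Multiset.card (σ.cycleType.filter Even) := Multiset.card_pos_iff_exists_mem.mpr ⟨c, hcE⟩
    have hE2 : 2 ≤ Multiset.card (σ.cycleType.filter Even) := by omega
    have hsplit := Multiset.filter_add_not (fun a => Even a) σ.cycleType
    have hsumsplit : σ.cycleType.sum = (σ.cycleType.filter Even).sum + (σ.cycleType.filter (fun a => ¬ Even a)).sum := by
      conv_lhs => rw [← hsplit]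
      rw [Multiset.sum_add]
    have hEge : ∀ a ∈ σ.cycleType.filter Even, 2 ≤ a := fun a ha =>
      Equiv.Perm.two_le_of_mem_cycleType (Multiset.mem_filter.mp ha).1
    have hEsum : Multiset.card (σ.cycleType.filter Even) • 2 ≤ (σ.cycleType.filter Even).sum :=
      Multiset.card_nsmul_le_sum hEge
    rw [smul_eq_mul] at hEsum
    obtain ⟨c1, hc1, hrc1⟩ := prime_dvd_mlcm hr σ.cycleType (by rw [hlcm]; exact dvd_mul_left r 2)
    have hc1pos : 0 < c1 := by have := Equiv.Perm.two_le_of_mem_cycleType hc1; omega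
    by_cases hev : Even c1
    · have hc1E : c1 ∈ σ.cycleType.filter Even := Multiset.mem_filter.mpr ⟨hc1, hev⟩
      obtain ⟨t, ht⟩ := Multiset.exists_cons_of_mem hc1E
      have h1 : 2 * r ∣ c1 := hcop.mul_dvd_of_dvd_of_dvd (even_iff_two_dvd.mp hev) hrc1
      have h2 : 2 * r ≤ c1 := Nat.le_of_dvd hc1pos h1
      have htge : ∀ a ∈ t, 2 ≤ a := fun a ha => hEge a (by rw [ht]; exact Multiset.mem_cons_of_mem ha)
      have htsum : Multiset.card t • 2 ≤ t.sum := Multiset.card_nsmul_le_sum htge
      rw [smul_eq_mul] at htsum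
      rw [ht, Multiset.card_cons] at hE2
      rw [ht, Multiset.sum_cons] at hsumsplit
      have := hr.two_le
      omega
    · have hc1O : c1 ∈ σ.cycleType.filter (fun a => ¬ Even a) := Multiset.mem_filter.mpr ⟨hc1, hev⟩
      have h1 : c1 ≤ (σ.cycleType.filter (fun a => ¬ Even a)).sum := Multiset.le_sum_of_mem hc1O
      have h2 : r ≤ c1 := Nat.le_of_dvd hc1pos hrc1
      omega
  · intro hle
    obtain ⟨g, hg⟩ := (Equiv.Perm.exists_with_cycleType_iff (α := Fin n) (m := {r, 2, 2})).mpr
      ⟨by simp only [Multiset.insert_eq_cons, Multiset.sum_cons, Multiset.sum_singleton, Fintype.card_fin]; omega, by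
        intro a ha
        simp only [Multiset.insert_eq_cons, Multiset.mem_cons, Multiset.mem_singleton] at ha
        rcases ha with rfl | rfl | rfl
        · exact hr.two_le
        · exact le_rfl
        · exact le_rfl⟩
    have hsign : Equiv.Perm.sign g = 1 := by
      rw [Equiv.Perm.sign_of_cycleType, hg]
      apply Even.neg_one_pow
      simp only [Multiset.insert_eq_cons, Multiset.sum_cons, Multiset.sum_singleton,
        Multiset.card_cons, Multiset.card_singleton]
      rcases hrodd with ⟨a, rfl⟩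
      exact ⟨a + 4, by ring⟩
    refine ⟨⟨g, Equiv.Perm.mem_alternatingGroup.mpr hsign⟩, ?_⟩
    rw [Subgroup.orderOf_mk, ← Equiv.Perm.lcm_cycleType, hg]
    simp only [Multiset.insert_eq_cons, Multiset.lcm_cons, Multiset.lcm_singleton, normalize_eq]
    show Nat.lcm r (Nat.lcm 2 2) = 2 * r
    rw [Nat.lcm_self, Nat.lcm_comm]
    exact hcop.lcm_eq_mul

end Cfsg.Agent.S2467
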