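import Cfsg.Statements.S2471
import Mathlib

set_option autoImplicit false
open Cfsg

namespace Cfsg.Agent.S2471

theorem key {F : Type*} [Field F] (p : ℕ) [Fact p.Prime] [CharP F p] (hp : p ≠ 2)
    (g : Matrix.SpecialLinearGroup (Fin 2) F) :
    g ^ 2 ∈ Subgroup.center (Matrix.SpecialLinearGroup (Fin 2) F) ∨
    g ^ p ∈ Subgroup.center (Matrix.SpecialLinearGroup (Fin 2) F) ∨
    g ^ (2 * p) ∉ Subgroup.center (Matrix.SpecialLinearGroup (Fin 2) F) := by
  classical
  have hp' : p.Prime := Fact.out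
  have h2F : (2 : F) ≠ 0 := by
    intro h
    have h' : ((2 : ℕ) : F) = 0 := by exact_mod_cast h
    rw [CharP.cast_eq_zero_iff F p] at h'
    exact hp ((Nat.prime_dvd_prime_iff_eq hp' Nat.prime_two).mp h')
  obtain ⟨A, hA⟩ : ∃ A : Matrix (Fin 2) (Fin 2) F, A = (g : Matrix (Fin 2) (Fin 2) F) := ⟨_, rfl⟩
  have hdet : A 0 0 * A 1 1 - A 0 1 * A 1 0 = 1 := by
    rw [← Matrix.det_fin_two, hA]; exact g.2
  have hpow : ∀ k : ℕ, ((g ^ k : Matrix.SpecialLinearGroup (Fin 2) F) :
      Matrix (Fin 2) (Fin 2) F) = A ^ k := by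
    intro k; rw [hA]; exact Matrix.SpecialLinearGroup.coe_pow g k
  have hcenter : ∀ (h : Matrix.SpecialLinearGroup (Fin 2) F),
      h ∈ Subgroup.center (Matrix.SpecialLinearGroup (Fin 2) F) ↔
      ∃ r : F, r ^ 2 = 1 ∧ r • (1 : Matrix (Fin 2) (Fin 2) F) = (h : Matrix (Fin 2) (Fin 2) F) := by
    intro h
    rw [Matrix.SpecialLinearGroup.mem_center_iff]
    simp [Matrix.smul_one_eq_diagonal]
  obtain ⟨t, ht⟩ : ∃ t : F, t = A 0 0 + A 1 1 := ⟨_, rfl⟩
  by_cases ht0 : t = 0
  · left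
    rw [hcenter]
    refine ⟨-1, by ring, ?_⟩
    rw [hpow, pow_two]
    ext i j
    fin_cases i <;> fin_cases j <;> simp [Matrix.mul_apply, Fin.sum_univ_two] <;> grind
  by_cases ht4 : t ^ 2 = 4
  · right; left
    rw [hcenter]
    have hNN : (A - (t / 2) • (1 : Matrix (Fin 2) (Fin 2) F)) *
        (A - (t / 2) • (1 : Matrix (Fin 2) (Fin 2) F)) = 0 := by
      ext i j
      fin_cases i <;> fin_cases j <;> simp [Matrix.mul_apply, Fin.sum_univ_two] <;> grind
    have hAp : A ^ p = ((t / 2) ^ p) • (1 : Matrix (Fin 2) (Fin 2) F) := by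
      have e : A = (t / 2) • (1 : Matrix (Fin 2) (Fin 2) F) +
          (A - (t / 2) • (1 : Matrix (Fin 2) (Fin 2) F)) := by abel
      have hc : Commute ((t / 2) • (1 : Matrix (Fin 2) (Fin 2) F))
          (A - (t / 2) • (1 : Matrix (Fin 2) (Fin 2) F)) :=
        Commute.smul_left (Commute.one_left _) _
      have hNp : (A - (t / 2) • (1 : Matrix (Fin 2) (Fin 2) F)) ^ p = 0 := by
        have h2 : 2 ≤ p := hp'.two_le
        rw [← Nat.sub_add_cancel h2, pow_add, pow_two, hNN, mul_zero]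
      conv_lhs => rw [e]
      rw [add_pow_char_of_commute p hc, hNp, add_zero, smul_pow, one_pow]
    refine ⟨(t / 2) ^ p, ?_, ?_⟩
    · rw [← pow_mul, mul_comm, pow_mul]
      have : (t / 2) ^ 2 = 1 := by grind
      rw [this, one_pow]
    · rw [hpow, hAp]
  · right; right
    rw [hcenter]
    rintro ⟨r, -, hr⟩
    rw [hpow] at hr
    obtain ⟨k, hk⟩ := hp'.odd_of_ne_two hp
    have hδδ : ((2 : F) • A - t • (1 : Matrix (Fin 2) (Fin 2) F)) *
        ((2 : F) • A - t • (1 : Matrix (Fin 2) (Fin 2) F)) =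
        (t ^ 2 - 4) • (1 : Matrix (Fin 2) (Fin 2) F) := by
      ext i j
      fin_cases i <;> fin_cases j <;> simp [Matrix.mul_apply, Fin.sum_univ_two] <;> grind
    have hδp : ((2 : F) • A - t • (1 : Matrix (Fin 2) (Fin 2) F)) ^ p =
        ((t ^ 2 - 4) ^ k) • ((2 : F) • A - t • (1 : Matrix (Fin 2) (Fin 2) F)) := by
      rw [hk, pow_succ, pow_mul, pow_two, hδδ, smul_pow, one_pow, smul_mul_assoc, one_mul]
    have h2Ap : (2 : F) ^ p • A ^ p = t ^ p • (1 : Matrix (Fin 2) (Fin 2) F) +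
        ((t ^ 2 - 4) ^ k) • ((2 : F) • A - t • (1 : Matrix (Fin 2) (Fin 2) F)) := by
      have e : (2 : F) • A = t • (1 : Matrix (Fin 2) (Fin 2) F) +
          ((2 : F) • A - t • (1 : Matrix (Fin 2) (Fin 2) F)) := by abel
      have hc : Commute (t • (1 : Matrix (Fin 2) (Fin 2) F))
          ((2 : F) • A - t • (1 : Matrix (Fin 2) (Fin 2) F)) :=
        Commute.smul_left (Commute.one_left _) _
      rw [← smul_pow]
      conv_lhs => rw [e]
      rw [add_pow_char_of_commute p hc, hδp, smul_pow, one_pow]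
    -- the matrix M = 2^p • A^p has entries α δ_ij + β A i j
    obtain ⟨β, hβ⟩ : ∃ β : F, β = 2 * (t ^ 2 - 4) ^ k := ⟨_, rfl⟩
    obtain ⟨α, hα⟩ : ∃ α : F, α = t ^ p - (t ^ 2 - 4) ^ k * t := ⟨_, rfl⟩
    have hM : (2 : F) ^ p • A ^ p = α • (1 : Matrix (Fin 2) (Fin 2) F) + β • A := by
      rw [h2Ap, hα, hβ]
      ext i j
      fin_cases i <;> fin_cases j <;> simp <;> ring
    have hsq : (α • (1 : Matrix (Fin 2) (Fin 2) F) + β • A) *
        (α • (1 : Matrix (Fin 2) (Fin 2) F) + β • A) =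
        ((2 : F) ^ p * (2 : F) ^ p * r) • (1 : Matrix (Fin 2) (Fin 2) F) := by
      calc (α • (1 : Matrix (Fin 2) (Fin 2) F) + β • A) * (α • (1 : Matrix (Fin 2) (Fin 2) F) + β • A)
          = ((2 : F) ^ p • A ^ p) * ((2 : F) ^ p • A ^ p) := by rw [hM]
        _ = ((2 : F) ^ p * (2 : F) ^ p) • (A ^ p * A ^ p) := by rw [smul_mul_smul_comm]
        _ = ((2 : F) ^ p * (2 : F) ^ p) • A ^ (2 * p) := by
            congr 1
            rw [two_mul, pow_add]
        _ = ((2 : F) ^ p * (2 : F) ^ p * r) • (1 : Matrix (Fin 2) (Fin 2) F) := by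
            rw [← hr, smul_smul]
    have hβ0 : β ≠ 0 := by
      rw [hβ]
      refine mul_ne_zero h2F (pow_ne_zero _ ?_)
      intro h
      exact ht4 (by linear_combination h)
    have htp : t ^ p ≠ 0 := pow_ne_zero _ ht0
    have hαβ : 2 * α + β * t = 2 * t ^ p := by rw [hα, hβ]; ring
    have e01 := congrFun (congrFun hsq 0) 1
    have e10 := congrFun (congrFun hsq 1) 0
    have e00 := congrFun (congrFun hsq 0) 0
    have e11 := congrFun (congrFun hsq 1) 1
    simp [Matrix.mul_apply, Fin.sum_univ_two] at e01 e10 e00 e11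
    have hb : A 0 1 = 0 := by
      have h1 : β * (2 * t ^ p) * A 0 1 = 0 := by
        rw [← hαβ, ht]; linear_combination e01
      rcases mul_eq_zero.mp h1 with h | h
      · exact absurd h (mul_ne_zero hβ0 (mul_ne_zero h2F htp))
      · exact h
    have hc : A 1 0 = 0 := by
      have h1 : β * (2 * t ^ p) * A 1 0 = 0 := by
        rw [← hαβ, ht]; linear_combination e10
      rcases mul_eq_zero.mp h1 with h | h
      · exact absurd h (mul_ne_zero hβ0 (mul_ne_zero h2F htp))
      · exact h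
    have had : A 0 0 = A 1 1 := by
      have h1 : β * (2 * t ^ p) * (A 0 0 - A 1 1) = 0 := by
        rw [← hαβ, ht]; linear_combination e00 - e11
      rcases mul_eq_zero.mp h1 with h | h
      · exact absurd h (mul_ne_zero hβ0 (mul_ne_zero h2F htp))
      · exact sub_eq_zero.mp h
    apply ht4
    rw [ht, ← had]
    rw [hb, ← had] at hdet
    linear_combination 4 * hdet

theorem result {F : Type*} [Field F] [Fintype F] (p : ℕ) [Fact p.Prime] [CharP F p] (hp : p ≠ 2) (h5 : 5 ≤ Fintype.card F) (g : Matrix.ProjectiveSpecialLinearGroup (Fin 2) F) :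
    orderOf g ≠ 2 * p := by
  classical
  have hp' : p.Prime := Fact.out
  intro hord
  obtain ⟨g0, rfl⟩ := QuotientGroup.mk_surjective g
  have hcen : ∀ k : ℕ, g0 ^ k ∈ Subgroup.center (Matrix.SpecialLinearGroup (Fin 2) F) ↔
      (2 * p) ∣ k := by
    intro k
    rw [← hord, orderOf_dvd_iff_pow_eq_one, ← QuotientGroup.mk_pow, QuotientGroup.eq_one_iff]
  rcases key p hp g0 with h | h | h
  · rw [hcen] at h
    have := Nat.le_of_dvd (by norm_num) h
    have := hp'.two_le
    omega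
  · rw [hcen] at h
    have := Nat.le_of_dvd hp'.pos h
    have := hp'.two_le
    omega
  · exact h ((hcen _).mpr dvd_rfl)

end Cfsg.Agent.S2471
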