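import Cfsg.Statements.S2505
import Mathlib

set_option autoImplicit false
open Cfsg

set_option maxHeartbeats 1000000
namespace Cfsg.Agent.S2505

/-- the maximal product of a partition of `n` -/
def gb : ℕ → ℕ
  | 0 => 1
  | 1 => 1
  | 2 => 2
  | 3 => 3
  | 4 => 4
  | (n + 5) => 3 * gb (n + 2)

theorem gb_add_five (n : ℕ) : gb (n + 5) = 3 * gb (n + 2) := by
  rw [gb]

theorem gb_add_three (n : ℕ) (hn : n ≠ 1) : gb (n + 3) = 3 * gb n := by
  match n, hn with
  | 0, _ => rfl
  | 1, h => exact absurd rfl h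
  | (m + 2), _ => exact gb_add_five m

theorem gb_pos (n : ℕ) : 1 ≤ gb n := by
  induction n using Nat.strong_induction_on with
  | _ n ih =>
    match n, ih with
    | 0, _ => decide
    | 1, _ => decide
    | 2, _ => decide
    | 3, _ => decide
    | 4, _ => decide
    | (m + 5), ih =>
      rw [gb_add_five]
      have := ih (m + 2) (by omega)
      omega

theorem le_gb (n : ℕ) : n ≤ gb n := by
  induction n using Nat.strong_induction_on with
  | _ n ih =>
    match n, ih with
    | 0, _ => decide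
    | 1, _ => decide
    | 2, _ => decide
    | 3, _ => decide
    | 4, _ => decide
    | (m + 5), ih =>
      rw [gb_add_five]
      have := ih (m + 2) (by omega)
      omega

theorem gb_mul : ∀ (n a b : ℕ), a + b = n → gb a * gb b ≤ gb (a + b) := by
  intro n
  induction n using Nat.strong_induction_on with
  | _ n ih =>
    intro a b hab
    by_cases ha : 5 ≤ a
    · obtain ⟨a', rfl⟩ : ∃ a', a = a' + 5 := ⟨a - 5, by omega⟩
      have e : a' + 5 + b = (a' + b) + 5 := by ring
      rw [e, gb_add_five, gb_add_five]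
      have h1 := ih (a' + 2 + b) (by omega) (a' + 2) b rfl
      have e2 : a' + 2 + b = a' + b + 2 := by ring
      rw [e2] at h1
      calc 3 * gb (a' + 2) * gb b = 3 * (gb (a' + 2) * gb b) := by ring
        _ ≤ 3 * gb (a' + b + 2) := Nat.mul_le_mul_left 3 h1
    · by_cases hb : 5 ≤ b
      · obtain ⟨b', rfl⟩ : ∃ b', b = b' + 5 := ⟨b - 5, by omega⟩
        have e : a + (b' + 5) = (a + b') + 5 := by ring
        rw [e, gb_add_five, gb_add_five]
        have h1 := ih (a + (b' + 2)) (by omega) a (b' + 2) rfl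
        have e2 : a + (b' + 2) = a + b' + 2 := by ring
        rw [e2] at h1
        calc gb a * (3 * gb (b' + 2)) = 3 * (gb a * gb (b' + 2)) := by ring
          _ ≤ 3 * gb (a + b' + 2) := Nat.mul_le_mul_left 3 h1
      · have ha' : a ≤ 4 := by omega
        have hb' : b ≤ 4 := by omega
        interval_cases a <;> interval_cases b <;> decide

theorem gb_closed (k : ℕ) :
    gb (3 * k) = 3 ^ k ∧ gb (3 * k + 2) = 2 * 3 ^ k ∧ gb (3 * k + 4) = 4 * 3 ^ k := by
  induction k with
  | zero => exact ⟨rfl, rfl, rfl⟩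
  | succ k ih =>
    obtain ⟨h0, h2, h4⟩ := ih
    refine ⟨?_, ?_, ?_⟩
    · have e : 3 * (k + 1) = 3 * k + 3 := by ring
      rw [e, gb_add_three _ (by omega), h0]
      ring
    · have e : 3 * (k + 1) + 2 = 3 * k + 2 + 3 := by ring
      rw [e, gb_add_three _ (by omega), h2]
      ring
    · have e : 3 * (k + 1) + 4 = 3 * k + 4 + 3 := by ring
      rw [e, gb_add_three _ (by omega), h4]
      ring

/-- an abelian permutation group moving only the points of a set with `n` elements has order
at most `gb n`. -/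
theorem abelian_bound {α : Type*} [Fintype α] [DecidableEq α] :
    ∀ (n : ℕ) (T : Finset α), T.card = n → ∀ A : Subgroup (Equiv.Perm α),
      (∀ x ∈ A, ∀ y ∈ A, x * y = y * x) → (∀ g ∈ A, ∀ x, x ∉ T → g x = x) →
      Nat.card A ≤ gb n := by
  classical
  intro n
  induction n using Nat.strong_induction_on with
  | _ n ih =>
    intro T hT A hcomm hfix
    rcases T.eq_empty_or_nonempty with hTe | ⟨a, ha⟩
    · have hA : A = ⊥ := by
        rw [Subgroup.eq_bot_iff_forall]
        intro g hg
        ext x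
        exact hfix g hg x (by simp [hTe])
      rw [hA, Subgroup.card_bot]
      exact gb_pos n
    · have hos : (MulAction.stabilizer A a).index * Nat.card (MulAction.stabilizer A a)
          = Nat.card A := Subgroup.index_mul_card _
      rw [MulAction.index_stabilizer] at hos
      have hOT : ∀ x ∈ MulAction.orbit A a, x ∈ T := by
        rintro x ⟨g, rfl⟩
        by_contra hx
        have h1 := hfix (g⁻¹ : A) (g⁻¹).2 (g • a) hx
        have h2 : ((g⁻¹ : A) : Equiv.Perm α) (g • a) = a := by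
          change (g⁻¹ : A) • (g • a) = a
          rw [inv_smul_smul]
        rw [h2] at h1
        apply hx
        change g • a ∈ T
        rw [← h1]
        exact ha
      have hsub : (MulAction.orbit A a).toFinset ⊆ T := by
        intro x hx
        exact hOT x (Set.mem_toFinset.1 hx)
      have hm : (MulAction.orbit A a).ncard = (MulAction.orbit A a).toFinset.card :=
        Set.ncard_eq_toFinset_card' _
      have hm1 : 1 ≤ (MulAction.orbit A a).toFinset.card := by
        apply Finset.card_pos.2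
        exact ⟨a, Set.mem_toFinset.2 (MulAction.mem_orbit_self a)⟩
      have hmn : (MulAction.orbit A a).toFinset.card ≤ n := by
        rw [← hT]
        exact Finset.card_le_card hsub
      have hT' : (T \ (MulAction.orbit A a).toFinset).card
          = n - (MulAction.orbit A a).toFinset.card := by
        rw [Finset.card_sdiff_of_subset hsub, hT]
      have hS := ih (n - (MulAction.orbit A a).toFinset.card) (by omega)
        (T \ (MulAction.orbit A a).toFinset) hT'
        ((MulAction.stabilizer A a).map A.subtype)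
        (by
          rintro x hx y hy
          obtain ⟨s, -, rfl⟩ := Subgroup.mem_map.1 hx
          obtain ⟨s', -, rfl⟩ := Subgroup.mem_map.1 hy
          exact hcomm _ s.2 _ s'.2)
        (by
          rintro g hg x hx
          obtain ⟨s, hs, rfl⟩ := Subgroup.mem_map.1 hg
          rw [Finset.mem_sdiff, not_and_or, not_not] at hx
          rcases hx with hx | hx
          · exact hfix _ s.2 x hx
          · obtain ⟨h, rfl⟩ := Set.mem_toFinset.1 hx
            change s • (h • a) = h • a
            rw [← mul_smul]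
            have hc : s * h = h * s := Subtype.ext (hcomm _ s.2 _ h.2)
            rw [hc, mul_smul]
            congr 1)
      rw [Subgroup.card_map_of_injective A.subtype_injective] at hS
      rw [← hos, hm]
      calc (MulAction.orbit A a).toFinset.card * Nat.card (MulAction.stabilizer A a)
          ≤ gb (MulAction.orbit A a).toFinset.card
              * gb (n - (MulAction.orbit A a).toFinset.card) :=
            Nat.mul_le_mul (le_gb _) hS
        _ ≤ gb ((MulAction.orbit A a).toFinset.card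
              + (n - (MulAction.orbit A a).toFinset.card)) := gb_mul _ _ _ rfl
        _ = gb n := by
            congr 1
            omega

theorem mkComm {G : Type*} [Group G] (A : Subgroup G) (h : ∀ x ∈ A, ∀ y ∈ A, x * y = y * x) :
    IsMulCommutative A :=
  ⟨⟨fun x y => Subtype.ext (h x.1 x.2 y.1 y.2)⟩⟩

theorem exists_cyclic {n : ℕ} (σ : Equiv.Perm (Fin n)) :
    ∃ A : Subgroup (Equiv.Perm (Fin n)), IsMulCommutative A ∧ Nat.card A = orderOf σ := by
  refine ⟨Subgroup.zpowers σ, mkComm _ ?_, Nat.card_zpowers σ⟩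
  intro x hx y hy
  obtain ⟨i, rfl⟩ := Subgroup.mem_zpowers_iff.1 hx
  obtain ⟨j, rfl⟩ := Subgroup.mem_zpowers_iff.1 hy
  exact zpow_mul_comm σ i j

theorem exists_step {n c : ℕ}
    (h : ∃ A : Subgroup (Equiv.Perm (Fin n)), IsMulCommutative A ∧ Nat.card A = c) :
    ∃ A : Subgroup (Equiv.Perm (Fin (n + 3))), IsMulCommutative A ∧ Nat.card A = 3 * c := by
  obtain ⟨A, hA, hc⟩ := h
  obtain ⟨ψ, hψ⟩ : ∃ ψ : Equiv.Perm (Fin n) × Equiv.Perm (Fin 3) →* Equiv.Perm (Fin (n + 3)),
      Function.Injective ψ :=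
    ⟨(finSumFinEquiv.permCongrHom : Equiv.Perm (Fin n ⊕ Fin 3) ≃* Equiv.Perm (Fin (n + 3))).toMonoidHom.comp
      (Equiv.Perm.sumCongrHom (Fin n) (Fin 3)),
      fun x y hxy => Equiv.Perm.sumCongrHom_injective
        ((finSumFinEquiv.permCongrHom : Equiv.Perm (Fin n ⊕ Fin 3) ≃* Equiv.Perm (Fin (n + 3))).injective hxy)⟩
  have hB : Nat.card (Subgroup.zpowers (finRotate 3)) = 3 := by
    rw [Nat.card_zpowers]
    exact orderOf_eq_prime (by decide) (by decide)
  refine ⟨(A.prod (Subgroup.zpowers (finRotate 3))).map ψ, mkComm _ ?_, ?_⟩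
  · intro x hx y hy
    obtain ⟨⟨a, b⟩, hab, rfl⟩ := Subgroup.mem_map.1 hx
    obtain ⟨⟨a', b'⟩, hab', rfl⟩ := Subgroup.mem_map.1 hy
    rw [Subgroup.mem_prod] at hab hab'
    rw [← map_mul, ← map_mul]
    congr 1
    obtain ⟨i, hi⟩ := Subgroup.mem_zpowers_iff.1 hab.2
    obtain ⟨j, hj⟩ := Subgroup.mem_zpowers_iff.1 hab'.2
    simp only at hi hj
    rw [Prod.mk_mul_mk, Prod.mk_mul_mk]
    have h1 : a * a' = a' * a := congrArg Subtype.val (hA.is_comm.comm ⟨a, hab.1⟩ ⟨a', hab'.1⟩)
    have h2 : b * b' = b' * b := by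
      rw [← hi, ← hj]
      exact zpow_mul_comm _ i j
    rw [h1, h2]
  · rw [Subgroup.card_map_of_injective hψ,
      Nat.card_congr (Subgroup.prodEquiv A (Subgroup.zpowers (finRotate 3))).toEquiv,
      Nat.card_prod, hc, hB, mul_comm]

theorem ex_all : ∀ (k n : ℕ),
    (n = 3 * k → ∃ A : Subgroup (Equiv.Perm (Fin n)), IsMulCommutative A ∧ Nat.card A = 3 ^ k) ∧
    (n = 3 * k + 2 →
      ∃ A : Subgroup (Equiv.Perm (Fin n)), IsMulCommutative A ∧ Nat.card A = 2 * 3 ^ k) ∧
    (n = 3 * k + 4 →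
      ∃ A : Subgroup (Equiv.Perm (Fin n)), IsMulCommutative A ∧ Nat.card A = 4 * 3 ^ k) := by
  intro k
  induction k with
  | zero =>
    intro n
    refine ⟨?_, ?_, ?_⟩
    · intro hn
      refine ⟨⊥, mkComm _ ?_, by simp⟩
      intro x hx y hy
      rw [Subgroup.mem_bot] at hx hy
      rw [hx, hy]
    · intro hn
      obtain rfl : n = 2 := by omega
      obtain ⟨A, hA, hc⟩ := exists_cyclic (Equiv.swap (0 : Fin 2) 1)
      refine ⟨A, hA, ?_⟩
      have h2 : orderOf (Equiv.swap (0 : Fin 2) 1) = 2 := orderOf_eq_prime (by decide) (by decide)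
      rw [hc, h2]
      norm_num
    · intro hn
      obtain rfl : n = 4 := by omega
      obtain ⟨A, hA, hc⟩ := exists_cyclic (finRotate 4)
      refine ⟨A, hA, ?_⟩
      have h4 : orderOf (finRotate 4) = 2 ^ (1 + 1) :=
        orderOf_eq_prime_pow (p := 2) (n := 1) (by decide) (by decide)
      rw [hc, h4]
      norm_num
  | succ k ih =>
    intro n
    refine ⟨?_, ?_, ?_⟩
    · intro hn
      obtain ⟨m, rfl, hm⟩ : ∃ m, n = m + 3 ∧ m = 3 * k := ⟨n - 3, by omega, by omega⟩
      obtain ⟨A, hA, hc⟩ := exists_step ((ih m).1 hm)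
      exact ⟨A, hA, by rw [hc]; ring⟩
    · intro hn
      obtain ⟨m, rfl, hm⟩ : ∃ m, n = m + 3 ∧ m = 3 * k + 2 := ⟨n - 3, by omega, by omega⟩
      obtain ⟨A, hA, hc⟩ := exists_step ((ih m).2.1 hm)
      exact ⟨A, hA, by rw [hc]; ring⟩
    · intro hn
      obtain ⟨m, rfl, hm⟩ : ∃ m, n = m + 3 ∧ m = 3 * k + 4 := ⟨n - 3, by omega, by omega⟩
      obtain ⟨A, hA, hc⟩ := exists_step ((ih m).2.2 hm)
      exact ⟨A, hA, by rw [hc]; ring⟩

theorem perm_bound {n : ℕ} (A : Subgroup (Equiv.Perm (Fin n))) (hA : IsMulCommutative A) :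
    Nat.card A ≤ gb n :=
  abelian_bound (α := Fin n) n Finset.univ (by simp) A
    (fun x hx y hy => congrArg Subtype.val (hA.is_comm.comm ⟨x, hx⟩ ⟨y, hy⟩))
    (fun g _ x hx => absurd (Finset.mem_univ x) hx)

theorem result (k : ℕ) (hk : 1 ≤ k) :
    IsGreatest {c : ℕ | ∃ A : Subgroup (Equiv.Perm (Fin (3 * k))), IsMulCommutative A ∧ Nat.card A = c} (3 ^ k) ∧
    IsGreatest {c : ℕ | ∃ A : Subgroup (Equiv.Perm (Fin (3 * k + 1))), IsMulCommutative A ∧ Nat.card A = c}
      (4 * 3 ^ (k - 1)) ∧
    IsGreatest {c : ℕ | ∃ A : Subgroup (Equiv.Perm (Fin (3 * k + 2))), IsMulCommutative A ∧ Nat.card A = c}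
      (2 * 3 ^ k) := by
  obtain ⟨k', rfl⟩ : ∃ k', k = k' + 1 := ⟨k - 1, by omega⟩
  refine ⟨⟨(ex_all (k' + 1) _).1 rfl, ?_⟩, ⟨?_, ?_⟩, ⟨(ex_all (k' + 1) _).2.1 rfl, ?_⟩⟩
  · rintro c ⟨A, hA, rfl⟩
    rw [← (gb_closed (k' + 1)).1]
    exact perm_bound A hA
  · have h := (ex_all k' (3 * (k' + 1) + 1)).2.2 (by ring)
    simpa using h
  · rintro c ⟨A, hA, rfl⟩
    have h := perm_bound A hA
    have e : gb (3 * (k' + 1) + 1) = 4 * 3 ^ k' := by
      have e' : 3 * (k' + 1) + 1 = 3 * k' + 4 := by ring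
      rw [e']
      exact (gb_closed k').2.2
    rw [e] at h
    simpa using h
  · rintro c ⟨A, hA, rfl⟩
    rw [← (gb_closed (k' + 1)).2.1]
    exact perm_bound A hA

end Cfsg.Agent.S2505
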