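import Cfsg.Statements.S2504
import Mathlib
import Cfsg.Agent.S2505

set_option autoImplicit false
open Cfsg

set_option maxHeartbeats 2000000
namespace Cfsg.Agent.S2504

/-- the maximal order of an abelian group of even permutations of `n` points -/
def eb : ℕ → ℕ
  | 0 => 1
  | 1 => 1
  | 2 => 1
  | 3 => 3
  | 4 => 4
  | 5 => 5
  | 6 => 9
  | 7 => 12
  | 8 => 16
  | (n + 9) => 3 * eb (n + 6)

theorem eb_add_nine (n : ℕ) : eb (n + 9) = 3 * eb (n + 6) := by
  rw [eb]

theorem eb_add_three (n : ℕ) (hn : 6 ≤ n) : eb (n + 3) = 3 * eb n := by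
  obtain ⟨m, rfl⟩ : ∃ m, n = m + 6 := ⟨n - 6, by omega⟩
  exact eb_add_nine m

theorem eb_pos (n : ℕ) : 1 ≤ eb n := by
  induction n using Nat.strong_induction_on with
  | _ n ih =>
    by_cases h : n < 9
    · interval_cases n <;> decide
    · obtain ⟨m, rfl⟩ : ∃ m, n = m + 9 := ⟨n - 9, by omega⟩
      rw [eb_add_nine]
      have := ih (m + 6) (by omega)
      omega

theorem eb_mono_succ (n : ℕ) : eb n ≤ eb (n + 1) := by
  induction n using Nat.strong_induction_on with
  | _ n ih =>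
    by_cases h : n < 9
    · interval_cases n <;> decide
    · obtain ⟨m, rfl⟩ : ∃ m, n = m + 9 := ⟨n - 9, by omega⟩
      have e : m + 9 + 1 = (m + 1) + 9 := by ring
      rw [e, eb_add_nine, eb_add_nine]
      have h1 := ih (m + 6) (by omega)
      have e2 : m + 6 + 1 = m + 1 + 6 := by ring
      rw [e2] at h1
      omega

theorem gb_le_eb (n : ℕ) : S2505.gb n ≤ eb (n + 2) := by
  induction n using Nat.strong_induction_on with
  | _ n ih =>
    by_cases h : n < 7
    · interval_cases n <;> decide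
    · obtain ⟨m, rfl⟩ : ∃ m, n = m + 7 := ⟨n - 7, by omega⟩
      have e : m + 7 = (m + 2) + 5 := by ring
      have e' : m + 7 + 2 = m + 9 := by ring
      rw [e', eb_add_nine, e, S2505.gb_add_five]
      have h1 := ih (m + 4) (by omega)
      have e2 : m + 4 + 2 = m + 6 := by ring
      have e3 : m + 2 + 2 = m + 4 := by ring
      rw [e2] at h1
      rw [e3]
      omega

theorem mul_eb : ∀ (n m d : ℕ), m + d = n → 3 ≤ m → m * eb d ≤ eb n := by
  intro n
  induction n using Nat.strong_induction_on with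
  | _ n ih =>
    intro m d hmd hm
    by_cases h : n < 14
    · have hd : d = n - m := by omega
      subst hd
      have hmn : m ≤ n := by omega
      interval_cases n <;> interval_cases m <;> decide
    · obtain ⟨n', rfl⟩ : ∃ n', n = n' + 3 := ⟨n - 3, by omega⟩
      rw [eb_add_three n' (by omega)]
      by_cases hd : 9 ≤ d
      · obtain ⟨d', rfl⟩ : ∃ d', d = d' + 3 := ⟨d - 3, by omega⟩
        rw [eb_add_three d' (by omega)]
        have h1 := ih n' (by omega) m d' (by omega) hm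
        calc m * (3 * eb d') = 3 * (m * eb d') := by ring
          _ ≤ 3 * eb n' := Nat.mul_le_mul_left 3 h1
      · have h1 := ih n' (by omega) (m - 3) d (by omega) (by omega)
        have h2 : m ≤ 3 * (m - 3) := by omega
        calc m * eb d ≤ 3 * (m - 3) * eb d := Nat.mul_le_mul_right _ h2
          _ = 3 * ((m - 3) * eb d) := by ring
          _ ≤ 3 * eb n' := Nat.mul_le_mul_left 3 h1

theorem eb_closed (k : ℕ) :
    eb (3 * k) = 3 ^ k ∧ eb (3 * k + 4) = 4 * 3 ^ k ∧ eb (3 * k + 8) = 16 * 3 ^ k := by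
  induction k with
  | zero => exact ⟨rfl, rfl, rfl⟩
  | succ k ih =>
    obtain ⟨h0, h4, h8⟩ := ih
    refine ⟨?_, ?_, ?_⟩
    · rcases (by omega : k = 0 ∨ k = 1 ∨ 2 ≤ k) with rfl | rfl | hk
      · rfl
      · rfl
      · have e : 3 * (k + 1) = 3 * k + 3 := by ring
        rw [e, eb_add_three _ (by omega), h0]
        ring
    · rcases (by omega : k = 0 ∨ 1 ≤ k) with rfl | hk
      · rfl
      · have e : 3 * (k + 1) + 4 = 3 * k + 4 + 3 := by ring
        rw [e, eb_add_three _ (by omega), h4]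
        ring
    · have e : 3 * (k + 1) + 8 = 3 * k + 8 + 3 := by ring
      rw [e, eb_add_three _ (by omega), h8]
      ring

/-- the orbit-stabilizer step for abelian permutation groups supported on `T`. -/
theorem orbit_step {α : Type*} [Fintype α] [DecidableEq α] (T : Finset α)
    (A : Subgroup (Equiv.Perm α)) (hcomm : ∀ x ∈ A, ∀ y ∈ A, x * y = y * x)
    (hfix : ∀ g ∈ A, ∀ x, x ∉ T → g x = x) (a : α) (ha : a ∈ T) :
    ∃ (O : Finset α) (S : Subgroup (Equiv.Perm α)), O ⊆ T ∧ a ∈ O ∧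
      (∀ z, z ∈ O ↔ ∃ g ∈ A, g a = z) ∧ (∀ g ∈ S, g ∈ A) ∧
      (∀ g ∈ S, ∀ x, x ∉ T \ O → g x = x) ∧ Nat.card A = O.card * Nat.card S := by
  classical
  have hos : (MulAction.stabilizer A a).index * Nat.card (MulAction.stabilizer A a)
      = Nat.card A := Subgroup.index_mul_card _
  rw [MulAction.index_stabilizer] at hos
  have hOT : ∀ x ∈ MulAction.orbit A a, x ∈ T := by
    rintro x ⟨g, rfl⟩
    by_contra hx
    have h1 := hfix (g⁻¹ : A) (g⁻¹).2 (g • a) hx
    have h2 : ((g⁻¹ : A) : Equiv.Perm α) (g • a) = a := by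
      change (g⁻¹ : A) • (g • a) = a
      rw [inv_smul_smul]
    rw [h2] at h1
    apply hx
    change g • a ∈ T
    rw [← h1]
    exact ha
  have hm : (MulAction.orbit A a).ncard = (MulAction.orbit A a).toFinset.card :=
    Set.ncard_eq_toFinset_card' _
  refine ⟨(MulAction.orbit A a).toFinset, (MulAction.stabilizer A a).map A.subtype,
    ?_, ?_, ?_, ?_, ?_, ?_⟩
  · intro x hx
    exact hOT x (Set.mem_toFinset.1 hx)
  · exact Set.mem_toFinset.2 (MulAction.mem_orbit_self a)
  · intro z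
    rw [Set.mem_toFinset]
    constructor
    · rintro ⟨g, rfl⟩
      exact ⟨g.1, g.2, rfl⟩
    · rintro ⟨g, hg, rfl⟩
      exact ⟨⟨g, hg⟩, rfl⟩
  · rintro x hx
    obtain ⟨s, -, rfl⟩ := Subgroup.mem_map.1 hx
    exact s.2
  · rintro g hg x hx
    obtain ⟨s, hs, rfl⟩ := Subgroup.mem_map.1 hg
    rw [Finset.mem_sdiff, not_and_or, not_not] at hx
    rcases hx with hx | hx
    · exact hfix _ s.2 x hx
    · obtain ⟨h, rfl⟩ := Set.mem_toFinset.1 hx
      change s • (h • a) = h • a
      rw [← mul_smul]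
      have hc : s * h = h * s := Subtype.ext (hcomm _ s.2 _ h.2)
      rw [hc, mul_smul]
      congr 1
  · rw [Subgroup.card_map_of_injective A.subtype_injective, ← hos, hm]

/-- the case of an orbit of size two: the group embeds in an abelian group supported
off the orbit. -/
theorem two_orbit {α : Type*} [Fintype α] [DecidableEq α] (T : Finset α)
    (A : Subgroup (Equiv.Perm α)) (hcomm : ∀ x ∈ A, ∀ y ∈ A, x * y = y * x)
    (hfix : ∀ g ∈ A, ∀ x, x ∉ T → g x = x) (heven : ∀ g ∈ A, Equiv.Perm.sign g = 1)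
    (a b : α) (hab : b ≠ a) (haT : a ∈ T) (hbT : b ∈ T)
    (hO : ∀ z, (∃ g ∈ A, g a = z) ↔ z = a ∨ z = b) :
    ∃ C : Subgroup (Equiv.Perm α), (∀ x ∈ C, ∀ y ∈ C, x * y = y * x) ∧
      (∀ g ∈ C, ∀ x, (x ∉ T ∨ x = a ∨ x = b) → g x = x) ∧ Nat.card C = Nat.card A := by
  classical
  -- every element of A fixes or swaps a and b
  have hF : ∀ g ∈ A, (g a = a ∧ g b = b) ∨ (g a = b ∧ g b = a) := by
    intro g hg
    have h1 : g a = a ∨ g a = b := (hO (g a)).1 ⟨g, hg, rfl⟩
    obtain ⟨h, hh, hhb⟩ := (hO b).2 (Or.inr rfl)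
    have h2 : g b = a ∨ g b = b := by
      apply (hO (g b)).1
      refine ⟨g * h, A.mul_mem hg hh, ?_⟩
      rw [Equiv.Perm.mul_apply, hhb]
    rcases h1 with h1 | h1
    · left
      refine ⟨h1, ?_⟩
      rcases h2 with h2 | h2
      · exact absurd (g.injective (h2.trans h1.symm)) hab
      · exact h2
    · right
      refine ⟨h1, ?_⟩
      rcases h2 with h2 | h2
      · exact h2
      · exact absurd (g.injective (h2.trans h1.symm)) hab
  have hτ : ∀ g ∈ A, g * Equiv.swap a b = Equiv.swap a b * g := by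
    intro g hg
    rw [Equiv.mul_swap_eq_swap_mul]
    rcases hF g hg with ⟨h1, h2⟩ | ⟨h1, h2⟩
    · rw [h1, h2]
    · rw [h1, h2, Equiv.swap_comm]
  obtain ⟨f, hf⟩ : ∃ f : A → Equiv.Perm α,
      ∀ g : A, f g = if g.1 a = a then g.1 else g.1 * Equiv.swap a b := ⟨_, fun _ => rfl⟩
  have hfa : ∀ g : A, g.1 a = a → f g = g.1 := by
    intro g hg
    rw [hf, if_pos hg]
  have hfb : ∀ g : A, g.1 a = b → f g = g.1 * Equiv.swap a b := by
    intro g hg
    rw [hf, if_neg (by rw [hg]; exact hab)]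
  have hmul : ∀ g h : A, f (g * h) = f g * f h := by
    intro g h
    rcases hF g.1 g.2 with ⟨ga, gb⟩ | ⟨ga, gb⟩ <;> rcases hF h.1 h.2 with ⟨ha', hb'⟩ | ⟨ha', hb'⟩
    · rw [hfa g ga, hfa h ha', hfa (g * h) (by
        change g.1 (h.1 a) = a
        rw [ha', ga])]
      rfl
    · rw [hfa g ga, hfb h ha', hfb (g * h) (by
        change g.1 (h.1 a) = b
        rw [ha', gb])]
      change g.1 * h.1 * Equiv.swap a b = g.1 * (h.1 * Equiv.swap a b)
      rw [mul_assoc]
    · rw [hfb g ga, hfa h ha', hfb (g * h) (by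
        change g.1 (h.1 a) = b
        rw [ha', ga])]
      change g.1 * h.1 * Equiv.swap a b = g.1 * Equiv.swap a b * h.1
      rw [mul_assoc, hτ h.1 h.2, mul_assoc]
    · rw [hfb g ga, hfb h ha', hfa (g * h) (by
        change g.1 (h.1 a) = a
        rw [ha', gb])]
      change g.1 * h.1 = g.1 * Equiv.swap a b * (h.1 * Equiv.swap a b)
      rw [hτ h.1 h.2, mul_assoc, ← mul_assoc (Equiv.swap a b), Equiv.swap_mul_self, one_mul]
  have hinj : Function.Injective (MonoidHom.mk' f hmul) := by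
    rw [injective_iff_map_eq_one]
    intro g hg
    change f g = 1 at hg
    rcases hF g.1 g.2 with ⟨ga, gb⟩ | ⟨ga, gb⟩
    · rw [hfa g ga] at hg
      exact Subtype.ext hg
    · rw [hfb g ga] at hg
      have hs := congrArg Equiv.Perm.sign hg
      rw [Equiv.Perm.sign_mul, heven g.1 g.2, Equiv.Perm.sign_swap hab.symm,
        Equiv.Perm.sign_one] at hs
      exact absurd hs (by decide)
  refine ⟨(MonoidHom.mk' f hmul).range, ?_, ?_, ?_⟩
  · rintro x ⟨g, rfl⟩ y ⟨h, rfl⟩
    rw [← map_mul, ← map_mul]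
    congr 1
    exact Subtype.ext (hcomm _ g.2 _ h.2)
  · rintro x ⟨g, rfl⟩ z hz
    change f g z = z
    rcases hF g.1 g.2 with ⟨ga, gb⟩ | ⟨ga, gb⟩
    · rw [hfa g ga]
      rcases hz with hz | rfl | rfl
      · exact hfix _ g.2 z hz
      · exact ga
      · exact gb
    · rw [hfb g ga, Equiv.Perm.mul_apply]
      rcases hz with hz | rfl | rfl
      · have hza : z ≠ a := fun h => hz (h ▸ haT)
        have hzb : z ≠ b := fun h => hz (h ▸ hbT)
        rw [Equiv.swap_apply_of_ne_of_ne hza hzb]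
        exact hfix _ g.2 z hz
      · rw [Equiv.swap_apply_left]
        exact gb
      · rw [Equiv.swap_apply_right]
        exact ga
  · exact (Nat.card_congr (MonoidHom.ofInjective hinj).toEquiv).symm

/-- an abelian group of even permutations moving only the points of a set with `n` elements
has order at most `eb n`. -/
theorem even_bound {α : Type*} [Fintype α] [DecidableEq α] :
    ∀ (n : ℕ) (T : Finset α), T.card = n → ∀ A : Subgroup (Equiv.Perm α),
      (∀ x ∈ A, ∀ y ∈ A, x * y = y * x) → (∀ g ∈ A, ∀ x, x ∉ T → g x = x) →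
      (∀ g ∈ A, Equiv.Perm.sign g = 1) →
      Nat.card A ≤ eb n := by
  classical
  intro n
  induction n using Nat.strong_induction_on with
  | _ n ih =>
    intro T hT A hcomm hfix heven
    rcases T.eq_empty_or_nonempty with hTe | ⟨a, ha⟩
    · have hA : A = ⊥ := by
        rw [Subgroup.eq_bot_iff_forall]
        intro g hg
        ext x
        exact hfix g hg x (by simp [hTe])
      rw [hA, Subgroup.card_bot]
      exact eb_pos n
    · obtain ⟨O, S, hOT, haO, hOmem, hSA, hSfix, hcard⟩ := orbit_step T A hcomm hfix a ha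
      have hm1 : 1 ≤ O.card := Finset.card_pos.2 ⟨a, haO⟩
      have hmn : O.card ≤ n := by
        rw [← hT]
        exact Finset.card_le_card hOT
      have hT' : (T \ O).card = n - O.card := by
        rw [Finset.card_sdiff_of_subset hOT, hT]
      have hS := ih (n - O.card) (by omega) (T \ O) hT' S
        (fun x hx y hy => hcomm x (hSA x hx) y (hSA y hy)) hSfix
        (fun g hg => heven g (hSA g hg))
      rcases (by omega : O.card = 1 ∨ O.card = 2 ∨ 3 ≤ O.card) with h1 | h2 | h3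
      · rw [hcard, h1, one_mul]
        rw [h1] at hS
        have h3 := eb_mono_succ (n - 1)
        have e : n - 1 + 1 = n := by omega
        rw [e] at h3
        exact hS.trans h3
      · obtain ⟨x, y, hxy, hOeq⟩ := Finset.card_eq_two.1 h2
        obtain ⟨b, hba, hOb⟩ : ∃ b, b ≠ a ∧ ∀ z, z ∈ O ↔ z = a ∨ z = b := by
          have haO' := haO
          rw [hOeq] at haO'
          simp only [Finset.mem_insert, Finset.mem_singleton] at haO'
          rcases haO' with rfl | rfl
          · exact ⟨y, hxy.symm, fun z => by rw [hOeq]; simp⟩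
          · exact ⟨x, hxy, fun z => by rw [hOeq]; simp [or_comm]⟩
        have hbT : b ∈ T := hOT ((hOb b).2 (Or.inr rfl))
        obtain ⟨C, hCcomm, hCfix, hCcard⟩ := two_orbit T A hcomm hfix heven a b hba ha hbT
          (fun z => by rw [← hOmem z, hOb z])
        have hC := S2505.abelian_bound (n - O.card) (T \ O) hT' C hCcomm (by
          intro g hg z hz
          apply hCfix g hg z
          rw [Finset.mem_sdiff, not_and_or, not_not] at hz
          rcases hz with hz | hz
          · exact Or.inl hz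
          · exact Or.inr ((hOb z).1 hz))
        rw [hCcard, h2] at hC
        have h3 := gb_le_eb (n - 2)
        have e : n - 2 + 2 = n := by omega
        rw [e] at h3
        exact hC.trans h3
      · rw [hcard]
        calc O.card * Nat.card S ≤ O.card * eb (n - O.card) := Nat.mul_le_mul_left _ hS
          _ ≤ eb n := mul_eb n O.card (n - O.card) (by omega) h3

/-- existence of an abelian group of even permutations of `Fin n` of order `c`. -/
def PE (n c : ℕ) : Prop :=
  ∃ A : Subgroup (Equiv.Perm (Fin n)), (∀ x ∈ A, ∀ y ∈ A, x * y = y * x) ∧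
    (∀ x ∈ A, Equiv.Perm.sign x = 1) ∧ Nat.card A = c

theorem PE_step {n c j d : ℕ} (h : PE n c) (h' : PE j d) : PE (n + j) (c * d) := by
  obtain ⟨A, hA, hAs, hc⟩ := h
  obtain ⟨B, hB, hBs, hd⟩ := h'
  obtain ⟨ψ, hψ, hψs⟩ : ∃ ψ : Equiv.Perm (Fin n) × Equiv.Perm (Fin j) →* Equiv.Perm (Fin (n + j)),
      Function.Injective ψ ∧ ∀ x, Equiv.Perm.sign (ψ x) = Equiv.Perm.sign x.1 * Equiv.Perm.sign x.2 :=
    ⟨(finSumFinEquiv.permCongrHom : Equiv.Perm (Fin n ⊕ Fin j) ≃* Equiv.Perm (Fin (n + j))).toMonoidHom.comp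
      (Equiv.Perm.sumCongrHom (Fin n) (Fin j)),
      fun x y hxy => Equiv.Perm.sumCongrHom_injective
        ((finSumFinEquiv.permCongrHom : Equiv.Perm (Fin n ⊕ Fin j) ≃* Equiv.Perm (Fin (n + j))).injective hxy),
      fun x => by
        change Equiv.Perm.sign (finSumFinEquiv.permCongr (Equiv.Perm.sumCongr x.1 x.2)) = _
        rw [Equiv.Perm.sign_permCongr, Equiv.Perm.sign_sumCongr]⟩
  refine ⟨(A.prod B).map ψ, ?_, ?_, ?_⟩
  · intro x hx y hy
    obtain ⟨⟨a, b⟩, hab, rfl⟩ := Subgroup.mem_map.1 hx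
    obtain ⟨⟨a', b'⟩, hab', rfl⟩ := Subgroup.mem_map.1 hy
    rw [Subgroup.mem_prod] at hab hab'
    rw [← map_mul, ← map_mul, Prod.mk_mul_mk, Prod.mk_mul_mk, hA a hab.1 a' hab'.1,
      hB b hab.2 b' hab'.2]
  · intro x hx
    obtain ⟨⟨a, b⟩, hab, rfl⟩ := Subgroup.mem_map.1 hx
    rw [Subgroup.mem_prod] at hab
    rw [hψs, hAs a hab.1, hBs b hab.2, mul_one]
  · rw [Subgroup.card_map_of_injective hψ, Nat.card_congr (Subgroup.prodEquiv A B).toEquiv,
      Nat.card_prod, hc, hd]

theorem PE_zero : PE 0 1 := by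
  refine ⟨⊥, ?_, ?_, by simp⟩
  · intro x hx y hy
    rw [Subgroup.mem_bot] at hx hy
    rw [hx, hy]
  · intro x hx
    rw [Subgroup.mem_bot] at hx
    rw [hx, Equiv.Perm.sign_one]

theorem PE_three : PE 3 3 := by
  refine ⟨Subgroup.zpowers (finRotate 3), ?_, ?_, ?_⟩
  · intro x hx y hy
    obtain ⟨i, rfl⟩ := Subgroup.mem_zpowers_iff.1 hx
    obtain ⟨j, rfl⟩ := Subgroup.mem_zpowers_iff.1 hy
    exact zpow_mul_comm _ i j
  · intro x hx
    obtain ⟨i, rfl⟩ := Subgroup.mem_zpowers_iff.1 hx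
    rw [map_zpow, sign_finRotate]
    simp
  · rw [Nat.card_zpowers]
    exact orderOf_eq_prime (by decide) (by decide)

theorem PE_four : PE 4 4 := by
  have hcard : Nat.card (alternatingGroup (Fin 4)) = 12 := by
    rw [nat_card_alternatingGroup]
    simp [Nat.factorial]
  obtain ⟨K, hK⟩ := Sylow.exists_subgroup_card_pow_prime (G := alternatingGroup (Fin 4)) 2 (n := 2)
    (by rw [hcard]; norm_num)
  have hKc : IsMulCommutative K := IsPGroup.isMulCommutative_of_card_eq_prime_sq hK
  refine ⟨K.map (alternatingGroup (Fin 4)).subtype, ?_, ?_, ?_⟩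
  · intro x hx y hy
    obtain ⟨s, hs, rfl⟩ := Subgroup.mem_map.1 hx
    obtain ⟨s', hs', rfl⟩ := Subgroup.mem_map.1 hy
    rw [← map_mul, ← map_mul]
    congr 1
    exact congrArg Subtype.val (hKc.is_comm.comm ⟨s, hs⟩ ⟨s', hs'⟩)
  · intro x hx
    obtain ⟨s, hs, rfl⟩ := Subgroup.mem_map.1 hx
    exact Equiv.Perm.mem_alternatingGroup.1 s.2
  · rw [Subgroup.card_map_of_injective (Subgroup.subtype_injective _), hK]
    norm_num

theorem PE_all (k : ℕ) : ∀ n : ℕ,
    (n = 3 * k → PE n (3 ^ k)) ∧ (n = 3 * k + 4 → PE n (4 * 3 ^ k)) ∧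
    (n = 3 * k + 8 → PE n (16 * 3 ^ k)) := by
  induction k with
  | zero =>
    intro n
    refine ⟨?_, ?_, ?_⟩
    · intro hn
      obtain rfl : n = 0 := by omega
      exact PE_zero
    · intro hn
      obtain rfl : n = 4 := by omega
      exact PE_four
    · intro hn
      obtain rfl : n = 4 + 4 := by omega
      have h := PE_step PE_four PE_four
      exact h
  | succ k ih =>
    intro n
    refine ⟨?_, ?_, ?_⟩
    · intro hn
      obtain ⟨m, rfl, hm⟩ : ∃ m, n = m + 3 ∧ m = 3 * k := ⟨n - 3, by omega, by omega⟩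
      have h := PE_step ((ih m).1 hm) PE_three
      have e : 3 ^ k * 3 = 3 ^ (k + 1) := by ring
      rw [e] at h
      exact h
    · intro hn
      obtain ⟨m, rfl, hm⟩ : ∃ m, n = m + 3 ∧ m = 3 * k + 4 := ⟨n - 3, by omega, by omega⟩
      have h := PE_step ((ih m).2.1 hm) PE_three
      have e : 4 * 3 ^ k * 3 = 4 * 3 ^ (k + 1) := by ring
      rw [e] at h
      exact h
    · intro hn
      obtain ⟨m, rfl, hm⟩ : ∃ m, n = m + 3 ∧ m = 3 * k + 8 := ⟨n - 3, by omega, by omega⟩
      have h := PE_step ((ih m).2.2 hm) PE_three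
      have e : 16 * 3 ^ k * 3 = 16 * 3 ^ (k + 1) := by ring
      rw [e] at h
      exact h

theorem alt_exists {n c : ℕ} (h : PE n c) :
    ∃ A : Subgroup (alternatingGroup (Fin n)), IsMulCommutative A ∧ Nat.card A = c := by
  obtain ⟨A, hA, hAs, hc⟩ := h
  have hle : A ≤ alternatingGroup (Fin n) := fun x hx => Equiv.Perm.mem_alternatingGroup.2 (hAs x hx)
  refine ⟨A.subgroupOf (alternatingGroup (Fin n)), ⟨⟨fun x y => ?_⟩⟩, ?_⟩
  · apply Subtype.ext
    apply Subtype.ext
    exact hA _ (Subgroup.mem_subgroupOf.1 x.2) _ (Subgroup.mem_subgroupOf.1 y.2)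
  · rw [Nat.card_congr (Subgroup.subgroupOfEquivOfLe hle).toEquiv, hc]

theorem alt_bound {n : ℕ} (A : Subgroup (alternatingGroup (Fin n))) (hA : IsMulCommutative A) :
    Nat.card A ≤ eb n := by
  have h := even_bound (α := Fin n) n Finset.univ (by simp)
    (A.map (alternatingGroup (Fin n)).subtype)
    (by
      intro x hx y hy
      obtain ⟨s, hs, rfl⟩ := Subgroup.mem_map.1 hx
      obtain ⟨s', hs', rfl⟩ := Subgroup.mem_map.1 hy
      rw [← map_mul, ← map_mul]
      congr 1
      exact congrArg Subtype.val (hA.is_comm.comm ⟨s, hs⟩ ⟨s', hs'⟩))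
    (fun g _ x hx => absurd (Finset.mem_univ x) hx)
    (by
      intro x hx
      obtain ⟨s, hs, rfl⟩ := Subgroup.mem_map.1 hx
      exact Equiv.Perm.mem_alternatingGroup.1 s.2)
  rw [Subgroup.card_map_of_injective (Subgroup.subtype_injective _)] at h
  exact h

theorem result (k : ℕ) (hk : 2 ≤ k) :
    IsGreatest {c : ℕ | ∃ A : Subgroup (alternatingGroup (Fin (3 * k))), IsMulCommutative A ∧ Nat.card A = c} (3 ^ k) ∧
    IsGreatest {c : ℕ | ∃ A : Subgroup (alternatingGroup (Fin (3 * k + 1))), IsMulCommutative A ∧ Nat.card A = c}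
      (4 * 3 ^ (k - 1)) ∧
    IsGreatest {c : ℕ | ∃ A : Subgroup (alternatingGroup (Fin (3 * k + 2))), IsMulCommutative A ∧ Nat.card A = c}
      (16 * 3 ^ (k - 2)) := by
  obtain ⟨k', rfl⟩ : ∃ k', k = k' + 2 := ⟨k - 2, by omega⟩
  refine ⟨⟨alt_exists ((PE_all (k' + 2) _).1 rfl), ?_⟩, ⟨?_, ?_⟩, ⟨?_, ?_⟩⟩
  · rintro c ⟨A, hA, rfl⟩
    rw [← (eb_closed (k' + 2)).1]
    exact alt_bound A hA
  · have h := alt_exists ((PE_all (k' + 1) (3 * (k' + 2) + 1)).2.1 (by ring))
    simpa using h
  · rintro c ⟨A, hA, rfl⟩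
    have h := alt_bound A hA
    have e : eb (3 * (k' + 2) + 1) = 4 * 3 ^ (k' + 1) := by
      have e' : 3 * (k' + 2) + 1 = 3 * (k' + 1) + 4 := by ring
      rw [e']
      exact (eb_closed (k' + 1)).2.1
    rw [e] at h
    simpa using h
  · have h := alt_exists ((PE_all k' (3 * (k' + 2) + 2)).2.2 (by ring))
    simpa using h
  · rintro c ⟨A, hA, rfl⟩
    have h := alt_bound A hA
    have e : eb (3 * (k' + 2) + 2) = 16 * 3 ^ k' := by
      have e' : 3 * (k' + 2) + 2 = 3 * k' + 8 := by ring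
      rw [e']
      exact (eb_closed k').2.2
    rw [e] at h
    simpa using h

end Cfsg.Agent.S2504
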