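import Cfsg.Statements.S2514
import Mathlib

set_option autoImplicit false
open Cfsg

namespace Cfsg.Agent.S2514

theorem omega_dvd_closed {X : Type*} [Group X] [Finite X] {n d : ℕ}
    (hn : n ∈ Set.range (orderOf : X → ℕ)) (hd : d ∣ n) : d ∈ Set.range (orderOf : X → ℕ) := by
  obtain ⟨x, rfl⟩ := hn
  obtain ⟨e, he⟩ := hd
  have hpos : 0 < orderOf x := orderOf_pos x
  have he0 : e ≠ 0 := by rintro rfl; rw [mul_zero] at he; omega
  refine ⟨x ^ e, ?_⟩
  rw [orderOf_pow_of_dvd he0 ⟨d, by rw [he, mul_comm]⟩, he,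
    Nat.mul_div_cancel _ (Nat.pos_of_ne_zero he0)]

theorem exists_max {X : Type*} [Group X] [Finite X] {n : ℕ}
    (hn : n ∈ Set.range (orderOf : X → ℕ)) :
    ∃ M, (M ∈ Set.range (orderOf : X → ℕ) ∧
      ∀ m ∈ Set.range (orderOf : X → ℕ), M ∣ m → m = M) ∧ n ∣ M := by
  classical
  let P : ℕ → Prop := fun m => m ∈ Set.range (orderOf : X → ℕ) ∧ n ∣ m
  have hb : ∀ m, m ∈ Set.range (orderOf : X → ℕ) → m ≤ Nat.card X := by
    rintro m ⟨x, rfl⟩; exact orderOf_le_card
  have hPn : P n := ⟨hn, dvd_rfl⟩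
  have hspec : P (Nat.findGreatest P (Nat.card X)) := Nat.findGreatest_spec (hb n hn) hPn
  refine ⟨Nat.findGreatest P (Nat.card X), ⟨hspec.1, ?_⟩, hspec.2⟩
  intro m hm hdvd
  have hPm : P m := ⟨hm, hspec.2.trans hdvd⟩
  have h1 : m ≤ Nat.findGreatest P (Nat.card X) := Nat.le_findGreatest (hb m hm) hPm
  have hmpos : 0 < m := by obtain ⟨x, rfl⟩ := hm; exact orderOf_pos x
  exact le_antisymm h1 (Nat.le_of_dvd hmpos hdvd)

theorem pi_pow_eq_one {ι : Type} {X : Type*} [Group X] (f : ι → X) (m : ℕ) :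
    f ^ m = 1 ↔ ∀ i, orderOf (f i) ∣ m := by
  rw [funext_iff]
  simp [orderOf_dvd_iff_pow_eq_one]

theorem result {G H : Type*} [Group G] [Finite G] [Group H] [Finite H] (k : ℕ) (hk : 1 ≤ k)
    (hsub : {n : ℕ | n ∈ Set.range (orderOf : H → ℕ) ∧ ∀ m ∈ Set.range (orderOf : H → ℕ), n ∣ m → m = n} ⊆ {n : ℕ | n ∈ Set.range (orderOf : G → ℕ) ∧ ∀ m ∈ Set.range (orderOf : G → ℕ), n ∣ m → m = n})
    (hfew : ({n : ℕ | n ∈ Set.range (orderOf : G → ℕ) ∧ ∀ m ∈ Set.range (orderOf : G → ℕ), n ∣ m → m = n} \ {n : ℕ | n ∈ Set.range (orderOf : H → ℕ) ∧ ∀ m ∈ Set.range (orderOf : H → ℕ), n ∣ m → m = n}).ncard < k) :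
    Set.range (orderOf : (Fin k → G) → ℕ) = Set.range (orderOf : (Fin (k - 1) → G) × H → ℕ) := by
  classical
  obtain ⟨k', rfl⟩ : ∃ k', k = k' + 1 := ⟨k - 1, by omega⟩
  show Set.range (orderOf : (Fin (k'+1) → G) → ℕ) = Set.range (orderOf : (Fin k' → G) × H → ℕ)
  have hωHG : ∀ n, n ∈ Set.range (orderOf : H → ℕ) → n ∈ Set.range (orderOf : G → ℕ) := by
    intro n hn
    obtain ⟨M, hM, hnM⟩ := exists_max hn
    exact omega_dvd_closed (hsub hM).1 hnM
  have hC : ∀ (f : Fin (k'+1) → G) (i0 : Fin (k'+1)), orderOf (f i0) ∈ Set.range (orderOf : H → ℕ) →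
      orderOf f ∈ Set.range (orderOf : (Fin k' → G) × H → ℕ) := by
    rintro f i0 ⟨h, hh⟩
    refine ⟨(fun j => f (i0.succAbove j), h), ?_⟩
    rw [orderOf_eq_orderOf_iff]
    intro m
    rw [Prod.ext_iff]
    simp only [Prod.pow_fst, Prod.pow_snd, Prod.fst_one, Prod.snd_one]
    rw [pi_pow_eq_one, pi_pow_eq_one, ← orderOf_dvd_iff_pow_eq_one, hh, Fin.forall_iff_succAbove i0]
    tauto
  ext n
  constructor
  · rintro ⟨f, rfl⟩
    by_cases hex : ∃ i0, orderOf (f i0) ∈ Set.range (orderOf : H → ℕ)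
    · obtain ⟨i0, hi0⟩ := hex; exact hC f i0 hi0
    · push Not at hex
      have hM : ∀ i, ∃ M, (M ∈ Set.range (orderOf : G → ℕ) ∧
          ∀ m ∈ Set.range (orderOf : G → ℕ), M ∣ m → m = M) ∧ orderOf (f i) ∣ M :=
        fun i => exists_max ⟨f i, rfl⟩
      choose M hMμ hMdvd using hM
      have hMnot : ∀ i, ¬ (M i ∈ Set.range (orderOf : H → ℕ) ∧
          ∀ m ∈ Set.range (orderOf : H → ℕ), M i ∣ m → m = M i) := by
        intro i hi
        exact hex i (omega_dvd_closed hi.1 (hMdvd i))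
      have hfin : ({n : ℕ | n ∈ Set.range (orderOf : G → ℕ) ∧ ∀ m ∈ Set.range (orderOf : G → ℕ), n ∣ m → m = n} \ {n : ℕ | n ∈ Set.range (orderOf : H → ℕ) ∧ ∀ m ∈ Set.range (orderOf : H → ℕ), n ∣ m → m = n}).Finite :=
        (Set.finite_range (orderOf : G → ℕ)).subset (fun n hn => hn.1.1)
      obtain ⟨i, j, hij, hMij⟩ : ∃ i j, i ≠ j ∧ M i = M j := by
        by_contra hcon
        push Not at hcon
        have hinj : Function.Injective (fun i => (⟨M i, hMμ i, hMnot i⟩ : ↥({n : ℕ | n ∈ Set.range (orderOf : G → ℕ) ∧ ∀ m ∈ Set.range (orderOf : G → ℕ), n ∣ m → m = n} \ {n : ℕ | n ∈ Set.range (orderOf : H → ℕ) ∧ ∀ m ∈ Set.range (orderOf : H → ℕ), n ∣ m → m = n}))) := by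
          intro i j h
          by_contra hne
          exact hcon i j hne (congrArg Subtype.val h)
        haveI := hfin.to_subtype
        have := Nat.card_le_card_of_injective _ hinj
        rw [Nat.card_fin, Nat.card_coe_set_eq] at this
        omega
      have hlcm : Nat.lcm (orderOf (f i)) (orderOf (f j)) ∈ Set.range (orderOf : G → ℕ) :=
        omega_dvd_closed (hMμ i).1 (Nat.lcm_dvd (hMdvd i) (hMij ▸ hMdvd j))
      obtain ⟨y, hy⟩ := hlcm
      have hf''j : (Function.update (Function.update f i y) j 1) j = 1 := Function.update_self ..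
      have hf''i : (Function.update (Function.update f i y) j 1) i = y := by
        rw [Function.update_of_ne hij, Function.update_self]
      have hf''o : ∀ l, l ≠ i → l ≠ j → (Function.update (Function.update f i y) j 1) l = f l := by
        intro l hli hlj
        rw [Function.update_of_ne hlj, Function.update_of_ne hli]
      have hord : orderOf (Function.update (Function.update f i y) j 1) = orderOf f := by
        rw [orderOf_eq_orderOf_iff]
        intro m
        rw [pi_pow_eq_one, pi_pow_eq_one]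
        constructor
        · intro h l
          by_cases hli : l = i
          · subst hli
            have := h l
            rw [hf''i, hy] at this
            exact (Nat.dvd_lcm_left _ _).trans this
          · by_cases hlj : l = j
            · subst hlj
              have := h i
              rw [hf''i, hy] at this
              exact (Nat.dvd_lcm_right _ _).trans this
            · rw [← hf''o l hli hlj]; exact h l
        · intro h l
          by_cases hli : l = i
          · subst hli; rw [hf''i, hy]; exact Nat.lcm_dvd (h l) (h j)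
          · by_cases hlj : l = j
            · subst hlj; rw [hf''j, orderOf_one]; exact one_dvd _
            · rw [hf''o l hli hlj]; exact h l
      rw [← hord]
      exact hC _ j (by rw [hf''j, orderOf_one]; exact ⟨1, orderOf_one⟩)
  · rintro ⟨⟨f', h⟩, rfl⟩
    obtain ⟨y, hy⟩ := hωHG _ ⟨h, rfl⟩
    refine ⟨Fin.cons y f', ?_⟩
    rw [orderOf_eq_orderOf_iff]
    intro m
    rw [Prod.ext_iff]
    simp only [Prod.pow_fst, Prod.pow_snd, Prod.fst_one, Prod.snd_one]
    rw [pi_pow_eq_one, pi_pow_eq_one, ← orderOf_dvd_iff_pow_eq_one (x := h), ← hy, Fin.forall_fin_succ]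
    simp only [Fin.cons_zero, Fin.cons_succ]
    exact and_comm

end Cfsg.Agent.S2514
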