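import Cfsg.Statements.S2516
import Mathlib

set_option autoImplicit false
open Cfsg

namespace Cfsg.Agent.S2516

/-- the action of `G` on `Multiplicative V` -/
noncomputable abbrev phi {F V G : Type*} [Field F] [AddCommGroup V] [Module F V] [Group G]
    (ρ : Representation F G V) : G →* MulAut (Multiplicative V) :=
  (MulAutMultiplicative V).symm.toMonoidHom.comp
    ((DistribMulAction.toAddAut ((V →ₗ[F] V)ˣ) V).comp ρ.asGroupHom)

theorem phi_apply {F V G : Type*} [Field F] [AddCommGroup V] [Module F V] [Group G]
    (ρ : Representation F G V) (g : G) (v : V) :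
    phi ρ g (Multiplicative.ofAdd v) = Multiplicative.ofAdd (ρ g v) := rfl

theorem pow_formula {F V G : Type*} [Field F] [AddCommGroup V] [Module F V] [Group G]
    (ρ : Representation F G V) (g : G) (v : V) (n : ℕ) :
    (⟨Multiplicative.ofAdd v, g⟩ : Multiplicative V ⋊[phi ρ] G) ^ n =
      ⟨Multiplicative.ofAdd (∑ i ∈ Finset.range n, ((ρ g) ^ i) v), g ^ n⟩ := by
  induction n with
  | zero =>
    apply SemidirectProduct.ext
    · simp
    · simp
  | succ n ih =>
    rw [pow_succ, ih]
    apply SemidirectProduct.ext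
    · rw [SemidirectProduct.mul_left]
      show Multiplicative.ofAdd (∑ i ∈ Finset.range n, ((ρ g) ^ i) v) *
        phi ρ (g ^ n) (Multiplicative.ofAdd v) = _
      rw [phi_apply, Finset.sum_range_succ, map_pow, ← ofAdd_add]
    · rw [SemidirectProduct.mul_right, pow_succ]

theorem result {F : Type*} [Field F] (p : ℕ) [Fact p.Prime] [CharP F p] {V : Type*} [AddCommGroup V] [Module F V] [FiniteDimensional F V] [Nontrivial V]
    {G : Type*} [Group G] [Finite G] (ρ : Representation F G V) (g : G) :
    (∃ x : Multiplicative V ⋊[(MulAutMultiplicative V).symm.toMonoidHom.comp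
        ((DistribMulAction.toAddAut ((V →ₗ[F] V)ˣ) V).comp ρ.asGroupHom)] G,
        x.right = g ∧ orderOf x = p * orderOf g) ↔
      ¬ (minpoly F (ρ g) ∣ ∑ i ∈ Finset.range (orderOf g), (Polynomial.X : Polynomial F) ^ i) := by
  have hp : p.Prime := Fact.out
  have hk : 0 < orderOf g := orderOf_pos g
  have hN : (Polynomial.aeval (ρ g)) (∑ i ∈ Finset.range (orderOf g), (Polynomial.X : Polynomial F) ^ i)
      = ∑ i ∈ Finset.range (orderOf g), (ρ g) ^ i := by
    simp [map_sum]
  rw [minpoly.dvd_iff, hN]
  constructor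
  · rintro ⟨x, hxr, hxo⟩ hzero
    have hx : x = (⟨Multiplicative.ofAdd (Multiplicative.toAdd x.left), g⟩ :
        Multiplicative V ⋊[phi ρ] G) := by
      apply SemidirectProduct.ext
      · rfl
      · exact hxr
    have hpow : x ^ orderOf g = 1 := by
      rw [hx, pow_formula]
      apply SemidirectProduct.ext
      · have : ∑ i ∈ Finset.range (orderOf g), ((ρ g) ^ i) (Multiplicative.toAdd x.left) =
            (∑ i ∈ Finset.range (orderOf g), (ρ g) ^ i) (Multiplicative.toAdd x.left) := by
          rw [LinearMap.sum_apply]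
        rw [this, hzero]
        rfl
      · simp [pow_orderOf_eq_one]
    have hdvd := orderOf_dvd_of_pow_eq_one hpow
    rw [hxo] at hdvd
    have hle := Nat.le_of_dvd hk hdvd
    have := hp.two_le
    nlinarith
  · intro hne
    obtain ⟨v, hv⟩ : ∃ v, (∑ i ∈ Finset.range (orderOf g), (ρ g) ^ i) v ≠ 0 := by
      by_contra h
      push Not at h
      apply hne
      ext v
      simpa using h v
    refine ⟨⟨Multiplicative.ofAdd v, g⟩, rfl, ?_⟩
    have hxk : (⟨Multiplicative.ofAdd v, g⟩ : Multiplicative V ⋊[phi ρ] G) ^ orderOf g =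
        SemidirectProduct.inl (Multiplicative.ofAdd ((∑ i ∈ Finset.range (orderOf g), (ρ g) ^ i) v)) := by
      rw [pow_formula]
      apply SemidirectProduct.ext
      · rw [SemidirectProduct.left_inl, LinearMap.sum_apply]
      · rw [SemidirectProduct.right_inl, pow_orderOf_eq_one]
    have key : ∀ n : ℕ, (⟨Multiplicative.ofAdd v, g⟩ : Multiplicative V ⋊[phi ρ] G) ^ n = 1 ↔
        p * orderOf g ∣ n := by
      intro n
      constructor
      · intro h
        have hr : g ^ n = 1 := by
          have := congrArg SemidirectProduct.right h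
          rw [pow_formula] at this
          exact this
        obtain ⟨j, rfl⟩ := orderOf_dvd_of_pow_eq_one hr
        rw [pow_mul, hxk, ← map_pow, ← ofAdd_nsmul] at h
        have h2 : j • (∑ i ∈ Finset.range (orderOf g), (ρ g) ^ i) v = 0 := by
          have := SemidirectProduct.inl_injective (h.trans (map_one _).symm)
          exact this
        rw [← Nat.cast_smul_eq_nsmul F, smul_eq_zero] at h2
        rcases h2 with h2 | h2
        · obtain ⟨c, rfl⟩ := (CharP.cast_eq_zero_iff F p j).mp h2
          exact ⟨c, by ring⟩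
        · exact absurd h2 hv
      · rintro ⟨c, rfl⟩
        rw [mul_comm p, mul_assoc, pow_mul, hxk, ← map_pow, ← ofAdd_nsmul,
          ← Nat.cast_smul_eq_nsmul F, Nat.cast_mul, CharP.cast_eq_zero F p, zero_mul, zero_smul]
        rfl
    apply Nat.dvd_antisymm
    · exact orderOf_dvd_of_pow_eq_one ((key _).mpr dvd_rfl)
    · exact (key _).mp (pow_orderOf_eq_one _)

end Cfsg.Agent.S2516
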