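import Cfsg.Statements.S2679
import Cfsg.Agent.S2475

set_option autoImplicit false
open Cfsg

set_option maxHeartbeats 1000000
namespace Cfsg.Agent.S2679

open Matrix

theorem alt_sum {R n : Type*} [AddCommGroup R] [Fintype n] [DecidableEq n] (c : n → n → R)
    (h1 : ∀ i, c i i = 0) (h2 : ∀ i j, c i j + c j i = 0) : ∑ i, ∑ j, c i j = 0 := by
  rw [← Finset.sum_product']
  refine Finset.sum_involution (fun p _ => p.swap) ?_ ?_ ?_ ?_
  · rintro ⟨i, j⟩ _; exact h2 i j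
  · rintro ⟨i, j⟩ _ hne heq
    simp only [Prod.swap_prod_mk, Prod.mk.injEq] at heq
    apply hne
    rw [heq.1]; exact h1 i
  · intro p _; exact Finset.mem_univ _
  · rintro ⟨i, j⟩ _; rfl

theorem key_form {R n : Type*} [CommRing R] [Fintype n] [DecidableEq n] (g M : Matrix n n R)
    (v : n → R) :
    v ⬝ᵥ ((gᵀ * M * g - M) *ᵥ v) = (g *ᵥ v) ⬝ᵥ (M *ᵥ (g *ᵥ v)) - v ⬝ᵥ (M *ᵥ v) := by
  rw [Matrix.sub_mulVec, dotProduct_sub]
  congr 1
  have h1 : (g *ᵥ v) ⬝ᵥ (M *ᵥ (g *ᵥ v)) = v ⬝ᵥ (gᵀ *ᵥ (M *ᵥ (g *ᵥ v))) := by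
    rw [Matrix.dotProduct_mulVec v, Matrix.vecMul_transpose]
  rw [h1, Matrix.mulVec_mulVec, Matrix.mulVec_mulVec]

theorem base_change {F K : Type*} [CommRing F] [CommRing K] (f : F →+* K) {n : Type*} [Fintype n]
    [DecidableEq n] (M g : Matrix n n F)
    (h : ∀ v : n → F, (g *ᵥ v) ⬝ᵥ (M *ᵥ (g *ᵥ v)) = v ⬝ᵥ (M *ᵥ v)) (w : n → K) :
    (g.map f *ᵥ w) ⬝ᵥ (M.map f *ᵥ (g.map f *ᵥ w)) = w ⬝ᵥ (M.map f *ᵥ w) := by
  set N : Matrix n n F := gᵀ * M * g - M with hN
  have hNv : ∀ v : n → F, v ⬝ᵥ (N *ᵥ v) = 0 := by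
    intro v; rw [hN, key_form, h, sub_self]
  have hsingle : ∀ (i j : n), (Pi.single i (1:F) : n → F) ⬝ᵥ (N *ᵥ Pi.single j 1) = N i j := by
    intro i j
    rw [single_dotProduct, one_mul]
    simp
  have h1 : ∀ i, N i i = 0 := by
    intro i
    have := hNv (Pi.single i 1)
    rwa [hsingle] at this
  have h2 : ∀ i j, N i j + N j i = 0 := by
    intro i j
    have := hNv (Pi.single i 1 + Pi.single j 1)
    rw [Matrix.mulVec_add, add_dotProduct, dotProduct_add, dotProduct_add, hsingle, hsingle,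
      hsingle, hsingle, h1, h1] at this
    linear_combination this
  have hmap : (N.map f) = (g.map f)ᵀ * M.map f * g.map f - M.map f := by
    rw [hN, Matrix.map_sub (f := f) (fun a b => map_sub f a b), Matrix.map_mul, Matrix.map_mul,
      Matrix.transpose_map]
  have h0 : w ⬝ᵥ (N.map f *ᵥ w) = 0 := by
    have : w ⬝ᵥ (N.map f *ᵥ w) = ∑ i, ∑ j, w i * (f (N i j) * w j) := by
      simp only [dotProduct, Matrix.mulVec, Matrix.map_apply, Finset.mul_sum]
    rw [this]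
    apply alt_sum
    · intro i; rw [h1]; simp
    · intro i j
      have := congrArg f (h2 i j)
      rw [map_add, map_zero] at this
      linear_combination (w i * w j) * this
  rw [hmap, key_form] at h0
  exact sub_eq_zero.mp h0

theorem embed_iso {F : Type*} [Field F] {V : Type*} [AddCommGroup V] [Module F V] (QV : V → F)
    {n : Type} [Fintype n] [DecidableEq n] (Q : (n → F) → F) (T : V ≃ₗ[F] (n → F))
    (hT : ∀ v, Q (T v) = QV v)
    {G : Type*} [Group G] (ρ : G →* (V →ₗ[F] V)) (hρ : Function.Injective ρ)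
    (hinv : ∀ g v, QV (ρ g v) = QV v) :
    ∃ φ : G →* ↥(Cfsg.isometryGroup F Q), Function.Injective φ := by
  let Θ : (V →ₗ[F] V) ≃+* Matrix n n F :=
    T.conjRingEquiv.trans (Matrix.toLinAlgEquiv'.symm.toRingEquiv)
  let ψ : G →* (Matrix n n F)ˣ := (Units.map Θ.toMonoidHom).comp ρ.toHomUnits
  have hψ : ∀ g u, ((ψ g : (Matrix n n F)ˣ) : Matrix n n F) *ᵥ u = T (ρ g (T.symm u)) := by
    intro g u
    have h1 : ((ψ g : (Matrix n n F)ˣ) : Matrix n n F) = Θ (ρ g) := rfl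
    rw [h1]
    have h2 : Θ (ρ g) = LinearMap.toMatrix' (T.conjRingEquiv (ρ g)) := rfl
    rw [h2, ← Matrix.toLin'_apply, Matrix.toLin'_toMatrix']
    rfl
  have hmem : ∀ g, ψ g ∈ Cfsg.isometryGroup F Q := by
    intro g u v
    show Q (((ψ g : (Matrix n n F)ˣ) : Matrix n n F) *ᵥ u) = Q u
    rw [hψ, hT, hinv, ← hT, LinearEquiv.apply_symm_apply]
  refine ⟨ψ.codRestrict _ hmem, ?_⟩
  intro g g' hgg
  have h1 : ψ g = ψ g' := congrArg Subtype.val hgg
  have h2 : Θ (ρ g) = Θ (ρ g') := congrArg Units.val h1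
  exact hρ (Θ.injective h2)

def Mmat (k : ℕ) (R : Type*) [CommRing R] (a c : R) :
    Matrix ((Fin k ⊕ Fin k) ⊕ Fin 2) ((Fin k ⊕ Fin k) ⊕ Fin 2) R :=
  Matrix.fromBlocks (Matrix.fromBlocks 0 1 0 0) 0 0 !![1, a; 0, c]

theorem quad_eq (k : ℕ) {R : Type*} [CommRing R] (a c : R) (v : (Fin k ⊕ Fin k) ⊕ Fin 2 → R) :
    v ⬝ᵥ (Mmat k R a c *ᵥ v) = (∑ i : Fin k, v (.inl (.inl i)) * v (.inl (.inr i)))
      + (v (.inr 0) ^ 2 + a * v (.inr 0) * v (.inr 1) + c * v (.inr 1) ^ 2) := by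
  simp [Mmat, dotProduct, Matrix.mulVec, Fintype.sum_sum_type, Fin.sum_univ_two, Matrix.one_apply]
  ring

theorem Mmat_map (k : ℕ) {F K : Type*} [CommRing F] [CommRing K] (f : F →+* K) (a c : F) :
    (Mmat k F a c).map f = Mmat k K (f a) (f c) := by
  ext i j
  rcases i with (i|i)|i <;> rcases j with (j|j)|j <;>
    simp [Mmat, Matrix.one_apply]
  fin_cases i <;> fin_cases j <;> simp

noncomputable def Tequiv (k : ℕ) {K : Type*} [Field K] (r r' : K) (hr : r' - r ≠ 0) :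
    ((Fin k ⊕ Fin k) ⊕ Fin 2 → K) ≃ₗ[K] (Fin (k+1) ⊕ Fin (k+1) → K) where
  toFun u := Sum.elim
    (Fin.snoc (α := fun _ => K) (fun i => u (.inl (.inl i))) (u (.inr 0) - r * u (.inr 1)))
    (Fin.snoc (α := fun _ => K) (fun i => u (.inl (.inr i))) (u (.inr 0) - r' * u (.inr 1)))
  invFun w := Sum.elim (Sum.elim (fun i => w (.inl i.castSucc)) (fun i => w (.inr i.castSucc)))
      ![(r' * w (.inl (Fin.last k)) - r * w (.inr (Fin.last k))) / (r' - r),
        (w (.inl (Fin.last k)) - w (.inr (Fin.last k))) / (r' - r)]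
  map_add' u u' := by
    funext x
    rcases x with x | x <;> refine Fin.lastCases ?_ (fun i => ?_) x <;> simp <;> ring
  map_smul' c u := by
    funext x
    rcases x with x | x <;> refine Fin.lastCases ?_ (fun i => ?_) x <;> simp <;> ring
  left_inv u := by
    funext x
    rcases x with (x|x)|x
    · simp
    · simp
    · fin_cases x <;> simp <;> field_simp <;> ring
  right_inv w := by
    funext x
    rcases x with x | x <;> refine Fin.lastCases ?_ (fun i => ?_) x <;> simp <;> field_simp <;> ring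

theorem Tequiv_quad (k : ℕ) {K : Type*} [Field K] (r r' : K) (hr : r' - r ≠ 0) (A C : K)
    (hsum : r + r' = -A) (hprod : r * r' = C) (u : (Fin k ⊕ Fin k) ⊕ Fin 2 → K) :
    Cfsg.quadFormPlus (k+1) K (Tequiv k r r' hr u) = u ⬝ᵥ (Mmat k K A C *ᵥ u) := by
  rw [quad_eq]
  unfold Cfsg.quadFormPlus
  rw [Fin.sum_univ_castSucc]
  simp only [Tequiv, LinearEquiv.coe_mk, LinearMap.coe_mk, AddHom.coe_mk, Sum.elim_inl,
    Sum.elim_inr, Fin.snoc_castSucc, Fin.snoc_last]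
  congr 1
  linear_combination (-(u (Sum.inr 0) * u (Sum.inr 1))) * hsum + (u (Sum.inr 1))^2 * hprod

open QuadraticAlgebra in
theorem omega_sq' {F : Type*} [Field F] (a' b' : F) :
    (ω : QuadraticAlgebra F a' b') * ω = algebraMap F _ a' + algebraMap F _ b' * ω := by
  ext <;> simp

open QuadraticAlgebra in
theorem omega_ne' {F : Type*} [Field F] (a' b' : F)
    (h : algebraMap F (QuadraticAlgebra F a' b') b' - ω = ω) : b' = 0 ∧ (1 : F) + 1 = 0 := by
  have hre := congrArg QuadraticAlgebra.re h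
  have him := congrArg QuadraticAlgebra.im h
  simp at hre him
  refine ⟨hre, ?_⟩
  linear_combination -him

theorem exists_sqrt_char_two {F : Type*} [Field F] [Finite F] (h2 : (1 : F) + 1 = 0) (c : F) :
    ∃ s : F, s ^ 2 = c := by
  have hinj : Function.Injective (fun s : F => s ^ 2) := by
    intro x y hxy
    have h3 : (x - y) ^ 2 = 0 := by
      have hxy' : x ^ 2 = y ^ 2 := hxy
      linear_combination hxy' + (y ^ 2 - x * y) * h2
    have := pow_eq_zero_iff (two_ne_zero) |>.mp h3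
    exact sub_eq_zero.mp this
  exact Finite.injective_iff_surjective.mp hinj c

open QuadraticAlgebra in
theorem main {F K : Type*} [Field F] [Fintype F] [Field K] [Fintype K] {q : ℕ} (hF : Fintype.card F = q) (hK : Fintype.card K = q ^ 2) {m : ℕ} (hm : 1 ≤ m) (a c : F) (hac : ∀ z₁ z₂ : F, z₁ ^ 2 + a * z₁ * z₂ + c * z₂ ^ 2 = 0 → z₁ = 0 ∧ z₂ = 0) : ∃ φ : ↥(Cfsg.isometryGroup F (Cfsg.quadFormMinus (m - 1) F a c)) →* ↥(Cfsg.isometryGroup K (Cfsg.quadFormPlus m K)), Function.Injective φ := by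
  classical
  obtain ⟨k, rfl⟩ : ∃ k, m = k + 1 := ⟨m - 1, by omega⟩
  show ∃ φ : ↥(Cfsg.isometryGroup F (Cfsg.quadFormMinus k F a c)) →*
    ↥(Cfsg.isometryGroup K (Cfsg.quadFormPlus (k+1) K)), Function.Injective φ
  haveI hfact : Fact (∀ r : F, r ^ 2 ≠ -c + -a * r) := ⟨fun r hr => by
    have := (hac r 1 (by linear_combination hr)).2
    exact one_ne_zero this⟩
  have hcardL : Nat.card (QuadraticAlgebra F (-c) (-a)) = q ^ 2 := by
    rw [Cfsg.Agent.S2475.card_K, hF]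
  haveI : Fintype (QuadraticAlgebra F (-c) (-a)) := Fintype.ofFinite _
  let e : QuadraticAlgebra F (-c) (-a) ≃+* K :=
    FiniteField.ringEquivOfCardEq (by rw [hK, ← hcardL, Nat.card_eq_fintype_card])
  let f : F →+* K := e.toRingHom.comp (algebraMap F (QuadraticAlgebra F (-c) (-a)))
  have hfe : ∀ x : F, f x = e (algebraMap F (QuadraticAlgebra F (-c) (-a)) x) := fun x => rfl
  have hfinj : Function.Injective f := f.injective
  let r : K := e (ω : QuadraticAlgebra F (-c) (-a))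
  let r' : K := -f a - r
  have hr2 : r * r = - f c - f a * r := by
    have := congrArg e (omega_sq' (-c) (-a))
    rw [map_mul, map_add, map_mul, ← hfe, ← hfe, map_neg, map_neg] at this
    linear_combination this
  have hsum : r + r' = - f a := by simp only [r']; ring
  have hprod : r * r' = f c := by simp only [r']; linear_combination -hr2
  have hne : r' - r ≠ 0 := by
    intro h0
    have h1 : e (algebraMap F (QuadraticAlgebra F (-c) (-a)) (-a) - ω)
        = e (ω : QuadraticAlgebra F (-c) (-a)) := by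
      rw [map_sub, ← hfe, map_neg]
      linear_combination h0
    obtain ⟨ha0, h2⟩ := omega_ne' (-c) (-a) (e.injective h1)
    obtain ⟨s, hs⟩ := exists_sqrt_char_two h2 c
    have ha0' : a = 0 := by linear_combination -ha0
    have := (hac s 1 (by rw [ha0']; linear_combination hs + c * h2)).2
    exact one_ne_zero this
  let T := Tequiv k r r' hne
  let QV : ((Fin k ⊕ Fin k) ⊕ Fin 2 → K) → K := fun u => u ⬝ᵥ (Mmat k K (f a) (f c) *ᵥ u)
  have hT : ∀ u, Cfsg.quadFormPlus (k+1) K (T u) = QV u :=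
    fun u => Tequiv_quad k r r' hne (f a) (f c) hsum hprod u
  let ρ : ↥(Cfsg.isometryGroup F (Cfsg.quadFormMinus k F a c)) →*
      (((Fin k ⊕ Fin k) ⊕ Fin 2 → K) →ₗ[K] ((Fin k ⊕ Fin k) ⊕ Fin 2 → K)) :=
    (Matrix.toLinAlgEquiv' : Matrix ((Fin k ⊕ Fin k) ⊕ Fin 2) ((Fin k ⊕ Fin k) ⊕ Fin 2) K
        ≃ₐ[K] _).toRingEquiv.toMonoidHom.comp
      (f.mapMatrix.toMonoidHom.comp ((Units.coeHom _).comp (Subgroup.subtype _)))
  have hρv : ∀ g u, ρ g u
      = ((g.1 : Matrix ((Fin k ⊕ Fin k) ⊕ Fin 2) ((Fin k ⊕ Fin k) ⊕ Fin 2) F).map f) *ᵥ u :=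
    fun g u => rfl
  refine embed_iso QV (Cfsg.quadFormPlus (k+1) K) T hT ρ ?_ ?_
  · intro g g' h
    apply Subtype.ext; apply Units.ext
    have h1 : (g.1 : Matrix ((Fin k ⊕ Fin k) ⊕ Fin 2) ((Fin k ⊕ Fin k) ⊕ Fin 2) F).map f
        = (g'.1 : Matrix ((Fin k ⊕ Fin k) ⊕ Fin 2) ((Fin k ⊕ Fin k) ⊕ Fin 2) F).map f := by
      have := congrArg (Matrix.toLinAlgEquiv' : Matrix ((Fin k ⊕ Fin k) ⊕ Fin 2)
        ((Fin k ⊕ Fin k) ⊕ Fin 2) K ≃ₐ[K] _).symm h
      simpa [ρ] using this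
    exact Matrix.map_injective hfinj h1
  · intro g u
    rw [hρv]
    show (_ *ᵥ u) ⬝ᵥ (Mmat k K (f a) (f c) *ᵥ (_ *ᵥ u)) = u ⬝ᵥ (Mmat k K (f a) (f c) *ᵥ u)
    rw [← Mmat_map]
    apply base_change
    intro v
    rw [quad_eq, quad_eq]
    exact g.2 v v


theorem result {F K : Type*} [Field F] [Fintype F] [Field K] [Fintype K] {q : ℕ} (hF : Fintype.card F = q) (hK : Fintype.card K = q ^ 2) {m : ℕ} (hm : 1 ≤ m) (a c : F) (hac : ∀ z₁ z₂ : F, z₁ ^ 2 + a * z₁ * z₂ + c * z₂ ^ 2 = 0 → z₁ = 0 ∧ z₂ = 0) : ∃ φ : ↥(Cfsg.isometryGroup F (Cfsg.quadFormMinus (m - 1) F a c)) →* ↥(Cfsg.isometryGroup K (Cfsg.quadFormPlus m K)), Function.Injective φ := by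
  exact main hF hK hm a c hac

end Cfsg.Agent.S2679
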