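import Cfsg.Statements.S2563
import Cfsg.Agent.S2561
import Cfsg.Agent.S2679

set_option autoImplicit false
open Cfsg

set_option maxHeartbeats 1000000
namespace Cfsg.Agent.S2563

open Cfsg.Agent.S2564 Cfsg.Agent.S2561

theorem classifyV {V : Type*} [AddCommGroup V] [Module (ZMod 2) V] [FiniteDimensional (ZMod 2) V]
    (m : ℕ) (hm : 1 ≤ m) (hV : Module.finrank (ZMod 2) V = 2 * m)
    (q : V → ZMod 2) (β : V → V → ZMod 2)
    (hq : ∀ u v, q (u + v) = q u + q v + β u v)
    (hβl : ∀ u u' v, β (u + u') v = β u v + β u' v)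
    (hβr : ∀ u v v', β u (v + v') = β u v + β u v')
    (hnd : ∀ x, x ≠ 0 → ∃ y, β x y ≠ 0) :
    (∃ g : V ≃ₗ[ZMod 2] (Fin m ⊕ Fin m → ZMod 2),
        ∀ v, q v = Cfsg.quadFormPlus m (ZMod 2) (g v)) ∨
    (∃ g : V ≃ₗ[ZMod 2] ((Fin (m - 1) ⊕ Fin (m - 1)) ⊕ Fin 2 → ZMod 2),
        ∀ v, q v = Cfsg.quadFormMinus (m - 1) (ZMod 2) 1 1 (g v)) := by
  classical
  have z : ∀ a : ZMod 2, a = a + a → a = 0 := by decide
  have hβ0l : ∀ v, β 0 v = 0 := by
    intro v
    have := hβl 0 0 v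
    rw [add_zero] at this
    exact z _ this
  have hβ0r : ∀ u, β u 0 = 0 := by
    intro u
    have := hβr u 0 0
    rw [add_zero] at this
    exact z _ this
  have hq0 : q 0 = 0 := by
    have h := hq 0 0
    rw [hβ0l, add_zero, add_zero] at h
    exact z _ h
  have hβcomm : ∀ u v, β u v = β v u := by
    intro u v
    have h1 := hq u v
    have h2 := hq v u
    rw [add_comm v u] at h2
    rw [h1] at h2
    have : q u + q v + β u v = q u + q v + β v u := by rw [h2]; ring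
    exact add_left_cancel this
  have hxx : ∀ x : V, x + x = 0 := by
    intro x
    have : x + x = ((1 : ZMod 2) + 1) • x := by rw [add_smul, one_smul]
    rw [this]
    have h2 : (1 : ZMod 2) + 1 = 0 := by decide
    rw [h2, zero_smul]
  have hβself : ∀ u, β u u = 0 := by
    intro u
    have h := hq u u
    rw [hxx, hq0] at h
    have h2 := two_zero (q u)
    rw [h2, zero_add] at h
    exact h.symm
  let B : LinearMap.BilinForm (ZMod 2) V :=
    LinearMap.mk₂ (ZMod 2) β hβl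
      (fun c u v => by
        rcases zero_or_one c with rfl | rfl
        · rw [zero_smul, zero_smul, hβ0l]
        · rw [one_smul, one_smul])
      hβr
      (fun c u v => by
        rcases zero_or_one c with rfl | rfl
        · rw [zero_smul, zero_smul, hβ0r]
        · rw [one_smul, one_smul])
  let Q : QuadraticForm (ZMod 2) V :=
    { toFun := q
      toFun_smul := by
        intro a v
        rcases zero_or_one a with rfl | rfl
        · simp [hq0]
        · simp
      exists_companion' := ⟨B, fun u v => hq u v⟩ }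
  have hQq : ∀ v, Q v = q v := fun v => rfl
  have hpolar : ∀ u v, QuadraticMap.polar ⇑Q u v = β u v := by
    intro u v
    unfold QuadraticMap.polar
    rw [hQq, hQq, hQq, hq]; ring
  have hnd' : (QuadraticMap.polarBilin Q).Nondegenerate := by
    constructor
    · intro x hx
      by_contra hx0
      obtain ⟨u, hu⟩ := hnd x hx0
      have := hx u
      rw [QuadraticMap.polarBilin_apply_apply, hpolar] at this
      exact hu this
    · intro y hy
      by_contra hy0
      obtain ⟨u, hu⟩ := hnd y hy0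
      have := hy u
      rw [QuadraticMap.polarBilin_apply_apply, hpolar, hβcomm] at this
      exact hu this
  rcases Cfsg.Agent.S2616.result hm hV Q hnd' with
    ⟨b, hb1, hb2, hb3⟩ | ⟨b, ζ, hζ, hb1, hb2, hb3, hb4, hb5, hb6, hb7⟩
  · left
    refine ⟨b.equivFun, fun v => ?_⟩
    refine agree b q (fun v => Cfsg.quadFormPlus m (ZMod 2) (b.equivFun v)) β
      (fun u v => pol m (b.equivFun u) (b.equivFun v)) hq ?_ hβl hβr
      ?_ ?_ ?_ ?_ v
    · intro u v
      show Cfsg.quadFormPlus m (ZMod 2) (b.equivFun (u + v)) = _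
      rw [map_add, pol_def]; ring
    · intro u u' v
      show pol m (b.equivFun (u + u')) (b.equivFun v) = _
      rw [map_add, pol_add_left]
    · intro u v v'
      show pol m (b.equivFun u) (b.equivFun (v + v')) = _
      rw [map_add, pol_add_right]
    · intro x y
      show β (b x) (b y) = pol m (b.equivFun (b x)) (b.equivFun (b y))
      rw [equivFun_basis, equivFun_basis, ← hpolar]
      rcases x with i | i <;> rcases y with j | j
      · rw [(hb3 i j).1, pol_eq]; simp [Pi.single_apply]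
      · rw [hb2 i j, pol_eq]; simp [Pi.single_apply, eq_comm]
      · rw [QuadraticMap.polar_comm, hb2 j i, pol_eq]; simp [Pi.single_apply, eq_comm]
      · rw [(hb3 i j).2, pol_eq]; simp [Pi.single_apply]
    · intro x
      show q (b x) = Cfsg.quadFormPlus m (ZMod 2) (b.equivFun (b x))
      rw [equivFun_basis]
      rcases x with i | i
      · rw [← hQq, (hb1 i).1]; simp [Cfsg.quadFormPlus, Pi.single_apply]
      · rw [← hQq, (hb1 i).2]; simp [Cfsg.quadFormPlus, Pi.single_apply]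
  · right
    have hζ1 : ζ = 1 := by
      rcases zero_or_one ζ with h | h
      · exfalso; exact hζ 0 (by rw [h]; ring)
      · exact h
    refine ⟨b.equivFun, fun v => ?_⟩
    refine agree b q (fun v => Cfsg.quadFormMinus (m - 1) (ZMod 2) 1 1 (b.equivFun v)) β
      (fun u v => polM (m - 1) (b.equivFun u) (b.equivFun v)) hq ?_ hβl
      hβr ?_ ?_ ?_ ?_ v
    · intro u v
      show Cfsg.quadFormMinus (m - 1) (ZMod 2) 1 1 (b.equivFun (u + v)) = _
      rw [map_add]; unfold polM; ring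
    · intro u u' v
      show polM (m - 1) (b.equivFun (u + u')) (b.equivFun v) = _
      rw [map_add, polM_add_left]
    · intro u v v'
      show polM (m - 1) (b.equivFun u) (b.equivFun (v + v')) = _
      rw [map_add, polM_add_right]
    · intro x y
      show β (b x) (b y) = polM (m - 1) (b.equivFun (b x)) (b.equivFun (b y))
      rw [equivFun_basis, equivFun_basis, ← hpolar]
      have hself : ∀ u, QuadraticMap.polar ⇑Q u u = 0 := by intro u; rw [hpolar, hβself]
      rcases x with (i | i) | a <;> rcases y with (j | j) | c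
      · rw [(hb3 i j).1, polM_eq]; simp [Pi.single_apply]
      · rw [hb2 i j, polM_eq]; simp [Pi.single_apply, eq_comm]
      · rw [(hb4 i c).1, polM_eq]; simp [Pi.single_apply]
      · rw [QuadraticMap.polar_comm, hb2 j i, polM_eq]; simp [Pi.single_apply, eq_comm]
      · rw [(hb3 i j).2, polM_eq]; simp [Pi.single_apply]
      · rw [(hb4 i c).2, polM_eq]; simp [Pi.single_apply]
      · rw [QuadraticMap.polar_comm, (hb4 j a).1, polM_eq]; simp [Pi.single_apply]
      · rw [QuadraticMap.polar_comm, (hb4 j a).2, polM_eq]; simp [Pi.single_apply]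
      · have ha : a = 0 ∨ a = 1 := by fin_cases a <;> simp
        have hc : c = 0 ∨ c = 1 := by fin_cases c <;> simp
        rcases ha with rfl | rfl <;> rcases hc with rfl | rfl
        · rw [hself, polM_eq]; simp [Pi.single_apply]
        · rw [hb6, polM_eq]; simp [Pi.single_apply]
        · rw [QuadraticMap.polar_comm, hb6, polM_eq]; simp [Pi.single_apply]
        · rw [hself, polM_eq]; simp [Pi.single_apply]
    · intro x
      show q (b x) = Cfsg.quadFormMinus (m - 1) (ZMod 2) 1 1 (b.equivFun (b x))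
      rw [equivFun_basis]
      rcases x with (i | i) | a
      · rw [← hQq, (hb1 i).1]; simp [Cfsg.quadFormMinus, Pi.single_apply]
      · rw [← hQq, (hb1 i).2]; simp [Cfsg.quadFormMinus, Pi.single_apply]
      · have ha : a = 0 ∨ a = 1 := by fin_cases a <;> simp
        rcases ha with rfl | rfl
        · rw [← hQq, hb5]; simp [Cfsg.quadFormMinus, Pi.single_apply]
        · rw [← hQq, hb7, hζ1]; simp [Cfsg.quadFormMinus, Pi.single_apply]

theorem card_zeros_minus (k : ℕ) :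
    Nat.card {w : (Fin k ⊕ Fin k) ⊕ Fin 2 → ZMod 2 // Cfsg.quadFormMinus k (ZMod 2) 1 1 w = 0}
      + 2 ^ k = 2 ^ (2 * k + 1) := by
  have hminus : Nat.card {w : (Fin k ⊕ Fin k) ⊕ Fin 2 → ZMod 2 //
        Cfsg.quadFormMinus k (ZMod 2) 1 1 w = 0} =
      Nat.card {p : ((Fin k → ZMod 2) × (Fin k → ZMod 2)) × (Fin 2 → ZMod 2) //
        p.1.1 ⬝ᵥ p.1.2 + (fun z : Fin 2 → ZMod 2 => z 0 ^ 2 + 1 * z 0 * z 1 + 1 * z 1 ^ 2) p.2 = 0} := by
    apply Nat.card_congr
    refine Equiv.subtypeEquiv ((Equiv.sumArrowEquivProdArrow _ _ _).trans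
      (Equiv.prodCongr (Equiv.sumArrowEquivProdArrow _ _ _) (Equiv.refl _))) ?_
    intro v
    rfl
  have hZ2 : Nat.card {z : Fin 2 → ZMod 2 //
      (fun z : Fin 2 → ZMod 2 => z 0 ^ 2 + 1 * z 0 * z 1 + 1 * z 1 ^ 2) z = 0} = 1 := by
    rw [Nat.card_eq_one_iff_unique]
    refine ⟨⟨?_⟩, ⟨⟨0, by simp⟩⟩⟩
    have hz : ∀ z : Fin 2 → ZMod 2, z 0 ^ 2 + 1 * z 0 * z 1 + 1 * z 1 ^ 2 = 0 → z = 0 := by
      intro z hz
      have key : ∀ a b : ZMod 2, a ^ 2 + 1 * a * b + 1 * b ^ 2 = 0 → a = 0 ∧ b = 0 := by decide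
      obtain ⟨h0, h1⟩ := key _ _ hz
      funext i
      fin_cases i
      · exact h0
      · exact h1
    rintro ⟨a, ha⟩ ⟨b, hb⟩
    apply Subtype.ext
    exact (hz a ha).trans (hz b hb).symm
  have c2 := Cfsg.Agent.S2617.count_zeros (F := ZMod 2) (k := k)
    (fun z : Fin 2 → ZMod 2 => z 0 ^ 2 + 1 * z 0 * z 1 + 1 * z 1 ^ 2)
  rw [hZ2, ← hminus] at c2
  simp only [ZMod.card, mul_one, Fintype.card_pi, Finset.prod_const, Finset.card_univ,
    Fintype.card_fin] at c2
  have h1 : 1 ≤ 2 ^ k := Nat.one_le_two_pow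
  have h3 : (2 ^ k - 1) * 2 ^ k + 2 ^ k = 2 ^ k * 2 ^ k := by
    rw [Nat.sub_mul, one_mul]; exact Nat.sub_add_cancel (Nat.le_mul_self _)
  have h4 : 2 ^ (2 * k + 1) = 2 * (2 ^ k * 2 ^ k) := by
    rw [← pow_add, ← pow_succ']; congr 1; omega
  have h5 : 2 ^ (k + 1) = 2 * 2 ^ k := by rw [pow_succ]; ring
  have h6 : (2 ^ k - 1) * 2 ^ k * 2 ^ 2 = 4 * ((2 ^ k - 1) * 2 ^ k) := by ring
  rw [h6] at c2
  generalize 2 ^ k * 2 ^ k = X at h3 h4
  generalize (2 ^ k - 1) * 2 ^ k = Y at h3 c2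
  omega

noncomputable def wt {n : ℕ} (z : Fin n → ZMod 2) : ℕ := ∑ i, (z i).val

noncomputable def qZ {n : ℕ} (z : Fin n → ZMod 2) : ZMod 2 := ((wt z / 2 : ℕ) : ZMod 2)

theorem wt_cast {n : ℕ} (z : Fin n → ZMod 2) : ((wt z : ℕ) : ZMod 2) = ∑ i, z i := by
  unfold wt
  rw [Nat.cast_sum]
  exact Finset.sum_congr rfl (fun i _ => ZMod.natCast_zmod_val (z i))

theorem wt_even {n : ℕ} (z : Fin n → ZMod 2) (h : ∑ i, z i = 0) : ∃ a, wt z = 2 * a := by
  rw [← wt_cast, ZMod.natCast_eq_zero_iff] at h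
  exact h

theorem wt_add {n : ℕ} (u v : Fin n → ZMod 2) :
    wt (u + v) + 2 * wt (u * v) = wt u + wt v := by
  unfold wt
  rw [Finset.mul_sum, ← Finset.sum_add_distrib, ← Finset.sum_add_distrib]
  apply Finset.sum_congr rfl
  intro i _
  have key : ∀ a b : ZMod 2, (a + b).val + 2 * (a * b).val = a.val + b.val := by decide
  exact key (u i) (v i)

theorem qZ_add {n : ℕ} (u v : Fin n → ZMod 2) (hu : ∑ i, u i = 0) (hv : ∑ i, v i = 0) :
    qZ (u + v) = qZ u + qZ v + u ⬝ᵥ v := by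
  obtain ⟨a, ha⟩ := wt_even u hu
  obtain ⟨b, hb⟩ := wt_even v hv
  have huv : ∑ i, (u + v) i = 0 := by simp [Finset.sum_add_distrib, hu, hv]
  obtain ⟨c, hc⟩ := wt_even (u + v) huv
  have h := wt_add u v
  have hd : (u ⬝ᵥ v) = ((wt (u * v) : ℕ) : ZMod 2) := by rw [wt_cast]; rfl
  unfold qZ
  rw [hd, ha, hb, hc]
  rw [ha, hb, hc] at h
  have h1 : c + wt (u * v) = a + b := by omega
  have h2 : ((c : ℕ) : ZMod 2) + ((wt (u * v) : ℕ) : ZMod 2) = a + b := by
    exact_mod_cast congrArg (Nat.cast : ℕ → ZMod 2) h1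
  have h0 := two_zero ((wt (u * v) : ℕ) : ZMod 2)
  simp only [Nat.mul_div_cancel_left _ (by norm_num : 0 < 2)]
  linear_combination h2 - h0

theorem wt_perm {n : ℕ} (π : Equiv.Perm (Fin n)) (z : Fin n → ZMod 2) :
    wt (fun i => z (π i)) = wt z := by
  unfold wt
  exact Equiv.sum_comp π (fun i => (z i).val)

theorem wt_compl {n : ℕ} (z : Fin n → ZMod 2) : wt (z + 1) + wt z = n := by
  unfold wt
  rw [← Finset.sum_add_distrib]
  have key : ∀ a : ZMod 2, (a + 1).val + a.val = 1 := by decide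
  simp [key]

theorem qZ_compl {n : ℕ} (k : ℕ) (hn : n = 4 * k + 4) (z : Fin n → ZMod 2) (hz : ∑ i, z i = 0) :
    qZ (z + 1) = qZ z := by
  obtain ⟨a, ha⟩ := wt_even z hz
  have h := wt_compl z
  unfold qZ
  have h1 : wt (z + 1) = 2 * (2 * k + 2 - a) := by omega
  rw [h1, ha]
  simp only [Nat.mul_div_cancel_left _ (by norm_num : 0 < 2)]
  have h2 : (2 * k + 2 - a) + a = 2 * (k + 1) := by omega
  have h3 : (((2 * k + 2 - a : ℕ) : ZMod 2)) + (a : ZMod 2) = 0 := by
    rw [← Nat.cast_add, h2, Nat.cast_mul]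
    have : ((2 : ℕ) : ZMod 2) = 0 := by decide
    rw [this, zero_mul]
  have h0 := two_zero (a : ZMod 2)
  linear_combination h3 - h0

noncomputable def sigo {n : ℕ} (o : Fin n) : (Fin n → ZMod 2) →ₗ[ZMod 2] ZMod 2 × ZMod 2 :=
  LinearMap.prod (∑ i, LinearMap.proj i) (LinearMap.proj o)

theorem sigo_apply {n : ℕ} (o : Fin n) (z : Fin n → ZMod 2) : sigo o z = (∑ i, z i, z o) := by
  simp [sigo, LinearMap.sum_apply]

noncomputable def W {n : ℕ} (o : Fin n) : Submodule (ZMod 2) (Fin n → ZMod 2) :=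
  LinearMap.ker (sigo o)

theorem mem_W {n : ℕ} (o : Fin n) (z : Fin n → ZMod 2) : z ∈ W o ↔ ∑ i, z i = 0 ∧ z o = 0 := by
  unfold W; rw [LinearMap.mem_ker, sigo_apply, Prod.mk_eq_zero]

noncomputable def Rm {n : ℕ} (o : Fin n) : (Fin n → ZMod 2) →ₗ[ZMod 2] (Fin n → ZMod 2) :=
  LinearMap.id +
    (LinearMap.proj o : (Fin n → ZMod 2) →ₗ[ZMod 2] ZMod 2).smulRight (1 : Fin n → ZMod 2)

theorem Rm_apply {n : ℕ} (o : Fin n) (z : Fin n → ZMod 2) :
    Rm o z = z + z o • (1 : Fin n → ZMod 2) := by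
  simp [Rm]

noncomputable def Pm {n : ℕ} (π : Equiv.Perm (Fin n)) :
    (Fin n → ZMod 2) →ₗ[ZMod 2] (Fin n → ZMod 2) :=
  LinearMap.funLeft (ZMod 2) (ZMod 2) π.symm

theorem Pm_apply {n : ℕ} (π : Equiv.Perm (Fin n)) (z : Fin n → ZMod 2) (i : Fin n) :
    Pm π z i = z (π.symm i) := rfl

theorem Pm_one' {n : ℕ} (π : Equiv.Perm (Fin n)) : Pm π (1 : Fin n → ZMod 2) = 1 := by
  funext i; rfl

theorem Rm_one' {n : ℕ} (o : Fin n) : Rm o (1 : Fin n → ZMod 2) = 0 := by
  rw [Rm_apply]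
  funext i
  simp only [Pi.add_apply, Pi.one_apply, Pi.smul_apply, smul_eq_mul, mul_one, Pi.zero_apply]
  decide

theorem sum_Pm {n : ℕ} (π : Equiv.Perm (Fin n)) (z : Fin n → ZMod 2) :
    ∑ i, Pm π z i = ∑ i, z i := by
  simp only [Pm_apply]
  exact Equiv.sum_comp π.symm z

theorem wt_Pm {n : ℕ} (π : Equiv.Perm (Fin n)) (z : Fin n → ZMod 2) :
    wt (Pm π z) = wt z := wt_perm π.symm z

theorem Rm_mem {n : ℕ} (o : Fin n) (hn : Even n) (z : Fin n → ZMod 2) (hz : ∑ i, z i = 0) :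
    Rm o z ∈ W o := by
  rw [mem_W, Rm_apply]
  have hn0 : ((n : ℕ) : ZMod 2) = 0 := by
    rw [ZMod.natCast_eq_zero_iff]; exact even_iff_two_dvd.mp hn
  constructor
  · simp only [Pi.add_apply, Pi.smul_apply, Pi.one_apply, smul_eq_mul, mul_one]
    rw [Finset.sum_add_distrib, hz, zero_add]
    simp [hn0]
  · simp only [Pi.add_apply, Pi.smul_apply, Pi.one_apply, smul_eq_mul, mul_one]
    exact two_zero _

theorem Rm_of_mem {n : ℕ} (o : Fin n) (z : Fin n → ZMod 2) (hz : z o = 0) : Rm o z = z := by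
  rw [Rm_apply, hz, zero_smul, add_zero]

noncomputable def Lm {n : ℕ} (o : Fin n) (π : Equiv.Perm (Fin n)) :
    (Fin n → ZMod 2) →ₗ[ZMod 2] (Fin n → ZMod 2) := (Rm o).comp (Pm π)

theorem Lm_apply {n : ℕ} (o : Fin n) (π : Equiv.Perm (Fin n)) (z : Fin n → ZMod 2) :
    Lm o π z = Rm o (Pm π z) := rfl

theorem Lm_mem {n : ℕ} (o : Fin n) (hn : Even n) (π : Equiv.Perm (Fin n)) (z : Fin n → ZMod 2)
    (hz : z ∈ W o) : Lm o π z ∈ W o := by
  rw [Lm_apply]
  apply Rm_mem o hn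
  rw [sum_Pm]
  exact ((mem_W o z).mp hz).1

theorem Pm_mul {n : ℕ} (π₁ π₂ : Equiv.Perm (Fin n)) (z : Fin n → ZMod 2) :
    Pm (π₁ * π₂) z = Pm π₁ (Pm π₂ z) := by
  funext i
  rfl

theorem Lm_mul {n : ℕ} (o : Fin n) (π₁ π₂ : Equiv.Perm (Fin n)) (z : Fin n → ZMod 2) :
    Lm o (π₁ * π₂) z = Lm o π₁ (Lm o π₂ z) := by
  rw [Lm_apply, Lm_apply, Lm_apply, Pm_mul]
  rw [Rm_apply o (Pm π₂ z), map_add, map_smul, Pm_one', map_add, map_smul, Rm_one', smul_zero,
    add_zero]

noncomputable def rho {n : ℕ} (o : Fin n) (hn : Even n) :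
    Equiv.Perm (Fin n) →* (↥(W o) →ₗ[ZMod 2] ↥(W o)) where
  toFun π := (Lm o π).restrict (Lm_mem o hn π)
  map_one' := by
    apply LinearMap.ext
    rintro ⟨z, hz⟩
    apply Subtype.ext
    rw [LinearMap.restrict_coe_apply]
    show Rm o (Pm 1 z) = z
    have : Pm 1 z = z := by funext i; rfl
    rw [this]
    exact Rm_of_mem o z ((mem_W o z).mp hz).2
  map_mul' := by
    intro π₁ π₂
    apply LinearMap.ext
    rintro ⟨z, hz⟩
    apply Subtype.ext
    rw [LinearMap.restrict_coe_apply, Module.End.mul_apply, LinearMap.restrict_coe_apply,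
      LinearMap.restrict_coe_apply]
    exact Lm_mul o π₁ π₂ z

theorem rho_apply {n : ℕ} (o : Fin n) (hn : Even n) (π : Equiv.Perm (Fin n)) (v : ↥(W o)) :
    ((rho o hn π v : ↥(W o)) : Fin n → ZMod 2) = Rm o (Pm π v.1) := rfl

theorem rho_inv {n : ℕ} (k : ℕ) (hn4 : n = 4 * k + 4) (o : Fin n) (hn : Even n)
    (π : Equiv.Perm (Fin n)) (v : ↥(W o)) :
    qZ ((rho o hn π v : ↥(W o)) : Fin n → ZMod 2) = qZ v.1 := by
  rw [rho_apply, Rm_apply]
  have hs : ∑ i, Pm π v.1 i = 0 := by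
    rw [sum_Pm]; exact ((mem_W o v.1).mp v.2).1
  have hq : qZ (Pm π v.1) = qZ v.1 := by unfold qZ; rw [wt_Pm]
  rcases zero_or_one (Pm π v.1 o) with h | h
  · rw [h, zero_smul, add_zero, hq]
  · rw [h, one_smul, qZ_compl k hn4 _ hs, hq]

theorem sum_single {n : ℕ} (c : Fin n) : ∑ i, (Pi.single c (1 : ZMod 2) : Fin n → ZMod 2) i = 1 := by
  simp [Pi.single_apply]

theorem wt_single {n : ℕ} (c : Fin n) : wt (Pi.single c (1 : ZMod 2) : Fin n → ZMod 2) = 1 := by
  unfold wt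
  have : ∀ i, ((Pi.single c (1 : ZMod 2) : Fin n → ZMod 2) i).val = if i = c then 1 else 0 := by
    intro i
    by_cases h : i = c
    · subst h; simp; rfl
    · simp [Pi.single_apply, h]
  simp [this]

theorem pair_mem {n : ℕ} (o c d : Fin n) (hc : c ≠ o) (hd : d ≠ o) :
    (Pi.single c (1 : ZMod 2) + Pi.single d (1 : ZMod 2) : Fin n → ZMod 2) ∈ W o := by
  rw [mem_W]
  constructor
  · simp only [Pi.add_apply]
    rw [Finset.sum_add_distrib, sum_single, sum_single]
    decide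
  · simp [Pi.single_apply, hc.symm, hd.symm]

theorem nondeg {n : ℕ} (o : Fin n) (hn : Even n) (v : Fin n → ZMod 2) (hv : v ∈ W o)
    (hv0 : v ≠ 0) : ∃ u ∈ W o, v ⬝ᵥ u ≠ 0 := by
  rw [mem_W] at hv
  obtain ⟨i, hi⟩ : ∃ i, v i ≠ 0 := by
    by_contra hcon
    push_neg at hcon
    exact hv0 (funext hcon)
  have hio : i ≠ o := by
    rintro rfl
    exact hi hv.2
  have hi1 : v i = 1 := by
    rcases zero_or_one (v i) with h | h
    · exact absurd h hi
    · exact h
  obtain ⟨j, hjo, hj⟩ : ∃ j, j ≠ o ∧ v j = 0 := by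
    by_contra hcon
    push_neg at hcon
    have hall : ∀ j, v j + (if j = o then 1 else 0) = 1 := by
      intro j
      by_cases hj : j = o
      · subst hj; rw [hv.2]; simp
      · rcases zero_or_one (v j) with h | h
        · exact absurd h (hcon j hj)
        · rw [h]; simp [hj]
    have hsum : ∑ j, (v j + (if j = o then (1 : ZMod 2) else 0)) = ∑ j : Fin n, (1 : ZMod 2) :=
      Finset.sum_congr rfl (fun j _ => hall j)
    rw [Finset.sum_add_distrib, hv.1, zero_add, Finset.sum_ite_eq' Finset.univ o] at hsum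
    simp only [Finset.mem_univ, if_true, Finset.sum_const, Finset.card_univ, Fintype.card_fin,
      nsmul_eq_mul, mul_one] at hsum
    have hn0 : ((n : ℕ) : ZMod 2) = 0 := by
      rw [ZMod.natCast_eq_zero_iff]; exact even_iff_two_dvd.mp hn
    rw [hn0] at hsum
    exact one_ne_zero hsum
  refine ⟨Pi.single i 1 + Pi.single j 1, pair_mem o i j hio hjo, ?_⟩
  rw [dotProduct_add, dotProduct_single, dotProduct_single, hi1, hj]
  decide

theorem finrank_W {n : ℕ} (o i : Fin n) (hio : i ≠ o) :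
    Module.finrank (ZMod 2) ↥(W o) + 2 = n := by
  have h := LinearMap.finrank_range_add_finrank_ker (sigo o)
  have hsurj : LinearMap.range (sigo o) = ⊤ := by
    rw [LinearMap.range_eq_top]
    rintro ⟨a, b⟩
    refine ⟨(a + b) • Pi.single i 1 + b • Pi.single o 1, ?_⟩
    rw [map_add, map_smul, map_smul, sigo_apply, sigo_apply, sum_single, sum_single]
    simp only [Pi.single_apply, hio.symm, if_false, if_true, Prod.smul_mk, smul_eq_mul, mul_one,
      mul_zero, Prod.mk_add_mk, add_zero, Prod.mk.injEq]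
    refine ⟨?_, by simp⟩
    have := two_zero b
    linear_combination this
  rw [hsurj, finrank_top, Module.finrank_prod, Module.finrank_self, Module.finrank_fin_fun] at h
  unfold W
  omega

theorem fix_of_rho {n : ℕ} (o : Fin n) (π : Equiv.Perm (Fin n)) (v : Fin n → ZMod 2)
    (h : Rm o (Pm π v) = v) (hw : 2 * wt v ≠ n) : Pm π v = v := by
  rcases zero_or_one (Pm π v o) with h0 | h1
  · rw [Rm_of_mem o _ h0] at h
    exact h
  · exfalso
    rw [Rm_apply, h1, one_smul] at h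
    have hc := wt_compl (Pm π v)
    rw [h, wt_Pm] at hc
    apply hw
    omega

theorem exists_other {n : ℕ} (hn : 4 ≤ n) (s : Finset (Fin n)) (hs : s.card ≤ 3) :
    ∃ d, d ∉ s := by
  by_contra hcon
  push_neg at hcon
  have : s = Finset.univ := Finset.eq_univ_iff_forall.mpr hcon
  rw [this, Finset.card_univ, Fintype.card_fin] at hs
  omega

theorem rho_inj {n : ℕ} (o : Fin n) (hn : Even n) (hn8 : 8 ≤ n) :
    Function.Injective (rho o hn) := by
  classical
  rw [injective_iff_map_eq_one]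
  intro π hπ
  have hfix : ∀ c d : Fin n, c ≠ o → d ≠ o → c ≠ d → π c = c ∨ π c = d := by
    intro c d hc hd hcd
    have hmem := pair_mem o c d hc hd
    have h1 : Rm o (Pm π (Pi.single c (1 : ZMod 2) + Pi.single d (1 : ZMod 2))) =
        (Pi.single c (1 : ZMod 2) + Pi.single d (1 : ZMod 2)) := by
      have := congrArg (fun f : ↥(W o) →ₗ[ZMod 2] ↥(W o) => ((f ⟨_, hmem⟩ : ↥(W o)) : Fin n → ZMod 2)) hπ
      exact this
    have hw : 2 * wt (Pi.single c (1 : ZMod 2) + Pi.single d (1 : ZMod 2) : Fin n → ZMod 2) ≠ n := by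
      have := wt_add (Pi.single c (1 : ZMod 2) : Fin n → ZMod 2) (Pi.single d (1 : ZMod 2))
      rw [wt_single, wt_single] at this
      omega
    have h2 := fix_of_rho o π _ h1 hw
    have h3 := congrFun h2 (π c)
    rw [Pm_apply, Equiv.symm_apply_apply] at h3
    simp only [Pi.add_apply, Pi.single_apply, if_true, hcd, if_false, add_zero] at h3
    by_contra hcon
    push_neg at hcon
    rw [if_neg hcon.1, if_neg hcon.2] at h3
    revert h3
    decide
  have hfix' : ∀ c : Fin n, c ≠ o → π c = c := by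
    intro c hc
    obtain ⟨d, hd⟩ := exists_other (by omega) ({c, o} : Finset (Fin n))
      ((Finset.card_insert_le _ _).trans (by simp))
    obtain ⟨d', hd'⟩ := exists_other (by omega) ({c, o, d} : Finset (Fin n))
      ((Finset.card_insert_le _ _).trans
        (Nat.succ_le_succ ((Finset.card_insert_le _ _).trans (by simp))))
    simp only [Finset.mem_insert, Finset.mem_singleton, not_or] at hd hd'
    rcases hfix c d hc hd.2 (Ne.symm hd.1) with h | h
    · exact h
    · rcases hfix c d' hc hd'.2.1 (Ne.symm hd'.1) with h' | h'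
      · exact h'
      · exfalso
        exact hd'.2.2 (h'.symm.trans h)
  ext c
  by_cases hc : c = o
  · subst hc
    by_contra hne
    have hne' : π c ≠ c := fun h => hne (by rw [h]; rfl)
    have := hfix' (π c) hne'
    exact hne' (π.injective this)
  · rw [hfix' c hc]; rfl

open Complex in
theorem ind4 (w : ℕ) : (1 : ℂ) + I ^ w + (-1) ^ w + (-I) ^ w = if 4 ∣ w then 4 else 0 := by
  obtain ⟨a, r, hr, rfl⟩ : ∃ a r, r < 4 ∧ w = 4 * a + r :=
    ⟨w / 4, w % 4, Nat.mod_lt _ (by norm_num), (Nat.div_add_mod w 4).symm⟩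
  have h1 : (I : ℂ) ^ (4 * a + r) = I ^ r := by
    rw [pow_add, pow_mul, I_pow_four, one_pow, one_mul]
  have h2 : (-1 : ℂ) ^ (4 * a + r) = (-1) ^ r := by rw [pow_add, pow_mul]; norm_num
  have h3 : (-I : ℂ) ^ (4 * a + r) = (-I) ^ r := by
    rw [pow_add, pow_mul]
    have : (-I : ℂ) ^ 4 = 1 := by rw [neg_pow, I_pow_four]; norm_num
    rw [this, one_pow, one_mul]
  rw [h1, h2, h3]
  have hd : 4 ∣ 4 * a + r ↔ r = 0 := by omega
  rw [if_congr hd rfl rfl]
  have hI2 : (I : ℂ) ^ 2 = -1 := I_sq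
  have hI3 : (I : ℂ) ^ 3 = -I := by rw [pow_succ, I_sq]; ring
  have hm2 : (-I : ℂ) ^ 2 = -1 := by rw [neg_sq, I_sq]
  have hm3 : (-I : ℂ) ^ 3 = I := by rw [pow_succ, hm2]; ring
  interval_cases r
  · norm_num
  · norm_num
  · rw [hm2, hI2]; norm_num
  · rw [hm3, hI3]; norm_num

theorem sum_pow_wt {n : ℕ} (o : Fin n) (c : ℂ) :
    ∑ z : Fin n → ZMod 2, (if z o = 0 then c ^ wt z else 0) = (1 + c) ^ (n - 1) := by
  classical
  have h1 : ∀ z : Fin n → ZMod 2, (if z o = 0 then c ^ wt z else 0) =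
      ∏ i, (if i = o ∧ z i ≠ 0 then (0 : ℂ) else c ^ (z i).val) := by
    intro z
    by_cases hz : z o = 0
    · rw [if_pos hz]
      unfold wt
      rw [← Finset.prod_pow_eq_pow_sum]
      apply Finset.prod_congr rfl
      intro i _
      rw [if_neg]
      rintro ⟨rfl, h⟩
      exact h hz
    · rw [if_neg hz]
      symm
      apply Finset.prod_eq_zero (Finset.mem_univ o)
      rw [if_pos ⟨rfl, hz⟩]
  rw [Finset.sum_congr rfl (fun z _ => h1 z)]
  rw [← Fintype.prod_sum (fun (i : Fin n) (a : ZMod 2) =>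
    (if i = o ∧ a ≠ 0 then (0 : ℂ) else c ^ a.val))]
  have h2 : ∀ i : Fin n, ∑ a : ZMod 2, (if i = o ∧ a ≠ 0 then (0 : ℂ) else c ^ a.val) =
      if i = o then 1 else 1 + c := by
    intro i
    have e : ∑ a : ZMod 2, (if i = o ∧ a ≠ 0 then (0 : ℂ) else c ^ a.val) =
        (if i = o ∧ (0 : ZMod 2) ≠ 0 then (0 : ℂ) else c ^ (0 : ZMod 2).val) +
        (if i = o ∧ (1 : ZMod 2) ≠ 0 then (0 : ℂ) else c ^ (1 : ZMod 2).val) :=
      Fin.sum_univ_two (fun a : Fin 2 => (if i = o ∧ a ≠ 0 then (0 : ℂ) else c ^ ZMod.val (n := 2) a))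
    rw [e]
    have v0 : (0 : ZMod 2).val = 0 := rfl
    have v1 : (1 : ZMod 2).val = 1 := rfl
    rw [v0, v1]
    by_cases h : i = o
    · simp [h]
    · simp [h]
  rw [Finset.prod_congr rfl (fun i _ => h2 i)]
  rw [Finset.prod_ite, Finset.prod_const_one, one_mul, Finset.prod_const]
  congr 1
  rw [Finset.filter_ne' Finset.univ o, Finset.card_erase_of_mem (Finset.mem_univ o),
    Finset.card_univ, Fintype.card_fin]

open Complex in
theorem pow_sum (k : ℕ) :
    (1 + I : ℂ) ^ (4 * k + 3) + (1 + -I) ^ (4 * k + 3) = -4 * (-4) ^ k := by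
  have h1 : (1 + I : ℂ) ^ 2 = 2 * I := by ring_nf; rw [I_sq]; ring
  have h2 : (1 + -I : ℂ) ^ 2 = -2 * I := by ring_nf; rw [I_sq]; ring
  have h3 : (1 + I : ℂ) ^ 4 = -4 := by
    have : (1 + I : ℂ) ^ 4 = ((1 + I) ^ 2) ^ 2 := by ring
    rw [this, h1, mul_pow, I_sq]; norm_num
  have h4 : (1 + -I : ℂ) ^ 4 = -4 := by
    have : (1 + -I : ℂ) ^ 4 = ((1 + -I) ^ 2) ^ 2 := by ring
    rw [this, h2, mul_pow, I_sq]; norm_num
  have e1 : (1 + I : ℂ) ^ (4 * k + 3) = (-4) ^ k * (2 * I * (1 + I)) := by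
    rw [pow_add, pow_mul, h3, pow_succ, h1]
  have e2 : (1 + -I : ℂ) ^ (4 * k + 3) = (-4) ^ k * (-2 * I * (1 + -I)) := by
    rw [pow_add, pow_mul, h4, pow_succ, h2]
  rw [e1, e2]
  have : (2 * I * (1 + I) : ℂ) + (-2 * I * (1 + -I)) = -4 := by
    ring_nf; rw [I_sq]; ring
  linear_combination (-4 : ℂ) ^ k * this

theorem count_W {n : ℕ} (k : ℕ) (hn4 : n = 4 * k + 4) (o : Fin n) :
    (4 * (Nat.card {v : ↥(W o) // qZ v.1 = 0} : ℤ)) = 2 ^ (4 * k + 3) - 4 * (-4) ^ k := by
  classical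
  have hn1 : n - 1 = 4 * k + 3 := by omega
  have hcard : Nat.card {v : ↥(W o) // qZ v.1 = 0} =
      (Finset.univ.filter (fun z : Fin n → ZMod 2 => z o = 0 ∧ 4 ∣ wt z)).card := by
    rw [← Fintype.card_subtype, ← Nat.card_eq_fintype_card]
    apply Nat.card_congr
    refine (Equiv.subtypeSubtypeEquivSubtypeInter (fun z : Fin n → ZMod 2 => z ∈ W o)
      (fun z => qZ z = 0)).trans (Equiv.subtypeEquivRight ?_)
    intro z
    rw [mem_W]
    constructor
    · rintro ⟨⟨h1, h2⟩, h3⟩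
      refine ⟨h2, ?_⟩
      obtain ⟨a, ha⟩ := wt_even z h1
      unfold qZ at h3
      rw [ha, Nat.mul_div_cancel_left _ (by norm_num : 0 < 2), ZMod.natCast_eq_zero_iff] at h3
      rw [ha]
      omega
    · rintro ⟨h2, h4⟩
      obtain ⟨b, hb⟩ := h4
      refine ⟨⟨?_, h2⟩, ?_⟩
      · rw [← wt_cast, ZMod.natCast_eq_zero_iff, hb]
        omega
      · unfold qZ
        rw [hb, ZMod.natCast_eq_zero_iff]
        omega
  have hC : (4 * (Nat.card {v : ↥(W o) // qZ v.1 = 0} : ℂ)) =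
      2 ^ (4 * k + 3) - 4 * (-4) ^ k := by
    rw [hcard, Finset.card_filter, Nat.cast_sum, Finset.mul_sum]
    have h1 : ∀ z : Fin n → ZMod 2,
        (4 : ℂ) * ((if z o = 0 ∧ 4 ∣ wt z then 1 else 0 : ℕ) : ℂ) =
        (if z o = 0 then (1 : ℂ) ^ wt z else 0) + (if z o = 0 then Complex.I ^ wt z else 0)
        + (if z o = 0 then (-1 : ℂ) ^ wt z else 0) + (if z o = 0 then (-Complex.I) ^ wt z else 0) := by
      intro z
      by_cases hz : z o = 0
      · simp only [hz, true_and, if_true, one_pow]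
        rw [ind4]
        by_cases h4 : 4 ∣ wt z
        · simp [h4]
        · simp [h4]
      · simp [hz]
    rw [Finset.sum_congr rfl (fun z _ => h1 z)]
    rw [Finset.sum_add_distrib, Finset.sum_add_distrib, Finset.sum_add_distrib,
      sum_pow_wt, sum_pow_wt, sum_pow_wt, sum_pow_wt, hn1]
    have h0 : ((1 : ℂ) + -1) ^ (4 * k + 3) = 0 := by
      rw [add_neg_cancel]; exact zero_pow (by omega)
    rw [h0, add_zero, add_assoc, pow_sum]
    norm_num
    ring
  exact_mod_cast hC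


theorem minus_cast {G : Type*} [Group G] (a b : ℕ) (h : a = b) :
    (∃ φ : G →* ↥(Cfsg.isometryGroup (ZMod 2) (Cfsg.quadFormMinus a (ZMod 2) 1 1)),
      Function.Injective φ) →
    (∃ φ : G →* ↥(Cfsg.isometryGroup (ZMod 2) (Cfsg.quadFormMinus b (ZMod 2) 1 1)),
      Function.Injective φ) := by
  subst h; exact id

theorem main (k : ℕ) (hk : 1 ≤ k) :
    (Odd k → ∃ φ : Equiv.Perm (Fin (4 * k + 4)) →* ↥(Cfsg.isometryGroup (ZMod 2) (Cfsg.quadFormPlus (2 * k + 1) (ZMod 2))), Function.Injective φ) ∧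
    (Even k → ∃ φ : Equiv.Perm (Fin (4 * k + 4)) →* ↥(Cfsg.isometryGroup (ZMod 2) (Cfsg.quadFormMinus (2 * k) (ZMod 2) 1 1)), Function.Injective φ) := by
  classical
  have hn : Even (4 * k + 4) := ⟨2 * k + 2, by ring⟩
  let o : Fin (4 * k + 4) := ⟨0, by omega⟩
  let i1 : Fin (4 * k + 4) := ⟨1, by omega⟩
  have hio : i1 ≠ o := by
    intro h
    have := congrArg Fin.val h
    simp [i1, o] at this
  have hfr : Module.finrank (ZMod 2) ↥(W o) = 2 * (2 * k + 1) := by
    have := finrank_W o i1 hio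
    omega
  have hcl := classifyV (V := ↥(W o)) (2 * k + 1) (by omega) hfr (fun v => qZ v.1)
    (fun u v => u.1 ⬝ᵥ v.1)
    (fun u v => qZ_add u.1 v.1 ((mem_W o u.1).mp u.2).1 ((mem_W o v.1).mp v.2).1)
    (fun u u' v => add_dotProduct u.1 u'.1 v.1)
    (fun u v v' => dotProduct_add u.1 v.1 v'.1)
    (by
      intro x hx
      obtain ⟨u, hu, hne⟩ := nondeg o hn x.1 x.2 (fun h => hx (Subtype.ext h))
      exact ⟨⟨u, hu⟩, hne⟩)
  have hcount := count_W k rfl o
  have hinj := rho_inj o hn (by omega)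
  have hinv : ∀ π v, qZ ((rho o hn π v : ↥(W o)) : Fin (4 * k + 4) → ZMod 2) = qZ v.1 :=
    fun π v => rho_inv k rfl o hn π v
  have e3 : (2 : ℤ) ^ (4 * k + 3) = 4 * 2 ^ (4 * k + 1) := by
    have : 4 * k + 3 = 4 * k + 1 + 2 := by omega
    rw [this, pow_add]; ring
  have hpos : (0 : ℤ) < 4 ^ k := by positivity
  rw [e3] at hcount
  constructor
  · intro hodd
    rcases hcl with ⟨g, hg⟩ | ⟨g, hg⟩
    · exact Cfsg.Agent.S2679.embed_iso (fun v : ↥(W o) => qZ v.1)
        (Cfsg.quadFormPlus (2 * k + 1) (ZMod 2)) g (fun v => (hg v).symm) (rho o hn) hinj hinv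
    · exfalso
      have hc : Nat.card {v : ↥(W o) // qZ v.1 = 0} =
          Nat.card {w : (Fin (2 * k + 1 - 1) ⊕ Fin (2 * k + 1 - 1)) ⊕ Fin 2 → ZMod 2 //
            Cfsg.quadFormMinus (2 * k + 1 - 1) (ZMod 2) 1 1 w = 0} := by
        apply Nat.card_congr
        exact g.toEquiv.subtypeEquiv (fun v => by rw [hg v]; rfl)
      have hm := card_zeros_minus (2 * k + 1 - 1)
      rw [← hc] at hm
      have e1 : 2 ^ (2 * k + 1 - 1) = 4 ^ k := by
        rw [Nat.add_sub_cancel, pow_mul]; norm_num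
      have e2 : 2 ^ (2 * (2 * k + 1 - 1) + 1) = 2 ^ (4 * k + 1) := by congr 1; omega
      rw [e1, e2] at hm
      have hm' : (Nat.card {v : ↥(W o) // qZ v.1 = 0} : ℤ) + 4 ^ k = 2 ^ (4 * k + 1) := by
        exact_mod_cast hm
      have e4 : (-4 : ℤ) ^ k = - 4 ^ k := Odd.neg_pow hodd 4
      rw [e4] at hcount
      linarith
  · intro heven
    rcases hcl with ⟨g, hg⟩ | ⟨g, hg⟩
    · exfalso
      have hc : Nat.card {v : ↥(W o) // qZ v.1 = 0} =
          Nat.card {w : Fin (2 * k + 1) ⊕ Fin (2 * k + 1) → ZMod 2 //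
            Cfsg.quadFormPlus (2 * k + 1) (ZMod 2) w = 0} := by
        apply Nat.card_congr
        exact g.toEquiv.subtypeEquiv (fun v => by rw [hg v]; rfl)
      have hm := card_zeros (2 * k + 1) (by omega)
      rw [← hc] at hm
      have e1 : 2 ^ (2 * k + 1 - 1) = 4 ^ k := by
        rw [Nat.add_sub_cancel, pow_mul]; norm_num
      have e2 : 2 ^ (2 * (2 * k + 1) - 1) = 2 ^ (4 * k + 1) := by congr 1; omega
      rw [e1, e2] at hm
      have hm' : (Nat.card {v : ↥(W o) // qZ v.1 = 0} : ℤ) = 2 ^ (4 * k + 1) + 4 ^ k := by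
        exact_mod_cast hm
      have e4 : (-4 : ℤ) ^ k = 4 ^ k := Even.neg_pow heven 4
      rw [e4] at hcount
      linarith
    · exact minus_cast (2 * k + 1 - 1) (2 * k) (by omega)
        (Cfsg.Agent.S2679.embed_iso (fun v : ↥(W o) => qZ v.1)
          (Cfsg.quadFormMinus (2 * k + 1 - 1) (ZMod 2) 1 1) g (fun v => (hg v).symm)
          (rho o hn) hinj hinv)


theorem result (k : ℕ) (hk : 1 ≤ k) :
    (Odd k → ∃ φ : Equiv.Perm (Fin (4 * k + 4)) →* ↥(Cfsg.isometryGroup (ZMod 2) (Cfsg.quadFormPlus (2 * k + 1) (ZMod 2))), Function.Injective φ) ∧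
    (Even k → ∃ φ : Equiv.Perm (Fin (4 * k + 4)) →* ↥(Cfsg.isometryGroup (ZMod 2) (Cfsg.quadFormMinus (2 * k) (ZMod 2) 1 1)), Function.Injective φ) := by
  exact main k hk

end Cfsg.Agent.S2563
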