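import Cfsg.Statements.S2565
import Cfsg.Agent.S2563
import Cfsg.Agent.Lib.Helper1.Orth6

set_option autoImplicit false
open Cfsg

set_option maxHeartbeats 1000000
namespace Cfsg.Agent.S2565

theorem exists_iso : ∃ e : Equiv.Perm (Fin 8) ≃*
    ↥(Cfsg.isometryGroup (ZMod 2) (Cfsg.quadFormPlus 3 (ZMod 2))), True := by
  classical
  obtain ⟨φ, hφ⟩ := (Cfsg.Agent.S2563.result 1 le_rfl).1 (by decide)
  have hcard : Nat.card ↥(Cfsg.isometryGroup (ZMod 2) (Cfsg.quadFormPlus 3 (ZMod 2))) = 40320 := by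
    have := Cfsg.Agent.Lib.Helper1.Orth.card_plus (F := ZMod 2) 2
    rw [this]
    simp [ZMod.card, Finset.prod_range_succ]
  let φ' : Equiv.Perm (Fin 8) →* ↥(Cfsg.isometryGroup (ZMod 2) (Cfsg.quadFormPlus 3 (ZMod 2))) := φ
  have hφ' : Function.Injective φ' := hφ
  haveI : Finite ↥(Cfsg.isometryGroup (ZMod 2) (Cfsg.quadFormPlus 3 (ZMod 2))) :=
    Nat.finite_of_card_ne_zero (by rw [hcard]; norm_num)
  have hbij : Function.Bijective φ' := by
    apply hφ'.bijective_of_nat_card_le
    rw [hcard, Nat.card_eq_fintype_card, Fintype.card_perm, Fintype.card_fin]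
    decide
  exact ⟨MulEquiv.ofBijective φ' hbij, trivial⟩


theorem result :
    (Cfsg.Omega (ZMod 2) (Cfsg.quadFormPlus 3 (ZMod 2))).index = 2 ∧
    Nonempty (↥(Cfsg.Omega (ZMod 2) (Cfsg.quadFormPlus 3 (ZMod 2))) ≃* alternatingGroup (Fin 8)) := by
  classical
  obtain ⟨e, -⟩ := exists_iso
  have hcomm : Cfsg.Omega (ZMod 2) (Cfsg.quadFormPlus 3 (ZMod 2)) =
      (alternatingGroup (Fin 8)).map e.toMonoidHom := by
    show commutator _ = _
    rw [← alternatingGroup.commutator_perm_eq (by simp), commutator_def, commutator_def,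
      Subgroup.map_commutator, Subgroup.map_top_of_surjective _ e.surjective]
  constructor
  · rw [hcomm, Subgroup.index_map_of_bijective e.bijective]
    exact alternatingGroup.index_eq_two
  · rw [hcomm]
    exact ⟨(e.subgroupMap (alternatingGroup (Fin 8))).symm⟩

end Cfsg.Agent.S2565
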