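import Cfsg.Statements.S2566
import Cfsg.Agent.S2679
import Cfsg.Agent.Lib.Helper1.Orth6

set_option autoImplicit false
open Cfsg

set_option maxHeartbeats 1000000
namespace Cfsg.Agent.S2566

abbrev I6 := Fin 3 ⊕ Fin 3

noncomputable def wt (z : I6 → ZMod 2) : ℕ := ∑ i, (z i).val

noncomputable def qZ (z : I6 → ZMod 2) : ZMod 2 := ((wt z / 2 : ℕ) : ZMod 2)

theorem wt_eq (z : I6 → ZMod 2) : wt z =
    (z (Sum.inl 0)).val + (z (Sum.inl 1)).val + (z (Sum.inl 2)).val +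
      ((z (Sum.inr 0)).val + (z (Sum.inr 1)).val + (z (Sum.inr 2)).val) := by
  unfold wt
  rw [Fintype.sum_sum_type, Fin.sum_univ_three, Fin.sum_univ_three]

noncomputable def sig : (I6 → ZMod 2) →ₗ[ZMod 2] ZMod 2 × ZMod 2 :=
  LinearMap.prod (∑ i : Fin 3, LinearMap.proj (Sum.inl i)) (∑ i : Fin 3, LinearMap.proj (Sum.inr i))

noncomputable def W : Submodule (ZMod 2) (I6 → ZMod 2) := LinearMap.ker sig

theorem mem_W (z : I6 → ZMod 2) :
    z ∈ W ↔ (∑ i : Fin 3, z (Sum.inl i) = 0) ∧ (∑ i : Fin 3, z (Sum.inr i) = 0) := by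
  unfold W sig
  rw [LinearMap.mem_ker, LinearMap.prod_apply]
  show ((∑ i : Fin 3, LinearMap.proj (Sum.inl i) : (I6 → ZMod 2) →ₗ[ZMod 2] ZMod 2) z,
    (∑ i : Fin 3, LinearMap.proj (Sum.inr i) : (I6 → ZMod 2) →ₗ[ZMod 2] ZMod 2) z) = 0 ↔ _
  rw [Prod.mk_eq_zero, LinearMap.sum_apply, LinearMap.sum_apply]
  rfl

theorem mem_W' (z : I6 → ZMod 2) :
    z ∈ W ↔ (z (Sum.inl 0) + z (Sum.inl 1) + z (Sum.inl 2) = 0) ∧
      (z (Sum.inr 0) + z (Sum.inr 1) + z (Sum.inr 2) = 0) := by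
  rw [mem_W, Fin.sum_univ_three, Fin.sum_univ_three]

/-- the explicit coordinate change -/
def tauF (z : I6 → ZMod 2) : Fin 2 ⊕ Fin 2 → ZMod 2 :=
  Sum.elim ![z (Sum.inl 1) + z (Sum.inr 1) + z (Sum.inr 2), z (Sum.inl 2) + z (Sum.inr 2)]
    ![z (Sum.inl 1) + z (Sum.inl 2) + z (Sum.inr 1) + z (Sum.inr 2), z (Sum.inl 2) + z (Sum.inr 1)]

def sigF (v : Fin 2 ⊕ Fin 2 → ZMod 2) : I6 → ZMod 2 :=
  Sum.elim ![v (Sum.inl 1) + v (Sum.inr 0) + v (Sum.inr 1),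
      v (Sum.inl 0) + v (Sum.inl 1) + v (Sum.inr 1), v (Sum.inl 0) + v (Sum.inr 0)]
    ![v (Sum.inl 1) + v (Sum.inr 1), v (Sum.inl 0) + v (Sum.inr 0) + v (Sum.inr 1),
      v (Sum.inl 0) + v (Sum.inl 1) + v (Sum.inr 0)]

theorem sigF_mem (v : Fin 2 ⊕ Fin 2 → ZMod 2) : sigF v ∈ W := by
  rw [mem_W']
  have key : ∀ x1 x2 y1 y2 : ZMod 2,
      ((x2 + y1 + y2) + (x1 + x2 + y2) + (x1 + y1) = 0) ∧
      ((x2 + y2) + (x1 + y1 + y2) + (x1 + x2 + y1) = 0) := by decide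
  exact key (v (Sum.inl 0)) (v (Sum.inl 1)) (v (Sum.inr 0)) (v (Sum.inr 1))

theorem tau_sig (v : Fin 2 ⊕ Fin 2 → ZMod 2) : tauF (sigF v) = v := by
  have key : ∀ x1 x2 y1 y2 : ZMod 2,
      ((x1 + x2 + y2) + (x1 + y1 + y2) + (x1 + x2 + y1) = x1) ∧
      ((x1 + y1) + (x1 + x2 + y1) = x2) ∧
      ((x1 + x2 + y2) + (x1 + y1) + (x1 + y1 + y2) + (x1 + x2 + y1) = y1) ∧
      ((x1 + y1) + (x1 + y1 + y2) = y2) := by decide
  obtain ⟨h1, h2, h3, h4⟩ := key (v (Sum.inl 0)) (v (Sum.inl 1)) (v (Sum.inr 0)) (v (Sum.inr 1))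
  funext i
  rcases i with i | i <;> fin_cases i
  · exact h1
  · exact h2
  · exact h3
  · exact h4

theorem sig_tau (z : I6 → ZMod 2) (hz : z ∈ W) : sigF (tauF z) = z := by
  rw [mem_W'] at hz
  have key : ∀ a0 a1 a2 a3 a4 a5 : ZMod 2, a0 + a1 + a2 = 0 → a3 + a4 + a5 = 0 →
      ((a2 + a5) + (a1 + a2 + a4 + a5) + (a2 + a4) = a0) ∧
      ((a1 + a4 + a5) + (a2 + a5) + (a2 + a4) = a1) ∧
      ((a1 + a4 + a5) + (a1 + a2 + a4 + a5) = a2) ∧
      ((a2 + a5) + (a2 + a4) = a3) ∧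
      ((a1 + a4 + a5) + (a1 + a2 + a4 + a5) + (a2 + a4) = a4) ∧
      ((a1 + a4 + a5) + (a2 + a5) + (a1 + a2 + a4 + a5) = a5) := by decide
  obtain ⟨h0, h1, h2, h3, h4, h5⟩ := key _ _ _ _ _ _ hz.1 hz.2
  funext i
  rcases i with i | i <;> fin_cases i
  · exact h0
  · exact h1
  · exact h2
  · exact h3
  · exact h4
  · exact h5

theorem tau_add (z z' : I6 → ZMod 2) : tauF (z + z') = tauF z + tauF z' := by
  funext i
  rcases i with i | i <;> fin_cases i <;> simp [tauF] <;> ring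

theorem tau_smul (c : ZMod 2) (z : I6 → ZMod 2) : tauF (c • z) = c • tauF z := by
  funext i
  rcases i with i | i <;> fin_cases i <;> simp [tauF] <;> ring

noncomputable def Teq : ↥W ≃ₗ[ZMod 2] (Fin 2 ⊕ Fin 2 → ZMod 2) where
  toFun z := tauF z.1
  map_add' z z' := tau_add z.1 z'.1
  map_smul' c z := tau_smul c z.1
  invFun v := ⟨sigF v, sigF_mem v⟩
  left_inv z := Subtype.ext (sig_tau z.1 z.2)
  right_inv v := tau_sig v

theorem Teq_quad (z : ↥W) : Cfsg.quadFormPlus 2 (ZMod 2) (Teq z) = qZ z.1 := by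
  have hz := (mem_W' z.1).mp z.2
  have key : ∀ a0 a1 a2 a3 a4 a5 : ZMod 2, a0 + a1 + a2 = 0 → a3 + a4 + a5 = 0 →
      (a1 + a4 + a5) * (a1 + a2 + a4 + a5) + (a2 + a5) * (a2 + a4) =
      (((a0.val + a1.val + a2.val + (a3.val + a4.val + a5.val)) / 2 : ℕ) : ZMod 2) := by decide
  unfold qZ Cfsg.quadFormPlus
  rw [wt_eq, Fin.sum_univ_two]
  exact key _ _ _ _ _ _ hz.1 hz.2

noncomputable def Pm (π : Equiv.Perm I6) : (I6 → ZMod 2) →ₗ[ZMod 2] (I6 → ZMod 2) :=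
  LinearMap.funLeft (ZMod 2) (ZMod 2) π.symm

theorem Pm_apply (π : Equiv.Perm I6) (z : I6 → ZMod 2) (i : I6) : Pm π z i = z (π.symm i) := rfl

theorem Pm_mul (π₁ π₂ : Equiv.Perm I6) (z : I6 → ZMod 2) : Pm (π₁ * π₂) z = Pm π₁ (Pm π₂ z) := by
  funext i; rfl

theorem Pm_one (z : I6 → ZMod 2) : Pm 1 z = z := by
  funext i; rfl

theorem wt_Pm (π : Equiv.Perm I6) (z : I6 → ZMod 2) : wt (Pm π z) = wt z := by
  unfold wt
  exact Equiv.sum_comp π.symm (fun i => (z i).val)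

def K : Subgroup (Equiv.Perm I6) where
  carrier := {π | ∀ z, Pm π z ∈ W ↔ z ∈ W}
  one_mem' := fun z => by rw [Pm_one]
  mul_mem' := by
    intro a b ha hb z
    rw [Pm_mul]
    exact (ha _).trans (hb z)
  inv_mem' := by
    intro a ha z
    have h := ha (Pm a⁻¹ z)
    rw [← Pm_mul, mul_inv_cancel, Pm_one] at h
    exact h.symm

theorem mem_K (π : Equiv.Perm I6) : π ∈ K ↔ ∀ z, Pm π z ∈ W ↔ z ∈ W := Iff.rfl

noncomputable def rho : ↥K →* (↥W →ₗ[ZMod 2] ↥W) where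
  toFun π := (Pm π.1).restrict (fun z hz => (π.2 z).mpr hz)
  map_one' := by
    apply LinearMap.ext
    rintro ⟨z, hz⟩
    apply Subtype.ext
    rw [LinearMap.restrict_coe_apply]
    exact Pm_one z
  map_mul' := by
    intro π₁ π₂
    apply LinearMap.ext
    rintro ⟨z, hz⟩
    apply Subtype.ext
    rw [LinearMap.restrict_coe_apply, Module.End.mul_apply, LinearMap.restrict_coe_apply,
      LinearMap.restrict_coe_apply]
    exact Pm_mul π₁.1 π₂.1 z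

theorem rho_apply (π : ↥K) (v : ↥W) : ((rho π v : ↥W) : I6 → ZMod 2) = Pm π.1 v.1 := rfl

theorem rho_inv (π : ↥K) (v : ↥W) : qZ ((rho π v : ↥W) : I6 → ZMod 2) = qZ v.1 := by
  rw [rho_apply]; unfold qZ; rw [wt_Pm]

theorem pair_inl (a b : Fin 3) (hab : a ≠ b) :
    (Pi.single (Sum.inl a) (1 : ZMod 2) + Pi.single (Sum.inl b) (1 : ZMod 2) : I6 → ZMod 2) ∈ W := by
  rw [mem_W]
  constructor
  · simp only [Pi.add_apply, Pi.single_apply, Sum.inl.injEq]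
    rw [Finset.sum_add_distrib, Finset.sum_ite_eq', Finset.sum_ite_eq']
    simp only [Finset.mem_univ, if_true]
    decide
  · simp [Pi.single_apply]

theorem pair_inr (a b : Fin 3) (hab : a ≠ b) :
    (Pi.single (Sum.inr a) (1 : ZMod 2) + Pi.single (Sum.inr b) (1 : ZMod 2) : I6 → ZMod 2) ∈ W := by
  rw [mem_W]
  constructor
  · simp [Pi.single_apply]
  · simp only [Pi.add_apply, Pi.single_apply, Sum.inr.injEq]
    rw [Finset.sum_add_distrib, Finset.sum_ite_eq', Finset.sum_ite_eq']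
    simp only [Finset.mem_univ, if_true]
    decide

theorem fix_pair (π : ↥K) (hπ : rho π = 1) (i j : I6) (hij : i ≠ j)
    (hmem : (Pi.single i (1 : ZMod 2) + Pi.single j (1 : ZMod 2) : I6 → ZMod 2) ∈ W) :
    π.1 i = i ∨ π.1 i = j := by
  have h1 : Pm π.1 (Pi.single i (1 : ZMod 2) + Pi.single j (1 : ZMod 2)) =
      (Pi.single i (1 : ZMod 2) + Pi.single j (1 : ZMod 2)) := by
    have := congrArg (fun f : ↥W →ₗ[ZMod 2] ↥W => ((f ⟨_, hmem⟩ : ↥W) : I6 → ZMod 2)) hπ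
    exact this
  have h3 := congrFun h1 (π.1 i)
  rw [Pm_apply, Equiv.symm_apply_apply] at h3
  simp only [Pi.add_apply, Pi.single_apply, if_true, hij, if_false, add_zero] at h3
  by_contra hcon
  push_neg at hcon
  rw [if_neg hcon.1, if_neg hcon.2] at h3
  revert h3
  decide

theorem others : ∀ a : Fin 3, ∃ b c : Fin 3, a ≠ b ∧ a ≠ c ∧ b ≠ c := by decide

theorem rho_inj : Function.Injective rho := by
  rw [injective_iff_map_eq_one]
  intro π hπ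
  apply Subtype.ext
  ext i
  show π.1 i = i
  rcases i with a | a
  · obtain ⟨b, c, hab, hac, hbc⟩ := others a
    rcases fix_pair π hπ (Sum.inl a) (Sum.inl b) (by simpa using hab) (pair_inl a b hab) with h | h
    · exact h
    · rcases fix_pair π hπ (Sum.inl a) (Sum.inl c) (by simpa using hac) (pair_inl a c hac) with h' | h'
      · exact h'
      · exfalso
        have := h.symm.trans h'
        simp at this
        exact hbc this
  · obtain ⟨b, c, hab, hac, hbc⟩ := others a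
    rcases fix_pair π hπ (Sum.inr a) (Sum.inr b) (by simpa using hab) (pair_inr a b hab) with h | h
    · exact h
    · rcases fix_pair π hπ (Sum.inr a) (Sum.inr c) (by simpa using hac) (pair_inr a c hac) with h' | h'
      · exact h'
      · exfalso
        have := h.symm.trans h'
        simp at this
        exact hbc this

theorem sumCongr_mem (a b : Equiv.Perm (Fin 3)) : Equiv.sumCongr a b ∈ K := by
  intro z
  rw [mem_W, mem_W]
  have h1 : ∑ i : Fin 3, Pm (Equiv.sumCongr a b) z (Sum.inl i) = ∑ i : Fin 3, z (Sum.inl i) := by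
    have : ∀ i : Fin 3, Pm (Equiv.sumCongr a b) z (Sum.inl i) = z (Sum.inl (a.symm i)) := by
      intro i; rfl
    rw [Finset.sum_congr rfl (fun i _ => this i)]
    exact Equiv.sum_comp a.symm (fun i => z (Sum.inl i))
  have h2 : ∑ i : Fin 3, Pm (Equiv.sumCongr a b) z (Sum.inr i) = ∑ i : Fin 3, z (Sum.inr i) := by
    have : ∀ i : Fin 3, Pm (Equiv.sumCongr a b) z (Sum.inr i) = z (Sum.inr (b.symm i)) := by
      intro i; rfl
    rw [Finset.sum_congr rfl (fun i _ => this i)]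
    exact Equiv.sum_comp b.symm (fun i => z (Sum.inr i))
  rw [h1, h2]

theorem sumComm_mem : (Equiv.sumComm (Fin 3) (Fin 3) : Equiv.Perm I6) ∈ K := by
  intro z
  rw [mem_W, mem_W]
  have h1 : ∑ i : Fin 3, Pm (Equiv.sumComm (Fin 3) (Fin 3)) z (Sum.inl i) =
      ∑ i : Fin 3, z (Sum.inr i) := rfl
  have h2 : ∑ i : Fin 3, Pm (Equiv.sumComm (Fin 3) (Fin 3)) z (Sum.inr i) =
      ∑ i : Fin 3, z (Sum.inl i) := rfl
  rw [h1, h2, and_comm]

/-- the embedding of `S3 × S3` -/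
noncomputable def J : Equiv.Perm (Fin 3) × Equiv.Perm (Fin 3) →* ↥K :=
  (Equiv.Perm.sumCongrHom (Fin 3) (Fin 3)).codRestrict K (fun p => sumCongr_mem p.1 p.2)

theorem J_inj : Function.Injective J := by
  intro p p' h
  have := congrArg Subtype.val h
  exact Equiv.Perm.sumCongrHom_injective this

def sK : ↥K := ⟨Equiv.sumComm (Fin 3) (Fin 3), sumComm_mem⟩

theorem sK_conj (a b : Equiv.Perm (Fin 3)) : sK * J (a, b) * sK⁻¹ = J (b, a) := by
  apply Subtype.ext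
  ext i
  rcases i with i | i <;> rfl

theorem main :
    Nat.card ↥(Cfsg.isometryGroup (ZMod 2) (Cfsg.quadFormPlus 2 (ZMod 2))) = 72 ∧
    ∃ (A B : Subgroup ↥(Cfsg.isometryGroup (ZMod 2) (Cfsg.quadFormPlus 2 (ZMod 2)))),
      Nonempty (↥A ≃* Equiv.Perm (Fin 3)) ∧ Nonempty (↥B ≃* Equiv.Perm (Fin 3)) ∧ A ⊓ B = ⊥ ∧ (∀ a ∈ A, ∀ b ∈ B, a * b = b * a) ∧
      (A ⊔ B).index = 2 ∧ ∃ g : ↥(Cfsg.isometryGroup (ZMod 2) (Cfsg.quadFormPlus 2 (ZMod 2))), A.map (MulAut.conj g).toMonoidHom = B := by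
  classical
  have hcard : Nat.card ↥(Cfsg.isometryGroup (ZMod 2) (Cfsg.quadFormPlus 2 (ZMod 2))) = 72 := by
    have := Cfsg.Agent.Lib.Helper1.Orth.card_plus (F := ZMod 2) 1
    rw [this]
    simp [ZMod.card]
  refine ⟨hcard, ?_⟩
  obtain ⟨Φ, hΦ⟩ := Cfsg.Agent.S2679.embed_iso (fun v : ↥W => qZ v.1)
    (Cfsg.quadFormPlus 2 (ZMod 2)) Teq Teq_quad rho rho_inj rho_inv
  have hΦJ : Function.Injective (Φ.comp J) := hΦ.comp J_inj
  let fA : Equiv.Perm (Fin 3) →* ↥(Cfsg.isometryGroup (ZMod 2) (Cfsg.quadFormPlus 2 (ZMod 2))) :=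
    (Φ.comp J).comp (MonoidHom.inl _ _)
  let fB : Equiv.Perm (Fin 3) →* ↥(Cfsg.isometryGroup (ZMod 2) (Cfsg.quadFormPlus 2 (ZMod 2))) :=
    (Φ.comp J).comp (MonoidHom.inr _ _)
  have hfAv : ∀ a, fA a = (Φ.comp J) (a, 1) := fun a => rfl
  have hfBv : ∀ b, fB b = (Φ.comp J) (1, b) := fun b => rfl
  have hfA : Function.Injective fA := by
    intro a a' h
    rw [hfAv, hfAv] at h
    exact (Prod.mk.inj (hΦJ h)).1
  have hfB : Function.Injective fB := by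
    intro b b' h
    rw [hfBv, hfBv] at h
    exact (Prod.mk.inj (hΦJ h)).2
  have hprod : ∀ a b, (Φ.comp J) (a, b) = fA a * fB b := by
    intro a b
    rw [hfAv, hfBv, ← map_mul, Prod.mk_mul_mk, mul_one, one_mul]
  have hprod' : ∀ a b, (Φ.comp J) (a, b) = fB b * fA a := by
    intro a b
    rw [hfAv, hfBv, ← map_mul, Prod.mk_mul_mk, mul_one, one_mul]
  have hconj : ∀ a, Φ sK * fA a * (Φ sK)⁻¹ = fB a := by
    intro a
    rw [hfAv, hfBv, MonoidHom.comp_apply, MonoidHom.comp_apply, ← map_inv, ← map_mul, ← map_mul,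
      sK_conj]
  refine ⟨fA.range, fB.range, ⟨(MonoidHom.ofInjective hfA).symm⟩,
    ⟨(MonoidHom.ofInjective hfB).symm⟩, ?_, ?_, ?_, Φ sK, ?_⟩
  · rw [eq_bot_iff]
    rintro x ⟨⟨a, rfl⟩, ⟨b, hb⟩⟩
    rw [hfAv, hfBv] at hb
    have h1 := (Prod.mk.inj (hΦJ hb)).1
    rw [Subgroup.mem_bot, ← h1, map_one]
  · rintro _ ⟨a, rfl⟩ _ ⟨b, rfl⟩
    rw [← hprod, ← hprod']
  · have hsup : fA.range ⊔ fB.range = (Φ.comp J).range := by
      apply le_antisymm
      · rw [sup_le_iff]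
        constructor
        · rintro _ ⟨a, rfl⟩
          exact ⟨(a, 1), rfl⟩
        · rintro _ ⟨b, rfl⟩
          exact ⟨(1, b), rfl⟩
      · rintro _ ⟨⟨a, b⟩, rfl⟩
        rw [hprod]
        exact Subgroup.mul_mem _ (Subgroup.mem_sup_left ⟨a, rfl⟩) (Subgroup.mem_sup_right ⟨b, rfl⟩)
    rw [hsup]
    have h36 : Nat.card (Φ.comp J).range = 36 := by
      rw [← Nat.card_congr (MonoidHom.ofInjective hΦJ).toEquiv, Nat.card_prod,
        Nat.card_eq_fintype_card, Fintype.card_perm, Fintype.card_fin]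
      rfl
    have := Subgroup.card_mul_index (Φ.comp J).range
    rw [h36, hcard] at this
    omega
  · ext x
    rw [Subgroup.mem_map]
    constructor
    · rintro ⟨_, ⟨a, rfl⟩, rfl⟩
      exact ⟨a, (hconj a).symm⟩
    · rintro ⟨b, rfl⟩
      exact ⟨fA b, ⟨b, rfl⟩, hconj b⟩


theorem result :
    Nat.card ↥(Cfsg.isometryGroup (ZMod 2) (Cfsg.quadFormPlus 2 (ZMod 2))) = 72 ∧
    ∃ (A B : Subgroup ↥(Cfsg.isometryGroup (ZMod 2) (Cfsg.quadFormPlus 2 (ZMod 2)))),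
      Nonempty (↥A ≃* Equiv.Perm (Fin 3)) ∧ Nonempty (↥B ≃* Equiv.Perm (Fin 3)) ∧ A ⊓ B = ⊥ ∧ (∀ a ∈ A, ∀ b ∈ B, a * b = b * a) ∧
      (A ⊔ B).index = 2 ∧ ∃ g : ↥(Cfsg.isometryGroup (ZMod 2) (Cfsg.quadFormPlus 2 (ZMod 2))), A.map (MulAut.conj g).toMonoidHom = B := by
  exact main

end Cfsg.Agent.S2566
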