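import Cfsg.Statements.S2640
import Cfsg.Agent.S2679

set_option autoImplicit false
open Cfsg

set_option maxHeartbeats 1000000
namespace Cfsg.Agent.S2640

open Matrix

open QuadraticAlgebra in
theorem exists_norm_neg_one {F : Type*} [Field F] [Fintype F] {a b : F}
    [Fact (∀ r, r ^ 2 ≠ a + b * r)] :
    ∃ ε : QuadraticAlgebra F a b, norm ε = -1 := by
  classical
  set q := Fintype.card F with hq
  have hq2 : 2 ≤ q := Fintype.one_lt_card
  haveI : Fintype (QuadraticAlgebra F a b) := Fintype.ofFinite _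
  obtain ⟨ζ, hζ⟩ := IsCyclic.exists_generator (α := (QuadraticAlgebra F a b)ˣ)
  have hordζ : orderOf ζ = q ^ 2 - 1 := by
    rw [orderOf_eq_card_of_forall_mem_zpowers hζ, Nat.card_units, Cfsg.Agent.S2475.card_K]
  let η : Fˣ := Units.map (norm : QuadraticAlgebra F a b →* F) ζ
  have hη : ∀ j : ℕ, η ^ j = 1 ↔ (q - 1) ∣ j := by
    intro j
    have h1 : η ^ j = 1 ↔ ζ ^ (j * (q + 1)) = 1 := by
      rw [← Units.val_inj, ← Units.val_inj (a := ζ ^ _)]
      simp only [Units.val_pow_eq_pow_val, Units.val_one, η, Units.coe_map, MonoidHom.coe_coe]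
      rw [pow_mul', Cfsg.Agent.S2475.pow_card_add_one,
        ← map_pow (algebraMap F (QuadraticAlgebra F a b))]
      constructor
      · intro h; rw [h, map_one]
      · intro h; exact (algebraMap F (QuadraticAlgebra F a b)).injective (by rw [h, map_one])
    rw [h1, ← orderOf_dvd_iff_pow_eq_one, hordζ]
    have h3 : q ^ 2 - 1 = (q - 1) * (q + 1) := by
      have : ∀ n : ℕ, 1 ≤ n → n ^ 2 - 1 = (n - 1) * (n + 1) := by
        intro n hn
        obtain ⟨t, rfl⟩ : ∃ t, n = t + 1 := ⟨n - 1, by omega⟩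
        simp only [Nat.add_sub_cancel]
        apply Nat.sub_eq_of_eq_add
        ring
      exact this q (by omega)
    rw [h3]
    exact Nat.mul_dvd_mul_iff_right (by omega)
  have hordη : orderOf η = q - 1 := by
    apply Nat.dvd_antisymm
    · exact orderOf_dvd_of_pow_eq_one ((hη _).mpr dvd_rfl)
    · exact (hη _).mp (pow_orderOf_eq_one η)
  have hgen : ∀ x : Fˣ, x ∈ Subgroup.zpowers η := by
    have hcard : Nat.card (Subgroup.zpowers η) = Nat.card Fˣ := by
      rw [Nat.card_zpowers, hordη, Nat.card_units, Nat.card_eq_fintype_card]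
    have := Subgroup.eq_top_of_card_eq _ hcard
    intro x; rw [this]; trivial
  obtain ⟨j, hj⟩ := hgen (-1)
  refine ⟨((ζ ^ j : (QuadraticAlgebra F a b)ˣ) : QuadraticAlgebra F a b), ?_⟩
  have h5 : Units.map (norm : QuadraticAlgebra F a b →* F) (ζ ^ j) = -1 := by
    rw [map_zpow]; exact hj
  have h6 : ((Units.map (norm : QuadraticAlgebra F a b →* F) (ζ ^ j) : Fˣ) : F)
      = norm ((ζ ^ j : (QuadraticAlgebra F a b)ˣ) : QuadraticAlgebra F a b) := rfl
  rw [← h6, h5]
  rfl

theorem disc_ne {F : Type*} [Field F] [Finite F] {a b : F} (hf : ∀ r : F, r ^ 2 ≠ a + b * r) :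
    b ^ 2 + 4 * a ≠ 0 := by
  intro h
  by_cases h2 : (1 : F) + 1 = 0
  · obtain ⟨s, hs⟩ := Cfsg.Agent.S2679.exists_sqrt_char_two h2 a
    have hb : b = 0 := by
      have : b ^ 2 = 0 := by linear_combination h - (2 * a) * h2
      exact pow_eq_zero_iff (two_ne_zero) |>.mp this
    exact hf s (by rw [hs, hb]; ring)
  · have h2' : (2 : F) ≠ 0 := by
      intro h3; apply h2; linear_combination h3
    exact hf (b / 2) (by field_simp; linear_combination -h)

noncomputable def tau2 {F : Type*} [Field F] (a b d : F) (hd : d = b ^ 2 + 4 * a) (hD : d ≠ 0) :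
    (QuadraticAlgebra F a b × QuadraticAlgebra F a b) ≃ₗ[F] ((F × F) × (F × F)) where
  toFun z := ((z.1.re - z.2.re, z.1.im - z.2.im),
    (z.1.re + z.2.re + b * z.1.im, b * z.2.re - a * z.1.im - a * z.2.im))
  invFun c :=
    (⟨c.1.1 + (2 * a * (c.2.1 - c.1.1 - b * c.1.2) + b * (c.2.2 + a * c.1.2)) / d,
      c.1.2 + (b * (c.2.1 - c.1.1 - b * c.1.2) - 2 * (c.2.2 + a * c.1.2)) / d⟩,
     ⟨(2 * a * (c.2.1 - c.1.1 - b * c.1.2) + b * (c.2.2 + a * c.1.2)) / d,
      (b * (c.2.1 - c.1.1 - b * c.1.2) - 2 * (c.2.2 + a * c.1.2)) / d⟩)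
  map_add' z z' := by
    ext <;> simp <;> ring
  map_smul' c z := by
    ext <;> simp <;> ring
  left_inv z := by
    obtain ⟨⟨s₁, t₁⟩, ⟨s₂, t₂⟩⟩ := z
    ext <;> simp <;> field_simp <;> subst hd <;> ring
  right_inv c := by
    obtain ⟨⟨p, r⟩, ⟨x, y⟩⟩ := c
    ext <;> simp <;> field_simp <;> subst hd <;> ring

theorem assemble {F : Type*} [Field F] {E : Type*} [AddCommGroup E] [Module F E] (N : E → F)
    (τ : (E × E) ≃ₗ[F] ((F × F) × (F × F)))
    (hτ : ∀ z, (τ z).1.1 * (τ z).2.1 + (τ z).1.2 * (τ z).2.2 = N z.1 + N z.2) (k : ℕ) :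
    ∃ T : (Fin (k + k) → E) ≃ₗ[F] (Fin (k + k) ⊕ Fin (k + k) → F),
      ∀ v, Cfsg.quadFormPlus (k + k) F (T v) = ∑ i, N (v i) := by
  let pr : (Fin (k + k) → E) → Fin k → E × E := fun v j => (v (Fin.castAdd k j), v (Fin.natAdd k j))
  have pr_add : ∀ v v' j, pr (v + v') j = pr v j + pr v' j := fun v v' j => rfl
  have pr_smul : ∀ (c : F) v j, pr (c • v) j = c • pr v j := fun c v j => rfl
  let qd : (Fin (k + k) ⊕ Fin (k + k) → F) → Fin k → (F × F) × (F × F) := fun w j =>
    ((w (.inl (Fin.castAdd k j)), w (.inl (Fin.natAdd k j))),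
     (w (.inr (Fin.castAdd k j)), w (.inr (Fin.natAdd k j))))
  let toF : (Fin (k + k) → E) → (Fin (k + k) ⊕ Fin (k + k) → F) := fun v => Sum.elim
    (Fin.addCases (motive := fun _ => F) (fun j => (τ (pr v j)).1.1) (fun j => (τ (pr v j)).1.2))
    (Fin.addCases (motive := fun _ => F) (fun j => (τ (pr v j)).2.1) (fun j => (τ (pr v j)).2.2))
  let inv : (Fin (k + k) ⊕ Fin (k + k) → F) → (Fin (k + k) → E) := fun w =>
    Fin.addCases (motive := fun _ => E) (fun j => (τ.symm (qd w j)).1) (fun j => (τ.symm (qd w j)).2)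
  have h_pr_inv : ∀ w j, pr (inv w) j = τ.symm (qd w j) := by
    intro w j
    simp only [pr, inv, Fin.addCases_left, Fin.addCases_right]
  have h_qd_toF : ∀ v j, qd (toF v) j = τ (pr v j) := by
    intro v j
    simp only [qd, toF, Sum.elim_inl, Sum.elim_inr, Fin.addCases_left, Fin.addCases_right]
  refine ⟨{ toFun := toF
            invFun := inv
            map_add' := ?_, map_smul' := ?_, left_inv := ?_, right_inv := ?_ }, ?_⟩
  · intro v v'
    funext x
    rcases x with i | i <;> refine Fin.addCases (fun j => ?_) (fun j => ?_) i <;>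
      simp only [toF, Sum.elim_inl, Sum.elim_inr, Fin.addCases_left, Fin.addCases_right, pr_add,
        map_add, Pi.add_apply, Prod.fst_add, Prod.snd_add]
  · intro c v
    funext x
    rcases x with i | i <;> refine Fin.addCases (fun j => ?_) (fun j => ?_) i <;>
      simp only [toF, Sum.elim_inl, Sum.elim_inr, Fin.addCases_left, Fin.addCases_right, pr_smul,
        map_smul, Pi.smul_apply, Prod.smul_fst, Prod.smul_snd, RingHom.id_apply]
  · intro v
    funext i
    refine Fin.addCases (fun j => ?_) (fun j => ?_) i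
    · have := congrArg Prod.fst (h_pr_inv (toF v) j)
      rw [h_qd_toF, LinearEquiv.symm_apply_apply] at this
      exact this
    · have := congrArg Prod.snd (h_pr_inv (toF v) j)
      rw [h_qd_toF, LinearEquiv.symm_apply_apply] at this
      exact this
  · intro w
    funext x
    rcases x with i | i <;> refine Fin.addCases (fun j => ?_) (fun j => ?_) i
    · have := congrArg (fun t => t.1.1) (h_qd_toF (inv w) j)
      simp only [h_pr_inv, LinearEquiv.apply_symm_apply] at this
      exact this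
    · have := congrArg (fun t => t.1.2) (h_qd_toF (inv w) j)
      simp only [h_pr_inv, LinearEquiv.apply_symm_apply] at this
      exact this
    · have := congrArg (fun t => t.2.1) (h_qd_toF (inv w) j)
      simp only [h_pr_inv, LinearEquiv.apply_symm_apply] at this
      exact this
    · have := congrArg (fun t => t.2.2) (h_qd_toF (inv w) j)
      simp only [h_pr_inv, LinearEquiv.apply_symm_apply] at this
      exact this
  · intro v
    unfold Cfsg.quadFormPlus
    rw [Fin.sum_univ_add, Fin.sum_univ_add, ← Finset.sum_add_distrib, ← Finset.sum_add_distrib]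
    apply Finset.sum_congr rfl
    intro j _
    have := hτ (pr v j)
    simp only [LinearEquiv.coe_mk, LinearMap.coe_mk, AddHom.coe_mk, toF, Sum.elim_inl, Sum.elim_inr,
      Fin.addCases_left, Fin.addCases_right]
    exact this

open QuadraticAlgebra in
theorem exists_tau {F : Type*} [Field F] [Fintype F] {a b : F} [Fact (∀ r, r ^ 2 ≠ a + b * r)] :
    ∃ τ : (QuadraticAlgebra F a b × QuadraticAlgebra F a b) ≃ₗ[F] ((F × F) × (F × F)),
      ∀ z, (τ z).1.1 * (τ z).2.1 + (τ z).1.2 * (τ z).2.2 = norm z.1 + norm z.2 := by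
  obtain ⟨ε, hε⟩ := exists_norm_neg_one (F := F) (a := a) (b := b)
  have hε0 : ε ≠ 0 := by
    rintro rfl
    simp at hε
  have hD := disc_ne (Fact.out : ∀ r : F, r ^ 2 ≠ a + b * r)
  let τ₁ : (QuadraticAlgebra F a b × QuadraticAlgebra F a b) ≃ₗ[F]
      (QuadraticAlgebra F a b × QuadraticAlgebra F a b) :=
    { toFun := fun z => (z.1, ε * z.2)
      invFun := fun z => (z.1, ε⁻¹ * z.2)
      map_add' := by intro z z'; simp [mul_add]
      map_smul' := by intro c z; simp [mul_smul_comm]
      left_inv := by intro z; simp [← mul_assoc, inv_mul_cancel₀ hε0]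
      right_inv := by intro z; simp [← mul_assoc, mul_inv_cancel₀ hε0] }
  refine ⟨τ₁.trans (tau2 a b _ rfl hD), ?_⟩
  intro z
  have h1 : norm z.1 + norm z.2 = norm z.1 - norm (ε * z.2) := by rw [map_mul, hε]; ring
  rw [h1]
  simp only [LinearEquiv.trans_apply, τ₁, tau2, LinearEquiv.coe_mk, LinearMap.coe_mk,
    AddHom.coe_mk, QuadraticAlgebra.norm_def]
  ring

open QuadraticAlgebra in
theorem gu_rho {K F : Type*} [Field K] [Fintype K] [Field F] [Fintype F] {q : ℕ}
    (hF : Fintype.card F = q) {a b : F} [Fact (∀ r, r ^ 2 ≠ a + b * r)]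
    (e : K ≃+* QuadraticAlgebra F a b) (m : ℕ) :
    ∃ ρ : ↥(Cfsg.GU m K q) →*
        ((Fin m → QuadraticAlgebra F a b) →ₗ[F] (Fin m → QuadraticAlgebra F a b)),
      Function.Injective ρ ∧ ∀ g v, ∑ i, norm (ρ g v i) = ∑ i, norm (v i) := by
  classical
  let ρ : ↥(Cfsg.GU m K q) →*
      ((Fin m → QuadraticAlgebra F a b) →ₗ[F] (Fin m → QuadraticAlgebra F a b)) :=
    { toFun := fun A => (Matrix.toLin' ((A.1 : Matrix (Fin m) (Fin m) K).map e)).restrictScalars F
      map_one' := by
        apply LinearMap.ext; intro v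
        show ((((1 : ↥(Cfsg.GU m K q)).1 : GL (Fin m) K) : Matrix (Fin m) (Fin m) K).map e) *ᵥ v
          = v
        simp
      map_mul' := by
        intro A B; apply LinearMap.ext; intro v
        show ((((A * B).1 : GL (Fin m) K) : Matrix (Fin m) (Fin m) K).map e) *ᵥ v
          = ((A.1 : Matrix (Fin m) (Fin m) K).map e) *ᵥ
              (((B.1 : Matrix (Fin m) (Fin m) K).map e) *ᵥ v)
        rw [Matrix.mulVec_mulVec, ← Matrix.map_mul]
        rfl }
  refine ⟨ρ, ?_, ?_⟩
  · intro A B hAB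
    apply Subtype.ext; apply Units.ext
    have h1 : (Matrix.toLin' ((A.1 : Matrix (Fin m) (Fin m) K).map e)).restrictScalars F
        = (Matrix.toLin' ((B.1 : Matrix (Fin m) (Fin m) K).map e)).restrictScalars F := hAB
    have h2 := Matrix.toLin'.injective (LinearMap.restrictScalars_injective F h1)
    exact Matrix.map_injective e.injective h2
  · intro g v
    have hρ : ρ g v = ((g.1 : Matrix (Fin m) (Fin m) K).map e) *ᵥ v := rfl
    apply (algebraMap F (QuadraticAlgebra F a b)).injective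
    have hN : ∀ w : Fin m → QuadraticAlgebra F a b,
        algebraMap F (QuadraticAlgebra F a b) (∑ i, norm (w i))
          = Cfsg.hermForm m (QuadraticAlgebra F a b) q w w := by
      intro w
      rw [map_sum]; unfold Cfsg.hermForm
      apply Finset.sum_congr rfl; intro i _
      rw [← Cfsg.Agent.S2475.pow_card_add_one, hF, pow_succ, mul_comm]
    rw [hN, hN, hρ]
    have hu : Cfsg.hermForm m K q ((g.1 : Matrix (Fin m) (Fin m) K) *ᵥ (fun i => e.symm (v i)))
        ((g.1 : Matrix (Fin m) (Fin m) K) *ᵥ (fun i => e.symm (v i)))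
        = Cfsg.hermForm m K q (fun i => e.symm (v i)) (fun i => e.symm (v i)) :=
      g.2 (fun i => e.symm (v i)) (fun i => e.symm (v i))
    have hmap : ∀ x y : Fin m → K, e (Cfsg.hermForm m K q x y)
        = Cfsg.hermForm m (QuadraticAlgebra F a b) q (fun i => e (x i)) (fun i => e (y i)) := by
      intro x y; unfold Cfsg.hermForm; simp [map_sum]
    have h3 := congrArg e hu
    rw [hmap, hmap] at h3
    have hmv : (fun i => e (((g.1 : Matrix (Fin m) (Fin m) K) *ᵥ (fun i => e.symm (v i))) i))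
        = ((g.1 : Matrix (Fin m) (Fin m) K).map e) *ᵥ v := by
      funext i
      have := RingHom.map_mulVec (e : K →+* QuadraticAlgebra F a b)
        (g.1 : Matrix (Fin m) (Fin m) K) (fun i => e.symm (v i)) i
      rw [RingHom.coe_coe] at this
      rw [this]
      congr 2
      funext j
      simp
    rw [hmv] at h3
    simpa using h3

open QuadraticAlgebra in
theorem main {K F : Type*} [Field K] [Fintype K] [Field F] [Fintype F] {q : ℕ} (hK : Fintype.card K = q ^ 2) (hF : Fintype.card F = q) (m : ℕ) (hm : Even m) : ∃ φ : ↥(Cfsg.GU m K q) →* ↥(Cfsg.isometryGroup F (Cfsg.quadFormPlus m F)), Function.Injective φ := by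
  classical
  obtain ⟨k, rfl⟩ := hm
  obtain ⟨a, ha⟩ := Cfsg.Agent.S2475.exists_irred F
  haveI : Fact (∀ r : F, r ^ 2 ≠ a + 1 * r) := ⟨ha⟩
  have hcardL : Nat.card (QuadraticAlgebra F a 1) = q ^ 2 := by
    rw [Cfsg.Agent.S2475.card_K, hF]
  haveI : Fintype (QuadraticAlgebra F a 1) := Fintype.ofFinite _
  let e : K ≃+* QuadraticAlgebra F a 1 :=
    FiniteField.ringEquivOfCardEq (by rw [hK, ← hcardL, Nat.card_eq_fintype_card])
  obtain ⟨ρ, hρ, hinv⟩ := gu_rho hF e (k + k)
  obtain ⟨τ, hτ⟩ := exists_tau (F := F) (a := a) (b := 1)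
  obtain ⟨T, hT⟩ := assemble (fun z : QuadraticAlgebra F a 1 => QuadraticAlgebra.norm z) τ hτ k
  exact Cfsg.Agent.S2679.embed_iso
    (fun v : Fin (k + k) → QuadraticAlgebra F a 1 => ∑ i, QuadraticAlgebra.norm (v i))
    (Cfsg.quadFormPlus (k + k) F) T hT ρ hρ hinv


theorem result {K F : Type*} [Field K] [Fintype K] [Field F] [Fintype F] {q : ℕ} (hK : Fintype.card K = q ^ 2) (hF : Fintype.card F = q) (m : ℕ) (hm : Even m) : ∃ φ : ↥(Cfsg.GU m K q) →* ↥(Cfsg.isometryGroup F (Cfsg.quadFormPlus m F)), Function.Injective φ := by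
  exact main hK hF m hm

end Cfsg.Agent.S2640
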