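import Cfsg.Statements.S2641
import Cfsg.Agent.S2640

set_option autoImplicit false
open Cfsg

set_option maxHeartbeats 1000000
namespace Cfsg.Agent.S2641

open Matrix

theorem assemble_odd {F : Type*} [Field F] (a' b' : F) (n : ℕ)
    (T : (Fin n → QuadraticAlgebra F a' b') ≃ₗ[F] (Fin n ⊕ Fin n → F)) :
    ∃ T' : (Fin (n + 1) → QuadraticAlgebra F a' b') ≃ₗ[F] ((Fin n ⊕ Fin n) ⊕ Fin 2 → F),
      ∀ v, T' v = Sum.elim (T (fun i => v i.castSucc))
        ![(v (Fin.last n)).re, (v (Fin.last n)).im] := by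
  have hadd : ∀ v v' : Fin (n + 1) → QuadraticAlgebra F a' b',
      (fun i : Fin n => (v + v') i.castSucc) = (fun i => v i.castSucc) + (fun i => v' i.castSucc) :=
    fun v v' => rfl
  have hsmul : ∀ (c : F) (v : Fin (n + 1) → QuadraticAlgebra F a' b'),
      (fun i : Fin n => (c • v) i.castSucc) = c • (fun i => v i.castSucc) :=
    fun c v => rfl
  refine ⟨{ toFun := fun v => Sum.elim (T (fun i => v i.castSucc))
              ![(v (Fin.last n)).re, (v (Fin.last n)).im]
            invFun := fun w => Fin.snoc (α := fun _ => QuadraticAlgebra F a' b')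
              (T.symm (fun x => w (.inl x))) ⟨w (.inr 0), w (.inr 1)⟩
            map_add' := ?_, map_smul' := ?_, left_inv := ?_, right_inv := ?_ }, fun v => rfl⟩
  · intro v v'
    funext x
    rcases x with x | x
    · show T (fun i => (v + v') i.castSucc) x
        = T (fun i => v i.castSucc) x + T (fun i => v' i.castSucc) x
      rw [hadd, map_add]; rfl
    · fin_cases x <;> simp
  · intro c v
    funext x
    rcases x with x | x
    · show T (fun i => (c • v) i.castSucc) x = c • T (fun i => v i.castSucc) x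
      rw [hsmul, map_smul]; rfl
    · fin_cases x <;> simp
  · intro v
    funext i
    refine Fin.lastCases ?_ (fun j => ?_) i
    · simp
    · simp
  · intro w
    funext x
    rcases x with x | x
    · simp
    · fin_cases x <;> simp

theorem main {K F : Type*} [Field K] [Fintype K] [Field F] [Fintype F] {q : ℕ} (hK : Fintype.card K = q ^ 2) (hF : Fintype.card F = q) (m : ℕ) (hm : Odd m) (a b : F) (hab : ∀ z₁ z₂ : F, z₁ ^ 2 + a * z₁ * z₂ + b * z₂ ^ 2 = 0 → z₁ = 0 ∧ z₂ = 0) : ∃ φ : ↥(Cfsg.GU m K q) →* ↥(Cfsg.isometryGroup F (Cfsg.quadFormMinus (m - 1) F a b)), Function.Injective φ := by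
  classical
  obtain ⟨k, rfl⟩ : ∃ k, m = k + k + 1 := by
    obtain ⟨k, hk⟩ := hm
    exact ⟨k, by omega⟩
  show ∃ φ : ↥(Cfsg.GU (k + k + 1) K q) →*
    ↥(Cfsg.isometryGroup F (Cfsg.quadFormMinus (k + k) F a b)), Function.Injective φ
  haveI : Fact (∀ r : F, r ^ 2 ≠ -b + a * r) := ⟨fun r hr => by
    have := (hab (-r) 1 (by linear_combination hr)).2
    exact one_ne_zero this⟩
  have hcardL : Nat.card (QuadraticAlgebra F (-b) a) = q ^ 2 := by
    rw [Cfsg.Agent.S2475.card_K, hF]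
  haveI : Fintype (QuadraticAlgebra F (-b) a) := Fintype.ofFinite _
  let e : K ≃+* QuadraticAlgebra F (-b) a :=
    FiniteField.ringEquivOfCardEq (by rw [hK, ← hcardL, Nat.card_eq_fintype_card])
  obtain ⟨ρ, hρ, hinv⟩ := Cfsg.Agent.S2640.gu_rho hF e (k + k + 1)
  obtain ⟨τ, hτ⟩ := Cfsg.Agent.S2640.exists_tau (F := F) (a := -b) (b := a)
  obtain ⟨T, hT⟩ := Cfsg.Agent.S2640.assemble
    (fun z : QuadraticAlgebra F (-b) a => QuadraticAlgebra.norm z) τ hτ k
  obtain ⟨T', hT'⟩ := assemble_odd (-b) a (k + k) T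
  refine Cfsg.Agent.S2679.embed_iso
    (fun v : Fin (k + k + 1) → QuadraticAlgebra F (-b) a => ∑ i, QuadraticAlgebra.norm (v i))
    (Cfsg.quadFormMinus (k + k) F a b) T' ?_ ρ hρ hinv
  intro v
  rw [hT', Fin.sum_univ_castSucc, ← hT]
  simp only [Cfsg.quadFormMinus, Cfsg.quadFormPlus, Sum.elim_inl, Sum.elim_inr,
    QuadraticAlgebra.norm_def]
  simp
  ring


theorem result {K F : Type*} [Field K] [Fintype K] [Field F] [Fintype F] {q : ℕ} (hK : Fintype.card K = q ^ 2) (hF : Fintype.card F = q) (m : ℕ) (hm : Odd m) (a b : F) (hab : ∀ z₁ z₂ : F, z₁ ^ 2 + a * z₁ * z₂ + b * z₂ ^ 2 = 0 → z₁ = 0 ∧ z₂ = 0) : ∃ φ : ↥(Cfsg.GU m K q) →* ↥(Cfsg.isometryGroup F (Cfsg.quadFormMinus (m - 1) F a b)), Function.Injective φ := by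
  exact main hK hF m hm a b hab

end Cfsg.Agent.S2641
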