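import Cfsg.Statements.S3799
import Mathlib

set_option autoImplicit false
open Cfsg

namespace Cfsg.Agent.S3799

open Matrix
open scoped commutatorElement

@[ext] structure Heis (n p : ℕ) where
  a : Fin n → ZMod p
  b : Fin n → ZMod p
  c : ZMod p

namespace Heis
variable {n p : ℕ}

instance : Mul (Heis n p) := ⟨fun x y => ⟨x.a + y.a, x.b + y.b, x.c + y.c + x.a ⬝ᵥ y.b⟩⟩
instance : One (Heis n p) := ⟨⟨0, 0, 0⟩⟩
instance : Inv (Heis n p) := ⟨fun x => ⟨-x.a, -x.b, -x.c + x.a ⬝ᵥ x.b⟩⟩

@[simp] theorem mul_a (x y : Heis n p) : (x * y).a = x.a + y.a := rfl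
@[simp] theorem mul_b (x y : Heis n p) : (x * y).b = x.b + y.b := rfl
@[simp] theorem mul_c (x y : Heis n p) : (x * y).c = x.c + y.c + x.a ⬝ᵥ y.b := rfl
@[simp] theorem one_a : (1 : Heis n p).a = 0 := rfl
@[simp] theorem one_b : (1 : Heis n p).b = 0 := rfl
@[simp] theorem one_c : (1 : Heis n p).c = 0 := rfl
@[simp] theorem inv_a (x : Heis n p) : (x⁻¹).a = -x.a := rfl
@[simp] theorem inv_b (x : Heis n p) : (x⁻¹).b = -x.b := rfl
@[simp] theorem inv_c (x : Heis n p) : (x⁻¹).c = -x.c + x.a ⬝ᵥ x.b := rfl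

instance : Group (Heis n p) where
  mul_assoc x y z := by
    ext1
    · simp [add_assoc]
    · simp [add_assoc]
    · simp [add_dotProduct, dotProduct_add]; ring
  one_mul x := by ext1 <;> simp
  mul_one x := by ext1 <;> simp
  inv_mul_cancel x := by ext1 <;> simp

theorem pow_a (x : Heis n p) (k : ℕ) : (x ^ k).a = k • x.a := by
  induction k with
  | zero => simp
  | succ k ih => rw [pow_succ, mul_a, ih, add_smul, one_smul]

theorem pow_b (x : Heis n p) (k : ℕ) : (x ^ k).b = k • x.b := by
  induction k with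
  | zero => simp
  | succ k ih => rw [pow_succ, mul_b, ih, add_smul, one_smul]

theorem pow_c (x : Heis n p) (k : ℕ) :
    (x ^ k).c = k • x.c + (k.choose 2) • (x.a ⬝ᵥ x.b) := by
  induction k with
  | zero => simp
  | succ k ih =>
    rw [pow_succ, mul_c, ih, pow_a, smul_dotProduct, Nat.choose_succ_succ' k 1, Nat.choose_one_right]
    simp only [nsmul_eq_mul]
    push_cast
    ring

theorem pow_p [Fact p.Prime] (hp : p ≠ 2) (x : Heis n p) : x ^ p = 1 := by
  have hpp : p.Prime := Fact.out
  have h2 : 2 < p := lt_of_le_of_ne hpp.two_le (Ne.symm hp)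
  ext1
  · rw [pow_a]; ext i; simp
  · rw [pow_b]; ext i; simp
  · rw [pow_c]
    have : ((p.choose 2 : ℕ) : ZMod p) = 0 :=
      (ZMod.natCast_eq_zero_iff _ _).mpr (hpp.dvd_choose_self (by norm_num) h2)
    simp [this]

theorem card_eq [Fact p.Prime] : Nat.card (Heis n p) = p ^ (1 + 2 * n) := by
  have e : Heis n p ≃ (Fin n → ZMod p) × (Fin n → ZMod p) × ZMod p :=
    { toFun := fun x => (x.a, x.b, x.c)
      invFun := fun y => ⟨y.1, y.2.1, y.2.2⟩
      left_inv := fun x => rfl
      right_inv := fun y => rfl }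
  rw [Nat.card_congr e, Nat.card_prod, Nat.card_prod, Nat.card_fun, Nat.card_zmod, Nat.card_fin]
  ring

theorem mem_center (x : Heis n p) :
    x ∈ Subgroup.center (Heis n p) ↔ x.a = 0 ∧ x.b = 0 := by
  rw [Subgroup.mem_center_iff]
  constructor
  · intro h
    constructor
    · ext i
      have := congrArg Heis.c (h ⟨0, Pi.single i 1, 0⟩)
      simpa using this.symm
    · ext i
      have := congrArg Heis.c (h ⟨Pi.single i 1, 0, 0⟩)
      simpa using this
  · rintro ⟨h1, h2⟩ g
    ext1
    · simp [h1]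
    · simp [h2]
    · simp [h1, h2, add_comm]

theorem comm_eq_center (hn : 1 ≤ n) :
    commutator (Heis n p) = Subgroup.center (Heis n p) := by
  apply le_antisymm
  · rw [commutator_def, Subgroup.commutator_le]
    intro g₁ _ g₂ _
    rw [mem_center, commutatorElement_def]
    constructor
    · simp
    · simp
  · intro z hz
    rw [mem_center] at hz
    have : z = ⁅(⟨Pi.single ⟨0, hn⟩ 1, 0, 0⟩ : Heis n p), ⟨0, Pi.single ⟨0, hn⟩ z.c, 0⟩⁆ := by
      rw [commutatorElement_def]
      ext1
      · simp [hz.1]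
      · simp [hz.2]
      · simp
    rw [this, commutator_def]
    exact Subgroup.commutator_mem_commutator (Subgroup.mem_top _) (Subgroup.mem_top _)

def phiA (i : Fin n) : Heis n p →* Multiplicative (ZMod p) where
  toFun x := Multiplicative.ofAdd (x.a i)
  map_one' := rfl
  map_mul' _ _ := rfl

def phiB (i : Fin n) : Heis n p →* Multiplicative (ZMod p) where
  toFun x := Multiplicative.ofAdd (x.b i)
  map_one' := rfl
  map_mul' _ _ := rfl

theorem phiA_surj (i : Fin n) : Function.Surjective (phiA (p := p) i) := by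
  intro t
  refine ⟨⟨Pi.single i (Multiplicative.toAdd t), 0, 0⟩, ?_⟩
  simp [phiA]

theorem phiB_surj (i : Fin n) : Function.Surjective (phiB (p := p) i) := by
  intro t
  refine ⟨⟨0, Pi.single i (Multiplicative.toAdd t), 0⟩, ?_⟩
  simp [phiB]

theorem exists_phi (x : Heis n p) (hx : x ∉ Subgroup.center (Heis n p)) :
    ∃ φ : Heis n p →* Multiplicative (ZMod p), Function.Surjective φ ∧ φ x ≠ 1 := by
  rw [mem_center] at hx
  by_cases ha : x.a = 0
  · have hb : x.b ≠ 0 := fun h => hx ⟨ha, h⟩
    obtain ⟨i, hi⟩ := Function.ne_iff.mp hb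
    exact ⟨phiB i, phiB_surj i, fun h => hi (by simpa [phiB] using h)⟩
  · obtain ⟨i, hi⟩ := Function.ne_iff.mp ha
    exact ⟨phiA i, phiA_surj i, fun h => hi (by simpa [phiA] using h)⟩

end Heis

/-- the kernel of a surjection onto a group of prime order is a coatom -/
theorem ker_coatom {G K : Type*} [Group G] [Group K] (φ : G →* K) (hφ : Function.Surjective φ)
    (hK : (Nat.card K).Prime) : IsCoatom φ.ker := by
  have hidx : φ.ker.index = Nat.card K := by
    rw [Subgroup.index_ker, MonoidHom.range_eq_top.mpr hφ, Subgroup.card_top]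
  constructor
  · intro h
    rw [h, Subgroup.index_top] at hidx
    exact hK.one_lt.ne hidx
  · intro L hL
    have hd : L.index ∣ Nat.card K := hidx ▸ Subgroup.index_dvd_of_le hL.le
    rcases (Nat.dvd_prime hK).mp hd with h1 | h1
    · exact Subgroup.index_eq_one.mp h1
    · exfalso
      have h2 := Subgroup.relIndex_mul_index hL.le
      rw [hidx, h1] at h2
      have h3 : φ.ker.relIndex L = 1 := by
        have hpos : 0 < Nat.card K := hK.pos
        nlinarith
      exact (not_le_of_gt hL) (Subgroup.relIndex_eq_one.mp h3)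

/-- `Z(G) ∩ G' ≤ Φ(G)` -/
theorem center_inf_comm_le_frattini {G : Type*} [Group G] :
    Subgroup.center G ⊓ commutator G ≤ frattini G := by
  intro z hz
  obtain ⟨hzc, hzd⟩ := hz
  rw [frattini, Order.radical, Subgroup.mem_iInf]
  intro M
  rw [Subgroup.mem_iInf]
  intro hM'
  have hM : IsCoatom M := hM'
  by_contra hzM
  have hsup : M ⊔ Subgroup.zpowers z = ⊤ := by
    apply hM.2
    refine lt_of_le_of_ne le_sup_left ?_
    intro h
    apply hzM
    rw [h]
    exact le_sup_right (a := M) (Subgroup.mem_zpowers z)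
  have hzn : (Subgroup.zpowers z).Normal := by
    constructor
    intro w hw g
    have hwc : w ∈ Subgroup.center G :=
      (Subgroup.zpowers_le.mpr hzc) hw
    rw [Subgroup.mem_center_iff] at hwc
    rw [hwc g, mul_inv_cancel_right]
    exact hw
  have hdec : ∀ g : G, ∃ m ∈ M, ∃ w ∈ Subgroup.center G, g = m * w := by
    intro g
    have hg : g ∈ (↑(M ⊔ Subgroup.zpowers z) : Set G) := by rw [hsup]; trivial
    rw [Subgroup.mul_normal, Set.mem_mul] at hg
    obtain ⟨m, hm, w, hw, rfl⟩ := hg
    exact ⟨m, hm, w, (Subgroup.zpowers_le.mpr hzc) hw, rfl⟩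
  have hcomm : commutator G ≤ M := by
    rw [commutator_def, Subgroup.commutator_le]
    intro g₁ _ g₂ _
    obtain ⟨m₁, hm₁, w₁, hw₁, rfl⟩ := hdec g₁
    obtain ⟨m₂, hm₂, w₂, hw₂, rfl⟩ := hdec g₂
    rw [Subgroup.mem_center_iff] at hw₁ hw₂
    have : ⁅m₁ * w₁, m₂ * w₂⁆ = ⁅m₁, m₂⁆ := by
      rw [commutatorElement_def, commutatorElement_def]
      have e1 : m₁ * w₁ * (m₂ * w₂) * (m₁ * w₁)⁻¹ * (m₂ * w₂)⁻¹
          = m₁ * (w₁ * m₂) * (w₂ * w₁⁻¹) * m₁⁻¹ * w₂⁻¹ * m₂⁻¹ := by group
      rw [e1, ← hw₁ m₂]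
      have e2 : w₂ * w₁⁻¹ = w₁⁻¹ * w₂ := by
        have := hw₂ w₁⁻¹
        exact this.symm
      rw [e2]
      have e3 : m₁ * (m₂ * w₁) * (w₁⁻¹ * w₂) * m₁⁻¹ * w₂⁻¹ * m₂⁻¹
          = m₁ * m₂ * (w₂ * m₁⁻¹) * w₂⁻¹ * m₂⁻¹ := by group
      rw [e3, ← hw₂ m₁⁻¹]
      group
    rw [this]
    exact M.mul_mem (M.mul_mem (M.mul_mem hm₁ hm₂) (M.inv_mem hm₁)) (M.inv_mem hm₂)
  exact hzM (hcomm hzd)

/-- Any group isomorphic to the Heisenberg group is extraspecial. -/
theorem extraspecial_of_equiv {n p : ℕ} [Fact p.Prime] (hn : 1 ≤ n) {G : Type*} [Group G]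
    (e : G ≃* Heis n p) : Cfsg.IsExtraspecial p G := by
  have hpp : p.Prime := Fact.out
  have hcard : Nat.card G = p ^ (1 + 2 * n) := by
    rw [Nat.card_congr e.toEquiv, Heis.card_eq]
  have hcen : ∀ x : G, x ∈ Subgroup.center G ↔ e x ∈ Subgroup.center (Heis n p) := by
    intro x
    rw [Subgroup.mem_center_iff, Subgroup.mem_center_iff]
    constructor
    · intro h y
      obtain ⟨g, rfl⟩ := e.surjective y
      rw [← map_mul, h g, map_mul]
    · intro h g
      apply e.injective
      rw [map_mul, h (e g), map_mul]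
  have hcomm : ∀ x : G, x ∈ commutator G ↔ e x ∈ commutator (Heis n p) := by
    intro x
    have h1 : Subgroup.map e.toMonoidHom (commutator G) = commutator (Heis n p) := by
      rw [commutator_def, Subgroup.map_commutator, commutator_def,
        Subgroup.map_top_of_surjective _ e.surjective]
    rw [← h1]
    constructor
    · intro h
      exact Subgroup.mem_map_of_mem _ h
    · rintro ⟨y, hy, hxy⟩
      have : y = x := e.injective hxy
      exact this ▸ hy
  have hcc : commutator G = Subgroup.center G := by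
    ext x
    rw [hcomm, hcen, Heis.comm_eq_center hn]
  refine ⟨⟨IsPGroup.of_card hcard, ?_, hcc⟩, ?_⟩
  · apply le_antisymm
    · intro x hx
      by_contra hxc
      rw [hcen] at hxc
      obtain ⟨φ, hφ, hφx⟩ := Heis.exists_phi (e x) hxc
      have hco : IsCoatom (φ.comp e.toMonoidHom).ker := by
        apply ker_coatom
        · exact hφ.comp e.surjective
        · rw [Nat.card_eq_fintype_card, Fintype.card_multiplicative, ZMod.card]
          exact hpp
      have := frattini_le_coatom hco hx
      rw [MonoidHom.mem_ker] at this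
      exact hφx this
    · have : Subgroup.center G ⊓ commutator G ≤ frattini G := center_inf_comm_le_frattini
      rw [hcc, inf_idem] at this
      exact this
  · have e2 : Subgroup.center G ≃ ZMod p :=
      { toFun := fun x => (e x.1).c
        invFun := fun t => ⟨e.symm ⟨0, 0, t⟩, by rw [hcen, Heis.mem_center]; simp⟩
        left_inv := by
          intro x
          have hx := (hcen x.1).mp x.2
          rw [Heis.mem_center] at hx
          apply Subtype.ext
          apply e.injective
          simp only [MulEquiv.apply_symm_apply]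
          ext1
          · exact hx.1.symm
          · exact hx.2.symm
          · rfl
        right_inv := by
          intro t
          simp }
    rw [Nat.card_congr e2, Nat.card_zmod]

namespace Heis
variable {n p : ℕ}

/-- the action of the Heisenberg group on `F × F^n × F` by unitriangular maps -/
def T (x : Heis n p) :
    (ZMod p × (Fin n → ZMod p) × ZMod p) →ₗ[ZMod p] (ZMod p × (Fin n → ZMod p) × ZMod p) where
  toFun v := (v.1 + x.a ⬝ᵥ v.2.1 + x.c * v.2.2, v.2.1 + v.2.2 • x.b, v.2.2)
  map_add' u v := by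
    refine Prod.ext ?_ (Prod.ext ?_ ?_)
    · simp [dotProduct_add]; ring
    · ext i; simp; ring
    · simp
  map_smul' r v := by
    refine Prod.ext ?_ (Prod.ext ?_ ?_)
    · simp [dotProduct_smul]; ring
    · ext i; simp; ring
    · simp

theorem T_apply (x : Heis n p) (v : ZMod p × (Fin n → ZMod p) × ZMod p) :
    T x v = (v.1 + x.a ⬝ᵥ v.2.1 + x.c * v.2.2, v.2.1 + v.2.2 • x.b, v.2.2) := rfl

def rho : Heis n p →*
    ((ZMod p × (Fin n → ZMod p) × ZMod p) →ₗ[ZMod p] (ZMod p × (Fin n → ZMod p) × ZMod p)) where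
  toFun := T
  map_one' := by
    apply LinearMap.ext
    intro v
    rw [T_apply]
    simp
  map_mul' x y := by
    apply LinearMap.ext
    intro v
    rw [Module.End.mul_apply, T_apply, T_apply, T_apply]
    refine Prod.ext ?_ (Prod.ext ?_ ?_)
    · simp [dotProduct_add, add_dotProduct, dotProduct_smul]; ring
    · ext i; simp; ring
    · simp

theorem rho_inj : Function.Injective (rho (n := n) (p := p)) := by
  intro x y h
  have h1 := congrArg (fun f => f ((0 : ZMod p), (0 : Fin n → ZMod p), (1 : ZMod p))) h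
  have h2 : ∀ i : Fin n, x.a i = y.a i := by
    intro i
    have := congrArg (fun f => (f ((0 : ZMod p), (Pi.single i 1 : Fin n → ZMod p), (0 : ZMod p))).1) h
    simpa [rho, T_apply] using this
  simp only [rho, MonoidHom.coe_mk, OneHom.coe_mk, T_apply] at h1
  simp only [Prod.mk.injEq] at h1
  ext1
  · ext i; exact h2 i
  · simpa using h1.2.1
  · simpa using h1.1

theorem exists_embedding [Fact p.Prime] :
    ∃ f : Heis n p →* Matrix.GeneralLinearGroup (Fin (n + 2)) (ZMod p), Function.Injective f := by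
  have hr : Module.finrank (ZMod p) (ZMod p × (Fin n → ZMod p) × ZMod p) = n + 2 := by
    rw [Module.finrank_prod, Module.finrank_prod, Module.finrank_self, Module.finrank_fin_fun]
    omega
  let b := Module.finBasisOfFinrankEq (ZMod p) (ZMod p × (Fin n → ZMod p) × ZMod p) hr
  let g : Heis n p →* Matrix (Fin (n + 2)) (Fin (n + 2)) (ZMod p) :=
    (MonoidHomClass.toMonoidHom (LinearMap.toMatrixAlgEquiv b)).comp rho
  refine ⟨g.toHomUnits, ?_⟩
  intro x y h
  have h1 : g x = g y := congrArg Units.val h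
  apply rho_inj
  exact (LinearMap.toMatrixAlgEquiv b).injective h1

end Heis

theorem main (p : ℕ) [Fact p.Prime] (hp : p ≠ 2) (n : ℕ) (hn : 1 ≤ n) :
    ∃ E : Subgroup (Matrix.GeneralLinearGroup (Fin (n + 2)) (ZMod p)),
      Cfsg.IsExtraspecial p ↥E ∧ Nat.card E = p ^ (1 + 2 * n) ∧ ∀ x ∈ E, x ^ p = 1 := by
  obtain ⟨f, hf⟩ := Heis.exists_embedding (n := n) (p := p)
  refine ⟨f.range, extraspecial_of_equiv hn (MonoidHom.ofInjective hf).symm, ?_, ?_⟩
  · rw [← Nat.card_congr (MonoidHom.ofInjective hf).toEquiv, Heis.card_eq]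
  · rintro _ ⟨h, rfl⟩
    rw [← map_pow, Heis.pow_p hp, map_one]

/-- For every odd prime p and every n ≥ 1 there is an extraspecial p-group of order p^(1+2n) and exponent p; concretely, the general linear group of degree n + 2 over the field with p elements contains such a subgroup. -/
theorem result (p : ℕ) [Fact p.Prime] (hp : p ≠ 2) (n : ℕ) (hn : 1 ≤ n) : ∃ E : Subgroup (Matrix.GeneralLinearGroup (Fin (n + 2)) (ZMod p)), Cfsg.IsExtraspecial p ↥E ∧ Nat.card E = p ^ (1 + 2 * n) ∧ ∀ x ∈ E, x ^ p = 1 := by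
  exact main p hp n hn

end Cfsg.Agent.S3799
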