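import Cfsg.Statements.S3074
import Mathlib
import Cfsg.Agent.S3799

set_option autoImplicit false
open Cfsg

namespace Cfsg.Agent.S3074

open Matrix Cfsg.Agent.S3799

/-- matrix of a Heisenberg element -/
def hmat (p : ℕ) (x : Heis 1 p) : Matrix (Fin 3) (Fin 3) (ZMod p) :=
  !![1, x.a 0, x.c; 0, 1, x.b 0; 0, 0, 1]

theorem hmat_det (p : ℕ) (x : Heis 1 p) : (hmat p x).det = 1 := by
  simp [hmat, Matrix.det_fin_three]

theorem hmat_mul (p : ℕ) (x y : Heis 1 p) : hmat p (x * y) = hmat p x * hmat p y := by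
  ext i j
  fin_cases i <;> fin_cases j <;>
    simp [hmat, Matrix.mul_apply, Fin.sum_univ_three, dotProduct] <;> ring

theorem hmat_one (p : ℕ) : hmat p 1 = 1 := by
  ext i j
  fin_cases i <;> fin_cases j <;> simp [hmat]

/-- the embedding of the Heisenberg group into `SL₃` -/
def hsl (p : ℕ) : Heis 1 p →* Matrix.SpecialLinearGroup (Fin 3) (ZMod p) where
  toFun x := ⟨hmat p x, hmat_det p x⟩
  map_one' := Subtype.ext (hmat_one p)
  map_mul' x y := Subtype.ext (hmat_mul p x y)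

theorem hsl_mem (p : ℕ) (x : Heis 1 p) : hsl p x ∈ Cfsg.qd p := by
  apply Subgroup.subset_closure
  refine ⟨?_, ?_, ?_⟩
  · show hmat p x 2 0 = 0
    simp [hmat]
  · show hmat p x 2 1 = 0
    simp [hmat]
  · show hmat p x 2 2 = 1
    simp [hmat]

theorem hsl_inj (p : ℕ) : Function.Injective (hsl p) := by
  intro x y h
  have h1 : hmat p x = hmat p y := congrArg Subtype.val h
  have e01 := congrFun (congrFun h1 0) 1
  have e02 := congrFun (congrFun h1 0) 2
  have e12 := congrFun (congrFun h1 1) 2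
  simp [hmat] at e01 e02 e12
  ext1
  · ext i; rw [Fin.eq_zero i]; exact e01
  · ext i; rw [Fin.eq_zero i]; exact e12
  · exact e02

/-- the Heisenberg subgroup of `Qd(p)` -/
def hqd (p : ℕ) : Heis 1 p →* ↥(Cfsg.qd p) :=
  (hsl p).codRestrict (Cfsg.qd p) (hsl_mem p)

theorem hqd_inj (p : ℕ) : Function.Injective (hqd p) := by
  intro x y h
  apply hsl_inj p
  exact congrArg Subtype.val h

/-- `p⁴` does not divide `|GL₃(p)|` -/
theorem not_p4_dvd (p : ℕ) [Fact p.Prime] :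
    ¬ p ^ 4 ∣ Nat.card (Matrix.GeneralLinearGroup (Fin 3) (ZMod p)) := by
  have hpp : p.Prime := Fact.out
  have h2 := hpp.two_le
  rw [Matrix.card_GL_field, Fin.prod_univ_three, ZMod.card]
  simp only [Fin.val_zero, Fin.val_one, Fin.val_two, pow_zero, pow_one]
  have e1 : p ^ 3 - p = p * (p ^ 2 - 1) := by
    rw [Nat.mul_sub, mul_one]; ring_nf
  have e2 : p ^ 3 - p ^ 2 = p ^ 2 * (p - 1) := by
    rw [Nat.mul_sub, mul_one]; ring_nf
  rw [e1, e2]
  have e3 : (p ^ 3 - 1) * (p * (p ^ 2 - 1)) * (p ^ 2 * (p - 1))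
      = p ^ 3 * ((p ^ 3 - 1) * (p ^ 2 - 1) * (p - 1)) := by ring
  rw [e3]
  intro hd
  have hd' : p ∣ (p ^ 3 - 1) * (p ^ 2 - 1) * (p - 1) := by
    have : p ^ 3 * p ∣ p ^ 3 * ((p ^ 3 - 1) * (p ^ 2 - 1) * (p - 1)) := by
      have e4 : p ^ 3 * p = p ^ 4 := by ring
      rw [e4]; exact hd
    exact Nat.dvd_of_mul_dvd_mul_left (pow_pos hpp.pos 3) this
  have key : ∀ j : ℕ, 1 ≤ j → ¬ p ∣ p ^ j - 1 := by
    intro j hj hdv
    have hpj : p ∣ p ^ j := dvd_pow_self p (by omega)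
    have h1 : 1 ≤ p ^ j := Nat.one_le_pow _ _ hpp.pos
    have : p ∣ 1 := by
      have h3 : p ^ j = (p ^ j - 1) + 1 := by omega
      rw [h3] at hpj
      exact (Nat.dvd_add_right hdv).mp hpj
    exact hpp.one_lt.ne' (Nat.dvd_one.mp this)
  rcases (Nat.Prime.dvd_mul hpp).mp hd' with h | h
  · rcases (Nat.Prime.dvd_mul hpp).mp h with h | h
    · exact key 3 (by norm_num) h
    · exact key 2 (by norm_num) h
  · exact key 1 (by norm_num) (by simpa using h)

/-- a `p`-subgroup of `Qd(p)` has order dividing `p³` -/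
theorem pgroup_card_dvd (p : ℕ) [Fact p.Prime] (Q : Subgroup ↥(Cfsg.qd p)) (hQ : IsPGroup p Q) :
    Nat.card Q ∣ p ^ 3 := by
  obtain ⟨k, hk⟩ := IsPGroup.iff_card.mp hQ
  have h1 : Nat.card Q ∣ Nat.card (Matrix.GeneralLinearGroup (Fin 3) (ZMod p)) := by
    have a1 : Nat.card Q ∣ Nat.card ↥(Cfsg.qd p) := Subgroup.card_subgroup_dvd_card Q
    have a2 : Nat.card ↥(Cfsg.qd p) ∣ Nat.card (Matrix.SpecialLinearGroup (Fin 3) (ZMod p)) :=
      Subgroup.card_subgroup_dvd_card _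
    have a3 : Nat.card (Matrix.SpecialLinearGroup (Fin 3) (ZMod p)) ∣
        Nat.card (Matrix.GeneralLinearGroup (Fin 3) (ZMod p)) :=
      Subgroup.card_dvd_of_injective (Matrix.SpecialLinearGroup.toGL)
        Matrix.SpecialLinearGroup.toGL_injective
    exact a1.trans (a2.trans a3)
  rw [hk] at h1 ⊢
  apply pow_dvd_pow
  by_contra hk3
  have : p ^ 4 ∣ p ^ k := pow_dvd_pow p (by omega)
  exact not_p4_dvd p (this.trans h1)

theorem main (p : ℕ) [Fact p.Prime] (hp : p ≠ 2) (P : Sylow p ↥(Cfsg.qd p)) :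
    Cfsg.IsExtraspecial p ↥P ∧ Nat.card P = p ^ 3 ∧ Monoid.exponent ↥P = p := by
  have hpp : p.Prime := Fact.out
  -- the Heisenberg subgroup
  have hR : Nat.card (hqd p).range = p ^ 3 := by
    rw [← Nat.card_congr (MonoidHom.ofInjective (hqd_inj p)).toEquiv, Heis.card_eq]
  have hRp : IsPGroup p (hqd p).range := IsPGroup.of_card hR
  obtain ⟨Q, hQ⟩ := hRp.exists_le_sylow
  have hQc : Nat.card Q = p ^ 3 := by
    apply Nat.dvd_antisymm (pgroup_card_dvd p Q Q.isPGroup')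
    rw [← hR]
    exact Subgroup.card_dvd_of_le hQ
  have hQR : (hqd p).range = (Q : Subgroup ↥(Cfsg.qd p)) := by
    apply Subgroup.eq_of_le_of_card_ge hQ
    rw [hR]; exact hQc.le
  -- `P ≅ Q = range ≅ Heis`
  have e1 : ↥(P : Subgroup ↥(Cfsg.qd p)) ≃* ↥(Q : Subgroup ↥(Cfsg.qd p)) := Sylow.equiv P Q
  have e2 : ↥(Q : Subgroup ↥(Cfsg.qd p)) ≃* Heis 1 p :=
    (MulEquiv.subgroupCongr hQR.symm).trans (MonoidHom.ofInjective (hqd_inj p)).symm
  have e : ↥(P : Subgroup ↥(Cfsg.qd p)) ≃* Heis 1 p := e1.trans e2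
  have hc : Nat.card P = p ^ 3 := by
    rw [Nat.card_congr e.toEquiv, Heis.card_eq]
  refine ⟨extraspecial_of_equiv (le_refl 1) e, hc, ?_⟩
  have hexp : Monoid.exponent ↥P ∣ p := by
    apply Monoid.exponent_dvd_of_forall_pow_eq_one
    intro x
    apply e.injective
    rw [map_pow, Heis.pow_p hp, map_one]
  rcases (Nat.dvd_prime hpp).mp hexp with h | h
  · exfalso
    have hsub : Subsingleton ↥P := Monoid.exp_eq_one_iff.mp h
    have : Nat.card ↥(P : Subgroup ↥(Cfsg.qd p)) = 1 :=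
      Nat.card_eq_one_iff_unique.mpr ⟨hsub, ⟨1⟩⟩
    rw [hc] at this
    have := Nat.one_lt_pow (n := 3) (by norm_num) hpp.one_lt
    omega
  · exact h

/-- Let p be an odd prime. A Sylow p-subgroup of Qd(p), the split extension of an elementary abelian group of order p² by SL₂(p) acting naturally, is extraspecial of order p³ and exponent p. -/
theorem result (p : ℕ) [Fact p.Prime] (hp : p ≠ 2) (P : Sylow p ↥(Cfsg.qd p)) :
    Cfsg.IsExtraspecial p ↥P ∧ Nat.card P = p ^ 3 ∧ Monoid.exponent ↥P = p := by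
  exact main p hp P

end Cfsg.Agent.S3074
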