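import Cfsg.Statements.S2763
import Mathlib
import Cfsg.Agent.S3074
import Cfsg.Agent.Lib.Helper6.SylowConj

set_option autoImplicit false
open Cfsg

namespace Cfsg.Agent.S2763

open Matrix Cfsg.Agent.S3799 Cfsg.Agent.S3074

variable {p : ℕ}

/-- entries of an element of `Qd(p)` -/
def ent (g : ↥(Cfsg.qd p)) (i j : Fin 3) : ZMod p :=
  ((g : Matrix.SpecialLinearGroup (Fin 3) (ZMod p)) : Matrix (Fin 3) (Fin 3) (ZMod p)) i j

theorem ent_mul (g h : ↥(Cfsg.qd p)) (i j : Fin 3) :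
    ent (g * h) i j = ent g i 0 * ent h 0 j + ent g i 1 * ent h 1 j + ent g i 2 * ent h 2 j := by
  unfold ent
  simp [Matrix.mul_apply, Fin.sum_univ_three]

theorem ent_one (i j : Fin 3) : ent (1 : ↥(Cfsg.qd p)) i j = if i = j then 1 else 0 := by
  unfold ent
  simp [Matrix.one_apply]

theorem ent_ext {g h : ↥(Cfsg.qd p)} (H : ∀ i j, ent g i j = ent h i j) : g = h := by
  apply Subtype.ext
  apply Subtype.ext
  ext i j
  exact H i j

theorem qd_row (M : Matrix.SpecialLinearGroup (Fin 3) (ZMod p)) (hM : M ∈ Cfsg.qd p) :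
    (M : Matrix (Fin 3) (Fin 3) (ZMod p)) 2 0 = 0 ∧ (M : Matrix (Fin 3) (Fin 3) (ZMod p)) 2 1 = 0 ∧
      (M : Matrix (Fin 3) (Fin 3) (ZMod p)) 2 2 = 1 := by
  unfold Cfsg.qd at hM
  induction hM using Subgroup.closure_induction with
  | mem x hx => exact hx
  | one => simp
  | mul x y _ _ hx hy =>
    obtain ⟨a1, a2, a3⟩ := hx
    obtain ⟨b1, b2, b3⟩ := hy
    refine ⟨?_, ?_, ?_⟩ <;>
      simp [Matrix.mul_apply, Fin.sum_univ_three, a1, a2, a3, b1, b2, b3]
  | inv x _ hx =>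
    obtain ⟨a1, a2, a3⟩ := hx
    have h := congrArg Subtype.val (mul_inv_cancel x)
    have h0 := congrFun (congrFun h 2) 0
    have h1 := congrFun (congrFun h 2) 1
    have h2 := congrFun (congrFun h 2) 2
    simp only [Matrix.SpecialLinearGroup.coe_mul, Matrix.mul_apply, Fin.sum_univ_three, a1, a2, a3,
      zero_mul, one_mul, zero_add, Matrix.SpecialLinearGroup.coe_one] at h0 h1 h2
    refine ⟨?_, ?_, ?_⟩
    · simpa using h0
    · simpa using h1
    · simpa using h2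

theorem ent20 (g : ↥(Cfsg.qd p)) : ent g 2 0 = 0 := (qd_row g.1 g.2).1
theorem ent21 (g : ↥(Cfsg.qd p)) : ent g 2 1 = 0 := (qd_row g.1 g.2).2.1
theorem ent22 (g : ↥(Cfsg.qd p)) : ent g 2 2 = 1 := (qd_row g.1 g.2).2.2

theorem ent_det (g : ↥(Cfsg.qd p)) : ent g 0 0 * ent g 1 1 - ent g 0 1 * ent g 1 0 = 1 := by
  have h := (g : Matrix.SpecialLinearGroup (Fin 3) (ZMod p)).2
  rw [Matrix.det_fin_three] at h
  have a1 := ent20 g
  have a2 := ent21 g
  have a3 := ent22 g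
  unfold ent at *
  rw [a1, a2, a3] at h
  linear_combination h

theorem ent_hqd (x : Heis 1 p) (i j : Fin 3) : ent (hqd p x) i j = hmat p x i j := rfl

/-- membership in the standard Sylow subgroup -/
theorem mem_S0 (g : ↥(Cfsg.qd p)) :
    g ∈ (hqd p).range ↔ ent g 0 0 = 1 ∧ ent g 1 0 = 0 ∧ ent g 1 1 = 1 := by
  constructor
  · rintro ⟨x, rfl⟩
    refine ⟨?_, ?_, ?_⟩ <;> simp [ent_hqd, hmat]
  · rintro ⟨h1, h2, h3⟩
    refine ⟨⟨fun _ => ent g 0 1, fun _ => ent g 1 2, ent g 0 2⟩, ?_⟩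
    apply ent_ext
    intro i j
    rw [ent_hqd]
    have a1 := ent20 g
    have a2 := ent21 g
    have a3 := ent22 g
    fin_cases i <;> fin_cases j <;> simp [hmat, h1, h2, h3, a1, a2, a3]

section upper
variable [Fact p.Prime]

theorem upper_diag (g : ↥(Cfsg.qd p)) (h : ent g 1 0 = 0) : ent g 0 0 * ent g 1 1 = 1 := by
  have := ent_det g
  rw [h, mul_zero, sub_zero] at this
  exact this

theorem upper_conj (g : ↥(Cfsg.qd p)) (hg : ent g 1 0 = 0) (h : ↥(Cfsg.qd p))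
    (hh : h ∈ (hqd p).range) : g * h * g⁻¹ ∈ (hqd p).range := by
  rw [mem_S0] at hh ⊢
  obtain ⟨h00, h10, h11⟩ := hh
  have hd := upper_diag g hg
  have g00 : ent g 0 0 ≠ 0 := left_ne_zero_of_mul_eq_one hd
  have g11 : ent g 1 1 ≠ 0 := right_ne_zero_of_mul_eq_one hd
  have hk : (g * h * g⁻¹) * g = g * h := by rw [inv_mul_cancel_right]
  have e10 := congrArg (fun m => ent m 1 0) hk
  have e00 := congrArg (fun m => ent m 0 0) hk
  have e11 := congrArg (fun m => ent m 1 1) hk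
  simp only [ent_mul (g * h * g⁻¹) g, ent_mul g h, hg, ent20, ent21, h00, h10, h11, mul_zero,
    add_zero, mul_one, zero_add, zero_mul] at e10 e00 e11
  have k10 : ent (g * h * g⁻¹) 1 0 = 0 := by
    rcases mul_eq_zero.mp e10 with h | h
    · exact h
    · exact absurd h g00
  have k00 : ent (g * h * g⁻¹) 0 0 = 1 := by
    have : ent (g * h * g⁻¹) 0 0 * ent g 0 0 = 1 * ent g 0 0 := by rw [one_mul]; exact e00
    exact mul_right_cancel₀ g00 this
  have k11 : ent (g * h * g⁻¹) 1 1 = 1 := by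
    rw [k10, zero_mul, zero_add] at e11
    have : ent (g * h * g⁻¹) 1 1 * ent g 1 1 = 1 * ent g 1 1 := by rw [one_mul]; exact e11
    exact mul_right_cancel₀ g11 this
  exact ⟨k00, k10, k11⟩

theorem upper_inv (g : ↥(Cfsg.qd p)) (hg : ent g 1 0 = 0) : ent g⁻¹ 1 0 = 0 := by
  have hd := upper_diag g hg
  have g11 : ent g 1 1 ≠ 0 := right_ne_zero_of_mul_eq_one hd
  have e := congrArg (fun m => ent m 1 0) (mul_inv_cancel g)
  simp only [ent_mul g g⁻¹, ent_one, hg, ent20, zero_mul, zero_add, mul_zero, add_zero] at e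
  rcases (by simpa using e : ent g 1 1 = 0 ∨ ent g⁻¹ 1 0 = 0) with h | h
  · exact absurd h g11
  · exact h

theorem upper_norm (g : ↥(Cfsg.qd p)) (hg : ent g 1 0 = 0) :
    g ∈ Subgroup.normalizer (((hqd p).range : Subgroup ↥(Cfsg.qd p)) : Set ↥(Cfsg.qd p)) := by
  rw [Subgroup.mem_normalizer_iff]
  intro h
  constructor
  · exact upper_conj g hg h
  · intro hh
    have := upper_conj g⁻¹ (upper_inv g hg) _ hh
    have e : g⁻¹ * (g * h * g⁻¹) * g⁻¹⁻¹ = h := by group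
    rw [e] at this
    exact this

/-- if conjugation by `g` sends the central generator to a central element then `g` is upper
triangular -/
theorem upper_of_conj (g : ↥(Cfsg.qd p)) (c : ZMod p)
    (h : g * hqd p ⟨0, 0, 1⟩ * g⁻¹ = hqd p ⟨0, 0, c⟩) : ent g 1 0 = 0 := by
  have hk : hqd p ⟨0, 0, c⟩ * g = g * hqd p ⟨0, 0, 1⟩ := by rw [← h, inv_mul_cancel_right]
  have e := congrArg (fun m => ent m 1 2) hk
  simp only [ent_mul, ent_hqd, hmat, ent22] at e
  simp at e
  exact e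

/-- a lower unitriangular element -/
def gL (p : ℕ) : ↥(Cfsg.qd p) :=
  ⟨⟨!![1, 0, 0; 1, 1, 0; 0, 0, 1], by simp [Matrix.det_fin_three]⟩, by
    apply Subgroup.subset_closure
    refine ⟨?_, ?_, ?_⟩ <;> simp⟩

theorem gL_ent : ent (gL p) 1 0 = 1 := by
  unfold ent gL
  simp

end upper

section abstract

theorem norm_le_norm_char {G : Type*} [Group G] (S : Subgroup G) (T : Subgroup ↥S)
    (hT : T.Characteristic) :
    Subgroup.normalizer (S : Set G) ≤
      Subgroup.normalizer ((T.map S.subtype : Subgroup G) : Set G) := by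
  intro g hg
  rw [Subgroup.mem_normalizer_iff] at hg ⊢
  let φ : ↥S ≃* ↥S :=
    { toFun := fun x => ⟨g * x * g⁻¹, (hg x).mp x.2⟩
      invFun := fun x => ⟨g⁻¹ * x * g, by
        apply (hg _).mpr
        have e : g * (g⁻¹ * (x : G) * g) * g⁻¹ = x := by group
        rw [e]; exact x.2⟩
      left_inv := fun x => by apply Subtype.ext; simp; group
      right_inv := fun x => by apply Subtype.ext; simp; group
      map_mul' := fun x y => by apply Subtype.ext; simp }
  have hfix : ∀ x : ↥S, φ x ∈ T ↔ x ∈ T := by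
    intro x
    have := Subgroup.characteristic_iff_comap_eq.mp hT φ
    constructor
    · intro h
      have h2 : x ∈ T.comap φ.toMonoidHom := h
      rw [this] at h2; exact h2
    · intro h
      rw [← this] at h; exact h
  intro h
  constructor
  · rintro ⟨x, hx, rfl⟩
    exact ⟨φ x, (hfix x).mpr hx, rfl⟩
  · rintro ⟨y, hy, hyeq⟩
    refine ⟨φ.symm y, ?_, ?_⟩
    · apply (hfix _).mp
      rw [MulEquiv.apply_symm_apply]; exact hy
    · show g⁻¹ * (y : G) * g = h
      have : (y : G) = g * h * g⁻¹ := hyeq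
      rw [this]; group

theorem char_comap {A B : Type*} [Group A] [Group B] (κ : A ≃* B) (T : Subgroup B)
    (hT : T.Characteristic) : (T.comap κ.toMonoidHom).Characteristic := by
  rw [Subgroup.characteristic_iff_comap_eq]
  intro φ
  ext x
  have := Subgroup.characteristic_iff_comap_eq.mp hT (κ.symm.trans (φ.trans κ))
  have h2 : κ x ∈ T.comap (κ.symm.trans (φ.trans κ)).toMonoidHom ↔ κ x ∈ T := by rw [this]
  simp only [Subgroup.mem_comap, MulEquiv.coe_toMonoidHom, MulEquiv.trans_apply,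
    MulEquiv.symm_apply_apply] at h2 ⊢
  exact h2

theorem norm_conj {G : Type*} [Group G] (A A₀ : Subgroup G) (c : G)
    (h : ∀ y, y ∈ A ↔ c⁻¹ * y * c ∈ A₀) (y : G) :
    y ∈ Subgroup.normalizer (A : Set G) ↔ c⁻¹ * y * c ∈ Subgroup.normalizer (A₀ : Set G) := by
  rw [Subgroup.mem_normalizer_iff, Subgroup.mem_normalizer_iff]
  constructor
  · intro hy h₀
    have := hy (c * h₀ * c⁻¹)
    rw [h, h] at this
    have e1 : c⁻¹ * (c * h₀ * c⁻¹) * c = h₀ := by group
    have e2 : c⁻¹ * (y * (c * h₀ * c⁻¹) * y⁻¹) * c = c⁻¹ * y * c * h₀ * (c⁻¹ * y * c)⁻¹ := by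
      group
    rw [e1, e2] at this
    exact this
  · intro hy h'
    have := hy (c⁻¹ * h' * c)
    rw [h, h]
    have e : c⁻¹ * y * c * (c⁻¹ * h' * c) * (c⁻¹ * y * c)⁻¹ = c⁻¹ * (y * h' * y⁻¹) * c := by group
    rw [e] at this
    exact this

end abstract

theorem zmod2_key : ∀ t : ZMod 2, t ≠ 0 → t = 1 := by decide

section heis

/-- the rotation automorphism -/
def alpha (p : ℕ) : Heis 1 p ≃* Heis 1 p where
  toFun x := ⟨x.b, -x.a, x.c - x.a 0 * x.b 0⟩
  invFun x := ⟨-x.b, x.a, x.c - x.a 0 * x.b 0⟩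
  left_inv x := by
    ext1
    · simp
    · simp
    · simp; ring
  right_inv x := by
    ext1
    · simp
    · simp
    · simp; ring
  map_mul' x y := by
    ext1
    · simp
    · simp [add_comm]
    · simp [dotProduct]; ring

theorem alpha_a (x : Heis 1 p) : (alpha p x).a = x.b := rfl
theorem alpha_b (x : Heis 1 p) : (alpha p x).b = -x.a := rfl

/-- the shear automorphism (odd `p`) -/
def beta (p : ℕ) [Fact p.Prime] (h2 : (2 : ZMod p) ≠ 0) : Heis 1 p ≃* Heis 1 p where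
  toFun x := ⟨x.a + x.b, x.b, x.c + 2⁻¹ * (x.b 0 * x.b 0)⟩
  invFun x := ⟨x.a - x.b, x.b, x.c - 2⁻¹ * (x.b 0 * x.b 0)⟩
  left_inv x := by
    ext1
    · simp
    · simp
    · simp
  right_inv x := by
    ext1
    · simp
    · simp
    · simp
  map_mul' x y := by
    ext1
    · simp; abel
    · simp
    · simp [dotProduct]
      field_simp
      ring

theorem beta_a [Fact p.Prime] (h2 : (2 : ZMod p) ≠ 0) (x : Heis 1 p) :
    (beta p h2 x).a = x.a + x.b := rfl
theorem beta_b [Fact p.Prime] (h2 : (2 : ZMod p) ≠ 0) (x : Heis 1 p) :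
    (beta p h2 x).b = x.b := rfl

theorem heis_center (x : Heis 1 p) :
    x ∈ Subgroup.center (Heis 1 p) ↔ x.a 0 = 0 ∧ x.b 0 = 0 := by
  rw [Heis.mem_center]
  constructor
  · rintro ⟨h1, h2⟩
    exact ⟨by rw [h1]; rfl, by rw [h2]; rfl⟩
  · rintro ⟨h1, h2⟩
    constructor
    · ext i; rw [Fin.eq_zero i]; exact h1
    · ext i; rw [Fin.eq_zero i]; exact h2

theorem comm_c (x y : Heis 1 p) :
    (x * y * x⁻¹ * y⁻¹).a 0 = 0 ∧ (x * y * x⁻¹ * y⁻¹).b 0 = 0 ∧
      (x * y * x⁻¹ * y⁻¹).c = x.a 0 * y.b 0 - y.a 0 * x.b 0 := by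
  refine ⟨?_, ?_, ?_⟩
  · simp
  · simp
  · simp [dotProduct]; ring

variable [Fact p.Prime]

theorem center_le_of_normal (T : Subgroup (Heis 1 p)) [T.Normal] (hT : T ≠ ⊥) :
    ∀ w : Heis 1 p, w ∈ Subgroup.center (Heis 1 p) → w ∈ T := by
  have hpp : p.Prime := Fact.out
  -- a nontrivial central element of `T`
  have hz : ∃ z₀ ∈ T, z₀.a 0 = 0 ∧ z₀.b 0 = 0 ∧ z₀.c ≠ 0 := by
    obtain ⟨⟨x, hxT⟩, hx1⟩ := (Subgroup.ne_bot_iff_exists_ne_one.mp hT)
    have hx1' : x ≠ 1 := fun h => hx1 (Subtype.ext h)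
    by_cases ha : x.a 0 = 0
    · by_cases hb : x.b 0 = 0
      · refine ⟨x, hxT, ha, hb, ?_⟩
        intro hc
        apply hx1'
        ext1
        · ext i; rw [Fin.eq_zero i]; exact ha
        · ext i; rw [Fin.eq_zero i]; exact hb
        · exact hc
      · have hy : x * (⟨fun _ => 1, 0, 0⟩ : Heis 1 p) * x⁻¹ * (⟨fun _ => 1, 0, 0⟩ : Heis 1 p)⁻¹ ∈ T := by
          have h1 := Subgroup.Normal.conj_mem (inferInstance : T.Normal) x⁻¹ (T.inv_mem hxT)
            (⟨fun _ => 1, 0, 0⟩ : Heis 1 p)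
          have h2 := T.mul_mem hxT h1
          simpa [mul_assoc] using h2
        obtain ⟨c1, c2, c3⟩ := comm_c x (⟨fun _ => 1, 0, 0⟩ : Heis 1 p)
        refine ⟨_, hy, c1, c2, ?_⟩
        rw [c3]
        simpa using hb
    · have hy : x * (⟨0, fun _ => 1, 0⟩ : Heis 1 p) * x⁻¹ * (⟨0, fun _ => 1, 0⟩ : Heis 1 p)⁻¹ ∈ T := by
        have h1 := Subgroup.Normal.conj_mem (inferInstance : T.Normal) x⁻¹ (T.inv_mem hxT)
          (⟨0, fun _ => 1, 0⟩ : Heis 1 p)
        have h2 := T.mul_mem hxT h1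
        simpa [mul_assoc] using h2
      obtain ⟨c1, c2, c3⟩ := comm_c x (⟨0, fun _ => 1, 0⟩ : Heis 1 p)
      refine ⟨_, hy, c1, c2, ?_⟩
      rw [c3]
      simpa using ha
  obtain ⟨z₀, hz₀, za, zb, zc⟩ := hz
  intro w hw
  rw [heis_center] at hw
  have : w = z₀ ^ (w.c / z₀.c).val := by
    ext1
    · ext i; rw [Fin.eq_zero i, Heis.pow_a]; simp [hw.1, za]
    · ext i; rw [Fin.eq_zero i, Heis.pow_b]; simp [hw.2, zb]
    · rw [Heis.pow_c]
      simp [dotProduct, za, zb, div_mul_cancel₀ _ zc]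
  rw [this]
  exact T.pow_mem hz₀ _

theorem gen_top (T : Subgroup (Heis 1 p))
    (hcen : ∀ w : Heis 1 p, w ∈ Subgroup.center (Heis 1 p) → w ∈ T)
    (y w : Heis 1 p) (hy : y ∈ T) (hw : w ∈ T) (ya : y.a 0 ≠ 0) (yb : y.b 0 = 0)
    (wa : w.a 0 = 0) (wb : w.b 0 ≠ 0) : T = ⊤ := by
  rw [eq_top_iff]
  intro g _
  have hu : y ^ (g.a 0 / y.a 0).val * w ^ (g.b 0 / w.b 0).val ∈ T :=
    T.mul_mem (T.pow_mem hy _) (T.pow_mem hw _)
  have hc : g * (y ^ (g.a 0 / y.a 0).val * w ^ (g.b 0 / w.b 0).val)⁻¹ ∈ T := by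
    apply hcen
    rw [heis_center]
    have ea : ∀ (v : Heis 1 p) (t : ZMod p), (v ^ t.val).a 0 = t * v.a 0 := by
      intro v t
      rw [Heis.pow_a, Pi.smul_apply, nsmul_eq_mul, ZMod.natCast_zmod_val]
    have eb : ∀ (v : Heis 1 p) (t : ZMod p), (v ^ t.val).b 0 = t * v.b 0 := by
      intro v t
      rw [Heis.pow_b, Pi.smul_apply, nsmul_eq_mul, ZMod.natCast_zmod_val]
    constructor
    · simp only [Heis.mul_a, Heis.inv_a, Pi.add_apply, Pi.neg_apply]
      rw [ea, ea, wa, mul_zero, add_zero, div_mul_cancel₀ _ ya]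
      ring
    · simp only [Heis.mul_b, Heis.inv_b, Pi.add_apply, Pi.neg_apply]
      rw [eb, eb, yb, mul_zero, zero_add, div_mul_cancel₀ _ wb]
      ring
  have := T.mul_mem hc hu
  rw [inv_mul_cancel_right] at this
  exact this

theorem char_class (T : Subgroup (Heis 1 p)) (hT : T ≠ ⊥) (hTc : T.Characteristic) :
    T = ⊤ ∨ ((∀ x : Heis 1 p, x ∈ Subgroup.center (Heis 1 p) → x ∈ T) ∧
      ((∀ x ∈ T, x ∈ Subgroup.center (Heis 1 p)) ∨ (p = 2 ∧ ∀ x ∈ T, x.a 0 = x.b 0))) := by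
  have hpp : p.Prime := Fact.out
  have hfix : ∀ (φ : Heis 1 p ≃* Heis 1 p) (x : Heis 1 p), x ∈ T → φ x ∈ T :=
    fun φ x hx => (Subgroup.characteristic_iff_le_comap.mp hTc φ) hx
  haveI : T.Normal := Subgroup.normal_of_characteristic T
  have hcen := center_le_of_normal T hT
  by_cases h1 : ∃ x ∈ T, x.a 0 ≠ 0 ∧ x.b 0 = 0
  · obtain ⟨x, hx, xa, xb⟩ := h1
    left
    refine gen_top T hcen x (alpha p x) hx (hfix _ x hx) xa xb ?_ ?_
    · rw [alpha_a]; exact xb
    · rw [alpha_b]; simpa using xa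
  by_cases h2 : ∃ x ∈ T, x.a 0 = 0 ∧ x.b 0 ≠ 0
  · obtain ⟨x, hx, xa, xb⟩ := h2
    left
    refine gen_top T hcen (alpha p x) x (hfix _ x hx) hx ?_ ?_ xa xb
    · rw [alpha_a]; exact xb
    · rw [alpha_b]; simpa using xa
  push_neg at h1 h2
  right
  refine ⟨hcen, ?_⟩
  by_cases h3 : ∀ x ∈ T, x.a 0 = 0
  · left
    intro x hx
    rw [heis_center]
    exact ⟨h3 x hx, h2 x hx (h3 x hx)⟩
  · right
    push_neg at h3
    obtain ⟨x, hx, xa⟩ := h3
    have xb : x.b 0 ≠ 0 := h1 x hx xa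
    have h2z : (2 : ZMod p) = 0 := by
      by_contra h2ne
      have hy : beta p h2ne x * x⁻¹ ∈ T := T.mul_mem (hfix _ x hx) (T.inv_mem hx)
      have e1 : (beta p h2ne x * x⁻¹).a 0 = x.b 0 := by
        rw [Heis.mul_a, beta_a]; simp
      have e2 : (beta p h2ne x * x⁻¹).b 0 = 0 := by
        rw [Heis.mul_b, beta_b]; simp
      exact h1 _ hy (by rw [e1]; exact xb) e2
    have hp2 : p = 2 := by
      have : ((2 : ℕ) : ZMod p) = 0 := by exact_mod_cast h2z
      have hd := (ZMod.natCast_eq_zero_iff 2 p).mp this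
      exact (Nat.prime_dvd_prime_iff_eq hpp Nat.prime_two).mp hd
    refine ⟨hp2, ?_⟩
    subst hp2
    have key := zmod2_key
    intro x' hx'
    by_cases ha' : x'.a 0 = 0
    · have hb' : x'.b 0 = 0 := h2 x' hx' ha'
      rw [ha', hb']
    · rw [key _ ha', key _ (h1 x' hx' ha')]

end heis

section assembly
variable [Fact p.Prime]

theorem zeta_central (s : Heis 1 p) : s * (⟨0, 0, 1⟩ : Heis 1 p) = (⟨0, 0, 1⟩ : Heis 1 p) * s := by
  have h : (⟨0, 0, 1⟩ : Heis 1 p) ∈ Subgroup.center (Heis 1 p) := by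
    rw [heis_center]; exact ⟨rfl, rfl⟩
  exact Subgroup.mem_center_iff.mp h s

theorem normS0_upper (g : ↥(Cfsg.qd p))
    (hg : g ∈ Subgroup.normalizer (((hqd p).range : Subgroup ↥(Cfsg.qd p)) : Set ↥(Cfsg.qd p))) :
    ent g 1 0 = 0 := by
  rw [Subgroup.mem_normalizer_iff] at hg
  obtain ⟨x, hx⟩ := (hg (hqd p ⟨0, 0, 1⟩)).mp ⟨_, rfl⟩
  have hxc : x ∈ Subgroup.center (Heis 1 p) := by
    rw [Subgroup.mem_center_iff]
    intro y
    apply hqd_inj p
    rw [map_mul, map_mul, hx]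
    have h1 : g⁻¹ * hqd p y * g ∈ (hqd p).range := by
      apply (hg _).mpr
      have e : g * (g⁻¹ * hqd p y * g) * g⁻¹ = hqd p y := by group
      rw [e]; exact ⟨_, rfl⟩
    obtain ⟨s, hs⟩ := h1
    have e2 : hqd p y = g * hqd p s * g⁻¹ := by rw [hs]; group
    rw [e2]
    have e3 : g * hqd p s * g⁻¹ * (g * hqd p ⟨0, 0, 1⟩ * g⁻¹)
        = g * (hqd p s * hqd p ⟨0, 0, 1⟩) * g⁻¹ := by group
    have e4 : g * hqd p ⟨0, 0, 1⟩ * g⁻¹ * (g * hqd p s * g⁻¹)
        = g * (hqd p ⟨0, 0, 1⟩ * hqd p s) * g⁻¹ := by group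
    rw [e3, e4, ← map_mul, ← map_mul, zeta_central]
  rw [Heis.mem_center] at hxc
  have hx' : x = ⟨0, 0, x.c⟩ := by
    ext1
    · exact hxc.1
    · exact hxc.2
    · rfl
  rw [hx'] at hx
  exact upper_of_conj g x.c hx.symm

theorem S0_result (T₀ : Subgroup ↥((hqd p).range)) (hT : T₀ ≠ ⊥) (hTc : T₀.Characteristic) :
    Subgroup.normalizer ((T₀.map (hqd p).range.subtype : Subgroup ↥(Cfsg.qd p)) : Set ↥(Cfsg.qd p))
      = Subgroup.normalizer (((hqd p).range : Subgroup ↥(Cfsg.qd p)) : Set ↥(Cfsg.qd p)) ∧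
    Subgroup.normalizer (((hqd p).range : Subgroup ↥(Cfsg.qd p)) : Set ↥(Cfsg.qd p)) ≠ ⊤ := by
  have hpp : p.Prime := Fact.out
  constructor
  · obtain ⟨e₀, he₀⟩ : ∃ e₀ : Heis 1 p ≃* ↥((hqd p).range), ∀ x, ((e₀ x : ↥((hqd p).range)) :
        ↥(Cfsg.qd p)) = hqd p x := ⟨MonoidHom.ofInjective (hqd_inj p), fun x => rfl⟩
    have hT'c := char_comap e₀ T₀ hTc
    have hT' : T₀.comap e₀.toMonoidHom ≠ ⊥ := by
      obtain ⟨⟨t, ht⟩, ht1⟩ := Subgroup.ne_bot_iff_exists_ne_one.mp hT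
      have ht1' : t ≠ 1 := fun h => ht1 (Subtype.ext h)
      intro hb
      have hm : e₀.symm t ∈ T₀.comap e₀.toMonoidHom := by
        rw [Subgroup.mem_comap, MulEquiv.coe_toMonoidHom, MulEquiv.apply_symm_apply]; exact ht
      rw [hb, Subgroup.mem_bot] at hm
      apply ht1'
      have := congrArg e₀ hm
      rw [MulEquiv.apply_symm_apply, map_one] at this
      exact this
    have mapeq : ∀ y : ↥(Cfsg.qd p), y ∈ T₀.map (hqd p).range.subtype ↔
        ∃ x ∈ T₀.comap e₀.toMonoidHom, hqd p x = y := by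
      intro y
      constructor
      · rintro ⟨t, ht, rfl⟩
        refine ⟨e₀.symm t, ?_, ?_⟩
        · rw [Subgroup.mem_comap, MulEquiv.coe_toMonoidHom, MulEquiv.apply_symm_apply]; exact ht
        · rw [← he₀, MulEquiv.apply_symm_apply]; rfl
      · rintro ⟨x, hx, rfl⟩
        exact ⟨e₀ x, hx, he₀ x⟩
    rcases char_class _ hT' hT'c with htop | ⟨hcen, hcase⟩
    · have : T₀.map (hqd p).range.subtype = (hqd p).range := by
        ext y
        rw [mapeq, htop]
        constructor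
        · rintro ⟨x, _, rfl⟩; exact ⟨x, rfl⟩
        · rintro ⟨x, rfl⟩; exact ⟨x, Subgroup.mem_top _, rfl⟩
      rw [this]
    · apply le_antisymm
      · intro g hg
        apply upper_norm
        rw [Subgroup.mem_normalizer_iff] at hg
        have hz : hqd p ⟨0, 0, 1⟩ ∈ T₀.map (hqd p).range.subtype := by
          rw [mapeq]
          refine ⟨⟨0, 0, 1⟩, hcen _ ?_, rfl⟩
          rw [heis_center]; exact ⟨rfl, rfl⟩
        obtain ⟨x, hxT, hx⟩ := (mapeq _).mp ((hg _).mp hz)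
        have hx0 : x.a 0 = 0 ∧ x.b 0 = 0 := by
          rcases hcase with hc | ⟨hp2, hab⟩
          · exact (heis_center x).mp (hc x hxT)
          · have hab' := hab x hxT
            subst hp2
            have hxx : x * x = 1 := by
              apply hqd_inj 2
              rw [map_mul, hx, map_one]
              have e : g * hqd 2 ⟨0, 0, 1⟩ * g⁻¹ * (g * hqd 2 ⟨0, 0, 1⟩ * g⁻¹)
                  = g * (hqd 2 ⟨0, 0, 1⟩ * hqd 2 ⟨0, 0, 1⟩) * g⁻¹ := by group
              rw [e, ← map_mul]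
              have e2 : (⟨0, 0, 1⟩ : Heis 1 2) * ⟨0, 0, 1⟩ = 1 := by
                ext1
                · simp
                · simp
                · simp [dotProduct]; exact CharTwo.add_self_eq_zero _
              rw [e2, map_one, mul_one, mul_inv_cancel]
            have hc := congrArg Heis.c hxx
            simp only [Heis.mul_c, Heis.one_c, dotProduct, Finset.univ_unique,
              Finset.sum_singleton, Fin.default_eq_zero] at hc
            rw [CharTwo.add_self_eq_zero, zero_add, ← hab'] at hc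
            have ha0 : x.a 0 = 0 := by
              rcases mul_eq_zero.mp hc with h | h <;> exact h
            exact ⟨ha0, by rw [← hab']; exact ha0⟩
        have hx' : x = ⟨0, 0, x.c⟩ := by
          ext1
          · ext i; rw [Fin.eq_zero i]; exact hx0.1
          · ext i; rw [Fin.eq_zero i]; exact hx0.2
          · rfl
        rw [hx'] at hx
        exact upper_of_conj g x.c hx.symm
      · exact norm_le_norm_char _ T₀ hTc
  · intro htop
    have h1 : gL p ∈ Subgroup.normalizer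
        (((hqd p).range : Subgroup ↥(Cfsg.qd p)) : Set ↥(Cfsg.qd p)) := by
      rw [htop]; exact Subgroup.mem_top _
    have h2 := normS0_upper _ h1
    rw [gL_ent] at h2
    exact one_ne_zero h2

theorem main (S : Sylow p ↥(Cfsg.qd p)) (T : Subgroup ↥(S : Subgroup ↥(Cfsg.qd p)))
    (hT : T ≠ ⊥) (hTc : T.Characteristic) :
    Subgroup.normalizer ((T.map (S : Subgroup ↥(Cfsg.qd p)).subtype : Subgroup ↥(Cfsg.qd p)) :
        Set ↥(Cfsg.qd p)) =
      Subgroup.normalizer ((S : Subgroup ↥(Cfsg.qd p)) : Set ↥(Cfsg.qd p)) ∧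
    Subgroup.normalizer ((S : Subgroup ↥(Cfsg.qd p)) : Set ↥(Cfsg.qd p)) ≠ ⊤ := by
  have hR : Nat.card (hqd p).range = p ^ 3 := by
    rw [← Nat.card_congr (MonoidHom.ofInjective (hqd_inj p)).toEquiv, Heis.card_eq]
  have hRp : IsPGroup p (hqd p).range := IsPGroup.of_card hR
  obtain ⟨Q, hQ⟩ := hRp.exists_le_sylow
  have hQc : Nat.card Q = p ^ 3 := by
    apply Nat.dvd_antisymm (pgroup_card_dvd p Q Q.isPGroup')
    rw [← hR]
    exact Subgroup.card_dvd_of_le hQ
  have hQR : (hqd p).range = (Q : Subgroup ↥(Cfsg.qd p)) := by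
    apply Subgroup.eq_of_le_of_card_ge hQ
    rw [hR]; exact hQc.le
  obtain ⟨c, hc⟩ := MulAction.exists_smul_eq ↥(Cfsg.qd p) Q S
  have hmem : ∀ y : ↥(Cfsg.qd p), y ∈ (S : Subgroup ↥(Cfsg.qd p)) ↔
      c⁻¹ * y * c ∈ (hqd p).range := by
    intro y
    rw [← hc, Cfsg.Agent.Lib.Helper6.SylowConj.mem_smul_sylow, hQR]
  let κ : ↥((hqd p).range) ≃* ↥(S : Subgroup ↥(Cfsg.qd p)) :=
    { toFun := fun x => ⟨c * x * c⁻¹, (hmem _).mpr (by
        have e : c⁻¹ * (c * (x : ↥(Cfsg.qd p)) * c⁻¹) * c = x := by group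
        rw [e]; exact x.2)⟩
      invFun := fun y => ⟨c⁻¹ * y * c, (hmem _).mp y.2⟩
      left_inv := fun x => by apply Subtype.ext; simp; group
      right_inv := fun y => by apply Subtype.ext; simp; group
      map_mul' := fun x y => by apply Subtype.ext; simp }
  have hκ : ∀ x, ((κ x : ↥(S : Subgroup ↥(Cfsg.qd p))) : ↥(Cfsg.qd p)) = c * x * c⁻¹ := fun x => rfl
  have hκs : ∀ y, ((κ.symm y : ↥((hqd p).range)) : ↥(Cfsg.qd p)) = c⁻¹ * y * c := fun y => rfl
  have hT₀c := char_comap κ T hTc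
  have hT₀ : T.comap κ.toMonoidHom ≠ ⊥ := by
    obtain ⟨⟨t, ht⟩, ht1⟩ := Subgroup.ne_bot_iff_exists_ne_one.mp hT
    have ht1' : t ≠ 1 := fun h => ht1 (Subtype.ext h)
    intro hb
    have hm : κ.symm t ∈ T.comap κ.toMonoidHom := by
      rw [Subgroup.mem_comap, MulEquiv.coe_toMonoidHom, MulEquiv.apply_symm_apply]; exact ht
    rw [hb, Subgroup.mem_bot] at hm
    apply ht1'
    have := congrArg κ hm
    rw [MulEquiv.apply_symm_apply, map_one] at this
    exact this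
  have hmap : ∀ y : ↥(Cfsg.qd p), y ∈ T.map (S : Subgroup ↥(Cfsg.qd p)).subtype ↔
      c⁻¹ * y * c ∈ (T.comap κ.toMonoidHom).map (hqd p).range.subtype := by
    intro y
    constructor
    · rintro ⟨t, ht, rfl⟩
      refine ⟨κ.symm t, Subgroup.mem_comap.mpr ?_, hκs t⟩
      rw [MulEquiv.coe_toMonoidHom, MulEquiv.apply_symm_apply]; exact ht
    · rintro ⟨x, hx, hxe⟩
      refine ⟨κ x, hx, ?_⟩
      show c * (x : ↥(Cfsg.qd p)) * c⁻¹ = y
      have : (x : ↥(Cfsg.qd p)) = c⁻¹ * y * c := hxe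
      rw [this]; group
  obtain ⟨r1, r2⟩ := S0_result _ hT₀ hT₀c
  constructor
  · ext y
    rw [norm_conj _ _ c hmap, norm_conj _ _ c hmem, r1]
  · intro htop
    apply r2
    rw [eq_top_iff]
    intro y _
    have h1 : c * y * c⁻¹ ∈ Subgroup.normalizer ((S : Subgroup ↥(Cfsg.qd p)) : Set ↥(Cfsg.qd p)) := by
      rw [htop]; exact Subgroup.mem_top _
    rw [norm_conj _ _ c hmem] at h1
    have e : c⁻¹ * (c * y * c⁻¹) * c = y := by group
    rw [e] at h1
    exact h1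

end assembly

/-- In the group Qd(p) (p prime; the natural semidirect product of an elementary abelian group of order p² by SL₂(p)), the normalizer of every nontrivial characteristic subgroup of a Sylow p-subgroup S equals the normalizer of S, which is a proper subgroup; in particular no such characteristic subgroup is normal. -/
theorem result {p : ℕ} [Fact p.Prime] (S : Sylow p ↥(Cfsg.qd p)) (T : Subgroup ↥(S : Subgroup ↥(Cfsg.qd p))) (hT : T ≠ ⊥) (hTc : T.Characteristic) : Subgroup.normalizer ((T.map (S : Subgroup ↥(Cfsg.qd p)).subtype : Subgroup ↥(Cfsg.qd p)) : Set ↥(Cfsg.qd p)) = Subgroup.normalizer ((S : Subgroup ↥(Cfsg.qd p)) : Set ↥(Cfsg.qd p)) ∧ Subgroup.normalizer ((S : Subgroup ↥(Cfsg.qd p)) : Set ↥(Cfsg.qd p)) ≠ ⊤ := by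
  exact main S T hT hTc

end Cfsg.Agent.S2763
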