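import Cfsg.Statements.S2898
import Mathlib
import Cfsg.Agent.S0068
import Cfsg.Agent.S0542
import Cfsg.Agent.Lib.Helper2.Local
import Cfsg.Agent.Lib.Helper3.Core
import Cfsg.Agent.Lib.Helper5.PCore

set_option autoImplicit false
open Cfsg

namespace Cfsg.Agent.S2898

theorem cent_zpowers {G : Type*} [Group G] (u : G) :
    Subgroup.centralizer ((Subgroup.zpowers u : Subgroup G) : Set G) =
      Subgroup.centralizer ({u} : Set G) := by
  apply le_antisymm
  · apply Subgroup.centralizer_le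
    intro x hx
    rw [Set.mem_singleton_iff] at hx
    rw [hx]; exact Subgroup.mem_zpowers u
  · intro x hx
    rw [Subgroup.mem_centralizer_iff] at hx ⊢
    intro y hy
    obtain ⟨k, rfl⟩ := Subgroup.mem_zpowers_iff.1 hy
    have h1 : Commute u x := hx u (Set.mem_singleton u)
    exact (h1.zpow_left k).eq

open Cfsg.Agent.Lib.Helper5.PCore in
theorem odd_trivial {G : Type*} [Group G] [Finite G]
    (hG : Cfsg.IsOfParabolicCharacteristic 2 G)
    (K : Subgroup G) [K.Normal] (hK : (Nat.card K).Coprime 2)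
    (R : Subgroup G) (hR : IsPGroup 2 R) (hR1 : R ≠ ⊥)
    (hpar : Cfsg.IsParabolic 2 (Subgroup.normalizer (R : Set G))) :
    K ⊓ Subgroup.normalizer (R : Set G) = ⊥ := by
  have hc := hG R hR hR1 hpar
  set N := Subgroup.normalizer (R : Set G) with hN
  set Q := Cfsg.pCore 2 ↥N with hQ
  have hQn : Q.Normal := pCore_normal_thm 2 _
  have hQp : IsPGroup 2 Q := pCore_isPGroup 2 _
  set X := K.subgroupOf N with hX
  have hXn : X.Normal := Subgroup.Normal.subgroupOf inferInstance N
  have hdisj : Disjoint X Q := by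
    rw [Subgroup.disjoint_def]
    intro x hxX hxQ
    have h1 : orderOf (x : G) ∣ Nat.card K :=
      Subgroup.orderOf_dvd_natCard K (Subgroup.mem_subgroupOf.1 hxX)
    obtain ⟨k, hk⟩ := hQp ⟨x, hxQ⟩
    have h2 : x ^ (2 ^ k) = 1 := by simpa using congrArg Subtype.val hk
    have h3 : orderOf x ∣ 2 ^ k := orderOf_dvd_of_pow_eq_one h2
    rw [Subgroup.orderOf_coe] at h1
    have h4 : orderOf x = 1 :=
      Nat.Coprime.eq_one_of_dvd
        (Nat.Coprime.pow_right k (Nat.Coprime.coprime_dvd_left h1 hK)) h3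
    exact orderOf_eq_one_iff.1 h4
  have hXQ : X ≤ Subgroup.normalizer (Q : Set ↥N) := by
    rw [Subgroup.normalizer_eq_top]; exact le_top
  have hQX : Q ≤ Subgroup.normalizer (X : Set ↥N) := by
    rw [Subgroup.normalizer_eq_top]; exact le_top
  have hcomm : ⁅X, Q⁆ = ⊥ := Cfsg.Agent.Lib.Helper2.Local.comm_of_normal_disjoint hXQ hQX hdisj
  have hXC : X ≤ Subgroup.centralizer (Q : Set ↥N) :=
    Subgroup.commutator_eq_bot_iff_le_centralizer.1 hcomm
  have hXbot : X = ⊥ := by
    rw [eq_bot_iff]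
    intro x hx
    exact (Subgroup.disjoint_def.1 hdisj) hx (hc (hXC hx))
  rw [hX, Subgroup.subgroupOf_eq_bot] at hXbot
  exact disjoint_iff.1 hXbot

theorem result {G : Type*} [Group G] [Finite G] (h2 : 2 ∣ Nat.card G) (hG : Cfsg.IsOfParabolicCharacteristic 2 G) [hN : (Cfsg.oddCore G).Normal] (hZ : Subgroup.center (G ⧸ Cfsg.oddCore G) = ⊥) : Cfsg.oddCore G = ⊥ := by
  classical
  set K := Cfsg.oddCore G with hK
  have hKodd : (Nat.card K).Coprime 2 := Cfsg.Agent.Lib.Helper2.Local.pPrimeCore_coprime 2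
  obtain ⟨S⟩ : Nonempty (Sylow 2 G) := inferInstance
  have hS1 : (S : Subgroup G) ≠ ⊥ := S.ne_bot_of_dvd_card h2
  have hD : (Subgroup.centralizer (K : Set G)).Normal := inferInstance
  set D := Subgroup.centralizer (K : Set G) with hDdef
  by_cases hT : (S : Subgroup G) ⊓ D = ⊥
  · exfalso
    have hcard := Cfsg.Agent.S0542.card_sylow_inf_normal S D
    rw [hT, Subgroup.card_bot] at hcard
    have hDodd : (Nat.card D).Coprime 2 := by
      rw [Nat.coprime_comm, Nat.Prime.coprime_iff_not_dvd Nat.prime_two]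
      intro hdvd
      have h3 : 0 < (Nat.card D).factorization 2 :=
        Nat.Prime.factorization_pos_of_dvd Nat.prime_two Nat.card_pos.ne' hdvd
      have : 2 ≤ 2 ^ (Nat.card D).factorization 2 := Nat.le_self_pow h3.ne' 2
      omega
    have hDK : D ≤ K := Cfsg.Agent.Lib.Helper3.Core.le_pPrimeCore D hD hDodd
    obtain ⟨z, hzS, hzc, hz2⟩ : ∃ z : G, z ∈ (S : Subgroup G) ∧
        z ∈ Subgroup.centralizer ((S : Subgroup G) : Set G) ∧ orderOf z = 2 := by
      have hnt : Nontrivial ↥(S : Subgroup G) := (Subgroup.nontrivial_iff_ne_bot _).2 hS1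
      have hcn : Nontrivial (Subgroup.center ↥(S : Subgroup G)) := S.isPGroup'.center_nontrivial
      have hcp : IsPGroup 2 (Subgroup.center ↥(S : Subgroup G)) :=
        S.isPGroup'.to_subgroup _
      obtain ⟨n, hn, hcn2⟩ := hcp.nontrivial_iff_card.1 hcn
      have hdvd : 2 ∣ Nat.card (Subgroup.center ↥(S : Subgroup G)) := by
        rw [hcn2]; exact dvd_pow_self 2 hn.ne'
      obtain ⟨x, hx⟩ := exists_prime_orderOf_dvd_card' 2 hdvd
      refine ⟨((x : ↥(S : Subgroup G)) : G), (x : ↥(S : Subgroup G)).2, ?_, ?_⟩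
      · rw [Subgroup.mem_centralizer_iff]
        intro s hs
        have h1 := (Subgroup.mem_center_iff.1 x.2) ⟨s, hs⟩
        exact congrArg Subtype.val h1
      · rw [Subgroup.orderOf_coe, Subgroup.orderOf_coe]; exact hx
    have hzz : z * z = 1 := by
      have h0 := pow_orderOf_eq_one z
      rw [hz2, pow_two] at h0
      exact h0
    have hzi : z⁻¹ = z := inv_eq_of_mul_eq_one_left hzz
    have hRp : IsPGroup 2 (Subgroup.zpowers z) :=
      IsPGroup.of_card (n := 1) (by rw [Nat.card_zpowers, hz2, pow_one])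
    have hR1 : Subgroup.zpowers z ≠ ⊥ := by
      intro h
      have h1 : z ∈ Subgroup.zpowers z := Subgroup.mem_zpowers z
      rw [h, Subgroup.mem_bot] at h1
      rw [h1, orderOf_one] at hz2
      omega
    have hCN : Subgroup.centralizer ({z} : Set G) ≤
        Subgroup.normalizer ((Subgroup.zpowers z : Subgroup G) : Set G) := by
      rw [← cent_zpowers]; exact Subgroup.centralizer_le_normalizer _
    have hpar : Cfsg.IsParabolic 2
        (Subgroup.normalizer ((Subgroup.zpowers z : Subgroup G) : Set G)) := by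
      refine ⟨S, le_trans ?_ hCN⟩
      intro s hs
      refine Subgroup.mem_centralizer_iff.2 ?_
      intro y hy
      rw [Set.mem_singleton_iff] at hy
      rw [hy]
      exact ((Subgroup.mem_centralizer_iff.1 hzc) s hs).symm
    have h0 := odd_trivial hG K hKodd _ hRp hR1 hpar
    have hfix : K ⊓ Subgroup.centralizer ({z} : Set G) = ⊥ := by
      rw [eq_bot_iff, ← h0]; exact inf_le_inf_left K hCN
    have hinv := Cfsg.Agent.S0068.inverts K z hzz hfix
    have hinv' : ∀ k ∈ K, z⁻¹ * k * z = k⁻¹ := by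
      intro k hk
      have h1 := hinv k hk
      rw [hzi] at h1 ⊢
      exact h1
    have hzg : ∀ g : G, z * g * z⁻¹ * g⁻¹ ∈ D := by
      intro g
      refine Subgroup.mem_centralizer_iff.2 ?_
      intro k hk
      have hk'' : g⁻¹ * k⁻¹ * g ∈ K :=
        Subgroup.Normal.conj_mem' inferInstance k⁻¹ (K.inv_mem hk) g
      calc k * (z * g * z⁻¹ * g⁻¹) = z * (z⁻¹ * k * z) * g * z⁻¹ * g⁻¹ := by group
        _ = z * k⁻¹ * g * z⁻¹ * g⁻¹ := by rw [hinv' k hk]
        _ = z * g * z⁻¹ * (z * (g⁻¹ * k⁻¹ * g) * z⁻¹) * g⁻¹ := by group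
        _ = z * g * z⁻¹ * (g⁻¹ * k⁻¹ * g)⁻¹ * g⁻¹ := by rw [hinv _ hk'']
        _ = z * g * z⁻¹ * g⁻¹ * k := by group
    have hzg' : ∀ g : G, z⁻¹ * g * z⁻¹⁻¹ * g⁻¹ ∈ D := by
      intro g
      rw [hzi]
      exact hzg g
    have hcen : (QuotientGroup.mk z : G ⧸ K) ∈ Subgroup.center (G ⧸ K) := by
      rw [Subgroup.mem_center_iff]
      intro q
      obtain ⟨g, rfl⟩ := QuotientGroup.mk_surjective q
      rw [← QuotientGroup.mk_mul, ← QuotientGroup.mk_mul, QuotientGroup.eq]
      have e : (g * z)⁻¹ * (z * g) = z⁻¹ * g⁻¹ * z⁻¹⁻¹ * g⁻¹⁻¹ := by group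
      rw [e]
      exact hDK (hzg' g⁻¹)
    rw [hZ, Subgroup.mem_bot, QuotientGroup.eq_one_iff] at hcen
    have h4 : orderOf z ∣ Nat.card K := Subgroup.orderOf_dvd_natCard K hcen
    rw [hz2] at h4
    have h5 := Nat.Coprime.eq_one_of_dvd hKodd.symm h4
    omega
  · have hTp : IsPGroup 2 ((S : Subgroup G) ⊓ D : Subgroup G) := S.isPGroup'.to_le inf_le_left
    have hpar : Cfsg.IsParabolic 2
        (Subgroup.normalizer (((S : Subgroup G) ⊓ D : Subgroup G) : Set G)) := by
      refine ⟨S, ?_⟩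
      intro s hs
      rw [Subgroup.mem_normalizer_iff]
      intro x
      constructor
      · rintro ⟨hx1, hx2⟩
        exact ⟨Subgroup.mul_mem _ (Subgroup.mul_mem _ hs hx1) (Subgroup.inv_mem _ hs),
          hD.conj_mem x hx2 s⟩
      · rintro ⟨hx1, hx2⟩
        refine ⟨?_, ?_⟩
        · have e : x = s⁻¹ * (s * x * s⁻¹) * s := by group
          rw [e]
          exact Subgroup.mul_mem _ (Subgroup.mul_mem _ (Subgroup.inv_mem _ hs) hx1) hs
        · have h1 := hD.conj_mem _ hx2 s⁻¹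
          have e : s⁻¹ * (s * x * s⁻¹) * s⁻¹⁻¹ = x := by group
          rwa [e] at h1
    have h0 := odd_trivial hG K hKodd _ hTp hT hpar
    rw [eq_bot_iff, ← h0]
    refine le_inf le_rfl ?_
    refine le_trans ?_ (Subgroup.centralizer_le_normalizer _)
    rw [Subgroup.le_centralizer_iff]
    exact inf_le_right

end Cfsg.Agent.S2898
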