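import Cfsg.Statements.S2904
import Mathlib

set_option autoImplicit false
open Cfsg

namespace Cfsg.Agent.S2904

open Polynomial

noncomputable def cyc (n a : ℕ) : ℤ := eval (a : ℤ) (cyclotomic n ℤ)

theorem cyc_real (n a : ℕ) : eval (a : ℝ) (cyclotomic n ℝ) = ((cyc n a : ℤ) : ℝ) := by
  have h := eval_intCast_map (Int.castRingHom ℝ) (cyclotomic n ℤ) (a : ℤ)
  rw [map_cyclotomic_int, Int.cast_id, Int.cast_natCast, eq_intCast] at h
  exact h

theorem cyc_zmod (n a r : ℕ) :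
    eval (a : ZMod r) (cyclotomic n (ZMod r)) = ((cyc n a : ℤ) : ZMod r) := by
  have h := eval_intCast_map (Int.castRingHom (ZMod r)) (cyclotomic n ℤ) (a : ℤ)
  rw [map_cyclotomic_int, Int.cast_id, Int.cast_natCast, eq_intCast] at h
  exact h

theorem cyc_lower (n a : ℕ) (hn : 2 ≤ n) (ha : 2 ≤ a) :
    ((a : ℤ) - 1) ^ n.totient < cyc n a := by
  have ha' : (1 : ℝ) < (a : ℝ) := by exact_mod_cast (show 1 < a from ha)
  have h := sub_one_pow_totient_lt_cyclotomic_eval (n := n) (q := (a : ℝ)) hn ha'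
  rw [cyc_real] at h
  exact_mod_cast h

theorem cyc_upper (n a : ℕ) (hn : 3 ≤ n) (ha : 2 ≤ a) :
    cyc n a < ((a : ℤ) + 1) ^ n.totient := by
  have ha' : (1 : ℝ) < (a : ℝ) := by exact_mod_cast (show 1 < a from ha)
  have h := cyclotomic_eval_lt_add_one_pow_totient (n := n) (q := (a : ℝ)) hn ha'
  rw [cyc_real] at h
  exact_mod_cast h

theorem cyc_dvd (n a : ℕ) : cyc n a ∣ (a : ℤ) ^ n - 1 := by
  have h := eval_dvd (x := (a : ℤ)) (cyclotomic.dvd_X_pow_sub_one n ℤ)
  simpa [cyc] using h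

theorem cyc_mul_dvd (n d a : ℕ) (hd : d ∈ n.properDivisors) :
    ((a : ℤ) ^ d - 1) * cyc n a ∣ (a : ℤ) ^ n - 1 := by
  have h := eval_dvd (x := (a : ℤ)) (X_pow_sub_one_mul_cyclotomic_dvd_X_pow_sub_one_of_dvd ℤ hd)
  simpa [cyc] using h

theorem prim_of_not_dvd (n a r : ℕ) (hr : r.Prime) (hrN : (r : ℤ) ∣ cyc n a) (hrn : ¬ r ∣ n)
    (k : ℕ) (hk0 : 0 < k) (hkn : k < n) (ha : 1 ≤ a) : ¬ r ∣ a ^ k - 1 := by
  haveI : Fact r.Prime := ⟨hr⟩
  haveI : NeZero ((n : ℕ) : ZMod r) := ⟨by rw [Ne, ZMod.natCast_eq_zero_iff]; exact hrn⟩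
  have hroot : (cyclotomic n (ZMod r)).IsRoot (a : ZMod r) := by
    rw [IsRoot.def, cyc_zmod]
    exact (ZMod.intCast_zmod_eq_zero_iff_dvd _ _).2 hrN
  have hprim := isRoot_cyclotomic_iff.1 hroot
  intro hdvd
  have h1 : ((a ^ k - 1 : ℕ) : ZMod r) = 0 := (ZMod.natCast_eq_zero_iff _ _).2 hdvd
  rw [Nat.cast_sub (Nat.one_le_pow _ _ ha), Nat.cast_pow, Nat.cast_one, sub_eq_zero] at h1
  exact hprim.pow_ne_one_of_pos_of_lt hk0.ne' hkn h1

theorem order_of_dvd (n a r e m : ℕ) (hr : r.Prime) (hrN : (r : ℤ) ∣ cyc n a)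
    (hn : n = r ^ e * m) (he : 0 < e) (hm : ¬ r ∣ m) (ha : 1 ≤ a) :
    m ∣ r - 1 ∧ r ∣ a ^ m - 1 := by
  haveI : Fact r.Prime := ⟨hr⟩
  haveI : NeZero ((m : ℕ) : ZMod r) := ⟨by rw [Ne, ZMod.natCast_eq_zero_iff]; exact hm⟩
  have hm0 : m ≠ 0 := by rintro rfl; exact hm (dvd_zero r)
  have hroot : (cyclotomic n (ZMod r)).IsRoot (a : ZMod r) := by
    rw [IsRoot.def, cyc_zmod]
    exact (ZMod.intCast_zmod_eq_zero_iff_dvd _ _).2 hrN
  rw [hn, cyclotomic_mul_prime_pow_eq (ZMod r) hm he] at hroot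
  have hroot' : (cyclotomic m (ZMod r)).IsRoot (a : ZMod r) := by
    rw [IsRoot.def, eval_pow] at hroot
    exact eq_zero_of_pow_eq_zero hroot
  have hprim := isRoot_cyclotomic_iff.1 hroot'
  have ha0 : (a : ZMod r) ≠ 0 := by
    intro h0
    have h1 := hprim.pow_eq_one
    rw [h0, zero_pow hm0] at h1
    exact zero_ne_one h1
  refine ⟨hprim.dvd_of_pow_eq_one _ (ZMod.pow_card_sub_one_eq_one ha0), ?_⟩
  rw [← ZMod.natCast_eq_zero_iff, Nat.cast_sub (Nat.one_le_pow _ _ ha), Nat.cast_pow,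
    Nat.cast_one, hprim.pow_eq_one, sub_self]

theorem not_sq_dvd (n a r e m : ℕ) (N : ℕ) (hN : (N : ℤ) = cyc n a) (hr : r.Prime)
    (hn3 : 3 ≤ n) (hn : n = r ^ e * m) (he : 0 < e) (hm : ¬ r ∣ m) (hm1 : m ∣ r - 1)
    (ham : r ∣ a ^ m - 1) (ha : 2 ≤ a) : ¬ r ^ 2 ∣ N := by
  haveI : Fact r.Prime := ⟨hr⟩
  have hm0 : m ≠ 0 := by rintro rfl; exact hm (dvd_zero r)
  have hr2 := hr.two_le
  obtain ⟨d, hd⟩ : ∃ d : ℕ, d = r ^ (e - 1) * m := ⟨_, rfl⟩
  have hnd : n = d * r := by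
    rw [hn, hd]
    obtain ⟨e', rfl⟩ : ∃ e', e = e' + 1 := ⟨e - 1, by omega⟩
    rw [Nat.add_sub_cancel, pow_succ]; ring
  have hd0 : 0 < d := by
    rw [hd]; exact Nat.mul_pos (pow_pos hr.pos _) (Nat.pos_of_ne_zero hm0)
  have hdprop : d ∈ n.properDivisors := by
    rw [Nat.mem_properDivisors]
    refine ⟨⟨r, hnd⟩, ?_⟩
    rw [hnd]; nlinarith
  obtain ⟨b, hb⟩ : ∃ b : ℕ, b = a ^ d := ⟨_, rfl⟩
  have hb2 : 2 ≤ b := by
    rw [hb]
    calc 2 ≤ a := ha
      _ = a ^ 1 := (pow_one a).symm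
      _ ≤ a ^ d := Nat.pow_le_pow_right (by omega) hd0
  have hbr : 2 ≤ b ^ r := by
    calc 2 ≤ b := hb2
      _ = b ^ 1 := (pow_one b).symm
      _ ≤ b ^ r := Nat.pow_le_pow_right (by omega) (by omega)
  have hdvd : (b - 1) * N ∣ b ^ r - 1 := by
    have h1 := cyc_mul_dvd n d a hdprop
    have h2 : (((b - 1) * N : ℕ) : ℤ) = ((a : ℤ) ^ d - 1) * cyc n a := by
      rw [Nat.cast_mul, Nat.cast_sub (by omega), hN, hb]; push_cast; ring
    have h3 : ((b ^ r - 1 : ℕ) : ℤ) = (a : ℤ) ^ n - 1 := by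
      rw [Nat.cast_sub (by omega), hb, hnd]; push_cast; ring
    rw [← h2, ← h3] at h1
    exact Int.natCast_dvd_natCast.1 h1
  have hrb : r ∣ b - 1 := by
    have h1 : a ^ m - 1 ∣ a ^ d - 1 :=
      Nat.pow_sub_one_dvd_pow_sub_one a (by rw [hd]; exact Dvd.intro_left _ rfl)
    rw [hb]; exact ham.trans h1
  intro hsq
  rcases hr.eq_two_or_odd' with h2 | hodd
  · subst h2
    have hm1' : m = 1 := by
      have h3 : m ∣ 1 := hm1
      exact Nat.dvd_one.1 h3
    subst hm1'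
    have he2 : 2 ≤ e := by
      by_contra hlt
      have he1 : e = 1 := by omega
      rw [he1] at hn
      omega
    have h4 : N ∣ b + 1 := by
      have h5 : b ^ 2 - 1 = (b - 1) * (b + 1) := by
        obtain ⟨c, rfl⟩ : ∃ c, b = c + 1 := ⟨b - 1, by omega⟩
        have h6 : (c + 1) ^ 2 = (c + 1 - 1) * (c + 1 + 1) + 1 := by
          rw [Nat.add_sub_cancel]; ring
        omega
      rw [h5] at hdvd
      exact Nat.dvd_of_mul_dvd_mul_left (by omega) hdvd
    have h7 : 2 ^ 2 ∣ b + 1 := hsq.trans h4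
    obtain ⟨c, hc⟩ : ∃ c : ℕ, b = c * c := by
      refine ⟨a ^ (2 ^ (e - 2)), ?_⟩
      rw [hb, hd, ← pow_add, mul_one]
      congr 1
      obtain ⟨e', rfl⟩ : ∃ e', e = e' + 2 := ⟨e - 2, by omega⟩
      have h8 : e' + 2 - 1 = e' + 1 := by omega
      have h9 : e' + 2 - 2 = e' := by omega
      rw [h8, h9, pow_succ]; ring
    rw [hc] at h7
    have h10 : (c * c + 1) % 4 = 0 := Nat.mod_eq_zero_of_dvd (by simpa using h7)
    have h11 : c % 4 < 4 := Nat.mod_lt _ (by norm_num)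
    have h12 : (c * c + 1) % 4 = ((c % 4) * (c % 4) + 1) % 4 := by
      rw [Nat.add_mod, Nat.mul_mod, ← Nat.add_mod]
    rw [h12] at h10
    interval_cases (c % 4) <;> omega
  · have hnb : ¬ r ∣ b := by
      intro hrb'
      have h3 : r ∣ b - (b - 1) := Nat.dvd_sub hrb' hrb
      have h4 : b - (b - 1) = 1 := by omega
      rw [h4] at h3
      exact hr.one_lt.ne' (Nat.dvd_one.1 h3)
    have hlte := padicValNat.pow_sub_pow (p := r) (x := b) (y := 1) hodd (by omega)
      hrb hnb (n := r) (by omega)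
    rw [one_pow, padicValNat_self] at hlte
    have h5 : r ^ padicValNat r (b - 1) * r ^ 2 ∣ (b - 1) * N :=
      Nat.mul_dvd_mul pow_padicValNat_dvd hsq
    have h6 : r ^ (padicValNat r (b - 1) + 2) ∣ b ^ r - 1 := by
      rw [pow_add]; exact h5.trans hdvd
    have h7 := (padicValNat_dvd_iff_le (p := r) (by omega : b ^ r - 1 ≠ 0)).1 h6
    omega

theorem two_pow_gt (r : ℕ) (hr : 2 ≤ r) : r + 1 < 2 ^ r := by
  induction r, hr using Nat.le_induction with
  | base => norm_num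
  | succ k hk ih => rw [pow_succ]; omega

theorem two_pow_gt3 (r : ℕ) (hr : 4 ≤ r) : 3 * r + 1 ≤ 2 ^ r := by
  induction r, hr using Nat.le_induction with
  | base => norm_num
  | succ k hk ih => rw [pow_succ]; omega

theorem result (a n : ℕ) (ha : 1 < a) (hn : 1 < n) (h6 : ¬ (a = 2 ∧ n = 6)) (h2 : ¬ (n = 2 ∧ ∃ m : ℕ, a + 1 = 2 ^ m)) : ∃ r : ℕ, r.Prime ∧ r ∣ a ^ n - 1 ∧ ∀ k : ℕ, 0 < k → k < n → ¬ r ∣ a ^ k - 1 := by
  have ha1 : 1 ≤ a := by omega
  by_cases hn2 : n = 2
  · subst hn2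
    rcases Nat.eq_two_pow_or_exists_odd_prime_and_dvd (a + 1) with ⟨k, hk⟩ | ⟨r, hr, hrd, hodd⟩
    · exact absurd ⟨rfl, k, hk⟩ h2
    · refine ⟨r, hr, ?_, ?_⟩
      · have h1 : a ^ 2 - 1 = (a - 1) * (a + 1) := by
          obtain ⟨c, rfl⟩ : ∃ c, a = c + 1 := ⟨a - 1, by omega⟩
          have h6 : (c + 1) ^ 2 = (c + 1 - 1) * (c + 1 + 1) + 1 := by
            rw [Nat.add_sub_cancel]; ring
          omega
        rw [h1]; exact Dvd.dvd.mul_left hrd _
      · intro k hk0 hk2 hdvd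
        have hk1 : k = 1 := by omega
        subst hk1
        rw [pow_one] at hdvd
        have h3 : r ∣ (a + 1) - (a - 1) := Nat.dvd_sub hrd hdvd
        have h4 : (a + 1) - (a - 1) = 2 := by omega
        rw [h4] at h3
        have h5 : r = 2 := (Nat.prime_dvd_prime_iff_eq hr Nat.prime_two).1 h3
        rw [h5] at hodd
        exact absurd hodd (by decide)
  · have hn3 : 3 ≤ n := by omega
    by_contra hcon
    push Not at hcon
    have hlow := cyc_lower n a (by omega) ha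
    have hone : (1 : ℤ) ≤ ((a : ℤ) - 1) ^ n.totient := by
      apply one_le_pow₀
      have : (2 : ℤ) ≤ (a : ℤ) := by exact_mod_cast ha
      linarith
    obtain ⟨N, hN⟩ : ∃ N : ℕ, (N : ℤ) = cyc n a :=
      ⟨(cyc n a).toNat, Int.toNat_of_nonneg (by linarith)⟩
    have hN2 : 2 ≤ N := by
      have : (1 : ℤ) < (N : ℤ) := by rw [hN]; linarith
      exact_mod_cast this
    have hNdvd : N ∣ a ^ n - 1 := by
      have h1 : ((a ^ n - 1 : ℕ) : ℤ) = (a : ℤ) ^ n - 1 := by
        rw [Nat.cast_sub (Nat.one_le_pow _ _ ha1)]; push_cast; ring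
      apply Int.natCast_dvd_natCast.1
      rw [h1, hN]; exact cyc_dvd n a
    have hrn : ∀ r : ℕ, r.Prime → r ∣ N → r ∣ n := by
      intro r hr hrN
      by_contra hrn
      obtain ⟨k, hk0, hkn, hkd⟩ := hcon r hr (hrN.trans hNdvd)
      exact prim_of_not_dvd n a r hr (by rw [← hN]; exact Int.natCast_dvd_natCast.2 hrN) hrn k
        hk0 hkn ha1 hkd
    have hdec : ∀ r : ℕ, r.Prime → r ∣ N → ∃ e m : ℕ, 0 < e ∧ ¬ r ∣ m ∧ n = r ^ e * m ∧
        m ∣ r - 1 ∧ r ∣ a ^ m - 1 := by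
      intro r hr hrN
      obtain ⟨e, m, hm, hnem⟩ := Nat.exists_eq_pow_mul_and_not_dvd (by omega : n ≠ 0) r hr.ne_one
      have he : 0 < e := by
        rcases Nat.eq_zero_or_pos e with h0 | h0
        · exfalso
          rw [h0, pow_zero, one_mul] at hnem
          rw [← hnem] at hm
          exact hm (hrn r hr hrN)
        · exact h0
      obtain ⟨h1, h2⟩ := order_of_dvd n a r e m hr
        (by rw [← hN]; exact Int.natCast_dvd_natCast.2 hrN) hnem he hm ha1
      exact ⟨e, m, he, hm, hnem, h1, h2⟩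
    have huniq : ∀ r r' : ℕ, r.Prime → r ∣ N → r'.Prime → r' ∣ N → r' ≤ r := by
      intro r r' hr hrN hr' hr'N
      obtain ⟨e, m, he, hm, hnem, hm1, -⟩ := hdec r hr hrN
      by_contra hlt
      have hne : r' ≠ r := by omega
      have h1 : r' ∣ r ^ e * m := by rw [← hnem]; exact hrn r' hr' hr'N
      have hcop : Nat.Coprime r' (r ^ e) := Nat.Coprime.pow_right e ((Nat.coprime_primes hr' hr).2 hne)
      have h2 : r' ∣ r - 1 := (hcop.dvd_of_dvd_mul_left h1).trans hm1
      have h3 := Nat.le_of_dvd (by have := hr.two_le; omega) h2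
      omega
    obtain ⟨r, hr, hrN⟩ := Nat.exists_prime_and_dvd (by omega : N ≠ 1)
    have hNpow : N = r ^ N.primeFactorsList.length :=
      Nat.eq_prime_pow_of_unique_prime_dvd (by omega) (fun {d} hd hdN =>
        le_antisymm (huniq r d hr hrN hd hdN) (huniq d r hd hdN hr hrN))
    obtain ⟨e, m, he, hm, hnem, hm1, ham⟩ := hdec r hr hrN
    have hsq := not_sq_dvd n a r e m N hN hr hn3 hnem he hm hm1 ham ha
    have hNr : N = r := by
      obtain ⟨j, hj⟩ : ∃ j, N = r ^ j := ⟨_, hNpow⟩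
      rcases j with _ | _ | j
      · rw [pow_zero] at hj; omega
      · rw [hj]; simp
      · exfalso
        apply hsq
        rw [hj]; exact pow_dvd_pow r (by omega)
    have hcyc : cyc n a = (r : ℤ) := by rw [← hN, hNr]
    have hr2 := hr.two_le
    have hm0 : m ≠ 0 := by rintro rfl; exact hm (dvd_zero r)
    by_cases ha3 : 3 ≤ a
    · have h2 : r - 1 ≤ n.totient := by
        have h3 : r.totient ∣ n.totient := Nat.totient_dvd_of_dvd (hrn r hr hrN)
        rw [Nat.totient_prime hr] at h3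
        exact Nat.le_of_dvd (Nat.totient_pos.2 (by omega)) h3
      have h4 : (2 : ℤ) ^ (r - 1) ≤ ((a : ℤ) - 1) ^ n.totient := by
        have h3' : (3 : ℤ) ≤ (a : ℤ) := by exact_mod_cast ha3
        calc (2 : ℤ) ^ (r - 1) ≤ (2 : ℤ) ^ n.totient := pow_le_pow_right₀ (by norm_num) h2
          _ ≤ ((a : ℤ) - 1) ^ n.totient := pow_le_pow_left₀ (by norm_num) (by linarith) _
      have h5 : r ≤ 2 ^ (r - 1) := by
        have h6 := Nat.lt_two_pow_self (n := r - 1)
        omega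
      have h6 : (r : ℤ) ≤ (2 : ℤ) ^ (r - 1) := by exact_mod_cast h5
      rw [hcyc] at hlow
      linarith
    · have ha2 : a = 2 := by omega
      subst ha2
      have h2r : 2 ≤ 2 ^ r := by
        calc 2 = 2 ^ 1 := (pow_one 2).symm
          _ ≤ 2 ^ r := Nat.pow_le_pow_right (by norm_num) (by omega)
      by_cases he2 : 2 ≤ e
      · obtain ⟨d, hd⟩ : ∃ d : ℕ, d = r ^ (e - 1) * m := ⟨_, rfl⟩
        have hnd : n = d * r := by
          rw [hnem, hd]
          obtain ⟨e', rfl⟩ : ∃ e', e = e' + 1 := ⟨e - 1, by omega⟩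
          rw [Nat.add_sub_cancel, pow_succ]; ring
        have hrd : r ∣ d := by
          rw [hd]; exact Dvd.dvd.mul_right (dvd_pow_self r (by omega)) m
        have hd0 : 0 < d := by
          rw [hd]; exact Nat.mul_pos (pow_pos hr.pos _) (Nat.pos_of_ne_zero hm0)
        have hd2 : 2 ≤ d := hr2.trans (Nat.le_of_dvd hd0 hrd)
        have hexp := cyclotomic_expand_eq_cyclotomic hr hrd ℤ
        have h1 : cyc n 2 = cyc d (2 ^ r) := by
          unfold cyc
          rw [hnd, ← hexp, expand_eval]; push_cast; rfl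
        have h2' := cyc_lower d (2 ^ r) hd2 h2r
        have h3 : ((r : ℤ) + 1) < ((2 ^ r : ℕ) : ℤ) := by exact_mod_cast two_pow_gt r hr2
        have h4 : ((2 ^ r : ℕ) : ℤ) - 1 ≤ (((2 ^ r : ℕ) : ℤ) - 1) ^ d.totient :=
          le_self_pow₀ (by linarith [show (0 : ℤ) ≤ (r : ℤ) from by positivity])
            (Nat.totient_pos.2 hd0).ne'
        rw [← h1, hcyc] at h2'
        linarith
      · have he1 : e = 1 := by omega
        subst he1
        rw [pow_one] at hnem
        have hexp := cyclotomic_expand_eq_cyclotomic_mul hr hm ℤ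
        have h1 : cyc m (2 ^ r) = cyc n 2 * cyc m 2 := by
          unfold cyc
          have h9 := congrArg (eval (2 : ℤ)) hexp
          rw [expand_eval, eval_mul] at h9
          rw [hnem, mul_comm r m]; push_cast; exact h9
        rw [hcyc] at h1
        rcases (by omega : m = 1 ∨ m = 2 ∨ 3 ≤ m) with rfl | rfl | hm3
        · have e1 : ∀ x : ℕ, cyc 1 x = (x : ℤ) - 1 := fun x => by
            unfold cyc; rw [cyclotomic_one]; simp
          rw [e1, e1] at h1
          have h3 := two_pow_gt r hr2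
          have h4 : ((2 ^ r : ℕ) : ℤ) = ((r + 1 : ℕ) : ℤ) := by push_cast at h1 ⊢; linarith
          have h5 : 2 ^ r = r + 1 := by exact_mod_cast h4
          omega
        · have e2 : ∀ x : ℕ, cyc 2 x = (x : ℤ) + 1 := fun x => by
            unfold cyc; rw [cyclotomic_two]; simp
          rw [e2, e2] at h1
          have h4 : ((2 ^ r + 1 : ℕ) : ℤ) = ((3 * r : ℕ) : ℤ) := by push_cast at h1 ⊢; linarith
          have h5 : 2 ^ r + 1 = 3 * r := by exact_mod_cast h4
          by_cases hr4 : 4 ≤ r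
          · have h6' := two_pow_gt3 r hr4; omega
          · interval_cases r
            · norm_num at h5
            · exact h6 ⟨rfl, by rw [hnem]⟩
        · have hr4 : 4 ≤ r := by
            have h3 := Nat.le_of_dvd (by omega) hm1
            omega
          have hu := cyc_upper m 2 hm3 (le_refl 2)
          have hl := cyc_lower m (2 ^ r) (by omega) h2r
          rw [h1] at hl
          have h3 := two_pow_gt3 r hr4
          have hφ : 0 < m.totient := Nat.totient_pos.2 (by omega)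
          have hrpos : (0 : ℤ) < (r : ℤ) := by exact_mod_cast hr.pos
          have h5 : ((3 : ℤ) * r) ^ m.totient ≤ (((2 ^ r : ℕ) : ℤ) - 1) ^ m.totient := by
            apply pow_le_pow_left₀ (by positivity)
            have h8 : ((3 * r + 1 : ℕ) : ℤ) ≤ ((2 ^ r : ℕ) : ℤ) := by exact_mod_cast h3
            push_cast at h8 ⊢
            linarith
          have h6' : (r : ℤ) * 3 ^ m.totient ≤ ((3 : ℤ) * r) ^ m.totient := by
            rw [mul_pow]
            have h8 : (r : ℤ) ≤ (r : ℤ) ^ m.totient :=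
              le_self_pow₀ (by exact_mod_cast hr.one_lt.le) hφ.ne'
            have h9 : (0 : ℤ) < 3 ^ m.totient := by positivity
            nlinarith
          have h7 : (r : ℤ) * cyc m 2 < (r : ℤ) * 3 ^ m.totient := by
            have h8 : cyc m 2 < (3 : ℤ) ^ m.totient := by
              have h9 := hu
              norm_num at h9
              exact h9
            exact mul_lt_mul_of_pos_left h8 hrpos
          linarith

end Cfsg.Agent.S2904
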