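import Cfsg.Statements.S2907
import Mathlib
import Cfsg.Agent.Lib.Helper1.Inv

set_option autoImplicit false
open Cfsg

namespace Cfsg.Agent.S2907

theorem result {X : Type*} [Group X] [Finite X] {p : ℕ} [Fact p.Prime] (hX : Cfsg.IsSemiExtraspecial p X) (x : X) (hx : x ∉ Subgroup.center X) : (Subgroup.centralizer ({x} : Set X)).index = Nat.card ↥(Subgroup.center X) ∧ {z : X | ∃ y : X, z = x * y * x⁻¹ * y⁻¹} = (Subgroup.center X : Set X) := by
  classical
  obtain ⟨⟨hXp, -, hcomm⟩, hsemi⟩ := hX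
  have hcZ : ∀ y : X, x * y * x⁻¹ * y⁻¹ ∈ Subgroup.center X := by
    intro y
    rw [← hcomm, commutator_def, ← commutatorElement_def]
    exact Subgroup.commutator_mem_commutator (Subgroup.mem_top x) (Subgroup.mem_top y)
  obtain ⟨f, hf⟩ : ∃ f : X →* X, ∀ y, f y = x * y * x⁻¹ * y⁻¹ := by
    refine ⟨MonoidHom.mk' (fun y => x * y * x⁻¹ * y⁻¹) ?_, fun y => rfl⟩
    intro a b
    have h1 := Subgroup.mem_center_iff.mp (hcZ b) (a⁻¹)
    calc x * (a * b) * x⁻¹ * (a * b)⁻¹ = x * a * x⁻¹ * ((x * b * x⁻¹ * b⁻¹) * a⁻¹) := by group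
      _ = x * a * x⁻¹ * (a⁻¹ * (x * b * x⁻¹ * b⁻¹)) := by rw [h1]
      _ = x * a * x⁻¹ * a⁻¹ * (x * b * x⁻¹ * b⁻¹) := by group
  have hIZ : f.range ≤ Subgroup.center X := by
    rintro _ ⟨y, rfl⟩
    rw [hf]
    exact hcZ y
  have hZI : Subgroup.center X ≤ f.range := by
    by_contra hne
    have hne' : (f.range).subgroupOf (Subgroup.center X) ≠ ⊤ := by
      intro h
      apply hne
      intro z hz
      have : (⟨z, hz⟩ : Subgroup.center X) ∈ (f.range).subgroupOf (Subgroup.center X) := by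
        rw [h]
        trivial
      exact Subgroup.mem_subgroupOf.mp this
    obtain ⟨Y', hY'c, hY'le⟩ := (eq_top_or_exists_le_coatom _).resolve_left hne'
    obtain ⟨Y, hY⟩ : ∃ Y, Y = Y'.map (Subgroup.center X).subtype := ⟨_, rfl⟩
    have hYZ : Y ≤ Subgroup.center X := by
      rw [hY]
      rintro _ ⟨w, -, rfl⟩
      exact w.2
    have hYsub : Y.subgroupOf (Subgroup.center X) = Y' := by
      rw [hY]
      exact Subgroup.comap_map_eq_self_of_injective (Subgroup.subtype_injective _) Y'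
    obtain ⟨hYn, -, hYcard⟩ := hsemi Y hYZ (by rw [hYsub]; exact hY'c)
    haveI := hYn
    have hIY : ∀ y : X, x * y * x⁻¹ * y⁻¹ ∈ Y := by
      intro y
      have h1 : (⟨x * y * x⁻¹ * y⁻¹, hcZ y⟩ : Subgroup.center X) ∈
          (f.range).subgroupOf (Subgroup.center X) := by
        rw [Subgroup.mem_subgroupOf]
        exact ⟨y, hf y⟩
      have h2 := hY'le h1
      rw [hY]
      exact ⟨_, h2, rfl⟩
    have hxc : (x : X ⧸ Y) ∈ Subgroup.center (X ⧸ Y) := by
      rw [Subgroup.mem_center_iff]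
      intro g
      obtain ⟨y, rfl⟩ := QuotientGroup.mk_surjective g
      have h1 : ((x * y * x⁻¹ * y⁻¹ : X) : X ⧸ Y) = 1 := (QuotientGroup.eq_one_iff _).mpr (hIY y)
      rw [QuotientGroup.mk_mul, QuotientGroup.mk_mul, QuotientGroup.mk_mul, QuotientGroup.mk_inv,
        QuotientGroup.mk_inv] at h1
      have h2 := mul_inv_eq_one.mp h1
      exact (mul_inv_eq_iff_eq_mul.mp h2).symm
    obtain ⟨w, hw⟩ : ∃ w : Subgroup.center X, w ∉ Y' := by
      by_contra hcon
      push Not at hcon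
      exact hY'c.1 (eq_top_iff.mpr (fun w _ => hcon w))
    have hwY : (w : X) ∉ Y := by
      rw [hY]
      rintro ⟨w', hw', hww⟩
      have : w' = w := Subtype.ext hww
      rw [this] at hw'
      exact hw hw'
    have hwc : ((w : X) : X ⧸ Y) ∈ Subgroup.center (X ⧸ Y) := by
      rw [Subgroup.mem_center_iff]
      intro g
      obtain ⟨y, rfl⟩ := QuotientGroup.mk_surjective g
      rw [← QuotientGroup.mk_mul, ← QuotientGroup.mk_mul, Subgroup.mem_center_iff.mp w.2 y]
    have hg1 : (⟨((w : X) : X ⧸ Y), hwc⟩ : Subgroup.center (X ⧸ Y)) ≠ 1 := by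
      intro h
      apply hwY
      have h1 : ((w : X) : X ⧸ Y) = 1 := congrArg Subtype.val h
      exact (QuotientGroup.eq_one_iff _).mp h1
    have htop := zpowers_eq_top_of_prime_card hYcard hg1
    have hmem : (⟨(x : X ⧸ Y), hxc⟩ : Subgroup.center (X ⧸ Y)) ∈
        Subgroup.zpowers (⟨((w : X) : X ⧸ Y), hwc⟩ : Subgroup.center (X ⧸ Y)) := by
      rw [htop]
      trivial
    obtain ⟨k, hk⟩ := Subgroup.mem_zpowers_iff.mp hmem
    have hk' : (((w : X) ^ k : X) : X ⧸ Y) = (x : X ⧸ Y) := by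
      have := congrArg Subtype.val hk
      rw [QuotientGroup.mk_zpow]
      simpa using this
    have h3 : ((w : X) ^ k)⁻¹ * x ∈ Y := QuotientGroup.eq.mp hk'
    apply hx
    have h4 := Subgroup.mul_mem _ (Subgroup.zpow_mem _ w.2 k) (hYZ h3)
    rwa [mul_inv_cancel_left] at h4
  have hset : {z : X | ∃ y : X, z = x * y * x⁻¹ * y⁻¹} = (Subgroup.center X : Set X) := by
    ext z
    constructor
    · rintro ⟨y, rfl⟩
      exact hcZ y
    · intro hz
      obtain ⟨y, hy⟩ := hZI hz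
      exact ⟨y, by rw [← hy, hf]⟩
  refine ⟨?_, hset⟩
  have h1 := (Subgroup.centralizer ({x} : Set X)).card_mul_index
  have h2 := Cfsg.Agent.Lib.Helper1.card_eq_card_conj_mul_card_centralizer x
  have hpos : 0 < Nat.card (Subgroup.centralizer ({x} : Set X)) := Nat.card_pos
  have h3 : Nat.card (Subgroup.centralizer ({x} : Set X)) *
      (Subgroup.centralizer ({x} : Set X)).index =
      Nat.card (Subgroup.centralizer ({x} : Set X)) * Nat.card {u : X // IsConj x u} := by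
    rw [h1, h2, mul_comm]
  rw [Nat.eq_of_mul_eq_mul_left hpos h3]
  apply Nat.card_congr
  refine ⟨fun u => ⟨u.1 * x⁻¹, ?_⟩, fun z => ⟨z.1 * x, ?_⟩, fun u => ?_, fun z => ?_⟩
  · obtain ⟨c, hc⟩ := isConj_iff.mp u.2
    rw [← hc]
    have := Subgroup.inv_mem _ (hcZ c)
    have e : (x * c * x⁻¹ * c⁻¹)⁻¹ = c * x * c⁻¹ * x⁻¹ := by group
    rwa [e] at this
  · have hz : (z.1)⁻¹ ∈ Subgroup.center X := Subgroup.inv_mem _ z.2
    obtain ⟨y, hy⟩ := hZI hz
    rw [hf] at hy
    rw [isConj_iff]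
    refine ⟨y, ?_⟩
    have e : z.1 = (x * y * x⁻¹ * y⁻¹)⁻¹ := by rw [hy, inv_inv]
    rw [e]
    group
  · apply Subtype.ext
    show u.1 * x⁻¹ * x = u.1
    group
  · apply Subtype.ext
    show z.1 * x * x⁻¹ = z.1
    group

end Cfsg.Agent.S2907
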