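import Cfsg.Statements.S2908
import Mathlib
import Cfsg.Agent.S0028

set_option autoImplicit false
open Cfsg

namespace Cfsg.Agent.S2908

open scoped commutatorElement

theorem result {G : Type*} [Group G] [Finite G] {p : ℕ} [Fact p.Prime] (P A B : Subgroup G) (hP : IsPGroup p ↥P) (hA : IsPGroup p ↥A) (hB : ¬ p ∣ Nat.card ↥B) (hnA : A ≤ Subgroup.normalizer (P : Set G)) (hnB : B ≤ Subgroup.normalizer (P : Set G)) (hAB : ⁅A, B⁆ = ⊥) (hcomm : ⁅P, B⁆ ≤ ⁅P, A⁆) : ⁅P, B⁆ = ⊥ := by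
  have hcop : (Nat.card B).Coprime (Nat.card P) := by
    obtain ⟨k, hk⟩ := IsPGroup.iff_card.mp hP
    rw [hk]
    exact Nat.Coprime.pow_right _ ((Nat.Prime.coprime_iff_not_dvd Fact.out).mpr hB).symm
  have hsolv : Group.IsSolvable B ∨ Group.IsSolvable P := by
    right
    have := hP.isNilpotent
    infer_instance
  have hWW : ⁅⁅P, B⁆, B⁆ = ⁅P, B⁆ := Cfsg.Agent.S0027.result B P hnB hcop hsolv
  have hWP : ⁅P, B⁆ ≤ P := Cfsg.Agent.S0026.comm_le_of_normalizes B P hnB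
  have hPW : P ≤ Subgroup.normalizer ((⁅P, B⁆ : Subgroup G) : Set G) :=
    Cfsg.Agent.S0567.left_le_normalizer_commutator P B
  have hBW : B ≤ Subgroup.normalizer ((⁅P, B⁆ : Subgroup G) : Set G) :=
    Cfsg.Agent.S0567.right_le_normalizer_commutator P B
  have hAB' : A ≤ Subgroup.centralizer (B : Set G) :=
    Subgroup.commutator_eq_bot_iff_le_centralizer.mp hAB
  have hBA' : B ≤ Subgroup.centralizer (A : Set G) := by
    intro b hb
    rw [Subgroup.mem_centralizer_iff]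
    intro a ha
    exact (Subgroup.mem_centralizer_iff.mp (hAB' ha) b hb).symm
  have hAnB : A ≤ Subgroup.normalizer (B : Set G) :=
    hAB'.trans (Subgroup.centralizer_le_normalizer _)
  have hBnA : B ≤ Subgroup.normalizer (A : Set G) :=
    hBA'.trans (Subgroup.centralizer_le_normalizer _)
  have hAW : A ≤ Subgroup.normalizer ((⁅P, B⁆ : Subgroup G) : Set G) := fun a ha =>
    Cfsg.Agent.S0028.mem_normalizer_commutator P B a (hnA ha) (hAnB ha)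
  have hR : IsPGroup p ↥(P ⊔ A) := IsPGroup.to_sup_of_normal_left' hP hA hnA
  have hRW : P ⊔ A ≤ Subgroup.normalizer ((⁅P, B⁆ : Subgroup G) : Set G) := sup_le hPW hAW
  have hMW : ⁅⁅P, B⁆, P ⊔ A⁆ ≤ ⁅P, B⁆ :=
    Cfsg.Agent.S0026.comm_le_of_normalizes (P ⊔ A) ⁅P, B⁆ hRW
  have hPR : P ≤ Subgroup.normalizer ((P ⊔ A : Subgroup G) : Set G) :=
    le_sup_left.trans Subgroup.le_normalizer
  have hBR : B ≤ Subgroup.normalizer ((P ⊔ A : Subgroup G) : Set G) := fun b hb =>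
    Subgroup.normalizer_inf_normalizer_le_normalizer_sup P A (Subgroup.mem_inf.mpr ⟨hnB hb, hBnA hb⟩)
  have hPM : P ≤ Subgroup.normalizer ((⁅⁅P, B⁆, P ⊔ A⁆ : Subgroup G) : Set G) := fun x hx =>
    Cfsg.Agent.S0028.mem_normalizer_commutator _ _ x (hPW hx) (hPR hx)
  have hBM : B ≤ Subgroup.normalizer ((⁅⁅P, B⁆, P ⊔ A⁆ : Subgroup G) : Set G) := fun x hx =>
    Cfsg.Agent.S0028.mem_normalizer_commutator _ _ x (hBW hx) (hBR hx)
  have hC2 : ⁅P, A⁆ ≤ ⁅⁅P, B⁆, P ⊔ A⁆ ⊔ (P ⊓ Subgroup.centralizer (B : Set G)) := by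
    rw [Subgroup.commutator_le]
    intro x hx a ha
    obtain ⟨w, hw, c, hc, rfl⟩ := Cfsg.Agent.S0026.exists_decomp B P hnB hcop hsolv x hx
    have e : ⁅w * c, a⁆ = ⁅w, ⁅c, a⁆⁆ * ⁅c, a⁆ * ⁅w, a⁆ := by
      simp only [commutatorElement_def]; group
    rw [e]
    have hca : ⁅c, a⁆ ∈ P ⊓ Subgroup.centralizer (B : Set G) := by
      refine Subgroup.mem_inf.mpr ⟨?_, ?_⟩
      · have h1 : a * c⁻¹ * a⁻¹ ∈ P :=
          (Subgroup.mem_normalizer_iff.mp (hnA ha) c⁻¹).mp (P.inv_mem (Subgroup.mem_inf.mp hc).1)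
        have e2 : ⁅c, a⁆ = c * (a * c⁻¹ * a⁻¹) := by
          simp only [commutatorElement_def]; group
        rw [e2]
        exact P.mul_mem (Subgroup.mem_inf.mp hc).1 h1
      · have h1 := (Subgroup.mem_inf.mp hc).2
        have h2 := hAB' ha
        rw [commutatorElement_def]
        exact mul_mem (mul_mem (mul_mem h1 h2) (inv_mem h1)) (inv_mem h2)
    refine mul_mem (mul_mem ?_ ?_) ?_
    · exact Subgroup.mem_sup_left (Subgroup.commutator_mem_commutator hw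
        ((le_sup_left : P ≤ P ⊔ A) (Subgroup.mem_inf.mp hca).1))
    · exact Subgroup.mem_sup_right hca
    · exact Subgroup.mem_sup_left (Subgroup.commutator_mem_commutator hw ((le_sup_right : A ≤ P ⊔ A) ha))
  have hC3 : ⁅P, B⁆ ≤ ⁅⁅P, B⁆, P ⊔ A⁆ ⊔ (P ⊓ Subgroup.centralizer (B : Set G)) := hcomm.trans hC2
  have hCM : P ⊓ Subgroup.centralizer (B : Set G) ≤
      Subgroup.normalizer ((⁅⁅P, B⁆, P ⊔ A⁆ : Subgroup G) : Set G) := inf_le_left.trans hPM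
  have hC4 : ⁅⁅P, B⁆, B⁆ ≤ ⁅⁅P, B⁆, P ⊔ A⁆ := by
    rw [Subgroup.commutator_le]
    intro y hy b hb
    obtain ⟨m, hm, c, hc, rfl⟩ := Cfsg.Agent.S0023.mem_sup_of_le_normalizer _ _ hCM (hC3 hy)
    have hcb : c * b = b * c := (Subgroup.mem_centralizer_iff.mp (Subgroup.mem_inf.mp hc).2 b hb).symm
    have e : ⁅m * c, b⁆ = m * (b * m⁻¹ * b⁻¹) := by
      simp only [commutatorElement_def]
      calc m * c * b * (m * c)⁻¹ * b⁻¹ = m * (c * b) * c⁻¹ * m⁻¹ * b⁻¹ := by group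
        _ = m * (b * c) * c⁻¹ * m⁻¹ * b⁻¹ := by rw [hcb]
        _ = m * (b * m⁻¹ * b⁻¹) := by group
    rw [e]
    exact mul_mem hm ((Subgroup.mem_normalizer_iff.mp (hBM hb) m⁻¹).mp (inv_mem hm))
  have hfin : ⁅⁅P, B⁆, P ⊔ A⁆ = ⁅P, B⁆ := by
    apply le_antisymm hMW
    calc ⁅P, B⁆ = ⁅⁅P, B⁆, B⁆ := hWW.symm
      _ ≤ _ := hC4
  exact Cfsg.Agent.S0028.eq_bot_of_commutator_eq p ⁅P, B⁆ (P ⊔ A) (hP.to_le hWP) hR hRW hfin

end Cfsg.Agent.S2908
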