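import Cfsg.Statements.S2922
import Mathlib
import Cfsg.Agent.Lib.Helper2.Local2

set_option autoImplicit false
open Cfsg

namespace Cfsg.Agent.S2922

open Cfsg.Agent.Lib.Helper2 Cfsg.Agent.Lib.Helper2.Local Cfsg.Agent.Lib.Helper2.Local2

theorem result {X : Type*} [Group X] [Finite X] {p : ℕ} [Fact p.Prime] (B C : Subgroup X) (hB : IsPGroup p ↥B) (hCB : C ≤ B) (hCn : (C.subgroupOf B).Normal) (hC : Cfsg.generalizedFittingSubgroup ↥(Subgroup.normalizer (C : Set X)) = Cfsg.pCore p ↥(Subgroup.normalizer (C : Set X))) : Cfsg.generalizedFittingSubgroup ↥(Subgroup.normalizer (B : Set X)) = Cfsg.pCore p ↥(Subgroup.normalizer (B : Set X)) ∧ Cfsg.generalizedFittingSubgroup ↥(Subgroup.centralizer (B : Set X)) = Cfsg.pCore p ↥(Subgroup.centralizer (B : Set X)) := by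
  have hN : CharP p (Subgroup.normalizer (C : Set X)) := charP_of_eq_sub _ hC
  have hBN : B ≤ Subgroup.normalizer (C : Set X) :=
    (Subgroup.normal_subgroupOf_iff_le_normalizer hCB).mp hCn
  have hY0 : CharP p (Subgroup.normalizer (C : Set X) ⊓ Subgroup.normalizer (B : Set X)) :=
    charP_normalizer _ hN B hBN hB
  have hCBle : Subgroup.centralizer (B : Set X) ≤
      Subgroup.normalizer (C : Set X) ⊓ Subgroup.normalizer (B : Set X) := by
    apply le_inf
    · exact (Subgroup.centralizer_le (SetLike.coe_subset_coe.mpr hCB)).trans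
        (Subgroup.centralizer_le_normalizer _)
    · exact Subgroup.centralizer_le_normalizer _
  have hCB' : CharP p (Subgroup.centralizer (B : Set X)) :=
    charP_of_normal_sub hY0 hCBle (inf_le_right.trans (normalizer_le_normalizer_centralizer B))
  have hNB : CharP p (Subgroup.normalizer (B : Set X)) := by
    constructor
    · intro L hL hq
      have h1 : ⁅L, B⁆ = ⊥ :=
        Sub.comp_comm_solvable_rel hL hq Subgroup.le_normalizer (solvable_of_pgroup hB) hL.1
      have h2 : L ≤ Subgroup.centralizer (B : Set X) :=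
        Subgroup.commutator_eq_bot_iff_le_centralizer.mp h1
      exact hCB'.1 L (hL.of_le h2 (Subgroup.centralizer_le_normalizer _)) hq
    · intro q hq hne R hRY hYR hRq
      haveI : Fact q.Prime := ⟨hq⟩
      have hd : Disjoint R B := IsPGroup.disjoint_of_ne q p hne R B hRq hB
      have h1 : ⁅R, B⁆ = ⊥ :=
        comm_of_normal_disjoint hRY (Subgroup.le_normalizer.trans hYR) hd
      have h2 : R ≤ Subgroup.centralizer (B : Set X) :=
        Subgroup.commutator_eq_bot_iff_le_centralizer.mp h1
      exact hCB'.2 q hq hne R h2 ((Subgroup.centralizer_le_normalizer _).trans hYR) hRq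
  exact ⟨eq_of_charP_sub _ hNB, eq_of_charP_sub _ hCB'⟩

end Cfsg.Agent.S2922
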