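import Cfsg.Statements.S2923
import Mathlib
import Cfsg.Agent.Lib.Helper5.CharP

set_option autoImplicit false
open Cfsg

namespace Cfsg.Agent.S2923

theorem aux {X : Type*} [Group X] [Finite X] {p : ℕ} [Fact p.Prime]
    (hX : Subgroup.centralizer (Cfsg.pCore p X : Set X) ≤ Cfsg.pCore p X) (Y : Subgroup X)
    (hY : Y.IsSubnormal) :
    Subgroup.centralizer (Cfsg.pCore p ↥Y : Set ↥Y) ≤ Cfsg.pCore p ↥Y := by
  induction hY with
  | top => exact Cfsg.Agent.Lib.Helper5.CharP.charp_of_equiv (Subgroup.topEquiv (G := X)).symm hX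
  | step H K h_le hSubn hN ih =>
    have h1 : Cfsg.pCore p ↥K ≤ Subgroup.normalizer ((H.subgroupOf K : Subgroup ↥K) : Set ↥K) := by
      rw [Subgroup.normalizer_eq_top_iff.mpr hN]
      exact le_top
    have h2 := Cfsg.Agent.Lib.Helper5.CharP.charp_of_normalized ih (H.subgroupOf K) h1
    exact Cfsg.Agent.Lib.Helper5.CharP.charp_of_equiv (Subgroup.subgroupOfEquivOfLe h_le) h2

theorem result {X : Type*} [Group X] [Finite X] {p : ℕ} [Fact p.Prime] (hX : Subgroup.centralizer (Cfsg.pCore p X : Set X) ≤ Cfsg.pCore p X) (Y : Subgroup X) (hY : Y.IsSubnormal) : Subgroup.centralizer (Cfsg.pCore p ↥Y : Set ↥Y) ≤ Cfsg.pCore p ↥Y := by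
  exact aux hX Y hY

end Cfsg.Agent.S2923
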