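import Cfsg.Statements.S2939
import Mathlib
import Cfsg.Agent.Lib.Helper5.SylCtl

set_option autoImplicit false
open Cfsg

namespace Cfsg.Agent.S2939

open Cfsg.Agent.Lib.Helper5.SylCtl Cfsg.Agent.Lib.Helper1

theorem take_prod_succ {G : Type*} [Group G] {n : ℕ} (y : Fin n → G) (i : Fin n) :
    ((List.ofFn y).take (i.val + 1)).prod = ((List.ofFn y).take i.val).prod * y i := by
  rw [List.prod_take_succ _ _ (by simp)]
  simp

theorem take_prod_all {G : Type*} [Group G] {n : ℕ} (y : Fin n → G) :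
    ((List.ofFn y).take n).prod = (List.ofFn y).prod := by
  rw [List.take_of_length_le (by simp)]

theorem backward {G : Type*} [Group G] [Finite G] {p : ℕ} [Fact p.Prime] (𝓕 : Set (Subgroup G))
    (h𝓕 : Cfsg.IsNormalSet 𝓕) (h : Cfsg.FamilyStronglyControlsFusion p 𝓕) :
    Cfsg.ControlsSylowIntersections p 𝓕 := by
  intro S T hne hinf
  obtain ⟨g, hg⟩ := MulAction.exists_smul_eq G S T
  have hA1 : ((((S : Subgroup G) ⊓ (T : Subgroup G) : Subgroup G)) : Set G) ⊆ (S : Set G) :=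
    fun a ha => ha.1
  have hA2 : ∃ a ∈ ((((S : Subgroup G) ⊓ (T : Subgroup G) : Subgroup G)) : Set G), a ≠ 1 := by
    by_contra hcon
    push Not at hcon
    apply hinf
    rw [eq_bot_iff]
    intro a ha
    exact hcon a ha
  have hA3 : Cfsg.conjRight g ((((S : Subgroup G) ⊓ (T : Subgroup G) : Subgroup G)) : Set G) ⊆
      (S : Set G) := by
    rintro _ ⟨a, ha, rfl⟩
    have haT : a ∈ T := ha.2
    rw [← hg] at haT
    exact (sylow_smul_mem_iff S g a).1 haT
  obtain ⟨n, Y, y, y₀, hy₀, hY, hgy, hsub⟩ := h S _ g hA1 hA2 hA3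
  obtain ⟨w, hw⟩ : ∃ w : ℕ → G, ∀ k, w k = ((List.ofFn y).take k).prod := ⟨_, fun _ => rfl⟩
  have hw0 : w 0 = 1 := by rw [hw]; simp
  have hws : ∀ i : Fin n, w (i.val + 1) = w i.val * y i := by
    intro i; rw [hw, hw]; exact take_prod_succ y i
  have hwn : w n = (List.ofFn y).prod := by rw [hw]; exact take_prod_all y
  refine ⟨n, fun i => w i.val • S, fun i => (Y i).map (MulAut.conj (w (i.val + 1))).toMonoidHom,
    fun i => w (i.val + 1) * (w i.val)⁻¹, ?_, ?_, ?_⟩
  · show w 0 • S = S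
    rw [hw0, one_smul]
  · show w n • S = T
    rw [hwn, ← hg, hgy, mul_smul]
    congr 1
    exact (Sylow.smul_eq_iff_mem_normalizer.2 hy₀).symm
  · intro i
    have hYi := (hY i).1
    have hyi := (hY i).2
    have hXeq : (Y i).map (MulAut.conj (w (i.val + 1))).toMonoidHom =
        (Y i).map (MulAut.conj (w i.val)).toMonoidHom := by
      rw [hws, ← map_conj_mul, map_conj_self _ _ hyi]
    refine ⟨?_, ?_, ?_, ?_, ?_⟩
    · show (Y i).map (MulAut.conj (w (i.val + 1))).toMonoidHom ∈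
        Cfsg.sylowMembers p 𝓕 ((w i.val • S : Sylow p G) : Subgroup G)
      rw [hXeq, sylow_smul_coe]
      exact sylowMembers_map_conj p 𝓕 h𝓕 _ _ _ hYi
    · show (Y i).map (MulAut.conj (w (i.val + 1))).toMonoidHom ∈
        Cfsg.sylowMembers p 𝓕 ((w (i.val + 1) • S : Sylow p G) : Subgroup G)
      rw [sylow_smul_coe]
      exact sylowMembers_map_conj p 𝓕 h𝓕 _ _ _ hYi
    · show w (i.val + 1) * (w i.val)⁻¹ ∈ (Y i).map (MulAut.conj (w (i.val + 1))).toMonoidHom
      rw [hXeq, mem_map_conj_iff, hws]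
      have h1 : (w i.val)⁻¹ * (w i.val * y i * (w i.val)⁻¹) * w i.val = y i := by group
      rw [h1]; exact hyi
    · show Cfsg.subgroupConjRight (w (i.val + 1) * (w i.val)⁻¹)
        ((w (i.val + 1) • S : Sylow p G) : Subgroup G) = ((w i.val • S : Sylow p G) : Subgroup G)
      unfold Cfsg.subgroupConjRight
      rw [sylow_smul_coe, sylow_smul_coe, map_conj_mul]
      have h2 : (w (i.val + 1) * (w i.val)⁻¹)⁻¹ * w (i.val + 1) = w i.val := by group
      rw [h2]
    · intro a ha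
      have h1 : (w (i.val + 1))⁻¹ * a * (w (i.val + 1)) ∈ (S : Set G) ∩ (Y i : Set G) := by
        rw [hw]; exact hsub i ⟨a, ha, rfl⟩
      refine Subgroup.mem_inf.2 ⟨?_, ?_⟩
      · exact (sylow_smul_mem_iff S _ a).2 h1.1
      · exact (mem_map_conj_iff _ _ _).2 h1.2

theorem forward {G : Type*} [Group G] [Finite G] {p : ℕ} [Fact p.Prime] (𝓕 : Set (Subgroup G))
    (h𝓕 : Cfsg.IsNormalSet 𝓕) (h : Cfsg.ControlsSylowIntersections p 𝓕) :
    Cfsg.FamilyStronglyControlsFusion p 𝓕 := by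
  intro S A g hAS hA1 hAg
  by_cases hT : g • S = S
  · refine ⟨0, Fin.elim0, Fin.elim0, g, Sylow.smul_eq_iff_mem_normalizer.1 hT,
      fun i => i.elim0, by simp, fun i => i.elim0⟩
  · have hAT : ∀ a ∈ A, a ∈ ((g • S : Sylow p G) : Subgroup G) := by
      intro a ha
      exact (sylow_smul_mem_iff S g a).2 (hAg ⟨a, ha, rfl⟩)
    have hinf : (S : Subgroup G) ⊓ ((g • S : Sylow p G) : Subgroup G) ≠ ⊥ := by
      obtain ⟨a, ha, ha1⟩ := hA1
      intro hcon
      have h1 : a ∈ (S : Subgroup G) ⊓ ((g • S : Sylow p G) : Subgroup G) :=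
        Subgroup.mem_inf.2 ⟨hAS ha, hAT a ha⟩
      rw [hcon, Subgroup.mem_bot] at h1
      exact ha1 h1
    obtain ⟨n, c, X, x, hc0, hcl, hall⟩ := h S (g • S) (Ne.symm hT) hinf
    obtain ⟨x', hx'⟩ : ∃ x' : ℕ → G, ∀ k, x' k = if hk : k < n then x ⟨k, hk⟩ else 1 :=
      ⟨_, fun _ => rfl⟩
    obtain ⟨u, hu0, hus⟩ : ∃ u : ℕ → G, u 0 = 1 ∧ ∀ k, u (k + 1) = x' k * u k :=
      ⟨fun k => Nat.rec 1 (fun k r => x' k * r) k, rfl, fun _ => rfl⟩
    have husF : ∀ i : Fin n, u (i.val + 1) = x i * u i.val := by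
      intro i; rw [hus, hx', dif_pos i.isLt]
    have hci : ∀ i : Fin (n + 1),
        ((c i : Sylow p G) : Subgroup G).map (MulAut.conj (u i.val)⁻¹).toMonoidHom = S := by
      intro i
      induction i using Fin.induction with
      | zero =>
        rw [hc0]
        show (S : Subgroup G).map (MulAut.conj (u 0)⁻¹).toMonoidHom = S
        rw [hu0, inv_one, map_conj_one]
      | succ i ih =>
        obtain ⟨-, -, -, hconj, -⟩ := hall i
        unfold Cfsg.subgroupConjRight at hconj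
        show ((c i.succ : Sylow p G) : Subgroup G).map
          (MulAut.conj (u (i.val + 1))⁻¹).toMonoidHom = S
        rw [husF, mul_inv_rev, ← map_conj_mul, hconj]
        exact ih
    obtain ⟨y, hy⟩ : ∃ y : Fin n → G, ∀ i, y i = (u i.val)⁻¹ * x i * u i.val := ⟨_, fun _ => rfl⟩
    have htake : ∀ k : ℕ, k ≤ n → ((List.ofFn y).take k).prod = u k := by
      intro k
      induction k with
      | zero => intro _; rw [hu0]; simp
      | succ k ih =>
        intro hk
        have h1 := take_prod_succ y ⟨k, hk⟩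
        have h2 := husF ⟨k, hk⟩
        simp only at h1 h2
        rw [h1, ih (by omega), hy, h2]
        simp only
        group
    have hy0 : (u n)⁻¹ * g ∈ Subgroup.normalizer ((S : Subgroup G) : Set G) := by
      apply mem_normalizer_of_map_conj_eq
      rw [← map_conj_mul, ← sylow_smul_coe, ← hcl]
      exact hci (Fin.last n)
    refine ⟨n, fun i => (X i).map (MulAut.conj (u i.val)⁻¹).toMonoidHom, y, (u n)⁻¹ * g, hy0,
      ?_, ?_, ?_⟩
    · intro i
      obtain ⟨hX1, -, hx, -, -⟩ := hall i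
      refine ⟨?_, ?_⟩
      · have h1 := sylowMembers_map_conj p 𝓕 h𝓕 _ _ (u i.val)⁻¹ hX1
        have h2 := hci i.castSucc
        simp only [Fin.val_castSucc] at h2
        rw [h2] at h1
        exact h1
      · show y i ∈ (X i).map (MulAut.conj (u i.val)⁻¹).toMonoidHom
        rw [mem_map_conj_iff, hy]
        have h3 : ((u i.val)⁻¹)⁻¹ * ((u i.val)⁻¹ * x i * u i.val) * (u i.val)⁻¹ = x i := by group
        rw [h3]; exact hx
    · rw [← take_prod_all y, htake n le_rfl]
      group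
    · intro i
      obtain ⟨-, -, hx, -, hle⟩ := hall i
      rintro _ ⟨a, ha, rfl⟩
      have ha2 := hle (Subgroup.mem_inf.2 ⟨hAS ha, hAT a ha⟩)
      rw [Subgroup.mem_inf] at ha2
      rw [htake (i.val + 1) (by omega)]
      refine ⟨?_, ?_⟩
      · show (u (i.val + 1))⁻¹ * a * u (i.val + 1) ∈ (S : Subgroup G)
        have h1 := hci i.succ
        simp only [Fin.val_succ] at h1
        rw [← h1, mem_map_conj_iff]
        have h3 : ((u (i.val + 1))⁻¹)⁻¹ * ((u (i.val + 1))⁻¹ * a * u (i.val + 1)) *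
            (u (i.val + 1))⁻¹ = a := by group
        rw [h3]; exact ha2.1
      · show (u (i.val + 1))⁻¹ * a * u (i.val + 1) ∈
          (X i).map (MulAut.conj (u i.val)⁻¹).toMonoidHom
        rw [mem_map_conj_iff, husF]
        have h3 : ((u i.val)⁻¹)⁻¹ * ((x i * u i.val)⁻¹ * a * (x i * u i.val)) * (u i.val)⁻¹ =
            (x i)⁻¹ * a * x i := by group
        rw [h3]
        exact (X i).mul_mem ((X i).mul_mem ((X i).inv_mem hx) ha2.2) hx

theorem result {G : Type*} [Group G] [Finite G] {p : ℕ} [Fact p.Prime] (hdiv : p ∣ Nat.card G) (𝓕 : Set (Subgroup G)) (h𝓕 : Cfsg.IsNormalSet 𝓕) : Cfsg.ControlsSylowIntersections p 𝓕 ↔ Cfsg.FamilyStronglyControlsFusion p 𝓕 := by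
  exact ⟨forward 𝓕 h𝓕, backward 𝓕 h𝓕⟩

end Cfsg.Agent.S2939
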