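import Cfsg.Statements.S2940
import Mathlib
import Cfsg.Agent.Lib.Helper5.SylowAux

set_option autoImplicit false
open Cfsg

namespace Cfsg.Agent.S2940

theorem result {G : Type*} [Group G] [Finite G] {p : ℕ} [Fact p.Prime] (S : Sylow p G) (G₁ G₂ : Subgroup G) (h1 : (S : Subgroup G) ≤ G₁) (h2 : (S : Subgroup G) ≤ G₂) (hfact : ∀ g : G, ∃ g₁ ∈ G₁, ∃ g₂ ∈ G₂, g = g₁ * g₂) (g : G) : ∃ U : Sylow p G, (S : Subgroup G) ⊓ Cfsg.subgroupConjRight g (S : Subgroup G) ≤ (U : Subgroup G) ∧ (U : Subgroup G) ≤ G₁ ⊓ Cfsg.subgroupConjRight g G₂ := by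
  classical
  obtain ⟨a, ha, b, hb, hab⟩ := hfact g⁻¹
  have hD : ∀ (K : Subgroup G) (x : G), x ∈ Cfsg.subgroupConjRight g K ↔ g * x * g⁻¹ ∈ K := by
    intro K x
    unfold Cfsg.subgroupConjRight
    rw [Subgroup.mem_map_equiv]
    simp
  have hg : g = b⁻¹ * a⁻¹ := by
    rw [← mul_inv_rev, ← hab, inv_inv]
  have hP : ((a • S : Sylow p G) : Subgroup G) ≤ G₁ ⊓ Cfsg.subgroupConjRight g G₂ := by
    intro x hx
    rw [Cfsg.Agent.Lib.Helper5.SylowAux.mem_smul_sylow] at hx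
    rw [Subgroup.mem_inf]
    refine ⟨?_, ?_⟩
    · have h3 := G₁.mul_mem (G₁.mul_mem ha (h1 hx)) (G₁.inv_mem ha)
      simpa [mul_assoc] using h3
    · rw [hD]
      have h3 := G₂.mul_mem (G₂.mul_mem (G₂.inv_mem hb) (h2 hx)) hb
      rw [hg]
      simpa [mul_assoc] using h3
  have hQle : (S : Subgroup G) ⊓ Cfsg.subgroupConjRight g (S : Subgroup G) ≤
      G₁ ⊓ Cfsg.subgroupConjRight g G₂ := by
    intro x hx
    rw [Subgroup.mem_inf] at hx ⊢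
    refine ⟨h1 hx.1, ?_⟩
    rw [hD]
    exact h2 ((hD _ x).mp hx.2)
  have hQp : IsPGroup p (((S : Subgroup G) ⊓ Cfsg.subgroupConjRight g (S : Subgroup G)).subgroupOf
      (G₁ ⊓ Cfsg.subgroupConjRight g G₂)) := (S.isPGroup'.to_le inf_le_left).comap_subtype
  obtain ⟨d, hd⟩ := Cfsg.Agent.Lib.Helper5.SylowAux.sylow_conj_le
    ((a • S : Sylow p G).subtype hP) _ hQp
  refine ⟨(d : G)⁻¹ • (a • S), ?_, ?_⟩
  · intro x hx
    rw [Cfsg.Agent.Lib.Helper5.SylowAux.mem_smul_sylow, inv_inv]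
    exact hd ⟨x, hQle hx⟩ (Subgroup.mem_subgroupOf.mpr hx)
  · intro y hy
    rw [Cfsg.Agent.Lib.Helper5.SylowAux.mem_smul_sylow, inv_inv] at hy
    have h3 := hP hy
    have h4 := Subgroup.mul_mem _ (Subgroup.mul_mem _ (Subgroup.inv_mem _ d.2) h3) d.2
    simpa [mul_assoc] using h4

end Cfsg.Agent.S2940
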