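import Mathlib
import Cfsg.Statements.S2941

set_option autoImplicit false
open Pointwise
open Cfsg
open scoped commutatorElement

namespace Cfsg.Agent.S2941

theorem norm_of_conj {G : Type*} [Group G] (H A : Subgroup G)
    (h : ∀ a ∈ A, ∀ n ∈ H, a * n * a⁻¹ ∈ H) : A ≤ Subgroup.normalizer (H : Set G) := by
  intro a ha
  rw [Subgroup.mem_normalizer_iff]
  intro n
  constructor
  · exact h a ha n
  · intro hn
    have h1 := h a⁻¹ (A.inv_mem ha) _ hn
    have e : a⁻¹ * (a * n * a⁻¹) * a⁻¹⁻¹ = n := by group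
    rwa [e] at h1

theorem comm_norm {G : Type*} [Group G] (K J : Subgroup G) (hK2 : ⁅K, J⁆ = K) :
    J ≤ Subgroup.normalizer (K : Set G) := by
  apply norm_of_conj
  intro j hj n hn
  have hn' : n ∈ Subgroup.closure {g | ∃ g₁ ∈ K, ∃ g₂ ∈ J, ⁅g₁, g₂⁆ = g} := hK2.ge hn
  suffices h : j * n * j⁻¹ ∈ ⁅K, J⁆ from hK2.le h
  clear hn
  induction hn' using Subgroup.closure_induction with
  | mem x hx =>
    obtain ⟨k, hk, j', hj', rfl⟩ := hx
    have h1 : j * ⁅k, j'⁆ * j⁻¹ = ⁅k, j⁆⁻¹ * ⁅k, j * j'⁆ := by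
      simp only [commutatorElement_def]; group
    rw [h1]
    exact Subgroup.mul_mem _ (Subgroup.inv_mem _ (Subgroup.commutator_mem_commutator hk hj))
      (Subgroup.commutator_mem_commutator hk (Subgroup.mul_mem _ hj hj'))
  | one => simp
  | mul x y _ _ hx hy =>
    have e : j * (x * y) * j⁻¹ = (j * x * j⁻¹) * (j * y * j⁻¹) := by group
    rw [e]; exact Subgroup.mul_mem _ hx hy
  | inv x _ hx =>
    have e : j * x⁻¹ * j⁻¹ = (j * x * j⁻¹)⁻¹ := by group
    rw [e]; exact Subgroup.inv_mem _ hx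

/-- odd-order elements of `K ⊔ J` lie in `K` when `J` is a 2-group normalizing `K` -/
theorem odd_mem {G : Type*} [Group G] (K J : Subgroup G) (hJ2 : IsPGroup 2 J)
    (hJK : J ≤ Subgroup.normalizer (K : Set G)) (g : G) (hg : g ∈ K ⊔ J) (hgo : Odd (orderOf g)) :
    g ∈ K := by
  haveI : (K.subgroupOf (Subgroup.normalizer (K : Set G))).Normal := Subgroup.normal_in_normalizer
  have h2 : IsPGroup 2 ((J.subgroupOf (Subgroup.normalizer (K : Set G))).map
      (QuotientGroup.mk' (K.subgroupOf (Subgroup.normalizer (K : Set G))))) :=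
    (hJ2.comap_subtype).map _
  have hle : K ⊔ J ≤ ((((J.subgroupOf (Subgroup.normalizer (K : Set G))).map
      (QuotientGroup.mk' (K.subgroupOf (Subgroup.normalizer (K : Set G))))).comap
      (QuotientGroup.mk' (K.subgroupOf (Subgroup.normalizer (K : Set G))))).map
      (Subgroup.normalizer (K : Set G)).subtype) := by
    apply sup_le
    · intro k hk
      refine ⟨⟨k, Subgroup.le_normalizer hk⟩, ?_, rfl⟩
      apply Subgroup.mem_comap.2
      have h1 : (QuotientGroup.mk' (K.subgroupOf (Subgroup.normalizer (K : Set G))))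
          ⟨k, Subgroup.le_normalizer hk⟩ = 1 :=
        (QuotientGroup.eq_one_iff _).2 (Subgroup.mem_subgroupOf.2 hk)
      rw [h1]; exact Subgroup.one_mem _
    · intro j hj
      refine ⟨⟨j, hJK hj⟩, ?_, rfl⟩
      apply Subgroup.mem_comap.2
      exact Subgroup.mem_map_of_mem _ (Subgroup.mem_subgroupOf.2 hj)
  obtain ⟨x, hx, rfl⟩ := hle hg
  have hx' : QuotientGroup.mk' (K.subgroupOf (Subgroup.normalizer (K : Set G))) x ∈
      (J.subgroupOf (Subgroup.normalizer (K : Set G))).map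
      (QuotientGroup.mk' (K.subgroupOf (Subgroup.normalizer (K : Set G)))) := hx
  obtain ⟨k, hk⟩ := h2 ⟨_, hx'⟩
  have hk' : (QuotientGroup.mk' (K.subgroupOf (Subgroup.normalizer (K : Set G))) x) ^ 2 ^ k = 1 := by
    have := congrArg Subtype.val hk
    simpa using this
  have hd1 : orderOf (QuotientGroup.mk' (K.subgroupOf (Subgroup.normalizer (K : Set G))) x)
      ∣ 2 ^ k := orderOf_dvd_of_pow_eq_one hk'
  have hd2 : orderOf (QuotientGroup.mk' (K.subgroupOf (Subgroup.normalizer (K : Set G))) x)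
      ∣ orderOf x := orderOf_map_dvd _ x
  have hox : orderOf x = orderOf ((Subgroup.normalizer (K : Set G)).subtype x) :=
    (orderOf_injective _ (Subgroup.subtype_injective _) x).symm
  rw [← hox] at hgo
  have hcop : Nat.Coprime (orderOf x) (2 ^ k) :=
    Nat.Coprime.pow_right k (Nat.coprime_two_right.2 hgo)
  have h1 : orderOf (QuotientGroup.mk' (K.subgroupOf (Subgroup.normalizer (K : Set G))) x) = 1 :=
    Nat.eq_one_of_dvd_coprimes hcop hd2 hd1
  rw [orderOf_eq_one_iff] at h1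
  exact Subgroup.mem_subgroupOf.1 ((QuotientGroup.eq_one_iff _).1 h1)

/-- Let G be a finite group of characteristic 2 type in which every 2-local subgroup is solvable and the centralizer of Ω₁(Z(S)) lies in N_G(S) for every Sylow 2-subgroup S, and let T be a nontrivial 2-subgroup and K a J(T)-component (J the Thompson subgroup generated by the elementary abelian 2-subgroups of largest order). If a subgroup Q is normalized by ⟨K, J(T)⟩ and normalizes J(T), then Q normalizes K. -/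
theorem result {G : Type*} [Group G] [Finite G] (hL : Cfsg.IsCharacteristicTwoType G) (hN : ∀ N : Subgroup G, Cfsg.IsTwoLocal N → Group.IsSolvable ↥N)
    (hZ : ∀ S : Sylow 2 G, Subgroup.centralizer (Cfsg.omegaCenterOf (S : Subgroup G) : Set G) ≤ Subgroup.normalizer ((S : Subgroup G) : Set G)) (T : Subgroup G) (hT : IsPGroup 2 ↥T) (hT1 : T ≠ ⊥) (K : Subgroup G) (hK : Cfsg.IsJComponent T K)
    (Q : Subgroup G) (hQ1 : K ⊔ Cfsg.thompsonSubgroupOf 2 T ≤ Subgroup.normalizer (Q : Set G)) (hQ2 : Q ≤ Subgroup.normalizer (Cfsg.thompsonSubgroupOf 2 T : Set G)) :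
    Q ≤ Subgroup.normalizer (K : Set G) := by
  classical
  have hJT : Cfsg.thompsonSubgroupOf 2 T ≤ T := by
    unfold Cfsg.thompsonSubgroupOf; exact Subgroup.map_subtype_le _
  have hJ2 : IsPGroup 2 (Cfsg.thompsonSubgroupOf 2 T) := hT.to_le hJT
  obtain ⟨hK1, hK2, -⟩ := hK
  generalize Cfsg.thompsonSubgroupOf 2 T = J at *
  have hKN : K ≤ Subgroup.normalizer (Q : Set G) := le_trans le_sup_left hQ1
  have hJK : J ≤ Subgroup.normalizer (K : Set G) := comm_norm K J hK2
  -- the generating set of conjugates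
  have hcl : K ⊔ J = Subgroup.closure {g | ∃ k ∈ K, ∃ j ∈ J, k * j * k⁻¹ = g} := by
    apply le_antisymm
    · apply sup_le
      · refine hK2.ge.trans ?_
        rw [Subgroup.commutator_le]
        intro k hk j hj
        have e : ⁅k, j⁆ = (k * j * k⁻¹) * (1 * j⁻¹ * 1⁻¹) := by
          simp [commutatorElement_def]
        rw [e]
        exact Subgroup.mul_mem _ (Subgroup.subset_closure ⟨k, hk, j, hj, rfl⟩)
          (Subgroup.subset_closure ⟨1, K.one_mem, j⁻¹, J.inv_mem hj, rfl⟩)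
      · intro j hj
        exact Subgroup.subset_closure ⟨1, K.one_mem, j, hj, by simp⟩
    · rw [Subgroup.closure_le]
      rintro g ⟨k, hk, j, hj, rfl⟩
      exact Subgroup.mul_mem _ (Subgroup.mul_mem _ (Subgroup.mem_sup_left hk)
        (Subgroup.mem_sup_right hj)) (Subgroup.inv_mem _ (Subgroup.mem_sup_left hk))
  have hQL : ∀ q ∈ Q, ∀ g ∈ K ⊔ J, q * g * q⁻¹ ∈ K ⊔ J := by
    intro q hq g hg
    rw [hcl] at hg ⊢
    induction hg using Subgroup.closure_induction with
    | mem x hx =>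
      obtain ⟨k, hk, j, hj, rfl⟩ := hx
      have hq' : k⁻¹ * q * k⁻¹⁻¹ ∈ Q :=
        (Subgroup.mem_normalizer_iff.1 ((Subgroup.normalizer (Q : Set G)).inv_mem (hKN hk)) q).1 hq
      have hj' : (k⁻¹ * q * k⁻¹⁻¹) * j * (k⁻¹ * q * k⁻¹⁻¹)⁻¹ ∈ J :=
        (Subgroup.mem_normalizer_iff.1 (hQ2 hq') j).1 hj
      have e : q * (k * j * k⁻¹) * q⁻¹
          = k * ((k⁻¹ * q * k⁻¹⁻¹) * j * (k⁻¹ * q * k⁻¹⁻¹)⁻¹) * k⁻¹ := by group
      rw [e]
      exact Subgroup.subset_closure ⟨k, hk, _, hj', rfl⟩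
    | one => simp
    | mul x y _ _ hx hy =>
      have e : q * (x * y) * q⁻¹ = (q * x * q⁻¹) * (q * y * q⁻¹) := by group
      rw [e]; exact Subgroup.mul_mem _ hx hy
    | inv x _ hx =>
      have e : q * x⁻¹ * q⁻¹ = (q * x * q⁻¹)⁻¹ := by group
      rw [e]; exact Subgroup.inv_mem _ hx
  apply norm_of_conj
  intro q hq n hn
  have hn' : n ∈ Subgroup.closure {g : G | g ∈ K ∧ Odd (orderOf g)} := hK1.ge hn
  clear hn
  induction hn' using Subgroup.closure_induction with
  | mem x hx =>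
    obtain ⟨hxK, hxo⟩ := hx
    apply odd_mem K J hJ2 hJK _ (hQL q hq x (Subgroup.mem_sup_left hxK))
    have e : q * x * q⁻¹ = (MulAut.conj q).toMonoidHom x := by simp
    rw [e, orderOf_injective _ (MulAut.conj q).injective]
    exact hxo
  | one => simp
  | mul x y _ _ hx hy =>
    have e : q * (x * y) * q⁻¹ = (q * x * q⁻¹) * (q * y * q⁻¹) := by group
    rw [e]; exact Subgroup.mul_mem _ hx hy
  | inv x _ hx =>
    have e : q * x⁻¹ * q⁻¹ = (q * x * q⁻¹)⁻¹ := by group
    rw [e]; exact Subgroup.inv_mem _ hx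

end Cfsg.Agent.S2941
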