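import Cfsg.Statements.S2955
import Mathlib
import Cfsg.Agent.Lib.Helper5.SylCtl

set_option autoImplicit false
open Cfsg

namespace Cfsg.Agent.S2955

open Cfsg.Agent.Lib.Helper5.SylCtl Cfsg.Agent.Lib.Helper1

theorem result {G : Type*} [Group G] [Finite G] (p : ℕ) [Fact p.Prime] (hdiv : p ∣ Nat.card G)
    (𝓕 : Set (Subgroup G)) (h𝓕 : Cfsg.IsNormalSet 𝓕) (hc : Cfsg.ControlsSylowIntersections p 𝓕)
    (hconn : Cfsg.IsSylowChainConnected p G) (S : Sylow p G) :
    (⨆ X ∈ Cfsg.sylowMembers p 𝓕 (S : Subgroup G), X) ⊔ Subgroup.normalizer ((S : Subgroup G) : Set G) = ⊤ := by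
  obtain ⟨H, hH⟩ : ∃ H : Subgroup G, H = (⨆ X ∈ Cfsg.sylowMembers p 𝓕 (S : Subgroup G), X) ⊔
      Subgroup.normalizer ((S : Subgroup G) : Set G) := ⟨_, rfl⟩
  rw [← hH]
  have hXle : ∀ X ∈ Cfsg.sylowMembers p 𝓕 (S : Subgroup G), X ≤ H := by
    intro X hX
    rw [hH]
    exact le_trans (le_biSup (fun X => X) hX) le_sup_left
  have hNle : Subgroup.normalizer ((S : Subgroup G) : Set G) ≤ H := by rw [hH]; exact le_sup_right
  have step : ∀ (U V : Sylow p G),
      (∃ k ∈ H, (U : Subgroup G) = (S : Subgroup G).map (MulAut.conj k).toMonoidHom) → U ≠ V →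
      (U : Subgroup G) ⊓ (V : Subgroup G) ≠ ⊥ →
      ∃ k ∈ H, (V : Subgroup G) = (S : Subgroup G).map (MulAut.conj k).toMonoidHom := by
    intro U V hU hne hinf
    obtain ⟨m, d, X, x, hd0, hdl, hall⟩ := hc U V hne hinf
    have key : ∀ j : Fin (m + 1),
        ∃ k ∈ H, (d j : Subgroup G) = (S : Subgroup G).map (MulAut.conj k).toMonoidHom := by
      intro j
      induction j using Fin.induction with
      | zero => rw [hd0]; exact hU
      | succ j ih =>
        obtain ⟨k, hk, hdk⟩ := ih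
        obtain ⟨hX1, hX2, hx, hconj, -⟩ := hall j
        rw [hdk] at hX1
        have h1 := sylowMembers_map_conj p 𝓕 h𝓕 _ _ k⁻¹ hX1
        rw [map_conj_mul, inv_mul_cancel, map_conj_one] at h1
        have h2 := hXle _ h1
        have h3 : k⁻¹ * x j * k ∈ H := by
          apply h2
          rw [mem_map_conj_iff]
          have h4 : (k⁻¹)⁻¹ * (k⁻¹ * x j * k) * k⁻¹ = x j := by group
          rw [h4]; exact hx
        have h5 : x j ∈ H := by
          have h6 : x j = k * (k⁻¹ * x j * k) * k⁻¹ := by group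
          rw [h6]
          exact H.mul_mem (H.mul_mem hk h3) (H.inv_mem hk)
        refine ⟨x j * k, H.mul_mem h5 hk, ?_⟩
        unfold Cfsg.subgroupConjRight at hconj
        rw [← map_conj_mul, ← hdk, ← hconj, map_conj_mul, mul_inv_cancel, map_conj_one]
    rw [← hdl]; exact key _
  have reach : ∀ R : Sylow p G,
      ∃ k ∈ H, (R : Subgroup G) = (S : Subgroup G).map (MulAut.conj k).toMonoidHom := by
    intro R
    obtain ⟨n, c, hc0, hcl, -, hadj⟩ := hconn S R
    have key : ∀ i : Fin (n + 1),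
        ∃ k ∈ H, (c i : Subgroup G) = (S : Subgroup G).map (MulAut.conj k).toMonoidHom := by
      intro i
      induction i using Fin.induction with
      | zero => rw [hc0]; exact ⟨1, H.one_mem, (map_conj_one _).symm⟩
      | succ i ih => exact step _ _ ih (hadj i).1 (hadj i).2
    rw [← hcl]; exact key _
  rw [eq_top_iff]
  intro g _
  obtain ⟨k, hk, hk2⟩ := reach (g • S)
  rw [sylow_smul_coe] at hk2
  have h2 : (S : Subgroup G).map (MulAut.conj (k⁻¹ * g)).toMonoidHom = S := by
    rw [← map_conj_mul, hk2, map_conj_mul, inv_mul_cancel, map_conj_one]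
  have h3 : k⁻¹ * g ∈ Subgroup.normalizer ((S : Subgroup G) : Set G) :=
    mem_normalizer_of_map_conj_eq _ _ h2
  have h4 : g = k * (k⁻¹ * g) := by group
  rw [h4]; exact H.mul_mem hk (hNle h3)

end Cfsg.Agent.S2955
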