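import Cfsg.Statements.S2956
import Mathlib
import Cfsg.Agent.Lib.Helper5.SylCtl

set_option autoImplicit false
open Cfsg

namespace Cfsg.Agent.S2956

open Cfsg.Agent.Lib.Helper5.SylCtl Cfsg.Agent.Lib.Helper1

def SylIn {G : Type*} [Group G] (p : ℕ) (U M : Subgroup G) : Prop :=
  Nat.card ↥(U ⊓ M) = p ^ (Nat.card ↥M).factorization p

def Step {G : Type*} [Group G] (p : ℕ) (𝓕 : Set (Subgroup G)) (D : Subgroup G)
    (S T : Sylow p G) : Prop :=
  ∃ X : Subgroup G, X ∈ Cfsg.sylowMembers p 𝓕 (S : Subgroup G) ∧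
    X ∈ Cfsg.sylowMembers p 𝓕 (T : Subgroup G) ∧
    ∃ x : G, x ∈ X ∧ Cfsg.subgroupConjRight x (T : Subgroup G) = (S : Subgroup G) ∧
      D ≤ (T : Subgroup G) ⊓ X

theorem step_mono {G : Type*} [Group G] (p : ℕ) (𝓕 : Set (Subgroup G)) {D D' : Subgroup G}
    (h : D ≤ D') (S T : Sylow p G) (hs : Step p 𝓕 D' S T) : Step p 𝓕 D S T := by
  obtain ⟨X, h1, h2, x, hx, hc, hle⟩ := hs
  exact ⟨X, h1, h2, x, hx, hc, le_trans h hle⟩

theorem chain_of_rtg {α : Type*} (r : α → α → Prop) (S T : α)
    (h : Relation.ReflTransGen r S T) :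
    ∃ (n : ℕ) (c : Fin (n + 1) → α), c 0 = S ∧ c (Fin.last n) = T ∧
      ∀ i : Fin n, r (c i.castSucc) (c i.succ) := by
  induction h with
  | refl => exact ⟨0, fun _ => S, rfl, rfl, fun i => i.elim0⟩
  | @tail b c' _ hbc ih =>
    obtain ⟨n, c, h0, hl, hr⟩ := ih
    refine ⟨n + 1, Fin.snoc c c', ?_, ?_, ?_⟩
    · have h00 : (0 : Fin (n + 2)) = Fin.castSucc (0 : Fin (n + 1)) := rfl
      rw [h00, Fin.snoc_castSucc]
      exact h0
    · exact Fin.snoc_last _ _
    · intro i
      refine Fin.lastCases ?_ (fun j => ?_) i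
      · rw [Fin.snoc_castSucc, Fin.succ_last, Fin.snoc_last, hl]
        exact hbc
      · rw [Fin.snoc_castSucc, Fin.succ_castSucc, Fin.snoc_castSucc]
        exact hr j

theorem exists_normalizing_of_lt {G : Type*} [Group G] {p : ℕ} [Fact p.Prime] {K Δ : Subgroup G}
    [Finite Δ] (hΔ : IsPGroup p Δ) (hlt : K < Δ) :
    ∃ α ∈ Δ, α ∉ K ∧ α ∈ Subgroup.normalizer (K : Set G) := by
  have hnil : Group.IsNilpotent Δ := hΔ.isNilpotent
  have hnc : NormalizerCondition Δ := Group.normalizerCondition_of_isNilpotent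
  have h1 : K.subgroupOf Δ < ⊤ := by
    rw [lt_top_iff_ne_top]
    intro h
    rw [Subgroup.subgroupOf_eq_top] at h
    exact hlt.ne (le_antisymm hlt.le h)
  have h2 := hnc _ h1
  obtain ⟨δ, hδN, hδK⟩ := SetLike.exists_of_lt h2
  refine ⟨δ, δ.2, hδK, ?_⟩
  rw [Subgroup.mem_normalizer_iff]
  intro y
  have hδN' := Subgroup.mem_normalizer_iff.mp hδN
  constructor
  · intro hy
    exact (hδN' ⟨y, hlt.le hy⟩).mp hy
  · intro hy
    have hyΔ : y ∈ Δ := by
      have h3 : (δ : G)⁻¹ * ((δ : G) * y * (δ : G)⁻¹) * (δ : G) ∈ Δ :=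
        Δ.mul_mem (Δ.mul_mem (Δ.inv_mem δ.2) (hlt.le hy)) δ.2
      have h4 : (δ : G)⁻¹ * ((δ : G) * y * (δ : G)⁻¹) * (δ : G) = y := by group
      rwa [h4] at h3
    exact (hδN' ⟨y, hyΔ⟩).mpr hy

theorem card_lt_card_inf_normalizer {G : Type*} [Group G] [Finite G] {p : ℕ} [Fact p.Prime]
    {P : Subgroup G} (hP : IsPGroup p P) {D : Subgroup G} (hlt : D < P) :
    Nat.card D < Nat.card (P ⊓ Subgroup.normalizer (D : Set G) : Subgroup G) := by
  obtain ⟨α, hαP, hαD, hαN⟩ := exists_normalizing_of_lt hP hlt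
  have hle : D ≤ P ⊓ Subgroup.normalizer (D : Set G) := le_inf hlt.le Subgroup.le_normalizer
  by_contra hcon
  have h1 : D = P ⊓ Subgroup.normalizer (D : Set G) :=
    Subgroup.eq_of_le_of_card_ge hle (not_lt.mp hcon)
  apply hαD
  rw [h1]
  exact ⟨hαP, hαN⟩

theorem sylow_inf_lt_left {G : Type*} [Group G] {p : ℕ} {P Q : Sylow p G} (hne : Q ≠ P) :
    (P : Subgroup G) ⊓ (Q : Subgroup G) < (P : Subgroup G) := by
  refine lt_of_le_of_ne inf_le_left (fun h => hne ?_)
  have hPQ : (P : Subgroup G) ≤ Q := inf_eq_left.mp h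
  exact Sylow.ext (P.is_maximal' Q.2 hPQ)

theorem sylow_inf_lt_right {G : Type*} [Group G] {p : ℕ} {P Q : Sylow p G} (hne : Q ≠ P) :
    (P : Subgroup G) ⊓ (Q : Subgroup G) < (Q : Subgroup G) := by
  refine lt_of_le_of_ne inf_le_right (fun h => hne ?_)
  have hQP : (Q : Subgroup G) ≤ P := inf_eq_right.mp h
  exact (Sylow.ext (Q.is_maximal' P.2 hQP)).symm

theorem exists_sylow_ge_in {G : Type*} [Group G] [Finite G] (p : ℕ) [Fact p.Prime]
    (M B : Subgroup G) (hB : IsPGroup p B) (hBM : B ≤ M) :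
    ∃ U : Sylow p G, B ≤ (U : Subgroup G) ∧ SylIn p (U : Subgroup G) M := by
  have h1 : IsPGroup p (B.subgroupOf M) := hB.comap_subtype
  obtain ⟨P, hP⟩ := h1.exists_le_sylow
  have h2 : IsPGroup p ((P : Subgroup M).map M.subtype) := P.2.map _
  obtain ⟨U, hU⟩ := h2.exists_le_sylow
  refine ⟨U, ?_, ?_⟩
  · intro x hx
    exact hU (Subgroup.mem_map.mpr ⟨⟨x, hBM hx⟩, hP (Subgroup.mem_subgroupOf.mpr hx), rfl⟩)
  · have h3 : IsPGroup p (((U : Subgroup G) ⊓ M).subgroupOf M) :=
      (U.2.to_le inf_le_left).comap_subtype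
    have h4 : (P : Subgroup M) ≤ ((U : Subgroup G) ⊓ M).subgroupOf M := by
      intro x hx
      rw [Subgroup.mem_subgroupOf]
      exact ⟨hU (Subgroup.mem_map_of_mem _ hx), x.2⟩
    have h5 := P.is_maximal' h3 h4
    unfold SylIn
    rw [← Nat.card_congr (Subgroup.subgroupOfEquivOfLe
      (inf_le_right : (U : Subgroup G) ⊓ M ≤ M)).toEquiv, h5]
    exact P.card_eq_multiplicity

theorem smul_inf_eq {G : Type*} [Group G] (p : ℕ) (U : Sylow p G) (M : Subgroup G) (m : G)
    (hm : m ∈ M) :
    ((m • U : Sylow p G) : Subgroup G) ⊓ M =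
      ((U : Subgroup G) ⊓ M).map (MulAut.conj m).toMonoidHom := by
  rw [sylow_smul_coe, Subgroup.map_inf _ _ _ (MulAut.conj m).injective, map_conj_self M m hm]

theorem sylIn_smul {G : Type*} [Group G] [Finite G] (p : ℕ) (U : Sylow p G) (M : Subgroup G)
    (m : G) (hm : m ∈ M) (h : SylIn p (U : Subgroup G) M) :
    SylIn p ((m • U : Sylow p G) : Subgroup G) M := by
  unfold SylIn at h ⊢
  rw [smul_inf_eq p U M m hm, Subgroup.card_map_of_injective (MulAut.conj m).injective]
  exact h

theorem sylIn_of_le {G : Type*} [Group G] [Finite G] (p : ℕ) [Fact p.Prime] (U : Sylow p G)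
    (L : Subgroup G) (h : (U : Subgroup G) ≤ L) : SylIn p (U : Subgroup G) L := by
  unfold SylIn
  rw [inf_eq_left.2 h]
  have h1 := U.card_eq_multiplicity
  have h2 : (Nat.card ↥L).factorization p = (Nat.card G).factorization p := by
    apply le_antisymm
    · exact (Nat.factorization_le_iff_dvd Nat.card_pos.ne' Nat.card_pos.ne').2
        (Subgroup.card_subgroup_dvd_card L) p
    · have h3 : p ^ (Nat.card G).factorization p ∣ Nat.card ↥L := by
        rw [← h1]; exact Subgroup.card_dvd_of_le h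
      exact (Nat.Prime.pow_dvd_iff_le_factorization Fact.out Nat.card_pos.ne').1 h3
  rw [h2]; exact h1

theorem toSylowIn {G : Type*} [Group G] [Finite G] (p : ℕ) [Fact p.Prime] (U M : Subgroup G)
    (hU : SylIn p U M) : ∃ P : Sylow p ↥M, (P : Subgroup ↥M).map M.subtype = U ⊓ M := by
  have h1 : Nat.card ↥((U ⊓ M).subgroupOf M) = p ^ (Nat.card ↥M).factorization p := by
    rw [← hU]
    exact Nat.card_congr (Subgroup.subgroupOfEquivOfLe inf_le_right).toEquiv
  refine ⟨Sylow.ofCard _ h1, ?_⟩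
  rw [Sylow.coe_ofCard, Subgroup.subgroupOf_map_subtype]
  simp

theorem map_subtype_conj {G : Type*} [Group G] (M : Subgroup G) (H : Subgroup ↥M) (m : ↥M) :
    (H.map (MulAut.conj m).toMonoidHom).map M.subtype =
      (H.map M.subtype).map (MulAut.conj (m : G)).toMonoidHom := by
  rw [Subgroup.map_map, Subgroup.map_map]
  congr 1

theorem map_subtype_smul {G : Type*} [Group G] (p : ℕ) (M : Subgroup G) (P : Sylow p ↥M)
    (m : ↥M) :
    ((m • P : Sylow p ↥M) : Subgroup ↥M).map M.subtype =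
      ((P : Subgroup ↥M).map M.subtype).map (MulAut.conj (m : G)).toMonoidHom := by
  rw [sylow_smul_coe]
  exact map_subtype_conj M _ m

theorem exists_conj_sylIn {G : Type*} [Group G] [Finite G] (p : ℕ) [Fact p.Prime]
    (U V : Sylow p G) (M : Subgroup G)
    (hU : SylIn p (U : Subgroup G) M) (hV : SylIn p (V : Subgroup G) M) :
    ∃ m ∈ M, ((m • U : Sylow p G) : Subgroup G) ⊓ M = (V : Subgroup G) ⊓ M := by
  obtain ⟨P, hP⟩ := toSylowIn p (U : Subgroup G) M hU
  obtain ⟨Q, hQ⟩ := toSylowIn p (V : Subgroup G) M hV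
  obtain ⟨m, hm⟩ := MulAction.exists_smul_eq M P Q
  refine ⟨m, m.2, ?_⟩
  rw [smul_inf_eq p U M m m.2, ← hP, ← hQ, ← hm]
  exact (map_subtype_smul p M P m).symm

theorem exists_maximal_pLocal {G : Type*} [Group G] [Finite G] (p : ℕ) (N : Subgroup G)
    (hN : Cfsg.IsPLocal p N) : ∃ M, N ≤ M ∧ Cfsg.IsMaximalPLocal p M := by
  obtain ⟨M, hNM, hM⟩ := Finite.exists_le_maximal (p := fun L : Subgroup G => Cfsg.IsPLocal p L) hN
  refine ⟨M, hNM, hM.1, ?_⟩
  intro L hL hML
  exact le_antisymm (hM.2 hL hML) hML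

theorem mem_of_coe_mem_map {G : Type*} [Group G] (M : Subgroup G) (H : Subgroup ↥M) (z : ↥M)
    (h : (z : G) ∈ H.map M.subtype) : z ∈ H := by
  obtain ⟨z', hz', hzz⟩ := h
  have h1 : z' = z := Subtype.ext hzz
  rw [← h1]; exact hz'

theorem member_struct {G : Type*} [Group G] [Finite G] (p : ℕ) [Fact p.Prime]
    (f : Subgroup G → Set (Subgroup G)) (hf : Cfsg.IsNormalizerFunctor p f) (M : Subgroup G)
    (c : Sylow p ↥M) (X : Subgroup ↥M)
    (hX : X ∈ Cfsg.sylowMembers p
      ((fun X : Subgroup G => X.subgroupOf M) '' Cfsg.functorFamily p f M) (c : Subgroup ↥M)) :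
    ∃ F, F ∈ f ((c : Subgroup ↥M).map M.subtype) ∧
      X = (M ⊓ Subgroup.normalizer (F : Set G)).subgroupOf M := by
  rw [mem_sylowMembers_iff] at hX
  obtain ⟨⟨X0, ⟨P', F, hF, hX0⟩, hXX0⟩, hcard⟩ := hX
  have hP'G : IsPGroup p ↥((P' : Subgroup ↥M).map M.subtype) := P'.2.map _
  obtain ⟨hFle, hFn⟩ := (hf _ hP'G).1 F hF
  have hXeq : X = (M ⊓ Subgroup.normalizer (F : Set G)).subgroupOf M := by rw [← hXX0, hX0]
  have hP'X : (P' : Subgroup ↥M) ≤ X := by
    intro z hz
    rw [hXeq, Subgroup.mem_subgroupOf]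
    refine ⟨z.2, hFn (Subgroup.le_normalizer ?_)⟩
    exact Subgroup.mem_map_of_mem _ hz
  have hcX : (c : Subgroup ↥M) ≤ X := by
    have h1 : Nat.card ↥(P' : Subgroup ↥M) = p ^ (Nat.card ↥M).factorization p :=
      P'.card_eq_multiplicity
    have h2 : Nat.card ↥(c : Subgroup ↥M) = p ^ (Nat.card ↥M).factorization p :=
      c.card_eq_multiplicity
    have h3 : p ^ (Nat.card ↥M).factorization p ∣ Nat.card ↥X := by
      rw [← h1]; exact Subgroup.card_dvd_of_le hP'X
    have h4 : (Nat.card ↥M).factorization p ≤ (Nat.card ↥X).factorization p :=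
      (Nat.Prime.pow_dvd_iff_le_factorization Fact.out Nat.card_pos.ne').1 h3
    have h5 : Nat.card ↥(c : Subgroup ↥M) ≤ Nat.card ↥((c : Subgroup ↥M) ⊓ X) := by
      rw [hcard, h2]; exact Nat.pow_le_pow_right (Fact.out : p.Prime).pos h4
    have h6 := Subgroup.eq_of_le_of_card_ge (inf_le_left : (c : Subgroup ↥M) ⊓ X ≤ c) h5
    rw [← h6]; exact inf_le_right
  obtain ⟨n, hn, hnc⟩ := sylow_conj_in_subgroup X c P' hcX hP'X
  refine ⟨F, ?_, hXeq⟩
  have h7 : ((c : Subgroup ↥M)).map M.subtype =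
      ((P' : Subgroup ↥M).map M.subtype).map (MulAut.conj (n : G)).toMonoidHom := by
    rw [← hnc]; exact map_subtype_smul p M P' n
  rw [h7, (hf _ hP'G).2 (n : G)]
  refine ⟨F, hF, ?_⟩
  apply map_conj_eq_of_mem_normalizer
  rw [hXeq, Subgroup.mem_subgroupOf] at hn
  exact hn.2

theorem claim {G : Type*} [Group G] [Finite G] (p : ℕ) [Fact p.Prime]
    (f : Subgroup G → Set (Subgroup G)) (hf : Cfsg.IsNormalizerFunctor p f)
    (hf1 : ∀ P : Subgroup G, IsPGroup p ↥P → P ≠ ⊥ → ∀ F ∈ f P, F ≠ ⊥)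
    (𝓕 𝓕' : Set (Subgroup G)) (h𝓕 : 𝓕 = Cfsg.functorFamily p f ⊤)
    (h𝓕' : 𝓕' = {M | Cfsg.IsMaximalPLocal p M ∧ ¬ Cfsg.IsFunctorRegular p f M})
    (D : Subgroup G) (hD : D ≠ ⊥) (e : ℕ)
    (hbig : ∀ (S' T' : Sylow p G) (B : Subgroup G), B ≤ (S' : Subgroup G) →
      B ≤ (T' : Subgroup G) → e < Nat.card ↥B → D ≤ B →
      Relation.ReflTransGen (Step p (𝓕 ∪ 𝓕') D) S' T') :
    ∀ n : ℕ, ∀ M : Subgroup G, Cfsg.IsMaximalPLocal p M →
      Nat.card G - p ^ (Nat.card ↥M).factorization p = n →
      e < p ^ (Nat.card ↥M).factorization p → D ≤ M →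
      ∀ U V : Sylow p G, SylIn p (U : Subgroup G) M → SylIn p (V : Subgroup G) M →
        D ≤ (U : Subgroup G) → D ≤ (V : Subgroup G) →
        Relation.ReflTransGen (Step p (𝓕 ∪ 𝓕') D) U V := by
  intro n
  induction n using Nat.strong_induction_on with
  | _ n ih =>
    intro M hM hn he hDM U V hU hV hDU hDV
    by_cases hreg : Cfsg.IsFunctorRegular p f M
    · obtain ⟨P, hP⟩ := toSylowIn p (U : Subgroup G) M hU
      obtain ⟨Q, hQ⟩ := toSylowIn p (V : Subgroup G) M hV
      by_cases hPQ : P = Q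
      · have h1 : (U : Subgroup G) ⊓ M = (V : Subgroup G) ⊓ M := by rw [← hP, ← hQ, hPQ]
        exact hbig U V ((U : Subgroup G) ⊓ M) inf_le_left (by rw [h1]; exact inf_le_left)
          (by rw [hU]; exact he) (le_inf hDU hDM)
      · have hDP : D.subgroupOf M ≤ (P : Subgroup ↥M) := by
          intro z hz
          rw [Subgroup.mem_subgroupOf] at hz
          apply mem_of_coe_mem_map
          rw [hP]; exact ⟨hDU hz, z.2⟩
        have hDQ : D.subgroupOf M ≤ (Q : Subgroup ↥M) := by
          intro z hz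
          rw [Subgroup.mem_subgroupOf] at hz
          apply mem_of_coe_mem_map
          rw [hQ]; exact ⟨hDV hz, z.2⟩
        have hinf : (P : Subgroup ↥M) ⊓ (Q : Subgroup ↥M) ≠ ⊥ := by
          intro hcon
          apply hD
          have h1 : D.subgroupOf M ≤ ⊥ := by rw [← hcon]; exact le_inf hDP hDQ
          rw [eq_bot_iff]
          intro z hz
          have h2 : (⟨z, hDM hz⟩ : ↥M) ∈ (⊥ : Subgroup ↥M) :=
            h1 (by rw [Subgroup.mem_subgroupOf]; exact hz)
          rw [Subgroup.mem_bot] at h2 ⊢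
          exact congrArg Subtype.val h2
        obtain ⟨k, c, X, x, hc0, hcl, hall⟩ := hreg P Q hPQ hinf
        have hDc : ∀ i : Fin (k + 1), D.subgroupOf M ≤ (c i : Subgroup ↥M) := by
          intro i
          refine Fin.cases ?_ (fun j => ?_) i
          · rw [hc0]; exact hDP
          · exact le_trans (le_inf hDP hDQ) (le_trans (hall j).2.2.2.2 inf_le_left)
        have hDcG : ∀ i : Fin (k + 1), D ≤ (c i : Subgroup ↥M).map M.subtype := by
          intro i z hz
          exact Subgroup.mem_map.mpr ⟨⟨z, hDM hz⟩, hDc i (Subgroup.mem_subgroupOf.mpr hz), rfl⟩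
        have key : ∀ i : Fin (k + 1), ∃ Ui : Sylow p G,
            (Ui : Subgroup G) ⊓ M = (c i : Subgroup ↥M).map M.subtype ∧
            Relation.ReflTransGen (Step p (𝓕 ∪ 𝓕') D) U Ui := by
          intro i
          induction i using Fin.induction with
          | zero => exact ⟨U, by rw [hc0, hP], Relation.ReflTransGen.refl⟩
          | succ i ihi =>
            obtain ⟨Ui, hUi, hRi⟩ := ihi
            obtain ⟨hX1, hX2, hx, hconj, hle⟩ := hall i
            obtain ⟨F, hF, hXeq⟩ := member_struct p f hf M (c i.castSucc) (X i) hX1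
            have hDPi := hDcG i.castSucc
            have hDPj := hDcG i.succ
            obtain ⟨Pi, hPi⟩ : ∃ Pi : Subgroup G,
              Pi = (c i.castSucc : Subgroup ↥M).map M.subtype := ⟨_, rfl⟩
            obtain ⟨Pj, hPj⟩ : ∃ Pj : Subgroup G,
              Pj = (c i.succ : Subgroup ↥M).map M.subtype := ⟨_, rfl⟩
            rw [← hPi] at hUi hF hDPi
            rw [← hPj] at hDPj
            have hPip : IsPGroup p ↥Pi := by rw [hPi]; exact (c i.castSucc).2.map _
            obtain ⟨hFle, hFn⟩ := (hf Pi hPip).1 F hF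
            have hxM : (x i : G) ∈ M := (x i).2
            have hxL : (x i : G) ∈ Subgroup.normalizer (F : Set G) := by
              have h1 := hx
              rw [hXeq, Subgroup.mem_subgroupOf] at h1
              exact h1.2
            have hPij : Pj = Pi.map (MulAut.conj (x i : G)).toMonoidHom := by
              unfold Cfsg.subgroupConjRight at hconj
              rw [hPi, hPj, ← hconj, map_subtype_conj, map_conj_mul, Subgroup.coe_inv,
                mul_inv_cancel, map_conj_one]
            have hcardPi : Nat.card ↥Pi = p ^ (Nat.card ↥M).factorization p := by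
              rw [hPi, Subgroup.card_map_of_injective M.subtype_injective]
              exact (c i.castSucc).card_eq_multiplicity
            have hPine : Pi ≠ ⊥ := by
              intro hcon; apply hD; rw [eq_bot_iff, ← hcon]; exact hDPi
            have hFne : F ≠ ⊥ := hf1 Pi hPip hPine F hF
            have hFp : IsPGroup p ↥F := hPip.to_le hFle
            have hUj : (((x i : G) • Ui : Sylow p G) : Subgroup G) ⊓ M = Pj := by
              rw [smul_inf_eq p Ui M _ hxM, hUi, hPij]
            refine ⟨(x i : G) • Ui, by rw [hUj, hPj], hRi.trans ?_⟩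
            by_cases hUM : (Ui : Subgroup G) ≤ M
            · have hUiP : (Ui : Subgroup G) = Pi := by
                rw [← hUi]; exact (inf_eq_left.2 hUM).symm
              have hL𝓕 : Subgroup.normalizer (F : Set G) ∈ 𝓕 ∪ 𝓕' := by
                left
                rw [h𝓕]
                obtain ⟨P0, hP0⟩ := toSylowIn p (Ui : Subgroup G) ⊤ (sylIn_of_le p Ui ⊤ le_top)
                refine ⟨P0, F, ?_, by simp⟩
                rw [hP0, inf_top_eq, hUiP]; exact hF
              have hUiL : (Ui : Subgroup G) ≤ Subgroup.normalizer (F : Set G) := by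
                rw [hUiP]; exact le_trans Subgroup.le_normalizer hFn
              have hUjL : (((x i : G) • Ui : Sylow p G) : Subgroup G) ≤
                  Subgroup.normalizer (F : Set G) := by
                rw [sylow_smul_coe]
                intro z hz
                rw [mem_map_conj_iff] at hz
                have h1 : z = (x i : G) * ((x i : G)⁻¹ * z * (x i : G)) * (x i : G)⁻¹ := by group
                rw [h1]
                exact Subgroup.mul_mem _ (Subgroup.mul_mem _ hxL (hUiL hz))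
                  (Subgroup.inv_mem _ hxL)
              apply Relation.ReflTransGen.single
              refine ⟨Subgroup.normalizer (F : Set G), ?_, ?_, (x i : G), hxL, ?_, ?_⟩
              · rw [mem_sylowMembers_iff]; exact ⟨hL𝓕, sylIn_of_le p Ui _ hUiL⟩
              · rw [mem_sylowMembers_iff]; exact ⟨hL𝓕, sylIn_of_le p _ _ hUjL⟩
              · unfold Cfsg.subgroupConjRight
                rw [sylow_smul_coe, map_conj_mul, inv_mul_cancel, map_conj_one]
              · have h2 : D ≤ (((x i : G) • Ui : Sylow p G) : Subgroup G) := by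
                  refine le_trans hDPj ?_
                  rw [← hUj]; exact inf_le_left
                exact le_inf h2 (le_trans h2 hUjL)
            · have hlt : Pi < (Ui : Subgroup G) := by
                refine lt_of_le_of_ne (by rw [← hUi]; exact inf_le_left) ?_
                intro hcon
                apply hUM
                rw [← hcon, ← hUi]; exact inf_le_right
              obtain ⟨R, hR⟩ : ∃ R : Subgroup G,
                R = (Ui : Subgroup G) ⊓ Subgroup.normalizer (Pi : Set G) := ⟨_, rfl⟩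
              have hcardR : Nat.card ↥Pi < Nat.card ↥R := by
                rw [hR]; exact card_lt_card_inf_normalizer Ui.2 hlt
              have hPiR : Pi ≤ R := by rw [hR]; exact le_inf hlt.le Subgroup.le_normalizer
              have hRUi : R ≤ (Ui : Subgroup G) := by rw [hR]; exact inf_le_left
              have hRL : R ≤ Subgroup.normalizer (F : Set G) := by
                rw [hR]; exact le_trans inf_le_right hFn
              have hRp : IsPGroup p ↥R := Ui.2.to_le hRUi
              have hLloc : Cfsg.IsPLocal p (Subgroup.normalizer (F : Set G)) :=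
                ⟨F, hFp, hFne, rfl⟩
              obtain ⟨M1, hLM1, hM1⟩ := exists_maximal_pLocal p _ hLloc
              obtain ⟨W, hRW, hW⟩ := exists_sylow_ge_in p M1 R hRp (le_trans hRL hLM1)
              have hM1card : p ^ (Nat.card ↥M).factorization p <
                  p ^ (Nat.card ↥M1).factorization p := by
                rw [← hcardPi, ← hW]
                exact lt_of_lt_of_le hcardR
                  (Subgroup.card_le_of_le (le_inf hRW (le_trans hRL hLM1)))
              have hM1le : p ^ (Nat.card ↥M1).factorization p ≤ Nat.card G := by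
                rw [← hW]; exact Subgroup.card_le_card_group _
              have hxM1 : (x i : G) ∈ M1 := hLM1 hxL
              have hW' := sylIn_smul p W M1 (x i : G) hxM1 hW
              have hDR : D ≤ R := le_trans hDPi hPiR
              have hRx : ∀ (Z : Sylow p G), R ≤ (Z : Subgroup G) →
                  R.map (MulAut.conj (x i : G)).toMonoidHom ≤
                    (((x i : G) • Z : Sylow p G) : Subgroup G) := by
                intro Z hZ
                rw [sylow_smul_coe]; exact Subgroup.map_mono hZ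
              have hDRx : D ≤ R.map (MulAut.conj (x i : G)).toMonoidHom := by
                refine le_trans hDPj ?_
                rw [hPij]; exact Subgroup.map_mono hPiR
              have hcardRx : e < Nat.card ↥(R.map (MulAut.conj (x i : G)).toMonoidHom) := by
                rw [Subgroup.card_map_of_injective (MulAut.conj (x i : G)).injective]; omega
              have s1 := hbig Ui W R hRUi hRW (by omega) hDR
              have s2 := ih _ (by omega) M1 hM1 rfl (by omega)
                (le_trans hDR (le_trans hRL hLM1)) W ((x i : G) • W) hW hW'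
                (le_trans hDR hRW) (le_trans hDRx (hRx W hRW))
              have s3 := hbig ((x i : G) • W) ((x i : G) • Ui) _ (hRx W hRW) (hRx Ui hRUi)
                hcardRx hDRx
              exact s1.trans (s2.trans s3)
        obtain ⟨Uk, hUk, hRk⟩ := key (Fin.last k)
        rw [hcl, hQ] at hUk
        exact hRk.trans (hbig Uk V ((V : Subgroup G) ⊓ M) (by rw [← hUk]; exact inf_le_left)
          inf_le_left (by rw [hV]; exact he) (le_inf hDV hDM))
    · have hM𝓕 : M ∈ 𝓕 ∪ 𝓕' := by right; rw [h𝓕']; exact ⟨hM, hreg⟩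
      obtain ⟨m, hm, hmU⟩ := exists_conj_sylIn p U V M hU hV
      have hstep : Step p (𝓕 ∪ 𝓕') D U (m • U) := by
        refine ⟨M, ?_, ?_, m, hm, ?_, ?_⟩
        · rw [mem_sylowMembers_iff]; exact ⟨hM𝓕, hU⟩
        · rw [mem_sylowMembers_iff]; exact ⟨hM𝓕, sylIn_smul p U M m hm hU⟩
        · unfold Cfsg.subgroupConjRight
          rw [sylow_smul_coe, map_conj_mul, inv_mul_cancel, map_conj_one]
        · refine le_inf ?_ hDM
          have h1 : D ≤ ((m • U : Sylow p G) : Subgroup G) ⊓ M := by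
            rw [hmU]; exact le_inf hDV hDM
          exact le_trans h1 inf_le_left
      exact (Relation.ReflTransGen.single hstep).trans
        (hbig (m • U) V ((V : Subgroup G) ⊓ M) (by rw [← hmU]; exact inf_le_left) inf_le_left
          (by rw [hV]; exact he) (le_inf hDV hDM))

theorem main {G : Type*} [Group G] [Finite G] (p : ℕ) [Fact p.Prime]
    (f : Subgroup G → Set (Subgroup G)) (hf : Cfsg.IsNormalizerFunctor p f)
    (hf1 : ∀ P : Subgroup G, IsPGroup p ↥P → P ≠ ⊥ → ∀ F ∈ f P, F ≠ ⊥)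
    (𝓕 𝓕' : Set (Subgroup G)) (h𝓕 : 𝓕 = Cfsg.functorFamily p f ⊤)
    (h𝓕' : 𝓕' = {M | Cfsg.IsMaximalPLocal p M ∧ ¬ Cfsg.IsFunctorRegular p f M}) :
    ∀ n : ℕ, ∀ S T : Sylow p G,
      Nat.card G - Nat.card ↥((S : Subgroup G) ⊓ (T : Subgroup G)) = n →
      (S : Subgroup G) ⊓ (T : Subgroup G) ≠ ⊥ →
      Relation.ReflTransGen (Step p (𝓕 ∪ 𝓕') ((S : Subgroup G) ⊓ (T : Subgroup G))) S T := by
  intro n
  induction n using Nat.strong_induction_on with
  | _ n ih =>
    intro S T hn hinf
    by_cases hST : S = T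
    · subst hST; exact Relation.ReflTransGen.refl
    obtain ⟨D, hD⟩ : ∃ D : Subgroup G, D = (S : Subgroup G) ⊓ (T : Subgroup G) := ⟨_, rfl⟩
    rw [← hD] at hn hinf ⊢
    have hDS : D ≤ (S : Subgroup G) := by rw [hD]; exact inf_le_left
    have hDT : D ≤ (T : Subgroup G) := by rw [hD]; exact inf_le_right
    have hcardle : ∀ H : Subgroup G, Nat.card ↥H ≤ Nat.card G :=
      fun H => Subgroup.card_le_card_group H
    have hbig : ∀ (S' T' : Sylow p G) (B : Subgroup G), B ≤ (S' : Subgroup G) →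
        B ≤ (T' : Subgroup G) → Nat.card ↥D < Nat.card ↥B → D ≤ B →
        Relation.ReflTransGen (Step p (𝓕 ∪ 𝓕') D) S' T' := by
      intro S' T' B hBS hBT hcard hDB
      have h1 : Nat.card ↥B ≤ Nat.card ↥((S' : Subgroup G) ⊓ (T' : Subgroup G)) :=
        Subgroup.card_le_of_le (le_inf hBS hBT)
      have h2 : (S' : Subgroup G) ⊓ (T' : Subgroup G) ≠ ⊥ := by
        intro hcon
        rw [hcon, Subgroup.card_bot] at h1
        have h3 := Nat.card_pos (α := ↥D)
        omega
      have h4 := hcardle ((S' : Subgroup G) ⊓ (T' : Subgroup G))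
      have h5 := hcardle D
      have h3 := ih _ (by omega) S' T' rfl h2
      exact Relation.ReflTransGen.mono
        (fun a b => step_mono p (𝓕 ∪ 𝓕') (le_trans hDB (le_inf hBS hBT)) a b) _ _ h3
    have hltS : D < (S : Subgroup G) := by rw [hD]; exact sylow_inf_lt_left (Ne.symm hST)
    have hltT : D < (T : Subgroup G) := by rw [hD]; exact sylow_inf_lt_right (Ne.symm hST)
    obtain ⟨RS, hRS⟩ : ∃ RS : Subgroup G,
      RS = (S : Subgroup G) ⊓ Subgroup.normalizer (D : Set G) := ⟨_, rfl⟩
    obtain ⟨RT, hRT⟩ : ∃ RT : Subgroup G,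
      RT = (T : Subgroup G) ⊓ Subgroup.normalizer (D : Set G) := ⟨_, rfl⟩
    have hcS : Nat.card ↥D < Nat.card ↥RS := by
      rw [hRS]; exact card_lt_card_inf_normalizer S.2 hltS
    have hcT : Nat.card ↥D < Nat.card ↥RT := by
      rw [hRT]; exact card_lt_card_inf_normalizer T.2 hltT
    have hDp : IsPGroup p ↥D := S.2.to_le hDS
    have hNloc : Cfsg.IsPLocal p (Subgroup.normalizer (D : Set G)) := ⟨D, hDp, hinf, rfl⟩
    obtain ⟨M, hNM, hM⟩ := exists_maximal_pLocal p _ hNloc
    have hRSM : RS ≤ M := by rw [hRS]; exact le_trans inf_le_right hNM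
    have hRTM : RT ≤ M := by rw [hRT]; exact le_trans inf_le_right hNM
    have hRSS : RS ≤ (S : Subgroup G) := by rw [hRS]; exact inf_le_left
    have hRTT : RT ≤ (T : Subgroup G) := by rw [hRT]; exact inf_le_left
    obtain ⟨U, hRSU, hU⟩ := exists_sylow_ge_in p M RS (S.2.to_le hRSS) hRSM
    obtain ⟨V, hRTV, hV⟩ := exists_sylow_ge_in p M RT (T.2.to_le hRTT) hRTM
    have hDRS : D ≤ RS := by rw [hRS]; exact le_inf hDS Subgroup.le_normalizer
    have hDRT : D ≤ RT := by rw [hRT]; exact le_inf hDT Subgroup.le_normalizer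
    have s1 := hbig S U RS hRSS hRSU hcS hDRS
    have s3 := hbig V T RT hRTV hRTT hcT hDRT
    have heM : Nat.card ↥D < p ^ (Nat.card ↥M).factorization p := by
      rw [← hU]; exact lt_of_lt_of_le hcS (Subgroup.card_le_of_le (le_inf hRSU hRSM))
    have s2 := claim p f hf hf1 𝓕 𝓕' h𝓕 h𝓕' D hinf (Nat.card ↥D) hbig _ M hM rfl heM
      (le_trans hDRS hRSM) U V hU hV (le_trans hDRS hRSU) (le_trans hDRT hRTV)
    exact s1.trans (s2.trans s3)

theorem result {G : Type*} [Group G] [Finite G] (p : ℕ) [Fact p.Prime] (hdiv : p ∣ Nat.card G)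
    (f : Subgroup G → Set (Subgroup G)) (hf : Cfsg.IsNormalizerFunctor p f)
    (hf1 : ∀ P : Subgroup G, IsPGroup p ↥P → P ≠ ⊥ → ∀ F ∈ f P, F ≠ ⊥)
    (𝓕 𝓕' : Set (Subgroup G)) (h𝓕 : 𝓕 = Cfsg.functorFamily p f ⊤)
    (h𝓕' : 𝓕' = {M | Cfsg.IsMaximalPLocal p M ∧ ¬ Cfsg.IsFunctorRegular p f M}) :
    Cfsg.ControlsSylowIntersections p (𝓕 ∪ 𝓕') := by
  intro S T hne hinf
  have h1 := main p f hf hf1 𝓕 𝓕' h𝓕 h𝓕' _ S T rfl hinf
  obtain ⟨n, c, h0, hl, hr⟩ := chain_of_rtg _ S T h1
  unfold Step at hr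
  choose X hX1 hX2 x hx hconj hle using hr
  exact ⟨n, c, X, x, h0, hl, fun i => ⟨hX1 i, hX2 i, hx i, hconj i, hle i⟩⟩

end Cfsg.Agent.S2956
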