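import Cfsg.Statements.S2957
import Mathlib
import Cfsg.Agent.Lib.Helper5.SylCtl
import Cfsg.Agent.S2956
import Cfsg.Agent.S2940

set_option autoImplicit false
open Cfsg

namespace Cfsg.Agent.S2957

open Cfsg.Agent.Lib.Helper5.SylCtl Cfsg.Agent.Lib.Helper1 Cfsg.Agent.S2956

theorem family_mem {G : Type*} [Group G] [Finite G] (p : ℕ) [Fact p.Prime]
    (f : Subgroup G → Set (Subgroup G)) (U : Sylow p G) (F : Subgroup G)
    (hF : F ∈ f (U : Subgroup G)) :
    Subgroup.normalizer (F : Set G) ∈ Cfsg.functorFamily p f ⊤ := by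
  obtain ⟨P0, hP0⟩ := toSylowIn p (U : Subgroup G) ⊤ (sylIn_of_le p U ⊤ le_top)
  refine ⟨P0, F, ?_, by simp⟩
  rw [hP0, inf_top_eq]; exact hF

theorem family_normal {G : Type*} [Group G] [Finite G] (p : ℕ) [Fact p.Prime]
    (f : Subgroup G → Set (Subgroup G)) (hf : Cfsg.IsNormalizerFunctor p f) :
    Cfsg.IsNormalSet (Cfsg.functorFamily p f ⊤) := by
  rintro X ⟨P0, F, hF, rfl⟩ g
  have hcard : Nat.card ↥((P0 : Subgroup ↥(⊤ : Subgroup G)).map (⊤ : Subgroup G).subtype) =
      p ^ (Nat.card G).factorization p := by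
    rw [Subgroup.card_map_of_injective (Subgroup.subtype_injective _), P0.card_eq_multiplicity,
      Subgroup.card_top]
  obtain ⟨U, hU⟩ : ∃ U : Sylow p G, (U : Subgroup G) =
      (P0 : Subgroup ↥(⊤ : Subgroup G)).map (⊤ : Subgroup G).subtype :=
    ⟨Sylow.ofCard _ hcard, Sylow.coe_ofCard _ hcard⟩
  rw [← hU] at hF
  unfold Cfsg.subgroupConjRight
  rw [top_inf_eq]
  have h1 : (Subgroup.normalizer (F : Set G)).map (MulAut.conj g⁻¹).toMonoidHom =
      Subgroup.normalizer ((F.map (MulAut.conj g⁻¹).toMonoidHom : Subgroup G) : Set G) :=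
    Subgroup.map_equiv_normalizer_eq F (MulAut.conj g⁻¹)
  rw [h1]
  apply family_mem p f (g⁻¹ • U)
  rw [sylow_smul_coe, (hf _ U.2).2 g⁻¹]
  exact ⟨F, hF, rfl⟩

theorem step_conj {G : Type*} [Group G] [Finite G] (p : ℕ) [Fact p.Prime]
    (𝓕 : Set (Subgroup G)) (h𝓕 : Cfsg.IsNormalSet 𝓕) (D : Subgroup G) (a : G)
    (U V : Sylow p G) (h : Step p 𝓕 D U V) :
    Step p 𝓕 (D.map (MulAut.conj a).toMonoidHom) (a • U) (a • V) := by
  obtain ⟨X, h1, h2, x, hx, hc, hle⟩ := h
  refine ⟨X.map (MulAut.conj a).toMonoidHom, ?_, ?_, a * x * a⁻¹, ?_, ?_, ?_⟩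
  · rw [sylow_smul_coe]; exact sylowMembers_map_conj p 𝓕 h𝓕 _ _ a h1
  · rw [sylow_smul_coe]; exact sylowMembers_map_conj p 𝓕 h𝓕 _ _ a h2
  · exact ⟨x, hx, rfl⟩
  · unfold Cfsg.subgroupConjRight at hc ⊢
    rw [sylow_smul_coe, sylow_smul_coe, map_conj_mul, ← hc, map_conj_mul]
    have h3 : (a * x * a⁻¹)⁻¹ * a = a * x⁻¹ := by group
    rw [h3]
  · rw [sylow_smul_coe, ← Subgroup.map_inf _ _ _ (MulAut.conj a).injective]
    exact Subgroup.map_mono hle

theorem chain_in {G : Type*} [Group G] [Finite G] (p : ℕ) [Fact p.Prime]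
    (f : Subgroup G → Set (Subgroup G)) (hf : Cfsg.IsNormalizerFunctor p f)
    (M : Subgroup G) (hreg : Cfsg.IsFunctorRegular p f M) (U V : Sylow p G)
    (hU : (U : Subgroup G) ≤ M) (hV : (V : Subgroup G) ≤ M) (hne : U ≠ V)
    (hinf : (U : Subgroup G) ⊓ (V : Subgroup G) ≠ ⊥) :
    Relation.ReflTransGen (Step p (Cfsg.functorFamily p f ⊤)
      ((U : Subgroup G) ⊓ (V : Subgroup G))) U V := by
  obtain ⟨P, hP⟩ : ∃ P : Sylow p ↥M, (P : Subgroup ↥M) = (U : Subgroup G).subgroupOf M :=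
    ⟨U.subtype hU, Sylow.coe_subtype U hU⟩
  obtain ⟨Q, hQ⟩ : ∃ Q : Sylow p ↥M, (Q : Subgroup ↥M) = (V : Subgroup G).subgroupOf M :=
    ⟨V.subtype hV, Sylow.coe_subtype V hV⟩
  have hPm : (P : Subgroup ↥M).map M.subtype = U := by
    rw [hP, Subgroup.subgroupOf_map_subtype, inf_eq_left.2 hU]
  have hQm : (Q : Subgroup ↥M).map M.subtype = V := by
    rw [hQ, Subgroup.subgroupOf_map_subtype, inf_eq_left.2 hV]
  have hPQ : P ≠ Q := by
    intro h
    apply hne
    apply Sylow.ext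
    rw [← hPm, ← hQm, h]
  have hinf' : (P : Subgroup ↥M) ⊓ (Q : Subgroup ↥M) ≠ ⊥ := by
    intro hcon
    apply hinf
    rw [eq_bot_iff]
    intro z hz
    have hz' := Subgroup.mem_inf.1 hz
    have h1 : (⟨z, hU hz'.1⟩ : ↥M) ∈ (P : Subgroup ↥M) ⊓ (Q : Subgroup ↥M) := by
      rw [hP, hQ]
      exact Subgroup.mem_inf.2 ⟨Subgroup.mem_subgroupOf.2 hz'.1, Subgroup.mem_subgroupOf.2 hz'.2⟩
    rw [hcon, Subgroup.mem_bot] at h1
    rw [Subgroup.mem_bot]
    exact congrArg Subtype.val h1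
  obtain ⟨k, c, X, x, hc0, hcl, hall⟩ := hreg P Q hPQ hinf'
  have key : ∀ i : Fin (k + 1), ∃ Ui : Sylow p G,
      (Ui : Subgroup G) = (c i : Subgroup ↥M).map M.subtype ∧
      Relation.ReflTransGen (Step p (Cfsg.functorFamily p f ⊤)
        ((U : Subgroup G) ⊓ (V : Subgroup G))) U Ui := by
    intro i
    induction i using Fin.induction with
    | zero => exact ⟨U, by rw [hc0, hPm], Relation.ReflTransGen.refl⟩
    | succ i ihi =>
      obtain ⟨Ui, hUi, hRi⟩ := ihi
      obtain ⟨hX1, hX2, hx, hconj, hle⟩ := hall i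
      obtain ⟨F, hF, hXeq⟩ := member_struct p f hf M (c i.castSucc) (X i) hX1
      rw [← hUi] at hF
      obtain ⟨hFle, hFn⟩ := (hf _ Ui.2).1 F hF
      have hxL : (x i : G) ∈ Subgroup.normalizer (F : Set G) := by
        have h1 := hx
        rw [hXeq, Subgroup.mem_subgroupOf] at h1
        exact h1.2
      have hUj : (((x i : G) • Ui : Sylow p G) : Subgroup G) =
          (c i.succ : Subgroup ↥M).map M.subtype := by
        unfold Cfsg.subgroupConjRight at hconj
        rw [sylow_smul_coe, hUi, ← hconj, map_subtype_conj, map_conj_mul, Subgroup.coe_inv,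
          mul_inv_cancel, map_conj_one]
      refine ⟨(x i : G) • Ui, hUj, hRi.trans (Relation.ReflTransGen.single ?_)⟩
      have hUiL : (Ui : Subgroup G) ≤ Subgroup.normalizer (F : Set G) :=
        le_trans Subgroup.le_normalizer hFn
      have hUjL : (((x i : G) • Ui : Sylow p G) : Subgroup G) ≤
          Subgroup.normalizer (F : Set G) := by
        rw [sylow_smul_coe]
        intro z hz
        rw [mem_map_conj_iff] at hz
        have h1 : z = (x i : G) * ((x i : G)⁻¹ * z * (x i : G)) * (x i : G)⁻¹ := by group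
        rw [h1]
        exact Subgroup.mul_mem _ (Subgroup.mul_mem _ hxL (hUiL hz)) (Subgroup.inv_mem _ hxL)
      have hL𝓕 := family_mem p f Ui F hF
      refine ⟨Subgroup.normalizer (F : Set G), ?_, ?_, (x i : G), hxL, ?_, ?_⟩
      · rw [mem_sylowMembers_iff]; exact ⟨hL𝓕, sylIn_of_le p Ui _ hUiL⟩
      · rw [mem_sylowMembers_iff]; exact ⟨hL𝓕, sylIn_of_le p _ _ hUjL⟩
      · unfold Cfsg.subgroupConjRight
        rw [sylow_smul_coe, map_conj_mul, inv_mul_cancel, map_conj_one]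
      · intro d hd
        have hd' := Subgroup.mem_inf.1 hd
        have h1 : (⟨d, hU hd'.1⟩ : ↥M) ∈ (P : Subgroup ↥M) ⊓ (Q : Subgroup ↥M) := by
          rw [hP, hQ]
          exact Subgroup.mem_inf.2 ⟨Subgroup.mem_subgroupOf.2 hd'.1, Subgroup.mem_subgroupOf.2 hd'.2⟩
        have h2 := Subgroup.mem_inf.1 (hle h1)
        refine Subgroup.mem_inf.2 ⟨?_, ?_⟩
        · rw [hUj]; exact Subgroup.mem_map.2 ⟨_, h2.1, rfl⟩
        · have h3 := h2.2
          rw [hXeq, Subgroup.mem_subgroupOf] at h3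
          exact h3.2
  obtain ⟨Uk, hUk, hRk⟩ := key (Fin.last k)
  rw [hcl, hQm] at hUk
  have h9 : Uk = V := Sylow.ext hUk
  rw [h9] at hRk
  exact hRk

theorem regular_top {G : Type*} [Group G] [Finite G] (p : ℕ) [Fact p.Prime]
    (f : Subgroup G → Set (Subgroup G))
    (h : ∀ U V : Sylow p G, U ≠ V → (U : Subgroup G) ⊓ (V : Subgroup G) ≠ ⊥ →
      Relation.ReflTransGen (Step p (Cfsg.functorFamily p f ⊤)
        ((U : Subgroup G) ⊓ (V : Subgroup G))) U V) :
    Cfsg.IsFunctorRegular p f ⊤ := by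
  intro S' T' hne hinf
  have hcardS : Nat.card ↥((S' : Subgroup ↥(⊤ : Subgroup G)).map (⊤ : Subgroup G).subtype) =
      p ^ (Nat.card G).factorization p := by
    rw [Subgroup.card_map_of_injective (Subgroup.subtype_injective _), S'.card_eq_multiplicity,
      Subgroup.card_top]
  have hcardT : Nat.card ↥((T' : Subgroup ↥(⊤ : Subgroup G)).map (⊤ : Subgroup G).subtype) =
      p ^ (Nat.card G).factorization p := by
    rw [Subgroup.card_map_of_injective (Subgroup.subtype_injective _), T'.card_eq_multiplicity,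
      Subgroup.card_top]
  obtain ⟨U, hU⟩ : ∃ U : Sylow p G, (U : Subgroup G) =
      (S' : Subgroup ↥(⊤ : Subgroup G)).map (⊤ : Subgroup G).subtype :=
    ⟨Sylow.ofCard _ hcardS, Sylow.coe_ofCard _ hcardS⟩
  obtain ⟨V, hV⟩ : ∃ V : Sylow p G, (V : Subgroup G) =
      (T' : Subgroup ↥(⊤ : Subgroup G)).map (⊤ : Subgroup G).subtype :=
    ⟨Sylow.ofCard _ hcardT, Sylow.coe_ofCard _ hcardT⟩
  have hmemU : ∀ y : ↥(⊤ : Subgroup G), y ∈ (S' : Subgroup ↥(⊤ : Subgroup G)) ↔
      (y : G) ∈ (U : Subgroup G) := by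
    intro y
    rw [hU]
    constructor
    · intro hy; exact Subgroup.mem_map_of_mem _ hy
    · intro hy; exact mem_of_coe_mem_map _ _ _ hy
  have hmemV : ∀ y : ↥(⊤ : Subgroup G), y ∈ (T' : Subgroup ↥(⊤ : Subgroup G)) ↔
      (y : G) ∈ (V : Subgroup G) := by
    intro y
    rw [hV]
    constructor
    · intro hy; exact Subgroup.mem_map_of_mem _ hy
    · intro hy; exact mem_of_coe_mem_map _ _ _ hy
  have hUV : U ≠ V := by
    intro hcon
    apply hne
    apply Sylow.ext
    ext y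
    rw [hmemU, hmemV, hcon]
  have hinfG : (U : Subgroup G) ⊓ (V : Subgroup G) ≠ ⊥ := by
    intro hcon
    apply hinf
    rw [eq_bot_iff]
    intro y hy
    have hy' := Subgroup.mem_inf.1 hy
    have h1 : (y : G) ∈ (U : Subgroup G) ⊓ (V : Subgroup G) :=
      Subgroup.mem_inf.2 ⟨(hmemU y).1 hy'.1, (hmemV y).1 hy'.2⟩
    rw [hcon, Subgroup.mem_bot] at h1
    rw [Subgroup.mem_bot]
    exact Subtype.ext h1
  obtain ⟨n, cG, h0, hl, hr⟩ := chain_of_rtg _ U V (h U V hUV hinfG)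
  unfold Step at hr
  choose XG hX1 hX2 xG hx hconj hle using hr
  refine ⟨n, fun i => (cG i).subtype le_top, fun i => (XG i).subgroupOf ⊤,
    fun i => ⟨xG i, Subgroup.mem_top _⟩, ?_, ?_, ?_⟩
  · apply Sylow.ext
    ext y
    show y ∈ (((cG 0).subtype le_top : Sylow p ↥(⊤ : Subgroup G)) : Subgroup ↥(⊤ : Subgroup G)) ↔
      y ∈ (S' : Subgroup ↥(⊤ : Subgroup G))
    rw [Sylow.coe_subtype, Subgroup.mem_subgroupOf, h0]
    exact (hmemU y).symm
  · apply Sylow.ext
    ext y
    show y ∈ (((cG (Fin.last n)).subtype le_top : Sylow p ↥(⊤ : Subgroup G)) :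
      Subgroup ↥(⊤ : Subgroup G)) ↔ y ∈ (T' : Subgroup ↥(⊤ : Subgroup G))
    rw [Sylow.coe_subtype, Subgroup.mem_subgroupOf, hl]
    exact (hmemV y).symm
  · intro i
    have hcardsub : ∀ A : Subgroup G, Nat.card ↥(A.subgroupOf (⊤ : Subgroup G)) = Nat.card ↥A :=
      fun A => Nat.card_congr (Subgroup.subgroupOfEquivOfLe le_top).toEquiv
    have hmem1 : ∀ (W : Sylow p G),
        XG i ∈ Cfsg.sylowMembers p (Cfsg.functorFamily p f ⊤) (W : Subgroup G) →
        (XG i).subgroupOf ⊤ ∈ Cfsg.sylowMembers p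
          ((fun X : Subgroup G => X.subgroupOf ⊤) '' Cfsg.functorFamily p f ⊤)
          (((W.subtype le_top : Sylow p ↥(⊤ : Subgroup G))) : Subgroup ↥(⊤ : Subgroup G)) := by
      intro W hW
      rw [mem_sylowMembers_iff] at hW ⊢
      refine ⟨⟨XG i, hW.1, rfl⟩, ?_⟩
      rw [Sylow.coe_subtype]
      have h1 : (W : Subgroup G).subgroupOf ⊤ ⊓ (XG i).subgroupOf ⊤ =
          ((W : Subgroup G) ⊓ XG i).subgroupOf ⊤ := rfl
      rw [h1, hcardsub, hcardsub]; exact hW.2
    refine ⟨hmem1 _ (hX1 i), hmem1 _ (hX2 i), Subgroup.mem_subgroupOf.2 (hx i), ?_, ?_⟩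
    · have hc := hconj i
      unfold Cfsg.subgroupConjRight at hc ⊢
      ext y
      rw [mem_map_conj_iff, Sylow.coe_subtype, Sylow.coe_subtype, Subgroup.mem_subgroupOf,
        Subgroup.mem_subgroupOf, ← hc, mem_map_conj_iff]
      simp
    · intro y hy
      have hy' := Subgroup.mem_inf.1 hy
      have h1 : (y : G) ∈ (U : Subgroup G) ⊓ (V : Subgroup G) :=
        Subgroup.mem_inf.2 ⟨(hmemU y).1 hy'.1, (hmemV y).1 hy'.2⟩
      have h2 := Subgroup.mem_inf.1 (hle i h1)
      exact Subgroup.mem_inf.2 ⟨by rw [Sylow.coe_subtype]; exact Subgroup.mem_subgroupOf.2 h2.1,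
        Subgroup.mem_subgroupOf.2 h2.2⟩

theorem result {G : Type*} [Group G] [Finite G] (p : ℕ) [Fact p.Prime] (hdiv : p ∣ Nat.card G)
    (f : Subgroup G → Set (Subgroup G)) (hf : Cfsg.IsNormalizerFunctor p f) (S : Sylow p G)
    (G₁ G₂ : Subgroup G) (h₁ : (S : Subgroup G) ≤ G₁) (h₂ : (S : Subgroup G) ≤ G₂)
    (hprod : ∀ g : G, ∃ g₁ ∈ G₁, ∃ g₂ ∈ G₂, g = g₁ * g₂)
    (hr₁ : Cfsg.IsFunctorRegular p f G₁) (hr₂ : Cfsg.IsFunctorRegular p f G₂) :
    Cfsg.IsFunctorRegular p f ⊤ := by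
  have h𝓕 := family_normal p f hf
  apply regular_top p f
  intro U V hne hinf
  obtain ⟨a, ha⟩ := MulAction.exists_smul_eq G S U
  obtain ⟨V0, hV0⟩ : ∃ V0 : Sylow p G, V0 = a⁻¹ • V := ⟨_, rfl⟩
  have hV0' : a • V0 = V := by rw [hV0, smul_inv_smul]
  have hSV0 : S ≠ V0 := by
    intro hcon; apply hne; rw [← ha, ← hV0', hcon]
  have hinf0 : (S : Subgroup G) ⊓ (V0 : Subgroup G) ≠ ⊥ := by
    intro hcon
    apply hinf
    rw [← ha, ← hV0', sylow_smul_coe, sylow_smul_coe,
      ← Subgroup.map_inf _ _ _ (MulAut.conj a).injective, hcon, Subgroup.map_bot]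
  have key : Relation.ReflTransGen (Step p (Cfsg.functorFamily p f ⊤)
      ((S : Subgroup G) ⊓ (V0 : Subgroup G))) S V0 := by
    obtain ⟨b, hb⟩ := MulAction.exists_smul_eq G S V0
    obtain ⟨g, hg⟩ : ∃ g : G, g = b⁻¹ := ⟨_, rfl⟩
    have hV0g : (V0 : Subgroup G) = Cfsg.subgroupConjRight g (S : Subgroup G) := by
      unfold Cfsg.subgroupConjRight
      rw [hg, inv_inv, ← hb, sylow_smul_coe]
    obtain ⟨W, hW1, hW2⟩ := Cfsg.Agent.S2940.result S G₁ G₂ h₁ h₂ hprod g
    rw [← hV0g] at hW1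
    have hWG1 : (W : Subgroup G) ≤ G₁ := le_trans hW2 inf_le_left
    have hWG2 : (W : Subgroup G) ≤ Cfsg.subgroupConjRight g G₂ := le_trans hW2 inf_le_right
    have part1 : Relation.ReflTransGen (Step p (Cfsg.functorFamily p f ⊤)
        ((S : Subgroup G) ⊓ (V0 : Subgroup G))) S W := by
      by_cases hSW : S = W
      · rw [← hSW]
      · have h1 : (S : Subgroup G) ⊓ (W : Subgroup G) ≠ ⊥ := by
          intro hcon
          apply hinf0
          rw [eq_bot_iff, ← hcon]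
          exact le_inf inf_le_left hW1
        have h2 := chain_in p f hf G₁ hr₁ S W h₁ hWG1 hSW h1
        exact Relation.ReflTransGen.mono
          (fun x y => step_mono p _ (le_inf inf_le_left hW1) x y) _ _ h2
    have part2 : Relation.ReflTransGen (Step p (Cfsg.functorFamily p f ⊤)
        ((S : Subgroup G) ⊓ (V0 : Subgroup G))) W V0 := by
      by_cases hWV : W = V0
      · rw [hWV]
      · have hgV0 : g • V0 = S := by rw [← hb, hg, inv_smul_smul]
        have hgW : ((g • W : Sylow p G) : Subgroup G) ≤ G₂ := by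
          rw [sylow_smul_coe]
          intro z hz
          rw [mem_map_conj_iff] at hz
          have h3 := hWG2 hz
          unfold Cfsg.subgroupConjRight at h3
          rw [mem_map_conj_iff] at h3
          have h4 : (g⁻¹)⁻¹ * (g⁻¹ * z * g) * g⁻¹ = z := by group
          rw [h4] at h3; exact h3
        have hne2 : g • W ≠ S := by
          intro hcon
          apply hWV
          rw [← hgV0] at hcon
          exact (MulAction.injective g) hcon
        have hinf2 : ((g • W : Sylow p G) : Subgroup G) ⊓ (S : Subgroup G) ≠ ⊥ := by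
          intro hcon
          apply hinf0
          have h5 : ((W : Subgroup G) ⊓ (V0 : Subgroup G)).map (MulAut.conj g).toMonoidHom = ⊥ := by
            rw [Subgroup.map_inf _ _ _ (MulAut.conj g).injective, ← sylow_smul_coe,
              ← sylow_smul_coe, hgV0, hcon]
          have h6 : (W : Subgroup G) ⊓ (V0 : Subgroup G) = ⊥ :=
            (Subgroup.map_eq_bot_iff_of_injective _ (MulAut.conj g).injective).1 h5
          rw [eq_bot_iff, ← h6]
          exact le_inf hW1 inf_le_right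
        have h2 := chain_in p f hf G₂ hr₂ (g • W) S hgW h₂ hne2 hinf2
        have h3 : Relation.ReflTransGen (Step p (Cfsg.functorFamily p f ⊤)
            ((((g • W : Sylow p G) : Subgroup G) ⊓ (S : Subgroup G)).map
              (MulAut.conj g⁻¹).toMonoidHom)) (g⁻¹ • (g • W)) (g⁻¹ • S) :=
          Relation.ReflTransGen.lift (fun Z : Sylow p G => g⁻¹ • Z)
          (fun x y hxy => step_conj p _ h𝓕 _ g⁻¹ x y hxy) _ _ h2
        have e1 : g⁻¹ • (g • W) = W := inv_smul_smul g W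
        have e2 : g⁻¹ • S = V0 := by rw [← hgV0, inv_smul_smul]
        rw [e1, e2] at h3
        refine Relation.ReflTransGen.mono (fun x y => step_mono p _ ?_ x y) _ _ h3
        rw [Subgroup.map_inf _ _ _ (MulAut.conj g⁻¹).injective, ← sylow_smul_coe,
          ← sylow_smul_coe, e1, e2]
        exact le_inf hW1 inf_le_right
    exact part1.trans part2
  have h3 : Relation.ReflTransGen (Step p (Cfsg.functorFamily p f ⊤)
      (((S : Subgroup G) ⊓ (V0 : Subgroup G)).map (MulAut.conj a).toMonoidHom))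
      (a • S) (a • V0) :=
    Relation.ReflTransGen.lift (fun Z : Sylow p G => a • Z)
    (fun x y hxy => step_conj p _ h𝓕 _ a x y hxy) _ _ key
  rw [ha, hV0'] at h3
  have e3 : ((S : Subgroup G) ⊓ (V0 : Subgroup G)).map (MulAut.conj a).toMonoidHom =
      (U : Subgroup G) ⊓ (V : Subgroup G) := by
    rw [Subgroup.map_inf _ _ _ (MulAut.conj a).injective, ← sylow_smul_coe, ← sylow_smul_coe,
      ha, hV0']
  rw [e3] at h3
  exact h3

end Cfsg.Agent.S2957
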