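import Cfsg.Statements.S2958
import Mathlib

set_option autoImplicit false
open Cfsg

namespace Cfsg.Agent.S2958

theorem result {G : Type*} [Group G] (X A B : Subgroup G) (hgen : (⨆ g : G, X.map (MulAut.conj g).toMonoidHom) = ⊤) (hcover : ∀ g : G, X.map (MulAut.conj g).toMonoidHom ≤ A ∨ X.map (MulAut.conj g).toMonoidHom ≤ B) : A = ⊤ ∨ B = ⊤ := by
  classical
  by_cases hA : A = ⊤
  · exact Or.inl hA
  right
  set K : Subgroup G := ⨆ g : {g : G // ¬ X.map (MulAut.conj g).toMonoidHom ≤ A}, X.map (MulAut.conj g.1).toMonoidHom with hK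
  have hKB : K ≤ B := by
    refine iSup_le ?_
    rintro ⟨g, hg⟩
    exact (hcover g).resolve_left hg
  have hmap : ∀ a g : G, (X.map (MulAut.conj g).toMonoidHom).map (MulAut.conj a).toMonoidHom = X.map (MulAut.conj (a * g)).toMonoidHom := by
    intro a g
    rw [Subgroup.map_map]
    congr 1
    ext x
    simp [mul_assoc]
  have hAK : ∀ a ∈ A, K.map (MulAut.conj a).toMonoidHom ≤ K := by
    intro a ha
    rw [hK, Subgroup.map_iSup]
    refine iSup_le ?_
    rintro ⟨g, hg⟩
    rw [hmap]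
    have hnot : ¬ X.map (MulAut.conj (a * g)).toMonoidHom ≤ A := by
      intro hle
      apply hg
      rintro y hy
      have h1 : a * y * a⁻¹ ∈ X.map (MulAut.conj (a * g)).toMonoidHom := by
        rw [← hmap]
        exact Subgroup.mem_map.mpr ⟨y, hy, by simp⟩
      have h2 := hle h1
      have hy' : y = a⁻¹ * (a * y * a⁻¹) * a := by group
      rw [hy']
      exact A.mul_mem (A.mul_mem (A.inv_mem ha) h2) ha
    exact le_iSup (fun g : {g : G // ¬ X.map (MulAut.conj g).toMonoidHom ≤ A} => X.map (MulAut.conj g.1).toMonoidHom) ⟨a * g, hnot⟩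
  have hAN : A ≤ Subgroup.normalizer (K : Set G) := by
    rw [Subgroup.le_normalizer_iff]
    intro a ha k hk
    exact hAK a ha (Subgroup.mem_map.mpr ⟨k, hk, by simp⟩)
  have hN : Subgroup.normalizer (K : Set G) = ⊤ := by
    rw [eq_top_iff, ← hgen]
    refine iSup_le ?_
    intro g
    by_cases hg : X.map (MulAut.conj g).toMonoidHom ≤ A
    · exact hg.trans hAN
    · exact (le_iSup (fun g : {g : G // ¬ X.map (MulAut.conj g).toMonoidHom ≤ A} => X.map (MulAut.conj g.1).toMonoidHom) ⟨g, hg⟩).trans Subgroup.le_normalizer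
  have hKn : K.Normal := Subgroup.normalizer_eq_top_iff.mp hN
  obtain ⟨g₀, hg₀⟩ : ∃ g, ¬ X.map (MulAut.conj g).toMonoidHom ≤ A := by
    by_contra hcon
    push Not at hcon
    apply hA
    rw [eq_top_iff, ← hgen]
    exact iSup_le hcon
  have hg₀K : X.map (MulAut.conj g₀).toMonoidHom ≤ K := le_iSup (fun g : {g : G // ¬ X.map (MulAut.conj g).toMonoidHom ≤ A} => X.map (MulAut.conj g.1).toMonoidHom) ⟨g₀, hg₀⟩
  rw [eq_top_iff]
  refine le_trans ?_ hKB
  rw [← hgen]
  refine iSup_le ?_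
  intro h
  have hh : X.map (MulAut.conj h).toMonoidHom = (X.map (MulAut.conj g₀).toMonoidHom).map (MulAut.conj (h * g₀⁻¹)).toMonoidHom := by
    rw [hmap]; simp
  rw [hh]
  rintro y ⟨z, hz, rfl⟩
  exact hKn.conj_mem z (hg₀K hz) (h * g₀⁻¹)

end Cfsg.Agent.S2958
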