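import Cfsg.Statements.S2960
import Mathlib
import Cfsg.Agent.Lib.Helper5.CharP

set_option autoImplicit false
open Cfsg

namespace Cfsg.Agent.S2960

open Cfsg.Agent.Lib.Helper5.PCore Cfsg.Agent.Lib.Helper5.Coprime Cfsg.Agent.Lib.Helper5.CharP in
theorem aux {G : Type*} [Group G] [Finite G] {p : ℕ} [Fact p.Prime]
    (hG : Subgroup.centralizer (Cfsg.pCore p G : Set G) ≤ Cfsg.pCore p G) (T : Sylow p G)
    (Q : Subgroup G) (hQT : Q ≤ (T : Subgroup G))
    (hQn : (T : Subgroup G) ≤ Subgroup.normalizer (Q : Set G))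
    (hC : (T : Subgroup G) ⊓ Subgroup.centralizer (Q : Set G) ≤ Q) :
    Subgroup.centralizer (Q : Set G) ≤ Q := by
  have hPn := pCore_normal_thm p G
  have hPT : Cfsg.pCore p G ≤ T := pCore_le_sylow T
  have hTp : IsPGroup p (T : Subgroup G) := T.isPGroup'
  have hQp : IsPGroup p Q := hTp.to_le hQT
  have hCp : IsPGroup p (Subgroup.centralizer (Q : Set G)) := by
    apply isPGroup_of_pprime_trivial
    intro x hx k hk hxk
    have hxQ : ∀ q ∈ Q, q * x = x * q := fun q hq => (Subgroup.mem_centralizer_iff.mp hx) q hq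
    have hcomm := AxB_normal (Cfsg.pCore p G) Q hPn (pCore_isPGroup p G) hQp x k hk hxk hxQ (by
      intro d hd hdQ
      have hdC : d ∈ Subgroup.centralizer (Q : Set G) := by
        rw [Subgroup.mem_centralizer_iff]
        exact hdQ
      exact hxQ d (hC ⟨hPT hd, hdC⟩))
    have hxC : x ∈ Subgroup.centralizer (Cfsg.pCore p G : Set G) := by
      rw [Subgroup.mem_centralizer_iff]
      exact hcomm
    obtain ⟨a, ha⟩ := pelem_of_mem_pCore _ (hG hxC)
    exact eq_one_of_pow_of_pow x a k hk ha hxk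
  have hTC : (T : Subgroup G) ≤
      Subgroup.normalizer ((Subgroup.centralizer (Q : Set G) : Subgroup G) : Set G) := by
    rw [Subgroup.le_normalizer_iff]
    intro t ht c hc
    rw [Subgroup.mem_centralizer_iff] at hc ⊢
    intro q hq
    have hq' : t⁻¹ * q * t ∈ Q := by
      have h1 := (Subgroup.le_normalizer_iff.mp hQn) t⁻¹ (Subgroup.inv_mem _ ht) q hq
      simpa using h1
    have h2 := hc _ hq'
    calc q * (t * c * t⁻¹) = t * ((t⁻¹ * q * t) * c) * t⁻¹ := by group
      _ = t * (c * (t⁻¹ * q * t)) * t⁻¹ := by rw [h2]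
      _ = t * c * t⁻¹ * q := by group
  have hsup : IsPGroup p ((Subgroup.centralizer (Q : Set G)) ⊔ (T : Subgroup G) : Subgroup G) :=
    hCp.to_sup_of_normal_left' hTp hTC
  have h3 := T.is_maximal' hsup le_sup_right
  have hCT : Subgroup.centralizer (Q : Set G) ≤ T := by
    rw [← h3]
    exact le_sup_left
  exact fun c hc => hC ⟨hCT hc, hc⟩

theorem result {G : Type*} [Group G] [Finite G] {p : ℕ} [Fact p.Prime] (hG : Subgroup.centralizer (Cfsg.pCore p G : Set G) ≤ Cfsg.pCore p G) (T : Sylow p G) (Q : Subgroup G) (hQT : Q ≤ (T : Subgroup G)) (hQn : (T : Subgroup G) ≤ Subgroup.normalizer (Q : Set G)) (hC : (T : Subgroup G) ⊓ Subgroup.centralizer (Q : Set G) ≤ Q) : Subgroup.centralizer (Q : Set G) ≤ Q := by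
  exact aux hG T Q hQT hQn hC

end Cfsg.Agent.S2960
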