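import Cfsg.Statements.S2963
import Mathlib

set_option autoImplicit false
open Cfsg

namespace Cfsg.Agent.S2963

theorem result (n : ℕ) (hn : Odd n) (h : Cfsg.IsPMinimal 2 (Equiv.Perm (Fin n))) : ∃ m : ℕ, n = 2 ^ m + 1 := by
---
  classical
  haveI : Fact (Nat.Prime 2) := ⟨Nat.prime_two⟩
  obtain ⟨S⟩ : Nonempty (Sylow 2 (Equiv.Perm (Fin n))) := inferInstance
  obtain ⟨hnn, M, ⟨hMco, hSM⟩, hMuniq⟩ := h S
  have hfix : ∃ p : Fin n, ∀ g ∈ (S : Subgroup (Equiv.Perm (Fin n))), g p = p := by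
    have hmod := S.isPGroup'.card_modEq_card_fixedPoints (Fin n)
    have hne : Nat.card (MulAction.fixedPoints (↥(S : Subgroup (Equiv.Perm (Fin n)))) (Fin n)) ≠ 0 := by
      intro h0
      rw [h0, Nat.card_eq_fintype_card, Fintype.card_fin] at hmod
      have h1 : n % 2 = 1 := Nat.odd_iff.mp hn
      have h2 : n % 2 = 0 % 2 := hmod
      omega
    have hne2 : Nonempty (MulAction.fixedPoints (↥(S : Subgroup (Equiv.Perm (Fin n)))) (Fin n)) := by
      by_contra hc
      rw [not_nonempty_iff] at hc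
      exact hne Nat.card_of_isEmpty
    obtain ⟨⟨p, hp⟩⟩ := hne2
    refine ⟨p, fun g hg => ?_⟩
    exact hp ⟨g, hg⟩
  obtain ⟨p, hp⟩ := hfix
  by_cases hq : ∃ q : Fin n, q ≠ p
  swap
  · exfalso
    push Not at hq
    apply hMco.1
    rw [Subgroup.eq_top_iff']
    intro g
    have : g = 1 := by
      ext x
      rw [hq x, hq (g p)]
      simp
    rw [this]
    exact M.one_mem
  obtain ⟨q, hqp⟩ := hq
  haveI : Nontrivial (Fin n) := ⟨⟨q, p, hqp⟩⟩
  have hM1 : IsCoatom (MulAction.stabilizer (Equiv.Perm (Fin n)) p) :=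
    (MulAction.isCoatom_stabilizer_iff_preprimitive (G := Equiv.Perm (Fin n)) p).2 inferInstance
  have hS1 : (S : Subgroup (Equiv.Perm (Fin n))) ≤ MulAction.stabilizer (Equiv.Perm (Fin n)) p := by
    intro g hg
    rw [MulAction.mem_stabilizer_iff]
    exact hp g hg
  have hMeq : M = MulAction.stabilizer (Equiv.Perm (Fin n)) p := (hMuniq _ ⟨hM1, hS1⟩).symm
  obtain ⟨B, hB⟩ : ∃ B : Set (Fin n), B = {x | ∃ g ∈ (S : Subgroup (Equiv.Perm (Fin n))), g q = x} := ⟨_, rfl⟩
  have hqB : q ∈ B := by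
    rw [hB]
    exact ⟨1, Subgroup.one_mem _, rfl⟩
  have hpB : p ∉ B := by
    rw [hB]
    rintro ⟨g, hg, hgq⟩
    have h1 := hp g hg
    have : g q = g p := by rw [hgq, h1]
    exact hqp (g.injective this)
  have hSB : ∀ g ∈ (S : Subgroup (Equiv.Perm (Fin n))), ∀ x, g x ∈ B ↔ x ∈ B := by
    intro g hg x
    rw [hB]
    constructor
    · rintro ⟨k, hk, hkq⟩
      refine ⟨g⁻¹ * k, Subgroup.mul_mem _ (Subgroup.inv_mem _ hg) hk, ?_⟩
      rw [Equiv.Perm.mul_apply, hkq]
      simp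
    · rintro ⟨k, hk, hkq⟩
      refine ⟨g * k, Subgroup.mul_mem _ hg hk, ?_⟩
      rw [Equiv.Perm.mul_apply, hkq]
  have hall : ∀ x, x ≠ p → x ∈ B := by
    by_contra hc
    push Not at hc
    obtain ⟨r, hrp, hrB⟩ := hc
    let K : Subgroup (Equiv.Perm (Fin n)) :=
      { carrier := {g | ∀ x, g x ∈ B ↔ x ∈ B}
        one_mem' := by
          intro x
          simp
        mul_mem' := by
          intro a b ha hb x
          rw [Equiv.Perm.mul_apply, ha (b x), hb x]
        inv_mem' := by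
          intro a ha x
          rw [← ha (a⁻¹ x)]
          simp }
    have hSK : (S : Subgroup (Equiv.Perm (Fin n))) ≤ K := fun g hg => hSB g hg
    have hKtop : K ≠ ⊤ := by
      intro hK
      have h1 : Equiv.swap q r ∈ K := by
        rw [hK]
        exact Subgroup.mem_top _
      have h2 := (h1 q).2 hqB
      rw [Equiv.swap_apply_left] at h2
      exact hrB h2
    obtain ⟨M2, hM2, hKM2⟩ := (eq_top_or_exists_le_coatom K).resolve_left hKtop
    have hM2eq := hMuniq M2 ⟨hM2, hSK.trans hKM2⟩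
    have h3 : Equiv.swap p r ∈ K := by
      intro x
      by_cases hxp : x = p
      · rw [hxp, Equiv.swap_apply_left]
        exact ⟨fun hh => absurd hh hrB, fun hh => absurd hh hpB⟩
      · by_cases hxr : x = r
        · rw [hxr, Equiv.swap_apply_right]
          exact ⟨fun hh => absurd hh hpB, fun hh => absurd hh hrB⟩
        · rw [Equiv.swap_apply_of_ne_of_ne hxp hxr]
    have h4 : Equiv.swap p r ∈ MulAction.stabilizer (Equiv.Perm (Fin n)) p := by
      rw [← hMeq, ← hM2eq]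
      exact hKM2 h3
    rw [MulAction.mem_stabilizer_iff, Equiv.Perm.smul_def, Equiv.swap_apply_left] at h4
    exact hrp h4
  have hBorb : B = MulAction.orbit (↥(S : Subgroup (Equiv.Perm (Fin n)))) q := by
    rw [hB]
    ext x
    constructor
    · rintro ⟨g, hg, hgq⟩
      exact ⟨⟨g, hg⟩, hgq⟩
    · rintro ⟨⟨g, hg⟩, hgq⟩
      exact ⟨g, hg, hgq⟩
  have hcardB : B.ncard ∣ Nat.card (↥(S : Subgroup (Equiv.Perm (Fin n)))) := by
    rw [hBorb, ← MulAction.index_stabilizer]
    exact Subgroup.index_dvd_card _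
  obtain ⟨k, hk⟩ := (IsPGroup.iff_card).1 S.isPGroup'
  rw [hk] at hcardB
  obtain ⟨m, hm, hmB⟩ := (Nat.dvd_prime_pow Nat.prime_two).1 hcardB
  refine ⟨m, ?_⟩
  have huniv : (Set.univ : Set (Fin n)) = insert p B := by
    ext x
    simp only [Set.mem_univ, Set.mem_insert_iff, true_iff]
    by_cases hxp : x = p
    · exact Or.inl hxp
    · exact Or.inr (hall x hxp)
  have h5 : (Set.univ : Set (Fin n)).ncard = B.ncard + 1 := by
    rw [huniv]
    exact Set.ncard_insert_of_notMem hpB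
  rw [Set.ncard_univ, Nat.card_eq_fintype_card, Fintype.card_fin, hmB] at h5
  exact h5

end Cfsg.Agent.S2963
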