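import Mathlib
import Cfsg.Statements.S2983
import Cfsg.Agent.S2941
import Cfsg.Agent.Lib.Helper8.Thompson
import Cfsg.Agent.Lib.Helper8.ThFact

set_option autoImplicit false
open Pointwise
open Cfsg
open scoped commutatorElement

namespace Cfsg.Agent.S2983

/-- p'-elements of `K ⊔ J` lie in `K` when `J` is a p-group normalizing `K` -/
theorem cop_mem {G : Type*} [Group G] (p : ℕ) (K J : Subgroup G) (hJ2 : IsPGroup p J)
    (hJK : J ≤ Subgroup.normalizer (K : Set G)) (g : G) (hg : g ∈ K ⊔ J) (hgo : Nat.Coprime (orderOf g) p) :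
    g ∈ K := by
  haveI : (K.subgroupOf (Subgroup.normalizer (K : Set G))).Normal := Subgroup.normal_in_normalizer
  have h2 : IsPGroup p ((J.subgroupOf (Subgroup.normalizer (K : Set G))).map
      (QuotientGroup.mk' (K.subgroupOf (Subgroup.normalizer (K : Set G))))) :=
    (hJ2.comap_subtype).map _
  have hle : K ⊔ J ≤ ((((J.subgroupOf (Subgroup.normalizer (K : Set G))).map
      (QuotientGroup.mk' (K.subgroupOf (Subgroup.normalizer (K : Set G))))).comap
      (QuotientGroup.mk' (K.subgroupOf (Subgroup.normalizer (K : Set G))))).map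
      (Subgroup.normalizer (K : Set G)).subtype) := by
    apply sup_le
    · intro k hk
      refine ⟨⟨k, Subgroup.le_normalizer hk⟩, ?_, rfl⟩
      apply Subgroup.mem_comap.2
      have h1 : (QuotientGroup.mk' (K.subgroupOf (Subgroup.normalizer (K : Set G))))
          ⟨k, Subgroup.le_normalizer hk⟩ = 1 :=
        (QuotientGroup.eq_one_iff _).2 (Subgroup.mem_subgroupOf.2 hk)
      rw [h1]; exact Subgroup.one_mem _
    · intro j hj
      refine ⟨⟨j, hJK hj⟩, ?_, rfl⟩
      apply Subgroup.mem_comap.2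
      exact Subgroup.mem_map_of_mem _ (Subgroup.mem_subgroupOf.2 hj)
  obtain ⟨x, hx, rfl⟩ := hle hg
  have hx' : QuotientGroup.mk' (K.subgroupOf (Subgroup.normalizer (K : Set G))) x ∈
      (J.subgroupOf (Subgroup.normalizer (K : Set G))).map
      (QuotientGroup.mk' (K.subgroupOf (Subgroup.normalizer (K : Set G)))) := hx
  obtain ⟨k, hk⟩ := h2 ⟨_, hx'⟩
  have hk' : (QuotientGroup.mk' (K.subgroupOf (Subgroup.normalizer (K : Set G))) x) ^ p ^ k = 1 := by
    have := congrArg Subtype.val hk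
    simpa using this
  have hd1 : orderOf (QuotientGroup.mk' (K.subgroupOf (Subgroup.normalizer (K : Set G))) x)
      ∣ p ^ k := orderOf_dvd_of_pow_eq_one hk'
  have hd2 : orderOf (QuotientGroup.mk' (K.subgroupOf (Subgroup.normalizer (K : Set G))) x)
      ∣ orderOf x := orderOf_map_dvd _ x
  have hox : orderOf x = orderOf ((Subgroup.normalizer (K : Set G)).subtype x) :=
    (orderOf_injective _ (Subgroup.subtype_injective _) x).symm
  rw [← hox] at hgo
  have hcop : Nat.Coprime (orderOf x) (p ^ k) :=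
    Nat.Coprime.pow_right k hgo
  have h1 : orderOf (QuotientGroup.mk' (K.subgroupOf (Subgroup.normalizer (K : Set G))) x) = 1 :=
    Nat.eq_one_of_dvd_coprimes hcop hd2 hd1
  rw [orderOf_eq_one_iff] at h1
  exact Subgroup.mem_subgroupOf.1 ((QuotientGroup.eq_one_iff _).1 h1)

theorem gen_norm {G : Type*} [Group G] (p : ℕ) (K J Q : Subgroup G) (hJp : IsPGroup p J)
    (hK1' : K = Subgroup.closure {g : G | g ∈ K ∧ Nat.Coprime (orderOf g) p})
    (hK2 : ⁅K, J⁆ = K) (hKN : K ≤ Subgroup.normalizer (Q : Set G))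
    (hQ2 : Q ≤ Subgroup.normalizer (J : Set G)) : Q ≤ Subgroup.normalizer (K : Set G) := by
  have hK1 : Subgroup.closure {g : G | g ∈ K ∧ Nat.Coprime (orderOf g) p} = K := hK1'.symm
  have hJK : J ≤ Subgroup.normalizer (K : Set G) := Cfsg.Agent.S2941.comm_norm K J hK2
  -- the generating set of conjugates
  have hcl : K ⊔ J = Subgroup.closure {g | ∃ k ∈ K, ∃ j ∈ J, k * j * k⁻¹ = g} := by
    apply le_antisymm
    · apply sup_le
      · refine hK2.ge.trans ?_
        rw [Subgroup.commutator_le]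
        intro k hk j hj
        have e : ⁅k, j⁆ = (k * j * k⁻¹) * (1 * j⁻¹ * 1⁻¹) := by
          simp [commutatorElement_def]
        rw [e]
        exact Subgroup.mul_mem _ (Subgroup.subset_closure ⟨k, hk, j, hj, rfl⟩)
          (Subgroup.subset_closure ⟨1, K.one_mem, j⁻¹, J.inv_mem hj, rfl⟩)
      · intro j hj
        exact Subgroup.subset_closure ⟨1, K.one_mem, j, hj, by simp⟩
    · rw [Subgroup.closure_le]
      rintro g ⟨k, hk, j, hj, rfl⟩
      exact Subgroup.mul_mem _ (Subgroup.mul_mem _ (Subgroup.mem_sup_left hk)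
        (Subgroup.mem_sup_right hj)) (Subgroup.inv_mem _ (Subgroup.mem_sup_left hk))
  have hQL : ∀ q ∈ Q, ∀ g ∈ K ⊔ J, q * g * q⁻¹ ∈ K ⊔ J := by
    intro q hq g hg
    rw [hcl] at hg ⊢
    induction hg using Subgroup.closure_induction with
    | mem x hx =>
      obtain ⟨k, hk, j, hj, rfl⟩ := hx
      have hq' : k⁻¹ * q * k⁻¹⁻¹ ∈ Q :=
        (Subgroup.mem_normalizer_iff.1 ((Subgroup.normalizer (Q : Set G)).inv_mem (hKN hk)) q).1 hq
      have hj' : (k⁻¹ * q * k⁻¹⁻¹) * j * (k⁻¹ * q * k⁻¹⁻¹)⁻¹ ∈ J :=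
        (Subgroup.mem_normalizer_iff.1 (hQ2 hq') j).1 hj
      have e : q * (k * j * k⁻¹) * q⁻¹
          = k * ((k⁻¹ * q * k⁻¹⁻¹) * j * (k⁻¹ * q * k⁻¹⁻¹)⁻¹) * k⁻¹ := by group
      rw [e]
      exact Subgroup.subset_closure ⟨k, hk, _, hj', rfl⟩
    | one => simp
    | mul x y _ _ hx hy =>
      have e : q * (x * y) * q⁻¹ = (q * x * q⁻¹) * (q * y * q⁻¹) := by group
      rw [e]; exact Subgroup.mul_mem _ hx hy
    | inv x _ hx =>
      have e : q * x⁻¹ * q⁻¹ = (q * x * q⁻¹)⁻¹ := by group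
      rw [e]; exact Subgroup.inv_mem _ hx
  apply Cfsg.Agent.S2941.norm_of_conj
  intro q hq n hn
  have hn' : n ∈ Subgroup.closure {g : G | g ∈ K ∧ Nat.Coprime (orderOf g) p} := hK1.ge hn
  clear hn
  induction hn' using Subgroup.closure_induction with
  | mem x hx =>
    obtain ⟨hxK, hxo⟩ := hx
    apply cop_mem p K J hJp hJK _ (hQL q hq x (Subgroup.mem_sup_left hxK))
    have e : q * x * q⁻¹ = (MulAut.conj q).toMonoidHom x := by simp
    rw [e, orderOf_injective _ (MulAut.conj q).injective]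
    exact hxo
  | one => simp
  | mul x y _ _ hx hy =>
    have e : q * (x * y) * q⁻¹ = (q * x * q⁻¹) * (q * y * q⁻¹) := by group
    rw [e]; exact Subgroup.mul_mem _ hx hy
  | inv x _ hx =>
    have e : q * x⁻¹ * q⁻¹ = (q * x * q⁻¹)⁻¹ := by group
    rw [e]; exact Subgroup.inv_mem _ hx

theorem cpow {G : Type*} [Group G] (a b : G) (k : ℕ) : (a⁻¹ * b * a) ^ k = a⁻¹ * b ^ k * a := by
  induction k with
  | zero => simp
  | succ k ih => rw [pow_succ, ih, pow_succ]; group

open Cfsg.Agent.Lib.Helper8.RankOne Cfsg.Agent.Lib.Helper8.Thompson in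
theorem baumann_wc {G : Type*} [Group G] [Finite G] (p : ℕ) (P : Subgroup G) (x : G)
    (h : ∀ b ∈ Cfsg.baumannSubgroupOf p P, x * b * x⁻¹ ∈ P) :
    ∀ b ∈ Cfsg.baumannSubgroupOf p P, x * b * x⁻¹ ∈ Cfsg.baumannSubgroupOf p P := by
  have hJP : Cfsg.thompsonSubgroupOf p P ≤ P := Subgroup.map_subtype_le _
  have hOmZ : ∀ w ∈ Cfsg.omegaOne p (Cfsg.centerThompsonOf p P),
      w ∈ Cfsg.thompsonSubgroupOf p P ∧ ∀ j ∈ Cfsg.thompsonSubgroupOf p P, j * w = w * j := by
    intro w hw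
    have hle : Cfsg.omegaOne p (Cfsg.centerThompsonOf p P) ≤ Cfsg.centerThompsonOf p P := by
      unfold Cfsg.omegaOne
      rw [Subgroup.closure_le]
      intro y hy; exact hy.1
    have hw' := hle hw
    unfold Cfsg.centerThompsonOf at hw'
    rw [Subgroup.mem_inf] at hw'
    exact ⟨hw'.1, fun j hj => Subgroup.mem_centralizer_iff.1 hw'.2 j hj⟩
  have hJB : Cfsg.thompsonSubgroupOf p P ≤ Cfsg.baumannSubgroupOf p P := by
    intro j hj
    unfold Cfsg.baumannSubgroupOf
    refine Subgroup.mem_inf.2 ⟨hJP hj, ?_⟩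
    rw [Subgroup.mem_centralizer_iff]
    intro w hw
    exact ((hOmZ w hw).2 j hj).symm
  have hxJ : Cfsg.conjBy (Cfsg.thompsonSubgroupOf p P) x = Cfsg.thompsonSubgroupOf p P := by
    apply thompson_weaklyClosed p P x
    intro y hy
    rw [mem_conjBy] at hy
    have h1 := h _ (hJB hy)
    have e : x * (x⁻¹ * y * x) * x⁻¹ = y := by group
    rwa [e] at h1
  have hxJ1 : ∀ j ∈ Cfsg.thompsonSubgroupOf p P, x * j * x⁻¹ ∈ Cfsg.thompsonSubgroupOf p P := by
    intro j hj
    have h1 : x * j * x⁻¹ ∈ Cfsg.conjBy (Cfsg.thompsonSubgroupOf p P) x := conj_mem_conjBy hj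
    rwa [hxJ] at h1
  have hxJ2 : ∀ j ∈ Cfsg.thompsonSubgroupOf p P, x⁻¹ * j * x ∈ Cfsg.thompsonSubgroupOf p P := by
    intro j hj
    have h1 : j ∈ Cfsg.conjBy (Cfsg.thompsonSubgroupOf p P) x := by rw [hxJ]; exact hj
    exact mem_conjBy.1 h1
  have hZ : ∀ z ∈ Cfsg.centerThompsonOf p P, x⁻¹ * z * x ∈ Cfsg.centerThompsonOf p P := by
    intro z hz
    unfold Cfsg.centerThompsonOf at hz ⊢
    rw [Subgroup.mem_inf] at hz ⊢
    refine ⟨hxJ2 z hz.1, ?_⟩
    rw [Subgroup.mem_centralizer_iff]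
    intro j hj
    have h1 := Subgroup.mem_centralizer_iff.1 hz.2 (x * j * x⁻¹) (hxJ1 j hj)
    have e1 : j * (x⁻¹ * z * x) = x⁻¹ * (x * j * x⁻¹ * z) * x := by group
    have e2 : x⁻¹ * z * x * j = x⁻¹ * (z * (x * j * x⁻¹)) * x := by group
    rw [e1, e2, h1]
  have hOm : ∀ w ∈ Cfsg.omegaOne p (Cfsg.centerThompsonOf p P),
      x⁻¹ * w * x ∈ Cfsg.omegaOne p (Cfsg.centerThompsonOf p P) := by
    intro w hw
    unfold Cfsg.omegaOne at hw ⊢
    induction hw using Subgroup.closure_induction with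
    | mem y hy =>
      apply Subgroup.subset_closure
      refine ⟨hZ y hy.1, ?_⟩
      rw [cpow, hy.2]; group
    | one => simp
    | mul a b _ _ ha hb =>
      have e : x⁻¹ * (a * b) * x = (x⁻¹ * a * x) * (x⁻¹ * b * x) := by group
      rw [e]; exact Subgroup.mul_mem _ ha hb
    | inv a _ ha =>
      have e : x⁻¹ * a⁻¹ * x = (x⁻¹ * a * x)⁻¹ := by group
      rw [e]; exact Subgroup.inv_mem _ ha
  intro b hb
  have hb' := hb
  unfold Cfsg.baumannSubgroupOf at hb' ⊢
  rw [Subgroup.mem_inf] at hb' ⊢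
  refine ⟨h b hb, ?_⟩
  rw [Subgroup.mem_centralizer_iff]
  intro w hw
  have h1 := Subgroup.mem_centralizer_iff.1 hb'.2 (x⁻¹ * w * x) (hOm w hw)
  have e1 : w * (x * b * x⁻¹) = x * (x⁻¹ * w * x * b) * x⁻¹ := by group
  have e2 : x * b * x⁻¹ * w = x * (b * (x⁻¹ * w * x)) * x⁻¹ := by group
  rw [e1, e2, h1]

/-- Let G be a finite group of characteristic p (C_G(O_p(G)) ≤ O_p(G)), T a Sylow p-subgroup and E a B(T)-block of G. If Q is a p-subgroup of G normalized by both B(T) and E, then Q normalizes E. -/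
theorem result {G : Type*} [Group G] [Finite G] {p : ℕ} [Fact p.Prime] (hG : Subgroup.centralizer (Cfsg.pCore p G : Set G) ≤ Cfsg.pCore p G) (T : Sylow p G) (E : Subgroup G) (hE : Cfsg.IsBaumannBlock p (T : Subgroup G) E) (Q : Subgroup G) (hQ : IsPGroup p ↥Q) (hBQ : Cfsg.baumannSubgroupOf p (T : Subgroup G) ≤ Subgroup.normalizer (Q : Set G)) (hEQ : E ≤ Subgroup.normalizer (Q : Set G)) : Q ≤ Subgroup.normalizer (E : Set G) := by
  classical
  have hp : p.Prime := Fact.out
  have hBT : Cfsg.baumannSubgroupOf p (T : Subgroup G) ≤ (T : Subgroup G) := by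
    unfold Cfsg.baumannSubgroupOf; exact inf_le_left
  have hBp : IsPGroup p (Cfsg.baumannSubgroupOf p (T : Subgroup G)) := T.isPGroup'.to_le hBT
  obtain ⟨hE1, hE2, -⟩ := hE
  have hK1 : E = Subgroup.closure {g : G | g ∈ E ∧ Nat.Coprime (orderOf g) p} := by
    apply le_antisymm
    · intro e he
      unfold Cfsg.pResidualOf at hE1
      have he' : e ∈ (Cfsg.pResidual p ↥E).map E.subtype := by rw [hE1]; exact he
      unfold Cfsg.pResidual at he'
      rw [MonoidHom.map_closure] at he'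
      refine (Subgroup.closure_mono ?_) he'
      rintro _ ⟨y, hy, rfl⟩
      refine ⟨y.2, ?_⟩
      rw [Subgroup.coe_subtype, Subgroup.orderOf_coe]; exact hy
    · rw [Subgroup.closure_le]; intro g hg; exact hg.1
  -- Q ⊔ B is a p-group inside a conjugate of T
  have hRp : IsPGroup p (Cfsg.baumannSubgroupOf p (T : Subgroup G) ⊔ Q : Subgroup G) :=
    hBp.to_sup_of_normal_right' hQ hBQ
  obtain ⟨T', hT'⟩ := hRp.exists_le_sylow
  obtain ⟨g, hg⟩ := MulAction.exists_smul_eq G T' T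
  have hgR : ∀ r ∈ (Cfsg.baumannSubgroupOf p (T : Subgroup G) ⊔ Q : Subgroup G),
      g * r * g⁻¹ ∈ (T : Subgroup G) := by
    intro r hr
    rw [← hg, Cfsg.Agent.Lib.Helper8.ThFact.mem_smul_syl]
    have e : g⁻¹ * (g * r * g⁻¹) * g = r := by group
    rw [e]; exact hT' hr
  have hgB := baumann_wc p (T : Subgroup G) g (fun b hb => hgR b (Subgroup.mem_sup_left hb))
  have hgB' : ∀ c : G, g * c * g⁻¹ ∈ Cfsg.baumannSubgroupOf p (T : Subgroup G) →
      c ∈ Cfsg.baumannSubgroupOf p (T : Subgroup G) := by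
    intro c hc
    have hinj : Function.Injective (fun b : ↥(Cfsg.baumannSubgroupOf p (T : Subgroup G)) =>
        (⟨g * b.1 * g⁻¹, hgB b.1 b.2⟩ : ↥(Cfsg.baumannSubgroupOf p (T : Subgroup G)))) := by
      intro b1 b2 h12
      have h3 : g * b1.1 * g⁻¹ = g * b2.1 * g⁻¹ := congrArg Subtype.val h12
      apply Subtype.ext
      have h4 := mul_right_cancel h3
      exact mul_left_cancel h4
    obtain ⟨b0, hb0⟩ := Finite.surjective_of_injective hinj ⟨g * c * g⁻¹, hc⟩
    have h3 : g * b0.1 * g⁻¹ = g * c * g⁻¹ := congrArg Subtype.val hb0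
    have h4 : b0.1 = c := mul_left_cancel (mul_right_cancel h3)
    rw [← h4]; exact b0.2
  have hQB : Q ≤ Subgroup.normalizer (Cfsg.baumannSubgroupOf p (T : Subgroup G) : Set G) := by
    apply Cfsg.Agent.S2941.norm_of_conj
    intro q hq b hb
    apply hgB'
    have h5 := baumann_wc p (T : Subgroup G) (g * q) (fun b' hb' => by
      have e : g * q * b' * (g * q)⁻¹ = g * (q * b' * q⁻¹) * g⁻¹ := by group
      rw [e]
      apply hgR
      exact Subgroup.mul_mem _ (Subgroup.mul_mem _ (Subgroup.mem_sup_right hq)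
        (Subgroup.mem_sup_left hb')) (Subgroup.inv_mem _ (Subgroup.mem_sup_right hq))) b hb
    have e : g * (q * b * q⁻¹) * g⁻¹ = g * q * b * (g * q)⁻¹ := by group
    rw [e]; exact h5
  exact gen_norm p E (Cfsg.baumannSubgroupOf p (T : Subgroup G)) Q hBp hK1 hE2 hEQ hQB

end Cfsg.Agent.S2983
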