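import Cfsg.Statements.S2998
import Mathlib
import Cfsg.Agent.Lib.Helper5.SPE

set_option autoImplicit false
open Cfsg

namespace Cfsg.Agent.S2998

open Cfsg.Agent.Lib.Helper5.SPE Cfsg.Agent.Lib.Helper5.SylowAux in
theorem caseB {G : Type*} [Group G] [Finite G] {p : ℕ} [Fact p.Prime] (P : Sylow p G) (x : G)
    (hxP : x ∈ (P : Subgroup G))
    (hlc : ∀ R : Subgroup G, R ≤ (P : Subgroup G) → R ≠ ⊥ →
      Subgroup.normalizer (R : Set G) ≤ Subgroup.centralizer ({x} : Set G))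
    (hM : Subgroup.centralizer ({x} : Set G) ≠ ⊤) :
    (∀ g : G, g * x * g⁻¹ ∈ (P : Subgroup G) → g * x * g⁻¹ = x) ∧
    ∀ (N : Subgroup G) [N.Normal], ∀ R : Subgroup (G ⧸ N),
      R ≤ (P : Subgroup G).map (QuotientGroup.mk' N) → R ≠ ⊥ →
      Subgroup.normalizer (R : Set (G ⧸ N)) ≤
        Subgroup.centralizer ({(QuotientGroup.mk x : G ⧸ N)} : Set (G ⧸ N)) := by
  have hx1 : x ≠ 1 := by
    rintro rfl
    apply hM
    rw [eq_top_iff]
    intro g _
    rw [Subgroup.mem_centralizer_iff]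
    intro y hy
    rw [Set.mem_singleton_iff] at hy
    subst hy
    simp
  have hPne : (P : Subgroup G) ≠ ⊥ := by
    intro h
    rw [h, Subgroup.mem_bot] at hxP
    exact hx1 hxP
  have hpG : p ∣ Nat.card G :=
    (dvd_card_of_ne_bot _ P.isPGroup' hPne).trans (Subgroup.card_subgroup_dvd_card _)
  have hspe : Cfsg.IsStronglyPEmbedded p (Subgroup.centralizer ({x} : Set G)) :=
    ⟨hpG, hM, P, (kcore_le_iff _ P.isPGroup' _).mpr hlc⟩
  have hNP := normprop_of_spe hspe
  have hPM : (P : Subgroup G) ≤ Subgroup.centralizer ({x} : Set G) :=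
    Subgroup.le_normalizer.trans (hlc P le_rfl hPne)
  have key : ∀ r ∈ (P : Subgroup G), r ≠ 1 → ∀ g : G, g * r * g⁻¹ ∈ (P : Subgroup G) →
      g ∈ Subgroup.centralizer ({x} : Set G) := by
    intro r hr hr1 g hg
    have hzne : Subgroup.zpowers r ≠ ⊥ := by
      rw [Ne, Subgroup.zpowers_eq_bot]
      exact hr1
    have hzle : Subgroup.zpowers r ≤ (P : Subgroup G) := by
      rw [Subgroup.zpowers_le]
      exact hr
    obtain ⟨a, ha, hao⟩ :=
      exists_orderOf_eq_of_ne_bot (Subgroup.zpowers r) (P.isPGroup'.to_le hzle) hzne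
    obtain ⟨k, rfl⟩ := Subgroup.mem_zpowers_iff.mp ha
    have h1 : g * r ^ k * g⁻¹ ∈ (P : Subgroup G) := by
      have e : g * r ^ k * g⁻¹ = (g * r * g⁻¹) ^ k := by rw [conj_zpow]
      rw [e]
      exact Subgroup.zpow_mem _ hg k
    have h2 : g⁻¹ ∈ Subgroup.centralizer ({x} : Set G) :=
      mem_of_conj_mem hNP g⁻¹ (r ^ k) (hPM (hzle ha)) hao (by simpa using hPM h1)
    simpa using Subgroup.inv_mem _ h2
  refine ⟨?_, ?_⟩
  · intro g hg
    have hgM := key x hxP hx1 g hg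
    have h0 := (Subgroup.mem_centralizer_iff.mp hgM) x (Set.mem_singleton x)
    rw [← h0]
    group
  · intro N _ R hR hRne gbar hgbar
    obtain ⟨g, rfl⟩ := QuotientGroup.mk_surjective gbar
    obtain ⟨rbar, hrR, hro⟩ :=
      exists_orderOf_eq_of_ne_bot R ((P.isPGroup'.map _).to_le hR) hRne
    obtain ⟨r, hrP, rfl⟩ := hR hrR
    have hr1 : r ≠ 1 := by
      rintro rfl
      rw [map_one, orderOf_one] at hro
      exact (Fact.out : p.Prime).ne_one hro.symm
    have hconj : (QuotientGroup.mk' N) (g * r * g⁻¹) ∈ R := by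
      have h0 := (Subgroup.mem_normalizer_iff.mp hgbar _).mp hrR
      simpa using h0
    obtain ⟨s, hsP, hs⟩ := hR hconj
    have hW : g * r * g⁻¹ ∈ (P : Subgroup G) ⊔ N := by
      have h1 : s⁻¹ * (g * r * g⁻¹) ∈ N := QuotientGroup.eq.mp hs
      have h2 : g * r * g⁻¹ = s * (s⁻¹ * (g * r * g⁻¹)) := by group
      rw [h2]
      exact Subgroup.mul_mem _ (Subgroup.mem_sup_left hsP) (Subgroup.mem_sup_right h1)
    have hAp : IsPGroup p ((Subgroup.zpowers r).map (MulAut.conj g).toMonoidHom) :=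
      (P.isPGroup'.to_le (by rw [Subgroup.zpowers_le]; exact hrP)).map _
    obtain ⟨u, hu⟩ := sylow_conj_le
      (P.subtype (le_sup_left : (P : Subgroup G) ≤ (P : Subgroup G) ⊔ N))
      (((Subgroup.zpowers r).map (MulAut.conj g).toMonoidHom).subgroupOf ((P : Subgroup G) ⊔ N))
      hAp.comap_subtype
    have hu1 : (u : G) * (g * r * g⁻¹) * (u : G)⁻¹ ∈ (P : Subgroup G) :=
      hu ⟨g * r * g⁻¹, hW⟩ (Subgroup.mem_subgroupOf.mpr ⟨r, Subgroup.mem_zpowers r, rfl⟩)
    obtain ⟨y, hy, z, hz, hyz⟩ := Subgroup.mem_sup_of_normal_right.mp u.2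
    have hzg : (z * g) * r * (z * g)⁻¹ ∈ (P : Subgroup G) := by
      have h3 := Subgroup.mul_mem _ (Subgroup.mul_mem _ (Subgroup.inv_mem _ hy) hu1) hy
      rw [← hyz] at h3
      have e : y⁻¹ * (y * z * (g * r * g⁻¹) * (y * z)⁻¹) * y = (z * g) * r * (z * g)⁻¹ := by group
      rwa [e] at h3
    have hzgM := key r hrP hr1 (z * g) hzg
    rw [Subgroup.mem_centralizer_iff]
    intro v hv
    rw [Set.mem_singleton_iff] at hv
    subst hv
    have h0 := (Subgroup.mem_centralizer_iff.mp hzgM) x (Set.mem_singleton x)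
    have hz1 : (QuotientGroup.mk z : G ⧸ N) = 1 := (QuotientGroup.eq_one_iff z).mpr hz
    have h4 := congrArg (QuotientGroup.mk : G → G ⧸ N) h0
    simp only [QuotientGroup.mk_mul, hz1, one_mul] at h4
    exact h4

theorem result {G : Type*} [Group G] [Finite G] {p : ℕ} [Fact p.Prime] (P : Sylow p G) (x : G) (hxP : x ∈ (P : Subgroup G)) (hlc : ∀ R : Subgroup G, R ≤ (P : Subgroup G) → R ≠ ⊥ → Subgroup.normalizer (R : Set G) ≤ Subgroup.centralizer ({x} : Set G)) : (P : Subgroup G) ≤ Subgroup.centralizer ({x} : Set G) ∧ (∀ g : G, g * x * g⁻¹ ∈ (P : Subgroup G) → g * x * g⁻¹ = x) ∧ ∀ (N : Subgroup G) [N.Normal], ∀ R : Subgroup (G ⧸ N), R ≤ (P : Subgroup G).map (QuotientGroup.mk' N) → R ≠ ⊥ → Subgroup.normalizer (R : Set (G ⧸ N)) ≤ Subgroup.centralizer ({(QuotientGroup.mk x : G ⧸ N)} : Set (G ⧸ N)) := by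
  by_cases hM : Subgroup.centralizer ({x} : Set G) = ⊤
  · have hcomm : ∀ g : G, x * g = g * x := by
      intro g
      have h0 : g ∈ Subgroup.centralizer ({x} : Set G) := by
        rw [hM]
        trivial
      exact (Subgroup.mem_centralizer_iff.mp h0) x (Set.mem_singleton x)
    refine ⟨by rw [hM]; exact le_top, ?_, ?_⟩
    · intro g _
      rw [← hcomm g]
      group
    · intro N _ R _ _ gbar _
      obtain ⟨g, rfl⟩ := QuotientGroup.mk_surjective gbar
      rw [Subgroup.mem_centralizer_iff]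
      intro v hv
      rw [Set.mem_singleton_iff] at hv
      subst hv
      have h4 := congrArg (QuotientGroup.mk : G → G ⧸ N) (hcomm g)
      simpa using h4
  · have hB := caseB P x hxP hlc hM
    refine ⟨?_, hB.1, hB.2⟩
    by_cases hP : (P : Subgroup G) = ⊥
    · rw [hP]
      exact bot_le
    · exact Subgroup.le_normalizer.trans (hlc P le_rfl hP)

end Cfsg.Agent.S2998
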