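import Cfsg.Statements.S3003
import Mathlib
import Cfsg.Agent.S0023
import Cfsg.Agent.S0058
import Cfsg.Agent.Lib.Helper2.SylowAux

set_option autoImplicit false
open Cfsg

namespace Cfsg.Agent.S3003

theorem cent_zpowers {G : Type*} [Group G] (u : G) :
    Subgroup.centralizer ((Subgroup.zpowers u : Subgroup G) : Set G) =
      Subgroup.centralizer ({u} : Set G) := by
  apply le_antisymm
  · apply Subgroup.centralizer_le
    intro x hx
    rw [Set.mem_singleton_iff] at hx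
    rw [hx]; exact Subgroup.mem_zpowers u
  · intro x hx
    rw [Subgroup.mem_centralizer_iff] at hx ⊢
    intro y hy
    obtain ⟨k, rfl⟩ := Subgroup.mem_zpowers_iff.1 hy
    have h1 : Commute u x := hx u (Set.mem_singleton u)
    exact (h1.zpow_left k).eq

theorem mem_cs {G : Type*} [Group G] (u x : G) :
    x ∈ Subgroup.centralizer ({u} : Set G) ↔ Commute u x := by
  rw [Subgroup.mem_centralizer_iff]
  constructor
  · intro h; exact h u (Set.mem_singleton u)
  · intro h z hz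
    rw [Set.mem_singleton_iff] at hz
    rw [hz]; exact h.eq

theorem part1 {G : Type*} [Group G] [Finite G] {p : ℕ} [Fact p.Prime] (Q : Subgroup G)
    (hlarge : Cfsg.IsLarge Q) (G₁ : Subgroup G) (hQG : Q ≤ G₁) (R : Subgroup G)
    (hQp : IsPGroup p Q)
    (hR : (Nat.card ↥R).Coprime p) (hGR : G₁ ≤ Subgroup.normalizer (R : Set G)) (U : Subgroup G)
    (h : ∃ x ∈ U, x ≠ 1 ∧ ∃ g ∈ G₁, g * x * g⁻¹ ∈ Q ⊓ Subgroup.centralizer (Q : Set G)) :
    R ⊓ Subgroup.centralizer (U : Set G) = ⊥ := by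
  obtain ⟨x, hxU, hx1, g, hg, hz⟩ := h
  set z := g * x * g⁻¹ with hzdef
  have hz1 : z ≠ 1 := by
    intro h1
    apply hx1
    have : x = g⁻¹ * z * g := by rw [hzdef]; group
    rw [this, h1]; group
  have hRQ : R ⊓ Q = ⊥ := by
    obtain ⟨n, hn⟩ := IsPGroup.iff_card.mp hQp
    exact (Subgroup.disjoint_of_coprime_natCard
      (by rw [hn]; exact Nat.Coprime.pow_right n hR)).eq_bot
  have hnorm : Subgroup.normalizer ((Subgroup.zpowers z : Subgroup G) : Set G) ≤
      Subgroup.normalizer (Q : Set G) := by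
    apply hlarge.2
    · rw [Subgroup.zpowers_le]; exact hz.2
    · intro hb
      apply hz1
      have : z ∈ Subgroup.zpowers z := Subgroup.mem_zpowers z
      rw [hb] at this
      exact Subgroup.mem_bot.1 this
  have hCz : ∀ c ∈ R, Commute z c → c = 1 := by
    intro c hcR hzc
    have hcN : c ∈ Subgroup.normalizer (Q : Set G) := by
      apply hnorm
      apply Subgroup.centralizer_le_normalizer
      rw [cent_zpowers]
      exact (mem_cs z c).2 hzc
    have hcQ : c ∈ Subgroup.centralizer (Q : Set G) := by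
      rw [Subgroup.mem_centralizer_iff]
      intro q hq
      have h1 : c * q * c⁻¹ * q⁻¹ ∈ Q :=
        Q.mul_mem ((Subgroup.mem_normalizer_iff.1 hcN q).1 hq) (Q.inv_mem hq)
      have h2 : c * q * c⁻¹ * q⁻¹ ∈ R := by
        have hqR : q ∈ Subgroup.normalizer (R : Set G) := hGR (hQG hq)
        have h3 : q * c⁻¹ * q⁻¹ ∈ R := (Subgroup.mem_normalizer_iff.1 hqR _).1 (R.inv_mem hcR)
        have e : c * q * c⁻¹ * q⁻¹ = c * (q * c⁻¹ * q⁻¹) := by group
        rw [e]; exact R.mul_mem hcR h3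
      have h4 : c * q * c⁻¹ * q⁻¹ ∈ R ⊓ Q := ⟨h2, h1⟩
      rw [hRQ, Subgroup.mem_bot] at h4
      have : q * c = (c * q * c⁻¹ * q⁻¹)⁻¹ * (c * q) := by group
      rw [this, h4]; group
    have hcQ' : c ∈ R ⊓ Q := ⟨hcR, hlarge.1 hcQ⟩
    rw [hRQ, Subgroup.mem_bot] at hcQ'
    exact hcQ'
  rw [eq_bot_iff]
  rintro r ⟨hrR, hrU⟩
  rw [Subgroup.mem_bot]
  have hxr : Commute x r := (Subgroup.mem_centralizer_iff.1 hrU) x hxU
  have hgr : g * r * g⁻¹ ∈ R := (Subgroup.mem_normalizer_iff.1 (hGR hg) r).1 hrR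
  have hzc : Commute z (g * r * g⁻¹) := by
    show z * (g * r * g⁻¹) = (g * r * g⁻¹) * z
    rw [hzdef]
    have e1 : g * x * g⁻¹ * (g * r * g⁻¹) = g * (x * r) * g⁻¹ := by group
    have e2 : g * r * g⁻¹ * (g * x * g⁻¹) = g * (r * x) * g⁻¹ := by group
    rw [e1, e2, hxr.eq]
  have h1 := hCz _ hgr hzc
  have : r = g⁻¹ * (g * r * g⁻¹) * g := by group
  rw [this, h1]; group

theorem prime_inf {G : Type*} [Group G] {p : ℕ} [Fact p.Prime] (x : G) (hx : x ^ p = 1)
    (N : Subgroup G) (hxN : x ∉ N) :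
    ∀ y ∈ N, y ∈ Subgroup.zpowers x → y = 1 := by
  intro y hyN hy
  obtain ⟨k, rfl⟩ := Subgroup.mem_zpowers_iff.1 hy
  by_contra hne
  have hp : p.Prime := Fact.out
  have hndvd : ¬ (p : ℤ) ∣ k := by
    rintro ⟨m, rfl⟩
    apply hne
    rw [zpow_mul, zpow_natCast, hx, one_zpow]
  have hc : IsCoprime (p : ℤ) k :=
    (Nat.prime_iff_prime_int.mp hp).irreducible.coprime_iff_not_dvd.2 hndvd
  obtain ⟨a, b, hab⟩ := hc
  apply hxN
  have e : x = (x ^ k) ^ b := by
    have : x ^ (a * (p : ℤ) + b * k) = x := by rw [hab, zpow_one]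
    rw [zpow_add, mul_comm a, zpow_mul, zpow_natCast, hx, one_zpow, one_mul, mul_comm b,
      zpow_mul] at this
    exact this.symm
  rw [e]
  exact N.zpow_mem hyN b

theorem part2 {G : Type*} [Group G] [Finite G] {p : ℕ} [Fact p.Prime]
    (R U : Subgroup G) (hR : (Nat.card ↥R).Coprime p)
    (hUR : U ≤ Subgroup.normalizer (R : Set G))
    (hUe : Cfsg.IsElementaryAbelian p U) (hcard : p ^ 2 ≤ Nat.card ↥U)
    (hco : ∀ U₀ : Subgroup G, U₀ ≤ U → IsCoatom (U₀.subgroupOf U) →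
      R ⊓ Subgroup.centralizer (U₀ : Set G) = ⊥) : R = ⊥ := by
  classical
  obtain ⟨hUc, hUp⟩ := hUe
  have hp : p.Prime := Fact.out
  have hcomm : ∀ a ∈ U, ∀ b ∈ U, Commute a b := by
    intro a ha b hb
    have := hUc.is_comm.comm (⟨a, ha⟩ : ↥U) ⟨b, hb⟩
    exact congrArg Subtype.val this
  have hUpg : IsPGroup p U := Cfsg.Agent.Lib.Helper2.SylowAux.isPGroup_of_elementary U hUp
  by_contra hRne
  have hbot : Subgroup.centralizer ((⊥ : Subgroup G) : Set G) = ⊤ := by
    rw [eq_top_iff]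
    intro x _
    rw [Subgroup.mem_centralizer_iff]
    intro h hh
    rw [Subgroup.coe_bot, Set.mem_singleton_iff] at hh
    rw [hh]; simp
  obtain ⟨B, ⟨hBU, hBne⟩, hBmax⟩ := Set.exists_max_image
    {B : Subgroup G | B ≤ U ∧ R ⊓ Subgroup.centralizer (B : Set G) ≠ ⊥}
    (fun B => Nat.card B) (Set.toFinite _) ⟨⊥, bot_le, by rw [hbot, inf_top_eq]; exact hRne⟩
  have hmax : ∀ B' : Subgroup G, B' ≤ U → B ≤ B' → B ≠ B' →
      R ⊓ Subgroup.centralizer (B' : Set G) = ⊥ := by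
    intro B' hB'U hBB' hne
    by_contra hcon
    have h1 := hBmax B' ⟨hB'U, hcon⟩
    exact hne (Subgroup.eq_of_le_of_card_ge hBB' h1)
  have hcoat : ∃ M : Subgroup G, M ≤ U ∧ IsCoatom (M.subgroupOf U) ∧ (B ≤ M ∨ B = U) := by
    rcases eq_top_or_exists_le_coatom (B.subgroupOf U) with htop | ⟨M₀, hM₀, hle⟩
    · have hBU' : B = U := le_antisymm hBU (Subgroup.subgroupOf_eq_top.1 htop)
      rcases eq_top_or_exists_le_coatom (⊥ : Subgroup ↥U) with htop' | ⟨M₀, hM₀, -⟩
      · exfalso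
        have h1 : Subsingleton (Subgroup ↥U) := subsingleton_of_bot_eq_top htop'
        have h2 : Subsingleton ↥U := Subgroup.subsingleton_iff.1 h1
        have h3 : Nat.card ↥U ≤ 1 := Finite.card_le_one_iff_subsingleton.2 h2
        have h4 : 2 ^ 2 ≤ p ^ 2 := Nat.pow_le_pow_left hp.two_le 2
        omega
      · refine ⟨M₀.map U.subtype, Subgroup.map_subtype_le _, ?_, Or.inr hBU'⟩
        have e : (M₀.map U.subtype).subgroupOf U = M₀ :=
          Subgroup.comap_map_eq_self_of_injective (Subgroup.subtype_injective U) M₀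
        rw [e]; exact hM₀
    · refine ⟨M₀.map U.subtype, Subgroup.map_subtype_le _, ?_, Or.inl ?_⟩
      · have e : (M₀.map U.subtype).subgroupOf U = M₀ :=
          Subgroup.comap_map_eq_self_of_injective (Subgroup.subtype_injective U) M₀
        rw [e]; exact hM₀
      · intro b hb
        exact ⟨⟨b, hBU hb⟩, hle (Subgroup.mem_subgroupOf.2 hb), rfl⟩
  obtain ⟨M, hMU, hMco, hBM⟩ := hcoat
  have hM0 := hco M hMU hMco
  rcases hBM with hBM | hBeq
  swap
  · apply hBne
    rw [eq_bot_iff, ← hM0]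
    refine inf_le_inf_left R (Subgroup.centralizer_le ?_)
    rw [hBeq]; exact hMU
  by_cases hBMeq : B = M
  · rw [hBMeq] at hBne; exact hBne hM0
  have hlt : B < M := lt_of_le_of_ne hBM hBMeq
  obtain ⟨u, hu, hu'⟩ := SetLike.exists_of_lt hlt
  have hMne : ¬ U ≤ M := by
    intro hUM
    exact hMco.1 (Subgroup.subgroupOf_eq_top.2 hUM)
  obtain ⟨v, hv, hv'⟩ := SetLike.not_le_iff_exists.1 hMne
  have huU : u ∈ U := hMU hu
  have hup : u ^ p = 1 := hUp u huU
  have hvp : v ^ p = 1 := hUp v hv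
  have hu1 : u ≠ 1 := fun h => hu' (by rw [h]; exact B.one_mem)
  set A := Subgroup.zpowers u ⊔ Subgroup.zpowers v with hA
  have hAU : A ≤ U := sup_le (Subgroup.zpowers_le.2 huU) (Subgroup.zpowers_le.2 hv)
  have hAc : IsMulCommutative ↥A :=
    ⟨⟨fun a b => Subtype.ext (hcomm a.1 (hAU a.2) b.1 (hAU b.2)).eq⟩⟩
  have hAcyc : ¬ IsCyclic ↥A := by
    intro hcyc
    obtain ⟨w, hw⟩ := hcyc.exists_generator
    have hwp : w ^ p = 1 := Subtype.ext (by simpa using hUp w (hAU w.2))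
    have hcardA : Nat.card ↥A ∣ p := by
      rw [← orderOf_eq_card_of_forall_mem_zpowers hw]
      exact orderOf_dvd_of_pow_eq_one hwp
    have hou : orderOf u = p := orderOf_eq_prime hup hu1
    have hle : Subgroup.zpowers u ≤ A := le_sup_left
    have hcard_le : Nat.card ↥A ≤ Nat.card ↥(Subgroup.zpowers u) := by
      rw [Nat.card_zpowers, hou]; exact Nat.le_of_dvd hp.pos hcardA
    have heq := Subgroup.eq_of_le_of_card_ge hle hcard_le
    have hvA : v ∈ A := (le_sup_right : Subgroup.zpowers v ≤ A) (Subgroup.mem_zpowers v)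
    rw [← heq] at hvA
    exact hv' ((Subgroup.zpowers_le.2 hu) hvA)
  set K := R ⊓ Subgroup.centralizer (B : Set G) with hK
  have hAK : A ≤ Subgroup.normalizer (K : Set G) := by
    rw [Subgroup.le_normalizer_iff]
    rintro s hs k ⟨hkR, hkB⟩
    have hsU : s ∈ U := hAU hs
    have hkB' := Subgroup.mem_centralizer_iff.1 hkB
    refine ⟨(Subgroup.mem_normalizer_iff.1 (hUR hsU) k).1 hkR,
      Subgroup.mem_centralizer_iff.2 ?_⟩
    intro b hb
    have h1 : Commute b s := hcomm b (hBU hb) s hsU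
    have h2 : Commute b k := hkB' b hb
    exact ((h1.mul_right h2).mul_right h1.inv_right).eq
  have hcopAK : (Nat.card ↥A).Coprime (Nat.card ↥K) := by
    obtain ⟨n, hn⟩ := IsPGroup.iff_card.mp (hUpg.to_le hAU)
    rw [hn]
    exact Nat.Coprime.pow_left n
      (Nat.Coprime.coprime_dvd_left (Subgroup.card_dvd_of_le inf_le_left) hR).symm
  have hgen := Cfsg.Agent.S0058.result A K hAcyc hAK hcopAK
  have huv : Commute u v := hcomm u huU v hv
  have hvn : Subgroup.zpowers v ≤ Subgroup.normalizer ((Subgroup.zpowers u : Subgroup G) : Set G) := by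
    refine le_trans ?_ (Subgroup.centralizer_le_normalizer _)
    rw [Subgroup.zpowers_le, cent_zpowers]
    exact (mem_cs u v).2 huv
  have hKbot : K = ⊥ := by
    rw [eq_bot_iff, ← hgen]
    apply iSup_le
    intro a
    apply iSup_le
    rintro ⟨haA, ha1⟩
    have haB : a ∉ B := by
      intro haB
      obtain ⟨k, hk, a', ha', rfl⟩ := Cfsg.Agent.S0023.mem_sup_of_le_normalizer
        (Subgroup.zpowers u) (Subgroup.zpowers v) hvn haA
      have hkM : k ∈ M := (Subgroup.zpowers_le.2 hu) hk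
      have ha'M : a' ∈ M := by
        have e : a' = k⁻¹ * (k * a') := by group
        rw [e]; exact M.mul_mem (M.inv_mem hkM) (hBM haB)
      have ha'1 : a' = 1 := prime_inf v hvp M hv' a' ha'M ha'
      rw [ha'1, mul_one] at haB ha1
      exact ha1 (prime_inf u hup B hu' k haB hk)
    have h2 := hmax (B ⊔ Subgroup.zpowers a)
      (sup_le hBU (Subgroup.zpowers_le.2 (hAU haA))) le_sup_left
      (fun h => haB (by
        rw [h]; exact (le_sup_right : Subgroup.zpowers a ≤ _) (Subgroup.mem_zpowers a)))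
    rw [← h2]
    rintro r ⟨⟨hrR, hrB⟩, hra⟩
    have h3 : B ⊔ Subgroup.zpowers a ≤ Subgroup.centralizer ({r} : Set G) := by
      refine sup_le ?_ ?_
      · intro b hb
        have h4 : Commute b r := (Subgroup.mem_centralizer_iff.1 hrB) b hb
        exact (mem_cs r b).2 h4.symm
      · rw [Subgroup.zpowers_le]
        exact (mem_cs r a).2 ((mem_cs a r).1 hra).symm
    exact ⟨hrR, Subgroup.mem_centralizer_iff.2
      (fun y hy => ((mem_cs r y).1 (h3 hy)).symm.eq)⟩
  exact hBne hKbot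

theorem result {G : Type*} [Group G] [Finite G] {p : ℕ} [Fact p.Prime] (Q : Subgroup G) (hQp : IsPGroup p ↥Q) (hlarge : Cfsg.IsLarge Q) (G₁ : Subgroup G) (hQG : Q ≤ G₁) (R : Subgroup G) (hR : (Nat.card ↥R).Coprime p) (hGR : G₁ ≤ Subgroup.normalizer (R : Set G)) (U : Subgroup G) (hUG : U ≤ G₁) (hUp : IsPGroup p ↥U) : ((∃ x ∈ U, x ≠ 1 ∧ ∃ g ∈ G₁, g * x * g⁻¹ ∈ Q ⊓ Subgroup.centralizer (Q : Set G)) → R ⊓ Subgroup.centralizer (U : Set G) = ⊥) ∧ (Cfsg.IsElementaryAbelian p U → p ^ 2 ≤ Nat.card ↥U → (∀ U₀ : Subgroup G, U₀ ≤ U → IsCoatom (U₀.subgroupOf U) → ∃ x ∈ U₀, x ≠ 1 ∧ ∃ g ∈ G₁, g * x * g⁻¹ ∈ Q ⊓ Subgroup.centralizer (Q : Set G)) → R = ⊥) := by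
  refine ⟨fun h => part1 Q hlarge G₁ hQG R hQp hR hGR U h, fun hUe hcard hall => ?_⟩
  apply part2 R U hR (hUG.trans hGR) hUe hcard
  intro U₀ hU₀ hco
  exact part1 Q hlarge G₁ hQG R hQp hR hGR U₀ (hall U₀ hU₀ hco)

end Cfsg.Agent.S3003
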