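import Cfsg.Statements.S3004
import Mathlib
import Cfsg.Agent.Lib.Helper5.CD

set_option autoImplicit false
open scoped Pointwise
open Cfsg

namespace Cfsg.Agent.S3004

theorem set_eq_mul {G : Type*} [Group G] [Finite G] (Q R : Subgroup G)
    (h : Nat.card Q * Nat.card R = Nat.card (Q ⊔ R : Subgroup G) * Nat.card (Q ⊓ R : Subgroup G)) :
    ((Q ⊔ R : Subgroup G) : Set G) = (Q : Set G) * (R : Set G) := by
  ext x
  constructor
  · intro hx
    obtain ⟨q, hq, r, hr, rfl⟩ := Cfsg.Agent.Lib.Helper5.CD.mem_mul_of_card_eq Q R h x hx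
    exact Set.mul_mem_mul hq hr
  · rintro ⟨q, hq, r, hr, rfl⟩
    exact mul_mem ((le_sup_left : Q ≤ Q ⊔ R) hq) ((le_sup_right : R ≤ Q ⊔ R) hr)

theorem result {p : ℕ} [Fact p.Prime] (P : Type*) [Group P] [Finite P] (hP : IsPGroup p P) (Q R : Subgroup P) (hQ : Cfsg.IsCentralizerLarge Q) (hR : Cfsg.IsCentralizerLarge R) : ((Q ⊔ R : Subgroup P) : Set P) = (Q : Set P) * (R : Set P) ∧ Cfsg.IsCentralizerLarge (Q ⊔ R) ∧ Cfsg.IsCentralizerLarge (Q ⊓ R) ∧ Cfsg.IsCentralizerLarge (Subgroup.centralizer (Q : Set P)) ∧ Q = Subgroup.centralizer ((Subgroup.centralizer (Q : Set P) : Subgroup P) : Set P) ∧ ((Subgroup.centralizer (Q : Set P) ⊔ Subgroup.centralizer (R : Set P) : Subgroup P) : Set P) = (Subgroup.centralizer (Q : Set P) : Set P) * (Subgroup.centralizer (R : Set P) : Set P) ∧ Subgroup.centralizer ((Q ⊓ R : Subgroup P) : Set P) = Subgroup.centralizer (Q : Set P) ⊔ Subgroup.centralizer (R : Set P)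 := by
  obtain ⟨h1, h2, h3, h4⟩ := Cfsg.Agent.Lib.Helper5.CD.large_sup_inf Q R hQ hR
  obtain ⟨h5, h6⟩ := Cfsg.Agent.Lib.Helper5.CD.large_centralizer Q hQ
  obtain ⟨h7, _⟩ := Cfsg.Agent.Lib.Helper5.CD.large_centralizer R hR
  obtain ⟨_, _, h8, _⟩ := Cfsg.Agent.Lib.Helper5.CD.large_sup_inf _ _ h5 h7
  exact ⟨set_eq_mul Q R h3, h1, h2, h5, h6, set_eq_mul _ _ h8, h4⟩

end Cfsg.Agent.S3004
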