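import Cfsg.Statements.S3005
import Mathlib
import Cfsg.Agent.Lib.Helper5.CD
import Cfsg.Agent.S3004

set_option autoImplicit false
open scoped Pointwise
open Cfsg

namespace Cfsg.Agent.S3005

open Cfsg.Agent.Lib.Helper5

theorem card_center_eq {P : Type*} [Group P] (R : Subgroup P) :
    Nat.card ↥(Subgroup.center ↥R) = Nat.card ↥(R ⊓ Subgroup.centralizer (R : Set P)) := by
  have h : (Subgroup.center ↥R).map R.subtype = R ⊓ Subgroup.centralizer (R : Set P) := by
    ext x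
    constructor
    · rintro ⟨y, hy, rfl⟩
      refine Subgroup.mem_inf.mpr ⟨y.2, ?_⟩
      rw [Subgroup.mem_centralizer_iff]
      intro r hr
      have h0 := Subgroup.mem_center_iff.mp hy ⟨r, hr⟩
      exact congrArg Subtype.val h0
    · intro hx
      obtain ⟨hxR, hxC⟩ := Subgroup.mem_inf.mp hx
      refine ⟨⟨x, hxR⟩, ?_, rfl⟩
      rw [SetLike.mem_coe, Subgroup.mem_center_iff]
      intro g
      apply Subtype.ext
      exact Subgroup.mem_centralizer_iff.mp hxC g g.2
  rw [← h, Subgroup.card_map_of_injective R.subtype_injective]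

theorem cprod_le {P : Type*} [Group P] [Finite P] (R : Subgroup P) :
    Nat.card ↥R * Nat.card ↥(Subgroup.center ↥R) ≤ Cfsg.maxCentralizerProduct P := by
  rw [card_center_eq]
  exact le_trans (Nat.mul_le_mul_left _ (Subgroup.card_le_of_le inf_le_right)) (CD.meas_le_max R)

theorem bdd (P : Type*) [Group P] [Finite P] :
    BddAbove {k : ℕ | ∃ R : Subgroup P, Nat.card ↥R * Nat.card ↥(Subgroup.center ↥R) = k} :=
  ⟨Cfsg.maxCentralizerProduct P, by rintro k ⟨R, rfl⟩; exact cprod_le R⟩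

theorem max_eq (P : Type*) [Group P] [Finite P] :
    Cfsg.maxCentralProduct P = Cfsg.maxCentralizerProduct P := by
  apply le_antisymm
  · unfold Cfsg.maxCentralProduct
    refine csSup_le ⟨Nat.card ↥(⊥ : Subgroup P) * Nat.card ↥(Subgroup.center ↥(⊥ : Subgroup P)),
      ⊥, rfl⟩ ?_
    rintro k ⟨R, rfl⟩
    exact cprod_le R
  · obtain ⟨H, hH⟩ := CD.exists_large (G := P)
    unfold Cfsg.IsCentralizerLarge at hH
    have h1 := Basic.card_mul_card_le H (Subgroup.centralizer (H : Set P))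
    have h2 : H ⊓ Subgroup.centralizer (H : Set P) ≤
        (H ⊔ Subgroup.centralizer (H : Set P)) ⊓
          Subgroup.centralizer ((H ⊔ Subgroup.centralizer (H : Set P) : Subgroup P) : Set P) := by
      apply le_inf (inf_le_left.trans le_sup_left)
      refine le_trans ?_ (CD.inf_centralizer_le H (Subgroup.centralizer (H : Set P)))
      exact le_inf inf_le_right (inf_le_left.trans (CD.le_centralizer_centralizer' H))
    have h3 := Subgroup.card_le_of_le h2
    have h4 : Cfsg.maxCentralizerProduct P ≤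
        Nat.card ↥(H ⊔ Subgroup.centralizer (H : Set P)) *
          Nat.card ↥(Subgroup.center ↥(H ⊔ Subgroup.centralizer (H : Set P))) := by
      rw [card_center_eq, ← hH]
      exact le_trans h1 (Nat.mul_le_mul_left _ h3)
    exact le_trans h4 (le_csSup (bdd P) ⟨_, rfl⟩)

theorem cl_iff {P : Type*} [Group P] [Finite P] (Q : Subgroup P) :
    Cfsg.IsCentrallyLarge Q ↔
      Cfsg.IsCentralizerLarge Q ∧ Subgroup.centralizer (Q : Set P) ≤ Q := by
  unfold Cfsg.IsCentrallyLarge Cfsg.IsCentralizerLarge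
  rw [max_eq, card_center_eq]
  constructor
  · intro h
    have h1 : Nat.card ↥(Q ⊓ Subgroup.centralizer (Q : Set P)) ≤
        Nat.card ↥(Subgroup.centralizer (Q : Set P)) := Subgroup.card_le_of_le inf_le_right
    have h2 := CD.meas_le_max Q
    have h3 : Nat.card ↥Q * Nat.card ↥(Subgroup.centralizer (Q : Set P)) =
        Cfsg.maxCentralizerProduct P :=
      le_antisymm h2 (by rw [← h]; exact Nat.mul_le_mul_left _ h1)
    refine ⟨h3, ?_⟩
    have h4 : Nat.card ↥(Q ⊓ Subgroup.centralizer (Q : Set P)) =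
        Nat.card ↥(Subgroup.centralizer (Q : Set P)) := by
      have h0 : Nat.card ↥Q * Nat.card ↥(Q ⊓ Subgroup.centralizer (Q : Set P)) =
          Nat.card ↥Q * Nat.card ↥(Subgroup.centralizer (Q : Set P)) := by rw [h, h3]
      exact Nat.eq_of_mul_eq_mul_left Nat.card_pos h0
    have h5 : Q ⊓ Subgroup.centralizer (Q : Set P) = Subgroup.centralizer (Q : Set P) :=
      Subgroup.eq_of_le_of_card_ge inf_le_right (le_of_eq h4.symm)
    rw [← h5]; exact inf_le_left
  · rintro ⟨h1, h2⟩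
    rw [inf_eq_right.mpr h2]; exact h1

theorem sup_cl {P : Type*} [Group P] [Finite P] (Q R : Subgroup P)
    (hQ : Cfsg.IsCentrallyLarge Q) (hR : Cfsg.IsCentrallyLarge R) :
    ((Q ⊔ R : Subgroup P) : Set P) = (Q : Set P) * (R : Set P) ∧
      Cfsg.IsCentrallyLarge (Q ⊔ R) := by
  obtain ⟨hQ1, hQ2⟩ := (cl_iff Q).mp hQ
  obtain ⟨hR1, hR2⟩ := (cl_iff R).mp hR
  obtain ⟨h1, h2, h3, h4⟩ := CD.large_sup_inf Q R hQ1 hR1
  refine ⟨Cfsg.Agent.S3004.set_eq_mul Q R h3, (cl_iff _).mpr ⟨h1, ?_⟩⟩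
  exact (Subgroup.centralizer_le (SetLike.coe_subset_coe.mpr (le_sup_left : Q ≤ Q ⊔ R))).trans
    (hQ2.trans le_sup_left)

theorem exists_cl (P : Type*) [Group P] [Finite P] :
    ∃ K : Subgroup P, Cfsg.IsCentrallyLarge K := by
  obtain ⟨H, hH⟩ := CD.exists_large (G := P)
  have h1 := CD.large_centralizer H hH
  have h2 := CD.large_sup_inf H (Subgroup.centralizer (H : Set P)) hH h1.1
  refine ⟨H ⊔ Subgroup.centralizer (H : Set P), (cl_iff _).mpr ⟨h2.1, ?_⟩⟩
  exact (Subgroup.centralizer_le (SetLike.coe_subset_coe.mpr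
    (le_sup_left : H ≤ H ⊔ Subgroup.centralizer (H : Set P)))).trans le_sup_right

theorem exists_mcl (P : Type*) [Group P] [Finite P] :
    ∃ K : Subgroup P, Cfsg.IsMinimalCentrallyLarge K := by
  obtain ⟨K, hK⟩ := exists_cl P
  obtain ⟨Q, hQ, hmin⟩ := Set.exists_min_image {R : Subgroup P | Cfsg.IsCentrallyLarge R}
    (fun R => Nat.card ↥R) (Set.toFinite _) ⟨K, hK⟩
  refine ⟨Q, hQ, ?_⟩
  intro R' hle hR'
  exact Subgroup.eq_of_le_of_card_ge hle (hmin R' hR')

theorem supClosed_cl (P : Type*) [Group P] [Finite P] :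
    SupClosed {R : Subgroup P | Cfsg.IsCentrallyLarge R} :=
  fun a ha b hb => (sup_cl a b ha hb).2

theorem result {p : ℕ} [Fact p.Prime] (P : Type*) [Group P] [Finite P] (hP : IsPGroup p P) : (∀ Q : Subgroup P, Cfsg.IsCentrallyLarge Q → Cfsg.IsCentralizerLarge Q ∧ Subgroup.centralizer (Q : Set P) = Q ⊓ Subgroup.centralizer (Q : Set P)) ∧ (∀ Q : Subgroup P, Cfsg.IsCentralizerLarge Q → (Cfsg.IsCentrallyLarge Q ↔ Subgroup.centralizer (Q : Set P) ≤ Q)) ∧ (∀ Q R : Subgroup P, Cfsg.IsCentrallyLarge Q → Cfsg.IsCentrallyLarge R → ((Q ⊔ R : Subgroup P) : Set P) = (Q : Set P) * (R : Set P) ∧ Cfsg.IsCentrallyLarge (Q ⊔ R)) ∧ Cfsg.IsCentrallyLarge (Cfsg.centrallyLargeJoin P) ∧ Cfsg.IsCentrallyLarge (Cfsg.minimalCentrallyLargeJoin P) := by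
  refine ⟨?_, ?_, ?_, ?_, ?_⟩
  · intro Q hQ
    obtain ⟨h1, h2⟩ := (cl_iff Q).mp hQ
    exact ⟨h1, (inf_eq_right.mpr h2).symm⟩
  · intro Q hQ
    rw [cl_iff]
    exact ⟨fun h => h.2, fun h => ⟨hQ, h⟩⟩
  · intro Q R hQ hR
    exact sup_cl Q R hQ hR
  · exact (supClosed_cl P).sSup_mem_of_nonempty (Set.toFinite _) (exists_cl P) (le_refl _)
  · exact (supClosed_cl P).sSup_mem_of_nonempty (Set.toFinite _) (exists_mcl P) (fun R h => h.1)

end Cfsg.Agent.S3005
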