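import Cfsg.Statements.S3006
import Mathlib
import Cfsg.Agent.S3005

set_option autoImplicit false
open scoped Pointwise
open Cfsg

namespace Cfsg.Agent.S3006

open Cfsg.Agent.Lib.Helper5

theorem comm_sup {P : Type*} [Group P] (B Z : Subgroup P)
    (hB : ∀ x ∈ B, ∀ y ∈ B, x * y = y * x) (hZ : ∀ x ∈ Z, ∀ y ∈ Z, x * y = y * x)
    (hBZ : ∀ x ∈ B, ∀ y ∈ Z, x * y = y * x) : IsMulCommutative ↥(B ⊔ Z) := by
  have h1 : B ≤ Subgroup.centralizer ((B ⊔ Z : Subgroup P) : Set P) := by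
    refine le_trans ?_ (CD.inf_centralizer_le B Z)
    refine le_inf ?_ ?_
    · intro x hx; rw [Subgroup.mem_centralizer_iff]; intro y hy; exact hB y hy x hx
    · intro x hx; rw [Subgroup.mem_centralizer_iff]; intro y hy; exact (hBZ x hx y hy).symm
  have h2 : Z ≤ Subgroup.centralizer ((B ⊔ Z : Subgroup P) : Set P) := by
    refine le_trans ?_ (CD.inf_centralizer_le B Z)
    refine le_inf ?_ ?_
    · intro x hx; rw [Subgroup.mem_centralizer_iff]; intro y hy; exact hBZ y hy x hx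
    · intro x hx; rw [Subgroup.mem_centralizer_iff]; intro y hy; exact hZ y hy x hx
  have h3 : B ⊔ Z ≤ Subgroup.centralizer ((B ⊔ Z : Subgroup P) : Set P) := sup_le h1 h2
  exact ⟨⟨fun x y => Subtype.ext (Subgroup.mem_centralizer_iff.mp (h3 y.2) x x.2)⟩⟩

theorem abelian_props {P : Type*} [Group P] [Finite P] (A : Subgroup P)
    (hA : A ∈ Cfsg.maxAbelianSubgroups P) :
    (∀ x ∈ A, ∀ y ∈ A, x * y = y * x) ∧ Subgroup.centralizer (A : Set P) ≤ A ∧
    A ≤ Subgroup.centralizer (A : Set P) := by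
  obtain ⟨hc, hmax⟩ := hA
  have hcomm : ∀ x ∈ A, ∀ y ∈ A, x * y = y * x := fun x hx y hy =>
    congrArg Subtype.val (hc.is_comm.comm ⟨x, hx⟩ ⟨y, hy⟩)
  refine ⟨hcomm, ?_, ?_⟩
  · intro x hx
    have h1 : IsMulCommutative ↥(A ⊔ Subgroup.zpowers x) := by
      apply comm_sup A (Subgroup.zpowers x) hcomm
      · intro a ha b hb
        obtain ⟨i, rfl⟩ := Subgroup.mem_zpowers_iff.mp ha
        obtain ⟨j, rfl⟩ := Subgroup.mem_zpowers_iff.mp hb
        exact (Commute.zpow_zpow_self x i j).eq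
      · intro a ha b hb
        obtain ⟨j, rfl⟩ := Subgroup.mem_zpowers_iff.mp hb
        have h0 : Commute a x := Subgroup.mem_centralizer_iff.mp hx a ha
        exact (h0.zpow_right j).eq
    have h2 := hmax _ h1
    have h3 : A = A ⊔ Subgroup.zpowers x := Subgroup.eq_of_le_of_card_ge le_sup_left h2
    rw [h3]
    exact Subgroup.mem_sup_right (Subgroup.mem_zpowers x)
  · intro x hx
    rw [Subgroup.mem_centralizer_iff]
    intro y hy
    exact hcomm y hy x hx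

theorem arith {q a s d z t e c : ℕ} (hs : 0 < s) (hd : 0 < d) (ha : 0 < a) (ht : 0 < t)
    (he : 0 < e) (hc : 0 < c)
    (i1 : q * a ≤ s * d) (i2 : d * z ≤ t * e) (i3 : t ≤ a) (i4 : e ≤ c) (i5 : s * c ≤ q * z) :
    q * a = s * d ∧ s * c = q * z ∧ d * z = t * e ∧ t = a := by
  have h_a : q * a * (d * z) ≤ s * d * (t * e) := Nat.mul_le_mul i1 i2
  have h_b : s * d * (t * e) ≤ s * d * (a * c) := Nat.mul_le_mul_left _ (Nat.mul_le_mul i3 i4)
  have h_c : s * d * (a * c) = s * c * (d * a) := by ring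
  have h_d : s * c * (d * a) ≤ q * z * (d * a) := Nat.mul_le_mul_right _ i5
  have h_e : q * z * (d * a) = q * a * (d * z) := by ring
  have hte : 0 < t * e := Nat.mul_pos ht he
  have hsd : 0 < s * d := Nat.mul_pos hs hd
  have hda : 0 < d * a := Nat.mul_pos hd ha
  have hcyc : s * d * (t * e) ≤ q * a * (d * z) := by
    calc s * d * (t * e) ≤ s * d * (a * c) := h_b
      _ = s * c * (d * a) := h_c
      _ ≤ q * z * (d * a) := h_d
      _ = q * a * (d * z) := h_e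
  refine ⟨le_antisymm i1 ?_, le_antisymm i5 ?_, le_antisymm i2 ?_, le_antisymm i3 ?_⟩
  · have h0 : s * d * (t * e) ≤ q * a * (t * e) := hcyc.trans (Nat.mul_le_mul_left _ i2)
    exact Nat.le_of_mul_le_mul_right h0 hte
  · have h0 : q * z * (d * a) ≤ s * c * (d * a) := by
      calc q * z * (d * a) = q * a * (d * z) := h_e
        _ ≤ s * d * (t * e) := h_a
        _ ≤ s * d * (a * c) := h_b
        _ = s * c * (d * a) := h_c
    exact Nat.le_of_mul_le_mul_right h0 hda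
  · have h0 : s * d * (t * e) ≤ s * d * (d * z) := hcyc.trans (Nat.mul_le_mul_right _ i1)
    exact Nat.le_of_mul_le_mul_left h0 hsd
  · have h0 : s * d * (a * c) ≤ s * d * (t * c) := by
      calc s * d * (a * c) = s * c * (d * a) := h_c
        _ ≤ q * z * (d * a) := h_d
        _ = q * a * (d * z) := h_e
        _ ≤ s * d * (t * e) := h_a
        _ ≤ s * d * (t * c) := Nat.mul_le_mul_left _ (Nat.mul_le_mul_left _ i4)
    have h1 : a * c ≤ t * c := Nat.le_of_mul_le_mul_left h0 hsd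
    exact Nat.le_of_mul_le_mul_right h1 hc

theorem key {P : Type*} [Group P] [Finite P] (Q A : Subgroup P)
    (hQ : Cfsg.IsCentrallyLarge Q) (hA : A ∈ Cfsg.maxAbelianSubgroups P) :
    Nat.card Q * Nat.card A = Nat.card (Q ⊔ A : Subgroup P) * Nat.card (Q ⊓ A : Subgroup P) ∧
    Cfsg.IsCentrallyLarge (Q ⊔ A) ∧
    Nat.card (Q ⊓ A : Subgroup P) * Nat.card (Subgroup.centralizer (Q : Set P)) =
      Nat.card ((Q ⊓ A) ⊔ Subgroup.centralizer (Q : Set P) : Subgroup P) *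
        Nat.card ((Q ⊓ A) ⊓ Subgroup.centralizer (Q : Set P) : Subgroup P) ∧
    Subgroup.centralizer (((Q ⊓ A) ⊔ Subgroup.centralizer (Q : Set P) : Subgroup P) : Set P) ≤
      (Q ⊓ A) ⊔ Subgroup.centralizer (Q : Set P) := by
  obtain ⟨hQ1, hQ2⟩ := (Cfsg.Agent.S3005.cl_iff Q).mp hQ
  obtain ⟨hAc, hAC, hAC'⟩ := abelian_props A hA
  have hZc : ∀ x ∈ Subgroup.centralizer (Q : Set P), ∀ y ∈ Subgroup.centralizer (Q : Set P),
      x * y = y * x := fun x hx y hy => Subgroup.mem_centralizer_iff.mp hy x (hQ2 hx)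
  have hDZ : ∀ x ∈ Q ⊓ A, ∀ y ∈ Subgroup.centralizer (Q : Set P), x * y = y * x :=
    fun x hx y hy => Subgroup.mem_centralizer_iff.mp hy x (Subgroup.mem_inf.mp hx).1
  have hDc : ∀ x ∈ Q ⊓ A, ∀ y ∈ Q ⊓ A, x * y = y * x := fun x hx y hy =>
    hAc x (Subgroup.mem_inf.mp hx).2 y (Subgroup.mem_inf.mp hy).2
  have hA1 : IsMulCommutative ↥((Q ⊓ A) ⊔ Subgroup.centralizer (Q : Set P)) :=
    comm_sup _ _ hDc hZc hDZ
  have i1 := Basic.card_mul_card_le Q A
  have i2 := Basic.card_mul_card_le (Q ⊓ A) (Subgroup.centralizer (Q : Set P))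
  have i3 := hA.2 _ hA1
  have i4 : Nat.card ((Q ⊓ A) ⊓ Subgroup.centralizer (Q : Set P) : Subgroup P) ≤
      Nat.card (Subgroup.centralizer ((Q ⊔ A : Subgroup P) : Set P)) := by
    apply Subgroup.card_le_of_le
    refine le_trans ?_ (CD.inf_centralizer_le Q A)
    exact le_inf inf_le_right (inf_le_left.trans (inf_le_right.trans hAC'))
  have i5 := CD.meas_le_max (Q ⊔ A)
  unfold Cfsg.IsCentralizerLarge at hQ1
  rw [← hQ1] at i5
  obtain ⟨e1, e2, e3, e4⟩ := arith Nat.card_pos Nat.card_pos Nat.card_pos Nat.card_pos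
    Nat.card_pos Nat.card_pos i1 i2 i3 i4 i5
  refine ⟨e1, ?_, e3, ?_⟩
  · rw [Cfsg.Agent.S3005.cl_iff]
    refine ⟨?_, ?_⟩
    · unfold Cfsg.IsCentralizerLarge
      rw [e2, hQ1]
    · exact (Subgroup.centralizer_le (SetLike.coe_subset_coe.mpr (le_sup_left : Q ≤ Q ⊔ A))).trans
        (hQ2.trans le_sup_left)
  · have hmem : (Q ⊓ A) ⊔ Subgroup.centralizer (Q : Set P) ∈ Cfsg.maxAbelianSubgroups P := by
      refine ⟨hA1, ?_⟩
      intro B hB
      rw [e4]
      exact hA.2 B hB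
    exact (abelian_props _ hmem).2.1

theorem decomp {P : Type*} [Group P] [Finite P] (Q A : Subgroup P)
    (hQ : Cfsg.IsCentrallyLarge Q) (hA : A ∈ Cfsg.maxAbelianSubgroups P) :
    ∀ x ∈ (Q ⊔ A) ⊓ Subgroup.centralizer ((Q ⊓ A : Subgroup P) : Set P),
      ∃ z ∈ Subgroup.centralizer (Q : Set P), ∃ a ∈ A, x = z * a := by
  obtain ⟨k1, k2, k3, k4⟩ := key Q A hQ hA
  obtain ⟨hAc, hAC, hAC'⟩ := abelian_props A hA
  intro x hx
  obtain ⟨hx1, hx2⟩ := Subgroup.mem_inf.mp hx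
  obtain ⟨q, hq, a, ha, rfl⟩ := CD.mem_mul_of_card_eq Q A k1 x hx1
  have hqD : q ∈ Subgroup.centralizer ((Q ⊓ A : Subgroup P) : Set P) := by
    have ha' : a⁻¹ ∈ Subgroup.centralizer ((Q ⊓ A : Subgroup P) : Set P) :=
      Subgroup.centralizer_le (SetLike.coe_subset_coe.mpr (inf_le_right : Q ⊓ A ≤ A))
        (hAC' (inv_mem ha))
    have h0 := mul_mem hx2 ha'
    rwa [mul_inv_cancel_right] at h0
  have hqZ : q ∈ Subgroup.centralizer ((Subgroup.centralizer (Q : Set P) : Subgroup P) : Set P) :=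
    CD.le_centralizer_centralizer' Q hq
  have hq1 := CD.inf_centralizer_le _ _ (Subgroup.mem_inf.mpr ⟨hqD, hqZ⟩)
  have hq2 := k4 hq1
  obtain ⟨d, hd, z, hz, rfl⟩ := CD.mem_mul_of_card_eq _ _ k3 q hq2
  refine ⟨z, hz, d * a, mul_mem (Subgroup.mem_inf.mp hd).2 ha, ?_⟩
  have hdz : d * z = z * d := Subgroup.mem_centralizer_iff.mp hz d (Subgroup.mem_inf.mp hd).1
  rw [hdz, mul_assoc]

theorem exists_maxab (P : Type*) [Group P] [Finite P] :
    ∃ A : Subgroup P, A ∈ Cfsg.maxAbelianSubgroups P := by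
  have hbot : IsMulCommutative ↥(⊥ : Subgroup P) :=
    ⟨⟨fun x y => by rw [Subsingleton.elim x 1, Subsingleton.elim y 1]⟩⟩
  obtain ⟨A, hA, hmax⟩ := Set.exists_max_image {B : Subgroup P | IsMulCommutative ↥B}
    (fun B => Nat.card ↥B) (Set.toFinite _) ⟨⊥, hbot⟩
  exact ⟨A, hA, fun B hB => hmax B hB⟩

theorem result {p : ℕ} [Fact p.Prime] (P : Type*) [Group P] [Finite P] (hP : IsPGroup p P) (Q A : Subgroup P) (hQ : Cfsg.IsCentrallyLarge Q) (hA : A ∈ Cfsg.maxAbelianSubgroups P) : ((Q ⊔ A : Subgroup P) : Set P) = (Q : Set P) * (A : Set P) ∧ Cfsg.IsCentrallyLarge (Q ⊔ A) ∧ (Q ⊔ A) ⊓ Subgroup.centralizer ((Q ⊓ A : Subgroup P) : Set P) = (Q ⊓ Subgroup.centralizer (Q : Set P)) ⊔ A ∧ (((Q ⊓ Subgroup.centralizer (Q : Set P)) ⊔ A : Subgroup P) : Set P) = ((Q ⊓ Subgroup.centralizer (Q : Set P)) : Set P) * (A : Set P) ∧ Subgroup.centralizer ((Cfsg.thompsonSubgroupA P ⊓ Subgroup.centralizer (Cfsg.thompsonSubgroupA P : Set P) : Subgroup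 P) : Set P) ≤ Cfsg.centrallyLargeJoin P := by
  obtain ⟨k1, k2, k3, k4⟩ := key Q A hQ hA
  obtain ⟨hQ1, hQ2⟩ := (Cfsg.Agent.S3005.cl_iff Q).mp hQ
  obtain ⟨hAc, hAC, hAC'⟩ := abelian_props A hA
  have hZeq : Q ⊓ Subgroup.centralizer (Q : Set P) = Subgroup.centralizer (Q : Set P) :=
    inf_eq_right.mpr hQ2
  have hge : Subgroup.centralizer (Q : Set P) ⊔ A ≤
      (Q ⊔ A) ⊓ Subgroup.centralizer ((Q ⊓ A : Subgroup P) : Set P) := by
    apply le_inf (sup_le (hQ2.trans le_sup_left) le_sup_right)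
    apply sup_le
    · exact Subgroup.centralizer_le (SetLike.coe_subset_coe.mpr (inf_le_left : Q ⊓ A ≤ Q))
    · exact hAC'.trans (Subgroup.centralizer_le
        (SetLike.coe_subset_coe.mpr (inf_le_right : Q ⊓ A ≤ A)))
  refine ⟨Cfsg.Agent.S3004.set_eq_mul Q A k1, k2, ?_, ?_, ?_⟩
  · rw [hZeq]
    apply le_antisymm
    · intro x hx
      obtain ⟨z, hz, a, ha, rfl⟩ := decomp Q A hQ hA x hx
      exact mul_mem (Subgroup.mem_sup_left hz) (Subgroup.mem_sup_right ha)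
    · exact hge
  · rw [hZeq]
    ext x
    constructor
    · intro hx
      obtain ⟨z, hz, a, ha, rfl⟩ := decomp Q A hQ hA x (hge hx)
      exact Set.mul_mem_mul (Set.mem_inter (hQ2 hz) hz) ha
    · rintro ⟨z, hz, a, ha, rfl⟩
      have hz' : z ∈ Subgroup.centralizer (Q : Set P) := (Set.mem_of_mem_inter_right hz)
      exact mul_mem (Subgroup.mem_sup_left hz') (Subgroup.mem_sup_right ha)
  · have hL : Cfsg.IsCentrallyLarge (Cfsg.centrallyLargeJoin P) :=
      (Cfsg.Agent.S3005.supClosed_cl P).sSup_mem_of_nonempty (Set.toFinite _)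
        (Cfsg.Agent.S3005.exists_cl P) (le_refl _)
    obtain ⟨hL1, hL2⟩ := (Cfsg.Agent.S3005.cl_iff _).mp hL
    have hAL : ∀ A' ∈ Cfsg.maxAbelianSubgroups P, A' ≤ Cfsg.centrallyLargeJoin P := by
      intro A' hA'
      have h1 := (key _ A' hL hA').2.1
      have h2 : Cfsg.centrallyLargeJoin P ⊔ A' ≤ Cfsg.centrallyLargeJoin P := le_sSup h1
      exact le_sup_right.trans h2
    have hJL : Cfsg.thompsonSubgroupA P ≤ Cfsg.centrallyLargeJoin P := sSup_le hAL
    obtain ⟨A₀, hA₀⟩ := exists_maxab P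
    obtain ⟨hAc0, -, -⟩ := abelian_props A₀ hA₀
    have hCLA : Subgroup.centralizer ((Cfsg.centrallyLargeJoin P : Subgroup P) : Set P) ≤ A₀ := by
      have h1 : IsMulCommutative
          ↥(A₀ ⊔ Subgroup.centralizer ((Cfsg.centrallyLargeJoin P : Subgroup P) : Set P)) := by
        apply comm_sup _ _ hAc0
        · intro x hx y hy
          exact Subgroup.mem_centralizer_iff.mp hy x (hL2 hx)
        · intro x hx y hy
          exact Subgroup.mem_centralizer_iff.mp hy x (hAL A₀ hA₀ hx)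
      have h2 := hA₀.2 _ h1
      have h3 : A₀ = A₀ ⊔ Subgroup.centralizer ((Cfsg.centrallyLargeJoin P : Subgroup P) : Set P) :=
        Subgroup.eq_of_le_of_card_ge le_sup_left h2
      rw [h3]; exact le_sup_right
    have h5 : Subgroup.centralizer ((Cfsg.centrallyLargeJoin P : Subgroup P) : Set P) ≤
        Cfsg.thompsonSubgroupA P ⊓ Subgroup.centralizer (Cfsg.thompsonSubgroupA P : Set P) :=
      le_inf (hCLA.trans (le_sSup hA₀))
        (Subgroup.centralizer_le (SetLike.coe_subset_coe.mpr hJL))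
    have h6 := Subgroup.centralizer_le (SetLike.coe_subset_coe.mpr h5)
    have h7 := (CD.large_centralizer _ hL1).2
    exact h6.trans (le_of_eq h7.symm)

end Cfsg.Agent.S3006
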