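import Cfsg.Statements.S3007
import Mathlib
import Cfsg.Agent.S3006

set_option autoImplicit false
open Cfsg

namespace Cfsg.Agent.S3007

open Cfsg.Agent.Lib.Helper5
open scoped commutatorElement

theorem comm1 {P : Type*} [Group P] (d z y : P) (h : z * y = y * z) : ⁅d * z, y⁆ = ⁅d, y⁆ := by
  rw [commutatorElement_def, commutatorElement_def]
  calc d * z * y * (d * z)⁻¹ * y⁻¹ = d * (z * y * z⁻¹) * d⁻¹ * y⁻¹ := by group
    _ = d * y * d⁻¹ * y⁻¹ := by rw [h, mul_inv_cancel_right]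

theorem comm2 {P : Type*} [Group P] (d d' z' : P) (h : z' * d = d * z') :
    ⁅d, d' * z'⁆ = ⁅d, d'⁆ := by
  rw [commutatorElement_def, commutatorElement_def]
  have h1 : z' * d⁻¹ * z'⁻¹ = d⁻¹ := by
    have h0 : Commute z' d := h
    rw [h0.inv_right.eq, mul_inv_cancel_right]
  calc d * (d' * z') * d⁻¹ * (d' * z')⁻¹ = d * d' * (z' * d⁻¹ * z'⁻¹) * d'⁻¹ := by group
    _ = d * d' * d⁻¹ * d'⁻¹ := by rw [h1]

theorem half {P : Type*} [Group P] [Finite P] (Q R : Subgroup P)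
    (hQ : Cfsg.IsMinimalCentrallyLarge Q) (hR : Cfsg.IsCentrallyLarge R) :
    (Q ⊓ R) ⊔ Subgroup.centralizer (Q : Set P) = Q ∧
    (∀ x ∈ Q, ∃ d ∈ Q ⊓ R, ∃ z ∈ Subgroup.centralizer (Q : Set P), x = d * z) ∧
    Nat.card Q * Nat.card ((Q ⊓ R) ⊓ Subgroup.centralizer ((Q ⊓ R : Subgroup P) : Set P) : Subgroup P) =
      Nat.card (Q ⊓ R : Subgroup P) * Nat.card (Subgroup.centralizer (Q : Set P)) := by
  obtain ⟨hQ1, hQ2⟩ := (Cfsg.Agent.S3005.cl_iff Q).mp hQ.1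
  obtain ⟨hR1, hR2⟩ := (Cfsg.Agent.S3005.cl_iff R).mp hR
  obtain ⟨-, hD, -, hCD⟩ := CD.large_sup_inf Q R hQ1 hR1
  obtain ⟨hCQ, hCCQ⟩ := CD.large_centralizer Q hQ1
  obtain ⟨hCR, -⟩ := CD.large_centralizer R hR1
  obtain ⟨hH, -, hk, -⟩ := CD.large_sup_inf (Q ⊓ R) (Subgroup.centralizer (Q : Set P)) hD hCQ
  obtain ⟨-, -, hk2, -⟩ := CD.large_sup_inf (Subgroup.centralizer (Q : Set P))
    (Subgroup.centralizer (R : Set P)) hCQ hCR
  have hle : (Q ⊓ R) ⊔ Subgroup.centralizer (Q : Set P) ≤ Q := sup_le inf_le_left hQ2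
  have hself : Subgroup.centralizer (((Q ⊓ R) ⊔ Subgroup.centralizer (Q : Set P) : Subgroup P) : Set P) ≤
      (Q ⊓ R) ⊔ Subgroup.centralizer (Q : Set P) := by
    intro x hx
    have h1 : x ∈ Subgroup.centralizer ((Q ⊓ R : Subgroup P) : Set P) :=
      Subgroup.centralizer_le (SetLike.coe_subset_coe.mpr
        (le_sup_left : Q ⊓ R ≤ (Q ⊓ R) ⊔ Subgroup.centralizer (Q : Set P))) hx
    have h2 : x ∈ Subgroup.centralizer ((Subgroup.centralizer (Q : Set P) : Subgroup P) : Set P) :=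
      Subgroup.centralizer_le (SetLike.coe_subset_coe.mpr
        (le_sup_right : Subgroup.centralizer (Q : Set P) ≤
          (Q ⊓ R) ⊔ Subgroup.centralizer (Q : Set P))) hx
    rw [← hCCQ] at h2
    rw [hCD] at h1
    obtain ⟨a, ha, b, hb, rfl⟩ := CD.mem_mul_of_card_eq _ _ hk2 x h1
    have hbQ : b ∈ Q := by
      have h0 := mul_mem (inv_mem (hQ2 ha)) h2
      rwa [inv_mul_cancel_left] at h0
    exact mul_mem (Subgroup.mem_sup_right ha)
      (Subgroup.mem_sup_left (Subgroup.mem_inf.mpr ⟨hbQ, hR2 hb⟩))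
  have hCL : Cfsg.IsCentrallyLarge ((Q ⊓ R) ⊔ Subgroup.centralizer (Q : Set P)) :=
    (Cfsg.Agent.S3005.cl_iff _).mpr ⟨hH, hself⟩
  have heq := hQ.2 _ hle hCL
  have hinf : (Q ⊓ R) ⊓ Subgroup.centralizer ((Q ⊓ R : Subgroup P) : Set P) =
      (Q ⊓ R) ⊓ Subgroup.centralizer (Q : Set P) := by
    apply le_antisymm
    · intro x hx
      obtain ⟨hxD, hxC⟩ := Subgroup.mem_inf.mp hx
      refine Subgroup.mem_inf.mpr ⟨hxD, ?_⟩
      have h1 : x ∈ Subgroup.centralizer ((Subgroup.centralizer (Q : Set P) : Subgroup P) : Set P) :=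
        CD.le_centralizer_centralizer' Q (Subgroup.mem_inf.mp hxD).1
      have h2 := CD.inf_centralizer_le _ _ (Subgroup.mem_inf.mpr ⟨hxC, h1⟩)
      rw [heq] at h2
      exact h2
    · exact inf_le_inf_left _ (Subgroup.centralizer_le
        (SetLike.coe_subset_coe.mpr (inf_le_left : Q ⊓ R ≤ Q)))
  refine ⟨heq, ?_, ?_⟩
  · intro x hx
    rw [← heq] at hx
    exact CD.mem_mul_of_card_eq _ _ hk x hx
  · rw [hinf, hk, heq]

theorem comm_eq {P : Type*} [Group P] [Finite P] (Q R : Subgroup P)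
    (hQ : Cfsg.IsMinimalCentrallyLarge Q) (hR : Cfsg.IsCentrallyLarge R) :
    ⁅Q, Q⁆ = ⁅Q ⊓ R, Q ⊓ R⁆ := by
  obtain ⟨-, hdec, -⟩ := half Q R hQ hR
  apply le_antisymm
  · rw [Subgroup.commutator_le]
    intro x hx y hy
    obtain ⟨d, hd, z, hz, rfl⟩ := hdec x hx
    obtain ⟨d', hd', z', hz', rfl⟩ := hdec y hy
    have h1 : z * (d' * z') = (d' * z') * z := (Subgroup.mem_centralizer_iff.mp hz _ hy).symm
    have h2 : z' * d = d * z' := (Subgroup.mem_centralizer_iff.mp hz' d (Subgroup.mem_inf.mp hd).1).symm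
    rw [comm1 d z _ h1, comm2 d d' z' h2]
    exact Subgroup.commutator_mem_commutator hd hd'
  · exact Subgroup.commutator_mono inf_le_left inf_le_left

theorem card_eq {P : Type*} [Group P] [Finite P] (Q R : Subgroup P)
    (hQ : Cfsg.IsMinimalCentrallyLarge Q) (hR : Cfsg.IsMinimalCentrallyLarge R) :
    Nat.card ↥Q = Nat.card ↥R ∧
    Nat.card ↥(Subgroup.centralizer (Q : Set P)) = Nat.card ↥(Subgroup.centralizer (R : Set P)) := by
  obtain ⟨hQ1, hQ2⟩ := (Cfsg.Agent.S3005.cl_iff Q).mp hQ.1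
  obtain ⟨hR1, hR2⟩ := (Cfsg.Agent.S3005.cl_iff R).mp hR.1
  obtain ⟨-, -, k1⟩ := half Q R hQ hR.1
  obtain ⟨-, -, k2⟩ := half R Q hR hQ.1
  rw [inf_comm R Q] at k2
  unfold Cfsg.IsCentralizerLarge at hQ1 hR1
  have hu : 0 < Nat.card ((Q ⊓ R) ⊓ Subgroup.centralizer ((Q ⊓ R : Subgroup P) : Set P) : Subgroup P) :=
    Nat.card_pos
  have hd : 0 < Nat.card (Q ⊓ R : Subgroup P) := Nat.card_pos
  have h1 : Nat.card ↥Q * Nat.card ↥Q = Nat.card ↥R * Nat.card ↥R := by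
    have h0 : Nat.card ↥Q * Nat.card ↥Q *
        Nat.card ((Q ⊓ R) ⊓ Subgroup.centralizer ((Q ⊓ R : Subgroup P) : Set P) : Subgroup P) =
        Nat.card ↥R * Nat.card ↥R *
        Nat.card ((Q ⊓ R) ⊓ Subgroup.centralizer ((Q ⊓ R : Subgroup P) : Set P) : Subgroup P) := by
      calc Nat.card ↥Q * Nat.card ↥Q *
            Nat.card ((Q ⊓ R) ⊓ Subgroup.centralizer ((Q ⊓ R : Subgroup P) : Set P) : Subgroup P)
          = Nat.card ↥Q * (Nat.card ↥Q *
            Nat.card ((Q ⊓ R) ⊓ Subgroup.centralizer ((Q ⊓ R : Subgroup P) : Set P) : Subgroup P)) := by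
            ring
        _ = Nat.card (Q ⊓ R : Subgroup P) *
            (Nat.card ↥Q * Nat.card (Subgroup.centralizer (Q : Set P))) := by rw [k1]; ring
        _ = Nat.card (Q ⊓ R : Subgroup P) *
            (Nat.card ↥R * Nat.card (Subgroup.centralizer (R : Set P))) := by rw [hQ1, hR1]
        _ = Nat.card ↥R * (Nat.card ↥R *
            Nat.card ((Q ⊓ R) ⊓ Subgroup.centralizer ((Q ⊓ R : Subgroup P) : Set P) : Subgroup P)) := by
            rw [k2]; ring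
        _ = _ := by ring
    exact Nat.eq_of_mul_eq_mul_right hu h0
  have h2 : Nat.card ↥Q = Nat.card ↥R := Nat.mul_self_inj.mp h1
  refine ⟨h2, ?_⟩
  have h3 : Nat.card ↥Q * Nat.card (Subgroup.centralizer (Q : Set P)) =
      Nat.card ↥Q * Nat.card (Subgroup.centralizer (R : Set P)) := by
    rw [hQ1, h2, hR1]
  exact Nat.eq_of_mul_eq_mul_left Nat.card_pos h3

theorem exists_mcl_le {P : Type*} [Group P] [Finite P] (R : Subgroup P)
    (hR : Cfsg.IsCentrallyLarge R) : ∃ R' : Subgroup P, R' ≤ R ∧ Cfsg.IsMinimalCentrallyLarge R' := by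
  obtain ⟨Q, hQ, hmin⟩ := Set.exists_min_image {X : Subgroup P | X ≤ R ∧ Cfsg.IsCentrallyLarge X}
    (fun X => Nat.card ↥X) (Set.toFinite _) ⟨R, le_refl _, hR⟩
  refine ⟨Q, hQ.1, hQ.2, ?_⟩
  intro R' hle hR'
  exact Subgroup.eq_of_le_of_card_ge hle (hmin R' ⟨hle.trans hQ.1, hR'⟩)

theorem result {p : ℕ} [Fact p.Prime] (P : Type*) [Group P] [Finite P] (hP : IsPGroup p P) (Q R : Subgroup P) (hQ : Cfsg.IsMinimalCentrallyLarge Q) (hR : Cfsg.IsMinimalCentrallyLarge R) : (Q ⊓ R) ⊔ (Q ⊓ Subgroup.centralizer (Q : Set P)) = Q ∧ ⁅Q, Q⁆ = ⁅R, R⁆ ∧ Nat.card ↥Q = Nat.card ↥R ∧ Nat.card ↥(Q ⊓ Subgroup.centralizer (Q : Set P)) = Nat.card ↥(R ⊓ Subgroup.centralizer (R : Set P)) ∧ (IsMulCommutative ↥Q → ∀ X : Subgroup P, Cfsg.IsMinimalCentrallyLarge X ↔ X ∈ Cfsg.maxAbelianSubgroups P) := by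
  obtain ⟨hQ1, hQ2⟩ := (Cfsg.Agent.S3005.cl_iff Q).mp hQ.1
  obtain ⟨hR1, hR2⟩ := (Cfsg.Agent.S3005.cl_iff R).mp hR.1
  have hZQ : Q ⊓ Subgroup.centralizer (Q : Set P) = Subgroup.centralizer (Q : Set P) :=
    inf_eq_right.mpr hQ2
  have hZR : R ⊓ Subgroup.centralizer (R : Set P) = Subgroup.centralizer (R : Set P) :=
    inf_eq_right.mpr hR2
  obtain ⟨c1, c2⟩ := card_eq Q R hQ hR
  refine ⟨?_, ?_, c1, ?_, ?_⟩
  · rw [hZQ]; exact (half Q R hQ hR.1).1
  · rw [comm_eq Q R hQ hR.1, comm_eq R Q hR hQ.1, inf_comm]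
  · rw [hZQ, hZR]; exact c2
  · intro hab X
    have hQle : Q ≤ Subgroup.centralizer (Q : Set P) := by
      intro x hx
      rw [Subgroup.mem_centralizer_iff]
      intro y hy
      exact congrArg Subtype.val (hab.is_comm.comm ⟨y, hy⟩ ⟨x, hx⟩)
    have hQeq : Subgroup.centralizer (Q : Set P) = Q := le_antisymm hQ2 hQle
    have hmax : Cfsg.maxCentralizerProduct P = Nat.card ↥Q * Nat.card ↥Q := by
      unfold Cfsg.IsCentralizerLarge at hQ1
      rw [← hQ1, hQeq]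
    have hBle : ∀ B : Subgroup P, IsMulCommutative ↥B → Nat.card ↥B ≤ Nat.card ↥Q := by
      intro B hB
      have hBC : B ≤ Subgroup.centralizer (B : Set P) := by
        intro x hx
        rw [Subgroup.mem_centralizer_iff]
        intro y hy
        exact congrArg Subtype.val (hB.is_comm.comm ⟨y, hy⟩ ⟨x, hx⟩)
      have h1 := CD.meas_le_max B
      rw [hmax] at h1
      have h2 : Nat.card ↥B * Nat.card ↥B ≤ Nat.card ↥Q * Nat.card ↥Q :=
        le_trans (Nat.mul_le_mul_left _ (Subgroup.card_le_of_le hBC)) h1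
      exact Nat.mul_self_le_mul_self_iff.mp h2
    constructor
    · intro hX
      obtain ⟨d1, d2⟩ := card_eq X Q hX hQ
      obtain ⟨hX1, hX2⟩ := (Cfsg.Agent.S3005.cl_iff X).mp hX.1
      rw [hQeq, ← d1] at d2
      have hXeq : Subgroup.centralizer (X : Set P) = X :=
        Subgroup.eq_of_le_of_card_ge hX2 (le_of_eq d2.symm)
      refine ⟨?_, ?_⟩
      · refine ⟨⟨fun x y => Subtype.ext ?_⟩⟩
        have hx : (x : P) ∈ Subgroup.centralizer (X : Set P) := by rw [hXeq]; exact x.2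
        exact (Subgroup.mem_centralizer_iff.mp hx y y.2).symm
      · intro B hB
        rw [d1]; exact hBle B hB
    · intro hX
      obtain ⟨hXc, hXC, hXC'⟩ := Cfsg.Agent.S3006.abelian_props X hX
      have hXQ : Nat.card ↥X = Nat.card ↥Q := le_antisymm (hBle X hX.1) (hX.2 Q hab)
      have hXeq : Subgroup.centralizer (X : Set P) = X := le_antisymm hXC hXC'
      have hXCL : Cfsg.IsCentrallyLarge X := by
        rw [Cfsg.Agent.S3005.cl_iff]
        refine ⟨?_, hXC⟩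
        unfold Cfsg.IsCentralizerLarge
        rw [hXeq, hXQ, hmax]
      refine ⟨hXCL, ?_⟩
      intro R' hle hR'
      obtain ⟨R'', hle'', hR''⟩ := exists_mcl_le R' hR'
      obtain ⟨e1, -⟩ := card_eq R'' Q hR'' hQ
      have h1 : R'' = X := Subgroup.eq_of_le_of_card_ge (hle''.trans hle) (by rw [e1, hXQ])
      exact le_antisymm hle (by rw [← h1]; exact hle'')

end Cfsg.Agent.S3007
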