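import Cfsg.Statements.S3012
import Mathlib

set_option autoImplicit false
open Cfsg

namespace Cfsg.Agent.S3012

theorem commute_of_coprime_pows {G : Type*} [Group G] (n u : G) (a b : ℕ) (hab : a.Coprime b)
    (ha : Commute (n ^ a) u) (hb : Commute (n ^ b) u) : Commute n u := by
  have h := Nat.isCoprime_iff_coprime.mpr hab
  obtain ⟨s, t, hst⟩ := h
  have h1 : n = (n ^ a) ^ s * (n ^ b) ^ t := by
    rw [← zpow_natCast, ← zpow_natCast, ← zpow_mul, ← zpow_mul, ← zpow_add, mul_comm (a : ℤ),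
      mul_comm (b : ℤ), hst, zpow_one]
  rw [h1]
  exact (ha.zpow_left s).mul_left (hb.zpow_left t)

theorem result {G : Type*} [Group G] [Finite G] (V K : Subgroup G) [K.Normal] (hV : Cfsg.IsElementaryAbelian 2 V) (hV1 : V ≠ ⊥) (hS : Cfsg.IsSidkiPair V) (hVK : V ⊓ K = ⊥) : Cfsg.IsSidkiPair (V.map (QuotientGroup.mk' K)) := by
  intro hb vb hvb hodd hinvb
  obtain ⟨v, hv, rfl⟩ := Subgroup.mem_map.mp hvb
  obtain ⟨h, rfl⟩ := QuotientGroup.mk_surjective hb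
  change Odd (orderOf (QuotientGroup.mk' K h)) at hodd
  change QuotientGroup.mk' K v * QuotientGroup.mk' K h * (QuotientGroup.mk' K v)⁻¹ = (QuotientGroup.mk' K h)⁻¹ at hinvb
  have hv2 : v * v = 1 := by
    have h0 := hV.2 v hv
    rwa [pow_two] at h0
  have hvinv : v⁻¹ = v := inv_eq_of_mul_eq_one_left hv2
  have hzinv : v * (v * (h * v * h⁻¹)) * v⁻¹ = (v * (h * v * h⁻¹))⁻¹ := by
    have e1 : (v * (h * v * h⁻¹))⁻¹ = h * v⁻¹ * h⁻¹ * v⁻¹ := by group
    rw [e1, hvinv, ← mul_assoc v v, hv2, one_mul]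
  obtain ⟨a, m, hm, hzm⟩ := Nat.exists_eq_pow_mul_and_not_dvd (orderOf_pos (v * (h * v * h⁻¹))).ne' 2 (by norm_num)
  have hodd' : Odd (orderOf ((v * (h * v * h⁻¹)) ^ 2 ^ a)) := by
    have h0 : orderOf ((v * (h * v * h⁻¹)) ^ 2 ^ a) ∣ m :=
      orderOf_dvd_of_pow_eq_one (by rw [← pow_mul, ← hzm, pow_orderOf_eq_one])
    exact Odd.of_dvd_nat (Nat.odd_iff.mpr (by omega)) h0
  have hinv' : v * (v * (h * v * h⁻¹)) ^ 2 ^ a * v⁻¹ = ((v * (h * v * h⁻¹)) ^ 2 ^ a)⁻¹ := by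
    rw [← conj_pow, hzinv, inv_pow]
  obtain ⟨w, hwV, hw1, hwz⟩ := hS ((v * (h * v * h⁻¹)) ^ 2 ^ a) v hv hodd' hinv'
  refine ⟨QuotientGroup.mk' K w, Subgroup.mem_map_of_mem _ hwV, ?_, ?_⟩
  · intro h1
    have h2 : w ∈ K := (QuotientGroup.eq_one_iff w).mp h1
    have h3 : w ∈ V ⊓ K := ⟨hwV, h2⟩
    rw [hVK] at h3
    exact hw1 (Subgroup.mem_bot.mp h3)
  · change QuotientGroup.mk' K w * QuotientGroup.mk' K h = QuotientGroup.mk' K h * QuotientGroup.mk' K w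
    have hvb' : (QuotientGroup.mk' K v)⁻¹ = QuotientGroup.mk' K v := by rw [← map_inv, hvinv]
    have hzb : (QuotientGroup.mk' K (v * (h * v * h⁻¹))) = ((QuotientGroup.mk' K h) ^ 2)⁻¹ := by
      rw [hvb'] at hinvb
      rw [map_mul, map_mul, map_mul, map_inv, ← mul_assoc, ← mul_assoc, hinvb, pow_two, mul_inv_rev]
    have hc1 : Commute ((QuotientGroup.mk' K h) ^ (2 ^ (a + 1))) (QuotientGroup.mk' K w) := by
      have h0 : (QuotientGroup.mk' K h) ^ (2 ^ (a + 1)) = ((QuotientGroup.mk' K) ((v * (h * v * h⁻¹)) ^ 2 ^ a))⁻¹ := by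
        rw [map_pow, hzb, inv_pow, inv_inv, ← pow_mul, pow_succ']
      rw [h0]
      apply Commute.inv_left
      have h1 := congrArg (QuotientGroup.mk' K) hwz
      simp only [map_mul] at h1
      exact h1.symm
    have hc2 : Commute ((QuotientGroup.mk' K h) ^ orderOf (QuotientGroup.mk' K h)) (QuotientGroup.mk' K w) := by
      rw [pow_orderOf_eq_one]; exact Commute.one_left _
    have hcop : (2 ^ (a + 1)).Coprime (orderOf (QuotientGroup.mk' K h)) :=
      Nat.Coprime.pow_left _ (Nat.coprime_two_left.mpr hodd)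
    exact (commute_of_coprime_pows _ _ _ _ hcop hc1 hc2).eq.symm

end Cfsg.Agent.S3012
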