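import Cfsg.Statements.S3013
import Mathlib

set_option autoImplicit false
open Cfsg

namespace Cfsg.Agent.S3013

theorem result {G : Type*} [Group G] [Finite G] (V : Subgroup G) (hV : Cfsg.IsElementaryAbelian 2 V) (hV1 : V ≠ ⊥) (hS : Cfsg.IsSidkiPair V) (v x : G) (hv : v ∈ V) (hx : Odd (orderOf x)) (hinv : v * x * v⁻¹ = x⁻¹) (C : Subgroup G) (hC : C = Subgroup.centralizer ({v} : Set G) ⊓ Subgroup.centralizer ({x} : Set G)) : C ⊓ V ≠ ⊥ ∧ Cfsg.IsSidkiPair ((C ⊓ V).subgroupOf C) := by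
  subst hC
  have hcomm : ∀ a ∈ V, ∀ b ∈ V, a * b = b * a := by
    intro a ha b hb
    have h := isMulCommutative_iff.mp hV.1 ⟨a, ha⟩ ⟨b, hb⟩
    exact congrArg Subtype.val h
  have hcz : ∀ a b : G, a * b = b * a → b ∈ Subgroup.centralizer ({a} : Set G) := by
    intro a b hab
    rw [Subgroup.mem_centralizer_iff]; intro y hy; rw [Set.mem_singleton_iff.mp hy]; exact hab
  refine ⟨?_, ?_⟩
  · obtain ⟨w, hwV, hw1, hwx⟩ := hS x v hv hx hinv
    intro hbot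
    have h0 : w ∈ (Subgroup.centralizer {v} ⊓ Subgroup.centralizer {x}) ⊓ V :=
      Subgroup.mem_inf.mpr ⟨Subgroup.mem_inf.mpr ⟨hcz v w (hcomm v hv w hwV), hcz x w hwx.symm⟩, hwV⟩
    rw [hbot] at h0
    exact hw1 (Subgroup.mem_bot.mp h0)
  · intro h u hu hodd hinvu
    obtain ⟨h, hhC⟩ := h
    obtain ⟨u, huC⟩ := u
    rw [Subgroup.mem_subgroupOf] at hu
    have huV : u ∈ V := hu.2
    have hinvu' : u * h * u⁻¹ = h⁻¹ := congrArg Subtype.val hinvu
    have hoddh : Odd (orderOf h) := by rwa [Subgroup.orderOf_mk] at hodd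
    have hhv : v * h = h * v := (Subgroup.mem_centralizer_iff.mp hhC.1) v rfl
    have hhx : x * h = h * x := (Subgroup.mem_centralizer_iff.mp hhC.2) x rfl
    have hux : x * u = u * x := (Subgroup.mem_centralizer_iff.mp huC.2) x rfl
    have huxc : u * x * u⁻¹ = x := by rw [← hux]; group
    have hodd_y : Odd (orderOf (h * x)) := by
      have hc : Commute h x := hhx.symm
      exact Odd.of_dvd_nat (hoddh.mul hx) hc.orderOf_mul_dvd_mul_orderOf
    have hinv_y : (u * v) * (h * x) * (u * v)⁻¹ = (h * x)⁻¹ := by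
      calc (u * v) * (h * x) * (u * v)⁻¹ = u * ((v * h) * (x * v⁻¹)) * u⁻¹ := by group
        _ = u * ((h * v) * (x * v⁻¹)) * u⁻¹ := by rw [hhv]
        _ = (u * h * u⁻¹) * (u * (v * x * v⁻¹) * u⁻¹) := by group
        _ = h⁻¹ * (u * x⁻¹ * u⁻¹) := by rw [hinvu', hinv]
        _ = h⁻¹ * (u * x * u⁻¹)⁻¹ := by group
        _ = h⁻¹ * x⁻¹ := by rw [huxc]
        _ = (x * h)⁻¹ := by group
        _ = (h * x)⁻¹ := by rw [hhx]
    obtain ⟨w, hwV, hw1, hwy⟩ := hS (h * x) (u * v) (V.mul_mem huV hv) hodd_y hinv_y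
    have hwu : w * u = u * w := hcomm w hwV u huV
    have hwv : w * v = v * w := hcomm w hwV v hv
    have e1 : (w * h * w⁻¹) * (w * x * w⁻¹) = h * x := by
      calc (w * h * w⁻¹) * (w * x * w⁻¹) = w * (h * x) * w⁻¹ := by group
        _ = h * x := by rw [hwy]; group
    have e2 : u * (w * h * w⁻¹) * u⁻¹ = (w * h * w⁻¹)⁻¹ := by
      calc u * (w * h * w⁻¹) * u⁻¹ = (u * w) * h * (u * w)⁻¹ := by group
        _ = (w * u) * h * (w * u)⁻¹ := by rw [hwu]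
        _ = w * (u * h * u⁻¹) * w⁻¹ := by group
        _ = (w * h * w⁻¹)⁻¹ := by rw [hinvu']; group
    have e3 : u * (w * x * w⁻¹) * u⁻¹ = w * x * w⁻¹ := by
      calc u * (w * x * w⁻¹) * u⁻¹ = (u * w) * x * (u * w)⁻¹ := by group
        _ = (w * u) * x * (w * u)⁻¹ := by rw [hwu]
        _ = w * (u * x * u⁻¹) * w⁻¹ := by group
        _ = w * x * w⁻¹ := by rw [huxc]
    have e4 : h⁻¹ * (w * h * w⁻¹) = x * (w * x * w⁻¹)⁻¹ := by
      have h0 : (w * h * w⁻¹) = h * x * (w * x * w⁻¹)⁻¹ := eq_mul_inv_of_mul_eq e1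
      calc h⁻¹ * (w * h * w⁻¹) = h⁻¹ * (h * x * (w * x * w⁻¹)⁻¹) := by rw [← h0]
        _ = x * (w * x * w⁻¹)⁻¹ := by group
    have e5 : h * (w * h * w⁻¹)⁻¹ = h⁻¹ * (w * h * w⁻¹) := by
      calc h * (w * h * w⁻¹)⁻¹ = (u * h * u⁻¹)⁻¹ * (u * (w * h * w⁻¹) * u⁻¹) := by rw [hinvu', e2, inv_inv]
        _ = u * (h⁻¹ * (w * h * w⁻¹)) * u⁻¹ := by group
        _ = u * (x * (w * x * w⁻¹)⁻¹) * u⁻¹ := by rw [e4]
        _ = (u * x * u⁻¹) * (u * (w * x * w⁻¹) * u⁻¹)⁻¹ := by group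
        _ = x * (w * x * w⁻¹)⁻¹ := by rw [e3, huxc]
        _ = h⁻¹ * (w * h * w⁻¹) := e4.symm
    have e6 : h ^ 2 = (w * h * w⁻¹) ^ 2 := by
      have h0 : h * h = (w * h * w⁻¹) * (w * h * w⁻¹) := by
        calc h * h = h * (h * (w * h * w⁻¹)⁻¹) * (w * h * w⁻¹) := by group
          _ = h * (h⁻¹ * (w * h * w⁻¹)) * (w * h * w⁻¹) := by rw [e5]
          _ = (w * h * w⁻¹) * (w * h * w⁻¹) := by group
      rw [pow_two, pow_two, h0]
    have e7 : w * h * w⁻¹ = h := by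
      have ho : orderOf (w * h * w⁻¹) = orderOf h := (MulAut.conj w).orderOf_eq h
      obtain ⟨k, hk⟩ := hoddh
      have h1 : h ^ (2 * k + 1) = 1 := by rw [← hk, pow_orderOf_eq_one]
      have h2 : (w * h * w⁻¹) ^ (2 * k + 1) = 1 := by rw [← hk, ← ho, pow_orderOf_eq_one]
      have ha : ∀ a : G, a ^ (2 * k + 1) = 1 → a = (a ^ 2) ^ (k + 1) := by
        intro a ha
        rw [← pow_mul, show 2 * (k + 1) = (2 * k + 1) + 1 by ring, pow_succ, ha, one_mul]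
      calc w * h * w⁻¹ = ((w * h * w⁻¹) ^ 2) ^ (k + 1) := ha _ h2
        _ = (h ^ 2) ^ (k + 1) := by rw [← e6]
        _ = h := (ha h h1).symm
    have hwh : w * h = h * w := mul_inv_eq_iff_eq_mul.mp e7
    have hwx : w * x = x * w := by
      rw [e7] at e1
      have h0 := mul_left_cancel e1
      exact mul_inv_eq_iff_eq_mul.mp h0
    have hwC : w ∈ Subgroup.centralizer {v} ⊓ Subgroup.centralizer {x} :=
      Subgroup.mem_inf.mpr ⟨hcz v w hwv.symm, hcz x w hwx.symm⟩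
    refine ⟨⟨w, hwC⟩, ?_, ?_, ?_⟩
    · rw [Subgroup.mem_subgroupOf]; exact ⟨hwC, hwV⟩
    · intro h0; exact hw1 (congrArg Subtype.val h0)
    · exact Subtype.ext hwh

end Cfsg.Agent.S3013
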