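import Cfsg.Statements.S3020
import Mathlib
import Cfsg.Agent.Lib.Helper5.NormalComplement

set_option autoImplicit false
open Cfsg

namespace Cfsg.Agent.S3020

theorem result {G : Type*} [Group G] [Finite G] {p : ℕ} [Fact p.Prime] (H : Subgroup G) (hHp : IsPGroup p H) (hHab : IsMulCommutative H) (hcl : Cfsg.IsExtremelyClosed H) (g : G) (T : Subgroup G) (hT : T = H ⊔ H.map (MulAut.conj g).toMonoidHom) : H ⊔ (Cfsg.pPrimeCore p ↥T).map T.subtype = T ∧ H ⊓ (Cfsg.pPrimeCore p ↥T).map T.subtype = ⊥ := by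
  subst hT
  have hHT : H ≤ H ⊔ H.map (MulAut.conj g).toMonoidHom := le_sup_left
  have hcl' : (H ⊔ H.map (MulAut.conj g).toMonoidHom) ⊓ Subgroup.normalizer (H : Set G) = H := hcl g
  have hN : Subgroup.normalizer ((H.subgroupOf (H ⊔ H.map (MulAut.conj g).toMonoidHom) : Subgroup _) : Set _) = H.subgroupOf (H ⊔ H.map (MulAut.conj g).toMonoidHom) := by
    rw [← Subgroup.subgroupOf_normalizer_eq hHT]
    rw [← Subgroup.inf_subgroupOf_right (Subgroup.normalizer (H : Set G)) (H ⊔ H.map (MulAut.conj g).toMonoidHom)]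
    rw [inf_comm, hcl']
  have hQ : IsPGroup p (H.subgroupOf (H ⊔ H.map (MulAut.conj g).toMonoidHom)) := hHp.comap_subtype
  have hab : ∀ a ∈ H.subgroupOf (H ⊔ H.map (MulAut.conj g).toMonoidHom), ∀ b ∈ H.subgroupOf (H ⊔ H.map (MulAut.conj g).toMonoidHom), a * b = b * a := by
    intro a ha b hb
    have h0 := isMulCommutative_iff.mp hHab ⟨a.1, Subgroup.mem_subgroupOf.mp ha⟩ ⟨b.1, Subgroup.mem_subgroupOf.mp hb⟩
    have h1 : (a : G) * (b : G) = (b : G) * (a : G) := congrArg Subtype.val h0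
    exact Subtype.ext h1
  obtain ⟨K, hKn, hKc, hKp, hKO⟩ := Cfsg.Agent.Lib.Helper5.NormalComplement.exists_normal_complement _ hQ hab hN
  rw [hKO]
  refine ⟨?_, ?_⟩
  · have h1 := hKc.sup_eq_top
    have h2 := congrArg (Subgroup.map (H ⊔ H.map (MulAut.conj g).toMonoidHom).subtype) h1
    rw [Subgroup.map_sup, Subgroup.subgroupOf_map_subtype, inf_eq_left.mpr hHT, ← MonoidHom.range_eq_map, Subgroup.range_subtype] at h2
    rw [sup_comm]; exact h2
  · rw [eq_bot_iff]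
    rintro x ⟨hxH, y, hyK, rfl⟩
    have h1 : y ∈ K ⊓ H.subgroupOf (H ⊔ H.map (MulAut.conj g).toMonoidHom) := ⟨hyK, Subgroup.mem_subgroupOf.mpr hxH⟩
    rw [hKc.disjoint.eq_bot, Subgroup.mem_bot] at h1
    rw [h1]; exact Subgroup.mem_bot.mpr (map_one _)

end Cfsg.Agent.S3020
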