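import Cfsg.Statements.S3021
import Mathlib

set_option autoImplicit false
open Cfsg

namespace Cfsg.Agent.S3021

theorem mem_normalizer_of_map_le {G : Type*} [Group G] [Finite G] (H : Subgroup G)
    (hcl : Cfsg.IsExtremelyClosed H) (n : G)
    (h : H.map (MulAut.conj n).toMonoidHom ≤ Subgroup.normalizer (H : Set G)) :
    n ∈ Subgroup.normalizer (H : Set G) := by
  have h1 := hcl n
  have h2 : H ⊔ H.map (MulAut.conj n).toMonoidHom ≤ Subgroup.normalizer (H : Set G) :=
    sup_le Subgroup.le_normalizer h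
  rw [inf_eq_left.mpr h2] at h1
  have h3 : H.map (MulAut.conj n).toMonoidHom ≤ H := le_sup_right.trans h1.le
  have h4 : H.map (MulAut.conj n).toMonoidHom = H :=
    Subgroup.eq_of_le_of_card_ge h3 (by rw [Subgroup.card_map_of_injective (MulAut.conj n).injective])
  exact Subgroup.mem_normalizer_iff_map_conj_eq.mpr h4

theorem result {G : Type*} [Group G] [Finite G] {p : ℕ} [Fact p.Prime] (H : Subgroup G) (hHp : IsPGroup p H) (hcl : Cfsg.IsExtremelyClosed H) : (∀ Q : Subgroup G, IsPGroup p Q → H ≤ Q → Subgroup.normalizer (Q : Set G) ≤ Subgroup.normalizer (H : Set G)) ∧ ∀ P : Sylow p G, H ≤ (P : Subgroup G) → (P : Subgroup G) ≤ Subgroup.normalizer (H : Set G) ∧ Cfsg.IsStronglyClosed H (P : Subgroup G) := by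
  have key : ∀ Q : Subgroup G, IsPGroup p Q → H ≤ Q → Q ≤ Subgroup.normalizer (H : Set G) := by
    intro Q hQ hHQ
    by_contra hcon
    have hnil : Group.IsNilpotent Q := hQ.isNilpotent
    have hnc := Group.normalizerCondition_of_isNilpotent (G := Q)
    set K : Subgroup Q := (Subgroup.normalizer (H : Set G)).subgroupOf Q with hK
    have hlt : K < ⊤ := by
      rw [lt_top_iff_ne_top]
      intro h
      apply hcon
      intro q hq
      have h1 : (⟨q, hq⟩ : Q) ∈ K := by rw [h]; trivial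
      rwa [hK, Subgroup.mem_subgroupOf] at h1
    obtain ⟨n, hn, hnK⟩ := SetLike.exists_of_lt (hnc K hlt)
    apply hnK
    rw [hK, Subgroup.mem_subgroupOf]
    apply mem_normalizer_of_map_le H hcl
    rintro y ⟨x, hx, rfl⟩
    have hxK : (⟨x, hHQ hx⟩ : Q) ∈ K := by
      rw [hK, Subgroup.mem_subgroupOf]; exact Subgroup.le_normalizer hx
    have h3 : n * ⟨x, hHQ hx⟩ * n⁻¹ ∈ K := (Subgroup.mem_normalizer_iff.mp hn _).mp hxK
    rw [hK, Subgroup.mem_subgroupOf] at h3
    simpa using h3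
  refine ⟨?_, ?_⟩
  · intro Q hQ hHQ n hn
    apply mem_normalizer_of_map_le H hcl
    rintro y ⟨x, hx, rfl⟩
    apply key Q hQ hHQ
    exact (Subgroup.mem_normalizer_iff.mp hn x).mp (hHQ hx)
  · intro P hHP
    refine ⟨key P P.isPGroup' hHP, hHP, ?_⟩
    intro x hx g hg
    have h1 := hcl g
    have h2 : g * x * g⁻¹ ∈ (H ⊔ H.map (MulAut.conj g).toMonoidHom) ⊓ Subgroup.normalizer (H : Set G) := by
      rw [Subgroup.mem_inf]
      refine ⟨?_, key P P.isPGroup' hHP hg⟩
      exact (le_sup_right : H.map (MulAut.conj g).toMonoidHom ≤ _) ⟨x, hx, rfl⟩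
    rw [h1] at h2
    exact h2

end Cfsg.Agent.S3021
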