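import Cfsg.Statements.S3053
import Mathlib
import Cfsg.Agent.S0096
import Cfsg.Agent.Lib.Helper5.WC
import Cfsg.Agent.Lib.Helper1.Nil

set_option autoImplicit false
open Cfsg

namespace Cfsg.Agent.S3053

open Cfsg.Agent.Lib.Helper5.WC

theorem es_struct {P : Type*} [Group P] [Finite P] {p : ℕ} [Fact p.Prime] (hp : p ≠ 2)
    (hE : Cfsg.IsExtraspecial p P) (hcard : Nat.card P = p ^ 3)
    (hexp : Monoid.exponent P = p ^ 2) :
    (∀ x y : P, x * y * x⁻¹ * y⁻¹ ∈ Subgroup.center P) ∧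
    (∀ z ∈ Subgroup.center P, z ^ p = 1) ∧
    (∀ x y : P, (x * y) ^ p = x ^ p * y ^ p) ∧
    (∀ x : P, x ^ p ∈ Subgroup.center P) ∧
    (∃ x : P, x ^ p ≠ 1) ∧
    (∃ E : Subgroup P, (∀ x, x ∈ E ↔ x ^ p = 1) ∧ Nat.card E = p ^ 2 ∧
      (∀ a ∈ E, ∀ b ∈ E, a * b = b * a)) := by
  have hpp : p.Prime := Fact.out
  obtain ⟨⟨hPg, hfr, hcomm⟩, hZ⟩ := hE
  have h1 : ∀ x y : P, x * y * x⁻¹ * y⁻¹ ∈ Subgroup.center P := by
    intro x y
    rw [← hcomm, commutator_eq_closure]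
    exact Subgroup.subset_closure ⟨x, y, rfl⟩
  have h2 : ∀ z ∈ Subgroup.center P, z ^ p = 1 := by
    intro z hz
    have := pow_card_eq_one' (G := Subgroup.center P) (x := ⟨z, hz⟩)
    rw [hZ] at this
    exact congrArg Subtype.val this
  have hchoose : p ∣ p.choose 2 := by
    apply Nat.Prime.dvd_choose_self hpp (by norm_num)
    have := hpp.two_le
    omega
  have h3 : ∀ x y : P, (x * y) ^ p = x ^ p * y ^ p := by
    intro x y
    have hc : ∀ g : P, g * (y * x * y⁻¹ * x⁻¹) = (y * x * y⁻¹ * x⁻¹) * g :=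
      fun g => Subgroup.mem_center_iff.1 (h1 y x) g
    have hyx : y * x = (y * x * y⁻¹ * x⁻¹) * x * y := by group
    obtain ⟨m, hm⟩ := hchoose
    rw [Cfsg.Agent.S0096.mul_pow_aux x y _ hc hyx p, hm, pow_mul, h2 _ (h1 y x), one_pow, one_mul]
  have h4 : ∀ x : P, x ^ p ∈ Subgroup.center P := by
    intro x
    rw [Subgroup.mem_center_iff]
    intro y
    have hc := h1 y x
    have e1 : y * x * y⁻¹ = (y * x * y⁻¹ * x⁻¹) * x := by group
    have e2 : (y * x * y⁻¹) ^ p = x ^ p := by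
      rw [e1, h3, h2 _ hc, one_mul]
    rw [conj_pow] at e2
    calc y * x ^ p = (y * x ^ p * y⁻¹) * y := by group
      _ = x ^ p * y := by rw [e2]
  have h5 : ∃ x : P, x ^ p ≠ 1 := by
    by_contra hcon
    push Not at hcon
    have h' := Monoid.exponent_dvd_of_forall_pow_eq_one hcon
    rw [hexp] at h'
    have h'' := Nat.le_of_dvd hpp.pos h'
    have := hpp.two_le
    nlinarith
  refine ⟨h1, h2, h3, h4, h5, ?_⟩
  obtain ⟨φ, hφ⟩ : ∃ φ : P →* P, ∀ x, φ x = x ^ p := ⟨MonoidHom.mk' (fun x => x ^ p) h3, fun x => rfl⟩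
  have hr : φ.range ≤ Subgroup.center P := by
    rintro _ ⟨x, rfl⟩
    rw [hφ]
    exact h4 x
  have hr1 : φ.range ≠ ⊥ := by
    obtain ⟨x, hx⟩ := h5
    intro h
    apply hx
    have : φ x ∈ φ.range := ⟨x, rfl⟩
    rw [h, Subgroup.mem_bot, hφ] at this
    exact this
  have hrc : Nat.card φ.range = p := by
    have hd := Subgroup.card_dvd_of_le hr
    rw [hZ, Nat.dvd_prime hpp] at hd
    rcases hd with hd | hd
    · exact absurd (Subgroup.eq_bot_of_card_eq _ hd) hr1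
    · exact hd
  have hkc : Nat.card φ.ker = p ^ 2 := by
    have hk := Subgroup.card_mul_index φ.ker
    rw [Subgroup.index_ker, hrc, hcard] at hk
    have : Nat.card φ.ker * p = p ^ 2 * p := by rw [hk]; ring
    exact Nat.eq_of_mul_eq_mul_right hpp.pos this
  refine ⟨φ.ker, fun x => ?_, hkc, ?_⟩
  · rw [MonoidHom.mem_ker, hφ]
  · intro a ha b hb
    have := (IsPGroup.isMulCommutative_of_card_eq_prime_sq hkc).is_comm.comm (⟨a, ha⟩ : φ.ker) ⟨b, hb⟩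
    exact congrArg Subtype.val this

theorem exists_conj_le {G : Type*} [Group G] [Finite G] {p : ℕ} [Fact p.Prime]
    (C : Subgroup G) (P : Sylow p G) (hP : (P : Subgroup G) ≤ C) (Q : Subgroup G)
    (hQ : IsPGroup p Q) (hQC : Q ≤ C) : ∃ c ∈ C, ∀ x ∈ Q, c⁻¹ * x * c ∈ (P : Subgroup G) := by
  have hQ' : IsPGroup p (Q.subgroupOf C) := hQ.comap_subtype
  obtain ⟨S, hS⟩ := hQ'.exists_le_sylow
  obtain ⟨c, hc⟩ := MulAction.exists_smul_eq C (P.subtype hP) S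
  refine ⟨c.1, c.2, fun x hx => ?_⟩
  have h1 : (⟨x, hQC hx⟩ : C) ∈ S := hS (Subgroup.mem_subgroupOf.mpr hx)
  rw [← hc, Cfsg.Agent.Lib.Helper1.sylow_smul_mem_iff] at h1
  have h0 : (c⁻¹ * ⟨x, hQC hx⟩ * c : C) ∈ (P : Subgroup G).subgroupOf C := h1
  exact Subgroup.mem_subgroupOf.mp h0

theorem conj_iter {G : Type*} [Group G] (x v c : G) (hx : x * v * x⁻¹ = v * c)
    (hc : x * c * x⁻¹ = c) (i : ℕ) : x ^ i * v * (x ^ i)⁻¹ = v * c ^ i := by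
  induction i with
  | zero => simp
  | succ i ih =>
    have hci : x * c ^ i * x⁻¹ = c ^ i := by rw [← conj_pow, hc]
    calc x ^ (i + 1) * v * (x ^ (i + 1))⁻¹ = x * (x ^ i * v * (x ^ i)⁻¹) * x⁻¹ := by
          rw [pow_succ']; group
      _ = x * (v * c ^ i) * x⁻¹ := by rw [ih]
      _ = (x * v * x⁻¹) * (x * c ^ i * x⁻¹) := by group
      _ = v * c ^ (i + 1) := by rw [hx, hci, pow_succ', mul_assoc]

theorem gen_prime {G : Type*} [Group G] [Finite G] {p : ℕ} [Fact p.Prime] (Z : Subgroup G)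
    (hZ : Nat.card Z = p) (a : G) (ha : a ∈ Z) (ha1 : a ≠ 1) (b : G) (hb : b ∈ Z) :
    ∃ i : ℕ, a ^ i = b := by
  have hpp : p.Prime := Fact.out
  have hap : a ^ p = 1 := by
    have := pow_card_eq_one' (G := Z) (x := ⟨a, ha⟩)
    rw [hZ] at this
    exact congrArg Subtype.val this
  have ho : orderOf a = p := orderOf_eq_prime hap ha1
  have hle : Subgroup.zpowers a ≤ Z := by
    rw [Subgroup.zpowers_le]; exact ha
  have heq : Subgroup.zpowers a = Z := by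
    apply Subgroup.eq_of_le_of_card_ge hle
    rw [hZ, Nat.card_zpowers, ho]
  have hb' : b ∈ Subgroup.zpowers a := by rw [heq]; exact hb
  rw [← mem_powers_iff_mem_zpowers] at hb'
  exact hb'

theorem result {G : Type*} [Group G] [Finite G]
    {p : ℕ} [Fact p.Prime] (hp : p ≠ 2) (P : Sylow p G) (hE : Cfsg.IsExtraspecial p ↥P)
    (hcard : Nat.card P = p ^ 3) (hexp : Monoid.exponent ↥P = p ^ 2) :
    Cfsg.IsStronglyClosed ((Subgroup.center ↥P).map (P : Subgroup G).subtype) (P : Subgroup G) := by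
  classical
  have hpp : p.Prime := Fact.out
  obtain ⟨k1, k2, k3, k4, ⟨x0, hx0⟩, E0, hE0, hE0c, hE0a⟩ := es_struct hp hE hcard hexp
  obtain ⟨Z, hZdef⟩ : ∃ Z, Z = (Subgroup.center ↥P).map (P : Subgroup G).subtype := ⟨_, rfl⟩
  rw [← hZdef]
  have hZmem : ∀ a : G, a ∈ Z ↔
      ∃ ha : a ∈ (P : Subgroup G), (⟨a, ha⟩ : P) ∈ Subgroup.center ↥P := by
    intro a
    rw [hZdef]
    constructor
    · rintro ⟨b, hb, rfl⟩
      exact ⟨b.2, hb⟩
    · rintro ⟨ha, hb⟩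
      exact ⟨⟨a, ha⟩, hb, rfl⟩
  have hZP : Z ≤ (P : Subgroup G) := fun a ha => ((hZmem a).mp ha).1
  have g1 : ∀ x ∈ (P : Subgroup G), ∀ y ∈ (P : Subgroup G), x * y * x⁻¹ * y⁻¹ ∈ Z := by
    intro x hx y hy
    rw [hZmem]
    exact ⟨(P : Subgroup G).mul_mem ((P : Subgroup G).mul_mem ((P : Subgroup G).mul_mem hx hy)
      ((P : Subgroup G).inv_mem hx)) ((P : Subgroup G).inv_mem hy), k1 ⟨x, hx⟩ ⟨y, hy⟩⟩
  have g2 : ∀ z ∈ Z, z ^ p = 1 := by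
    intro z hz
    obtain ⟨hzP, hzc⟩ := (hZmem z).mp hz
    exact congrArg Subtype.val (k2 _ hzc)
  have g2' : ∀ z ∈ Z, ∀ x ∈ (P : Subgroup G), x * z = z * x := by
    intro z hz x hx
    obtain ⟨hzP, hzc⟩ := (hZmem z).mp hz
    exact congrArg Subtype.val (Subgroup.mem_center_iff.mp hzc ⟨x, hx⟩)
  have g3 : ∀ x ∈ (P : Subgroup G), ∀ y ∈ (P : Subgroup G), (x * y) ^ p = x ^ p * y ^ p := by
    intro x hx y hy
    exact congrArg Subtype.val (k3 ⟨x, hx⟩ ⟨y, hy⟩)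
  have g4 : ∀ x ∈ (P : Subgroup G), x ^ p ∈ Z := by
    intro x hx
    rw [hZmem]
    exact ⟨(P : Subgroup G).pow_mem hx p, k4 ⟨x, hx⟩⟩
  obtain ⟨E, hEdef⟩ : ∃ E, E = E0.map (P : Subgroup G).subtype := ⟨_, rfl⟩
  have hEmem : ∀ a : G, a ∈ E ↔ a ∈ (P : Subgroup G) ∧ a ^ p = 1 := by
    intro a
    rw [hEdef]
    constructor
    · rintro ⟨b, hb, rfl⟩
      exact ⟨b.2, congrArg Subtype.val ((hE0 b).mp hb)⟩
    · rintro ⟨ha, hb⟩
      exact ⟨⟨a, ha⟩, (hE0 _).mpr (Subtype.ext hb), rfl⟩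
  have hEP : E ≤ (P : Subgroup G) := fun a ha => ((hEmem a).mp ha).1
  have hEcard : Nat.card E = p ^ 2 := by
    rw [hEdef, Subgroup.card_map_of_injective (Subgroup.subtype_injective _)]
    exact hE0c
  have hEab : ∀ a ∈ E, ∀ b ∈ E, a * b = b * a := by
    intro a ha b hb
    obtain ⟨haP, hap⟩ := (hEmem a).mp ha
    obtain ⟨hbP, hbp⟩ := (hEmem b).mp hb
    exact congrArg Subtype.val (hE0a ⟨a, haP⟩ ((hE0 _).mpr (Subtype.ext hap)) ⟨b, hbP⟩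
      ((hE0 _).mpr (Subtype.ext hbp)))
  have hZE : Z ≤ E := fun a ha => (hEmem a).mpr ⟨hZP ha, g2 a ha⟩
  have hPcard : Nat.card (P : Subgroup G) = p ^ 3 := hcard
  have hZcard : Nat.card Z = p := by
    rw [hZdef, Subgroup.card_map_of_injective (Subgroup.subtype_injective _)]
    exact hE.2
  have hEn : ∀ x ∈ (P : Subgroup G), ∀ e ∈ E, x * e * x⁻¹ ∈ E := by
    intro x hx e he
    obtain ⟨heP, hep⟩ := (hEmem e).mp he
    rw [hEmem]
    refine ⟨(P : Subgroup G).mul_mem ((P : Subgroup G).mul_mem hx heP)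
      ((P : Subgroup G).inv_mem hx), ?_⟩
    rw [conj_pow, hep]
    group
  have hsq : ∀ a ∈ E, a * a = 1 → a = 1 := by
    intro a ha h2
    have h1 : orderOf a ∣ 2 := orderOf_dvd_of_pow_eq_one (by rw [pow_two]; exact h2)
    have h3 : orderOf a ∣ p := orderOf_dvd_of_pow_eq_one ((hEmem a).mp ha).2
    exact orderOf_eq_one_iff.mp (Nat.eq_one_of_dvd_coprimes
      ((Nat.coprime_primes Nat.prime_two hpp).mpr (Ne.symm hp)) h1 h3)
  have hnc : ∀ x ∈ (P : Subgroup G), x ∉ E → ∀ w ∈ E, w ∉ Z → x * w ≠ w * x := by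
    intro x hx hxE w hw hwZ hcomm
    apply hwZ
    have h1 : E ≤ Subgroup.centralizer {w} ⊓ (P : Subgroup G) := by
      intro e he
      refine Subgroup.mem_inf.mpr ⟨?_, hEP he⟩
      rw [Subgroup.mem_centralizer_singleton_iff]
      exact hEab e he w hw
    have h2 : x ∈ Subgroup.centralizer {w} ⊓ (P : Subgroup G) :=
      Subgroup.mem_inf.mpr ⟨by rw [Subgroup.mem_centralizer_singleton_iff]; exact hcomm, hx⟩
    have h3 : Subgroup.centralizer {w} ⊓ (P : Subgroup G) = (P : Subgroup G) := by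
      have hd1 := Subgroup.card_dvd_of_le
        (inf_le_right : Subgroup.centralizer {w} ⊓ (P : Subgroup G) ≤ P)
      have hd2 := Subgroup.card_dvd_of_le h1
      rw [hPcard, Nat.dvd_prime_pow hpp] at hd1
      obtain ⟨k, hk, hk'⟩ := hd1
      rw [hEcard, hk', Nat.pow_dvd_pow_iff_le_right hpp.one_lt] at hd2
      interval_cases k
      · exfalso
        apply hxE
        have h4 := Subgroup.eq_of_le_of_card_ge h1 (by rw [hEcard, hk'])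
        rw [h4]
        exact h2
      · exact Subgroup.eq_of_le_of_card_ge inf_le_right (by rw [hPcard, hk'])
    rw [hZmem]
    refine ⟨hEP hw, ?_⟩
    rw [Subgroup.mem_center_iff]
    intro y
    apply Subtype.ext
    have h5 : (y : G) ∈ Subgroup.centralizer {w} ⊓ (P : Subgroup G) := by
      rw [h3]
      exact y.2
    exact Subgroup.mem_centralizer_singleton_iff.mp (Subgroup.mem_inf.mp h5).1
  refine ⟨hZP, ?_⟩
  intro z hz g hw
  by_contra hwZ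
  obtain ⟨w, hwd⟩ : ∃ w, w = g * z * g⁻¹ := ⟨_, rfl⟩
  rw [← hwd] at hw hwZ
  have hwE : w ∈ E := by
    rw [hEmem]
    refine ⟨hw, ?_⟩
    rw [hwd, conj_pow, g2 z hz]
    group
  obtain ⟨h, hhw, hhE⟩ : ∃ h : G, h * z * h⁻¹ = w ∧
      ∀ e ∈ E, h⁻¹ * e * h ∈ (P : Subgroup G) := by
    have hPgC : ((g • P : Sylow p G) : Subgroup G) ≤ Subgroup.centralizer {w} := by
      intro u hu
      have hu' : g⁻¹ * u * g ∈ (P : Subgroup G) :=
        (Cfsg.Agent.Lib.Helper1.sylow_smul_mem_iff P g u).mp hu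
      rw [Subgroup.mem_centralizer_singleton_iff]
      have h1 := g2' z hz _ hu'
      rw [hwd]
      calc u * (g * z * g⁻¹) = g * ((g⁻¹ * u * g) * z) * g⁻¹ := by group
        _ = g * (z * (g⁻¹ * u * g)) * g⁻¹ := by rw [h1]
        _ = g * z * g⁻¹ * u := by group
    have hEC : E ≤ Subgroup.centralizer {w} := by
      intro e he
      rw [Subgroup.mem_centralizer_singleton_iff]
      exact hEab e he w hwE
    have hEp : IsPGroup p E := P.2.to_le hEP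
    obtain ⟨c, hc, hcE⟩ := exists_conj_le (Subgroup.centralizer {w}) (g • P) hPgC E hEp hEC
    refine ⟨c * g, ?_, ?_⟩
    · rw [Subgroup.mem_centralizer_singleton_iff] at hc
      calc c * g * z * (c * g)⁻¹ = c * (g * z * g⁻¹) * c⁻¹ := by group
        _ = (c * w) * c⁻¹ := by rw [hwd]
        _ = (w * c) * c⁻¹ := by rw [hc]
        _ = w := by group
    · intro e he
      have h1 := (Cfsg.Agent.Lib.Helper1.sylow_smul_mem_iff P g _).mp (hcE e he)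
      have e1 : (c * g)⁻¹ * e * (c * g) = g⁻¹ * (c⁻¹ * e * c) * g := by group
      rw [e1]
      exact h1
  have hhN' : h⁻¹ ∈ Subgroup.normalizer (E : Set G) := by
    apply mem_normalizer_of_cj_le
    intro e he
    rw [mem_cj] at he
    rw [hEmem] at he
    have e1 : e = h⁻¹ * (h⁻¹⁻¹ * e * h⁻¹) * h := by group
    rw [e1, hEmem]
    refine ⟨hhE _ ((hEmem _).mpr he), ?_⟩
    have e2 : h⁻¹ * (h⁻¹⁻¹ * e * h⁻¹) * h = h⁻¹ * (h⁻¹⁻¹ * e * h⁻¹) * h⁻¹⁻¹ := by group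
    rw [e2, conj_pow, he.2]
    group
  have hhN : h ∈ Subgroup.normalizer (E : Set G) := by
    have := (Subgroup.normalizer (E : Set G)).inv_mem hhN'
    simpa using this
  have hhE2 : ∀ e ∈ E, h * e * h⁻¹ ∈ E := fun e he =>
    (Subgroup.mem_normalizer_iff.mp hhN e).mp he
  have hhE1 : ∀ e ∈ E, h⁻¹ * e * h ∈ E := by
    intro e he
    have := (Subgroup.mem_normalizer_iff.mp hhN' e).mp he
    simpa using this
  obtain ⟨x, hxd⟩ : ∃ x : G, x = (x0 : G) := ⟨_, rfl⟩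
  have hxP : x ∈ (P : Subgroup G) := by rw [hxd]; exact x0.2
  have hxp : x ^ p ≠ 1 := by
    intro h1
    apply hx0
    apply Subtype.ext
    rw [hxd] at h1
    simpa using h1
  have hxE : x ∉ E := fun h1 => hxp ((hEmem x).mp h1).2
  have hz1 : z ≠ 1 := by
    intro h1
    apply hwZ
    rw [hwd, h1]
    simp
  obtain ⟨c, hcd⟩ : ∃ c, c = x * w * x⁻¹ * w⁻¹ := ⟨_, rfl⟩
  have hcZ : c ∈ Z := by rw [hcd]; exact g1 x hxP w hw
  have hc1 : c ≠ 1 := by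
    intro h1
    apply hnc x hxP hxE w hwE hwZ
    calc x * w = (x * w * x⁻¹ * w⁻¹) * w * x := by group
      _ = w * x := by rw [← hcd, h1, one_mul]
  have hcx : x * c * x⁻¹ = c := by
    rw [g2' c hcZ x hxP]
    group
  have hNZ : ∀ n : G, n * c * n⁻¹ ∈ Z → ∀ a ∈ Z, n * a * n⁻¹ ∈ Z := by
    intro n hn a ha
    obtain ⟨i, rfl⟩ := gen_prime Z hZcard c hcZ hc1 a ha
    rw [← conj_pow]
    exact Z.pow_mem hn i
  have hcw : h⁻¹ * c * h ∉ Z := by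
    intro h1
    apply hwZ
    have h2 : h⁻¹ ∈ Subgroup.normalizer (Z : Set G) := by
      apply mem_normalizer_of_cj_le
      intro a ha
      rw [mem_cj] at ha
      have h3 := hNZ h⁻¹ (by simpa using h1) _ ha
      have e1 : h⁻¹ * (h⁻¹⁻¹ * a * h⁻¹) * h⁻¹⁻¹ = a := by group
      rw [e1] at h3
      exact h3
    have h4 : h ∈ Subgroup.normalizer (Z : Set G) := by
      have := (Subgroup.normalizer (Z : Set G)).inv_mem h2
      simpa using this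
    rw [← hhw]
    exact (Subgroup.mem_normalizer_iff.mp h4 z).mp hz
  obtain ⟨y, hyd⟩ : ∃ y, y = h * x * h⁻¹ := ⟨_, rfl⟩
  obtain ⟨d₀, hd₀⟩ : ∃ d₀, d₀ = x * (h⁻¹ * c * h) * x⁻¹ * (h⁻¹ * c * h)⁻¹ := ⟨_, rfl⟩
  have hcE' : h⁻¹ * c * h ∈ E := hhE1 c (hZE hcZ)
  have hd₀Z : d₀ ∈ Z := by rw [hd₀]; exact g1 x hxP _ (hEP hcE')
  have hd₀1 : d₀ ≠ 1 := by
    intro h1
    apply hnc x hxP hxE _ hcE' hcw
    calc x * (h⁻¹ * c * h)
        = (x * (h⁻¹ * c * h) * x⁻¹ * (h⁻¹ * c * h)⁻¹) * (h⁻¹ * c * h) * x := by group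
      _ = (h⁻¹ * c * h) * x := by rw [← hd₀, h1, one_mul]
  obtain ⟨d, hdd⟩ : ∃ d, d = h * d₀ * h⁻¹ := ⟨_, rfl⟩
  have hdE : d ∈ E := by rw [hdd]; exact hhE2 d₀ (hZE hd₀Z)
  have hd1 : d ≠ 1 := by
    intro h1
    apply hd₀1
    have : d₀ = h⁻¹ * d * h := by rw [hdd]; group
    rw [this, h1]
    group
  have hyc : y * c * y⁻¹ = c * d := by
    have e1 : y * c * y⁻¹ = h * (x * (h⁻¹ * c * h) * x⁻¹ * (h⁻¹ * c * h)⁻¹) * h⁻¹ * c := by
      rw [hyd]; group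
    rw [e1, ← hd₀, ← hdd]
    exact hEab d hdE c (hZE hcZ)
  have hyd' : y * d * y⁻¹ = d := by
    have e1 : y * d * y⁻¹ = h * (x * d₀ * x⁻¹) * h⁻¹ := by rw [hyd, hdd]; group
    rw [e1, g2' d₀ hd₀Z x hxP, hdd]
    group
  have hdZ : d ∉ Z := by
    intro h1
    apply hwZ
    have h2 : h * d₀ * h⁻¹ ∈ Z := by rw [← hdd]; exact h1
    have h3 : ∀ a ∈ Z, h * a * h⁻¹ ∈ Z := by
      intro a ha
      obtain ⟨i, rfl⟩ := gen_prime Z hZcard d₀ hd₀Z hd₀1 a ha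
      rw [← conj_pow]
      exact Z.pow_mem h2 i
    rw [← hhw]
    exact h3 z hz
  obtain ⟨c', hc'd⟩ : ∃ c', c' = x * d * x⁻¹ * d⁻¹ := ⟨_, rfl⟩
  have hc'Z : c' ∈ Z := by rw [hc'd]; exact g1 x hxP d (hEP hdE)
  have hc'1 : c' ≠ 1 := by
    intro h1
    apply hnc x hxP hxE d hdE hdZ
    calc x * d = (x * d * x⁻¹ * d⁻¹) * d * x := by group
      _ = d * x := by rw [← hc'd, h1, one_mul]
  obtain ⟨i, hi⟩ := gen_prime Z hZcard c' hc'Z hc'1 c⁻¹ (Z.inv_mem hcZ)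
  have hxd1 : x * d * x⁻¹ = d * c' := by
    have e1 : x * d * x⁻¹ = (x * d * x⁻¹ * d⁻¹) * d := by group
    rw [e1, ← hc'd]
    exact hEab c' (hZE hc'Z) d hdE
  have hxc' : x * c' * x⁻¹ = c' := by
    rw [g2' c' hc'Z x hxP]
    group
  obtain ⟨x₁, hx₁⟩ : ∃ x₁, x₁ = x ^ i := ⟨_, rfl⟩
  have hx₁d : x₁ * d * x₁⁻¹ = d * c⁻¹ := by
    rw [hx₁, conj_iter x d c' hxd1 hxc' i, hi]
  have hx₁c : x₁ * c * x₁⁻¹ = c := by
    have := conj_iter x c 1 (by rw [hcx, mul_one]) (by group) i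
    rw [hx₁, this, one_pow, mul_one]
  have hcd_comm : c * d = d * c := hEab c (hZE hcZ) d hdE
  obtain ⟨t₀, ht₀⟩ : ∃ t₀, t₀ = y * x₁ * y := ⟨_, rfl⟩
  have ht₀c : t₀ * c * t₀⁻¹ = d := by
    calc t₀ * c * t₀⁻¹ = y * (x₁ * (y * c * y⁻¹) * x₁⁻¹) * y⁻¹ := by rw [ht₀]; group
      _ = y * (x₁ * (c * d) * x₁⁻¹) * y⁻¹ := by rw [hyc]
      _ = y * ((x₁ * c * x₁⁻¹) * (x₁ * d * x₁⁻¹)) * y⁻¹ := by group
      _ = y * (c * (d * c⁻¹)) * y⁻¹ := by rw [hx₁c, hx₁d]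
      _ = y * ((c * d) * c⁻¹) * y⁻¹ := by group
      _ = y * ((d * c) * c⁻¹) * y⁻¹ := by rw [hcd_comm]
      _ = y * d * y⁻¹ := by group
      _ = d := hyd'
  have ht₀d : t₀ * d * t₀⁻¹ = c⁻¹ := by
    calc t₀ * d * t₀⁻¹ = y * (x₁ * (y * d * y⁻¹) * x₁⁻¹) * y⁻¹ := by rw [ht₀]; group
      _ = y * (x₁ * d * x₁⁻¹) * y⁻¹ := by rw [hyd']
      _ = y * (d * c⁻¹) * y⁻¹ := by rw [hx₁d]
      _ = (y * d * y⁻¹) * (y * c * y⁻¹)⁻¹ := by group
      _ = d * (c * d)⁻¹ := by rw [hyd', hyc]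
      _ = c⁻¹ := by group
  obtain ⟨t, htd⟩ : ∃ t, t = t₀ * t₀ := ⟨_, rfl⟩
  have htc : t * c * t⁻¹ = c⁻¹ := by
    calc t * c * t⁻¹ = t₀ * (t₀ * c * t₀⁻¹) * t₀⁻¹ := by rw [htd]; group
      _ = t₀ * d * t₀⁻¹ := by rw [ht₀c]
      _ = c⁻¹ := ht₀d
  have htd' : t * d * t⁻¹ = d⁻¹ := by
    calc t * d * t⁻¹ = t₀ * (t₀ * d * t₀⁻¹) * t₀⁻¹ := by rw [htd]; group
      _ = t₀ * c⁻¹ * t₀⁻¹ := by rw [ht₀d]
      _ = (t₀ * c * t₀⁻¹)⁻¹ := by group
      _ = d⁻¹ := by rw [ht₀c]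
  obtain ⟨I, hI⟩ : ∃ K : Subgroup G, ∀ a, a ∈ K ↔ (a ∈ E ∧ t * a * t⁻¹ = a⁻¹) :=
    ⟨{ carrier := {a | a ∈ E ∧ t * a * t⁻¹ = a⁻¹}
       mul_mem' := by
         rintro a b ⟨ha, ha'⟩ ⟨hb, hb'⟩
         refine ⟨E.mul_mem ha hb, ?_⟩
         calc t * (a * b) * t⁻¹ = (t * a * t⁻¹) * (t * b * t⁻¹) := by group
           _ = a⁻¹ * b⁻¹ := by rw [ha', hb']
           _ = (a * b)⁻¹ := by rw [mul_inv_rev, hEab _ (E.inv_mem ha) _ (E.inv_mem hb)]
       one_mem' := ⟨E.one_mem, by group⟩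
       inv_mem' := by
         rintro a ⟨ha, ha'⟩
         refine ⟨E.inv_mem ha, ?_⟩
         calc t * a⁻¹ * t⁻¹ = (t * a * t⁻¹)⁻¹ := by group
           _ = a⁻¹⁻¹ := by rw [ha'] }, fun a => Iff.rfl⟩
  have hIE : I ≤ E := fun a ha => ((hI a).mp ha).1
  have hcI : c ∈ I := (hI c).mpr ⟨hZE hcZ, htc⟩
  have hdI : d ∈ I := (hI d).mpr ⟨hdE, htd'⟩
  have hZI : Z ≤ I := by
    intro a ha
    obtain ⟨j, rfl⟩ := gen_prime Z hZcard c hcZ hc1 a ha
    exact I.pow_mem hcI j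
  have hIeq : I = E := by
    have hd1 := Subgroup.card_dvd_of_le hIE
    have hd2 := Subgroup.card_dvd_of_le hZI
    rw [hEcard, Nat.dvd_prime_pow hpp] at hd1
    obtain ⟨k, hk, hk'⟩ := hd1
    rw [hZcard, hk'] at hd2
    have hk1 : k ≠ 0 := by
      rintro rfl
      rw [pow_zero] at hd2
      exact hpp.one_lt.ne' (Nat.dvd_one.mp hd2)
    interval_cases k
    · exact absurd rfl hk1
    · exfalso
      apply hdZ
      have h4 := Subgroup.eq_of_le_of_card_ge hZI (by rw [hZcard, hk', pow_one])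
      rw [h4]
      exact hdI
    · exact Subgroup.eq_of_le_of_card_ge hIE (by rw [hEcard, hk'])
  have htE : ∀ e ∈ E, t * e * t⁻¹ = e⁻¹ := by
    intro e he
    rw [← hIeq] at he
    exact ((hI e).mp he).2
  have htE' : ∀ e ∈ E, t⁻¹ * e * t = e⁻¹ := by
    intro e he
    have h1 := htE e⁻¹ (E.inv_mem he)
    rw [inv_inv] at h1
    calc t⁻¹ * e * t = t⁻¹ * (t * e⁻¹ * t⁻¹) * t := by rw [h1]
      _ = e⁻¹ := by group
  obtain ⟨L, hL⟩ : ∃ L : Subgroup G, ∀ l, l ∈ L ↔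
      ∃ u ∈ (P : Subgroup G), ∀ e ∈ E, l * e * l⁻¹ = u * e * u⁻¹ :=
    ⟨{ carrier := {l | ∃ u ∈ (P : Subgroup G), ∀ e ∈ E, l * e * l⁻¹ = u * e * u⁻¹}
       mul_mem' := by
         rintro a b ⟨u, hu, hu'⟩ ⟨v, hv, hv'⟩
         refine ⟨u * v, (P : Subgroup G).mul_mem hu hv, fun e he => ?_⟩
         calc a * b * e * (a * b)⁻¹ = a * (b * e * b⁻¹) * a⁻¹ := by group
           _ = a * (v * e * v⁻¹) * a⁻¹ := by rw [hv' e he]
           _ = u * (v * e * v⁻¹) * u⁻¹ := hu' _ (hEn v hv e he)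
           _ = u * v * e * (u * v)⁻¹ := by group
       one_mem' := ⟨1, (P : Subgroup G).one_mem, fun e he => rfl⟩
       inv_mem' := by
         rintro a ⟨u, hu, hu'⟩
         refine ⟨u⁻¹, (P : Subgroup G).inv_mem hu, fun e he => ?_⟩
         have h1 := hu' (u⁻¹ * e * u⁻¹⁻¹) (hEn u⁻¹ ((P : Subgroup G).inv_mem hu) e he)
         have e1 : u * (u⁻¹ * e * u⁻¹⁻¹) * u⁻¹ = e := by group
         rw [e1] at h1
         calc a⁻¹ * e * a⁻¹⁻¹ = a⁻¹ * (a * (u⁻¹ * e * u⁻¹⁻¹) * a⁻¹) * a := by rw [h1]; group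
           _ = u⁻¹ * e * u⁻¹⁻¹ := by group }, fun l => Iff.rfl⟩
  have hPL : (P : Subgroup G) ≤ L := fun u hu => (hL u).mpr ⟨u, hu, fun e he => rfl⟩
  have htPL : ((t • P : Sylow p G) : Subgroup G) ≤ L := by
    intro a ha
    have ha' : t⁻¹ * a * t ∈ (P : Subgroup G) :=
      (Cfsg.Agent.Lib.Helper1.sylow_smul_mem_iff P t a).mp ha
    rw [hL]
    refine ⟨t⁻¹ * a * t, ha', fun e he => ?_⟩
    have h1 : (t⁻¹ * a * t) * e⁻¹ * (t⁻¹ * a * t)⁻¹ ∈ E := hEn _ ha' _ (E.inv_mem he)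
    have h2 := htE _ h1
    calc a * e * a⁻¹ = t * ((t⁻¹ * a * t) * (t⁻¹ * e * t) * (t⁻¹ * a * t)⁻¹) * t⁻¹ := by group
      _ = t * ((t⁻¹ * a * t) * e⁻¹ * (t⁻¹ * a * t)⁻¹) * t⁻¹ := by rw [htE' e he]
      _ = ((t⁻¹ * a * t) * e⁻¹ * (t⁻¹ * a * t)⁻¹)⁻¹ := h2
      _ = t⁻¹ * a * t * e * (t⁻¹ * a * t)⁻¹ := by group
  obtain ⟨n, hnL, hn⟩ := Cfsg.Agent.Lib.Helper1.sylow_conj_in_subgroup L P (t • P) hPL htPL
  obtain ⟨u₁, hu₁, hu₁'⟩ := (hL n).mp hnL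
  have hntN : n * t ∈ Subgroup.normalizer ((P : Subgroup G) : Set G) := by
    exact Sylow.smul_eq_iff_mem_normalizer.mp (by rw [mul_smul]; exact hn)
  obtain ⟨s, hsd⟩ : ∃ s, s = u₁⁻¹ * (n * t) := ⟨_, rfl⟩
  have hsN : s ∈ Subgroup.normalizer ((P : Subgroup G) : Set G) := by
    rw [hsd]
    exact Subgroup.mul_mem _ (Subgroup.le_normalizer ((P : Subgroup G).inv_mem hu₁)) hntN
  have hsE : ∀ e ∈ E, s * e * s⁻¹ = e⁻¹ := by
    intro e he
    calc s * e * s⁻¹ = u₁⁻¹ * (n * (t * e * t⁻¹) * n⁻¹) * u₁ := by rw [hsd]; group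
      _ = u₁⁻¹ * (n * e⁻¹ * n⁻¹) * u₁ := by rw [htE e he]
      _ = u₁⁻¹ * (u₁ * e⁻¹ * u₁⁻¹) * u₁ := by rw [hu₁' _ (E.inv_mem he)]
      _ = e⁻¹ := by group
  obtain ⟨x', hx'd⟩ : ∃ x', x' = s * x * s⁻¹ := ⟨_, rfl⟩
  have hx'P : x' ∈ (P : Subgroup G) := by
    rw [hx'd]
    exact (Subgroup.mem_normalizer_iff.mp hsN x).mp hxP
  have hx'p : x' ^ p = (x ^ p)⁻¹ := by
    rw [hx'd, conj_pow]
    exact hsE _ (hZE (g4 x hxP))
  have he₁ : x' * x ∈ E := by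
    rw [hEmem]
    refine ⟨(P : Subgroup G).mul_mem hx'P hxP, ?_⟩
    rw [g3 x' hx'P x hxP, hx'p]
    group
  have hwx : w⁻¹ * x * w = c * x := by
    have h1 : x * w = c * w * x := by rw [hcd]; group
    have h2 := g2' c hcZ w hw
    calc w⁻¹ * x * w = w⁻¹ * (x * w) := by group
      _ = w⁻¹ * (c * w * x) := by rw [h1]
      _ = w⁻¹ * ((w * c) * x) := by rw [h2]
      _ = c * x := by group
  have hfin : s * c * s⁻¹ = c := by
    have hsw := hsE w hwE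
    have h3 : x⁻¹ * w⁻¹ * x ∈ E := by
      have := hEn x⁻¹ ((P : Subgroup G).inv_mem hxP) w⁻¹ (E.inv_mem hwE)
      simpa using this
    have h4 := hEab (x' * x) he₁ _ h3
    calc s * c * s⁻¹ = (s * x * s⁻¹) * (s * w * s⁻¹) * (s * x * s⁻¹)⁻¹ * (s * w * s⁻¹)⁻¹ := by
          rw [hcd]; group
      _ = x' * w⁻¹ * x'⁻¹ * w := by rw [← hx'd, hsw, inv_inv]
      _ = ((x' * x) * (x⁻¹ * w⁻¹ * x)) * (x' * x)⁻¹ * w := by group
      _ = ((x⁻¹ * w⁻¹ * x) * (x' * x)) * (x' * x)⁻¹ * w := by rw [h4]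
      _ = x⁻¹ * (w⁻¹ * x * w) := by group
      _ = x⁻¹ * (c * x) := by rw [hwx]
      _ = x⁻¹ * (x * c) := by rw [g2' c hcZ x hxP]
      _ = c := by group
  apply hc1
  apply hsq c (hZE hcZ)
  have h5 := hsE c (hZE hcZ)
  rw [hfin] at h5
  calc c * c = c * c⁻¹ := by rw [← h5]
    _ = 1 := mul_inv_cancel c

end Cfsg.Agent.S3053
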