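import Cfsg.Statements.S3056
import Mathlib
import Cfsg.Agent.Lib.Helper5.SPE

set_option autoImplicit false
open Cfsg

namespace Cfsg.Agent.S3056

open scoped Pointwise

def adj {G : Type*} [Group G] (p : ℕ) (S T : Sylow p G) : Prop :=
  S ≠ T ∧ (S : Subgroup G) ⊓ (T : Subgroup G) ≠ ⊥

theorem chain_of_rtg {α : Type*} (r : α → α → Prop) (S T : α)
    (h : Relation.ReflTransGen r S T) :
    ∃ (n : ℕ) (c : Fin (n + 1) → α), c 0 = S ∧ c (Fin.last n) = T ∧
      ∀ i : Fin n, r (c i.castSucc) (c i.succ) := by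
  induction h with
  | refl => exact ⟨0, fun _ => S, rfl, rfl, fun i => i.elim0⟩
  | @tail b c' _ hbc ih =>
    obtain ⟨n, c, h0, hl, hr⟩ := ih
    refine ⟨n + 1, Fin.snoc c c', ?_, ?_, ?_⟩
    · have h00 : (0 : Fin (n + 2)) = Fin.castSucc (0 : Fin (n + 1)) := rfl
      rw [h00, Fin.snoc_castSucc]
      exact h0
    · exact Fin.snoc_last _ _
    · intro i
      refine Fin.lastCases ?_ (fun j => ?_) i
      · rw [Fin.snoc_castSucc, Fin.succ_last, Fin.snoc_last, hl]
        exact hbc
      · rw [Fin.snoc_castSucc, Fin.succ_castSucc, Fin.snoc_castSucc]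
        exact hr j

theorem connected_of_rtg {G : Type*} [Group G] (p : ℕ)
    (h : ∀ S T : Sylow p G, Relation.ReflTransGen (adj p) S T) :
    Cfsg.IsSylowChainConnected p G := by
  intro S T
  by_cases hbot : (S : Subgroup G) ⊓ (T : Subgroup G) = ⊥
  · obtain ⟨n, c, h0, hl, hr⟩ := chain_of_rtg (adj p) S T (h S T)
    refine ⟨n, c, h0, hl, ?_, hr⟩
    intro i
    rw [hbot]
    exact bot_le
  · by_cases hST : S = T
    · subst hST
      exact ⟨0, fun _ => S, rfl, rfl, fun _ => inf_le_left, fun i => i.elim0⟩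
    · refine ⟨1, fun i => if i = 0 then S else T, by simp, by simp, ?_, ?_⟩
      · intro i
        by_cases hi : i = 0
        · simp [hi]
        · simp [hi]
      · intro i
        have hi : i = 0 := Subsingleton.elim _ _
        subst hi
        simp only [Fin.castSucc_zero, Fin.succ_zero_eq_one]
        simp
        exact ⟨hST, hbot⟩

open Cfsg.Agent.Lib.Helper5.SPE Cfsg.Agent.Lib.Helper5.SylowAux in
theorem adj_smul {G : Type*} [Group G] (p : ℕ) (g : G) (S T : Sylow p G) (h : adj p S T) :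
    adj p (g • S) (g • T) := by
  refine ⟨fun he => h.1 ((MulAction.injective g) he), ?_⟩
  intro hbot
  apply h.2
  rw [eq_bot_iff]
  intro x hx
  have h1 : g * x * g⁻¹ ∈ ((g • S : Sylow p G) : Subgroup G) ⊓ ((g • T : Sylow p G) : Subgroup G) := by
    have e : g⁻¹ * (g * x * g⁻¹) * g = x := by group
    refine ⟨(mem_smul_sylow S g _).mpr ?_, (mem_smul_sylow T g _).mpr ?_⟩
    · rw [e]
      exact hx.1
    · rw [e]
      exact hx.2
  rw [hbot, Subgroup.mem_bot] at h1
  rw [Subgroup.mem_bot]
  have h2 := congrArg (fun y => g⁻¹ * y * g) h1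
  simpa [mul_assoc] using h2

theorem adj_symm {G : Type*} [Group G] (p : ℕ) (S T : Sylow p G) (h : adj p S T) :
    adj p T S :=
  ⟨h.1.symm, by rw [inf_comm]; exact h.2⟩

theorem rtg_symm {G : Type*} [Group G] (p : ℕ) (S T : Sylow p G)
    (h : Relation.ReflTransGen (adj p) S T) : Relation.ReflTransGen (adj p) T S := by
  induction h with
  | refl => exact Relation.ReflTransGen.refl
  | tail _ hbc ih => exact Relation.ReflTransGen.head (adj_symm p _ _ hbc) ih

theorem rtg_smul {G : Type*} [Group G] (p : ℕ) (g : G) (S T : Sylow p G)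
    (h : Relation.ReflTransGen (adj p) S T) :
    Relation.ReflTransGen (adj p) (g • S) (g • T) := by
  induction h with
  | refl => exact Relation.ReflTransGen.refl
  | tail _ hbc ih => exact Relation.ReflTransGen.tail ih (adj_smul p g _ _ hbc)

def compStab {G : Type*} [Group G] (p : ℕ) (S : Sylow p G) : Subgroup G where
  carrier := {g | Relation.ReflTransGen (adj p) S (g • S)}
  mul_mem' := by
    intro a b ha hb
    have h1 := rtg_smul p a _ _ hb
    rw [← mul_smul] at h1
    exact ha.trans h1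
  one_mem' := by
    show Relation.ReflTransGen (adj p) S ((1 : G) • S)
    rw [one_smul]
  inv_mem' := by
    intro a ha
    have h1 := rtg_smul p a⁻¹ _ _ ha
    rw [inv_smul_smul] at h1
    exact rtg_symm p _ _ h1

open Cfsg.Agent.Lib.Helper5.SPE Cfsg.Agent.Lib.Helper5.SylowAux in
theorem forward {G : Type*} [Group G] [Finite G] (p : ℕ) [Fact p.Prime]
    (h : ¬ Cfsg.IsSylowChainConnected p G) :
    ∃ H : Subgroup G, H ≠ ⊤ ∧ p ∣ Nat.card H ∧
      ∀ g : G, g ∉ H → ¬ p ∣ Nat.card ↥(H ⊓ H.map (MulAut.conj g).toMonoidHom) := by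
  have h1 : ¬ ∀ S T : Sylow p G, Relation.ReflTransGen (adj p) S T :=
    fun hc => h (connected_of_rtg p hc)
  push Not at h1
  obtain ⟨S, T, hST⟩ := h1
  have hne : S ≠ T := by
    rintro rfl
    exact hST Relation.ReflTransGen.refl
  have hSne : (S : Subgroup G) ≠ ⊥ := by
    intro hS
    apply hne
    have hc1 : Nat.card (S : Subgroup G) = 1 := by rw [hS, Subgroup.card_bot]
    have hc2 : Nat.card (T : Subgroup G) = 1 := by
      rw [← hc1]
      exact (T.card_eq_multiplicity).trans (S.card_eq_multiplicity).symm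
    apply Sylow.ext
    rw [hS, Subgroup.eq_bot_of_card_eq _ hc2]
  have hpG : p ∣ Nat.card G :=
    (dvd_card_of_ne_bot S S.isPGroup' hSne).trans (Subgroup.card_subgroup_dvd_card _)
  have hHtop : compStab p S ≠ ⊤ := by
    intro htop
    obtain ⟨g, hg⟩ := MulAction.exists_smul_eq G S T
    have hgH : g ∈ compStab p S := by
      rw [htop]
      trivial
    have h2 : Relation.ReflTransGen (adj p) S (g • S) := hgH
    rw [hg] at h2
    exact hST h2
  have hspe : Cfsg.IsStronglyPEmbedded p (compStab p S) := by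
    refine ⟨hpG, hHtop, S, ?_⟩
    rw [kcore_le_iff _ S.isPGroup']
    intro Q hQS hQne n hn
    show Relation.ReflTransGen (adj p) S (n • S)
    by_cases hnS : n • S = S
    · rw [hnS]
    · apply Relation.ReflTransGen.single
      refine ⟨fun he => hnS he.symm, ?_⟩
      intro hbot
      apply hQne
      rw [eq_bot_iff, ← hbot]
      intro q hq
      refine ⟨hQS hq, (mem_smul_sylow S n q).mpr (hQS ?_)⟩
      have h3 := (Subgroup.mem_normalizer_iff.mp (Subgroup.inv_mem _ hn) q).mp hq
      simpa using h3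
  exact ⟨compStab p S, hHtop, dvd_card_of_spe hspe,
    fun g hg => classical_of_normprop (normprop_of_spe hspe) g hg⟩

open Cfsg.Agent.Lib.Helper5.SPE Cfsg.Agent.Lib.Helper5.SylowAux in
theorem backward {G : Type*} [Group G] [Finite G] (p : ℕ) [Fact p.Prime]
    (H : Subgroup G) (hH : H ≠ ⊤) (hpH : p ∣ Nat.card H)
    (hse : ∀ g : G, g ∉ H → ¬ p ∣ Nat.card ↥(H ⊓ H.map (MulAut.conj g).toMonoidHom)) :
    ¬ Cfsg.IsSylowChainConnected p G := by
  intro hconn
  have hNP := normprop_of_classical hse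
  obtain ⟨S, hSH, hSne⟩ := exists_sylow_le hpH hNP
  obtain ⟨g, hg⟩ : ∃ g : G, g ∉ H := by
    by_contra hall
    push Not at hall
    exact hH (eq_top_iff.mpr (fun x _ => hall x))
  obtain ⟨n, c, h0, hl, _, hadj⟩ := hconn S (g • S)
  have hall : ∀ i : Fin (n + 1), ((c i : Sylow p G) : Subgroup G) ≤ H := by
    intro i
    induction i using Fin.induction with
    | zero =>
      rw [h0]
      exact hSH
    | succ i ih =>
      apply le_of_inf_ne_bot hNP _ (c i.succ).isPGroup'
      intro hbot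
      apply (hadj i).2
      rw [eq_bot_iff, ← hbot]
      exact le_inf inf_le_right (inf_le_left.trans ih)
  have hT := hall (Fin.last n)
  rw [hl] at hT
  obtain ⟨a, haS, hao⟩ := exists_orderOf_eq_of_ne_bot (S : Subgroup G) S.isPGroup' hSne
  have h1 : g * a * g⁻¹ ∈ H := hT ((mem_smul_sylow S g _).mpr (by simpa [mul_assoc] using haS))
  have h2 : g⁻¹ ∈ H := mem_of_conj_mem hNP g⁻¹ a (hSH haS) hao (by simpa using h1)
  exact hg (by simpa using H.inv_mem h2)

theorem result {G : Type*} [Group G] [Finite G]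
    (p : ℕ) [Fact p.Prime] :
    ¬ Cfsg.IsSylowChainConnected p G ↔
      ∃ H : Subgroup G, H ≠ ⊤ ∧ p ∣ Nat.card H ∧
        ∀ g : G, g ∉ H → ¬ p ∣ Nat.card ↥(H ⊓ H.map (MulAut.conj g).toMonoidHom) := by
  constructor
  · exact forward p
  · rintro ⟨H, hH, hpH, hse⟩
    exact backward p H hH hpH hse

end Cfsg.Agent.S3056
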