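import Cfsg.Statements.S3059
import Mathlib
import Cfsg.Agent.Lib.Helper5.SPE

set_option autoImplicit false
open Cfsg

namespace Cfsg.Agent.S3059

open Cfsg.Agent.Lib.Helper5.SPE Cfsg.Agent.Lib.Helper5.SylowAux in
theorem aux {G : Type*} [Group G] [Finite G]
    (p : ℕ) [Fact p.Prime] (H : Subgroup G) (hpH : p ∣ Nat.card H)
    (hse : ∀ g : G, g ∉ H → ¬ p ∣ Nat.card ↥(H ⊓ H.map (MulAut.conj g).toMonoidHom))
    (N : Subgroup G) (hNn : N.Normal) (hN : p ∣ Nat.card N) :
    H ⊔ Subgroup.closure {g : G | g ∈ N ∧ (orderOf g).Coprime p} = ⊤ := by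
  have hNP := normprop_of_classical hse
  obtain ⟨S, hSH, hSne⟩ := exists_sylow_le hpH hNP
  have hKn : (Subgroup.closure {g : G | g ∈ N ∧ (orderOf g).Coprime p}).Normal := by
    constructor
    intro n hn g
    have h1 : Subgroup.closure {g : G | g ∈ N ∧ (orderOf g).Coprime p} ≤
        (Subgroup.closure {g : G | g ∈ N ∧ (orderOf g).Coprime p}).comap
          (MulAut.conj g).toMonoidHom := by
      rw [Subgroup.closure_le]
      rintro x ⟨hxN, hxo⟩
      apply Subgroup.subset_closure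
      refine ⟨hNn.conj_mem x hxN g, ?_⟩
      have h2 : orderOf (g * x * g⁻¹) = orderOf x := (MulAut.conj g).orderOf_eq x
      show (orderOf (g * x * g⁻¹)).Coprime p
      rw [h2]
      exact hxo
    exact h1 hn
  generalize hKdef : Subgroup.closure {g : G | g ∈ N ∧ (orderOf g).Coprime p} = K at hKn
  have hKgen : ∀ x ∈ N, (orderOf x).Coprime p → x ∈ K := by
    intro x hx hxo
    rw [← hKdef]
    exact Subgroup.subset_closure ⟨hx, hxo⟩
  have hA : H ⊔ N = ⊤ := by
    obtain ⟨P⟩ : Nonempty (Sylow p ↥N) := inferInstance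
    have hPne : (P : Subgroup ↥N) ≠ ⊥ := P.ne_bot_of_dvd_card hN
    have hP'p : IsPGroup p ((P : Subgroup ↥N).map N.subtype) := P.isPGroup'.map _
    have hfrat := Sylow.normalizer_sup_eq_top P
    obtain ⟨g, hg⟩ := sylow_conj_le S _ hP'p
    have hB : ((P : Subgroup ↥N).map N.subtype).map (MulAut.conj g).toMonoidHom ≤ H := by
      rintro _ ⟨x, hx, rfl⟩
      exact hSH (hg x hx)
    have hBne : ((P : Subgroup ↥N).map N.subtype).map (MulAut.conj g).toMonoidHom ≠ ⊥ := by
      rw [Ne, Subgroup.map_eq_bot_iff_of_injective _ (MulAut.conj g).injective,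
        Subgroup.map_eq_bot_iff_of_injective _ (Subgroup.subtype_injective N)]
      exact hPne
    have hNB := hNP _ hB ((hP'p).map _) hBne
    have h1 : (Subgroup.normalizer (((P : Subgroup ↥N).map N.subtype : Subgroup G) : Set G)).map
        (MulAut.conj g).toMonoidHom ≤ H :=
      (Subgroup.le_normalizer_map (MulAut.conj g).toMonoidHom).trans hNB
    have h2 : N.map (MulAut.conj g).toMonoidHom ≤ N := by
      rintro _ ⟨x, hx, rfl⟩
      exact hNn.conj_mem x hx g
    have h3 : (⊤ : Subgroup G).map (MulAut.conj g).toMonoidHom = ⊤ :=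
      Subgroup.map_top_of_surjective _ (MulAut.conj g).surjective
    rw [eq_top_iff, ← h3, ← hfrat, Subgroup.map_sup]
    exact sup_le_sup h1 h2
  have hB : N ≤ (S : Subgroup G) ⊔ K := by
    have hQp : IsPGroup p (N.map (QuotientGroup.mk' K)) := by
      rintro ⟨_, n, hn, rfl⟩
      have hpos : 0 < orderOf n := orderOf_pos n
      obtain ⟨a, m, hm, hord⟩ :=
        Nat.exists_eq_pow_mul_and_not_dvd hpos.ne' p (Fact.out : p.Prime).ne_one
      refine ⟨a, ?_⟩
      have hy : (n ^ p ^ a) ^ m = 1 := by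
        rw [← pow_mul, ← hord, pow_orderOf_eq_one]
      have hyK : n ^ p ^ a ∈ K := by
        apply hKgen _ (N.pow_mem hn _)
        exact Nat.Coprime.coprime_dvd_left (orderOf_dvd_of_pow_eq_one hy)
          ((Nat.Prime.coprime_iff_not_dvd Fact.out).mpr hm).symm
      ext
      simp only [Subgroup.coe_pow, Subgroup.coe_one]
      rw [← map_pow]
      exact (QuotientGroup.eq_one_iff _).mpr hyK
    have hQn : (N.map (QuotientGroup.mk' K)).Normal :=
      hNn.map _ (QuotientGroup.mk'_surjective K)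
    have hle := hQp.le_sylow_of_normal (S.mapSurjective (QuotientGroup.mk'_surjective K))
    intro n hn
    have h1 : (QuotientGroup.mk' K) n ∈ (S : Subgroup G).map (QuotientGroup.mk' K) :=
      hle ⟨n, hn, rfl⟩
    obtain ⟨s, hs, hsn⟩ := h1
    have h2 : s⁻¹ * n ∈ K := QuotientGroup.eq.mp hsn
    have h3 : n = s * (s⁻¹ * n) := by group
    rw [h3]
    exact Subgroup.mul_mem _ (Subgroup.mem_sup_left hs) (Subgroup.mem_sup_right h2)
  rw [eq_top_iff, ← hA]
  refine sup_le le_sup_left (hB.trans ?_)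
  exact sup_le (hSH.trans le_sup_left) le_sup_right

theorem result {G : Type*} [Group G] [Finite G]
    (p : ℕ) [Fact p.Prime] (H : Subgroup G) (hH : H ≠ ⊤) (hpH : p ∣ Nat.card H)
    (hse : ∀ g : G, g ∉ H → ¬ p ∣ Nat.card ↥(H ⊓ H.map (MulAut.conj g).toMonoidHom))
    (N : Subgroup G) [N.Normal] (hN : p ∣ Nat.card N) :
    H ⊔ Subgroup.closure {g : G | g ∈ N ∧ (orderOf g).Coprime p} = ⊤ := by
  exact aux p H hpH hse N inferInstance hN

end Cfsg.Agent.S3059
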