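import Cfsg.Statements.S3064
import Mathlib
import Cfsg.Agent.Lib.Helper5.SylowAux
import Cfsg.Agent.Lib.Helper1.Inv
import Cfsg.Agent.S0035

set_option autoImplicit false
open Cfsg

namespace Cfsg.Agent.S3064

open Cfsg.Agent.Lib.Helper5.SylowAux
open Cfsg.Agent.Lib.Helper1

universe u

theorem isolated {G : Type*} [Group G] [Finite G] {p : ℕ} [Fact p.Prime] (S : Sylow p G) (x : G)
    (hx : x ∈ (S : Subgroup G))
    (hU : ∀ g : G, g⁻¹ * x * g ∈ (S : Subgroup G) → g⁻¹ * x * g = x) :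
    (S : Subgroup G) ≤ Subgroup.centralizer ({x} : Set G) ∧
    ∀ g : G, g⁻¹ * x * g ∈ Subgroup.centralizer ({x} : Set G) → g⁻¹ * x * g = x := by
  have hSC : (S : Subgroup G) ≤ Subgroup.centralizer ({x} : Set G) := by
    intro s hs
    rw [Subgroup.mem_centralizer_iff]
    intro y hy
    rw [Set.mem_singleton_iff] at hy
    rw [hy]
    have h1 := hU s (Subgroup.mul_mem _ (Subgroup.mul_mem _ (Subgroup.inv_mem _ hs) hx) hs)
    calc x * s = s * (s⁻¹ * x * s) := by group
      _ = s * x := by rw [h1]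
  refine ⟨hSC, ?_⟩
  intro g hg
  obtain ⟨k, hk⟩ := (IsPGroup.iff_orderOf.mp S.isPGroup') ⟨x, hx⟩
  rw [Subgroup.orderOf_mk] at hk
  have hord : orderOf (g⁻¹ * x * g) = orderOf x := by
    have h1 : g⁻¹ * x * g = MulAut.conj g⁻¹ x := by simp
    rw [h1, MulEquiv.orderOf_eq]
  have hQ : IsPGroup p (Subgroup.zpowers (⟨g⁻¹ * x * g, hg⟩ :
      ↥(Subgroup.centralizer ({x} : Set G)))) := by
    apply IsPGroup.of_card (n := k)
    rw [Nat.card_zpowers, Subgroup.orderOf_mk, hord, hk]
  obtain ⟨c, hc⟩ := sylow_conj_le (S.subtype hSC) _ hQ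
  have h1 := hc _ (Subgroup.mem_zpowers _)
  rw [Sylow.coe_subtype, Subgroup.mem_subgroupOf] at h1
  have h1' : (c : G) * (g⁻¹ * x * g) * (c : G)⁻¹ ∈ (S : Subgroup G) := by simpa using h1
  have h2 : (g * (c : G)⁻¹)⁻¹ * x * (g * (c : G)⁻¹) = x := by
    apply hU
    have h3 : (g * (c : G)⁻¹)⁻¹ * x * (g * (c : G)⁻¹) = (c : G) * (g⁻¹ * x * g) * (c : G)⁻¹ := by
      group
    rw [h3]
    exact h1'
  have hcx : x * (c : G) = (c : G) * x := Subgroup.mem_centralizer_iff.mp c.2 x rfl
  calc g⁻¹ * x * g = (c : G)⁻¹ * ((g * (c : G)⁻¹)⁻¹ * x * (g * (c : G)⁻¹)) * (c : G) := by group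
    _ = (c : G)⁻¹ * x * c := by rw [h2]
    _ = x := by rw [mul_assoc, hcx, inv_mul_cancel_left]

theorem sub_hyp {G : Type*} [Group G] [Finite G] {p : ℕ} [Fact p.Prime] (S : Sylow p G) (x : G)
    (hx : x ∈ (S : Subgroup G))
    (hU : ∀ g : G, g⁻¹ * x * g ∈ (S : Subgroup G) → g⁻¹ * x * g = x)
    (hb : ∀ H : Subgroup G, (Nat.card H).Coprime p → (∀ h ∈ H, x * h * x⁻¹ ∈ H) →
      ∀ h ∈ H, x * h = h * x)
    (H : Subgroup G) (hxH : x ∈ H) :
    ∃ T : Sylow p ↥H, (⟨x, hxH⟩ : ↥H) ∈ (T : Subgroup ↥H) ∧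
      (∀ g : ↥H, g⁻¹ * ⟨x, hxH⟩ * g ∈ (T : Subgroup ↥H) → g⁻¹ * ⟨x, hxH⟩ * g = ⟨x, hxH⟩) ∧
      (∀ H' : Subgroup ↥H, (Nat.card H').Coprime p →
        (∀ h ∈ H', (⟨x, hxH⟩ : ↥H) * h * (⟨x, hxH⟩ : ↥H)⁻¹ ∈ H') →
        ∀ h ∈ H', (⟨x, hxH⟩ : ↥H) * h = h * ⟨x, hxH⟩) := by
  obtain ⟨k, hk⟩ := (IsPGroup.iff_orderOf.mp S.isPGroup') ⟨x, hx⟩
  rw [Subgroup.orderOf_mk] at hk
  have hQ : IsPGroup p (Subgroup.zpowers (⟨x, hxH⟩ : ↥H)) := by
    apply IsPGroup.of_card (n := k)
    rw [Nat.card_zpowers, Subgroup.orderOf_mk, hk]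
  obtain ⟨T, hT⟩ := hQ.exists_le_sylow
  refine ⟨T, hT (Subgroup.mem_zpowers _), ?_, ?_⟩
  · intro g hg
    have hTp : IsPGroup p ((T : Subgroup ↥H).map H.subtype) := T.isPGroup'.map _
    obtain ⟨c, hc⟩ := sylow_conj_le S _ hTp
    have h1 : c * x * c⁻¹ ∈ (S : Subgroup G) :=
      hc x ⟨⟨x, hxH⟩, hT (Subgroup.mem_zpowers _), rfl⟩
    have h2 : c * x * c⁻¹ = x := by
      have h3 := hU c⁻¹ (by simpa using h1)
      simpa using h3
    have h3 : c * ((g : G)⁻¹ * x * g) * c⁻¹ ∈ (S : Subgroup G) :=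
      hc _ ⟨g⁻¹ * ⟨x, hxH⟩ * g, hg, rfl⟩
    have h4 : ((g : G) * c⁻¹)⁻¹ * x * ((g : G) * c⁻¹) = x := by
      apply hU
      have h5 : ((g : G) * c⁻¹)⁻¹ * x * ((g : G) * c⁻¹) = c * ((g : G)⁻¹ * x * g) * c⁻¹ := by
        group
      rw [h5]
      exact h3
    apply Subtype.ext
    show (g : G)⁻¹ * x * g = x
    calc (g : G)⁻¹ * x * g = c⁻¹ * (((g : G) * c⁻¹)⁻¹ * x * ((g : G) * c⁻¹)) * c := by group
      _ = c⁻¹ * x * c := by rw [h4]
      _ = c⁻¹ * (c * x * c⁻¹) * c := by rw [h2]
      _ = x := by group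
  · intro H' hcop hinv h hh
    have h1 := hb (H'.map H.subtype)
      (by rw [Subgroup.card_map_of_injective H.subtype_injective]; exact hcop)
      (by
        rintro _ ⟨a, ha, rfl⟩
        exact ⟨⟨x, hxH⟩ * a * (⟨x, hxH⟩ : ↥H)⁻¹, hinv a ha, rfl⟩) (h : G) ⟨h, hh, rfl⟩
    exact Subtype.ext h1

theorem main : ∀ (n : ℕ) (G : Type u) [Group G] [Finite G], Nat.card G = n →
    ∀ (p : ℕ) [Fact p.Prime] (S : Sylow p G) (x : G), x ∈ (S : Subgroup G) →
    (∀ g : G, g⁻¹ * x * g ∈ (S : Subgroup G) → g⁻¹ * x * g = x) →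
    (∀ H : Subgroup G, (Nat.card H).Coprime p → (∀ h ∈ H, x * h * x⁻¹ ∈ H) →
      ∀ h ∈ H, x * h = h * x) →
    x ∈ Subgroup.center G := by
  intro n
  induction n using Nat.strong_induction_on with
  | _ n ih =>
  intro G _ _ hn p _ S x hx hU hb
  by_contra hxZ
  obtain ⟨hSC, hiso⟩ := isolated S x hx hU
  have hxC : x ∈ Subgroup.centralizer ({x} : Set G) := by
    rw [Subgroup.mem_centralizer_iff]
    intro y hy
    rw [Set.mem_singleton_iff] at hy
    rw [hy]
  have hsub : ∀ H : Subgroup G, x ∈ H → H ≠ ⊤ → H ≤ Subgroup.centralizer ({x} : Set G) := by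
    intro H hxH hH
    obtain ⟨T, hxT, hU', hb'⟩ := sub_hyp S x hx hU hb H hxH
    have hlt : Nat.card ↥H < n := by
      rw [← hn]
      exact lt_of_le_of_ne (Subgroup.card_le_card_group H)
        (fun h => hH ((Subgroup.card_eq_iff_eq_top H).mp h))
    have h1 := ih (Nat.card ↥H) hlt ↥H rfl p T ⟨x, hxH⟩ hxT hU' hb'
    intro h hh
    rw [Subgroup.mem_centralizer_iff]
    intro y hy
    rw [Set.mem_singleton_iff] at hy
    rw [hy]
    have h2 := Subgroup.mem_center_iff.mp h1 ⟨h, hh⟩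
    exact (congrArg Subtype.val h2).symm
  have hcent : ∀ g : G, g ∉ Subgroup.centralizer ({x} : Set G) →
      ∀ c ∈ Subgroup.centralizer ({x} : Set G), g * c * g⁻¹ ∈ Subgroup.centralizer ({x} : Set G) →
      c ∈ Subgroup.center G := by
    intro g hg c hc hgc
    have hcl : Subgroup.closure ({x, g⁻¹ * x * g} : Set G) = ⊤ := by
      by_contra hne
      have h1 := hsub _ (Subgroup.subset_closure (by simp)) hne
      have h2 : g⁻¹ * x * g ∈ Subgroup.centralizer ({x} : Set G) :=
        h1 (Subgroup.subset_closure (by simp))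
      have h3 := hiso g h2
      apply hg
      rw [Subgroup.mem_centralizer_iff]
      intro y hy
      rw [Set.mem_singleton_iff] at hy
      rw [hy]
      calc x * g = g * (g⁻¹ * x * g) := by group
        _ = g * x := by rw [h3]
    have hle : Subgroup.closure ({x, g⁻¹ * x * g} : Set G) ≤ Subgroup.centralizer ({c} : Set G) := by
      rw [Subgroup.closure_le]
      rintro y (rfl | rfl)
      · rw [SetLike.mem_coe, Subgroup.mem_centralizer_iff]
        intro z hz
        rw [Set.mem_singleton_iff] at hz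
        rw [hz]
        exact (Subgroup.mem_centralizer_iff.mp hc y rfl).symm
      · rw [SetLike.mem_coe, Subgroup.mem_centralizer_iff]
        intro z hz
        rw [Set.mem_singleton_iff] at hz
        rw [hz]
        have h1 := Subgroup.mem_centralizer_iff.mp hgc x rfl
        calc c * (g⁻¹ * x * g) = g⁻¹ * ((g * c * g⁻¹) * x) * g := by group
          _ = g⁻¹ * (x * (g * c * g⁻¹)) * g := by rw [h1]
          _ = g⁻¹ * x * g * c := by group
    rw [hcl] at hle
    rw [Subgroup.mem_center_iff]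
    intro y
    have h1 := Subgroup.mem_centralizer_iff.mp (hle (Subgroup.mem_top y)) c rfl
    exact h1.symm
  have hZC : Subgroup.center G ≤ Subgroup.centralizer ({x} : Set G) := by
    intro z hz
    rw [Subgroup.mem_centralizer_iff]
    intro y hy
    rw [Set.mem_singleton_iff] at hy
    rw [hy]
    exact Subgroup.mem_center_iff.mp hz x
  have hfrob : Cfsg.IsFrobeniusComplement
      ((Subgroup.centralizer ({x} : Set G)).map (QuotientGroup.mk' (Subgroup.center G))) := by
    refine ⟨?_, ?_, ?_⟩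
    · intro h0
      apply hxZ
      have h1 : (QuotientGroup.mk' (Subgroup.center G)) x ∈
          (Subgroup.centralizer ({x} : Set G)).map (QuotientGroup.mk' (Subgroup.center G)) :=
        ⟨x, hxC, rfl⟩
      rw [h0, Subgroup.mem_bot] at h1
      exact (QuotientGroup.eq_one_iff x).mp h1
    · intro h0
      apply hxZ
      rw [Subgroup.mem_center_iff]
      intro g
      have h2 : (QuotientGroup.mk' (Subgroup.center G)) g ∈
          (Subgroup.centralizer ({x} : Set G)).map (QuotientGroup.mk' (Subgroup.center G)) := by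
        rw [h0]
        exact Subgroup.mem_top _
      obtain ⟨c, hc, hcg⟩ := h2
      have h3 : c⁻¹ * g ∈ Subgroup.center G := QuotientGroup.eq.mp hcg
      have h4 : g ∈ Subgroup.centralizer ({x} : Set G) := by
        have h5 : g = c * (c⁻¹ * g) := by group
        rw [h5]
        exact Subgroup.mul_mem _ hc (hZC h3)
      exact (Subgroup.mem_centralizer_iff.mp h4 x rfl).symm
    · intro gbar hgbar
      obtain ⟨g, rfl⟩ := QuotientGroup.mk'_surjective (Subgroup.center G) gbar
      have hg : g ∉ Subgroup.centralizer ({x} : Set G) := fun h => hgbar ⟨g, h, rfl⟩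
      rw [eq_bot_iff]
      rintro y ⟨⟨c, hc, rfl⟩, hy2⟩
      obtain ⟨c', hc', hcc'⟩ := (mem_conj_smul_iff _ _ _).mp hy2
      have hcc2 : (QuotientGroup.mk' (Subgroup.center G)) c' =
          (QuotientGroup.mk' (Subgroup.center G)) (g⁻¹ * c * g) := by
        rw [hcc', map_mul, map_mul, map_inv]
      have h1 : c'⁻¹ * (g⁻¹ * c * g) ∈ Subgroup.center G := QuotientGroup.eq.mp hcc2
      have h2 : g⁻¹ * c * g ∈ Subgroup.centralizer ({x} : Set G) := by
        have h5 : g⁻¹ * c * g = c' * (c'⁻¹ * (g⁻¹ * c * g)) := by group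
        rw [h5]
        exact Subgroup.mul_mem _ hc' (hZC h1)
      have h3 : c ∈ Subgroup.center G :=
        hcent g⁻¹ (fun h => hg (by simpa using Subgroup.inv_mem _ h)) c hc (by simpa using h2)
      rw [Subgroup.mem_bot]
      exact (QuotientGroup.eq_one_iff c).mpr h3
  obtain ⟨N, -, hNn, hNc⟩ := Cfsg.Agent.S0035.result _ hfrob
  have hKC : ∀ k : G, (QuotientGroup.mk' (Subgroup.center G)) k ∈ N →
      k ∈ Subgroup.centralizer ({x} : Set G) → k ∈ Subgroup.center G := by
    intro k hk hkC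
    have h1 : (QuotientGroup.mk' (Subgroup.center G)) k ∈
        N ⊓ (Subgroup.centralizer ({x} : Set G)).map (QuotientGroup.mk' (Subgroup.center G)) :=
      ⟨hk, k, hkC, rfl⟩
    rw [hNc.disjoint.eq_bot, Subgroup.mem_bot] at h1
    exact (QuotientGroup.eq_one_iff k).mp h1
  have hdec : ∀ g : G, ∃ k c : G, (QuotientGroup.mk' (Subgroup.center G)) k ∈ N ∧
      c ∈ Subgroup.centralizer ({x} : Set G) ∧ g = k * c := by
    intro g
    obtain ⟨⟨⟨nb, hnb⟩, ⟨cb, hcb⟩⟩, h1⟩ := hNc.2 ((QuotientGroup.mk' (Subgroup.center G)) g)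
    obtain ⟨c, hc, rfl⟩ := hcb
    refine ⟨g * c⁻¹, c, ?_, hc, by group⟩
    have h2 : (QuotientGroup.mk' (Subgroup.center G)) (g * c⁻¹) = nb := by
      rw [map_mul, map_inv, ← h1]
      simp
    rw [h2]
    exact hnb
  haveI hKn : (N.comap (QuotientGroup.mk' (Subgroup.center G))).Normal := hNn.comap _
  by_cases hL : Subgroup.zpowers x ⊔ N.comap (QuotientGroup.mk' (Subgroup.center G)) = ⊤
  · have hSdec : ∀ s ∈ (S : Subgroup G), ∃ y ∈ Subgroup.zpowers x, ∃ z ∈ Subgroup.center G,
        s = y * z := by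
      intro s hs
      have h1 : s ∈ ((Subgroup.zpowers x ⊔ N.comap (QuotientGroup.mk' (Subgroup.center G)) :
          Subgroup G) : Set G) := by
        rw [hL]
        exact Set.mem_univ s
      rw [Subgroup.mul_normal] at h1
      obtain ⟨y, hy, k, hk, rfl⟩ := Set.mem_mul.mp h1
      refine ⟨y, hy, k, ?_, rfl⟩
      apply hKC k hk
      have hyC : y ∈ Subgroup.centralizer ({x} : Set G) := (Subgroup.zpowers_le.mpr hxC) hy
      have h5 : k = y⁻¹ * (y * k) := by group
      rw [h5]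
      exact Subgroup.mul_mem _ (Subgroup.inv_mem _ hyC) (hSC hs)
    have hCS : Subgroup.centralizer ({x} : Set G) ≤
        Subgroup.centralizer ((S : Subgroup G) : Set G) := by
      intro c hc
      rw [Subgroup.mem_centralizer_iff]
      intro s hs
      obtain ⟨y, hy, z, hz, rfl⟩ := hSdec s hs
      have h1 : y * c = c * y := by
        have h2 : Subgroup.zpowers x ≤ Subgroup.centralizer ({c} : Set G) := by
          rw [Subgroup.zpowers_le, Subgroup.mem_centralizer_iff]
          intro w hw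
          rw [Set.mem_singleton_iff] at hw
          rw [hw]
          exact (Subgroup.mem_centralizer_iff.mp hc x rfl).symm
        exact (Subgroup.mem_centralizer_iff.mp (h2 hy) c rfl).symm
      have h2 : z * c = c * z := (Subgroup.mem_center_iff.mp hz c).symm
      calc y * z * c = y * (z * c) := by group
        _ = y * (c * z) := by rw [h2]
        _ = (y * c) * z := by group
        _ = (c * y) * z := by rw [h1]
        _ = c * (y * z) := by group
    have hNS : Subgroup.normalizer ((S : Subgroup G) : Set G) ≤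
        Subgroup.centralizer ({x} : Set G) := by
      intro m hm
      have h1 : m⁻¹ * x * m ∈ (S : Subgroup G) := by
        have h2 := (Subgroup.mem_normalizer_iff.mp (Subgroup.inv_mem _ hm) x).mp hx
        simpa using h2
      have h2 := hU m h1
      rw [Subgroup.mem_centralizer_iff]
      intro y hy
      rw [Set.mem_singleton_iff] at hy
      rw [hy]
      calc x * m = m * (m⁻¹ * x * m) := by group
        _ = m * x := by rw [h2]
    have hP : Subgroup.normalizer ((S : Subgroup G) : Set G) ≤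
        Subgroup.centralizer ((S : Subgroup G) : Set G) := hNS.trans hCS
    have hcomp := MonoidHom.ker_transferSylow_isComplement' S hP
    have hndvd := MonoidHom.not_dvd_card_ker_transferSylow S hP
    have hM := hb (MonoidHom.transferSylow S hP).ker
      ((Nat.Prime.coprime_iff_not_dvd Fact.out).mpr hndvd).symm
      (fun h hh => (inferInstance : (MonoidHom.transferSylow S hP).ker.Normal).conj_mem h hh x)
    apply hxZ
    rw [Subgroup.mem_center_iff]
    intro g
    obtain ⟨⟨⟨m, hm⟩, ⟨s, hs⟩⟩, h1⟩ := hcomp.2 g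
    have h1' : g = m * s := h1.symm
    have hxs : x * s = s * x := Subgroup.mem_centralizer_iff.mp (hSC hs) x rfl
    rw [h1']
    calc m * s * x = m * (s * x) := by group
      _ = m * (x * s) := by rw [hxs]
      _ = (m * x) * s := by group
      _ = (x * m) * s := by rw [hM m hm]
      _ = x * (m * s) := by group
  · have h1 := hsub _ (Subgroup.mem_sup_left (Subgroup.mem_zpowers x)) hL
    apply hxZ
    rw [Subgroup.mem_center_iff]
    intro g
    obtain ⟨k, c, hk, hc, rfl⟩ := hdec g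
    have hkz := hKC k hk (h1 (Subgroup.mem_sup_right hk))
    have hcx : x * c = c * x := Subgroup.mem_centralizer_iff.mp hc x rfl
    have hkx : x * k = k * x := Subgroup.mem_center_iff.mp hkz x
    calc k * c * x = k * (c * x) := by group
      _ = k * (x * c) := by rw [hcx]
      _ = (k * x) * c := by group
      _ = (x * k) * c := by rw [hkx]
      _ = x * (k * c) := by group

theorem result {G : Type*} [Group G] [Finite G] {p : ℕ} [Fact p.Prime]
    (S : Sylow p G) (x : G) (hx : x ∈ S)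
    (hU : ∀ g : G, g⁻¹ * x * g ∈ S → g⁻¹ * x * g = x)
    (hb : ∀ H : Subgroup G, (Nat.card H).Coprime p → (∀ h ∈ H, x * h * x⁻¹ ∈ H) → ∀ h ∈ H, x * h = h * x) :
    x ∈ Subgroup.center G := by
  exact main (Nat.card G) G rfl p S x hx hU hb

end Cfsg.Agent.S3064
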