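import Cfsg.Statements.S3075
import Mathlib

set_option autoImplicit false
open Cfsg

namespace Cfsg.Agent.S3075

theorem comm_of_cyclic {N : Type*} [Group N] (C : Subgroup N) [hCn : C.Normal] (g : N)
    (hg : ∀ c ∈ C, c ∈ Subgroup.zpowers g) (hgC : g ∈ C) (x y : N) :
    ∀ c ∈ C, (x * y * x⁻¹ * y⁻¹) * c = c * (x * y * x⁻¹ * y⁻¹) := by
  have P : ∀ w : N, ∃ i : ℤ, ∀ c ∈ C, w * c * w⁻¹ = c ^ i := by
    intro w
    obtain ⟨i, hi⟩ := Subgroup.mem_zpowers_iff.mp (hg _ (hCn.conj_mem g hgC w))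
    refine ⟨i, fun c hc => ?_⟩
    obtain ⟨k, rfl⟩ := Subgroup.mem_zpowers_iff.mp (hg c hc)
    rw [← conj_zpow, ← hi, ← zpow_mul, ← zpow_mul, mul_comm]
  obtain ⟨i, hi⟩ := P x
  obtain ⟨j, hj⟩ := P y
  have h1 : ∀ c ∈ C, (x * y) * c * (x * y)⁻¹ = (y * x) * c * (y * x)⁻¹ := by
    intro c hc
    have e1 : (x * y) * c * (x * y)⁻¹ = x * (y * c * y⁻¹) * x⁻¹ := by group
    have e2 : (y * x) * c * (y * x)⁻¹ = y * (x * c * x⁻¹) * y⁻¹ := by group
    rw [e1, e2, hj c hc, hi c hc, hi _ (C.zpow_mem hc j), hj _ (C.zpow_mem hc i), ← zpow_mul,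
      ← zpow_mul, mul_comm]
  intro c hc
  have hc' : (y * x)⁻¹ * c * (y * x) ∈ C := by
    have := hCn.conj_mem c hc (y * x)⁻¹
    simpa using this
  have h2 := h1 _ hc'
  have e3 : (y * x) * ((y * x)⁻¹ * c * (y * x)) * (y * x)⁻¹ = c := by group
  rw [e3] at h2
  calc x * y * x⁻¹ * y⁻¹ * c
      = ((x * y) * ((y * x)⁻¹ * c * (y * x)) * (x * y)⁻¹) * (x * y * x⁻¹ * y⁻¹) := by group
    _ = c * (x * y * x⁻¹ * y⁻¹) := by rw [h2]

theorem result {N : Type*} [Group N] [Finite N] {p : ℕ} [Fact p.Prime] (hp : p ≠ 2)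
    (A : Subgroup N) [A.Normal] (hAcomm : IsMulCommutative A) (hAcard : Nat.card A = p ^ 2) (hAexp : Monoid.exponent ↥A = p)
    (hAself : Subgroup.centralizer (A : Set N) = A)
    {F : Type*} [Field F] [Fintype F] (hF : Fintype.card F = p) (e : N ⧸ A ≃* Matrix.SpecialLinearGroup (Fin 2) F) :
    ∃ U : Subgroup N, A ⊓ U = ⊥ ∧ A ⊔ U = ⊤ := by
  classical
  have hpp : p.Prime := Fact.out
  have hcop : Nat.Coprime 2 p := (Nat.coprime_primes Nat.prime_two hpp).mpr (Ne.symm hp)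
  have hcomm : ∀ a ∈ A, ∀ b ∈ A, a * b = b * a := by
    intro a ha b hb
    have := hAcomm.is_comm.comm (⟨a, ha⟩ : A) ⟨b, hb⟩
    exact congrArg Subtype.val this
  have hexp : ∀ a ∈ A, a ^ p = 1 := by
    intro a ha
    have := Monoid.pow_exponent_eq_one (⟨a, ha⟩ : A)
    rw [hAexp] at this
    exact congrArg Subtype.val this
  have hsq : ∀ a ∈ A, a ^ 2 = 1 → a = 1 := by
    intro a ha h2
    have h1 : orderOf a ∣ 2 := orderOf_dvd_of_pow_eq_one h2
    have h3 : orderOf a ∣ p := orderOf_dvd_of_pow_eq_one (hexp a ha)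
    exact orderOf_eq_one_iff.mp (Nat.eq_one_of_dvd_coprimes hcop h1 h3)
  have h2F : (2 : F) ≠ 0 := by
    intro h
    have h1 : addOrderOf (1 : F) ∣ 2 := by
      apply addOrderOf_dvd_of_nsmul_eq_zero
      rw [two_nsmul, one_add_one_eq_two]
      exact h
    have h3 : addOrderOf (1 : F) ∣ p := by
      rw [← hF]
      exact addOrderOf_dvd_card
    have h4 : addOrderOf (1 : F) = 1 := Nat.eq_one_of_dvd_coprimes hcop h1 h3
    rw [AddMonoid.addOrderOf_eq_one_iff] at h4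
    exact one_ne_zero h4
  obtain ⟨m, hm1, hmc, hm2⟩ : ∃ m : Matrix.SpecialLinearGroup (Fin 2) F,
      m ≠ 1 ∧ (∀ x, m * x = x * m) ∧ m * m = 1 := by
    obtain ⟨m, hm⟩ : ∃ m : Matrix.SpecialLinearGroup (Fin 2) F,
        (m : Matrix (Fin 2) (Fin 2) F) = !![-1, 0; 0, -1] :=
      ⟨⟨!![-1, 0; 0, -1], by simp [Matrix.det_fin_two_of]⟩, rfl⟩
    refine ⟨m, ?_, ?_, ?_⟩
    · intro h
      have h' := congrArg (fun x : Matrix.SpecialLinearGroup (Fin 2) F => x.1 0 0) h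
      simp only [hm] at h'
      simp at h'
      apply h2F
      linear_combination -h'
    · intro x
      apply Subtype.ext
      rw [Matrix.SpecialLinearGroup.coe_mul, Matrix.SpecialLinearGroup.coe_mul, hm]
      ext i j
      fin_cases i <;> fin_cases j <;> simp [Matrix.mul_apply, Fin.sum_univ_two]
    · apply Subtype.ext
      rw [Matrix.SpecialLinearGroup.coe_mul, hm]
      ext i j
      fin_cases i <;> fin_cases j <;> simp [Matrix.mul_apply, Fin.sum_univ_two]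
  obtain ⟨x0, y0, hxy⟩ : ∃ x y : Matrix.SpecialLinearGroup (Fin 2) F, x * y ≠ y * x := by
    obtain ⟨x, hx⟩ : ∃ m : Matrix.SpecialLinearGroup (Fin 2) F,
        (m : Matrix (Fin 2) (Fin 2) F) = !![1, 1; 0, 1] :=
      ⟨⟨!![1, 1; 0, 1], by simp [Matrix.det_fin_two_of]⟩, rfl⟩
    obtain ⟨y, hy⟩ : ∃ m : Matrix.SpecialLinearGroup (Fin 2) F,
        (m : Matrix (Fin 2) (Fin 2) F) = !![1, 0; 1, 1] :=
      ⟨⟨!![1, 0; 1, 1], by simp [Matrix.det_fin_two_of]⟩, rfl⟩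
    refine ⟨x, y, ?_⟩
    intro h
    have h' := congrArg (fun x : Matrix.SpecialLinearGroup (Fin 2) F => x.1 0 0) h
    simp only [Matrix.SpecialLinearGroup.coe_mul, hx, hy] at h'
    simp [Matrix.mul_apply, Fin.sum_univ_two] at h'
  obtain ⟨z, hz⟩ := QuotientGroup.mk_surjective (e.symm m)
  have hzm : e (z : N ⧸ A) = m := by rw [hz]; simp
  have hzA : z ∉ A := by
    intro h
    have h1 : (z : N ⧸ A) = 1 := (QuotientGroup.eq_one_iff z).mpr h
    rw [h1, map_one] at hzm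
    exact hm1 hzm.symm
  have hzc : ∀ n : N, z⁻¹ * (n * z * n⁻¹) ∈ A := by
    intro n
    rw [← QuotientGroup.eq]
    apply e.injective
    rw [QuotientGroup.mk_mul, QuotientGroup.mk_mul, QuotientGroup.mk_inv, map_mul, map_mul,
      map_inv, hzm, ← hmc, mul_inv_cancel_right]
  have hz2 : z * z ∈ A := by
    rw [← QuotientGroup.eq_one_iff]
    apply e.injective
    rw [QuotientGroup.mk_mul, map_mul, hzm, hm2, map_one]
  have hcA : ∀ a ∈ A, z * a * z⁻¹ ∈ A := fun a ha => ‹A.Normal›.conj_mem a ha z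
  have hzz : ∀ a ∈ A, z * (z * a * z⁻¹) * z⁻¹ = a := by
    intro a ha
    have h1 := hcomm (z * z) hz2 a ha
    calc z * (z * a * z⁻¹) * z⁻¹ = (z * z * a) * (z * z)⁻¹ := by group
      _ = a := by rw [h1]; group
  have hconj : ∀ n a, a ∈ A → z * (n * a * n⁻¹) * z⁻¹ = n * (z * a * z⁻¹) * n⁻¹ := by
    intro n a ha
    have ha' := hzc n⁻¹
    obtain ⟨a', ha'd⟩ : ∃ a', a' = z⁻¹ * (n⁻¹ * z * n⁻¹⁻¹) := ⟨_, rfl⟩
    rw [← ha'd] at ha'
    have e1 : z * n = n * z * a' := by rw [ha'd]; group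
    have e2 : a' * a * a'⁻¹ = a := by rw [hcomm a' ha' a ha]; group
    calc z * (n * a * n⁻¹) * z⁻¹ = (z * n) * a * (z * n)⁻¹ := by group
      _ = (n * z * a') * a * (n * z * a')⁻¹ := by rw [e1]
      _ = n * (z * (a' * a * a'⁻¹) * z⁻¹) * n⁻¹ := by group
      _ = n * (z * a * z⁻¹) * n⁻¹ := by rw [e2]
  obtain ⟨Kp, hKp⟩ : ∃ K : Subgroup N, ∀ a, a ∈ K ↔ (a ∈ A ∧ z * a * z⁻¹ = a) :=
    ⟨{ carrier := {a | a ∈ A ∧ z * a * z⁻¹ = a}
       mul_mem' := by
         rintro a b ⟨ha, ha'⟩ ⟨hb, hb'⟩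
         refine ⟨A.mul_mem ha hb, ?_⟩
         calc z * (a * b) * z⁻¹ = (z * a * z⁻¹) * (z * b * z⁻¹) := by group
           _ = a * b := by rw [ha', hb']
       one_mem' := ⟨A.one_mem, by group⟩
       inv_mem' := by
         rintro a ⟨ha, ha'⟩
         refine ⟨A.inv_mem ha, ?_⟩
         calc z * a⁻¹ * z⁻¹ = (z * a * z⁻¹)⁻¹ := by group
           _ = a⁻¹ := by rw [ha'] }, fun a => Iff.rfl⟩
  obtain ⟨Km, hKm⟩ : ∃ K : Subgroup N, ∀ a, a ∈ K ↔ (a ∈ A ∧ z * a * z⁻¹ = a⁻¹) :=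
    ⟨{ carrier := {a | a ∈ A ∧ z * a * z⁻¹ = a⁻¹}
       mul_mem' := by
         rintro a b ⟨ha, ha'⟩ ⟨hb, hb'⟩
         refine ⟨A.mul_mem ha hb, ?_⟩
         calc z * (a * b) * z⁻¹ = (z * a * z⁻¹) * (z * b * z⁻¹) := by group
           _ = a⁻¹ * b⁻¹ := by rw [ha', hb']
           _ = (a * b)⁻¹ := by rw [mul_inv_rev, hcomm _ (A.inv_mem ha) _ (A.inv_mem hb)]
       one_mem' := ⟨A.one_mem, by group⟩
       inv_mem' := by
         rintro a ⟨ha, ha'⟩
         refine ⟨A.inv_mem ha, ?_⟩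
         calc z * a⁻¹ * z⁻¹ = (z * a * z⁻¹)⁻¹ := by group
           _ = a⁻¹⁻¹ := by rw [ha'] }, fun a => Iff.rfl⟩
  have hKpA : Kp ≤ A := fun a ha => ((hKp a).mp ha).1
  have hKmA : Km ≤ A := fun a ha => ((hKm a).mp ha).1
  have hKpn : Kp.Normal := by
    constructor
    intro a ha n
    obtain ⟨ha1, ha2⟩ := (hKp a).mp ha
    rw [hKp]
    refine ⟨‹A.Normal›.conj_mem a ha1 n, ?_⟩
    rw [hconj n a ha1, ha2]
  have hKmn : Km.Normal := by
    constructor
    intro a ha n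
    obtain ⟨ha1, ha2⟩ := (hKm a).mp ha
    rw [hKm]
    refine ⟨‹A.Normal›.conj_mem a ha1 n, ?_⟩
    rw [hconj n a ha1, ha2]
    group
  have hdis : ∀ a, a ∈ Kp → a ∈ Km → a = 1 := by
    intro a ha hb
    obtain ⟨ha1, ha2⟩ := (hKp a).mp ha
    obtain ⟨-, hb2⟩ := (hKm a).mp hb
    apply hsq a ha1
    have h1 : a = a⁻¹ := ha2.symm.trans hb2
    calc a ^ 2 = a * a := pow_two a
      _ = a * a⁻¹ := by rw [← h1]
      _ = 1 := mul_inv_cancel a
  have hdec : ∀ a ∈ A, ∃ u ∈ Kp, ∃ v ∈ Km, a = u * v := by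
    intro a ha
    have hb := hcA a ha
    have hab := hcomm a ha _ hb
    have hu : a * (z * a * z⁻¹) ∈ Kp := by
      rw [hKp]
      refine ⟨A.mul_mem ha hb, ?_⟩
      calc z * (a * (z * a * z⁻¹)) * z⁻¹ = (z * a * z⁻¹) * (z * (z * a * z⁻¹) * z⁻¹) := by group
        _ = (z * a * z⁻¹) * a := by rw [hzz a ha]
        _ = a * (z * a * z⁻¹) := hab.symm
    have hv : a * (z * a * z⁻¹)⁻¹ ∈ Km := by
      rw [hKm]
      refine ⟨A.mul_mem ha (A.inv_mem hb), ?_⟩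
      calc z * (a * (z * a * z⁻¹)⁻¹) * z⁻¹
          = (z * a * z⁻¹) * (z * (z * a * z⁻¹) * z⁻¹)⁻¹ := by group
        _ = (z * a * z⁻¹) * a⁻¹ := by rw [hzz a ha]
        _ = (a * (z * a * z⁻¹)⁻¹)⁻¹ := by group
    have huv : a * (z * a * z⁻¹) * (a * (z * a * z⁻¹)⁻¹) = a ^ 2 := by
      calc a * (z * a * z⁻¹) * (a * (z * a * z⁻¹)⁻¹)
          = a * ((z * a * z⁻¹) * a) * (z * a * z⁻¹)⁻¹ := by group
        _ = a * (a * (z * a * z⁻¹)) * (z * a * z⁻¹)⁻¹ := by rw [← hab]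
        _ = a * a := by group
        _ = a ^ 2 := (pow_two a).symm
    have hcuv : Commute (a * (z * a * z⁻¹)) (a * (z * a * z⁻¹)⁻¹) :=
      hcomm _ (A.mul_mem ha hb) _ (A.mul_mem ha (A.inv_mem hb))
    obtain ⟨k, hk⟩ : ∃ k, p + 1 = 2 * k := by
      obtain ⟨k, hk⟩ := hpp.odd_of_ne_two hp
      exact ⟨k + 1, by omega⟩
    refine ⟨_, Kp.pow_mem hu k, _, Km.pow_mem hv k, ?_⟩
    rw [← hcuv.mul_pow, huv, ← pow_mul, ← hk, pow_succ, hexp a ha, one_mul]
  have hmain : ∀ a ∈ A, z * a * z⁻¹ = a⁻¹ := by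
    by_contra hcon
    have hKmne : Km ≠ A := by
      intro h
      apply hcon
      intro a ha
      rw [← h] at ha
      exact ((hKm a).mp ha).2
    have hKpne : Kp ≠ ⊥ := by
      intro h
      apply hKmne
      apply le_antisymm hKmA
      intro a ha
      obtain ⟨u, hu, v, hv, rfl⟩ := hdec a ha
      rw [h, Subgroup.mem_bot] at hu
      rw [hu, one_mul]
      exact hv
    have hKmne' : Km ≠ ⊥ := by
      intro h
      apply hzA
      rw [← hAself, Subgroup.mem_centralizer_iff]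
      intro a ha
      obtain ⟨u, hu, v, hv, rfl⟩ := hdec a ha
      rw [h, Subgroup.mem_bot] at hv
      rw [hv, mul_one]
      have h1 := ((hKp u).mp hu).2
      calc u * z = (z * u * z⁻¹) * z := by rw [h1]
        _ = z * u := by group
    have hKpne' : Kp ≠ A := by
      intro h
      apply hKmne'
      rw [eq_bot_iff]
      intro a ha
      rw [Subgroup.mem_bot]
      exact hdis a (h ▸ hKmA ha) ha
    have hcard : ∀ K : Subgroup N, K ≤ A → K ≠ ⊥ → K ≠ A → Nat.card K = p := by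
      intro K hKA h1 h2
      have hd := Subgroup.card_dvd_of_le hKA
      rw [hAcard, Nat.dvd_prime_pow hpp] at hd
      obtain ⟨k, hk, hk'⟩ := hd
      interval_cases k
      · exact absurd (Subgroup.eq_bot_of_card_eq K (by simpa using hk')) h1
      · simpa using hk'
      · exact absurd (Subgroup.eq_of_le_of_card_ge hKA (by rw [hAcard, hk'])) h2
    have hcen : ∀ K : Subgroup N, K.Normal → Nat.card K = p → ∀ x y : N, ∀ c ∈ K,
        (x * y * x⁻¹ * y⁻¹) * c = c * (x * y * x⁻¹ * y⁻¹) := by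
      intro K hKn hKc x y
      haveI : Fact p.Prime := ⟨hpp⟩
      haveI : IsCyclic K := isCyclic_of_prime_card hKc
      obtain ⟨g, hg⟩ := IsCyclic.exists_generator (α := K)
      apply comm_of_cyclic K g.1 _ g.2 x y
      intro c hc
      obtain ⟨k, hk⟩ := Subgroup.mem_zpowers_iff.mp (hg ⟨c, hc⟩)
      rw [Subgroup.mem_zpowers_iff]
      refine ⟨k, ?_⟩
      have := congrArg Subtype.val hk
      simpa using this
    have h1 := hcen Kp hKpn (hcard Kp hKpA hKpne hKpne')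
    have h2 := hcen Km hKmn (hcard Km hKmA hKmne' hKmne)
    have h3 : ∀ x y : N, x * y * x⁻¹ * y⁻¹ ∈ A := by
      intro x y
      rw [← hAself, Subgroup.mem_centralizer_iff]
      intro a ha
      obtain ⟨u, hu, v, hv, rfl⟩ := hdec a ha
      have e1 := h1 x y u hu
      have e2 := h2 x y v hv
      calc u * v * (x * y * x⁻¹ * y⁻¹) = u * (v * (x * y * x⁻¹ * y⁻¹)) := by group
        _ = u * ((x * y * x⁻¹ * y⁻¹) * v) := by rw [e2]
        _ = (u * (x * y * x⁻¹ * y⁻¹)) * v := by group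
        _ = ((x * y * x⁻¹ * y⁻¹) * u) * v := by rw [e1]
        _ = x * y * x⁻¹ * y⁻¹ * (u * v) := by group
    obtain ⟨x, hx⟩ := QuotientGroup.mk_surjective (e.symm x0)
    obtain ⟨y, hy⟩ := QuotientGroup.mk_surjective (e.symm y0)
    apply hxy
    have h4 : ((x * y : N) : N ⧸ A) = ((y * x : N) : N ⧸ A) := by
      rw [QuotientGroup.eq]
      have := A.inv_mem (h3 x y)
      have e1 : (x * y)⁻¹ * (y * x) = (y⁻¹ * x⁻¹) * (x * y * x⁻¹ * y⁻¹)⁻¹ * (y⁻¹ * x⁻¹)⁻¹ := by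
        group
      rw [e1]
      exact ‹A.Normal›.conj_mem _ this _
    have h5 := congrArg e h4
    rw [QuotientGroup.mk_mul, QuotientGroup.mk_mul, map_mul, map_mul, hx, hy] at h5
    simpa using h5
  have hz1 : z * z = 1 := by
    have h1 := hmain (z * z) hz2
    have h2 : z * (z * z) * z⁻¹ = z * z := by group
    rw [h2] at h1
    apply hsq _ hz2
    calc (z * z) ^ 2 = (z * z) * (z * z) := pow_two _
      _ = (z * z) * (z * z)⁻¹ := by rw [← h1]
      _ = 1 := mul_inv_cancel _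
  have hzinv : z⁻¹ = z := inv_eq_of_mul_eq_one_left hz1
  refine ⟨Subgroup.centralizer {z}, ?_, ?_⟩
  · rw [eq_bot_iff]
    intro a ha
    rw [Subgroup.mem_inf] at ha
    obtain ⟨ha1, ha2⟩ := ha
    rw [Subgroup.mem_centralizer_singleton_iff] at ha2
    rw [Subgroup.mem_bot]
    apply hsq a ha1
    have h1 := hmain a ha1
    have h2 : z * a * z⁻¹ = a := by rw [← ha2]; group
    rw [h2] at h1
    calc a ^ 2 = a * a := pow_two a
      _ = a * a⁻¹ := by rw [← h1]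
      _ = 1 := mul_inv_cancel a
  · rw [eq_top_iff]
    intro n _
    have ha' := hzc n
    obtain ⟨a', ha'd⟩ : ∃ a', a' = z⁻¹ * (n * z * n⁻¹) := ⟨_, rfl⟩
    rw [← ha'd] at ha'
    have e1 : n * z * n⁻¹ = z * a' := by rw [ha'd]; group
    obtain ⟨k, hk⟩ : ∃ k, p = 2 * k + 1 := hpp.odd_of_ne_two hp
    have hb : a' ^ k ∈ A := A.pow_mem ha' k
    have hb2 : a' ^ k * a' ^ k = a'⁻¹ := by
      have h1 : a' ^ k * a' ^ k * a' = 1 := by
        rw [← pow_add, ← pow_succ]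
        have : k + k + 1 = p := by omega
        rw [this]
        exact hexp a' ha'
      exact eq_inv_of_mul_eq_one_left h1
    have hbz := hmain _ hb
    have hmem : (a' ^ k)⁻¹ * n ∈ Subgroup.centralizer {z} := by
      rw [Subgroup.mem_centralizer_singleton_iff]
      have e2 : n * z = z * a' * n := by rw [← e1]; group
      have e3 : z * (a' ^ k)⁻¹ = a' ^ k * z := by
        calc z * (a' ^ k)⁻¹ = (z * a' ^ k * z⁻¹)⁻¹ * z := by group
          _ = a' ^ k * z := by rw [hbz, inv_inv]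
      have e4 : a' = (a' ^ k)⁻¹ * (a' ^ k)⁻¹ := by
        rw [← mul_inv_rev, hb2, inv_inv]
      calc (a' ^ k)⁻¹ * n * z = (a' ^ k)⁻¹ * (n * z) := by group
        _ = (a' ^ k)⁻¹ * (z * a' * n) := by rw [e2]
        _ = (a' ^ k)⁻¹ * (z * ((a' ^ k)⁻¹ * (a' ^ k)⁻¹) * n) := by rw [← e4]
        _ = (a' ^ k)⁻¹ * ((z * (a' ^ k)⁻¹) * (a' ^ k)⁻¹ * n) := by group
        _ = (a' ^ k)⁻¹ * ((a' ^ k * z) * (a' ^ k)⁻¹ * n) := by rw [e3]
        _ = z * ((a' ^ k)⁻¹ * n) := by group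
    have : n = a' ^ k * ((a' ^ k)⁻¹ * n) := by group
    rw [this]
    exact Subgroup.mul_mem_sup hb hmem

end Cfsg.Agent.S3075
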