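import Cfsg.Statements.S3087
import Mathlib
import Cfsg.Agent.Lib.Helper5.Basic

set_option autoImplicit false
open Cfsg

namespace Cfsg.Agent.S3087

def fixV {G V : Type*} [Group G] [AddCommGroup V] (p : ℕ) [Module (ZMod p) V]
    (ρ : Representation (ZMod p) G V) (B : Subgroup G) : AddSubgroup V where
  carrier := {v | ∀ b ∈ B, ρ b v = v}
  add_mem' := by
    intro a b ha hb g hg
    simp only [Set.mem_setOf_eq] at ha hb
    rw [map_add, ha g hg, hb g hg]
  zero_mem' := by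
    intro g _
    simp
  neg_mem' := by
    intro a ha g hg
    simp only [Set.mem_setOf_eq] at ha
    rw [map_neg, ha g hg]

theorem mem_fixV {G V : Type*} [Group G] [AddCommGroup V] (p : ℕ) [Module (ZMod p) V]
    (ρ : Representation (ZMod p) G V) (B : Subgroup G) (v : V) :
    v ∈ fixV p ρ B ↔ ∀ b ∈ B, ρ b v = v := Iff.rfl

theorem card_fixV {G V : Type*} [Group G] [AddCommGroup V] (p : ℕ) [Module (ZMod p) V]
    (ρ : Representation (ZMod p) G V) (B : Subgroup G) :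
    Nat.card {v : V // ∀ b ∈ B, ρ b v = v} = Nat.card (fixV p ρ B) :=
  Nat.card_congr (Equiv.subtypeEquivRight fun _ => Iff.rfl)

theorem card_fixW {G V : Type*} [Group G] [AddCommGroup V] (p : ℕ) [Module (ZMod p) V]
    (ρ : Representation (ZMod p) G V) (W : Submodule (ZMod p) V) (B : Subgroup G) :
    Nat.card {w : W // ∀ b ∈ B, ρ b w = w} = Nat.card (W.toAddSubgroup ⊓ fixV p ρ B : AddSubgroup V) := by
  refine Nat.card_congr ⟨fun w => ⟨w.1.1, ⟨w.1.2, w.2⟩⟩, fun v => ⟨⟨v.1, v.2.1⟩, v.2.2⟩, ?_, ?_⟩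
  · intro w; rfl
  · intro v; rfl

theorem result {G V : Type*} [Group G] [Finite G] [AddCommGroup V] [Finite V] (p : ℕ) [Fact p.Prime] [Module (ZMod p) V]
    (ρ : Representation (ZMod p) G V) (W : Submodule (ZMod p) V) (hW : ∀ g : G, ∀ w ∈ W, ρ g w ∈ W)
    (A : Subgroup G)
    (hP : ∀ B : Subgroup G, B ≤ A →
      Nat.card ↥B * Nat.card {v : V // ∀ b ∈ B, ρ b v = v} ≤ Nat.card ↥A * Nat.card {v : V // ∀ a ∈ A, ρ a v = v})
    (B : Subgroup G) (hBA : B ≤ A) (hCB : ∀ a ∈ A, (∀ w ∈ W, ρ a w = w) → a ∈ B) :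
    Nat.card ↥B * Nat.card {w : W // ∀ b ∈ B, ρ b w = w} ≤ Nat.card ↥A * Nat.card {w : W // ∀ a ∈ A, ρ a w = w} := by
  classical
  rw [card_fixW, card_fixW]
  have hPB := hP B hBA
  rw [card_fixV, card_fixV] at hPB
  set FA := fixV p ρ A with hFA
  set FB := fixV p ρ B with hFB
  set Wa := W.toAddSubgroup with hWa
  have hAB : FA ≤ FB := by
    intro v hv b hb
    exact hv b (hBA hb)
  have hkey := Cfsg.Agent.Lib.Helper5.Basic.card_add_card_le (Wa ⊓ FB) FA
  have h1 : Nat.card ((Wa ⊓ FB) ⊔ FA : AddSubgroup V) ≤ Nat.card FB :=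
    AddSubgroup.card_le_of_le (sup_le inf_le_right hAB)
  have h2 : Nat.card ((Wa ⊓ FB) ⊓ FA : AddSubgroup V) ≤ Nat.card (Wa ⊓ FA : AddSubgroup V) :=
    AddSubgroup.card_le_of_le (le_inf (inf_le_left.trans inf_le_left) inf_le_right)
  have hpos : 0 < Nat.card FA := Nat.card_pos
  have h3 : Nat.card (Wa ⊓ FB : AddSubgroup V) * Nat.card FA ≤ Nat.card FB * Nat.card (Wa ⊓ FA : AddSubgroup V) :=
    hkey.trans (Nat.mul_le_mul h1 h2)
  have h4 : (Nat.card ↥B * Nat.card (Wa ⊓ FB : AddSubgroup V)) * Nat.card FA ≤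
      (Nat.card ↥A * Nat.card (Wa ⊓ FA : AddSubgroup V)) * Nat.card FA := by
    calc (Nat.card ↥B * Nat.card (Wa ⊓ FB : AddSubgroup V)) * Nat.card FA
        = Nat.card ↥B * (Nat.card (Wa ⊓ FB : AddSubgroup V) * Nat.card FA) := by ring
      _ ≤ Nat.card ↥B * (Nat.card FB * Nat.card (Wa ⊓ FA : AddSubgroup V)) := Nat.mul_le_mul_left _ h3
      _ = (Nat.card ↥B * Nat.card FB) * Nat.card (Wa ⊓ FA : AddSubgroup V) := by ring
      _ ≤ (Nat.card ↥A * Nat.card FA) * Nat.card (Wa ⊓ FA : AddSubgroup V) := Nat.mul_le_mul_right _ hPB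
      _ = (Nat.card ↥A * Nat.card (Wa ⊓ FA : AddSubgroup V)) * Nat.card FA := by ring
  exact Nat.le_of_mul_le_mul_right h4 hpos

end Cfsg.Agent.S3087
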