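import Cfsg.Statements.S3155
import Mathlib

set_option autoImplicit false
open Cfsg

namespace Cfsg.Agent.S3155

theorem result {B : Type*} [CommGroup B] [Finite B] (hB : Nonempty (B ≃* Multiplicative (ZMod 4 × ZMod 4 × ZMod 4)))
    (τ : B ≃* B) : τ.trans τ ≠ MulEquiv.inv B := by
  obtain ⟨e⟩ := hB
  intro hτ
  have hττ : ∀ b : B, τ (τ b) = b⁻¹ := by
    intro b
    have h1 := congrArg (fun f : B ≃* B => f b) hτ
    simpa using h1
  let σ : (ZMod 4 × ZMod 4 × ZMod 4) →+ (ZMod 4 × ZMod 4 × ZMod 4) :=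
    AddMonoidHom.toMultiplicative.symm (((e.symm.trans τ).trans e).toMonoidHom)
  have hσ : ∀ a, σ (σ a) = -a := by
    intro a
    show Multiplicative.toAdd (e (τ (e.symm (Multiplicative.ofAdd
      (Multiplicative.toAdd (e (τ (e.symm (Multiplicative.ofAdd a))))))))) = -a
    simp [hττ]
  let L : (ZMod 4 × ZMod 4 × ZMod 4) →ₗ[ZMod 4] (ZMod 4 × ZMod 4 × ZMod 4) :=
    σ.toZModLinearMap 4
  have hL : L.comp L = (-1 : ZMod 4) • LinearMap.id := by
    apply LinearMap.ext
    intro a
    show σ (σ a) = (-1 : ZMod 4) • a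
    rw [hσ, neg_one_smul]
  have hfr : Module.finrank (ZMod 4) (ZMod 4 × ZMod 4 × ZMod 4) = 3 := by
    have hfact : Fact (1 < 4) := ⟨by norm_num⟩
    rw [Module.finrank_prod, Module.finrank_prod, Module.finrank_self]
  have hdet : LinearMap.det L * LinearMap.det L = -1 := by
    rw [← LinearMap.det_comp, hL, LinearMap.det_smul, LinearMap.det_id, hfr]
    decide
  revert hdet
  generalize LinearMap.det L = d
  revert d
  decide

end Cfsg.Agent.S3155
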