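import Cfsg.Statements.S3180
import Mathlib
import Cfsg.Agent.Lib.Helper5.SylowAux

set_option autoImplicit false
open Cfsg

namespace Cfsg.Agent.S3180

theorem result {J : Type*} [Group J] [Finite J]
    {p : ℕ} [Fact p.Prime] (P : Sylow p J) (P₁ : Subgroup J) (hW : Cfsg.IsWeaklyClosed P₁ (P : Subgroup J))
    {Ω : Type*} [MulAction J Ω] (x y : Ω) (hx : ∀ g ∈ P₁, g • x = x) (hy : ∀ g ∈ P₁, g • y = y)
    (hc : ∃ g : J, g • x = y) :
    ∃ g ∈ Subgroup.normalizer (P₁ : Set J), g • x = y := by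
  obtain ⟨g, hg⟩ := hc
  have hP₁ : IsPGroup p P₁ := P.isPGroup'.to_le hW.1
  have h1 : P₁ ≤ MulAction.stabilizer J y := fun a ha => hy a ha
  have h2 : ∀ a ∈ P₁, g * a * g⁻¹ ∈ MulAction.stabilizer J y := by
    intro a ha
    rw [MulAction.mem_stabilizer_iff, mul_smul, mul_smul, ← hg, inv_smul_smul, hx a ha]
  have hP₁S : IsPGroup p (P₁.subgroupOf (MulAction.stabilizer J y)) := hP₁.comap_subtype
  obtain ⟨Q, hQ⟩ := hP₁S.exists_le_sylow
  have hR : IsPGroup p (P₁.map (MulAut.conj g).toMonoidHom) := hP₁.map _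
  have hRS : IsPGroup p ((P₁.map (MulAut.conj g).toMonoidHom).subgroupOf (MulAction.stabilizer J y)) :=
    hR.comap_subtype
  obtain ⟨s, hs⟩ := Cfsg.Agent.Lib.Helper5.SylowAux.sylow_conj_le Q _ hRS
  have hT : IsPGroup p ((Q : Subgroup (MulAction.stabilizer J y)).map
      (MulAction.stabilizer J y).subtype) := Q.isPGroup'.map _
  obtain ⟨k, hk⟩ := Cfsg.Agent.Lib.Helper5.SylowAux.sylow_conj_le P _ hT
  have e1 : P₁.map (MulAut.conj k).toMonoidHom ≤ P := by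
    rintro _ ⟨a, ha, rfl⟩
    exact hk a ⟨⟨a, h1 ha⟩, hQ (Subgroup.mem_subgroupOf.mpr ha), rfl⟩
  have e2 : P₁.map (MulAut.conj (k * s * g)).toMonoidHom ≤ P := by
    rintro _ ⟨a, ha, rfl⟩
    have h3 : (s : J) * (g * a * g⁻¹) * (s : J)⁻¹ ∈ (Q : Subgroup (MulAction.stabilizer J y)).map
        (MulAction.stabilizer J y).subtype := by
      have h4 := hs ⟨g * a * g⁻¹, h2 a ha⟩ (Subgroup.mem_subgroupOf.mpr ⟨a, ha, rfl⟩)
      exact ⟨_, h4, rfl⟩
    have h5 := hk _ h3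
    simpa [mul_assoc] using h5
  have n1 := hW.2 k e1
  have n2 := hW.2 (k * s * g) e2
  have m1 : k ∈ Subgroup.normalizer (P₁ : Set J) := Subgroup.mem_normalizer_iff_map_conj_eq.mpr n1
  have m2 : k * s * g ∈ Subgroup.normalizer (P₁ : Set J) :=
    Subgroup.mem_normalizer_iff_map_conj_eq.mpr n2
  refine ⟨s * g, ?_, ?_⟩
  · have h6 := Subgroup.mul_mem _ (Subgroup.inv_mem _ m1) m2
    simpa [mul_assoc] using h6
  · rw [mul_smul, hg]
    exact s.2

end Cfsg.Agent.S3180
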