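import Cfsg.Statements.S3183
import Mathlib
import Cfsg.Agent.Lib.Helper8.ClassicAlperin
import Cfsg.Agent.Lib.Helper2.SylowAux

set_option autoImplicit false
open Cfsg

namespace Cfsg.Agent.S3183

theorem main2 {G : Type*} [Group G] [Finite G]
    (hCI : ∀ S T : Sylow 2 G, S ≠ T → ∃ U : Sylow 2 G,
      (S : Subgroup G) ⊓ (T : Subgroup G) ≤
        (Subgroup.center ↥(U : Subgroup G)).map (U : Subgroup G).subtype) :
    ∀ k : ℕ, ∀ S T : Sylow 2 G, S ≠ T →
      Nat.card (S : Subgroup G) - Nat.card ((S : Subgroup G) ⊓ (T : Subgroup G) : Subgroup G) = k →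
      ∀ d ∈ (S : Subgroup G) ⊓ (T : Subgroup G), ∀ s ∈ (S : Subgroup G), s * d = d * s := by
  haveI : Fact (Nat.Prime 2) := ⟨Nat.prime_two⟩
  intro k
  induction k using Nat.strong_induction_on with
  | _ k ih =>
    intro S T hST hk d hd s hs
    obtain ⟨U, hU⟩ := hCI S T hST
    have hDU : ∀ d ∈ (S : Subgroup G) ⊓ (T : Subgroup G),
        d ∈ (U : Subgroup G) ∧ ∀ u ∈ (U : Subgroup G), u * d = d * u := by
      intro d hd
      obtain ⟨z, hz, rfl⟩ := hU hd
      refine ⟨z.2, fun u hu => ?_⟩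
      exact congrArg Subtype.val (Subgroup.mem_center_iff.mp hz ⟨u, hu⟩)
    have hDS : (S : Subgroup G) ⊓ (T : Subgroup G) < (S : Subgroup G) := by
      apply lt_of_le_of_ne inf_le_left
      intro h
      apply hST
      have hle : (S : Subgroup G) ≤ T := by
        rw [← h]
        exact inf_le_right
      exact Sylow.ext (S.3 T.2 hle).symm
    obtain ⟨r, hrS, hrD, hrN⟩ :=
      Cfsg.Agent.Lib.Helper8.ClassicAlperin.exists_normalizing_of_lt S.2 hDS
    have hUN : (U : Subgroup G) ≤ Subgroup.normalizer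
        (((S : Subgroup G) ⊓ (T : Subgroup G) : Subgroup G) : Set G) := by
      intro u hu
      apply Subgroup.centralizer_le_normalizer
      rw [Subgroup.mem_centralizer_iff]
      intro d hd
      exact ((hDU d hd).2 u hu).symm
    obtain ⟨n, hn, hnU⟩ := Cfsg.Agent.Lib.Helper2.SylowAux.exists_conj_le_sylow_of_le U hUN
      (B := (S : Subgroup G) ⊓ Subgroup.normalizer
        (((S : Subgroup G) ⊓ (T : Subgroup G) : Subgroup G) : Set G))
      inf_le_right (S.2.to_le inf_le_left)
    have hmemU₁ : ∀ y, y ∈ ((n • U : Sylow 2 G) : Subgroup G) ↔ n⁻¹ * y * n ∈ (U : Subgroup G) :=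
      fun y => Cfsg.Agent.Lib.Helper2.SylowAux.mem_smul_sylow U n y
    have hDU₁ : ∀ d ∈ (S : Subgroup G) ⊓ (T : Subgroup G),
        ∀ u ∈ ((n • U : Sylow 2 G) : Subgroup G), u * d = d * u := by
      intro d hd u hu
      rw [hmemU₁] at hu
      have hd' : n⁻¹ * d * n ∈ (S : Subgroup G) ⊓ (T : Subgroup G) := by
        have := (Subgroup.mem_normalizer_iff.mp (Subgroup.inv_mem _ hn) d).mp hd
        simpa using this
      have := (hDU _ hd').2 _ hu
      calc u * d = n * ((n⁻¹ * u * n) * (n⁻¹ * d * n)) * n⁻¹ := by group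
        _ = n * ((n⁻¹ * d * n) * (n⁻¹ * u * n)) * n⁻¹ := by rw [this]
        _ = d * u := by group
    by_cases hU₁ : (n • U : Sylow 2 G) = S
    · have hs' : s ∈ ((n • U : Sylow 2 G) : Subgroup G) := by
        rw [hU₁]
        exact hs
      exact hDU₁ d hd s hs'
    · have hrU₁ : r ∈ ((n • U : Sylow 2 G) : Subgroup G) := by
        rw [hmemU₁]
        exact hnU r ⟨hrS, hrN⟩
      have hDD₁ : (S : Subgroup G) ⊓ (T : Subgroup G) ≤
          (S : Subgroup G) ⊓ ((n • U : Sylow 2 G) : Subgroup G) := by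
        intro d hd
        exact ⟨hd.1, (hmemU₁ d).mpr (hnU d ⟨hd.1, Subgroup.le_normalizer hd⟩)⟩
      have hlt : Nat.card ((S : Subgroup G) ⊓ (T : Subgroup G) : Subgroup G) <
          Nat.card ((S : Subgroup G) ⊓ ((n • U : Sylow 2 G) : Subgroup G) : Subgroup G) := by
        by_contra hge
        push Not at hge
        have := Subgroup.eq_of_le_of_card_ge hDD₁ hge
        apply hrD
        rw [this]
        exact ⟨hrS, hrU₁⟩
      have hle₁ : Nat.card ((S : Subgroup G) ⊓ ((n • U : Sylow 2 G) : Subgroup G) : Subgroup G) ≤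
          Nat.card (S : Subgroup G) := Subgroup.card_le_of_le inf_le_left
      exact ih (Nat.card (S : Subgroup G) -
        Nat.card ((S : Subgroup G) ⊓ ((n • U : Sylow 2 G) : Subgroup G) : Subgroup G)) (by omega)
        S (n • U) (fun h => hU₁ h.symm) rfl d (hDD₁ hd) s hs

theorem result {G : Type*} [Group G] [Finite G]
    (hCI : ∀ S T : Sylow 2 G, S ≠ T → ∃ U : Sylow 2 G,
      (S : Subgroup G) ⊓ (T : Subgroup G) ≤ (Subgroup.center ↥(U : Subgroup G)).map (U : Subgroup G).subtype)
    (S : Sylow 2 G) :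
    (∀ x ∈ (S : Subgroup G), ∀ P : Subgroup G, IsPGroup 2 ↥P → P ≤ Subgroup.centralizer ({x} : Set G) →
        Nat.card ↥P ≤ Nat.card ↥((S : Subgroup G) ⊓ Subgroup.centralizer ({x} : Set G))) ∧
    (∀ T : Sylow 2 G, T ≠ S →
        (S : Subgroup G) ⊓ (T : Subgroup G) ≤
          (Subgroup.center ↥(S : Subgroup G)).map (S : Subgroup G).subtype ⊓
            (Subgroup.center ↥(T : Subgroup G)).map (T : Subgroup G).subtype) := by
  haveI : Fact (Nat.Prime 2) := ⟨Nat.prime_two⟩
  have key : ∀ S T : Sylow 2 G, S ≠ T → ∀ d ∈ (S : Subgroup G) ⊓ (T : Subgroup G),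
      ∀ s ∈ (S : Subgroup G), s * d = d * s := fun S T h => main2 hCI _ S T h rfl
  have mk : ∀ (S : Sylow 2 G) (d : G), d ∈ (S : Subgroup G) →
      (∀ s ∈ (S : Subgroup G), s * d = d * s) →
      d ∈ (Subgroup.center ↥(S : Subgroup G)).map (S : Subgroup G).subtype := by
    intro S d hd h
    exact ⟨⟨d, hd⟩, Subgroup.mem_center_iff.mpr (fun s => Subtype.ext (h s s.2)), rfl⟩
  refine ⟨?_, ?_⟩
  · intro x hx P hP hPC
    have hxP : x ∈ Subgroup.normalizer (P : Set G) := by
      apply Subgroup.centralizer_le_normalizer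
      rw [Subgroup.mem_centralizer_iff]
      intro h hh
      exact (Subgroup.mem_centralizer_iff.mp (hPC hh) x rfl).symm
    have hzx : IsPGroup 2 (Subgroup.zpowers x) := S.2.to_le (Subgroup.zpowers_le.mpr hx)
    have h1 : IsPGroup 2 (Subgroup.zpowers x ⊔ P : Subgroup G) :=
      IsPGroup.to_sup_of_normal_right' hzx hP (Subgroup.zpowers_le.mpr hxP)
    obtain ⟨T, hT⟩ := h1.exists_le_sylow
    have hxT : x ∈ (T : Subgroup G) := hT (Subgroup.mem_sup_left (Subgroup.mem_zpowers x))
    have hPT : P ≤ T := le_sup_right.trans hT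
    by_cases hTS : T = S
    · apply Subgroup.card_le_of_le
      subst hTS
      exact le_inf hPT hPC
    · have hcen : ∀ s ∈ (S : Subgroup G), s * x = x * s := key S T (Ne.symm hTS) x ⟨hx, hxT⟩
      have hSC : (S : Subgroup G) ⊓ Subgroup.centralizer ({x} : Set G) = S := by
        apply inf_eq_left.mpr
        intro s hs
        rw [Subgroup.mem_centralizer_iff]
        intro y hy
        rw [Set.mem_singleton_iff.mp hy]
        exact (hcen s hs).symm
      rw [hSC]
      calc Nat.card P ≤ Nat.card (T : Subgroup G) := Subgroup.card_le_of_le hPT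
        _ = Nat.card (S : Subgroup G) := by
          rw [Sylow.card_eq_multiplicity, Sylow.card_eq_multiplicity]
  · intro T hTS d hd
    exact Subgroup.mem_inf.mpr ⟨mk S d hd.1 (key S T (Ne.symm hTS) d hd),
      mk T d hd.2 (key T S hTS d ⟨hd.2, hd.1⟩)⟩

end Cfsg.Agent.S3183
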