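import Cfsg.Statements.S3201
import Mathlib
import Cfsg.Agent.Lib.Helper1.UniqP
import Cfsg.Agent.Lib.Helper1.Nil

set_option autoImplicit false
open Cfsg

namespace Cfsg.Agent.S3201

open QuaternionGroup in
theorem quat_rep (n : ℕ) [NeZero n] (q : QuaternionGroup n) :
    ∃ m : ℕ, q = (a 1) ^ m ∨ q = xa 0 * (a 1) ^ m := by
  haveI : NeZero (2 * n) := ⟨by have := NeZero.ne n; omega⟩
  rcases q with i | i
  · refine ⟨i.val, Or.inl ?_⟩
    rw [a_one_pow, ZMod.natCast_zmod_val]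
  · refine ⟨i.val, Or.inr ?_⟩
    rw [a_one_pow, ZMod.natCast_zmod_val, xa_mul_a, zero_add]

open QuaternionGroup in
theorem q_facts (N' : ℕ) (hN' : 0 < N') :
    ((xa 0 : QuaternionGroup (2 * N')) * xa 0 = a ((2 * N' : ℕ) : ZMod (2 * (2 * N')))) ∧
    ((xa 0 * a 1 : QuaternionGroup (2 * N')) * (xa 0 * a 1) =
      a ((2 * N' : ℕ) : ZMod (2 * (2 * N')))) ∧
    ((a 1 : QuaternionGroup (2 * N')) ^ N' * (a 1) ^ N' =
      a ((2 * N' : ℕ) : ZMod (2 * (2 * N')))) ∧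
    (a ((2 * N' : ℕ) : ZMod (2 * (2 * N'))) : QuaternionGroup (2 * N')) ≠ 1 ∧
    (a ((2 * N' : ℕ) : ZMod (2 * (2 * N'))) : QuaternionGroup (2 * N')) *
      a ((2 * N' : ℕ) : ZMod (2 * (2 * N'))) = 1 ∧
    ((xa 0 : QuaternionGroup (2 * N')) * a 1 ≠ a 1 * xa 0) ∧
    ((xa 0 * a 1 : QuaternionGroup (2 * N')) * a 1 ≠ a 1 * (xa 0 * a 1)) ∧
    ((a 1 : QuaternionGroup (2 * N')) ^ N' * xa 0 ≠ xa 0 * (a 1) ^ N') ∧
    (∀ m : ℕ, (a 1 : QuaternionGroup (2 * N')) ^ m = 1 → 2 * (2 * N') ∣ m) ∧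
    (∀ m : ℕ, (xa 0 : QuaternionGroup (2 * N')) * (a 1) ^ m ≠ 1) := by
  have hM : ((2 * N' : ℕ) : ZMod (2 * (2 * N'))) + ((2 * N' : ℕ) : ZMod (2 * (2 * N'))) = 0 := by
    have h0 := ZMod.natCast_self (2 * (2 * N'))
    push_cast at h0 ⊢
    linear_combination h0
  have hW : ((2 * N' : ℕ) : ZMod (2 * (2 * N'))) ≠ 0 := by
    rw [Ne, ZMod.natCast_eq_zero_iff]
    intro h
    have := Nat.le_of_dvd (by omega) h
    omega
  have hW' : (2 : ZMod (2 * (2 * N'))) * (N' : ZMod (2 * (2 * N'))) ≠ 0 := by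
    have := hW
    push_cast at this
    exact this
  have h2 : (2 : ZMod (2 * (2 * N'))) ≠ 0 := by
    have : ((2 : ℕ) : ZMod (2 * (2 * N'))) ≠ 0 := by
      rw [Ne, ZMod.natCast_eq_zero_iff]
      intro h
      have := Nat.le_of_dvd (by omega) h
      omega
    exact_mod_cast this
  refine ⟨?_, ?_, ?_, ?_, ?_, ?_, ?_, ?_, ?_, ?_⟩
  · rw [xa_mul_xa, add_zero, sub_zero]
  · rw [xa_mul_a, xa_mul_xa]
    congr 1
    ring
  · rw [a_one_pow, a_mul_a]
    congr 1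
    push_cast
    ring
  · rw [one_def]
    intro h
    exact hW (QuaternionGroup.a.inj h)
  · rw [a_mul_a, hM, one_def]
  · intro h
    rw [xa_mul_a, a_mul_xa] at h
    have := QuaternionGroup.xa.inj h
    apply h2
    linear_combination this
  · intro h
    rw [xa_mul_a, xa_mul_a, a_mul_xa] at h
    have := QuaternionGroup.xa.inj h
    apply h2
    linear_combination this
  · intro h
    rw [a_one_pow, a_mul_xa, xa_mul_a] at h
    have := QuaternionGroup.xa.inj h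
    apply hW'
    linear_combination (-1 : ZMod (2 * (2 * N'))) * this
  · intro m h
    rw [a_one_pow, one_def] at h
    exact (ZMod.natCast_eq_zero_iff _ _).mp (QuaternionGroup.a.inj h)
  · intro m h
    rw [a_one_pow, xa_mul_a, one_def] at h
    cases h

theorem inv_unique {S : Type*} [Group S] (D' : Subgroup S) [D'.Normal] (x₀ : S ⧸ D')
    (hx₀u : ∀ y : S ⧸ D', orderOf y = 2 → y = x₀) (u g : S) (hu : u ∉ D') (hu2 : u * u ∈ D')
    (hg : g ∉ D') (hg2 : g * g ∈ D') : u⁻¹ * g ∈ D' := by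
  haveI : Fact (Nat.Prime 2) := ⟨Nat.prime_two⟩
  have key : ∀ v : S, v ∉ D' → v * v ∈ D' → (v : S ⧸ D') = x₀ := by
    intro v hv hv2
    apply hx₀u
    apply orderOf_eq_prime
    · rw [pow_two, ← QuotientGroup.mk_mul, QuotientGroup.eq_one_iff]
      exact hv2
    · rw [Ne, QuotientGroup.eq_one_iff]
      exact hv
  exact QuotientGroup.eq.mp ((key u hu hu2).trans (key g hg hg2).symm)

theorem quatdata {S : Type*} [Group S] [Finite S] (hS : IsPGroup 2 S) (D' : Subgroup S)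
    [D'.Normal] (hnc : ¬ IsMulCommutative (S ⧸ D'))
    (x₀ : S ⧸ D') (hx₀ : orderOf x₀ = 2) (hx₀u : ∀ y : S ⧸ D', orderOf y = 2 → y = x₀) :
    ∃ (N' : ℕ) (φ : S →* QuaternionGroup (2 * N')) (a₀ x₁ : S), 0 < N' ∧
      (∀ g, g ∈ D' ↔ φ g = 1) ∧ φ a₀ = QuaternionGroup.a 1 ∧ φ x₁ = QuaternionGroup.xa 0 := by
  classical
  haveI : Fact (Nat.Prime 2) := ⟨Nat.prime_two⟩
  have hM : IsPGroup 2 (S ⧸ D') := hS.to_quotient D'
  have hgen : ∀ H : Subgroup (S ⧸ D'), Nat.card H = 2 → H = Subgroup.zpowers x₀ := by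
    intro H hH
    have hHbot : H ≠ ⊥ := by
      rintro rfl
      rw [Subgroup.card_bot] at hH
      omega
    obtain ⟨a, ha⟩ := (Subgroup.ne_bot_iff_exists_ne_one).1 hHbot
    have ha2 : a ^ 2 = 1 := by
      have := pow_card_eq_one' (G := H) (x := a)
      rwa [hH] at this
    have ha1 : (a : S ⧸ D') ≠ 1 := fun h => ha (Subtype.ext h)
    have ha2' : (a : S ⧸ D') ^ 2 = 1 := by
      have := congrArg Subtype.val ha2
      simpa using this
    have ho : orderOf (a : S ⧸ D') = 2 := orderOf_eq_prime ha2' ha1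
    have hax := hx₀u _ ho
    symm
    apply Subgroup.eq_of_le_of_card_ge
    · rw [Subgroup.zpowers_le, ← hax]
      exact a.2
    · rw [Nat.card_zpowers, hx₀, hH]
  have huniq : ∀ H K : Subgroup (S ⧸ D'), Nat.card H = 2 → Nat.card K = 2 → H = K := by
    intro H K hH hK
    rw [hgen H hH, hgen K hK]
  have hcycfalse : IsCyclic (S ⧸ D') → False := by
    intro hcyc
    apply hnc
    obtain ⟨g, hg⟩ := hcyc.exists_generator
    refine ⟨⟨fun u v => ?_⟩⟩
    obtain ⟨i, rfl⟩ := Subgroup.mem_zpowers_iff.mp (hg u)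
    obtain ⟨j, rfl⟩ := Subgroup.mem_zpowers_iff.mp (hg v)
    rw [← zpow_add, ← zpow_add, add_comm]
  rcases Cfsg.Agent.Lib.Helper1.UniqP.cyclic_or_quat hM huniq with hcyc | ⟨-, k, ⟨e⟩⟩
  · exact (hcycfalse hcyc).elim
  · rcases Nat.eq_zero_or_pos k with hk | hk
    · exfalso
      subst hk
      have e1 : S ⧸ D' ≃* QuaternionGroup 1 := e
      haveI : IsCyclic (QuaternionGroup 1) := QuaternionGroup.quaternionGroup_one_isCyclic
      exact hcycfalse (isCyclic_of_surjective e1.symm e1.symm.surjective)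
    · obtain ⟨k', rfl⟩ : ∃ k', k = k' + 1 := ⟨k - 1, by omega⟩
      have e2 : S ⧸ D' ≃* QuaternionGroup (2 * 2 ^ k') := by
        rw [← pow_succ']
        exact e
      obtain ⟨a₀, ha₀⟩ := QuotientGroup.mk_surjective (s := D') (e2.symm (QuaternionGroup.a 1))
      obtain ⟨x₁, hx₁⟩ := QuotientGroup.mk_surjective (s := D') (e2.symm (QuaternionGroup.xa 0))
      refine ⟨2 ^ k', e2.toMonoidHom.comp (QuotientGroup.mk' D'), a₀, x₁, by positivity,
        ?_, ?_, ?_⟩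
      · intro g
        rw [← QuotientGroup.eq_one_iff (N := D')]
        constructor
        · intro h
          show e2 (g : S ⧸ D') = 1
          rw [h, map_one]
        · intro h
          have h' : e2 (g : S ⧸ D') = 1 := h
          exact e2.injective (h'.trans (map_one e2).symm)
      · show e2 (a₀ : S ⧸ D') = _
        rw [ha₀, e2.apply_symm_apply]
      · show e2 (x₁ : S ⧸ D') = _
        rw [hx₁, e2.apply_symm_apply]

theorem quat_sub {S : Type*} [Group S] [Finite S] (a x : S) (N : ℕ) (h1 : x * a = a⁻¹ * x)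
    (h2 : x * x = a ^ N) (h3 : a ^ N * a ^ N = 1) :
    ∃ Q : Subgroup S, a ∈ Q ∧ x ∈ Q ∧ ∀ q ∈ Q, ∃ m : ℕ, q = a ^ m ∨ q = x * a ^ m := by
  have hsc : ∀ i : ℤ, a ^ i * x = x * a ^ (-i) := by
    intro i
    have hs : SemiconjBy x a a⁻¹ := h1
    have := (hs.zpow_right (-i)).eq
    rw [this, inv_zpow', neg_neg]
  have hxinv : x⁻¹ = x * a ^ N := by
    apply inv_eq_of_mul_eq_one_right
    rw [← mul_assoc, h2, h3]
  refine ⟨{ carrier := {q | ∃ m : ℤ, q = a ^ m ∨ q = x * a ^ m}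
            mul_mem' := ?_
            one_mem' := ⟨0, Or.inl (zpow_zero a).symm⟩
            inv_mem' := ?_ }, ⟨1, Or.inl (zpow_one a).symm⟩,
            ⟨0, Or.inr (by rw [zpow_zero, mul_one])⟩, ?_⟩
  · rintro q r ⟨i, hq | hq⟩ ⟨j, hr | hr⟩
    · exact ⟨i + j, Or.inl (by rw [hq, hr, zpow_add])⟩
    · exact ⟨-i + j, Or.inr (by rw [hq, hr, ← mul_assoc, hsc, mul_assoc, ← zpow_add])⟩
    · exact ⟨i + j, Or.inr (by rw [hq, hr, mul_assoc, ← zpow_add])⟩
    · refine ⟨(N : ℤ) + -i + j, Or.inl ?_⟩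
      rw [hq, hr]
      calc x * a ^ i * (x * a ^ j) = x * (a ^ i * x) * a ^ j := by simp only [mul_assoc]
        _ = x * (x * a ^ (-i)) * a ^ j := by rw [hsc]
        _ = (x * x) * a ^ (-i) * a ^ j := by simp only [mul_assoc]
        _ = a ^ ((N : ℤ) + -i + j) := by rw [h2, zpow_add, zpow_add, zpow_natCast]
  · rintro q ⟨i, hq | hq⟩
    · exact ⟨-i, Or.inl (by rw [hq, zpow_neg])⟩
    · refine ⟨i + N, Or.inr ?_⟩
      rw [hq, mul_inv_rev, hxinv, ← zpow_neg, ← mul_assoc, hsc, neg_neg, mul_assoc,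
        ← zpow_natCast, ← zpow_add]
  · rintro q ⟨i, hq⟩
    obtain ⟨m, hm⟩ : a ^ i ∈ Submonoid.powers a := mem_powers_iff_mem_zpowers.mpr ⟨i, rfl⟩
    have hm' : a ^ m = a ^ i := hm
    refine ⟨m, ?_⟩
    rw [hm']
    exact hq

theorem core {S : Type*} [Group S] [Finite S] (hS : IsPGroup 2 S) (D' : Subgroup S)
    [D'.Normal] (hDZ : D' ≤ Subgroup.center S) (hnc : ¬ IsMulCommutative (S ⧸ D'))
    (x₀ : S ⧸ D') (hx₀ : orderOf x₀ = 2) (hx₀u : ∀ y : S ⧸ D', orderOf y = 2 → y = x₀)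
    (u : S) (hu : u ∈ Subgroup.center S) (hu' : u ∉ D') (hu2 : u * u ∈ D')
    (K2 : ∀ g h : S, g ∉ Subgroup.center S → h ∉ Subgroup.center S →
      g * g ∈ Subgroup.center S → h * h ∈ Subgroup.center S → g * g = h * h)
    (hsq : ∀ w ∈ Subgroup.center S, w * w = 1) :
    ∃ E Q : Subgroup S, Cfsg.IsInternalDirectProduct E Q ⊤ ∧ Cfsg.IsElementaryAbelian 2 E ∧
      ¬ IsMulCommutative ↥Q ∧ ∃! x : ↥Q, orderOf x = 2 := by
  classical
  haveI : Fact (Nat.Prime 2) := ⟨Nat.prime_two⟩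
  obtain ⟨N', φ, a₀, x₁, hN', hφ, hφa, hφx⟩ := quatdata hS D' hnc x₀ hx₀ hx₀u
  haveI : NeZero (2 * N') := ⟨by omega⟩
  obtain ⟨q1, q2, q3, q4, q5, q6, q7, q8, q9, q10⟩ := q_facts N' hN'
  have hW : ∀ h : S, φ h = QuaternionGroup.a ((2 * N' : ℕ) : ZMod (2 * (2 * N'))) →
      h ∈ Subgroup.center S := by
    intro h hh
    have h1 : h ∉ D' := by
      rw [hφ, hh]
      exact q4
    have h2 : h * h ∈ D' := by
      rw [hφ, map_mul, hh]
      exact q5
    have h3 := inv_unique D' x₀ hx₀u u h hu' hu2 h1 h2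
    have h4 := Subgroup.mul_mem _ hu (hDZ h3)
    rwa [mul_inv_cancel_left] at h4
  have hx₁Z : x₁ ∉ Subgroup.center S := by
    intro h
    apply q6
    have := Subgroup.mem_center_iff.mp h a₀
    have h2 := congrArg φ this
    rw [map_mul, map_mul, hφa, hφx] at h2
    exact h2.symm
  have hxaZ : x₁ * a₀ ∉ Subgroup.center S := by
    intro h
    apply q7
    have := Subgroup.mem_center_iff.mp h a₀
    have h2 := congrArg φ this
    simp only [map_mul, hφa, hφx] at h2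
    exact h2.symm
  have haZ : a₀ ^ N' ∉ Subgroup.center S := by
    intro h
    apply q8
    have := Subgroup.mem_center_iff.mp h x₁
    have h2 := congrArg φ this
    rw [map_mul, map_mul, map_pow, hφa, hφx] at h2
    exact h2.symm
  have hzZ : x₁ * x₁ ∈ Subgroup.center S := hW _ (by rw [map_mul, hφx]; exact q1)
  have e1 : x₁ * x₁ = (x₁ * a₀) * (x₁ * a₀) :=
    K2 _ _ hx₁Z hxaZ hzZ (hW _ (by rw [map_mul, map_mul, hφx, hφa]; exact q2))
  have e2 : x₁ * x₁ = a₀ ^ N' * a₀ ^ N' :=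
    K2 _ _ hx₁Z haZ hzZ (hW _ (by rw [map_mul, map_pow, hφa]; exact q3))
  have r1 : x₁ * a₀ = a₀⁻¹ * x₁ := by
    have h1 : x₁ * (a₀ * (x₁ * a₀)) = x₁ * x₁ := by
      rw [← mul_assoc]
      exact e1.symm
    have h2 := mul_left_cancel h1
    exact eq_inv_mul_iff_mul_eq.mpr h2
  have r2 : x₁ * x₁ = a₀ ^ (2 * N') := by rw [e2, ← pow_add, two_mul]
  have r3 : a₀ ^ (2 * N') * a₀ ^ (2 * N') = 1 := by
    rw [← r2]
    exact hsq _ hzZ
  obtain ⟨Q, haQ, hxQ, hQ⟩ := quat_sub a₀ x₁ (2 * N') r1 r2 r3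
  have hQD : ∀ q ∈ Q, q ∈ D' → q = 1 := by
    intro q hq hqD
    obtain ⟨m, hm | hm⟩ := hQ q hq
    · rw [hφ, hm, map_pow, hφa] at hqD
      obtain ⟨t, ht⟩ := q9 m hqD
      have h4 : a₀ ^ (2 * (2 * N')) = 1 := by
        rw [two_mul, pow_add]
        exact r3
      rw [hm, ht, pow_mul, h4, one_pow]
    · exfalso
      rw [hφ, hm, map_mul, map_pow, hφa, hφx] at hqD
      exact q10 m hqD
  have hrep : ∀ g : S, ∃ q ∈ Q, ∃ d ∈ D', g = q * d := by
    intro g
    obtain ⟨m, hm | hm⟩ := quat_rep (2 * N') (φ g)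
    · refine ⟨a₀ ^ m, Subgroup.pow_mem _ haQ m, (a₀ ^ m)⁻¹ * g, ?_, by group⟩
      rw [hφ, map_mul, map_inv, map_pow, hφa, hm, inv_mul_cancel]
    · refine ⟨x₁ * a₀ ^ m, Subgroup.mul_mem _ hxQ (Subgroup.pow_mem _ haQ m),
        (x₁ * a₀ ^ m)⁻¹ * g, ?_, by group⟩
      rw [hφ, map_mul, map_inv, map_mul, map_pow, hφa, hφx, hm, inv_mul_cancel]
  have hDc : ∀ d ∈ D', ∀ g : S, g * d = d * g :=
    fun d hd g => Subgroup.mem_center_iff.mp (hDZ hd) g
  refine ⟨D', Q, ⟨le_top, le_top, fun a ha b _ => (hDc a ha b).symm, ?_, ?_⟩,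
    ⟨⟨⟨fun a b => Subtype.ext (hDc b b.2 a)⟩⟩, fun a ha => ?_⟩, ?_, ?_⟩
  · rw [eq_bot_iff]
    rintro q ⟨hqD, hqQ⟩
    exact Subgroup.mem_bot.mpr (hQD q hqQ hqD)
  · rw [eq_top_iff]
    intro g _
    obtain ⟨q, hq, d, hd, rfl⟩ := hrep g
    exact Subgroup.mul_mem _ (Subgroup.mem_sup_right hq) (Subgroup.mem_sup_left hd)
  · rw [pow_two]
    exact hsq a (hDZ ha)
  · intro hcomm
    apply q6
    have h1 : (⟨x₁, hxQ⟩ : Q) * ⟨a₀, haQ⟩ = ⟨a₀, haQ⟩ * ⟨x₁, hxQ⟩ := hcomm.is_comm.comm _ _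
    have h2 := congrArg (fun q : Q => φ (q : S)) h1
    simp only [Subgroup.coe_mul, map_mul, hφa, hφx] at h2
    exact h2
  · have hzQ : x₁ * x₁ ∈ Q := Subgroup.mul_mem _ hxQ hxQ
    have hz1 : x₁ * x₁ ∉ D' := by
      rw [hφ, map_mul, hφx, q1]
      exact q4
    have hz2 : (x₁ * x₁) * (x₁ * x₁) = 1 := hsq _ hzZ
    refine ⟨⟨x₁ * x₁, hzQ⟩, ?_, ?_⟩
    · apply orderOf_eq_prime
      · apply Subtype.ext
        rw [pow_two]
        exact hz2
      · intro h
        apply hz1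
        have h5 : x₁ * x₁ = 1 := congrArg Subtype.val h
        rw [h5]
        exact Subgroup.one_mem _
    · intro y hy
      have hy2 : (y : S) * (y : S) = 1 := by
        have := pow_orderOf_eq_one y
        rw [hy, pow_two] at this
        exact congrArg Subtype.val this
      have hy1 : (y : S) ≠ 1 := by
        intro h
        have : y = 1 := Subtype.ext h
        rw [this, orderOf_one] at hy
        omega
      have hyD : (y : S) ∉ D' := fun h => hy1 (hQD _ y.2 h)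
      have h3 := inv_unique D' x₀ hx₀u (x₁ * x₁) (y : S) hz1
        (by rw [hz2]; exact Subgroup.one_mem _) hyD (by rw [hy2]; exact Subgroup.one_mem _)
      have h4 := hQD _ (Subgroup.mul_mem _ (Subgroup.inv_mem _ hzQ) y.2) h3
      apply Subtype.ext
      exact (inv_mul_eq_one.mp h4).symm

theorem result {S : Type*} [Group S] [Finite S]
    (hS : IsPGroup 2 S) (n : ℕ) (hn : 2 ≤ n) (C : Fin n → Subgroup ↥(Subgroup.center S))
    (hCmax : ∀ i, IsCoatom (C i)) (hCinj : Function.Injective C) (hCint : ⨅ i, C i = ⊥)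
    (hCq : ∀ i, ∃ (_ : ((C i).map (Subgroup.center S).subtype).Normal),
      ¬ IsMulCommutative (S ⧸ (C i).map (Subgroup.center S).subtype) ∧
      ∃! x : S ⧸ (C i).map (Subgroup.center S).subtype, orderOf x = 2) :
    ∃ E Q : Subgroup S, Cfsg.IsInternalDirectProduct E Q ⊤ ∧ Cfsg.IsElementaryAbelian 2 E ∧
      ¬ IsMulCommutative ↥Q ∧ ∃! x : ↥Q, orderOf x = 2 := by
  classical
  haveI : Fact (Nat.Prime 2) := ⟨Nat.prime_two⟩
  have hDmem : ∀ i (g : S) (hg : g ∈ Subgroup.center S),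
      g ∈ (C i).map (Subgroup.center S).subtype ↔ (⟨g, hg⟩ : Subgroup.center S) ∈ C i := by
    intro i g hg
    constructor
    · rintro ⟨w, hw, rfl⟩
      exact hw
    · intro h
      exact ⟨⟨g, hg⟩, h, rfl⟩
  have hDZ : ∀ i, (C i).map (Subgroup.center S).subtype ≤ Subgroup.center S := by
    rintro i _ ⟨w, -, rfl⟩
    exact w.2
  have hidx : ∀ i, (C i).index = 2 := fun i =>
    (Cfsg.Agent.Lib.Helper1.coatom_normal_index_of_isPGroup 2 (hS.to_subgroup _) (C i)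
      (hCmax i)).2
  have G1 : ∀ i, ∀ u ∈ Subgroup.center S, ∀ v ∈ Subgroup.center S,
      u ∉ (C i).map (Subgroup.center S).subtype → v ∉ (C i).map (Subgroup.center S).subtype →
      u⁻¹ * v ∈ (C i).map (Subgroup.center S).subtype := by
    intro i u hu v hv hu' hv'
    rw [hDmem i u hu] at hu'
    rw [hDmem i v hv] at hv'
    rw [hDmem i _ (Subgroup.mul_mem _ (Subgroup.inv_mem _ hu) hv)]
    exact (Subgroup.mul_mem_iff_of_index_two (hidx i)
      (a := (⟨u, hu⟩ : Subgroup.center S)⁻¹) (b := ⟨v, hv⟩)).mpr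
      ⟨fun h => absurd ((Subgroup.inv_mem_iff _).mp h) hu', fun h => absurd h hv'⟩
  have G2 : ∀ i, ∀ u ∈ Subgroup.center S, u * u ∈ (C i).map (Subgroup.center S).subtype := by
    intro i u hu
    rw [hDmem i _ (Subgroup.mul_mem _ hu hu)]
    exact Subgroup.mul_self_mem_of_index_two (hidx i) ⟨u, hu⟩
  have G3 : ∀ w ∈ Subgroup.center S, (∀ i, w ∈ (C i).map (Subgroup.center S).subtype) →
      w = 1 := by
    intro w hw h
    have h1 : (⟨w, hw⟩ : Subgroup.center S) ∈ ⨅ i, C i := by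
      rw [Subgroup.mem_iInf]
      intro i
      exact (hDmem i w hw).mp (h i)
    rw [hCint, Subgroup.mem_bot] at h1
    exact congrArg Subtype.val h1
  have hu_ex : ∀ i, ∃ u ∈ Subgroup.center S, u ∉ (C i).map (Subgroup.center S).subtype := by
    intro i
    by_contra hcon
    push Not at hcon
    apply (hCmax i).1
    rw [eq_top_iff]
    intro w _
    exact (hDmem i w w.2).mp (hcon w w.2)
  have K : ∀ i, ∀ g : S, g ∉ Subgroup.center S →
      g * g ∉ (C i).map (Subgroup.center S).subtype := by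
    intro i g hg hgg
    obtain ⟨hn, -, x₀, -, hx₀u⟩ := hCq i
    haveI := hn
    obtain ⟨u, hu, hu'⟩ := hu_ex i
    have h1 := inv_unique _ x₀ (fun y hy => hx₀u y hy) u g hu' (G2 i u hu)
      (fun h => hg (hDZ i h)) hgg
    apply hg
    have h2 := Subgroup.mul_mem _ hu (hDZ i h1)
    rwa [mul_inv_cancel_left] at h2
  have K2 : ∀ g h : S, g ∉ Subgroup.center S → h ∉ Subgroup.center S →
      g * g ∈ Subgroup.center S → h * h ∈ Subgroup.center S → g * g = h * h := by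
    intro g h hg hh hgg hhh
    have h1 := G3 ((g * g)⁻¹ * (h * h)) (Subgroup.mul_mem _ (Subgroup.inv_mem _ hgg) hhh)
      (fun i => G1 i _ hgg _ hhh (K i g hg) (K i h hh))
    exact inv_mul_eq_one.mp h1
  have hsq : ∀ w ∈ Subgroup.center S, w * w = 1 := fun w hw =>
    G3 _ (Subgroup.mul_mem _ hw hw) (fun i => G2 i w hw)
  obtain ⟨i₀⟩ : Nonempty (Fin n) := ⟨⟨0, by omega⟩⟩
  obtain ⟨hn, hnc, x₀, hx₀, hx₀u⟩ := hCq i₀
  haveI := hn
  obtain ⟨u, hu, hu'⟩ := hu_ex i₀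
  exact core hS _ (hDZ i₀) hnc x₀ hx₀ (fun y hy => hx₀u y hy) u hu hu' (G2 i₀ u hu) K2 hsq

end Cfsg.Agent.S3201
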