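import Cfsg.Statements.S3202
import Mathlib
import Cfsg.Agent.Lib.Helper1.UniqP

set_option autoImplicit false
open Cfsg

namespace Cfsg.Agent.S3202

open QuaternionGroup in
theorem quat_rel (n : ℕ) :
    (xa 0 : QuaternionGroup n) * a 1 * (xa 0)⁻¹ = (a 1)⁻¹ := by
  have e1 : (xa 0 : QuaternionGroup n)⁻¹ = xa (n + 0) := rfl
  have e2 : (a 1 : QuaternionGroup n)⁻¹ = a (-1) := rfl
  rw [e1, e2, xa_mul_a, xa_mul_xa]
  congr 1
  have h0 := ZMod.natCast_self (2 * n)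
  push_cast at h0
  linear_combination h0

open QuaternionGroup in
theorem quat_rep (n : ℕ) [NeZero n] (q : QuaternionGroup n) :
    ∃ m : ℕ, q = (a 1) ^ m ∨ q = xa 0 * (a 1) ^ m := by
  haveI : NeZero (2 * n) := ⟨by have := NeZero.ne n; omega⟩
  rcases q with i | i
  · refine ⟨i.val, Or.inl ?_⟩
    rw [a_one_pow, ZMod.natCast_zmod_val]
  · refine ⟨i.val, Or.inr ?_⟩
    rw [a_one_pow, ZMod.natCast_zmod_val, xa_mul_a, zero_add]

theorem aux {S : Type*} [Group S] [Finite S] (hS : IsPGroup 2 S) (D' : Subgroup S) [D'.Normal]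
    (hDc : ∀ d ∈ D', ∀ g : S, g * d = d * g)
    (hnc : ¬ IsMulCommutative (S ⧸ D'))
    (x₀ : S ⧸ D') (hx₀ : orderOf x₀ = 2) (hx₀u : ∀ y : S ⧸ D', orderOf y = 2 → y = x₀) :
    ∃ C : Subgroup S, C ≠ ⊥ ∧ IsCyclic ↥C ∧ C.Characteristic := by
  classical
  haveI : Fact (Nat.Prime 2) := ⟨Nat.prime_two⟩
  have hM : IsPGroup 2 (S ⧸ D') := hS.to_quotient D'
  have hgen : ∀ H : Subgroup (S ⧸ D'), Nat.card H = 2 → H = Subgroup.zpowers x₀ := by
    intro H hH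
    have hHbot : H ≠ ⊥ := by
      rintro rfl
      rw [Subgroup.card_bot] at hH
      omega
    obtain ⟨a, ha⟩ := (Subgroup.ne_bot_iff_exists_ne_one).1 hHbot
    have ha2 : a ^ 2 = 1 := by
      have := pow_card_eq_one' (G := H) (x := a)
      rwa [hH] at this
    have ha1 : (a : S ⧸ D') ≠ 1 := fun h => ha (Subtype.ext h)
    have ha2' : (a : S ⧸ D') ^ 2 = 1 := by
      have := congrArg Subtype.val ha2
      simpa using this
    have ho : orderOf (a : S ⧸ D') = 2 := orderOf_eq_prime ha2' ha1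
    have hax := hx₀u _ ho
    symm
    apply Subgroup.eq_of_le_of_card_ge
    · rw [Subgroup.zpowers_le, ← hax]
      exact a.2
    · rw [Nat.card_zpowers, hx₀, hH]
  have huniq : ∀ H K : Subgroup (S ⧸ D'), Nat.card H = 2 → Nat.card K = 2 → H = K := by
    intro H K hH hK
    rw [hgen H hH, hgen K hK]
  rcases Cfsg.Agent.Lib.Helper1.UniqP.cyclic_or_quat hM huniq with hcyc | ⟨-, k, ⟨e⟩⟩
  · exfalso
    apply hnc
    obtain ⟨g, hg⟩ := hcyc.exists_generator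
    refine ⟨⟨fun u v => ?_⟩⟩
    obtain ⟨i, rfl⟩ := Subgroup.mem_zpowers_iff.mp (hg u)
    obtain ⟨j, rfl⟩ := Subgroup.mem_zpowers_iff.mp (hg v)
    rw [← zpow_add, ← zpow_add, add_comm]
  · haveI : NeZero (2 ^ k) := ⟨by positivity⟩
    obtain ⟨a₀, ha₀⟩ := QuotientGroup.mk_surjective (s := D') (e.symm (QuaternionGroup.a 1))
    obtain ⟨x₁, hx₁⟩ := QuotientGroup.mk_surjective (s := D') (e.symm (QuaternionGroup.xa 0))
    have hrel : (x₁ * a₀ * x₁⁻¹ * a₀ : S) ∈ D' := by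
      have h1 : e.symm (QuaternionGroup.xa 0) * e.symm (QuaternionGroup.a 1) *
          (e.symm (QuaternionGroup.xa 0))⁻¹ = (e.symm (QuaternionGroup.a 1))⁻¹ := by
        rw [← map_inv, ← map_mul, ← map_mul, quat_rel, map_inv]
      rw [← QuotientGroup.eq_one_iff, QuotientGroup.mk_mul, QuotientGroup.mk_mul,
        QuotientGroup.mk_mul, QuotientGroup.mk_inv, ha₀, hx₁, h1, inv_mul_cancel]
    obtain ⟨d₁, hd₁⟩ : ∃ d₁, d₁ = x₁ * a₀ * x₁⁻¹ * a₀ := ⟨_, rfl⟩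
    rw [← hd₁] at hrel
    have hd₁c : ∀ g : S, g * d₁ = d₁ * g := hDc d₁ hrel
    have hxa : x₁ * a₀ * x₁⁻¹ = d₁ * a₀⁻¹ := by rw [hd₁]; group
    obtain ⟨c, hc⟩ : ∃ c, c = d₁ * a₀⁻¹ * a₀⁻¹ := ⟨_, rfl⟩
    have hc' : x₁ * a₀ * x₁⁻¹ * a₀⁻¹ = c := by rw [hc, hxa]
    have hca : Commute a₀ c := by
      have : a₀ * c = c * a₀ := by
        calc a₀ * c = (a₀ * d₁) * a₀⁻¹ * a₀⁻¹ := by rw [hc]; group
          _ = d₁ * a₀ * a₀⁻¹ * a₀⁻¹ := by rw [hd₁c a₀]
          _ = c * a₀ := by rw [hc]; group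
      exact this
    have hcx : x₁ * c * x₁⁻¹ = c⁻¹ := by
      have hd' : a₀ * d₁⁻¹ = d₁⁻¹ * a₀ := by
        calc a₀ * d₁⁻¹ = d₁⁻¹ * (d₁ * a₀) * d₁⁻¹ := by group
          _ = d₁⁻¹ * (a₀ * d₁) * d₁⁻¹ := by rw [hd₁c a₀]
          _ = d₁⁻¹ * a₀ := by group
      have hxd : x₁ * d₁ * x₁⁻¹ = d₁ := by rw [hd₁c x₁]; group
      calc x₁ * c * x₁⁻¹ = (x₁ * d₁ * x₁⁻¹) * (x₁ * a₀ * x₁⁻¹)⁻¹ * (x₁ * a₀ * x₁⁻¹)⁻¹ := by
            rw [hc]; group
        _ = d₁ * (d₁ * a₀⁻¹)⁻¹ * (d₁ * a₀⁻¹)⁻¹ := by rw [hxd, hxa]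
        _ = d₁ * (a₀ * d₁⁻¹) * a₀ * d₁⁻¹ := by group
        _ = d₁ * (d₁⁻¹ * a₀) * a₀ * d₁⁻¹ := by rw [hd']
        _ = c⁻¹ := by rw [hc]; simp [mul_assoc]
    have hrep : ∀ g : S, ∃ n : ℕ, ∃ d ∈ D', g = a₀ ^ n * d ∨ g = x₁ * (a₀ ^ n * d) := by
      intro g
      obtain ⟨m, hm⟩ := quat_rep (2 ^ k) (e (g : S ⧸ D'))
      rcases hm with hm | hm
      · have h1 : (g : S ⧸ D') = ((a₀ ^ m : S) : S ⧸ D') := by
          rw [QuotientGroup.mk_pow, ha₀, ← map_pow, ← hm, e.symm_apply_apply]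
        refine ⟨m, (a₀ ^ m)⁻¹ * g, ?_, Or.inl (by group)⟩
        exact QuotientGroup.eq.mp h1.symm
      · have h1 : (g : S ⧸ D') = ((x₁ * a₀ ^ m : S) : S ⧸ D') := by
          rw [QuotientGroup.mk_mul, QuotientGroup.mk_pow, ha₀, hx₁, ← map_pow, ← map_mul, ← hm,
            e.symm_apply_apply]
        refine ⟨m, (x₁ * a₀ ^ m)⁻¹ * g, ?_, Or.inr (by group)⟩
        exact QuotientGroup.eq.mp h1.symm
    have hconj : ∀ g : S, g * c * g⁻¹ = c ∨ g * c * g⁻¹ = c⁻¹ := by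
      intro g
      obtain ⟨n, d, hd, hg⟩ := hrep g
      have h0 : Commute (a₀ ^ n * d) c :=
        (hca.pow_left n).mul_left (hDc d hd c).symm
      have h1 : (a₀ ^ n * d) * c * (a₀ ^ n * d)⁻¹ = c := by
        rw [h0.eq, mul_inv_cancel_right]
      rcases hg with hg | hg
      · left
        rw [hg, h1]
      · right
        rw [hg]
        calc x₁ * (a₀ ^ n * d) * c * (x₁ * (a₀ ^ n * d))⁻¹
            = x₁ * ((a₀ ^ n * d) * c * (a₀ ^ n * d)⁻¹) * x₁⁻¹ := by group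
          _ = c⁻¹ := by rw [h1, hcx]
    obtain ⟨Z, hZ⟩ : ∃ Z, Z = Subgroup.zpowers c := ⟨_, rfl⟩
    have hZn : Z.Normal := by
      refine ⟨fun y hy g => ?_⟩
      rw [hZ] at hy ⊢
      obtain ⟨j, rfl⟩ := Subgroup.mem_zpowers_iff.mp hy
      rw [← conj_zpow]
      rcases hconj g with h | h
      · rw [h]
        exact Subgroup.zpow_mem_zpowers c j
      · rw [h]
        exact Subgroup.zpow_mem _ (Subgroup.inv_mem _ (Subgroup.mem_zpowers c)) j
    haveI := hZn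
    have hαξ : Commute (x₁ : S ⧸ Z) (a₀ : S ⧸ Z) := by
      have h1 : ((x₁ * a₀ * x₁⁻¹ * a₀⁻¹ : S) : S ⧸ Z) = 1 := by
        rw [QuotientGroup.eq_one_iff, hc', hZ]
        exact Subgroup.mem_zpowers c
      rw [QuotientGroup.mk_mul, QuotientGroup.mk_mul, QuotientGroup.mk_mul, QuotientGroup.mk_inv,
        QuotientGroup.mk_inv] at h1
      have h2 := mul_inv_eq_one.mp h1
      exact mul_inv_eq_iff_eq_mul.mp h2
    have hcentral : ∀ d ∈ D', ∀ u : S ⧸ Z, Commute (d : S ⧸ Z) u := by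
      intro d hd u
      obtain ⟨g, rfl⟩ := QuotientGroup.mk_surjective u
      have : ((d * g : S) : S ⧸ Z) = ((g * d : S) : S ⧸ Z) := congrArg _ (hDc d hd g).symm
      exact this
    have hcomm1 : ∀ g : S, Commute (g : S ⧸ Z) (a₀ : S ⧸ Z) ∧
        Commute (g : S ⧸ Z) (x₁ : S ⧸ Z) := by
      intro g
      obtain ⟨n, d, hd, hg⟩ := hrep g
      have h1 : Commute (((a₀ ^ n * d : S)) : S ⧸ Z) (a₀ : S ⧸ Z) := by
        rw [QuotientGroup.mk_mul, QuotientGroup.mk_pow]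
        exact ((Commute.refl _).pow_left n).mul_left (hcentral d hd _)
      have h2 : Commute (((a₀ ^ n * d : S)) : S ⧸ Z) (x₁ : S ⧸ Z) := by
        rw [QuotientGroup.mk_mul, QuotientGroup.mk_pow]
        exact (hαξ.symm.pow_left n).mul_left (hcentral d hd _)
      rcases hg with hg | hg
      · rw [hg]
        exact ⟨h1, h2⟩
      · rw [hg, QuotientGroup.mk_mul]
        exact ⟨hαξ.mul_left h1, (Commute.refl _).mul_left h2⟩
    have hcomm2 : ∀ g h : S, Commute (g : S ⧸ Z) (h : S ⧸ Z) := by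
      intro g h
      obtain ⟨n, d, hd, hh⟩ := hrep h
      have h1 : Commute (g : S ⧸ Z) (((a₀ ^ n * d : S)) : S ⧸ Z) := by
        rw [QuotientGroup.mk_mul, QuotientGroup.mk_pow]
        exact ((hcomm1 g).1.pow_right n).mul_right (hcentral d hd _).symm
      rcases hh with hh | hh
      · rw [hh]
        exact h1
      · rw [hh, QuotientGroup.mk_mul]
        exact (hcomm1 g).2.mul_right h1
    have hCZ : ⁅(⊤ : Subgroup S), ⊤⁆ ≤ Z := by
      rw [Subgroup.commutator_le]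
      intro g _ h _
      rw [commutatorElement_def, ← QuotientGroup.eq_one_iff (N := Z), QuotientGroup.mk_mul,
        QuotientGroup.mk_mul, QuotientGroup.mk_mul, QuotientGroup.mk_inv, QuotientGroup.mk_inv,
        (hcomm2 g h).eq, mul_inv_cancel_right, mul_inv_cancel]
    refine ⟨⁅(⊤ : Subgroup S), ⊤⁆, ?_, ?_, inferInstance⟩
    · intro hbot
      apply hnc
      refine ⟨⟨fun u v => ?_⟩⟩
      obtain ⟨g, rfl⟩ := QuotientGroup.mk_surjective u
      obtain ⟨h, rfl⟩ := QuotientGroup.mk_surjective v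
      have h1 := Subgroup.commutator_mem_commutator (Subgroup.mem_top g) (Subgroup.mem_top h)
      rw [hbot, Subgroup.mem_bot, commutatorElement_eq_one_iff_mul_comm] at h1
      rw [← QuotientGroup.mk_mul, ← QuotientGroup.mk_mul, h1]
    · have hZc : IsCyclic Z := by
        rw [hZ]
        infer_instance
      have e1 := Subgroup.subgroupOfEquivOfLe hCZ
      exact isCyclic_of_surjective e1 e1.surjective

theorem result {S : Type*} [Group S]
    [Finite S] (hS : IsPGroup 2 S) (hr2 : Cfsg.PRankLE 2 2 S) (hr1 : ¬ Cfsg.PRankLE 2 1 S)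
    (D : Subgroup ↥(Subgroup.center S)) (hD : IsCoatom D)
    (hq : ∃ (_ : (D.map (Subgroup.center S).subtype).Normal),
      ¬ IsMulCommutative (S ⧸ D.map (Subgroup.center S).subtype) ∧
      ∃! x : S ⧸ D.map (Subgroup.center S).subtype, orderOf x = 2) :
    ∃ C : Subgroup S, C ≠ ⊥ ∧ IsCyclic ↥C ∧ C.Characteristic := by
  obtain ⟨hn, hnc, x₀, hx₀, hu⟩ := hq
  haveI := hn
  refine aux hS _ ?_ hnc x₀ hx₀ (fun y hy => hu y hy)
  rintro d ⟨z, -, rfl⟩ g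
  exact Subgroup.mem_center_iff.mp z.2 g

end Cfsg.Agent.S3202
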