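import Cfsg.Statements.S3208
import Mathlib

set_option autoImplicit false
open Cfsg

namespace Cfsg.Agent.S3208

theorem result {G : Type*} [Group G] [Finite G]
    (j : G) (hj : orderOf j = 2) (H T : Subgroup G) (hT : T ≤ H ⊓ Subgroup.centralizer ({j} : Set G)) (h2 : IsPGroup 2 ↥T)
    (hSyl : ¬ 2 ∣ T.relIndex (H ⊓ Subgroup.centralizer ({j} : Set G))) (hjT : j ∈ T)
    (hchar : ((Subgroup.zpowers j).subgroupOf T).Characteristic) :
    ¬ 2 ∣ T.relIndex H := by
  intro hdvd
  have hfact : Fact (Nat.Prime 2) := ⟨Nat.prime_two⟩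
  have hTH : T ≤ H := hT.trans inf_le_left
  obtain ⟨n, hn⟩ := IsPGroup.iff_card.mp h2
  have hcardT' : Nat.card (T.subgroupOf H) = 2 ^ n := by
    rw [← hn]
    exact Nat.card_congr (Subgroup.subgroupOfEquivOfLe hTH).toEquiv
  have hdvd2 : 2 ^ (n + 1) ∣ Nat.card H := by
    rw [← Subgroup.card_mul_index (T.subgroupOf H), hcardT', pow_succ]
    exact Nat.mul_dvd_mul_left _ hdvd
  obtain ⟨K, hKcard, hKle⟩ := Sylow.exists_subgroup_card_pow_succ hdvd2 hcardT'
  have hTT' : T ≤ K.map H.subtype := by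
    intro t ht
    exact ⟨⟨t, hTH ht⟩, hKle (Subgroup.mem_subgroupOf.mpr ht), rfl⟩
  have hT'H : K.map H.subtype ≤ H := Subgroup.map_subtype_le K
  have hcardT'' : Nat.card (K.map H.subtype) = 2 ^ (n + 1) := by
    rw [Subgroup.card_map_of_injective (Subgroup.subtype_injective _), hKcard]
  generalize K.map H.subtype = T' at hTT' hT'H hcardT''
  have hrel : T.relIndex T' = 2 := by
    have h3 := Subgroup.card_mul_index (T.subgroupOf T')
    rw [Nat.card_congr (Subgroup.subgroupOfEquivOfLe hTT').toEquiv, hn, hcardT'', pow_succ] at h3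
    exact Nat.eq_of_mul_eq_mul_left (by positivity) h3
  have hnorm : (T.subgroupOf T').Normal := Subgroup.normal_of_index_eq_two hrel
  have hconj : ∀ x ∈ T', ∀ t ∈ T, x * t * x⁻¹ ∈ T := by
    intro x hx t ht
    exact hnorm.conj_mem ⟨t, hTT' ht⟩ (Subgroup.mem_subgroupOf.mpr ht) ⟨x, hx⟩
  have hcent : T' ≤ Subgroup.centralizer ({j} : Set G) := by
    intro x hx
    have hxT : ∀ t ∈ T, x * t * x⁻¹ ∈ T := hconj x hx
    have hxT' : ∀ t ∈ T, x⁻¹ * t * x ∈ T := by
      intro t ht
      have h4 := hconj x⁻¹ (Subgroup.inv_mem _ hx) t ht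
      simpa using h4
    let φ : ↥T ≃* ↥T :=
      { toFun := fun t => ⟨x * t * x⁻¹, hxT t t.2⟩
        invFun := fun t => ⟨x⁻¹ * t * x, hxT' t t.2⟩
        left_inv := fun t => by ext; simp [mul_assoc]
        right_inv := fun t => by ext; simp [mul_assoc]
        map_mul' := fun a b => by ext; simp [mul_assoc] }
    have hfix := hchar.fixed φ
    have hj1 : (⟨j, hjT⟩ : T) ∈ (Subgroup.zpowers j).subgroupOf T :=
      Subgroup.mem_subgroupOf.mpr (Subgroup.mem_zpowers j)
    rw [← hfix] at hj1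
    have hj2 : x * j * x⁻¹ ∈ Subgroup.zpowers j := hj1
    obtain ⟨k, hk⟩ := Subgroup.mem_zpowers_iff.mp hj2
    have hj2' : j ^ (2 : ℤ) = 1 := by
      have h5 := pow_orderOf_eq_one j
      rw [hj] at h5
      exact_mod_cast h5
    rw [Subgroup.mem_centralizer_iff]
    intro y hy
    rw [Set.mem_singleton_iff] at hy
    subst hy
    rcases Int.even_or_odd' k with ⟨c, rfl | rfl⟩
    · exfalso
      rw [zpow_mul, hj2', one_zpow] at hk
      have hj1' : y = 1 := by
        have h6 := congrArg (fun z => x⁻¹ * z * x) hk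
        simpa [mul_assoc] using h6.symm
      rw [hj1', orderOf_one] at hj
      norm_num at hj
    · rw [zpow_add, zpow_mul, hj2', one_zpow, one_mul, zpow_one] at hk
      have h7 := congrArg (fun z => z * x) hk
      simpa [mul_assoc] using h7
  have hT'le : T' ≤ H ⊓ Subgroup.centralizer ({j} : Set G) := le_inf hT'H hcent
  apply hSyl
  rw [← Subgroup.relIndex_mul_relIndex T T' _ hTT' hT'le, hrel]
  exact dvd_mul_right 2 _

end Cfsg.Agent.S3208
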