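import Cfsg.Statements.S3209
import Mathlib
import Cfsg.Agent.Lib.Helper8.SL2
import Cfsg.Agent.Lib.Helper1.SL2Syl
import Cfsg.Agent.Lib.Helper2.CoprimeAct2

set_option autoImplicit false
open Cfsg

namespace Cfsg.Agent.S3209

open Matrix Cfsg.Agent.Lib.Helper8.SL2 Cfsg.Agent.Lib.Helper1.SL2Syl

theorem sum_sq {F : Type*} [Field F] [Fintype F] (hF : Odd (Fintype.card F)) (e : F) :
    ∃ x y : F, x ^ 2 + y ^ 2 = e := by
  obtain ⟨a, b, hab⟩ := FiniteField.exists_root_sum_quadratic (R := F)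
    (f := Polynomial.X ^ 2) (g := Polynomial.X ^ 2 - Polynomial.C e)
    (Polynomial.degree_X_pow 2) (Polynomial.degree_X_pow_sub_C (by norm_num) e)
    (Nat.odd_iff.1 hF)
  refine ⟨a, b, ?_⟩
  simp only [Polynomial.eval_pow, Polynomial.eval_X, Polynomial.eval_sub, Polynomial.eval_C] at hab
  linear_combination hab

theorem conjX {F : Type*} [Field F] [Fintype F] (hF : Odd (Fintype.card F))
    (m : SpecialLinearGroup (Fin 2) F)
    (h00 : m.1 0 0 * m.1 0 0 + m.1 0 1 * m.1 1 0 = -1)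
    (h11 : m.1 1 0 * m.1 0 1 + m.1 1 1 * m.1 1 1 = -1) :
    ∃ g : SpecialLinearGroup (Fin 2) F, m * g = g * qX := by
  have h2 : (2 : F) ≠ 0 := two_ne_zero_of_odd hF
  have hdet := det_eq m
  obtain ⟨a, ha⟩ : ∃ a, a = m.1 0 0 := ⟨_, rfl⟩
  obtain ⟨b, hb⟩ : ∃ b, b = m.1 0 1 := ⟨_, rfl⟩
  obtain ⟨c, hc⟩ : ∃ c, c = m.1 1 0 := ⟨_, rfl⟩
  obtain ⟨d, hd⟩ : ∃ d, d = m.1 1 1 := ⟨_, rfl⟩
  rw [← ha, ← hb, ← hc, ← hd] at hdet
  rw [← ha, ← hb, ← hc] at h00
  rw [← hb, ← hc, ← hd] at h11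
  have had : a + d = 0 := by
    have : (a + d) ^ 2 = 0 := by linear_combination h00 + h11 + 2 * hdet
    exact pow_eq_zero_iff (by norm_num) |>.mp this
  have hQ : ∃ s t : F, s * (-(c * s + d * t)) - (-(a * s + b * t)) * t = 1 := by
    by_cases hc0 : c = 0
    · have ha0 : a ≠ 0 := by
        rintro rfl
        rw [hc0] at h00
        norm_num at h00
      refine ⟨(1 - b) / (2 * a), 1, ?_⟩
      have hs : 2 * a * ((1 - b) / (2 * a)) = 1 - b := by field_simp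
      linear_combination hs - ((1 - b) / (2 * a)) ^ 2 * hc0 - ((1 - b) / (2 * a)) * had
    · obtain ⟨x, t, hxy⟩ := sum_sq hF (-c)
      refine ⟨(x + a * t) / c, t, ?_⟩
      have hs : c * ((x + a * t) / c) = x + a * t := by field_simp
      apply mul_left_cancel₀ hc0
      linear_combination (-c * ((x + a * t) / c) - (x + a * t) + (a - d) * t) * hs - hxy -
        (x * t) * had - t ^ 2 * hdet
  obtain ⟨s, t, hst⟩ := hQ
  obtain ⟨g, hg⟩ : ∃ g : SpecialLinearGroup (Fin 2) F,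
      g.1 = !![s, -(a * s + b * t); t, -(c * s + d * t)] :=
    ⟨⟨_, by rw [Matrix.det_fin_two_of]; exact hst⟩, rfl⟩
  have g00 : g.1 0 0 = s := by rw [hg]; rfl
  have g01 : g.1 0 1 = -(a * s + b * t) := by rw [hg]; rfl
  have g10 : g.1 1 0 = t := by rw [hg]; rfl
  have g11 : g.1 1 1 = -(c * s + d * t) := by rw [hg]; rfl
  have x00 : (qX : SpecialLinearGroup (Fin 2) F).1 0 0 = 0 := rfl
  have x01 : (qX : SpecialLinearGroup (Fin 2) F).1 0 1 = 1 := rfl
  have x10 : (qX : SpecialLinearGroup (Fin 2) F).1 1 0 = -1 := rfl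
  have x11 : (qX : SpecialLinearGroup (Fin 2) F).1 1 1 = 0 := rfl
  refine ⟨g, sl2_ext ?_ ?_ ?_ ?_⟩
  · rw [mul00, mul00, g00, g01, g10, x00, x10, ← ha, ← hb]
    ring
  · rw [mul01, mul01, g00, g01, g11, x01, x11, ← ha, ← hb]
    linear_combination (-s) * h00 - (b * t) * had
  · rw [mul10, mul10, g00, g10, g11, x00, x10, ← hc, ← hd]
    ring
  · rw [mul11, mul11, g01, g10, g11, x01, x11, ← hc, ← hd]
    linear_combination (-(c * s)) * had - t * h11

theorem sl2_QP {F : Type*} [Field F] [Fintype F] (hF : Odd (Fintype.card F)) :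
    ∃ z : SpecialLinearGroup (Fin 2) F, z ≠ 1 ∧ z * z = 1 ∧
      (∀ m : SpecialLinearGroup (Fin 2) F, m * m = 1 → m = 1 ∨ m = z) ∧
      (∃ w : SpecialLinearGroup (Fin 2) F, w * w = z) ∧
      (∀ m m' : SpecialLinearGroup (Fin 2) F, m * m = z → m' * m' = z →
        ∃ g : SpecialLinearGroup (Fin 2) F, g * m * g⁻¹ = m') := by
  have h2 : (2 : F) ≠ 0 := two_ne_zero_of_odd hF
  have x00 : (qX : SpecialLinearGroup (Fin 2) F).1 0 0 = 0 := rfl
  have x01 : (qX : SpecialLinearGroup (Fin 2) F).1 0 1 = 1 := rfl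
  have x10 : (qX : SpecialLinearGroup (Fin 2) F).1 1 0 = -1 := rfl
  have x11 : (qX : SpecialLinearGroup (Fin 2) F).1 1 1 = 0 := rfl
  obtain ⟨z, hz⟩ : ∃ z : SpecialLinearGroup (Fin 2) F, z = qX * qX := ⟨_, rfl⟩
  have z00 : z.1 0 0 = -1 := by rw [hz, mul00, x00, x01, x10]; ring
  have z01 : z.1 0 1 = 0 := by rw [hz, mul01, x00, x01, x11]; ring
  have z10 : z.1 1 0 = 0 := by rw [hz, mul10, x00, x10, x11]; ring
  have z11 : z.1 1 1 = -1 := by rw [hz, mul11, x01, x10, x11]; ring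
  have hzval : z.1 = -1 := by
    ext i j
    fin_cases i <;> fin_cases j
    · simpa using z00
    · simpa using z01
    · simpa using z10
    · simpa using z11
  have hcx : ∀ m : SpecialLinearGroup (Fin 2) F, m * m = z →
      ∃ g : SpecialLinearGroup (Fin 2) F, m * g = g * qX := by
    intro m hm
    apply conjX hF m
    · rw [← mul00, hm, z00]
    · rw [← mul11, hm, z11]
  refine ⟨z, ?_, ?_, ?_, ⟨qX, hz.symm⟩, ?_⟩
  · intro h
    have h1 := z00
    rw [h, one00] at h1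
    apply h2
    linear_combination h1
  · apply sl2_ext
    · rw [mul00, z00, z01, z10, one00]; ring
    · rw [mul01, z00, z01, z11, one01]; ring
    · rw [mul10, z00, z10, z11, one10]; ring
    · rw [mul11, z01, z10, z11, one11]; ring
  · intro m hm
    rcases sl2_invol h2 m hm with h | h
    · left
      exact Subtype.ext h
    · right
      apply Subtype.ext
      rw [hzval]
      exact h
  · intro m m' hm hm'
    obtain ⟨g, hg⟩ := hcx m hm
    obtain ⟨g', hg'⟩ := hcx m' hm'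
    refine ⟨g' * g⁻¹, ?_⟩
    have e1 : g⁻¹ * m * g = qX := by rw [mul_assoc, hg, inv_mul_cancel_left]
    calc g' * g⁻¹ * m * (g' * g⁻¹)⁻¹ = g' * (g⁻¹ * m * g) * g'⁻¹ := by group
      _ = g' * qX * g'⁻¹ := by rw [e1]
      _ = m' := by rw [← hg', mul_inv_cancel_right]

theorem sub_QP {G : Type*} [Group G] {F : Type*} [Field F] [Fintype F]
    (hF : Odd (Fintype.card F)) (L : Subgroup G) (e : ↥L ≃* SpecialLinearGroup (Fin 2) F)
    (j : G) (hj : orderOf j = 2) (hjL : j ∈ L) :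
    (∀ m ∈ L, m * m = 1 → m = 1 ∨ m = j) ∧ (∃ w ∈ L, w * w = j) ∧
      (∀ m ∈ L, ∀ m' ∈ L, m * m = j → m' * m' = j → ∃ g ∈ L, g * m * g⁻¹ = m') := by
  obtain ⟨z, hz1, hzz, hinv, ⟨w, hw⟩, hconj⟩ := sl2_QP hF
  have hjj : j * j = 1 := by
    have := pow_orderOf_eq_one j
    rwa [hj, pow_two] at this
  have hj1 : j ≠ 1 := by
    intro h
    rw [h, orderOf_one] at hj
    omega
  have hjz : e ⟨j, hjL⟩ = z := by
    have h1 : e ⟨j, hjL⟩ * e ⟨j, hjL⟩ = 1 := by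
      rw [← map_mul]
      have : (⟨j, hjL⟩ : L) * ⟨j, hjL⟩ = 1 := Subtype.ext hjj
      rw [this, map_one]
    rcases hinv _ h1 with h | h
    · exfalso
      apply hj1
      have := e.injective (h.trans (map_one e).symm)
      exact congrArg Subtype.val this
    · exact h
  refine ⟨?_, ?_, ?_⟩
  · intro m hmL hmm
    have h1 : e ⟨m, hmL⟩ * e ⟨m, hmL⟩ = 1 := by
      rw [← map_mul]
      have : (⟨m, hmL⟩ : L) * ⟨m, hmL⟩ = 1 := Subtype.ext hmm
      rw [this, map_one]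
    rcases hinv _ h1 with h | h
    · left
      have := e.injective (h.trans (map_one e).symm)
      exact congrArg Subtype.val this
    · right
      have := e.injective (h.trans hjz.symm)
      exact congrArg Subtype.val this
  · refine ⟨(e.symm w : L), (e.symm w).2, ?_⟩
    have h1 : e (e.symm w * e.symm w) = e ⟨j, hjL⟩ := by
      rw [map_mul, e.apply_symm_apply, hw, hjz]
    have := e.injective h1
    exact congrArg Subtype.val this
  · intro m hmL m' hm'L hmm hmm'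
    have h1 : e ⟨m, hmL⟩ * e ⟨m, hmL⟩ = z := by
      rw [← map_mul, ← hjz]
      congr 1
      exact Subtype.ext hmm
    have h2 : e ⟨m', hm'L⟩ * e ⟨m', hm'L⟩ = z := by
      rw [← map_mul, ← hjz]
      congr 1
      exact Subtype.ext hmm'
    obtain ⟨g, hg⟩ := hconj _ _ h1 h2
    refine ⟨(e.symm g : L), (e.symm g).2, ?_⟩
    have h3 : e (e.symm g * ⟨m, hmL⟩ * (e.symm g)⁻¹) = e ⟨m', hm'L⟩ := by
      rw [map_mul, map_mul, map_inv, e.apply_symm_apply, hg]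
    have := e.injective h3
    exact congrArg Subtype.val this

theorem result {G : Type*} [Group G] [Finite G]
    {F₁ : Type*} [Field F₁] [Fintype F₁] {F₂ : Type*} [Field F₂] [Fintype F₂]
    (hF₁ : Odd (Fintype.card F₁)) (hF₂ : Odd (Fintype.card F₂)) (L₁ L₂ : Subgroup G)
    (e₁ : ↥L₁ ≃* Matrix.SpecialLinearGroup (Fin 2) F₁) (e₂ : ↥L₂ ≃* Matrix.SpecialLinearGroup (Fin 2) F₂)
    (hc : ∀ x ∈ L₁, ∀ y ∈ L₂, x * y = y * x) (j : G) (hj : orderOf j = 2) (hm : L₁ ⊓ L₂ = Subgroup.zpowers j) :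
    ∃ x ∈ L₁ ⊔ L₂, orderOf x = 2 ∧ x ≠ j ∧
      ∀ y ∈ L₁ ⊔ L₂, orderOf y = 2 → y = j ∨ ∃ g ∈ L₁ ⊔ L₂, g * x * g⁻¹ = y := by
  obtain ⟨inv₁, ⟨w₁, hw₁L, hw₁⟩, conj₁⟩ := sub_QP hF₁ L₁ e₁ j hj
    (by have : j ∈ L₁ ⊓ L₂ := by rw [hm]; exact Subgroup.mem_zpowers j
        exact this.1)
  obtain ⟨inv₂, ⟨w₂, hw₂L, hw₂⟩, conj₂⟩ := sub_QP hF₂ L₂ e₂ j hj
    (by have : j ∈ L₁ ⊓ L₂ := by rw [hm]; exact Subgroup.mem_zpowers j
        exact this.2)
  haveI : Fact (Nat.Prime 2) := ⟨Nat.prime_two⟩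
  have hjj : j * j = 1 := by
    have := pow_orderOf_eq_one j
    rwa [hj, pow_two] at this
  have hj1 : j ≠ 1 := by
    intro h
    rw [h, orderOf_one] at hj
    omega
  have hint : ∀ x, x ∈ L₁ → x ∈ L₂ → x = 1 ∨ x = j := by
    intro x hx₁ hx₂
    apply inv₁ x hx₁
    have hx : x ∈ Subgroup.zpowers j := by
      rw [← hm]
      exact ⟨hx₁, hx₂⟩
    obtain ⟨k, rfl⟩ := Subgroup.mem_zpowers_iff.mp hx
    rw [← _root_.zpow_add, ← two_mul, _root_.zpow_mul, zpow_ofNat, pow_two, hjj, _root_.one_zpow]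
  have hnot : ∀ a ∈ L₁, a * a = j → a ∉ L₂ := by
    intro a ha haa ha₂
    rcases hint a ha ha₂ with h | h
    · rw [h, one_mul] at haa
      exact hj1 haa.symm
    · rw [h, hjj] at haa
      exact hj1 haa.symm
  have hww : w₁ * w₂ * (w₁ * w₂) = 1 := by
    calc w₁ * w₂ * (w₁ * w₂) = w₁ * (w₂ * w₁) * w₂ := by group
      _ = w₁ * (w₁ * w₂) * w₂ := by rw [hc w₁ hw₁L w₂ hw₂L]
      _ = (w₁ * w₁) * (w₂ * w₂) := by group
      _ = 1 := by rw [hw₁, hw₂, hjj]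
  have hw1 : w₁ * w₂ ≠ 1 := by
    intro h
    apply hnot w₁ hw₁L hw₁
    have : w₁ = w₂⁻¹ := eq_inv_of_mul_eq_one_left h
    rw [this]
    exact Subgroup.inv_mem _ hw₂L
  have hwj : w₁ * w₂ ≠ j := by
    intro h
    apply hnot w₁ hw₁L hw₁
    have : w₁ = j * w₂⁻¹ := by rw [← h]; group
    rw [this]
    have hjL₂ : j ∈ L₂ := by
      have : j ∈ L₁ ⊓ L₂ := by rw [hm]; exact Subgroup.mem_zpowers j
      exact this.2
    exact Subgroup.mul_mem _ hjL₂ (Subgroup.inv_mem _ hw₂L)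
  refine ⟨w₁ * w₂, Subgroup.mul_mem _ (Subgroup.mem_sup_left hw₁L) (Subgroup.mem_sup_right hw₂L),
    orderOf_eq_prime (by rw [pow_two]; exact hww) hw1, hwj, ?_⟩
  intro y hy hy2
  have hn : L₂ ≤ Subgroup.normalizer (L₁ : Set G) := by
    intro b hb
    apply Subgroup.centralizer_le_normalizer
    rw [Subgroup.mem_centralizer_iff]
    exact fun a ha => hc a ha b hb
  obtain ⟨a, ha, b, hb, rfl⟩ := Cfsg.Agent.Lib.Helper2.CoprimeAct.mem_sup_of_le_normalizer L₁ L₂ hn hy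
  have hab := hc a ha b hb
  have hyy : a * b * (a * b) = 1 := by
    have := pow_orderOf_eq_one (a * b)
    rwa [hy2, pow_two] at this
  have hy1 : a * b ≠ 1 := by
    intro h
    rw [h, orderOf_one] at hy2
    omega
  have h1 : (a * a) * (b * b) = 1 := by
    calc (a * a) * (b * b) = a * (a * b) * b := by group
      _ = a * (b * a) * b := by rw [hab]
      _ = a * b * (a * b) := by group
      _ = 1 := hyy
  have haa₂ : a * a ∈ L₂ := by
    have : a * a = (b * b)⁻¹ := eq_inv_of_mul_eq_one_left h1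
    rw [this]
    exact Subgroup.inv_mem _ (Subgroup.mul_mem _ hb hb)
  rcases hint (a * a) (Subgroup.mul_mem _ ha ha) haa₂ with haa | haa
  · left
    have hbb : b * b = 1 := by rwa [haa, one_mul] at h1
    rcases inv₁ a ha haa with h | h <;> rcases inv₂ b hb hbb with h' | h'
    · exfalso
      apply hy1
      rw [h, h', one_mul]
    · rw [h, h', one_mul]
    · rw [h, h', mul_one]
    · exfalso
      apply hy1
      rw [h, h', hjj]
  · right
    have hbb : b * b = j := by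
      rw [haa] at h1
      have : b * b = j⁻¹ := eq_inv_of_mul_eq_one_right h1
      rw [this]
      exact inv_eq_of_mul_eq_one_right hjj
    obtain ⟨g₁, hg₁L, hg₁⟩ := conj₁ w₁ hw₁L a ha hw₁ haa
    obtain ⟨g₂, hg₂L, hg₂⟩ := conj₂ w₂ hw₂L b hb hw₂ hbb
    refine ⟨g₁ * g₂, Subgroup.mul_mem _ (Subgroup.mem_sup_left hg₁L)
      (Subgroup.mem_sup_right hg₂L), ?_⟩
    calc g₁ * g₂ * (w₁ * w₂) * (g₁ * g₂)⁻¹ = g₁ * (g₂ * w₁) * w₂ * g₂⁻¹ * g₁⁻¹ := by group
      _ = g₁ * (w₁ * g₂) * w₂ * g₂⁻¹ * g₁⁻¹ := by rw [← hc w₁ hw₁L g₂ hg₂L]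
      _ = g₁ * w₁ * ((g₂ * w₂ * g₂⁻¹) * g₁⁻¹) := by group
      _ = g₁ * w₁ * (b * g₁⁻¹) := by rw [hg₂]
      _ = g₁ * w₁ * (g₁⁻¹ * b) := by rw [← hc g₁⁻¹ (Subgroup.inv_mem _ hg₁L) b hb]
      _ = (g₁ * w₁ * g₁⁻¹) * b := by group
      _ = a * b := by rw [hg₁]

end Cfsg.Agent.S3209
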