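import Cfsg.Statements.S3210
import Mathlib
import Cfsg.Agent.Lib.Helper8.SL2
import Cfsg.Agent.Lib.Helper1.SL2Syl
import Cfsg.Agent.Lib.Helper1.SL2U
import Cfsg.Agent.Lib.Helper1.Nil
import Cfsg.Agent.Lib.Helper2.CoprimeAct2

set_option autoImplicit false
open Cfsg

namespace Cfsg.Agent.S3210

open Cfsg.Agent.Lib.Helper8.SL2 Cfsg.Agent.Lib.Helper8.RankOne

theorem comm_mem_of_sup {F : Type*} [Field F] (N : Subgroup (Matrix.SpecialLinearGroup (Fin 2) F))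
    (hN : N.Normal) (hsup : N ⊔ lowerUnipotentSL2 F = ⊤) (x y : Matrix.SpecialLinearGroup (Fin 2) F) :
    x * y * x⁻¹ * y⁻¹ ∈ N := by
  haveI := hN
  have hx : x ∈ N ⊔ lowerUnipotentSL2 F := by
    rw [hsup]
    exact Subgroup.mem_top _
  have hy : y ∈ N ⊔ lowerUnipotentSL2 F := by
    rw [hsup]
    exact Subgroup.mem_top _
  have hnorm : lowerUnipotentSL2 F ≤ Subgroup.normalizer (N : Set (Matrix.SpecialLinearGroup (Fin 2) F)) := by
    rw [Subgroup.normalizer_eq_top_iff.2 hN]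
    exact le_top
  obtain ⟨n, hn, a, ha, rfl⟩ := Cfsg.Agent.Lib.Helper2.CoprimeAct.mem_sup_of_le_normalizer N _ hnorm hx
  obtain ⟨n', hn', a', ha', rfl⟩ := Cfsg.Agent.Lib.Helper2.CoprimeAct.mem_sup_of_le_normalizer N _ hnorm hy
  obtain ⟨s, rfl⟩ := mem_lower.1 ha
  obtain ⟨t, rfl⟩ := mem_lower.1 ha'
  have hc : Lm s * Lm t = Lm t * Lm s := by
    rw [Lm_mul, Lm_mul, add_comm]
  rw [← QuotientGroup.eq_one_iff (N := N)]
  have h1 : ((n : Matrix.SpecialLinearGroup (Fin 2) F) : Matrix.SpecialLinearGroup (Fin 2) F ⧸ N) = 1 :=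
    (QuotientGroup.eq_one_iff n).2 hn
  have h1' : ((n' : Matrix.SpecialLinearGroup (Fin 2) F) : Matrix.SpecialLinearGroup (Fin 2) F ⧸ N) = 1 :=
    (QuotientGroup.eq_one_iff n').2 hn'
  have hc' := congrArg (QuotientGroup.mk (s := N)) hc
  simp only [QuotientGroup.mk_mul, QuotientGroup.mk_inv, h1, h1', one_mul] at hc' ⊢
  rw [hc']
  group

theorem T_star {F : Type*} [Field F] (h2 : (2 : F) ≠ 0)
    (N₁ N₂ : Subgroup (Matrix.SpecialLinearGroup (Fin 2) F))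
    (hN₁ : N₁.Normal) (hN₂ : N₂.Normal) (hcomm : ∀ x ∈ N₁, ∀ y ∈ N₂, x * y = y * x) :
    N₁ ≤ Subgroup.center (Matrix.SpecialLinearGroup (Fin 2) F) ∨
      N₂ ≤ Subgroup.center (Matrix.SpecialLinearGroup (Fin 2) F) := by
  have hmain := (Cfsg.Agent.Lib.Helper8.SL2.main F).1
  rcases dichotomy hmain N₁ hN₁ with h1 | h1
  · rcases dichotomy hmain N₂ hN₂ with h2' | h2'
    · exfalso
      have hc1 := comm_mem_of_sup N₁ hN₁ h1 (Um 1) (Lm 1)
      have hc2 := comm_mem_of_sup N₂ hN₂ h2' (Um 1) (Lm (-1))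
      have hcc := hcomm _ hc1 _ hc2
      rw [Um_inv, Lm_inv, Lm_inv] at hcc
      have h01 := congrArg (fun g : Matrix.SpecialLinearGroup (Fin 2) F => g.1 0 1) hcc
      simp only [mul00, mul01, mul10, mul11, Lm00, Lm01, Lm10, Lm11, Um00, Um01, Um10, Um11] at h01
      apply h2
      linear_combination h01
    · exact Or.inr h2'
  · exact Or.inl h1

theorem T_center {F : Type*} [Field F] (x : Matrix.SpecialLinearGroup (Fin 2) F)
    (hU : x * Um 1 = Um 1 * x) (hL : x * Lm 1 = Lm 1 * x) : x * x = 1 := by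
  have h00 := congrArg (fun g : Matrix.SpecialLinearGroup (Fin 2) F => g.1 0 0) hU
  have h01 := congrArg (fun g : Matrix.SpecialLinearGroup (Fin 2) F => g.1 0 1) hU
  have k00 := congrArg (fun g : Matrix.SpecialLinearGroup (Fin 2) F => g.1 0 0) hL
  simp only [mul00, mul01, mul10, mul11, Lm00, Lm01, Lm10, Lm11, Um00, Um01, Um10, Um11] at h00 h01 k00
  have hc0 : x.1 1 0 = 0 := by linear_combination -h00
  have had : x.1 0 0 = x.1 1 1 := by linear_combination h01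
  have hb0 : x.1 0 1 = 0 := by linear_combination k00
  have hdet := det_eq x
  rw [hb0, hc0] at hdet
  apply sl2_ext
  · rw [mul00, one00, hb0, hc0]
    linear_combination hdet + x.1 0 0 * had
  · rw [mul01, one01, hb0]
    ring
  · rw [mul10, one10, hc0]
    ring
  · rw [mul11, one11, hb0, hc0]
    linear_combination hdet - x.1 1 1 * had

theorem T_sq {F : Type*} [Field F] (h2 : (2 : F) ≠ 0)
    (K : Subgroup (Matrix.SpecialLinearGroup (Fin 2) F))
    (hK : ∀ s : Matrix.SpecialLinearGroup (Fin 2) F, s * s ∈ K) : K = ⊤ := by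
  rw [eq_top_iff, ← sup_eq_top (k := F)]
  apply sup_le
  · intro g hg
    obtain ⟨t, rfl⟩ := mem_lower.1 hg
    have e : t / 2 + t / 2 = t := by
      field_simp
      ring
    have : Lm t = Lm (t / 2) * Lm (t / 2) := by
      rw [Lm_mul, e]
    rw [this]
    exact hK _
  · intro g hg
    obtain ⟨t, rfl⟩ := mem_upper.1 hg
    have e : t / 2 + t / 2 = t := by
      field_simp
      ring
    have : Um t = Um (t / 2) * Um (t / 2) := by
      rw [Um_mul, e]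
    rw [this]
    exact hK _

theorem star {G : Type*} [Group G] {F : Type*} [Field F] (h2 : (2 : F) ≠ 0) (S : Subgroup G)
    (e : ↥S ≃* Matrix.SpecialLinearGroup (Fin 2) F) (N₁ N₂ : Subgroup G)
    (hn₁ : ∀ s ∈ S, ∀ x ∈ N₁, s * x * s⁻¹ ∈ N₁) (hn₂ : ∀ s ∈ S, ∀ x ∈ N₂, s * x * s⁻¹ ∈ N₂)
    (hcomm : ∀ x ∈ N₁, ∀ y ∈ N₂, x * y = y * x) :
    (∀ x ∈ N₁, x ∈ S → ∀ s ∈ S, x * s = s * x) ∨ (∀ y ∈ N₂, y ∈ S → ∀ s ∈ S, y * s = s * y) := by
  have hnorm : ∀ N : Subgroup G, (∀ s ∈ S, ∀ x ∈ N, s * x * s⁻¹ ∈ N) →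
      ((N.subgroupOf S).map e.toMonoidHom).Normal := by
    intro N hN
    apply Subgroup.Normal.map _ _ e.surjective
    constructor
    intro x hx s
    rw [Subgroup.mem_subgroupOf] at hx ⊢
    exact hN s.1 s.2 x.1 hx
  have hcm : ∀ x ∈ (N₁.subgroupOf S).map e.toMonoidHom, ∀ y ∈ (N₂.subgroupOf S).map e.toMonoidHom,
      x * y = y * x := by
    rintro _ ⟨x, hx, rfl⟩ _ ⟨y, hy, rfl⟩
    have hx' : (x : G) ∈ N₁ := Subgroup.mem_subgroupOf.1 hx
    have hy' : (y : G) ∈ N₂ := Subgroup.mem_subgroupOf.1 hy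
    show e x * e y = e y * e x
    rw [← map_mul, ← map_mul]
    congr 1
    exact Subtype.ext (hcomm _ hx' _ hy')
  rcases T_star h2 _ _ (hnorm N₁ hn₁) (hnorm N₂ hn₂) hcm with h | h
  · left
    intro x hx hxS s hs
    have hmem : e ⟨x, hxS⟩ ∈ (N₁.subgroupOf S).map e.toMonoidHom :=
      ⟨⟨x, hxS⟩, Subgroup.mem_subgroupOf.2 hx, rfl⟩
    have hcen := Subgroup.mem_center_iff.1 (h hmem) (e ⟨s, hs⟩)
    rw [← map_mul, ← map_mul] at hcen
    have h3 := congrArg Subtype.val (e.injective hcen)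
    exact h3.symm
  · right
    intro x hx hxS s hs
    have hmem : e ⟨x, hxS⟩ ∈ (N₂.subgroupOf S).map e.toMonoidHom :=
      ⟨⟨x, hxS⟩, Subgroup.mem_subgroupOf.2 hx, rfl⟩
    have hcen := Subgroup.mem_center_iff.1 (h hmem) (e ⟨s, hs⟩)
    rw [← map_mul, ← map_mul] at hcen
    have h3 := congrArg Subtype.val (e.injective hcen)
    exact h3.symm

theorem central_cases {G : Type*} [Group G] {F : Type*} [Field F] (h2 : (2 : F) ≠ 0) (S : Subgroup G)
    (e : ↥S ≃* Matrix.SpecialLinearGroup (Fin 2) F) (j : G) (hjS : j ∈ S) (hj : orderOf j = 2)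
    (x : G) (hx : x ∈ S) (hxc : ∀ s ∈ S, x * s = s * x) : x = 1 ∨ x = j := by
  by_cases hx1 : x = 1
  · exact Or.inl hx1
  · right
    have hU : e ⟨x, hx⟩ * Um 1 = Um 1 * e ⟨x, hx⟩ := by
      have h := hxc (e.symm (Um 1)).1 (e.symm (Um 1)).2
      have h' : (⟨x, hx⟩ : S) * e.symm (Um 1) = e.symm (Um 1) * ⟨x, hx⟩ := Subtype.ext h
      have h'' := congrArg e h'
      rwa [map_mul, map_mul, e.apply_symm_apply] at h''
    have hL : e ⟨x, hx⟩ * Lm 1 = Lm 1 * e ⟨x, hx⟩ := by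
      have h := hxc (e.symm (Lm 1)).1 (e.symm (Lm 1)).2
      have h' : (⟨x, hx⟩ : S) * e.symm (Lm 1) = e.symm (Lm 1) * ⟨x, hx⟩ := Subtype.ext h
      have h'' := congrArg e h'
      rwa [map_mul, map_mul, e.apply_symm_apply] at h''
    have hxx : e ⟨x, hx⟩ * e ⟨x, hx⟩ = 1 := T_center _ hU hL
    have hjj : e ⟨j, hjS⟩ * e ⟨j, hjS⟩ = 1 := by
      rw [← map_mul]
      have : (⟨j, hjS⟩ : S) * ⟨j, hjS⟩ = 1 := by
        apply Subtype.ext
        show j * j = 1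
        rw [← pow_two, ← hj]
        exact pow_orderOf_eq_one j
      rw [this, map_one]
    rcases Cfsg.Agent.Lib.Helper1.SL2Syl.sl2_invol h2 _ hxx with h | h
    · exfalso
      apply hx1
      have h5 : e ⟨x, hx⟩ = 1 := Subtype.ext h
      have h3 : (⟨x, hx⟩ : S) = 1 := e.injective (by rw [h5, map_one])
      exact congrArg Subtype.val h3
    · rcases Cfsg.Agent.Lib.Helper1.SL2Syl.sl2_invol h2 _ hjj with h' | h'
      · exfalso
        have h5 : e ⟨j, hjS⟩ = 1 := Subtype.ext h'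
        have h3 : (⟨j, hjS⟩ : S) = 1 := e.injective (by rw [h5, map_one])
        have h4 : j = 1 := congrArg Subtype.val h3
        rw [h4, orderOf_one] at hj
        omega
      · have h5 : e ⟨x, hx⟩ = e ⟨j, hjS⟩ := Subtype.ext (h.trans h'.symm)
        exact congrArg Subtype.val (e.injective h5)

theorem sq_central {G : Type*} [Group G] {F : Type*} [Field F] (h2 : (2 : F) ≠ 0) (S : Subgroup G)
    (e : ↥S ≃* Matrix.SpecialLinearGroup (Fin 2) F) (m : G)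
    (hm : ∀ s ∈ S, m * (s * s) = (s * s) * m) : ∀ s ∈ S, m * s = s * m := by
  obtain ⟨K, hK⟩ : ∃ K : Subgroup (Matrix.SpecialLinearGroup (Fin 2) F),
      K = ((Subgroup.centralizer ({m} : Set G)).subgroupOf S).map e.toMonoidHom := ⟨_, rfl⟩
  have hKtop : K = ⊤ := by
    apply T_sq h2
    intro t
    rw [hK]
    refine ⟨e.symm t * e.symm t, ?_, ?_⟩
    · rw [SetLike.mem_coe, Subgroup.mem_subgroupOf, Subgroup.mem_centralizer_iff]
      intro y hy
      rw [Set.mem_singleton_iff] at hy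
      rw [hy]
      exact hm (e.symm t).1 (e.symm t).2
    · show e (e.symm t * e.symm t) = t * t
      rw [map_mul, e.apply_symm_apply]
  intro s hs
  have hmem : e ⟨s, hs⟩ ∈ K := by
    rw [hKtop]
    exact Subgroup.mem_top _
  rw [hK] at hmem
  obtain ⟨y, hy, hye⟩ := hmem
  have hys : y = ⟨s, hs⟩ := e.injective hye
  rw [SetLike.mem_coe, Subgroup.mem_subgroupOf, Subgroup.mem_centralizer_iff] at hy
  have h3 := hy m rfl
  rw [hys] at h3
  exact h3

theorem noncomm {G : Type*} [Group G] {F : Type*} [Field F] (S : Subgroup G)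
    (e : ↥S ≃* Matrix.SpecialLinearGroup (Fin 2) F) : ∃ x ∈ S, ∃ y ∈ S, x * y ≠ y * x := by
  refine ⟨(e.symm (Um 1)).1, (e.symm (Um 1)).2, (e.symm (Lm 1)).1, (e.symm (Lm 1)).2, ?_⟩
  intro h
  have h' : e.symm (Um 1) * e.symm (Lm 1) = e.symm (Lm 1) * e.symm (Um 1) := Subtype.ext h
  rw [← map_mul, ← map_mul] at h'
  have h'' := e.symm.injective h'
  have h00 := congrArg (fun g : Matrix.SpecialLinearGroup (Fin 2) F => g.1 0 0) h''
  simp only [mul00, Um00, Um01, Lm00, Lm10, Lm01, Um10] at h00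
  have h10 : (1 : F) = 0 := by linear_combination h00
  exact one_ne_zero h10

theorem card_inj (a b : ℕ) (hb : 2 ≤ b) (hab : a < b) : a * (a ^ 2 - 1) < b * (b ^ 2 - 1) := by
  have h3 : a ^ 2 - 1 ≤ b ^ 2 - 1 := Nat.sub_le_sub_right (Nat.pow_le_pow_left hab.le 2) 1
  have h4 : 0 < b ^ 2 - 1 := by
    have : 4 ≤ b ^ 2 := by nlinarith
    omega
  calc a * (a ^ 2 - 1) ≤ a * (b ^ 2 - 1) := Nat.mul_le_mul_left a h3
    _ < b * (b ^ 2 - 1) := (Nat.mul_lt_mul_right h4).2 hab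

theorem result {G : Type*} [Group G] [Finite G]
    {F₁ : Type*} [Field F₁] [Fintype F₁] {F₂ : Type*} [Field F₂] [Fintype F₂]
    (hF₁ : Odd (Fintype.card F₁)) (hF₂ : Odd (Fintype.card F₂)) (L₁ L₂ : Subgroup G)
    (e₁ : ↥L₁ ≃* Matrix.SpecialLinearGroup (Fin 2) F₁) (e₂ : ↥L₂ ≃* Matrix.SpecialLinearGroup (Fin 2) F₂)
    (hc : ∀ x ∈ L₁, ∀ y ∈ L₂, x * y = y * x) (j : G) (hj : orderOf j = 2) (hm : L₁ ⊓ L₂ = Subgroup.zpowers j)
    (hle : L₁ ⊔ L₂ ≤ Subgroup.centralizer ({j} : Set G)) (hi : (L₁ ⊔ L₂).relIndex (Subgroup.centralizer ({j} : Set G)) = 2) (n : G) (hn : n ∈ Subgroup.centralizer ({j} : Set G)) (hn' : n ∉ L₁ ⊔ L₂) :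
    (L₁.map (MulAut.conj n).toMonoidHom = L₁ ∧ L₂.map (MulAut.conj n).toMonoidHom = L₂) ∨
      (L₁.map (MulAut.conj n).toMonoidHom = L₂ ∧ Fintype.card F₁ = Fintype.card F₂ ∧
        ∃ n' ∈ Subgroup.centralizer ({j} : Set G), n' ∉ L₁ ⊔ L₂ ∧ L₁.map (MulAut.conj n').toMonoidHom = L₂ ∧ n' ^ 2 ∈ Subgroup.zpowers j) := by
  classical
  have h2₁ : (2 : F₁) ≠ 0 := Cfsg.Agent.Lib.Helper1.SL2Syl.two_ne_zero_of_odd hF₁
  have h2₂ : (2 : F₂) ≠ 0 := Cfsg.Agent.Lib.Helper1.SL2Syl.two_ne_zero_of_odd hF₂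
  have hjmem : j ∈ L₁ ⊓ L₂ := by
    rw [hm]
    exact Subgroup.mem_zpowers j
  have hj1 : j ∈ L₁ := hjmem.1
  have hj2 : j ∈ L₂ := hjmem.2
  have hjj : j * j = 1 := by
    rw [← pow_two, ← hj]
    exact pow_orderOf_eq_one j
  have hnj : n * j = j * n := (Subgroup.mem_centralizer_iff.1 hn j rfl).symm
  have hidx : ((L₁ ⊔ L₂).subgroupOf (Subgroup.centralizer ({j} : Set G))).index = 2 := hi
  have hLn : ((L₁ ⊔ L₂).subgroupOf (Subgroup.centralizer ({j} : Set G))).Normal :=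
    Subgroup.normal_of_index_eq_two hidx
  have hconjL : ∀ c ∈ Subgroup.centralizer ({j} : Set G), ∀ x ∈ L₁ ⊔ L₂, c * x * c⁻¹ ∈ L₁ ⊔ L₂ := by
    intro c hc' x hx
    have h3 := hLn.conj_mem ⟨x, hle hx⟩ (Subgroup.mem_subgroupOf.2 hx) ⟨c, hc'⟩
    exact Subgroup.mem_subgroupOf.1 h3
  have hnL : ∀ x ∈ L₁ ⊔ L₂, n * x * n⁻¹ ∈ L₁ ⊔ L₂ := hconjL n hn
  have hnL' : ∀ x ∈ L₁ ⊔ L₂, n⁻¹ * x * n ∈ L₁ ⊔ L₂ := by
    intro x hx
    have h3 := hconjL n⁻¹ (Subgroup.inv_mem _ hn) x hx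
    rwa [inv_inv] at h3
  have hnn : n * n ∈ L₁ ⊔ L₂ := by
    have h3 := Subgroup.mul_self_mem_of_index_two hidx ⟨n, hn⟩
    exact Subgroup.mem_subgroupOf.1 h3
  have hdec : ∀ x ∈ L₁ ⊔ L₂, ∃ x₁ ∈ L₁, ∃ x₂ ∈ L₂, x = x₁ * x₂ := by
    intro x hx
    refine Cfsg.Agent.Lib.Helper2.CoprimeAct.mem_sup_of_le_normalizer L₁ L₂ ?_ hx
    intro y hy
    rw [Subgroup.mem_normalizer_iff]
    intro h
    constructor
    · intro hh
      have h3 : y * h * y⁻¹ = h := by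
        rw [← hc h hh y hy]
        group
      rw [h3]
      exact hh
    · intro hh
      have hk := hc _ hh y hy
      have h3 : h = y * h * y⁻¹ := by
        have e1 : y * h = y * (y * h * y⁻¹) := by
          rw [← hk]
          group
        exact mul_left_cancel e1
      rw [h3]
      exact hh
  have hLn1 : ∀ l ∈ L₁ ⊔ L₂, ∀ x ∈ L₁, l * x * l⁻¹ ∈ L₁ := by
    intro l hl x hx
    obtain ⟨l₁, hl₁, l₂, hl₂, rfl⟩ := hdec l hl
    have h1 : l₁ * l₂ * x * (l₁ * l₂)⁻¹ = l₁ * x * l₁⁻¹ := by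
      have h3 := hc x hx l₂ hl₂
      calc l₁ * l₂ * x * (l₁ * l₂)⁻¹ = l₁ * (l₂ * x) * l₂⁻¹ * l₁⁻¹ := by group
        _ = l₁ * (x * l₂) * l₂⁻¹ * l₁⁻¹ := by rw [h3]
        _ = l₁ * x * l₁⁻¹ := by group
    rw [h1]
    exact L₁.mul_mem (L₁.mul_mem hl₁ hx) (L₁.inv_mem hl₁)
  have hLn2 : ∀ l ∈ L₁ ⊔ L₂, ∀ x ∈ L₂, l * x * l⁻¹ ∈ L₂ := by
    intro l hl x hx
    obtain ⟨l₁, hl₁, l₂, hl₂, rfl⟩ := hdec l hl
    have h1 : l₁ * l₂ * x * (l₁ * l₂)⁻¹ = l₂ * x * l₂⁻¹ := by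
      have h3 := hc l₁ hl₁ (l₂ * x * l₂⁻¹) (L₂.mul_mem (L₂.mul_mem hl₂ hx) (L₂.inv_mem hl₂))
      calc l₁ * l₂ * x * (l₁ * l₂)⁻¹ = l₁ * (l₂ * x * l₂⁻¹) * l₁⁻¹ := by group
        _ = (l₂ * x * l₂⁻¹) * l₁ * l₁⁻¹ := by rw [h3]
        _ = l₂ * x * l₂⁻¹ := by group
    rw [h1]
    exact L₂.mul_mem (L₂.mul_mem hl₂ hx) (L₂.inv_mem hl₂)
  have hcen1 : ∀ x ∈ L₁ ⊔ L₂, (∀ s ∈ L₁, x * s = s * x) → x ∈ L₂ := by
    intro x hx hxc
    obtain ⟨x₁, hx₁, x₂, hx₂, rfl⟩ := hdec x hx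
    have hx1c : ∀ s ∈ L₁, x₁ * s = s * x₁ := by
      intro s hs
      have h3 := hxc s hs
      have h4 := hc s hs x₂ hx₂
      calc x₁ * s = x₁ * (s * x₂) * x₂⁻¹ := by group
        _ = x₁ * (x₂ * s) * x₂⁻¹ := by rw [h4]
        _ = (x₁ * x₂ * s) * x₂⁻¹ := by group
        _ = (s * (x₁ * x₂)) * x₂⁻¹ := by rw [h3]
        _ = s * x₁ := by group
    rcases central_cases h2₁ L₁ e₁ j hj1 hj x₁ hx₁ hx1c with h | h
    · rw [h, one_mul]
      exact hx₂
    · rw [h]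
      exact L₂.mul_mem hj2 hx₂
  have hcen2 : ∀ x ∈ L₁ ⊔ L₂, (∀ s ∈ L₂, x * s = s * x) → x ∈ L₁ := by
    intro x hx hxc
    obtain ⟨x₁, hx₁, x₂, hx₂, rfl⟩ := hdec x hx
    have hx2c : ∀ s ∈ L₂, x₂ * s = s * x₂ := by
      intro s hs
      have h3 := hxc s hs
      have h4 := hc x₁ hx₁ s hs
      calc x₂ * s = x₁⁻¹ * (x₁ * x₂ * s) := by group
        _ = x₁⁻¹ * (s * (x₁ * x₂)) := by rw [h3]
        _ = x₁⁻¹ * (s * x₁) * x₂ := by group
        _ = x₁⁻¹ * (x₁ * s) * x₂ := by rw [h4]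
        _ = s * x₂ := by group
    rcases central_cases h2₂ L₂ e₂ j hj2 hj x₂ hx₂ hx2c with h | h
    · rw [h, mul_one]
      exact hx₁
    · rw [h]
      exact L₁.mul_mem hx₁ hj1
  have hstar1 : ∀ m : G, (∀ s ∈ L₁, m * s * m⁻¹ * s⁻¹ = 1 ∨ m * s * m⁻¹ * s⁻¹ = j) →
      ∀ s ∈ L₁, m * s = s * m := by
    intro m hm'
    apply sq_central h2₁ L₁ e₁ m
    intro s hs
    rcases hm' s hs with h | h
    · have h1 : m * s = s * m := by
        calc m * s = (m * s * m⁻¹ * s⁻¹) * (s * m) := by group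
          _ = s * m := by rw [h, one_mul]
      calc m * (s * s) = (m * s) * s := by group
        _ = s * m * s := by rw [h1]
        _ = s * (m * s) := by group
        _ = s * (s * m) := by rw [h1]
        _ = s * s * m := by group
    · have h1 : m * s = j * (s * m) := by
        calc m * s = (m * s * m⁻¹ * s⁻¹) * (s * m) := by group
          _ = j * (s * m) := by rw [h]
      have hjs : j * s = s * j := (hc s hs j hj2).symm
      calc m * (s * s) = (m * s) * s := by group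
        _ = j * (s * m) * s := by rw [h1]
        _ = j * s * (m * s) := by group
        _ = j * s * (j * (s * m)) := by rw [h1]
        _ = (j * s) * j * (s * m) := by group
        _ = (s * j) * j * (s * m) := by rw [hjs]
        _ = s * (j * j) * (s * m) := by group
        _ = s * s * m := by
          rw [hjj]
          group
  have hstar2 : ∀ m : G, (∀ s ∈ L₂, m * s * m⁻¹ * s⁻¹ = 1 ∨ m * s * m⁻¹ * s⁻¹ = j) →
      ∀ s ∈ L₂, m * s = s * m := by
    intro m hm'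
    apply sq_central h2₂ L₂ e₂ m
    intro s hs
    rcases hm' s hs with h | h
    · have h1 : m * s = s * m := by
        calc m * s = (m * s * m⁻¹ * s⁻¹) * (s * m) := by group
          _ = s * m := by rw [h, one_mul]
      calc m * (s * s) = (m * s) * s := by group
        _ = s * m * s := by rw [h1]
        _ = s * (m * s) := by group
        _ = s * (s * m) := by rw [h1]
        _ = s * s * m := by group
    · have h1 : m * s = j * (s * m) := by
        calc m * s = (m * s * m⁻¹ * s⁻¹) * (s * m) := by group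
          _ = j * (s * m) := by rw [h]
      have hjs : j * s = s * j := hc j hj1 s hs
      calc m * (s * s) = (m * s) * s := by group
        _ = j * (s * m) * s := by rw [h1]
        _ = j * s * (m * s) := by group
        _ = j * s * (j * (s * m)) := by rw [h1]
        _ = (j * s) * j * (s * m) := by group
        _ = (s * j) * j * (s * m) := by rw [hjs]
        _ = s * (j * j) * (s * m) := by group
        _ = s * s * m := by
          rw [hjj]
          group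
  obtain ⟨M₁, hM₁⟩ : ∃ M : Subgroup G, M = L₁.map (MulAut.conj n).toMonoidHom := ⟨_, rfl⟩
  obtain ⟨M₂, hM₂⟩ : ∃ M : Subgroup G, M = L₂.map (MulAut.conj n).toMonoidHom := ⟨_, rfl⟩
  have hmem1 : ∀ x, x ∈ M₁ ↔ n⁻¹ * x * n ∈ L₁ := by
    intro x
    rw [hM₁]
    exact Cfsg.Agent.Lib.Helper1.mem_map_conj_iff L₁ n x
  have hmem2 : ∀ x, x ∈ M₂ ↔ n⁻¹ * x * n ∈ L₂ := by
    intro x
    rw [hM₂]
    exact Cfsg.Agent.Lib.Helper1.mem_map_conj_iff L₂ n x
  have hM1L : M₁ ≤ L₁ ⊔ L₂ := by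
    intro x hx
    have h1 := (hmem1 x).1 hx
    have h3 := hnL _ (Subgroup.mem_sup_left h1)
    have e : n * (n⁻¹ * x * n) * n⁻¹ = x := by group
    rwa [e] at h3
  have hM2L : M₂ ≤ L₁ ⊔ L₂ := by
    intro x hx
    have h1 := (hmem2 x).1 hx
    have h3 := hnL _ (Subgroup.mem_sup_right h1)
    have e : n * (n⁻¹ * x * n) * n⁻¹ = x := by group
    rwa [e] at h3
  obtain ⟨e₁'⟩ : Nonempty (↥M₁ ≃* Matrix.SpecialLinearGroup (Fin 2) F₁) := by
    rw [hM₁]
    exact ⟨(L₁.equivMapOfInjective (MulAut.conj n).toMonoidHom (MulAut.conj n).injective).symm.trans e₁⟩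
  obtain ⟨e₂'⟩ : Nonempty (↥M₂ ≃* Matrix.SpecialLinearGroup (Fin 2) F₂) := by
    rw [hM₂]
    exact ⟨(L₂.equivMapOfInjective (MulAut.conj n).toMonoidHom (MulAut.conj n).injective).symm.trans e₂⟩
  have hnjn : n⁻¹ * j * n = j := by
    calc n⁻¹ * j * n = n⁻¹ * (j * n) := by group
      _ = n⁻¹ * (n * j) := by rw [hnj]
      _ = j := by group
  have hjM1 : j ∈ M₁ := by
    rw [hmem1, hnjn]
    exact hj1
  have hjM2 : j ∈ M₂ := by
    rw [hmem2, hnjn]
    exact hj2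
  have hLnM1 : ∀ l ∈ L₁ ⊔ L₂, ∀ x ∈ M₁, l * x * l⁻¹ ∈ M₁ := by
    intro l hl x hx
    rw [hmem1] at hx ⊢
    have e : n⁻¹ * (l * x * l⁻¹) * n = (n⁻¹ * l * n) * (n⁻¹ * x * n) * (n⁻¹ * l * n)⁻¹ := by group
    rw [e]
    exact hLn1 _ (hnL' l hl) _ hx
  have hLnM2 : ∀ l ∈ L₁ ⊔ L₂, ∀ x ∈ M₂, l * x * l⁻¹ ∈ M₂ := by
    intro l hl x hx
    rw [hmem2] at hx ⊢
    have e : n⁻¹ * (l * x * l⁻¹) * n = (n⁻¹ * l * n) * (n⁻¹ * x * n) * (n⁻¹ * l * n)⁻¹ := by group
    rw [e]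
    exact hLn2 _ (hnL' l hl) _ hx
  have hMc : ∀ x ∈ M₁, ∀ y ∈ M₂, x * y = y * x := by
    intro x hx y hy
    have h3 := hc _ ((hmem1 x).1 hx) _ ((hmem2 y).1 hy)
    calc x * y = n * ((n⁻¹ * x * n) * (n⁻¹ * y * n)) * n⁻¹ := by group
      _ = n * ((n⁻¹ * y * n) * (n⁻¹ * x * n)) * n⁻¹ := by rw [h3]
      _ = y * x := by group
  have hcard1 : Nat.card M₁ = Nat.card L₁ := by
    rw [hM₁]
    exact Subgroup.card_map_of_injective (MulAut.conj n).injective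
  have hcard2 : Nat.card M₂ = Nat.card L₂ := by
    rw [hM₂]
    exact Subgroup.card_map_of_injective (MulAut.conj n).injective
  have hA := star h2₁ M₁ e₁' (M₁ ⊓ L₁) (M₁ ⊓ L₂)
    (fun s hs x hx => ⟨M₁.mul_mem (M₁.mul_mem hs hx.1) (M₁.inv_mem hs), hLn1 s (hM1L hs) x hx.2⟩)
    (fun s hs x hx => ⟨M₁.mul_mem (M₁.mul_mem hs hx.1) (M₁.inv_mem hs), hLn2 s (hM1L hs) x hx.2⟩)
    (fun x hx y hy => hc x hx.2 y hy.2)
  have hcommM1 : ∀ m ∈ M₁, ∀ s ∈ L₁ ⊔ L₂, m * s * m⁻¹ * s⁻¹ ∈ M₁ := by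
    intro m hm' s hs
    have e : m * s * m⁻¹ * s⁻¹ = m * (s * m⁻¹ * s⁻¹) := by group
    rw [e]
    exact M₁.mul_mem hm' (hLnM1 s hs _ (M₁.inv_mem hm'))
  have hcommM2 : ∀ m ∈ M₂, ∀ s ∈ L₁ ⊔ L₂, m * s * m⁻¹ * s⁻¹ ∈ M₂ := by
    intro m hm' s hs
    have e : m * s * m⁻¹ * s⁻¹ = m * (s * m⁻¹ * s⁻¹) := by group
    rw [e]
    exact M₂.mul_mem hm' (hLnM2 s hs _ (M₂.inv_mem hm'))
  rcases hA with ha | hb
  · have hM1L2 : M₁ ≤ L₂ := by
      intro m hm'
      apply hcen1 m (hM1L hm')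
      apply hstar1 m
      intro s hs
      have hmemM : m * s * m⁻¹ * s⁻¹ ∈ M₁ := hcommM1 m hm' s (Subgroup.mem_sup_left hs)
      have hmemL : m * s * m⁻¹ * s⁻¹ ∈ L₁ := L₁.mul_mem (hLn1 m (hM1L hm') s hs) (L₁.inv_mem hs)
      exact central_cases h2₁ M₁ e₁' j hjM1 hj _ hmemM (ha _ ⟨hmemM, hmemL⟩ hmemM)
    have hL1M2 : L₁ ≤ M₂ := by
      intro s hs
      rw [hmem2]
      apply hcen1 _ (hnL' s (Subgroup.mem_sup_left hs))
      intro t ht
      have htM : n * t * n⁻¹ ∈ M₁ := by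
        rw [hmem1]
        have e : n⁻¹ * (n * t * n⁻¹) * n = t := by group
        rw [e]
        exact ht
      have h3 := hc s hs _ (hM1L2 htM)
      calc n⁻¹ * s * n * t = n⁻¹ * (s * (n * t * n⁻¹)) * n := by group
        _ = n⁻¹ * ((n * t * n⁻¹) * s) * n := by rw [h3]
        _ = t * (n⁻¹ * s * n) := by group
    have hB := star h2₂ M₂ e₂' L₁ (M₂ ⊓ L₂)
      (fun s hs x hx => hLn1 s (hM2L hs) x hx)
      (fun s hs x hx => ⟨M₂.mul_mem (M₂.mul_mem hs hx.1) (M₂.inv_mem hs), hLn2 s (hM2L hs) x hx.2⟩)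
      (fun x hx y hy => hc x hx y hy.2)
    rcases hB with ha' | hb'
    · exfalso
      obtain ⟨x, hx, y, hy, hxy⟩ := noncomm L₁ e₁
      exact hxy (ha' x hx (hL1M2 hx) y (hL1M2 hy))
    · have hM2L1 : M₂ ≤ L₁ := by
        intro m hm'
        apply hcen2 m (hM2L hm')
        apply hstar2 m
        intro s hs
        have hmemM : m * s * m⁻¹ * s⁻¹ ∈ M₂ := hcommM2 m hm' s (Subgroup.mem_sup_right hs)
        have hmemL : m * s * m⁻¹ * s⁻¹ ∈ L₂ := L₂.mul_mem (hLn2 m (hM2L hm') s hs) (L₂.inv_mem hs)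
        exact central_cases h2₂ M₂ e₂' j hjM2 hj _ hmemM (hb' _ ⟨hmemM, hmemL⟩ hmemM)
      have hL2M1 : L₂ ≤ M₁ := by
        intro s hs
        rw [hmem1]
        apply hcen2 _ (hnL' s (Subgroup.mem_sup_right hs))
        intro t ht
        have htM : n * t * n⁻¹ ∈ M₂ := by
          rw [hmem2]
          have e : n⁻¹ * (n * t * n⁻¹) * n = t := by group
          rw [e]
          exact ht
        have h3 := hc _ (hM2L1 htM) s hs
        calc n⁻¹ * s * n * t = n⁻¹ * (s * (n * t * n⁻¹)) * n := by group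
          _ = n⁻¹ * ((n * t * n⁻¹) * s) * n := by rw [← h3]
          _ = t * (n⁻¹ * s * n) := by group
      have hM1eq : M₁ = L₂ := le_antisymm hM1L2 hL2M1
      have hM2eq : M₂ = L₁ := le_antisymm hM2L1 hL1M2
      right
      have hq : Fintype.card F₁ = Fintype.card F₂ := by
        have hc1 : Nat.card L₁ = Fintype.card F₁ * (Fintype.card F₁ ^ 2 - 1) := by
          rw [Nat.card_congr e₁.toEquiv]
          exact Cfsg.Agent.Lib.Helper1.SL2U.card_SL2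
        have hc2 : Nat.card L₂ = Fintype.card F₂ * (Fintype.card F₂ ^ 2 - 1) := by
          rw [Nat.card_congr e₂.toEquiv]
          exact Cfsg.Agent.Lib.Helper1.SL2U.card_SL2
        have hc3 : Nat.card L₁ = Nat.card L₂ := by
          rw [← hcard1, hM1eq]
        rw [hc1, hc2] at hc3
        have hq1 : 2 ≤ Fintype.card F₁ := Fintype.one_lt_card
        have hq2 : 2 ≤ Fintype.card F₂ := Fintype.one_lt_card
        rcases lt_trichotomy (Fintype.card F₁) (Fintype.card F₂) with h | h | h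
        · have := card_inj _ _ hq2 h
          omega
        · exact h
        · have := card_inj _ _ hq1 h
          omega
      obtain ⟨a, ha1, b, hb2, hab⟩ := hdec (n * n) hnn
      refine ⟨by rw [← hM₁]; exact hM1eq, hq, n * a⁻¹, ?_, ?_, ?_, ?_⟩
      · exact Subgroup.mul_mem _ hn (Subgroup.inv_mem _ (hle (Subgroup.mem_sup_left ha1)))
      · intro hcon
        apply hn'
        have e : n = (n * a⁻¹) * a := by group
        rw [e]
        exact Subgroup.mul_mem _ hcon (Subgroup.mem_sup_left ha1)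
      · ext x
        rw [Cfsg.Agent.Lib.Helper1.mem_map_conj_iff, ← hM1eq, hmem1]
        have e : (n * a⁻¹)⁻¹ * x * (n * a⁻¹) = a * (n⁻¹ * x * n) * a⁻¹ := by group
        rw [e]
        constructor
        · intro h
          have h3 := L₁.mul_mem (L₁.mul_mem (L₁.inv_mem ha1) h) ha1
          have e2 : a⁻¹ * (a * (n⁻¹ * x * n) * a⁻¹) * a = n⁻¹ * x * n := by group
          rwa [e2] at h3
        · intro h
          exact L₁.mul_mem (L₁.mul_mem ha1 h) (L₁.inv_mem ha1)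
      · rw [← hm]
        have haba : a * b * a⁻¹ = b := by
          rw [hc a ha1 b hb2]
          group
        have hX : n * a⁻¹ * n⁻¹ ∈ M₁ := by
          rw [hmem1]
          have e : n⁻¹ * (n * a⁻¹ * n⁻¹) * n = a⁻¹ := by group
          rw [e]
          exact L₁.inv_mem ha1
        have hXL2 : n * a⁻¹ * n⁻¹ ∈ L₂ := hM1L2 hX
        have hY : (n * a⁻¹) ^ 2 = (n * a⁻¹ * n⁻¹) * b := by
          calc (n * a⁻¹) ^ 2 = (n * a⁻¹ * n⁻¹) * (n * n) * a⁻¹ := by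
                rw [pow_two]
                group
            _ = (n * a⁻¹ * n⁻¹) * (a * b) * a⁻¹ := by rw [hab]
            _ = (n * a⁻¹ * n⁻¹) * (a * b * a⁻¹) := by group
            _ = (n * a⁻¹ * n⁻¹) * b := by rw [haba]
        have hW : n * b * n⁻¹ ∈ M₂ := by
          rw [hmem2]
          have e : n⁻¹ * (n * b * n⁻¹) * n = b := by group
          rw [e]
          exact hb2
        have hWL1 : n * b * n⁻¹ ∈ L₁ := hM2L1 hW
        have hnan : n * a⁻¹ * n = n * b * n⁻¹ := by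
          calc n * a⁻¹ * n = n * (a⁻¹ * (n * n)) * n⁻¹ := by group
            _ = n * (a⁻¹ * (a * b)) * n⁻¹ := by rw [hab]
            _ = n * b * n⁻¹ := by group
        have hY2 : (n * a⁻¹ * n⁻¹) * b = a⁻¹ * (n * b * n⁻¹) := by
          have h3 := hc a ha1 _ hXL2
          calc (n * a⁻¹ * n⁻¹) * b = a⁻¹ * (a * (n * a⁻¹ * n⁻¹)) * b := by group
            _ = a⁻¹ * ((n * a⁻¹ * n⁻¹) * a) * b := by rw [h3]
            _ = a⁻¹ * ((n * a⁻¹ * n⁻¹) * (a * b)) := by group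
            _ = a⁻¹ * ((n * a⁻¹ * n⁻¹) * (n * n)) := by rw [hab]
            _ = a⁻¹ * (n * a⁻¹ * n) := by group
            _ = a⁻¹ * (n * b * n⁻¹) := by rw [hnan]
        refine Subgroup.mem_inf.2 ⟨?_, ?_⟩
        · rw [hY, hY2]
          exact L₁.mul_mem (L₁.inv_mem ha1) hWL1
        · rw [hY]
          exact L₂.mul_mem hXL2 hb2
  · have hM1L1 : M₁ ≤ L₁ := by
      intro m hm'
      apply hcen2 m (hM1L hm')
      apply hstar2 m
      intro s hs
      have hmemM : m * s * m⁻¹ * s⁻¹ ∈ M₁ := hcommM1 m hm' s (Subgroup.mem_sup_right hs)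
      have hmemL : m * s * m⁻¹ * s⁻¹ ∈ L₂ := L₂.mul_mem (hLn2 m (hM1L hm') s hs) (L₂.inv_mem hs)
      exact central_cases h2₁ M₁ e₁' j hjM1 hj _ hmemM (hb _ ⟨hmemM, hmemL⟩ hmemM)
    have hM1eq : M₁ = L₁ := Subgroup.eq_of_le_of_card_ge hM1L1 (le_of_eq hcard1.symm)
    have hM2L2 : M₂ ≤ L₂ := by
      intro x hx
      apply hcen1 x (hM2L hx)
      intro s hs
      have hsM : s ∈ M₁ := by
        rw [hM1eq]
        exact hs
      exact (hMc s hsM x hx).symm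
    have hM2eq : M₂ = L₂ := Subgroup.eq_of_le_of_card_ge hM2L2 (le_of_eq hcard2.symm)
    left
    rw [← hM₁, ← hM₂]
    exact ⟨hM1eq, hM2eq⟩

end Cfsg.Agent.S3210
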