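import Cfsg.Statements.S3213
import Mathlib

set_option autoImplicit false
open Cfsg


namespace Cfsg.Agent.S3213

open Matrix

theorem charP_of_card {F : Type*} [Field F] [Fintype F] (p : ℕ) (hp : p.Prime)
    (hF : Fintype.card F = p) : CharP F p := by
  obtain ⟨r, hr⟩ := CharP.exists F
  haveI := hr
  have hrp : r.Prime := CharP.char_is_prime F r
  have h0 : ((Fintype.card F : ℕ) : F) = 0 := Nat.cast_card_eq_zero F
  have h1 : r ∣ Fintype.card F := (CharP.cast_eq_zero_iff F r _).1 h0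
  rw [hF] at h1
  have h2 : r = p := (Nat.prime_dvd_prime_iff_eq hrp hp).1 h1
  rw [← h2]
  exact hr

theorem mat_ext {n F : Type*} [Fintype n] [DecidableEq n] [Field F] (A B : Matrix n n F)
    (h : ∀ x, A *ᵥ x = B *ᵥ x) : A = B := by
  ext i j
  have hj := congrFun (h (Pi.single j 1)) i
  simpa [Matrix.mulVec_single_one] using hj

set_option maxRecDepth 100000 in
theorem dec5 : ∀ p q r s : ZMod 5, p * s - q * r = 1 → p + s = -1 →
    ∃ a b c : ZMod 5, a * (p - s) + b * r + c * q = 0 ∧ -(a * a) - b * c = 1 := by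
  decide +kernel

section count
variable {F : Type*} [Field F] [Fintype F] {K : Type*} [Field K] [Fintype K]

theorem fix_of_stable (hF : Fintype.card F = 3)
    (M : Matrix.SpecialLinearGroup (Fin 2) K → Matrix (Fin 2 ⊕ Fin 2) (Fin 2 ⊕ Fin 2) F)
    (hM1 : M 1 = 1) (hMmul : ∀ a b, M (a * b) = M a * M b)
    (u : Matrix.SpecialLinearGroup (Fin 2) K) (hu5 : u ^ 5 = 1) (hu1 : u ≠ 1)
    (A : AddSubgroup (Fin 2 ⊕ Fin 2 → F)) (hstab : ∀ c, ∀ v ∈ A, M c *ᵥ v ∈ A)
    (hA1 : A ≠ ⊥) (hAtop : A ≠ ⊤) : ∀ v ∈ A, M u *ᵥ v = v := by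
  classical
  haveI : Fact (Nat.Prime 5) := ⟨by norm_num⟩
  have hord : orderOf u = 5 := orderOf_eq_prime hu5 hu1
  have hP : IsPGroup 5 (Subgroup.zpowers u) := by
    apply IsPGroup.of_card (n := 1)
    rw [Nat.card_zpowers, hord, pow_one]
  letI : MulAction (Subgroup.zpowers u) A :=
    { smul := fun c v => ⟨M c.1 *ᵥ v.1, hstab c.1 v.1 v.2⟩
      one_smul := fun v => Subtype.ext (by
        show M 1 *ᵥ v.1 = v.1
        rw [hM1, Matrix.one_mulVec])
      mul_smul := fun a b v => Subtype.ext (by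
        show M (a.1 * b.1) *ᵥ v.1 = M a.1 *ᵥ (M b.1 *ᵥ v.1)
        rw [hMmul, Matrix.mulVec_mulVec]) }
  let B : AddSubgroup (Fin 2 ⊕ Fin 2 → F) :=
    { carrier := {v | v ∈ A ∧ ∀ c ∈ Subgroup.zpowers u, M c *ᵥ v = v}
      add_mem' := by
        rintro a b ⟨ha, ha'⟩ ⟨hb, hb'⟩
        exact ⟨A.add_mem ha hb, fun c hc => by rw [Matrix.mulVec_add, ha' c hc, hb' c hc]⟩
      zero_mem' := ⟨A.zero_mem, fun c _ => Matrix.mulVec_zero _⟩
      neg_mem' := by
        rintro a ⟨ha, ha'⟩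
        exact ⟨A.neg_mem ha, fun c hc => by rw [Matrix.mulVec_neg, ha' c hc]⟩ }
  have hBA : B ≤ A := fun v hv => hv.1
  have hcong := hP.card_modEq_card_fixedPoints A
  have hfix : Nat.card (MulAction.fixedPoints (Subgroup.zpowers u) A) = Nat.card B := by
    apply Nat.card_congr
    exact
      { toFun := fun x => ⟨x.1.1, x.1.2, fun c hc => congrArg Subtype.val (x.2 ⟨c, hc⟩)⟩
        invFun := fun b => ⟨⟨b.1, b.2.1⟩, fun c => Subtype.ext (b.2.2 c.1 c.2)⟩
        left_inv := fun x => rfl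
        right_inv := fun b => rfl }
  rw [hfix] at hcong
  have hAdvd : Nat.card A ∣ 3 ^ 4 := by
    have h1 := AddSubgroup.card_addSubgroup_dvd_card A
    have h2 : Nat.card (Fin 2 ⊕ Fin 2 → F) = 3 ^ 4 := by
      rw [Nat.card_eq_fintype_card, Fintype.card_fun, hF]
      simp
    rwa [h2] at h1
  have hBdvd : Nat.card B ∣ Nat.card A := AddSubgroup.card_dvd_of_le hBA
  have hA1' : Nat.card A ≠ 1 := fun h => hA1 ((AddSubgroup.eq_bot_iff_card A).2 h)
  have hA81 : Nat.card A ≠ 3 ^ 4 := by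
    intro h
    apply hAtop
    apply (AddSubgroup.card_eq_iff_eq_top A).1
    rw [h, Nat.card_eq_fintype_card, Fintype.card_fun, hF]
    simp
  have hkey : Nat.card A ≤ Nat.card B := by
    obtain ⟨k, hk, hk'⟩ := (Nat.dvd_prime_pow Nat.prime_three).1 hAdvd
    rw [hk'] at hBdvd hcong hA1' hA81 ⊢
    obtain ⟨j, hj, hj'⟩ := (Nat.dvd_prime_pow Nat.prime_three).1 hBdvd
    rw [hj'] at hcong ⊢
    interval_cases k <;> interval_cases j <;>
      first
        | exact le_refl _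
        | exact absurd rfl hA1'
        | exact absurd rfl hA81
        | exact absurd hcong (by decide)
  have hBeq : B = A := AddSubgroup.eq_of_le_of_card_ge hBA hkey
  intro v hv
  have hvB : v ∈ B := by
    rw [hBeq]
    exact hv
  exact hvB.2 u (Subgroup.mem_zpowers u)

theorem t_eq_neg_one (hF : Fintype.card F = 3) (hK : Fintype.card K = 5)
    (M : Matrix.SpecialLinearGroup (Fin 2) K → Matrix (Fin 2 ⊕ Fin 2) (Fin 2 ⊕ Fin 2) F)
    (hM1 : M 1 = 1) (hMmul : ∀ a b, M (a * b) = M a * M b) (hMinj : Function.Injective M)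
    (z : Matrix.SpecialLinearGroup (Fin 2) K) (hz2 : z * z = 1) (hz1 : z ≠ 1)
    (hzc : ∀ a, z * a = a * z) : M z = -1 := by
  haveI : CharP K 5 := charP_of_card 5 (by norm_num) hK
  haveI : CharP F 3 := charP_of_card 3 (by norm_num) hF
  have h2F : (2 : F) ≠ 0 := by
    intro h
    have h' : ((2 : ℕ) : F) = 0 := by exact_mod_cast h
    have := (CharP.cast_eq_zero_iff F 3 2).1 h'
    omega
  let u : Matrix.SpecialLinearGroup (Fin 2) K := ⟨!![1, 1; 0, 1], by simp [Matrix.det_fin_two_of]⟩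
  have hupow : ∀ n : ℕ, (u ^ n).1 = !![1, (n : K); 0, 1] := by
    intro n
    induction n with
    | zero => simp [Matrix.one_fin_two]
    | succ n ih =>
      rw [pow_succ]
      show (u ^ n).1 * u.1 = _
      rw [ih]
      show !![1, (n : K); 0, 1] * !![1, 1; 0, 1] = _
      rw [Matrix.mul_fin_two]
      simp
      ring
  have hu5 : u ^ 5 = 1 := by
    apply Subtype.ext
    rw [hupow 5]
    show !![1, ((5 : ℕ) : K); 0, 1] = 1
    rw [CharP.cast_eq_zero K 5, Matrix.one_fin_two]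
  have hu1 : u ≠ 1 := by
    intro h
    have := congrFun (congrFun (congrArg Subtype.val h) 0) 1
    simp [u] at this
  have htt : M z * M z = 1 := by rw [← hMmul, hz2, hM1]
  have ht1 : M z ≠ 1 := fun h => hz1 (hMinj (h.trans hM1.symm))
  have htc : ∀ a, M z * M a = M a * M z := fun a => by rw [← hMmul, ← hMmul, hzc]
  by_contra hneg
  let Ap : AddSubgroup (Fin 2 ⊕ Fin 2 → F) :=
    { carrier := {v | M z *ᵥ v = v}
      add_mem' := by
        intro a b ha hb
        have ha' : M z *ᵥ a = a := ha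
        have hb' : M z *ᵥ b = b := hb
        show M z *ᵥ (a + b) = a + b
        rw [Matrix.mulVec_add, ha', hb']
      zero_mem' := Matrix.mulVec_zero _
      neg_mem' := by
        intro a ha
        have ha' : M z *ᵥ a = a := ha
        show M z *ᵥ (-a) = -a
        rw [Matrix.mulVec_neg, ha'] }
  let Am : AddSubgroup (Fin 2 ⊕ Fin 2 → F) :=
    { carrier := {v | M z *ᵥ v = -v}
      add_mem' := by
        intro a b ha hb
        have ha' : M z *ᵥ a = -a := ha
        have hb' : M z *ᵥ b = -b := hb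
        show M z *ᵥ (a + b) = -(a + b)
        rw [Matrix.mulVec_add, ha', hb', neg_add]
      zero_mem' := by
        show M z *ᵥ 0 = -0
        rw [Matrix.mulVec_zero, neg_zero]
      neg_mem' := by
        intro a ha
        have ha' : M z *ᵥ a = -a := ha
        show M z *ᵥ (-a) = - -a
        rw [Matrix.mulVec_neg, ha'] }
  have hp_stab : ∀ c, ∀ v ∈ Ap, M c *ᵥ v ∈ Ap := by
    intro c v hv
    have hv' : M z *ᵥ v = v := hv
    show M z *ᵥ (M c *ᵥ v) = M c *ᵥ v
    rw [Matrix.mulVec_mulVec, htc, ← Matrix.mulVec_mulVec, hv']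
  have hm_stab : ∀ c, ∀ v ∈ Am, M c *ᵥ v ∈ Am := by
    intro c v hv
    have hv' : M z *ᵥ v = -v := hv
    show M z *ᵥ (M c *ᵥ v) = -(M c *ᵥ v)
    rw [Matrix.mulVec_mulVec, htc, ← Matrix.mulVec_mulVec, hv', Matrix.mulVec_neg]
  have hw1 : ∃ w, M z *ᵥ w ≠ -w := by
    by_contra hcon
    push_neg at hcon
    apply hneg
    apply mat_ext
    intro x
    rw [hcon x, Matrix.neg_mulVec, Matrix.one_mulVec]
  have hw2 : ∃ w, M z *ᵥ w ≠ w := by
    by_contra hcon
    push_neg at hcon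
    apply ht1
    apply mat_ext
    intro x
    rw [hcon x, Matrix.one_mulVec]
  have hzz : ∀ w, M z *ᵥ (M z *ᵥ w) = w := by
    intro w
    rw [Matrix.mulVec_mulVec, htt, Matrix.one_mulVec]
  have hpm : ∀ w, w + M z *ᵥ w ∈ Ap := by
    intro w
    show M z *ᵥ (w + M z *ᵥ w) = w + M z *ᵥ w
    rw [Matrix.mulVec_add, hzz, add_comm]
  have hmm : ∀ w, w - M z *ᵥ w ∈ Am := by
    intro w
    show M z *ᵥ (w - M z *ᵥ w) = -(w - M z *ᵥ w)
    rw [Matrix.mulVec_sub, hzz, neg_sub]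
  have hAp1 : Ap ≠ ⊥ := by
    obtain ⟨w, hw⟩ := hw1
    intro h
    have h1 : w + M z *ᵥ w ∈ (⊥ : AddSubgroup _) := h ▸ hpm w
    rw [AddSubgroup.mem_bot] at h1
    exact hw (eq_neg_of_add_eq_zero_right h1)
  have hAptop : Ap ≠ ⊤ := by
    obtain ⟨w, hw⟩ := hw2
    intro h
    have h1 : w ∈ Ap := h ▸ AddSubgroup.mem_top w
    exact hw h1
  have hAm1 : Am ≠ ⊥ := by
    obtain ⟨w, hw⟩ := hw2
    intro h
    have h1 : w - M z *ᵥ w ∈ (⊥ : AddSubgroup _) := h ▸ hmm w
    rw [AddSubgroup.mem_bot] at h1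
    exact hw (sub_eq_zero.1 h1).symm
  have hAmtop : Am ≠ ⊤ := by
    obtain ⟨w, hw⟩ := hw1
    intro h
    have h1 : w ∈ Am := h ▸ AddSubgroup.mem_top w
    exact hw h1
  have hfp := fix_of_stable hF M hM1 hMmul u hu5 hu1 Ap hp_stab hAp1 hAptop
  have hfm := fix_of_stable hF M hM1 hMmul u hu5 hu1 Am hm_stab hAm1 hAmtop
  apply hu1
  apply hMinj
  rw [hM1]
  apply mat_ext
  intro x
  rw [Matrix.one_mulVec]
  have e1 := hfp _ (hpm x)
  have e2 := hfm _ (hmm x)
  have e3 : M u *ᵥ ((2 : F) • x) = (2 : F) • x := by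
    have h4 : (2 : F) • x = (x + M z *ᵥ x) + (x - M z *ᵥ x) := by
      rw [two_smul]
      abel
    rw [h4, Matrix.mulVec_add, e1, e2]
  rw [Matrix.mulVec_smul] at e3
  exact smul_right_injective _ h2F e3

def negOne (K : Type*) [Field K] : Matrix.SpecialLinearGroup (Fin 2) K :=
  ⟨!![-1, 0; 0, -1], by simp [Matrix.det_fin_two_of]⟩

theorem negOne_mul_self : negOne K * negOne K = 1 := by
  apply Subtype.ext
  show !![(-1 : K), 0; 0, -1] * !![(-1 : K), 0; 0, -1] = 1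
  rw [Matrix.mul_fin_two, Matrix.one_fin_two]
  simp

theorem negOne_central (a : Matrix.SpecialLinearGroup (Fin 2) K) : negOne K * a = a * negOne K := by
  apply Subtype.ext
  show !![(-1 : K), 0; 0, -1] * a.1 = a.1 * !![(-1 : K), 0; 0, -1]
  ext i j
  fin_cases i <;> fin_cases j <;> simp [Matrix.mul_apply, Fin.sum_univ_two]

theorem negOne_ne_one (hK : Fintype.card K = 5) : negOne K ≠ 1 := by
  haveI : CharP K 5 := charP_of_card 5 (by norm_num) hK
  intro h
  have h1 := congrFun (congrFun (congrArg Subtype.val h) 0) 0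
  simp [negOne] at h1
  have h2 : ((2 : ℕ) : K) = 0 := by
    push_cast
    linear_combination (-1 : K) * h1
  have := (CharP.cast_eq_zero_iff K 5 2).1 h2
  omega

theorem exists_y (hK : Fintype.card K = 5) (x : Matrix.SpecialLinearGroup (Fin 2) K)
    (hx : orderOf x = 3) :
    ∃ y : Matrix.SpecialLinearGroup (Fin 2) K, y * y = negOne K ∧ x * y * x = y := by
  haveI : CharP K 5 := charP_of_card 5 (by norm_num) hK
  have h2K : (2 : K) ≠ 0 := by
    intro h
    have h' : ((2 : ℕ) : K) = 0 := by exact_mod_cast h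
    have := (CharP.cast_eq_zero_iff K 5 2).1 h'
    omega
  have hdet : x.1 0 0 * x.1 1 1 - x.1 0 1 * x.1 1 0 = 1 := by
    have := x.2
    rw [Matrix.det_fin_two] at this
    exact this
  have hx3 : x.1 * x.1 * x.1 = 1 := by
    have h := pow_orderOf_eq_one x
    rw [hx] at h
    have h' := congrArg Subtype.val h
    simpa [pow_succ] using h'
  have hx1 : x ≠ 1 := by
    intro h
    rw [h, orderOf_one] at hx
    omega
  have e00 := congrFun (congrFun hx3 0) 0
  have e01 := congrFun (congrFun hx3 0) 1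
  have e10 := congrFun (congrFun hx3 1) 0
  have e11 := congrFun (congrFun hx3 1) 1
  simp [Matrix.mul_apply, Fin.sum_univ_two] at e00 e01 e10 e11
  have h01 : ((x.1 0 0 + x.1 1 1) ^ 2 - 1) * x.1 0 1 = 0 := by
    linear_combination e01 + x.1 0 1 * hdet
  have h10 : ((x.1 0 0 + x.1 1 1) ^ 2 - 1) * x.1 1 0 = 0 := by
    linear_combination e10 + x.1 1 0 * hdet
  have h00 : ((x.1 0 0 + x.1 1 1) ^ 2 - 1) * x.1 0 0 - (x.1 0 0 + x.1 1 1) - 1 = 0 := by
    linear_combination e00 + (2 * x.1 0 0 + x.1 1 1) * hdet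
  have h11 : ((x.1 0 0 + x.1 1 1) ^ 2 - 1) * x.1 1 1 - (x.1 0 0 + x.1 1 1) - 1 = 0 := by
    linear_combination e11 + (x.1 0 0 + 2 * x.1 1 1) * hdet
  have htr : x.1 0 0 + x.1 1 1 = -1 := by
    by_cases hτ : (x.1 0 0 + x.1 1 1) ^ 2 - 1 = 0
    · linear_combination x.1 0 0 * hτ - h00
    · exfalso
      have hq : x.1 0 1 = 0 := (mul_eq_zero.1 h01).resolve_left hτ
      have hr : x.1 1 0 = 0 := (mul_eq_zero.1 h10).resolve_left hτ
      have hps : x.1 0 0 = x.1 1 1 := by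
        have h5 : ((x.1 0 0 + x.1 1 1) ^ 2 - 1) * (x.1 0 0 - x.1 1 1) = 0 := by
          linear_combination h00 - h11
        exact sub_eq_zero.1 ((mul_eq_zero.1 h5).resolve_left hτ)
      have hp2 : (x.1 0 0 - 1) * (x.1 0 0 + 1) = 0 := by
        linear_combination hdet + x.1 0 0 * hps + x.1 0 1 * hr
      rcases mul_eq_zero.1 hp2 with h | h
      · have hp : x.1 0 0 = 1 := sub_eq_zero.1 h
        apply hx1
        apply Subtype.ext
        show x.1 = 1
        rw [Matrix.eta_fin_two x.1, hq, hr, ← hps, hp, Matrix.one_fin_two]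
      · have hp : x.1 0 0 = -1 := eq_neg_of_add_eq_zero_left h
        have hs : x.1 1 1 = -1 := by rw [← hps, hp]
        rw [hp, hs] at h00
        apply h2K
        linear_combination (-1 : K) * h00
  -- transfer to ZMod 5
  let e : ZMod 5 ≃+* K := ZMod.ringEquivOfPrime K Nat.prime_five hK
  have h1' : e.symm (x.1 0 0) * e.symm (x.1 1 1) - e.symm (x.1 0 1) * e.symm (x.1 1 0) = 1 := by
    have := congrArg e.symm hdet
    simpa using this
  have h2' : e.symm (x.1 0 0) + e.symm (x.1 1 1) = -1 := by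
    have := congrArg e.symm htr
    simpa using this
  obtain ⟨a', b', c', ha, hb⟩ := dec5 _ _ _ _ h1' h2'
  have ha' : e a' * (x.1 0 0 - x.1 1 1) + e b' * x.1 1 0 + e c' * x.1 0 1 = 0 := by
    have := congrArg e ha
    simpa using this
  have hb' : -(e a' * e a') - e b' * e c' = 1 := by
    have := congrArg e hb
    simpa using this
  refine ⟨⟨!![e a', e b'; e c', -(e a')], by
    rw [Matrix.det_fin_two_of]
    linear_combination hb'⟩, ?_, ?_⟩
  · apply Subtype.ext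
    show !![e a', e b'; e c', -(e a')] * !![e a', e b'; e c', -(e a')] = !![(-1 : K), 0; 0, -1]
    ext i j
    fin_cases i <;> fin_cases j <;>
      first
        | (simp [Matrix.mul_apply, Fin.sum_univ_two]; done)
        | (simp [Matrix.mul_apply, Fin.sum_univ_two]; linear_combination (-1 : K) * hb')
        | (simp [Matrix.mul_apply, Fin.sum_univ_two]; ring)
  · apply Subtype.ext
    show x.1 * !![e a', e b'; e c', -(e a')] * x.1 = !![e a', e b'; e c', -(e a')]
    ext i j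
    fin_cases i <;> fin_cases j
    · simp [Matrix.mul_apply, Fin.sum_univ_two]
      linear_combination x.1 0 0 * ha' + e a' * hdet
    · simp [Matrix.mul_apply, Fin.sum_univ_two]
      linear_combination x.1 0 1 * ha' + e b' * hdet
    · simp [Matrix.mul_apply, Fin.sum_univ_two]
      linear_combination x.1 1 0 * ha' + e c' * hdet
    · simp [Matrix.mul_apply, Fin.sum_univ_two]
      linear_combination x.1 1 1 * ha' - e a' * hdet

end count

theorem even_finrank {n F : Type*} [Fintype n] [DecidableEq n] [Field F]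
    (hnosq : ∀ d : F, d * d ≠ -1) (Jy : Matrix n n F) (hJJ : Jy * Jy = -1)
    (U : Submodule F (n → F)) (hU : ∀ v ∈ U, Jy *ᵥ v ∈ U) : Even (Module.finrank F U) := by
  let f : U →ₗ[F] U := (Matrix.toLin' Jy).restrict (fun v hv => by
    rw [Matrix.toLin'_apply]
    exact hU v hv)
  have hff : f ∘ₗ f = (-1 : F) • LinearMap.id := by
    ext v : 2
    show Jy *ᵥ (Jy *ᵥ (v : n → F)) = (-1 : F) • (v : n → F)
    rw [Matrix.mulVec_mulVec, hJJ, Matrix.neg_mulVec, Matrix.one_mulVec, neg_one_smul]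
  have hdet : LinearMap.det f * LinearMap.det f = (-1 : F) ^ Module.finrank F U := by
    rw [← LinearMap.det_comp, hff, LinearMap.det_smul, LinearMap.det_id, mul_one]
  rcases Nat.even_or_odd (Module.finrank F U) with h | h
  · exact h
  · rw [h.neg_one_pow] at hdet
    exact absurd hdet (hnosq _)

theorem main {F : Type*} [Field F] [Fintype F] (hF : Fintype.card F = 3)
    {K : Type*} [Field K] [Fintype K] (hK : Fintype.card K = 5)
    (φ : Matrix.SpecialLinearGroup (Fin 2) K →* ↥(Matrix.symplecticGroup (Fin 2) F)) (hφ : Function.Injective φ)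
    (x : Matrix.SpecialLinearGroup (Fin 2) K) (hx : orderOf x = 3) :
    Module.finrank F ↥(LinearMap.ker (Matrix.toLin' ((φ x : Matrix (Fin 2 ⊕ Fin 2) (Fin 2 ⊕ Fin 2) F)) - LinearMap.id)) = 2 ∧
      ∀ v w : Fin 2 ⊕ Fin 2 → F, (φ x : Matrix (Fin 2 ⊕ Fin 2) (Fin 2 ⊕ Fin 2) F).mulVec v = v →
        (φ x : Matrix (Fin 2 ⊕ Fin 2) (Fin 2 ⊕ Fin 2) F).mulVec w = w →
          dotProduct v ((Matrix.J (Fin 2) F).mulVec w) = 0 := by
  classical
  haveI : CharP F 3 := charP_of_card 3 Nat.prime_three hF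
  have h3F : (3 : F) = 0 := by exact_mod_cast CharP.cast_eq_zero F 3
  have h2F : (2 : F) ≠ 0 := by
    intro h
    have h' : ((2 : ℕ) : F) = 0 := by exact_mod_cast h
    have := (CharP.cast_eq_zero_iff F 3 2).1 h'
    omega
  have hnosq : ∀ d : F, d * d ≠ -1 := by
    intro d h
    have hd3 : d ^ 3 = d := by
      have := FiniteField.pow_card d
      rwa [hF] at this
    have h1 : (1 : F) = -1 := by
      calc (1 : F) = (d * d) * (d * d) := by rw [h]; ring
        _ = d * d ^ 3 := by ring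
        _ = d * d := by rw [hd3]
        _ = -1 := h
    apply h2F
    linear_combination h1
  let M : Matrix.SpecialLinearGroup (Fin 2) K → Matrix (Fin 2 ⊕ Fin 2) (Fin 2 ⊕ Fin 2) F :=
    fun a => (φ a : Matrix (Fin 2 ⊕ Fin 2) (Fin 2 ⊕ Fin 2) F)
  have hM1 : M 1 = 1 := by
    show ((φ 1 : ↥(Matrix.symplecticGroup (Fin 2) F)) : Matrix (Fin 2 ⊕ Fin 2) (Fin 2 ⊕ Fin 2) F) = 1
    rw [map_one]
    rfl
  have hMmul : ∀ a b, M (a * b) = M a * M b := by
    intro a b
    show ((φ (a * b) : ↥(Matrix.symplecticGroup (Fin 2) F)) : Matrix (Fin 2 ⊕ Fin 2) (Fin 2 ⊕ Fin 2) F) = _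
    rw [map_mul]
    rfl
  have hMinj : Function.Injective M := fun a b h => hφ (Subtype.ext h)
  have hMsp : ∀ a, (M a)ᵀ * Matrix.J (Fin 2) F * M a = Matrix.J (Fin 2) F :=
    fun a => SymplecticGroup.mem_iff'.1 (φ a).2
  have hMz : M (negOne K) = -1 :=
    t_eq_neg_one hF hK M hM1 hMmul hMinj (negOne K) negOne_mul_self (negOne_ne_one hK) negOne_central
  obtain ⟨y, hyy, hxyx⟩ := exists_y hK x hx
  have hJJ : M y * M y = -1 := by rw [← hMmul, hyy, hMz]
  have hgJg : M x * M y * M x = M y := by rw [← hMmul, ← hMmul, hxyx]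
  have hg3 : M x * M x * M x = 1 := by
    rw [← hMmul, ← hMmul, ← hM1]
    congr 1
    have h := pow_orderOf_eq_one x
    rw [hx] at h
    rw [← h]
    simp [pow_succ]
  have hg1 : M x ≠ 1 := by
    intro h
    have h' := hMinj (h.trans hM1.symm)
    rw [h', orderOf_one] at hx
    omega
  have hinv : ∀ (A : Matrix (Fin 2 ⊕ Fin 2) (Fin 2 ⊕ Fin 2) F),
      Aᵀ * Matrix.J (Fin 2) F * A = Matrix.J (Fin 2) F →
      ∀ v w, (A *ᵥ v) ⬝ᵥ (Matrix.J (Fin 2) F *ᵥ (A *ᵥ w)) = v ⬝ᵥ (Matrix.J (Fin 2) F *ᵥ w) := by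
    intro A hA v w
    calc (A *ᵥ v) ⬝ᵥ (Matrix.J (Fin 2) F *ᵥ (A *ᵥ w))
        = (v ᵥ* Aᵀ) ⬝ᵥ (Matrix.J (Fin 2) F *ᵥ (A *ᵥ w)) := by rw [Matrix.vecMul_transpose]
      _ = v ⬝ᵥ (Aᵀ *ᵥ (Matrix.J (Fin 2) F *ᵥ (A *ᵥ w))) := (Matrix.dotProduct_mulVec v Aᵀ _).symm
      _ = v ⬝ᵥ ((Aᵀ * Matrix.J (Fin 2) F * A) *ᵥ w) := by
        rw [Matrix.mulVec_mulVec, Matrix.mulVec_mulVec]
      _ = v ⬝ᵥ (Matrix.J (Fin 2) F *ᵥ w) := by rw [hA]
  let W : Submodule F (Fin 2 ⊕ Fin 2 → F) :=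
    LinearMap.ker (Matrix.toLin' (M x) - LinearMap.id)
  have hW : ∀ v, v ∈ W ↔ M x *ᵥ v = v := by
    intro v
    show v ∈ LinearMap.ker (Matrix.toLin' (M x) - LinearMap.id) ↔ _
    rw [LinearMap.mem_ker, LinearMap.sub_apply, Matrix.toLin'_apply, LinearMap.id_apply, sub_eq_zero]
  have hWJ : ∀ v ∈ W, M y *ᵥ v ∈ W := by
    intro v hv
    rw [hW] at hv ⊢
    have h1 : (M x * M y * M x) *ᵥ v = M y *ᵥ v := by rw [hgJg]
    rw [← Matrix.mulVec_mulVec, ← Matrix.mulVec_mulVec, hv] at h1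
    exact h1
  let Wp : Submodule F (Fin 2 ⊕ Fin 2 → F) :=
    { carrier := {v | ∀ w ∈ W, v ⬝ᵥ (Matrix.J (Fin 2) F *ᵥ w) = 0}
      add_mem' := by
        intro a b ha hb w hw
        rw [add_dotProduct, ha w hw, hb w hw, add_zero]
      zero_mem' := fun w _ => zero_dotProduct _
      smul_mem' := by
        intro c a ha w hw
        rw [smul_dotProduct, ha w hw, smul_zero] }
  have hWpJ : ∀ v ∈ Wp, M y *ᵥ v ∈ Wp := by
    intro v hv w hw
    have hw' : -(M y *ᵥ w) ∈ W := W.neg_mem (hWJ w hw)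
    have e : M y *ᵥ (-(M y *ᵥ w)) = w := by
      rw [Matrix.mulVec_neg, Matrix.mulVec_mulVec, hJJ, Matrix.neg_mulVec, Matrix.one_mulVec, neg_neg]
    have h1 := hinv (M y) (hMsp y) v (-(M y *ᵥ w))
    rw [e] at h1
    rw [h1]
    exact hv _ hw'
  have hWe := even_finrank hnosq (M y) hJJ W hWJ
  have hRe := even_finrank hnosq (M y) hJJ (W ⊓ Wp) (fun v hv => ⟨hWJ v hv.1, hWpJ v hv.2⟩)
  have hexa : ∃ a, M x *ᵥ a ≠ a := by
    by_contra hcon
    push_neg at hcon
    apply hg1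
    apply mat_ext
    intro v
    rw [hcon v, Matrix.one_mulVec]
  have him : ∀ a, M x *ᵥ a - a ∈ Wp := by
    intro a w hw
    have hw' : M x *ᵥ w = w := (hW w).1 hw
    rw [sub_dotProduct]
    have h1 := hinv (M x) (hMsp x) a w
    rw [hw'] at h1
    rw [h1, sub_self]
  have hg3a : ∀ v, M x *ᵥ (M x *ᵥ (M x *ᵥ v)) = v := by
    intro v
    rw [Matrix.mulVec_mulVec, Matrix.mulVec_mulVec, hg3, Matrix.one_mulVec]
  have hex : ∃ v₀, v₀ ≠ 0 ∧ v₀ ∈ W ∧ v₀ ∈ Wp := by
    obtain ⟨a, ha⟩ := hexa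
    by_cases h1 : M x *ᵥ (M x *ᵥ a - a) = M x *ᵥ a - a
    · exact ⟨_, sub_ne_zero.2 ha, (hW _).2 h1, him a⟩
    · by_cases h2 : M x *ᵥ (M x *ᵥ (M x *ᵥ a - a) - (M x *ᵥ a - a)) =
          M x *ᵥ (M x *ᵥ a - a) - (M x *ᵥ a - a)
      · exact ⟨_, sub_ne_zero.2 h1, (hW _).2 h2, him _⟩
      · exfalso
        apply h2
        rw [← sub_eq_zero]
        have key : M x *ᵥ (M x *ᵥ (M x *ᵥ a - a) - (M x *ᵥ a - a)) -
            (M x *ᵥ (M x *ᵥ a - a) - (M x *ᵥ a - a)) =
            (3 : F) • (M x *ᵥ a - M x *ᵥ (M x *ᵥ a)) := by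
          simp only [Matrix.mulVec_sub, hg3a]
          module
        rw [key, h3F, zero_smul]
  obtain ⟨v₀, hv0, hv0W, hv0p⟩ := hex
  have hR1 : 0 < Module.finrank F ↥(W ⊓ Wp) := by
    rw [Module.finrank_pos_iff_exists_ne_zero]
    exact ⟨⟨v₀, hv0W, hv0p⟩, fun h => hv0 (congrArg Subtype.val h)⟩
  have hRW : Module.finrank F ↥(W ⊓ Wp) ≤ Module.finrank F W :=
    Submodule.finrank_mono inf_le_left
  have hWtop : W ≠ ⊤ := by
    intro h
    obtain ⟨a, ha⟩ := hexa
    have h1 : a ∈ W := h ▸ Submodule.mem_top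
    exact ha ((hW a).1 h1)
  have hW4 : Module.finrank F W < 4 := by
    have h1 := Submodule.finrank_lt hWtop
    rw [Module.finrank_fintype_fun_eq_card] at h1
    simpa using h1
  obtain ⟨kR, hkR⟩ := hRe
  obtain ⟨kW, hkW⟩ := hWe
  have hW2 : Module.finrank F W = 2 := by omega
  have hR2 : Module.finrank F ↥(W ⊓ Wp) = Module.finrank F W := by omega
  have hReq : W ⊓ Wp = W := Submodule.eq_of_le_of_finrank_eq inf_le_left hR2
  refine ⟨hW2, ?_⟩
  intro v w hv hw
  have hvW : v ∈ W := (hW v).2 hv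
  have hwW : w ∈ W := (hW w).2 hw
  have hvR : v ∈ W ⊓ Wp := by
    rw [hReq]
    exact hvW
  exact hvR.2 w hwW

theorem result {F : Type*} [Field F] [Fintype F] (hF : Fintype.card F = 3)
    {K : Type*} [Field K] [Fintype K] (hK : Fintype.card K = 5)
    (φ : Matrix.SpecialLinearGroup (Fin 2) K →* ↥(Matrix.symplecticGroup (Fin 2) F)) (hφ : Function.Injective φ)
    (x : Matrix.SpecialLinearGroup (Fin 2) K) (hx : orderOf x = 3) :
    Module.finrank F ↥(LinearMap.ker (Matrix.toLin' ((φ x : Matrix (Fin 2 ⊕ Fin 2) (Fin 2 ⊕ Fin 2) F)) - LinearMap.id)) = 2 ∧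
      ∀ v w : Fin 2 ⊕ Fin 2 → F, (φ x : Matrix (Fin 2 ⊕ Fin 2) (Fin 2 ⊕ Fin 2) F).mulVec v = v →
        (φ x : Matrix (Fin 2 ⊕ Fin 2) (Fin 2 ⊕ Fin 2) F).mulVec w = w →
          dotProduct v ((Matrix.J (Fin 2) F).mulVec w) = 0 := by
  exact main hF hK φ hφ x hx

end Cfsg.Agent.S3213
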