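import Cfsg.Statements.S3215
import Mathlib
import Cfsg.Agent.Lib.Helper2.Comp
import Cfsg.Agent.Lib.Helper2.PCons
import Cfsg.Agent.Lib.Helper2.AxB
import Cfsg.Agent.Lib.Helper2.CoprimeAct2
import Cfsg.Agent.Lib.Helper1.Frob
import Cfsg.Agent.Lib.Helper1.FrobC
import Cfsg.Agent.Lib.Helper1.UniqP
import Cfsg.Agent.Lib.Helper5.PCore

set_option autoImplicit false
open Cfsg

namespace Cfsg.Agent.S3215

open Cfsg.Agent.Lib.Helper2 Cfsg.Agent.Lib.Helper1

theorem lemA {H : Type*} [Group H] [Finite H]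
    (hI : ∀ t : H, orderOf t = 2 → Cfsg.HasNormalPComplement 2 ↥(Subgroup.centralizer ({t} : Set H)))
    (t d z : H) (ht : orderOf t = 2) (hd : Odd (orderOf d)) (hdt : d * t = t * d)
    (hz : z ∈ Cfsg.pCore 2 H) (hzt : z * t = t * z) : d * z = z * d := by
  haveI : Fact (Nat.Prime 2) := ⟨Nat.prime_two⟩
  obtain ⟨P, N, hNn, hNP⟩ := hI t ht
  haveI := hNn
  have hdC : d ∈ Subgroup.centralizer ({t} : Set H) := by
    rw [Subgroup.mem_centralizer_iff]
    intro g hg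
    rw [Set.mem_singleton_iff] at hg
    rw [hg]
    exact hdt.symm
  have hzC : z ∈ Subgroup.centralizer ({t} : Set H) := by
    rw [Subgroup.mem_centralizer_iff]
    intro g hg
    rw [Set.mem_singleton_iff] at hg
    rw [hg]
    exact hzt.symm
  obtain ⟨a, ha⟩ := IsPGroup.iff_card.1 P.isPGroup'
  have hidx : N.index = 2 ^ a := by
    rw [← ha]
    exact hNP.symm.index_eq_card
  have hNcop : (Nat.card N).Coprime 2 := by
    rw [← hNP.index_eq_card, Nat.coprime_comm, Nat.Prime.coprime_iff_not_dvd Nat.prime_two]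
    exact P.not_dvd_index
  haveI hYn : (Cfsg.pCore 2 H).Normal := Fit.pCore_normal 2
  have hQ : IsPGroup 2 ((Cfsg.pCore 2 H).subgroupOf (Subgroup.centralizer ({t} : Set H))) :=
    (Fit.pCore_isPGroup 2).comap_subtype
  have hQn : ((Cfsg.pCore 2 H).subgroupOf (Subgroup.centralizer ({t} : Set H))).Normal := inferInstance
  have hg : (⟨d, hdC⟩ : Subgroup.centralizer ({t} : Set H)) ∈
      Subgroup.normalizer (((Cfsg.pCore 2 H).subgroupOf (Subgroup.centralizer ({t} : Set H)) :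
        Subgroup ↥(Subgroup.centralizer ({t} : Set H))) : Set ↥(Subgroup.centralizer ({t} : Set H))) := by
    rw [Subgroup.normalizer_eq_top_iff.2 hQn]
    exact Subgroup.mem_top _
  have hgo : (orderOf (⟨d, hdC⟩ : Subgroup.centralizer ({t} : Set H))).Coprime 2 := by
    rw [Subgroup.orderOf_mk]
    exact Nat.coprime_two_right.2 hd
  have hcen := Frob.centralizes_of_normal_coprime N hNcop hidx _ hQ _ hg hgo
  have h3 := (Subgroup.mem_centralizer_iff.1 hcen) ⟨z, hzC⟩ (Subgroup.mem_subgroupOf.2 hz)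
  exact (congrArg Subtype.val h3).symm

theorem invol_pow {H : Type*} [Group H] (y : H) (k : ℕ) (hk : orderOf y = 2 ^ (k + 1)) :
    orderOf (y ^ (2 ^ k)) = 2 := by
  rw [orderOf_pow' _ (pow_ne_zero k (by norm_num : (2:ℕ) ≠ 0)), hk,
    Nat.gcd_eq_right (pow_dvd_pow 2 (Nat.le_succ k)), pow_succ,
    Nat.mul_div_cancel_left _ (pow_pos (by norm_num) k)]

theorem order_two_pow {H : Type*} [Group H] (Q : Subgroup H) (hQ : IsPGroup 2 Q)
    (x : H) (hx : x ∈ Q) (hx1 : x ≠ 1) : ∃ k : ℕ, orderOf x = 2 ^ (k + 1) := by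
  obtain ⟨j, hj⟩ := hQ ⟨x, hx⟩
  have hj' : x ^ 2 ^ j = 1 := by
    have := congrArg Subtype.val hj
    simpa using this
  obtain ⟨m, hm, hmo⟩ := (Nat.dvd_prime_pow Nat.prime_two).1 (orderOf_dvd_of_pow_eq_one hj')
  cases m with
  | zero =>
    exfalso
    rw [pow_zero, orderOf_eq_one_iff] at hmo
    exact hx1 hmo
  | succ m => exact ⟨m, hmo⟩

theorem part1 {H : Type*} [Group H] [Finite H]
    (hself : Subgroup.centralizer (Cfsg.pCore 2 H : Set H) ≤ Cfsg.pCore 2 H)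
    (hI : ∀ t : H, orderOf t = 2 → Cfsg.HasNormalPComplement 2 ↥(Subgroup.centralizer ({t} : Set H)))
    (d y : H) (hd : Odd (orderOf d)) (hd1 : d ≠ 1) (hy : y ∈ Cfsg.pCore 2 H) (hy1 : y ≠ 1) :
    d * y ≠ y * d := by
  haveI : Fact (Nat.Prime 2) := ⟨Nat.prime_two⟩
  intro hdy
  haveI hYn : (Cfsg.pCore 2 H).Normal := Fit.pCore_normal 2
  have hYp : IsPGroup 2 (Cfsg.pCore 2 H) := Fit.pCore_isPGroup 2
  obtain ⟨k, hk⟩ := order_two_pow _ hYp y hy hy1
  have ht := invol_pow y k hk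
  obtain ⟨t, htdef⟩ : ∃ t : H, t = y ^ 2 ^ k := ⟨_, rfl⟩
  rw [← htdef] at ht
  have htY : t ∈ Cfsg.pCore 2 H := by
    rw [htdef]
    exact Subgroup.pow_mem _ hy _
  have hdt : d * t = t * d := by
    rw [htdef]
    exact (Commute.pow_right (show Commute d y from hdy) _).eq
  have hcop : (orderOf d).Coprime 2 := Nat.coprime_two_right.2 hd
  have hP : IsPGroup 2 (Subgroup.zpowers t) := by
    apply IsPGroup.of_card (n := 1)
    rw [Nat.card_zpowers, ht, pow_one]
  have hnormtop : Subgroup.normalizer ((Cfsg.pCore 2 H : Subgroup H) : Set H) = ⊤ :=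
    Subgroup.normalizer_eq_top_iff.2 hYn
  have hle := AxB.axb (Cfsg.pCore 2 H) (Subgroup.zpowers t) (Subgroup.zpowers d) hYp hP
    (by rw [hnormtop]; exact le_top) (by rw [hnormtop]; exact le_top) ?_ ?_ ?_
  · have hdmem : d ∈ Cfsg.pCore 2 H := hself (hle (Subgroup.mem_zpowers d))
    exact hd1 (Frob.eq_one_of_pgroup_of_coprime hYp hdmem hcop)
  · rw [Subgroup.commutator_eq_bot_iff_le_centralizer, Subgroup.zpowers_le, Subgroup.mem_centralizer_iff]
    intro h hh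
    have h5 : Subgroup.zpowers t ≤ Subgroup.centralizer ({d} : Set H) := by
      rw [Subgroup.zpowers_le, Subgroup.mem_centralizer_iff]
      intro g hg
      rw [Set.mem_singleton_iff] at hg
      rw [hg]
      exact hdt
    exact ((Subgroup.mem_centralizer_iff.1 (h5 hh)) d rfl).symm
  · rw [Subgroup.commutator_eq_bot_iff_le_centralizer, Subgroup.zpowers_le, Subgroup.mem_centralizer_iff]
    intro z hz
    have hz' := Subgroup.mem_inf.1 hz
    have hzt : z * t = t * z :=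
      ((Subgroup.mem_centralizer_iff.1 hz'.2) t (Subgroup.mem_zpowers t)).symm
    exact (lemA hI t d z ht hd hdt hz'.1 hzt).symm
  · intro M _ h2
    rw [Subgroup.zpowers_le]
    exact h2 d (Subgroup.mem_zpowers d) hcop

theorem exists_fixed {H : Type*} [Group H] [Finite H] (t : H) (ht : orderOf t = 2)
    (hY : Cfsg.pCore 2 H ≠ ⊥) : ∃ z ∈ Cfsg.pCore 2 H, z ≠ 1 ∧ z * t = t * z := by
  classical
  haveI : Fact (Nat.Prime 2) := ⟨Nat.prime_two⟩
  haveI hYn : (Cfsg.pCore 2 H).Normal := Fit.pCore_normal 2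
  have hYp : IsPGroup 2 (Cfsg.pCore 2 H) := Fit.pCore_isPGroup 2
  by_contra hall
  push Not at hall
  have hS : IsPGroup 2 (Subgroup.zpowers t) := by
    apply IsPGroup.of_card (n := 1)
    rw [Nat.card_zpowers, ht, pow_one]
  let f : ↥(Subgroup.zpowers t) →* MulAut ↥(Cfsg.pCore 2 H) :=
    (MulAut.conjNormal (H := Cfsg.pCore 2 H)).comp (Subgroup.zpowers t).subtype
  letI : MulAction ↥(Subgroup.zpowers t) ↥(Cfsg.pCore 2 H) := MulAction.compHom _ f
  have h1 := IsPGroup.card_modEq_card_fixedPoints hS (α := ↥(Cfsg.pCore 2 H))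
  have h2 : Nat.card (MulAction.fixedPoints ↥(Subgroup.zpowers t) ↥(Cfsg.pCore 2 H)) = 1 := by
    rw [Nat.card_eq_one_iff_unique]
    have hone : ∀ k : ↥(Cfsg.pCore 2 H),
        k ∈ MulAction.fixedPoints ↥(Subgroup.zpowers t) ↥(Cfsg.pCore 2 H) → k = 1 := by
      intro k hk
      have h3 : f ⟨t, Subgroup.mem_zpowers t⟩ k = k := hk ⟨t, Subgroup.mem_zpowers t⟩
      have h4 : t * (k : H) * t⁻¹ = k := by
        have := congrArg Subtype.val h3
        simpa [f, MulAut.conjNormal_apply] using this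
      by_contra hk1
      apply hall (k : H) k.2 (fun h => hk1 (Subtype.ext h))
      calc (k : H) * t = (t * (k : H) * t⁻¹) * t := by rw [h4]
        _ = t * k := by group
    refine ⟨⟨fun a b => Subtype.ext ((hone a.1 a.2).trans (hone b.1 b.2).symm)⟩, ⟨⟨1, fun s => ?_⟩⟩⟩
    exact map_one (f s)
  rw [h2] at h1
  obtain ⟨k, hk⟩ := IsPGroup.iff_card.1 hYp
  have hk0 : k ≠ 0 := by
    rintro rfl
    rw [pow_zero] at hk
    exact hY ((Subgroup.card_eq_one).1 hk)
  have hdvd : 2 ∣ Nat.card ↥(Cfsg.pCore 2 H) := by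
    rw [hk]
    exact dvd_pow_self 2 hk0
  have h6 : Nat.card ↥(Cfsg.pCore 2 H) % 2 = 1 % 2 := h1
  omega

theorem lemK {H : Type*} [Group H] [Finite H]
    (hself : Subgroup.centralizer (Cfsg.pCore 2 H : Set H) ≤ Cfsg.pCore 2 H)
    (hI : ∀ t : H, orderOf t = 2 → Cfsg.HasNormalPComplement 2 ↥(Subgroup.centralizer ({t} : Set H)))
    (hY : Cfsg.pCore 2 H ≠ ⊥)
    (v d : H) (hv : ∃ k : ℕ, orderOf v = 2 ^ k) (hv1 : v ≠ 1) (hd : Odd (orderOf d)) (hd1 : d ≠ 1)
    (hvd : v * d = d * v) : False := by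
  obtain ⟨k, hk⟩ := hv
  cases k with
  | zero =>
    rw [pow_zero, orderOf_eq_one_iff] at hk
    exact hv1 hk
  | succ k =>
    have ht := invol_pow v k hk
    have hdt : d * (v ^ 2 ^ k) = (v ^ 2 ^ k) * d :=
      (Commute.pow_right (show Commute d v from hvd.symm) _).eq
    obtain ⟨z, hz, hz1, hzt⟩ := exists_fixed (v ^ 2 ^ k) ht hY
    exact part1 hself hI d z hd hd1 hz hz1 (lemA hI _ d z ht hd hdt hz hzt)

theorem sylow_cyclic {G : Type*} [Group G] [Finite G] (K X : Subgroup G) [K.Normal] (hK : K ≠ ⊥)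
    (hXodd : Odd (Nat.card X))
    (hfpf : ∀ h ∈ X, h ≠ 1 → ∀ k ∈ K, h * k = k * h → k = 1)
    (p : ℕ) [Fact p.Prime] (P : Sylow p X) : IsCyclic (P : Subgroup X) := by
  classical
  have hp : p.Prime := Fact.out
  have hG : IsPGroup p (P : Subgroup X) := P.isPGroup'
  have huniq : ∀ A B : Subgroup (P : Subgroup X), Nat.card A = p → Nat.card B = p → A = B := by
    apply Cfsg.Agent.Lib.Helper1.FrobC.uniq_of_central hG
    intro a z hoa hoz haz
    by_contra hnot
    have hap : a ^ p = 1 := by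
      have h' := pow_orderOf_eq_one a
      rw [hoa] at h'
      exact h'
    have hzp : z ^ p = 1 := by
      have h' := pow_orderOf_eq_one z
      rw [hoz] at h'
      exact h'
    have hne1 : ∀ i j : ℕ, ¬ (p ∣ i ∧ p ∣ j) → a ^ i * z ^ j ≠ 1 := by
      intro i j hij h1
      by_cases hi : p ∣ i
      · have hai : a ^ i = 1 := by
          rw [← hoa] at hi
          exact orderOf_dvd_iff_pow_eq_one.1 hi
        rw [hai, one_mul] at h1
        have := orderOf_dvd_of_pow_eq_one h1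
        rw [hoz] at this
        exact hij ⟨hi, this⟩
      · have hcop : Nat.Coprime i p := ((Nat.coprime_comm).1 ((Nat.Prime.coprime_iff_not_dvd hp).2 hi))
        obtain ⟨m, -, hm⟩ := Nat.exists_mul_mod_eq_one_of_coprime hcop hp.one_lt
        have hai : a ^ i ∈ Subgroup.zpowers z := by
          have : a ^ i = (z ^ j)⁻¹ := eq_inv_of_mul_eq_one_left h1
          rw [this]
          exact inv_mem (Subgroup.pow_mem _ (Subgroup.mem_zpowers z) _)
        apply hnot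
        have e : a = (a ^ i) ^ m := by
          rw [← pow_mul, ← pow_mod_orderOf, hoa, hm, pow_one]
        rw [e]
        exact Subgroup.pow_mem _ hai _
    apply Cfsg.Agent.Lib.Helper1.FrobC.no_rank_two K hK p
      ((P : Subgroup X).map X.subtype) (hG.map X.subtype)
      ((a : X) : G) ((z : X) : G) ⟨(a : X), a.2, rfl⟩ ⟨(z : X), z.2, rfl⟩
    · have := congrArg (fun x : (P : Subgroup X) => ((x : X) : G)) haz
      simpa using this
    · have := congrArg (fun x : (P : Subgroup X) => ((x : X) : G)) hap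
      simpa using this
    · have := congrArg (fun x : (P : Subgroup X) => ((x : X) : G)) hzp
      simpa using this
    · intro i j hij k hk hcomm
      have hg1 : (((a ^ i * z ^ j : (P : Subgroup X)) : X) : G) ≠ 1 := by
        intro h
        apply hne1 i j hij
        apply Subtype.ext
        apply Subtype.ext
        exact h
      have hgH : (((a ^ i * z ^ j : (P : Subgroup X)) : X) : G) ∈ X := (a ^ i * z ^ j : (P : Subgroup X)).1.2
      apply hfpf _ hgH hg1 k hk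
      have := hcomm
      simpa using this
  rcases Cfsg.Agent.Lib.Helper1.UniqP.cyclic_or_quat hG huniq with h | ⟨-, n, ⟨e⟩⟩
  · exact h
  · exfalso
    haveI : NeZero (2 ^ n) := ⟨pow_ne_zero n two_ne_zero⟩
    have hc : Nat.card (P : Subgroup X) = 4 * 2 ^ n := by
      rw [Nat.card_congr e.toEquiv, Nat.card_eq_fintype_card, QuaternionGroup.card]
    have hdvd : Nat.card (P : Subgroup X) ∣ Nat.card X := Subgroup.card_subgroup_dvd_card _
    rw [hc] at hdvd
    have h2 : 2 ∣ Nat.card X := dvd_trans ⟨2 * 2 ^ n, by ring⟩ hdvd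
    rw [Nat.odd_iff] at hXodd
    omega

theorem oddsub {G : Type*} [Group G] [Finite G] (A N : Subgroup G) [N.Normal]
    (hA : Odd (Nat.card A)) (hAi : ∃ k : ℕ, A.index = 2 ^ k) (hN : Odd (Nat.card N)) : N ≤ A := by
  have hK : Nat.card (A ⊔ N : Subgroup G) = Nat.card N * N.relIndex (A ⊔ N) := by
    have h1 := Subgroup.relIndex_mul_index (le_sup_right : N ≤ A ⊔ N)
    have h2 := Subgroup.card_mul_index N
    have h3 := Subgroup.card_mul_index (A ⊔ N)
    have hpos : 0 < (A ⊔ N).index := Nat.pos_of_ne_zero Subgroup.index_ne_zero_of_finite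
    have h4 : Nat.card (A ⊔ N : Subgroup G) * (A ⊔ N).index =
        Nat.card N * N.relIndex (A ⊔ N) * (A ⊔ N).index := by
      rw [h3, mul_assoc, h1, h2]
    exact Nat.eq_of_mul_eq_mul_right hpos h4
  have hrel : N.relIndex (A ⊔ N) = N.relIndex A := Subgroup.relIndex_sup_right A N
  have hodd : Odd (Nat.card (A ⊔ N : Subgroup G)) := by
    rw [hK, hrel]
    exact hN.mul (hA.of_dvd_nat (Subgroup.relIndex_dvd_card N A))
  obtain ⟨k, hk⟩ := hAi
  have hd1 : A.relIndex (A ⊔ N) ∣ 2 ^ k := by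
    rw [← hk]
    exact Subgroup.relIndex_dvd_index_of_le le_sup_left
  have hd2 : A.relIndex (A ⊔ N) ∣ Nat.card (A ⊔ N : Subgroup G) := Subgroup.relIndex_dvd_card A (A ⊔ N)
  obtain ⟨j, hj, hjr⟩ := (Nat.dvd_prime_pow Nat.prime_two).1 hd1
  have hj0 : j = 0 := by
    by_contra hj0
    have h5 : 2 ∣ A.relIndex (A ⊔ N) := by
      rw [hjr]
      exact dvd_pow_self 2 hj0
    have h6 := h5.trans hd2
    rw [Nat.odd_iff] at hodd
    omega
  rw [hj0, pow_zero] at hjr
  exact le_sup_right.trans (Subgroup.relIndex_eq_one.1 hjr)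

theorem part34 {H : Type*} [Group H] [Finite H] [Group.IsSolvable H]
    (hself : Subgroup.centralizer (Cfsg.pCore 2 H : Set H) ≤ Cfsg.pCore 2 H)
    (hI : ∀ t : H, orderOf t = 2 → Cfsg.HasNormalPComplement 2 ↥(Subgroup.centralizer ({t} : Set H)))
    (hY : Cfsg.pCore 2 H ≠ ⊥)
    (hp1 : ∀ x : H, Odd (orderOf x) → x ≠ 1 → ∀ y ∈ Cfsg.pCore 2 H, y ≠ 1 → x * y ≠ y * x)
    (X : Subgroup H) (hXodd : Odd (Nat.card X)) (hXidx : ∃ k : ℕ, X.index = 2 ^ k)
    (hZ : IsZGroup ↥X) :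
    (X ⊔ Cfsg.pCore 2 H).Normal ∧
      ∀ hN : (X ⊔ Cfsg.pCore 2 H).Normal, IsCyclic (H ⧸ (X ⊔ Cfsg.pCore 2 H)) ∧ IsPGroup 2 (H ⧸ (X ⊔ Cfsg.pCore 2 H)) := by
  classical
  haveI : Fact (Nat.Prime 2) := ⟨Nat.prime_two⟩
  haveI hYn : (Cfsg.pCore 2 H).Normal := Fit.pCore_normal 2
  have hYp : IsPGroup 2 (Cfsg.pCore 2 H) := Fit.pCore_isPGroup 2
  obtain ⟨π, hπ⟩ : ∃ π : H →* H ⧸ Cfsg.pCore 2 H, π = QuotientGroup.mk' (Cfsg.pCore 2 H) := ⟨_, rfl⟩
  have hπs : Function.Surjective π := by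
    rw [hπ]
    exact QuotientGroup.mk'_surjective _
  have hπk : π.ker = Cfsg.pCore 2 H := by
    rw [hπ]
    exact QuotientGroup.ker_mk' _
  have hπ1 : ∀ g : H, π g = 1 ↔ g ∈ Cfsg.pCore 2 H := by
    intro g
    constructor
    · intro h
      have h0 : g ∈ π.ker := MonoidHom.mem_ker.2 h
      rwa [hπk] at h0
    · intro h
      have h0 : g ∈ π.ker := by
        rw [hπk]
        exact h
      exact MonoidHom.mem_ker.1 h0
  haveI : Group.IsSolvable (H ⧸ Cfsg.pCore 2 H) := solvable_of_surjective hπs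
  have hQ2 : Cfsg.pCore 2 (H ⧸ Cfsg.pCore 2 H) = ⊥ := by
    rw [eq_bot_iff]
    apply sSup_le
    rintro N ⟨hNn, hNp⟩
    have h1 : N.comap π ≤ Cfsg.pCore 2 H := by
      apply le_sSup
      refine ⟨hNn.comap π, ?_⟩
      apply IsPGroup.comap_of_ker_isPGroup hNp π
      rw [hπk]
      exact hYp
    intro x hx
    obtain ⟨g, rfl⟩ := hπs x
    have hg : g ∈ N.comap π := hx
    rw [Subgroup.mem_bot, hπ1]
    exact h1 hg
  have hlayerQ : Cfsg.layer (H ⧸ Cfsg.pCore 2 H) = ⊥ := Comp.layer_eq_bot_of_solvable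
  obtain ⟨F, hF⟩ : ∃ F : Subgroup (H ⧸ Cfsg.pCore 2 H),
      F = Cfsg.fittingSubgroup (H ⧸ Cfsg.pCore 2 H) := ⟨_, rfl⟩
  have hFself : Subgroup.centralizer (F : Set (H ⧸ Cfsg.pCore 2 H)) ≤ F := by
    have h := Comp.centralizer_genFitting_le (G := H ⧸ Cfsg.pCore 2 H)
    unfold Cfsg.generalizedFittingSubgroup at h
    rw [hlayerQ, bot_sup_eq, ← hF] at h
    exact h
  haveI hFn : F.Normal := by
    rw [hF]
    exact Fit.fitting_normal
  haveI hFnil : Group.IsNilpotent ↥F := by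
    rw [hF]
    exact Fit.fitting_nilpotent
  obtain ⟨Xb, hXb⟩ : ∃ Xb : Subgroup (H ⧸ Cfsg.pCore 2 H), Xb = X.map π := ⟨_, rfl⟩
  have hXbodd : Odd (Nat.card Xb) := by
    rw [hXb]
    exact hXodd.of_dvd_nat (Subgroup.card_map_dvd X π)
  have hXbidx : ∃ k : ℕ, Xb.index = 2 ^ k := by
    obtain ⟨k, hk⟩ := hXidx
    have hd : Xb.index ∣ 2 ^ k := by
      rw [hXb, ← hk]
      exact Subgroup.index_map_dvd X hπs
    obtain ⟨j, -, hj⟩ := (Nat.dvd_prime_pow Nat.prime_two).1 hd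
    exact ⟨j, hj⟩
  have hFX : F ≤ Xb := by
    rw [hF, Fit.fitting_eq_iSup_pCore]
    apply iSup_le
    intro p
    haveI : Fact (p : ℕ).Prime := ⟨p.2⟩
    by_cases hp2 : (p : ℕ) = 2
    · rw [hp2, hQ2]
      exact bot_le
    · haveI : (Cfsg.pCore (p : ℕ) (H ⧸ Cfsg.pCore 2 H)).Normal := Fit.pCore_normal _
      apply oddsub Xb _ hXbodd hXbidx
      obtain ⟨n, hn⟩ := IsPGroup.iff_card.1 (Fit.pCore_isPGroup (p : ℕ) (G := H ⧸ Cfsg.pCore 2 H))
      rw [hn]
      apply Odd.pow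
      exact p.2.odd_of_ne_two hp2
  haveI hZX : IsZGroup ↥X := hZ
  haveI hZXb : IsZGroup ↥Xb := by
    rw [hXb]
    exact IsZGroup.of_surjective (f := π.subgroupMap X) (π.subgroupMap_surjective X)
  haveI hZF : IsZGroup ↥F :=
    IsZGroup.of_injective (f := Subgroup.inclusion hFX) (Subgroup.inclusion_injective hFX)
  haveI hFcyc : IsCyclic ↥F := inferInstance
  have hFcomm : ∀ a b : ↥F, a * b = b * a := by
    intro a b
    obtain ⟨g, hg⟩ := IsCyclic.exists_generator (α := ↥F)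
    obtain ⟨m, rfl⟩ := Subgroup.mem_zpowers_iff.1 (hg a)
    obtain ⟨n, rfl⟩ := Subgroup.mem_zpowers_iff.1 (hg b)
    rw [← zpow_add, ← zpow_add, add_comm]
  have hFodd : Odd (Nat.card F) := hXbodd.of_dvd_nat (Subgroup.card_dvd_of_le hFX)
  have hcomm : ∀ g h : H ⧸ Cfsg.pCore 2 H, g⁻¹ * h⁻¹ * g * h ∈ F := by
    intro g h
    apply hFself
    obtain ⟨m, hm⟩ := MonoidHom.map_cyclic ((MulAut.conjNormal g : MulAut ↥F).toMonoidHom)
    obtain ⟨n, hn⟩ := MonoidHom.map_cyclic ((MulAut.conjNormal h : MulAut ↥F).toMonoidHom)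
    have hm' : ∀ f : H ⧸ Cfsg.pCore 2 H, f ∈ F → g * f * g⁻¹ = f ^ m := by
      intro f hf
      have := congrArg Subtype.val (hm ⟨f, hf⟩)
      simpa [MulAut.conjNormal_apply] using this
    have hn' : ∀ f : H ⧸ Cfsg.pCore 2 H, f ∈ F → h * f * h⁻¹ = f ^ n := by
      intro f hf
      have := congrArg Subtype.val (hn ⟨f, hf⟩)
      simpa [MulAut.conjNormal_apply] using this
    rw [Subgroup.mem_centralizer_iff]
    intro f hf
    have e1 : g * (h * f * h⁻¹) * g⁻¹ = f ^ (n * m) := by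
      rw [hn' f hf, hm' _ (Subgroup.zpow_mem _ hf n), ← zpow_mul]
    have e2 : h * (g * f * g⁻¹) * h⁻¹ = f ^ (n * m) := by
      rw [hm' f hf, hn' _ (Subgroup.zpow_mem _ hf m), ← zpow_mul, mul_comm]
    have e3 : g * (h * f * h⁻¹) * g⁻¹ = h * (g * f * g⁻¹) * h⁻¹ := e1.trans e2.symm
    calc f * (g⁻¹ * h⁻¹ * g * h) = g⁻¹ * h⁻¹ * (h * (g * f * g⁻¹) * h⁻¹) * g * h := by group
      _ = g⁻¹ * h⁻¹ * (g * (h * f * h⁻¹) * g⁻¹) * g * h := by rw [e3]
      _ = g⁻¹ * h⁻¹ * g * h * f := by group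
  have hcomm' : ∀ g h : H ⧸ Cfsg.pCore 2 H, g * h * g⁻¹ * h⁻¹ ∈ F := by
    intro g h
    have h1 := hcomm g⁻¹ h⁻¹
    rw [inv_inv, inv_inv] at h1
    exact h1
  have hXbn : Xb.Normal := by
    constructor
    intro x hx g
    have e : g * x * g⁻¹ = (g * x * g⁻¹ * x⁻¹) * x := by group
    rw [e]
    exact Xb.mul_mem (hFX (hcomm' g x)) hx
  have hXY : X ⊔ Cfsg.pCore 2 H = Xb.comap π := by
    rw [hXb, Subgroup.comap_map_eq, hπk]
  have hnormal : (X ⊔ Cfsg.pCore 2 H).Normal := by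
    rw [hXY]
    exact hXbn.comap π
  refine ⟨hnormal, ?_⟩
  intro hN
  haveI := hN
  have hmemXY : ∀ g : H, g ∈ X ⊔ Cfsg.pCore 2 H ↔ π g ∈ Xb := by
    intro g
    rw [hXY, Subgroup.mem_comap]
  have hW2 : IsPGroup 2 (H ⧸ (X ⊔ Cfsg.pCore 2 H)) := by
    obtain ⟨k, hk⟩ := hXidx
    have hd : (X ⊔ Cfsg.pCore 2 H).index ∣ 2 ^ k := by
      rw [← hk]
      exact Subgroup.index_dvd_of_le le_sup_left
    obtain ⟨j, -, hj⟩ := (Nat.dvd_prime_pow Nat.prime_two).1 hd
    apply IsPGroup.of_card (n := j)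
    rw [← hj, Subgroup.index_eq_card]
  refine ⟨?_, hW2⟩
  have hWc : ∀ a b : H ⧸ (X ⊔ Cfsg.pCore 2 H), a * b = b * a := by
    intro a b
    obtain ⟨g, rfl⟩ := QuotientGroup.mk_surjective a
    obtain ⟨h, rfl⟩ := QuotientGroup.mk_surjective b
    rw [← QuotientGroup.mk_mul, ← QuotientGroup.mk_mul, QuotientGroup.eq, hmemXY]
    have h1 := hcomm (π h) (π g)
    have e : π ((g * h)⁻¹ * (h * g)) = (π h)⁻¹ * (π g)⁻¹ * π h * π g := by
      simp only [map_mul, map_inv, mul_inv_rev, mul_assoc]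
    rw [e]
    exact hFX h1
  obtain ⟨T⟩ : Nonempty (Sylow 2 H) := inferInstance
  have hYT : Cfsg.pCore 2 H ≤ (T : Subgroup H) := Cfsg.Agent.Lib.Helper5.PCore.pCore_le_sylow T
  have hTN : (X ⊔ Cfsg.pCore 2 H) ⊔ (T : Subgroup H) = ⊤ := by
    rw [← Subgroup.index_eq_one]
    obtain ⟨k, hk⟩ := hXidx
    have hd1 : ((X ⊔ Cfsg.pCore 2 H) ⊔ (T : Subgroup H)).index ∣ 2 ^ k := by
      rw [← hk]
      exact Subgroup.index_dvd_of_le (le_sup_left.trans le_sup_left)
    have hd2 : ((X ⊔ Cfsg.pCore 2 H) ⊔ (T : Subgroup H)).index ∣ (T : Subgroup H).index :=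
      Subgroup.index_dvd_of_le le_sup_right
    obtain ⟨j, -, hj⟩ := (Nat.dvd_prime_pow Nat.prime_two).1 hd1
    cases j with
    | zero => rw [hj, pow_zero]
    | succ j =>
      exfalso
      apply T.not_dvd_index
      refine dvd_trans ?_ hd2
      rw [hj]
      exact dvd_pow_self 2 (Nat.succ_ne_zero j)
  have hlift : ∀ w : H ⧸ (X ⊔ Cfsg.pCore 2 H), ∃ v ∈ (T : Subgroup H),
      (QuotientGroup.mk v : H ⧸ (X ⊔ Cfsg.pCore 2 H)) = w := by
    intro w
    obtain ⟨g, rfl⟩ := QuotientGroup.mk_surjective w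
    have hg : g ∈ (X ⊔ Cfsg.pCore 2 H) ⊔ (T : Subgroup H) := by
      rw [hTN]
      exact Subgroup.mem_top g
    obtain ⟨n, hn, v, hv, rfl⟩ := CoprimeAct.mem_sup_of_le_normalizer (X ⊔ Cfsg.pCore 2 H)
      (T : Subgroup H) (by rw [Subgroup.normalizer_eq_top_iff.2 hN]; exact le_top) hg
    refine ⟨v, hv, ?_⟩
    rw [QuotientGroup.mk_mul, (QuotientGroup.eq_one_iff n).2 hn, one_mul]
  have hTelt : ∀ v ∈ (T : Subgroup H), ∃ k : ℕ, orderOf v = 2 ^ k := by
    intro v hv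
    obtain ⟨j, hj⟩ := T.isPGroup' ⟨v, hv⟩
    have hj' : v ^ 2 ^ j = 1 := by
      have := congrArg Subtype.val hj
      simpa using this
    obtain ⟨m, -, hm⟩ := (Nat.dvd_prime_pow Nat.prime_two).1 (orderOf_dvd_of_pow_eq_one hj')
    exact ⟨m, hm⟩
  have hTX : ∀ v ∈ (T : Subgroup H), π v ∈ Xb → π v = 1 := by
    intro v hv hvX
    obtain ⟨k, hk⟩ := hTelt v hv
    have h1 : orderOf (π v) ∣ 2 ^ k := by
      rw [← hk]
      exact orderOf_map_dvd π v
    have h2 : orderOf (π v) ∣ Nat.card Xb := Subgroup.orderOf_dvd_natCard Xb hvX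
    obtain ⟨j, -, hj⟩ := (Nat.dvd_prime_pow Nat.prime_two).1 h1
    cases j with
    | zero => rwa [pow_zero, orderOf_eq_one_iff] at hj
    | succ j =>
      exfalso
      have h3 : 2 ∣ Nat.card Xb :=
        dvd_trans (by rw [hj]; exact dvd_pow_self 2 (Nat.succ_ne_zero j)) h2
      rw [Nat.odd_iff] at hXbodd
      omega
  have hLIFT : ∀ v ∈ (T : Subgroup H), v ∉ Cfsg.pCore 2 H → ∀ f ∈ F, f ≠ 1 →
      π v * f = f * π v → False := by
    intro v hv hvY f hf hf1 hvf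
    obtain ⟨d, hdX, rfl⟩ : ∃ d ∈ X, π d = f := by
      have h1 := hFX hf
      rw [hXb] at h1
      exact h1
    have hd1 : d ≠ 1 := by
      intro h
      apply hf1
      rw [h, map_one]
    have hdodd : Odd (orderOf d) := hXodd.of_dvd_nat (Subgroup.orderOf_dvd_natCard X hdX)
    have hc : v * d * v⁻¹ * d⁻¹ ∈ Cfsg.pCore 2 H := by
      rw [← hπ1]
      simp only [map_mul, map_inv]
      rw [hvf]
      group
    let φ : ↥(Cfsg.pCore 2 H) → ↥(Cfsg.pCore 2 H) := fun y =>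
      ⟨(y : H) * d * (y : H)⁻¹ * d⁻¹, by
        have h1 := hYn.conj_mem (y : H)⁻¹ (Subgroup.inv_mem _ y.2) d
        have e : (y : H) * d * (y : H)⁻¹ * d⁻¹ = (y : H) * (d * (y : H)⁻¹ * d⁻¹) := by group
        rw [e]
        exact Subgroup.mul_mem _ y.2 h1⟩
    have hφinj : Function.Injective φ := by
      intro y y' hyy
      have h1 : (y : H) * d * (y : H)⁻¹ * d⁻¹ = (y' : H) * d * (y' : H)⁻¹ * d⁻¹ :=
        congrArg Subtype.val hyy
      by_contra hne
      have h2 : ((y' : H)⁻¹ * (y : H)) ≠ 1 := by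
        intro h
        apply hne
        apply Subtype.ext
        have e : (y : H) = (y' : H) * ((y' : H)⁻¹ * (y : H)) := by group
        rw [e, h, mul_one]
      apply hp1 d hdodd hd1 ((y' : H)⁻¹ * (y : H))
        (Subgroup.mul_mem _ (Subgroup.inv_mem _ y'.2) y.2) h2
      have h3 : (y : H) * d * (y : H)⁻¹ = (y' : H) * d * (y' : H)⁻¹ := by
        have h4 := congrArg (fun z => z * d) h1
        simpa using h4
      calc d * ((y' : H)⁻¹ * (y : H)) = (y' : H)⁻¹ * ((y' : H) * d * (y' : H)⁻¹) * (y : H) := by group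
        _ = (y' : H)⁻¹ * ((y : H) * d * (y : H)⁻¹) * (y : H) := by rw [h3]
        _ = (y' : H)⁻¹ * (y : H) * d := by group
    have hφsurj : Function.Surjective φ := Finite.injective_iff_surjective.1 hφinj
    obtain ⟨y, hy⟩ := hφsurj ⟨v * d * v⁻¹ * d⁻¹, hc⟩
    have hy' : (y : H) * d * (y : H)⁻¹ * d⁻¹ = v * d * v⁻¹ * d⁻¹ := congrArg Subtype.val hy
    have hy'' : (y : H) * d * (y : H)⁻¹ = v * d * v⁻¹ := by
      have h4 := congrArg (fun z => z * d) hy'
      simpa using h4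
    have hv'd : ((y : H)⁻¹ * v) * d = d * ((y : H)⁻¹ * v) := by
      calc ((y : H)⁻¹ * v) * d = (y : H)⁻¹ * (v * d * v⁻¹) * v := by group
        _ = (y : H)⁻¹ * ((y : H) * d * (y : H)⁻¹) * v := by rw [hy'']
        _ = d * ((y : H)⁻¹ * v) := by group
    have hv'T : (y : H)⁻¹ * v ∈ (T : Subgroup H) :=
      Subgroup.mul_mem _ (Subgroup.inv_mem _ (hYT y.2)) hv
    have hv'1 : (y : H)⁻¹ * v ≠ 1 := by
      intro h
      apply hvY
      have e : v = (y : H) * ((y : H)⁻¹ * v) := by group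
      rw [e, h, mul_one]
      exact y.2
    exact lemK hself hI hY _ d (hTelt _ hv'T) hv'1 hdodd hd1 hv'd
  have hinvF : ∀ v ∈ (T : Subgroup H), v ∉ Cfsg.pCore 2 H → π v * π v = 1 →
      ∀ f ∈ F, π v * f * (π v)⁻¹ = f⁻¹ := by
    intro v hv hvY hvv f hf
    have hconj : π v * f * (π v)⁻¹ ∈ F := hFn.conj_mem f hf (π v)
    have he : f * (π v * f * (π v)⁻¹) ∈ F := F.mul_mem hf hconj
    have hfc : f * (π v * f * (π v)⁻¹) = (π v * f * (π v)⁻¹) * f :=
      congrArg Subtype.val (hFcomm ⟨f, hf⟩ ⟨_, hconj⟩)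
    have hinv : (π v)⁻¹ = π v := by
      rw [inv_eq_iff_mul_eq_one]
      exact hvv
    by_contra hne
    have he1 : f * (π v * f * (π v)⁻¹) ≠ 1 := by
      intro h
      apply hne
      exact eq_inv_of_mul_eq_one_right h
    apply hLIFT v hv hvY _ he he1
    rw [hinv] at hfc ⊢
    calc π v * (f * (π v * f * π v)) = (π v * f * π v) * f * π v := by group
      _ = f * (π v * f * π v) * π v := by rw [hfc]
      _ = f * (π v * f * π v) * π v := rfl
  have hinvol : ∀ w₁ w₂ : H ⧸ (X ⊔ Cfsg.pCore 2 H), orderOf w₁ = 2 → orderOf w₂ = 2 → w₁ = w₂ := by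
    intro w₁ w₂ ho₁ ho₂
    by_contra hne
    obtain ⟨v₁, hv₁, rfl⟩ := hlift w₁
    obtain ⟨v₂, hv₂, rfl⟩ := hlift w₂
    have hgen : ∀ v ∈ (T : Subgroup H),
        orderOf (QuotientGroup.mk v : H ⧸ (X ⊔ Cfsg.pCore 2 H)) = 2 →
        v ∉ Cfsg.pCore 2 H ∧ π v * π v = 1 := by
      intro v hv ho
      constructor
      · intro hvY
        have h1 : (QuotientGroup.mk v : H ⧸ (X ⊔ Cfsg.pCore 2 H)) = 1 :=
          (QuotientGroup.eq_one_iff v).2 (Subgroup.mem_sup_right hvY)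
        rw [h1, orderOf_one] at ho
        omega
      · have h1 : (QuotientGroup.mk v : H ⧸ (X ⊔ Cfsg.pCore 2 H)) ^ 2 = 1 := by
          have h0 := pow_orderOf_eq_one (QuotientGroup.mk v : H ⧸ (X ⊔ Cfsg.pCore 2 H))
          rw [ho] at h0
          exact h0
        rw [← QuotientGroup.mk_pow, QuotientGroup.eq_one_iff, hmemXY] at h1
        have h2 := hTX (v ^ 2) (Subgroup.pow_mem _ hv 2) h1
        rw [map_pow, pow_two] at h2
        exact h2
    obtain ⟨hv₁Y, hu₁⟩ := hgen v₁ hv₁ ho₁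
    obtain ⟨hv₂Y, hu₂⟩ := hgen v₂ hv₂ ho₂
    have hcm : π v₁ * π v₂ = π v₂ * π v₁ := by
      have h1 := hcomm (π v₂) (π v₁)
      have h2 : π (v₂⁻¹ * v₁⁻¹ * v₂ * v₁) = (π v₂)⁻¹ * (π v₁)⁻¹ * π v₂ * π v₁ := by
        simp only [map_mul, map_inv]
      have h3 := hTX (v₂⁻¹ * v₁⁻¹ * v₂ * v₁)
        (Subgroup.mul_mem _ (Subgroup.mul_mem _ (Subgroup.mul_mem _ (Subgroup.inv_mem _ hv₂)
          (Subgroup.inv_mem _ hv₁)) hv₂) hv₁) (by rw [h2]; exact hFX h1)
      rw [h2] at h3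
      calc π v₁ * π v₂ = π v₁ * π v₂ * ((π v₂)⁻¹ * (π v₁)⁻¹ * π v₂ * π v₁) := by rw [h3, mul_one]
        _ = π v₂ * π v₁ := by group
    have hne' : π v₁ ≠ π v₂ := by
      intro h
      apply hne
      rw [QuotientGroup.eq]
      apply Subgroup.mem_sup_right
      rw [← hπ1, map_mul, map_inv, h, inv_mul_cancel]
    have hv₃T : v₁ * v₂ ∈ (T : Subgroup H) := Subgroup.mul_mem _ hv₁ hv₂
    have hu₃ : π (v₁ * v₂) * π (v₁ * v₂) = 1 := by
      rw [map_mul]
      calc π v₁ * π v₂ * (π v₁ * π v₂) = π v₁ * (π v₂ * π v₁) * π v₂ := by group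
        _ = π v₁ * (π v₁ * π v₂) * π v₂ := by rw [hcm]
        _ = (π v₁ * π v₁) * (π v₂ * π v₂) := by group
        _ = 1 := by rw [hu₁, hu₂, one_mul]
    have hv₃Y : v₁ * v₂ ∉ Cfsg.pCore 2 H := by
      intro h
      rw [← hπ1, map_mul] at h
      apply hne'
      have h5 : π v₁ = (π v₂)⁻¹ := eq_inv_of_mul_eq_one_left h
      rw [h5, inv_eq_iff_mul_eq_one]
      exact hu₂
    have hFtriv : ∀ f ∈ F, f = 1 := by
      intro f hf
      have h1 := hinvF v₁ hv₁ hv₁Y hu₁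
      have h2 := hinvF v₂ hv₂ hv₂Y hu₂
      have h3 := hinvF (v₁ * v₂) hv₃T hv₃Y hu₃ f hf
      have h4 : π (v₁ * v₂) * f * (π (v₁ * v₂))⁻¹ = f := by
        rw [map_mul]
        calc π v₁ * π v₂ * f * (π v₁ * π v₂)⁻¹ = π v₁ * (π v₂ * f * (π v₂)⁻¹) * (π v₁)⁻¹ := by group
          _ = π v₁ * f⁻¹ * (π v₁)⁻¹ := by rw [h2 f hf]
          _ = (f⁻¹)⁻¹ := h1 f⁻¹ (F.inv_mem hf)
          _ = f := inv_inv f
      have h5 : f = f⁻¹ := h4.symm.trans h3
      have h6 : f ^ 2 = 1 := by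
        have e : f * f = f * f⁻¹ := by rw [← h5]
        rw [pow_two, e, mul_inv_cancel]
      have h7 : orderOf f ∣ 2 := orderOf_dvd_of_pow_eq_one h6
      have h8 : orderOf f ∣ Nat.card F := Subgroup.orderOf_dvd_natCard F hf
      have h9 : orderOf f = 1 := by
        rcases (Nat.dvd_prime Nat.prime_two).1 h7 with h | h
        · exact h
        · exfalso
          rw [h] at h8
          rw [Nat.odd_iff] at hFodd
          omega
      exact orderOf_eq_one_iff.1 h9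
    have h10 : π v₁ ∈ F := by
      apply hFself
      rw [Subgroup.mem_centralizer_iff]
      intro f hf
      rw [hFtriv f hf, one_mul, mul_one]
    have h11 := hFtriv _ h10
    exact hv₁Y ((hπ1 v₁).1 h11)
  have huniq : ∀ A B : Subgroup (H ⧸ (X ⊔ Cfsg.pCore 2 H)), Nat.card A = 2 → Nat.card B = 2 → A = B := by
    have hkey : ∀ A B : Subgroup (H ⧸ (X ⊔ Cfsg.pCore 2 H)),
        Nat.card A = 2 → Nat.card B = 2 → A ≤ B := by
      intro A B hA hB
      have hB1 : B ≠ ⊥ := by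
        intro h
        rw [h, Subgroup.card_bot] at hB
        omega
      obtain ⟨b, hb, hb1⟩ := B.bot_or_exists_ne_one.resolve_left hB1
      have hbo : orderOf b = 2 := by
        have h1 : orderOf b ∣ 2 := by
          have h0 := Subgroup.orderOf_dvd_natCard B hb
          rw [hB] at h0
          exact h0
        rcases (Nat.dvd_prime Nat.prime_two).1 h1 with h | h
        · exact absurd (orderOf_eq_one_iff.1 h) hb1
        · exact h
      intro a ha
      by_cases ha1 : a = 1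
      · rw [ha1]
        exact B.one_mem
      · have hao : orderOf a = 2 := by
          have h1 : orderOf a ∣ 2 := by
            have h0 := Subgroup.orderOf_dvd_natCard A ha
            rw [hA] at h0
            exact h0
          rcases (Nat.dvd_prime Nat.prime_two).1 h1 with h | h
          · exact absurd (orderOf_eq_one_iff.1 h) ha1
          · exact h
        rw [hinvol a b hao hbo]
        exact hb
    intro A B hA hB
    exact le_antisymm (hkey A B hA hB) (hkey B A hB hA)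
  rcases UniqP.cyclic_or_quat hW2 huniq with h | ⟨-, n, ⟨e⟩⟩
  · exact h
  · cases n with
    | zero =>
      rw [pow_zero] at e
      haveI := QuaternionGroup.quaternionGroup_one_isCyclic
      exact isCyclic_of_surjective e.symm e.symm.surjective
    | succ n =>
      exfalso
      have h1 := hWc (e.symm (QuaternionGroup.a 1)) (e.symm (QuaternionGroup.xa 0))
      rw [← map_mul, ← map_mul] at h1
      have h2 := e.symm.injective h1
      rw [QuaternionGroup.a_mul_xa, QuaternionGroup.xa_mul_a] at h2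
      have h3 : (0 - 1 : ZMod (2 * 2 ^ (n + 1))) = 0 + 1 := QuaternionGroup.xa.inj h2
      have h4 : ((2 : ℕ) : ZMod (2 * 2 ^ (n + 1))) = 0 := by
        have h5 : (2 : ZMod (2 * 2 ^ (n + 1))) = 0 := by linear_combination -h3
        exact_mod_cast h5
      rw [ZMod.natCast_eq_zero_iff] at h4
      have h5 := Nat.le_of_dvd (by norm_num) h4
      have h6 : 2 ≤ 2 ^ (n + 1) := by
        calc 2 = 2 ^ 1 := by norm_num
          _ ≤ 2 ^ (n + 1) := Nat.pow_le_pow_right (by norm_num) (by omega)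
      omega

theorem result {H : Type*} [Group H] [Finite H] (hsol : Group.IsSolvable H)
    (hO : Cfsg.oddCore H = ⊥)
    (hI : ∀ t : H, orderOf t = 2 → Cfsg.HasNormalPComplement 2 ↥(Subgroup.centralizer ({t} : Set H)))
    (X : Subgroup H) (hXodd : Odd (Nat.card X)) (hXidx : ∃ k : ℕ, X.index = 2 ^ k) :
    (∀ x ∈ X, x ≠ 1 → ∀ y ∈ Cfsg.pCore 2 H, y ≠ 1 → x * y ≠ y * x) ∧
      (∀ (p : ℕ) [Fact p.Prime] (P : Sylow p ↥X), IsCyclic ↥(P : Subgroup ↥X)) ∧
      (X ⊔ Cfsg.pCore 2 H).Normal ∧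
      ∀ hN : (X ⊔ Cfsg.pCore 2 H).Normal, IsCyclic (H ⧸ (X ⊔ Cfsg.pCore 2 H)) ∧ IsPGroup 2 (H ⧸ (X ⊔ Cfsg.pCore 2 H)) := by
  classical
  haveI : Fact (Nat.Prime 2) := ⟨Nat.prime_two⟩
  haveI hYn : (Cfsg.pCore 2 H).Normal := Fit.pCore_normal 2
  have hYp : IsPGroup 2 (Cfsg.pCore 2 H) := Fit.pCore_isPGroup 2
  haveI := hsol
  have hlayer : Cfsg.layer H = ⊥ := Comp.layer_eq_bot_of_solvable
  have hgf : Cfsg.generalizedFittingSubgroup H = Cfsg.pCore 2 H :=
    PCons.genFitting_eq_pCore_of hlayer hO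
  have hself : Subgroup.centralizer (Cfsg.pCore 2 H : Set H) ≤ Cfsg.pCore 2 H := by
    have h := Comp.centralizer_genFitting_le (G := H)
    rw [hgf] at h
    exact h
  by_cases hY : Cfsg.pCore 2 H = ⊥
  · have hsub : ∀ g : H, g = 1 := by
      intro g
      have h1 : g ∈ Subgroup.centralizer (Cfsg.pCore 2 H : Set H) := by
        rw [hY, Subgroup.mem_centralizer_iff]
        intro h hh
        have hh' : h = 1 := Subgroup.mem_bot.1 hh
        rw [hh', one_mul, mul_one]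
      have h2 := hself h1
      rw [hY, Subgroup.mem_bot] at h2
      exact h2
    haveI : Subsingleton H := ⟨fun a b => (hsub a).trans (hsub b).symm⟩
    refine ⟨?_, ?_, ?_, ?_⟩
    · intro x _ hx1
      exact absurd (hsub x) hx1
    · intro p _ P
      infer_instance
    · exact ⟨fun n hn g => by rw [hsub (g * n * g⁻¹), ← hsub n]; exact hn⟩
    · intro hN
      haveI : Subsingleton (H ⧸ (X ⊔ Cfsg.pCore 2 H)) := (QuotientGroup.mk_surjective).subsingleton
      exact ⟨inferInstance, fun g => ⟨0, Subsingleton.elim _ _⟩⟩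
  · have hp1 : ∀ x : H, Odd (orderOf x) → x ≠ 1 → ∀ y ∈ Cfsg.pCore 2 H, y ≠ 1 → x * y ≠ y * x :=
      fun x hx hx1 y hy hy1 => part1 hself hI x y hx hx1 hy hy1
    have hXel : ∀ x ∈ X, Odd (orderOf x) := by
      intro x hx
      exact hXodd.of_dvd_nat (Subgroup.orderOf_dvd_natCard X hx)
    have hpart2 : ∀ (p : ℕ) [Fact p.Prime] (P : Sylow p ↥X), IsCyclic ↥(P : Subgroup ↥X) := by
      intro p _ P
      exact sylow_cyclic (Cfsg.pCore 2 H) X hY hXodd
        (fun h hh hh1 k hk hcomm => by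
          by_contra hk1
          exact hp1 h (hXel h hh) hh1 k hk hk1 hcomm) p P
    have hpart34 := part34 hself hI hY hp1 X hXodd hXidx ⟨fun p hp P => @hpart2 p ⟨hp⟩ P⟩
    exact ⟨fun x hx hx1 y hy hy1 => hp1 x (hXel x hx) hx1 y hy hy1, hpart2, hpart34.1, hpart34.2⟩

end Cfsg.Agent.S3215
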