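import Cfsg.Statements.S3224
import Mathlib
import Cfsg.Agent.Lib.Helper1.MaxCl2
import Cfsg.Agent.Lib.Helper1.Inv
import Cfsg.Agent.S0112

set_option autoImplicit false
open Cfsg

namespace Cfsg.Agent.S3224

open Cfsg.Agent.Lib.Helper1

theorem result {S : Type*} [Group S] [Finite S] (hS : IsPGroup 2 S)
    (x : S) (hx : orderOf x = 2) (hC : Nat.card ↥(Subgroup.centralizer ({x} : Set S)) = 4) :
    (∃ n : ℕ, Nonempty (S ≃* DihedralGroup n)) ∨ Cfsg.IsQuasiDihedral S ∨ Nat.card S = 4 := by
  haveI : Fact (Nat.Prime 2) := ⟨Nat.prime_two⟩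
  obtain ⟨n, hn⟩ := IsPGroup.iff_card.mp hS
  have hxA : x ∈ Subgroup.centralizer ({x} : Set S) := by
    rw [Subgroup.mem_centralizer_iff]
    intro y hy
    rw [Set.mem_singleton_iff] at hy
    rw [hy]
  have hA4 : Nat.card ↥(Subgroup.centralizer ({x} : Set S)) = 2 ^ 2 := by
    rw [hC]
    norm_num
  have hAcomm := (IsPGroup.isMulCommutative_of_card_eq_prime_sq hA4).is_comm.comm
  have hCA : Subgroup.centralizer ((Subgroup.centralizer ({x} : Set S) : Subgroup S) : Set S) =
      Subgroup.centralizer ({x} : Set S) := by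
    apply le_antisymm
    · intro g hg
      rw [Subgroup.mem_centralizer_iff] at hg ⊢
      intro y hy
      rw [Set.mem_singleton_iff] at hy
      rw [hy]
      exact hg x hxA
    · intro g hg
      rw [Subgroup.mem_centralizer_iff]
      intro h hh
      exact congrArg Subtype.val (hAcomm ⟨h, hh⟩ ⟨g, hg⟩)
  have hcl := Cfsg.Agent.S0112.result n hn _ hA4 hCA
  have hxsq : x * x = 1 := by
    have h1 := pow_orderOf_eq_one x
    rw [hx, sq] at h1
    exact h1
  by_cases hn3 : n < 3
  · right
    right
    have h1 : Nat.card ↥(Subgroup.centralizer ({x} : Set S)) ≤ Nat.card S :=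
      Subgroup.card_le_card_group _
    rw [hC, hn] at h1
    rw [hn]
    interval_cases n <;> simp_all
  · push Not at hn3
    obtain ⟨a, hao, hai, hab⟩ := MaxCl.maxclass_struct n hn3 hn hcl
    obtain ⟨hZ2, -, -⟩ := MaxCl.card_center n hn3 hn hcl
    have hcard_a : Nat.card (Subgroup.zpowers a) = 2 ^ (n - 1) := by
      rw [Nat.card_zpowers, hao]
    have h4 : 4 ≤ 2 ^ (n - 1) := by
      have h5 : 2 ^ 2 ≤ 2 ^ (n - 1) := Nat.pow_le_pow_right (by norm_num) (by omega)
      omega
    have hA_of : a * x = x * a → Subgroup.zpowers a = Subgroup.centralizer ({x} : Set S) := by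
      intro hax
      have haA : a ∈ Subgroup.centralizer ({x} : Set S) := by
        rw [Subgroup.mem_centralizer_iff]
        intro y hy
        rw [Set.mem_singleton_iff] at hy
        rw [hy]
        exact hax.symm
      exact Subgroup.eq_of_le_of_card_ge (Subgroup.zpowers_le.mpr haA)
        (by rw [hcard_a, hC]; exact h4)
    have huniq : ∀ u v : Subgroup.center S, u ≠ 1 → v ≠ 1 → u = v := by
      intro u v hu hv
      exact ((Nat.card_eq_two_iff' (1 : Subgroup.center S)).mp hZ2).unique hu hv
    by_cases hxa : x ∈ Subgroup.zpowers a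
    · exfalso
      obtain ⟨k, hk⟩ := Subgroup.mem_zpowers_iff.mp hxa
      have hax : a * x = x * a := by
        rw [← hk]
        exact ((Commute.refl a).zpow_right k).eq
      have hEq := hA_of hax
      obtain ⟨w, hw1⟩ : ∃ w : Subgroup.center S, w ≠ 1 := by
        haveI : Nontrivial (Subgroup.center S) :=
          Finite.one_lt_card_iff_nontrivial.mp (by rw [hZ2]; norm_num)
        exact exists_ne 1
      have hwA : (w : S) ∈ Subgroup.centralizer ({x} : Set S) := by
        rw [Subgroup.mem_centralizer_iff]
        intro y hy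
        rw [Set.mem_singleton_iff] at hy
        rw [hy]
        exact Subgroup.mem_center_iff.mp w.2 x
      have hwo : orderOf (w : S) = 2 := by
        apply orderOf_eq_prime
        · rw [sq]
          exact MaxCl.center_sq hZ2 w w.2
        · intro h
          apply hw1
          exact Subtype.ext h
      have hwa : (w : S) ∈ Subgroup.zpowers a := by
        rw [hEq]
        exact hwA
      have h5 := cyclic_unique_involution (H := ↥(Subgroup.zpowers a)) ⟨x, hxa⟩ ⟨w, hwa⟩
        (by rw [Subgroup.orderOf_mk]; exact hx) (by rw [Subgroup.orderOf_mk]; exact hwo)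
      have hxw : x = w := congrArg Subtype.val h5
      have hAtop : Subgroup.centralizer ({x} : Set S) = ⊤ := by
        rw [eq_top_iff]
        intro g _
        rw [Subgroup.mem_centralizer_iff]
        intro y hy
        rw [Set.mem_singleton_iff] at hy
        rw [hy, hxw]
        exact (Subgroup.mem_center_iff.mp w.2 g).symm
      have h6 : Nat.card ↥(Subgroup.centralizer ({x} : Set S)) = Nat.card S := by
        rw [hAtop, Subgroup.card_top]
      rw [hC, hn] at h6
      have h7 : 2 ^ 3 ≤ 2 ^ n := Nat.pow_le_pow_right (by norm_num) hn3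
      omega
    · obtain ⟨-, hc, hgen, hprop⟩ := hab x hxa
      by_cases hc1 : a * (x * a * x⁻¹) = 1
      · left
        have hconj : x * a * x⁻¹ = a⁻¹ := eq_inv_of_mul_eq_one_right hc1
        haveI : NeZero (2 ^ (n - 1)) := ⟨by positivity⟩
        refine ⟨2 ^ (n - 1), MaxCl.dih_recognize (2 ^ (n - 1)) a x
          (by rw [← hao]; exact pow_orderOf_eq_one a) hxsq hconj ?_ hgen⟩
        rw [hn]
        have h5 : n = (n - 1) + 1 := by omega
        conv_lhs => rw [h5]
        rw [pow_succ]
        ring
      · right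
        left
        have hconj : x * a * x⁻¹ = a⁻¹ * (a * (x * a * x⁻¹)) := by group
        have hcc : (a * (x * a * x⁻¹)) * (a * (x * a * x⁻¹)) = 1 := MaxCl.center_sq hZ2 _ hc
        have hcomm : Commute a⁻¹ (a * (x * a * x⁻¹)) := (Subgroup.mem_center_iff.mp hc a⁻¹)
        have hpow : ∀ k : ℕ, x * a ^ k * x⁻¹ = a⁻¹ ^ k * (a * (x * a * x⁻¹)) ^ k := by
          intro k
          have h5 : x * a ^ k * x⁻¹ = (x * a * x⁻¹) ^ k := (conj_pow).symm
          rw [h5, ← hcomm.mul_pow, ← hconj]
        have hm : 2 ^ (n - 2) = 2 * 2 ^ (n - 3) := by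
          have h5 : n - 2 = (n - 3) + 1 := by omega
          rw [h5, pow_succ]
          ring
        have hm1 : 2 ^ (n - 1) = 2 ^ (n - 2) + 2 ^ (n - 2) := by
          have h5 : n - 1 = (n - 2) + 1 := by omega
          rw [h5, pow_succ]
          ring
        have hzz : a ^ (2 ^ (n - 2)) * a ^ (2 ^ (n - 2)) = 1 := by
          rw [← pow_add, ← hm1, ← hao]
          exact pow_orderOf_eq_one a
        have hzinv : (a ^ (2 ^ (n - 2)))⁻¹ = a ^ (2 ^ (n - 2)) := inv_eq_of_mul_eq_one_left hzz
        have hz_conj : x * a ^ (2 ^ (n - 2)) * x⁻¹ = a ^ (2 ^ (n - 2)) := by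
          rw [hpow, inv_pow, hzinv, hm, pow_mul (a * (x * a * x⁻¹)) 2, sq, hcc, one_pow, mul_one]
        have hz_comm : x * a ^ (2 ^ (n - 2)) = a ^ (2 ^ (n - 2)) * x := by
          calc x * a ^ (2 ^ (n - 2)) = (x * a ^ (2 ^ (n - 2)) * x⁻¹) * x := by group
            _ = a ^ (2 ^ (n - 2)) * x := by rw [hz_conj]
        have hzZ : a ^ (2 ^ (n - 2)) ∈ Subgroup.center S :=
          hprop _ (Subgroup.pow_mem _ (Subgroup.mem_zpowers a) _) hz_comm
        have hz1 : a ^ (2 ^ (n - 2)) ≠ 1 := by
          intro h5
          have h6 := orderOf_dvd_of_pow_eq_one h5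
          rw [hao] at h6
          have h7 := Nat.le_of_dvd (by positivity) h6
          have h8 : 0 < 2 ^ (n - 2) := by positivity
          omega
        have hzc : a ^ (2 ^ (n - 2)) = a * (x * a * x⁻¹) := by
          have h5 := huniq ⟨_, hzZ⟩ ⟨_, hc⟩ (fun h => hz1 (congrArg Subtype.val h))
            (fun h => hc1 (congrArg Subtype.val h))
          exact congrArg Subtype.val h5
        have hfinal : x * a * x⁻¹ = a ^ (2 ^ (n - 2) - 1) := by
          rw [hconj, ← hzc]
          have h5 : 2 ^ (n - 2) = (2 ^ (n - 2) - 1) + 1 := by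
            have h8 : 0 < 2 ^ (n - 2) := by positivity
            omega
          conv_lhs => rw [h5]
          rw [pow_succ']
          group
        have hn4 : 4 ≤ n := by
          by_contra hlt
          have hn_eq : n = 3 := by omega
          subst hn_eq
          apply hxa
          have hax : a * x = x * a := by
            have h5 : x * a * x⁻¹ = a := by
              rw [hfinal]
              norm_num
            calc a * x = (x * a * x⁻¹) * x := by rw [h5]
              _ = x * a := by group
          rw [hA_of hax]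
          exact hxA
        refine ⟨n - 1, by omega, ?_, a, x, hao, hx, ?_⟩
        · rw [hn]
          congr 1
          omega
        · have h5 : n - 1 - 1 = n - 2 := by omega
          rw [h5]
          exact hfinal

end Cfsg.Agent.S3224
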