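import Cfsg.Statements.S3276
import Mathlib
import Cfsg.Agent.Lib.Helper1.Inv

set_option autoImplicit false
open Cfsg

namespace Cfsg.Agent.S3276

theorem result {G : Type*} [Group G] [Finite G] (x y : G) (hx : orderOf x = 2) (hy : orderOf y = 2)
    (hxy : Commute x y) (hnc : ¬ IsConj x y)
    (hstar : ∀ u : G, orderOf u = 2 → Commute u x → ∀ g : G, Commute (g * y * g⁻¹) u → Commute (g * y * g⁻¹) y) :
    Subgroup.normalClosure ({y} : Set G) ≠ ⊤ ∧ Cfsg.IsElementaryAbelian 2 (Subgroup.normalClosure ({y} : Set G)) ∧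
      ((∀ u ∈ Subgroup.normalClosure ({y} : Set G), orderOf u = 2 → Commute u x → u = y) →
        Nat.card ↥(Subgroup.normalClosure ({y} : Set G)) ≤ 4) := by
  classical
  haveI : Fact (Nat.Prime 2) := ⟨Nat.prime_two⟩
  have hxx : x * x = 1 := Cfsg.Agent.Lib.Helper1.mul_self_of_orderOf_two hx
  have hyy : y * y = 1 := Cfsg.Agent.Lib.Helper1.mul_self_of_orderOf_two hy
  have hx1 : x ≠ 1 := Cfsg.Agent.Lib.Helper1.ne_one_of_orderOf_two hx
  have hy1 : y ≠ 1 := Cfsg.Agent.Lib.Helper1.ne_one_of_orderOf_two hy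
  have hxinv : x⁻¹ = x := Cfsg.Agent.Lib.Helper1.inv_of_orderOf_two hx
  have h1 : ∀ g : G, Commute (g * y * g⁻¹) y := by
    intro g
    have hord : orderOf (g * y * g⁻¹) = 2 := Cfsg.Agent.Lib.Helper1.orderOf_conj_two hy g
    have hnc' : ¬ IsConj x (g * y * g⁻¹) := by
      intro h
      apply hnc
      exact h.trans (isConj_iff.mpr ⟨g⁻¹, by group⟩)
    obtain ⟨u, hu, hxu, hyu, -⟩ :=
      Cfsg.Agent.Lib.Helper1.exists_central_involution_of_not_conj x (g * y * g⁻¹) hx hord hnc'
    exact hstar u hu hxu.symm g hyu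
  have h2 : ∀ g h : G, (g * y * g⁻¹) * (h * y * h⁻¹) = (h * y * h⁻¹) * (g * y * g⁻¹) := by
    intro g h
    have := (h1 (h⁻¹ * g)).eq
    calc (g * y * g⁻¹) * (h * y * h⁻¹) = h * ((h⁻¹ * g) * y * (h⁻¹ * g)⁻¹ * y) * h⁻¹ := by group
      _ = h * (y * ((h⁻¹ * g) * y * (h⁻¹ * g)⁻¹)) * h⁻¹ := by rw [this]
      _ = (h * y * h⁻¹) * (g * y * g⁻¹) := by group
  have hmem : ∀ a ∈ Group.conjugatesOfSet ({y} : Set G), ∃ c : G, a = c * y * c⁻¹ := by
    intro a ha
    rw [Group.mem_conjugatesOfSet_iff] at ha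
    obtain ⟨b, hb, hba⟩ := ha
    rw [Set.mem_singleton_iff.mp hb] at hba
    obtain ⟨c, hc⟩ := isConj_iff.mp hba
    exact ⟨c, hc.symm⟩
  have hcomm : ∀ a ∈ Group.conjugatesOfSet ({y} : Set G),
      ∀ b ∈ Group.conjugatesOfSet ({y} : Set G), a * b = b * a := by
    intro a ha b hb
    obtain ⟨c, rfl⟩ := hmem a ha
    obtain ⟨d, rfl⟩ := hmem b hb
    exact h2 c d
  have hcW : IsMulCommutative ↥(Subgroup.normalClosure ({y} : Set G)) :=
    Subgroup.isMulCommutative_closure hcomm
  have hYc : ∀ a ∈ Subgroup.normalClosure ({y} : Set G),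
      ∀ b ∈ Subgroup.normalClosure ({y} : Set G), a * b = b * a := by
    intro a ha b hb
    exact congrArg Subtype.val (hcW.is_comm.comm ⟨a, ha⟩ ⟨b, hb⟩)
  have hYe : ∀ a ∈ Subgroup.normalClosure ({y} : Set G), a * a = 1 := by
    intro a ha
    have ha' : a ∈ Subgroup.closure (Group.conjugatesOfSet ({y} : Set G)) := ha
    refine Subgroup.closure_induction (p := fun x _ => x * x = 1) ?_ ?_ ?_ ?_ ha'
    · intro b hb
      obtain ⟨c, rfl⟩ := hmem b hb
      calc c * y * c⁻¹ * (c * y * c⁻¹) = c * (y * y) * c⁻¹ := by group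
        _ = 1 := by rw [hyy]; group
    · exact mul_one 1
    · intro b c hb hc ihb ihc
      have hbc : b * c = c * b := hYc b hb c hc
      calc b * c * (b * c) = b * (c * b) * c := by group
        _ = b * (b * c) * c := by rw [hbc]
        _ = (b * b) * (c * c) := by group
        _ = 1 := by rw [ihb, ihc, mul_one]
    · intro b hb ih
      calc b⁻¹ * b⁻¹ = (b * b)⁻¹ := by group
        _ = 1 := by rw [ih, inv_one]
  have hyY : y ∈ Subgroup.normalClosure ({y} : Set G) :=
    Subgroup.subset_normalClosure (Set.mem_singleton y)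
  have hYn : ∀ a ∈ Subgroup.normalClosure ({y} : Set G), ∀ g : G,
      g * a * g⁻¹ ∈ Subgroup.normalClosure ({y} : Set G) :=
    fun a ha g => Subgroup.normalClosure_normal.conj_mem a ha g
  refine ⟨?_, ⟨hcW, fun a ha => by rw [pow_two]; exact hYe a ha⟩, ?_⟩
  · intro htop
    have hGc : ∀ a b : G, a * b = b * a := by
      intro a b
      exact hYc a (by rw [htop]; trivial) b (by rw [htop]; trivial)
    haveI hN : (Subgroup.zpowers y).Normal := by
      refine ⟨fun n hn g => ?_⟩
      rw [hGc g n, mul_inv_cancel_right]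
      exact hn
    have hle : Subgroup.normalClosure ({y} : Set G) ≤ Subgroup.zpowers y :=
      Subgroup.normalClosure_le_normal (by
        intro a ha
        rw [Set.mem_singleton_iff.mp ha]
        exact Subgroup.mem_zpowers y)
    have hxz : x ∈ Subgroup.zpowers y := hle (by rw [htop]; trivial)
    obtain ⟨k, hk⟩ := Subgroup.mem_zpowers_iff.mp hxz
    have hk' : y ^ (k % 2) = x := by
      have := zpow_mod_orderOf y k
      rw [hy] at this
      rw [← hk]
      exact_mod_cast this
    rcases Int.emod_two_eq_zero_or_one k with h | h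
    · rw [h, zpow_zero] at hk'
      exact hx1 hk'.symm
    · rw [h, zpow_one] at hk'
      apply hnc
      rw [← hk']
  · intro huniq
    have hcase : ∀ v ∈ Subgroup.normalClosure ({y} : Set G), Commute v x → v = 1 ∨ v = y := by
      intro v hv hvx
      by_cases hv1 : v = 1
      · exact Or.inl hv1
      · right
        exact huniq v hv (Cfsg.Agent.Lib.Helper1.orderOf_two_of (hYe v hv) hv1) hvx
    have hc : ∀ v ∈ Subgroup.normalClosure ({y} : Set G),
        v * (x * v * x⁻¹) = 1 ∨ v * (x * v * x⁻¹) = y := by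
      intro v hv
      have hv' := hYn v hv x
      apply hcase _ (Subgroup.mul_mem _ hv hv')
      have e1 : x * (v * (x * v * x⁻¹)) = (x * v * x⁻¹) * (x * x * v * x⁻¹) := by group
      have e2 : v * (x * v * x⁻¹) * x = v * (x * v * x⁻¹) * x := rfl
      show v * (x * v * x⁻¹) * x = x * (v * (x * v * x⁻¹))
      rw [e1, hxx, one_mul, hxinv]
      have e3 : v * (x * v * x) * x = v * (x * v * (x * x)) := by group
      rw [e3, hxx, mul_one]
      have := hYc v hv (x * v * x⁻¹) hv'
      rw [hxinv] at this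
      calc v * (x * v) = v * (x * v * x) * x := by rw [mul_assoc (v) (x * v * x) x, mul_assoc (x * v) x x, hxx, mul_one]
        _ = (x * v * x) * v * x := by rw [this]
        _ = x * v * x * (v * x) := by group
    have hc1 : ∀ v ∈ Subgroup.normalClosure ({y} : Set G), v * (x * v * x⁻¹) = 1 →
        v = 1 ∨ v = y := by
      intro v hv h
      apply hcase v hv
      have h3 : x * v * x⁻¹ = v⁻¹ := eq_inv_of_mul_eq_one_right h
      have h4 : v⁻¹ = v := inv_eq_of_mul_eq_one_right (hYe v hv)
      rw [h4] at h3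
      show v * x = x * v
      calc v * x = (x * v * x⁻¹) * x := by rw [h3]
        _ = x * v := by group
    obtain ⟨v₀, hv₀⟩ : ∃ v₀ : G, ∀ v ∈ Subgroup.normalClosure ({y} : Set G),
        v ∈ ({1, y, v₀, y * v₀} : Finset G) := by
      by_cases hex : ∃ v₀ ∈ Subgroup.normalClosure ({y} : Set G), v₀ * (x * v₀ * x⁻¹) = y
      · obtain ⟨v₀, hv₀, hv₀y⟩ := hex
        refine ⟨v₀, fun v hv => ?_⟩
        rcases hc v hv with h | h
        · rcases hc1 v hv h with h' | h'
          · simp [h']
          · simp [h']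
        · have hvv₀ := Subgroup.mul_mem _ hv hv₀
          have h5 : (v * v₀) * (x * (v * v₀) * x⁻¹) = 1 := by
            have hv₀' := hYn v₀ hv₀ x
            have hsw := hYc v₀ hv₀ (x * v * x⁻¹) (hYn v hv x)
            calc (v * v₀) * (x * (v * v₀) * x⁻¹)
                = v * (v₀ * (x * v * x⁻¹)) * (x * v₀ * x⁻¹) := by group
              _ = v * ((x * v * x⁻¹) * v₀) * (x * v₀ * x⁻¹) := by rw [hsw]
              _ = (v * (x * v * x⁻¹)) * (v₀ * (x * v₀ * x⁻¹)) := by group
              _ = 1 := by rw [h, hv₀y, hyy]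
          have hv₀inv : v₀⁻¹ = v₀ := inv_eq_of_mul_eq_one_right (hYe v₀ hv₀)
          rcases hc1 _ hvv₀ h5 with h' | h'
          · have : v = v₀⁻¹ := eq_inv_of_mul_eq_one_left h'
            rw [hv₀inv] at this
            simp [this]
          · have : v = y * v₀⁻¹ := by rw [← h']; group
            rw [hv₀inv] at this
            simp [this]
      · push Not at hex
        refine ⟨1, fun v hv => ?_⟩
        rcases hc v hv with h | h
        · rcases hc1 v hv h with h' | h'
          · simp [h']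
          · simp [h']
        · exact absurd h (hex v hv)
    have hsub : ((Subgroup.normalClosure ({y} : Set G) : Subgroup G) : Set G) ⊆
        ((({1, y, v₀, y * v₀} : Finset G)) : Set G) := fun v hv => hv₀ v hv
    have hcard := Set.ncard_le_ncard hsub (Finset.finite_toSet _)
    rw [Set.ncard_coe_finset] at hcard
    have h4 : ({1, y, v₀, y * v₀} : Finset G).card ≤ 4 := Finset.card_le_four
    have h5 : Nat.card ↥(Subgroup.normalClosure ({y} : Set G)) =
        ((Subgroup.normalClosure ({y} : Set G) : Subgroup G) : Set G).ncard := rfl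
    rw [h5]
    exact hcard.trans h4

end Cfsg.Agent.S3276
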