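import Cfsg.Statements.S3303
import Mathlib
import Cfsg.Agent.S0017
import Cfsg.Agent.S0056
import Cfsg.Agent.Lib.Helper2.PComp
import Cfsg.Agent.Lib.Helper2.SylowAux
import Cfsg.Agent.Lib.Helper5.SylowAux
import Cfsg.Agent.Lib.Helper5.PCore
import Cfsg.Agent.Lib.Helper3.Residual

set_option autoImplicit false
open Cfsg

namespace Cfsg.Agent.S3303

open Cfsg.Agent.Lib.Helper5.PCore in
theorem cyc_invol {α : Type*} [Group α] [Finite α] [IsCyclic α] (v w : α) (hv : v ^ 2 = 1)
    (hw : w ^ 2 = 1) (hv1 : v ≠ 1) (hw1 : w ≠ 1) : v = w := by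
  classical
  have := Fintype.ofFinite α
  by_contra hne
  have h1 := IsCyclic.card_pow_eq_one_le (α := α) (n := 2) (by norm_num)
  have h2 : ({1, v, w} : Finset α) ⊆ Finset.univ.filter (fun a : α => a ^ 2 = 1) := by
    intro x hx
    simp only [Finset.mem_insert, Finset.mem_singleton] at hx
    rw [Finset.mem_filter]
    refine ⟨Finset.mem_univ _, ?_⟩
    rcases hx with h | h | h
    · rw [h]; simp
    · rw [h]; exact hv
    · rw [h]; exact hw
  have h3 := Finset.card_le_card h2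
  have h4 : ({1, v, w} : Finset α).card = 3 := by
    rw [Finset.card_insert_of_notMem, Finset.card_insert_of_notMem, Finset.card_singleton]
    · simpa using hne
    · simp only [Finset.mem_insert, Finset.mem_singleton]
      push Not
      exact ⟨hv1.symm, hw1.symm⟩
  omega

theorem lift_sylow {G : Type*} [Group G] [Finite G] {p : ℕ} [Fact p.Prime] (N : Subgroup G)
    [N.Normal] (P : Sylow p (G ⧸ N)) (T : Subgroup G) (hT : IsPGroup p T)
    (hTP : T.map (QuotientGroup.mk' N) ≤ (P : Subgroup (G ⧸ N))) :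
    ∃ S : Sylow p G, T ≤ (S : Subgroup G) ∧
      (S : Subgroup G).map (QuotientGroup.mk' N) = (P : Subgroup (G ⧸ N)) := by
  obtain ⟨S', hS'⟩ := Sylow.mapSurjective_surjective (QuotientGroup.mk'_surjective N) p P
  have hS'' : (S' : Subgroup G).map (QuotientGroup.mk' N) = (P : Subgroup (G ⧸ N)) := by
    rw [← hS']; rfl
  set Y := (P : Subgroup (G ⧸ N)).comap (QuotientGroup.mk' N) with hY
  have hS'Y : (S' : Subgroup G) ≤ Y := by rw [hY, ← Subgroup.map_le_iff_le_comap, hS'']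
  have hTY : T ≤ Y := by rw [hY, ← Subgroup.map_le_iff_le_comap]; exact hTP
  obtain ⟨y, hy, hy2⟩ :=
    Cfsg.Agent.Lib.Helper2.SylowAux.exists_conj_le_sylow_of_le S' hS'Y hTY hT
  refine ⟨y • S', ?_, ?_⟩
  · intro t ht
    exact (Cfsg.Agent.Lib.Helper5.SylowAux.mem_smul_sylow S' y t).2 (hy2 t ht)
  · have hyP : QuotientGroup.mk' N y ∈ (P : Subgroup (G ⧸ N)) := hy
    apply le_antisymm
    · rintro _ ⟨x, hx, rfl⟩
      have hx' : y⁻¹ * x * y ∈ (S' : Subgroup G) :=
        (Cfsg.Agent.Lib.Helper5.SylowAux.mem_smul_sylow S' y x).1 hx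
      have h1 : QuotientGroup.mk' N (y⁻¹ * x * y) ∈ (P : Subgroup (G ⧸ N)) := by
        rw [← hS'']; exact ⟨_, hx', rfl⟩
      have e : QuotientGroup.mk' N x = QuotientGroup.mk' N y *
          QuotientGroup.mk' N (y⁻¹ * x * y) * (QuotientGroup.mk' N y)⁻¹ := by
        rw [← map_mul, ← map_inv, ← map_mul]; congr 1; group
      rw [e]
      exact Subgroup.mul_mem _ (Subgroup.mul_mem _ hyP h1) (Subgroup.inv_mem _ hyP)
    · intro z hz
      have h1 : (QuotientGroup.mk' N y)⁻¹ * z * QuotientGroup.mk' N y ∈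
          (P : Subgroup (G ⧸ N)) :=
        Subgroup.mul_mem _ (Subgroup.mul_mem _ (Subgroup.inv_mem _ hyP) hz) hyP
      rw [← hS''] at h1
      obtain ⟨s, hs, hsz⟩ := h1
      refine ⟨y * s * y⁻¹, ?_, ?_⟩
      · apply (Cfsg.Agent.Lib.Helper5.SylowAux.mem_smul_sylow S' y _).2
        have e : y⁻¹ * (y * s * y⁻¹) * y = s := by group
        rw [e]; exact hs
      · rw [map_mul, map_mul, hsz, map_inv]; group

theorem lift_pgroup {G : Type*} [Group G] [Finite G] {p : ℕ} [Fact p.Prime] (N : Subgroup G)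
    [N.Normal] (D : Subgroup (G ⧸ N)) (hD : IsPGroup p D) :
    ∃ T : Subgroup G, IsPGroup p T ∧ T.map (QuotientGroup.mk' N) = D := by
  set X := D.comap (QuotientGroup.mk' N) with hX
  obtain ⟨Q₀⟩ : Nonempty (Sylow p ↥X) := inferInstance
  have hsurj : Function.Surjective ((QuotientGroup.mk' N).subgroupComap D) :=
    MonoidHom.subgroupComap_surjective_of_surjective _ _ (QuotientGroup.mk'_surjective N)
  have htop : ((Q₀.mapSurjective hsurj : Sylow p ↥D) : Subgroup ↥D) = ⊤ :=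
    ((Q₀.mapSurjective hsurj).is_maximal' (Q := ⊤) (hD.to_subgroup ⊤) le_top).symm
  refine ⟨(Q₀ : Subgroup ↥X).map X.subtype, Q₀.isPGroup'.map _, ?_⟩
  apply le_antisymm
  · rw [Subgroup.map_le_iff_le_comap]
    exact Subgroup.map_subtype_le _
  · intro d hd
    have h1 : (⟨d, hd⟩ : ↥D) ∈ ((Q₀.mapSurjective hsurj : Sylow p ↥D) : Subgroup ↥D) := by
      rw [htop]; exact Subgroup.mem_top _
    rw [Sylow.coe_mapSurjective] at h1
    obtain ⟨q, hq, hqd⟩ := h1
    refine ⟨(q : G), ⟨q, hq, rfl⟩, ?_⟩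
    exact congrArg Subtype.val hqd

theorem result {G : Type*} [Group G] [Finite G] (hs : Group.IsSolvable G)
    (hC : ∀ S T : Sylow 2 G, S ≠ T → IsCyclic ↥((S : Subgroup G) ⊓ (T : Subgroup G))) :
    ∃ P : Sylow 2 (G ⧸ Cfsg.oddCore G), (P : Subgroup (G ⧸ Cfsg.oddCore G)).Normal := by
  classical
  have := hs
  set O := Cfsg.oddCore G with hO
  have hbot : Cfsg.pPrimeCore 2 (G ⧸ O) = ⊥ :=
    Cfsg.Agent.Lib.Helper2.PComp.pPrimeCore_quotient_eq_bot 2
  have hcent := Cfsg.Agent.S0017.result (G := G ⧸ O) 2 hbot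
  set Q := Cfsg.pCore 2 (G ⧸ O) with hQ
  have hQn : Q.Normal := Cfsg.Agent.Lib.Helper5.PCore.pCore_normal_thm 2 _
  have hQp : IsPGroup 2 Q := Cfsg.Agent.Lib.Helper5.PCore.pCore_isPGroup 2 _
  by_cases hex : ∃ P₁ P₂ : Sylow 2 (G ⧸ O), P₁ ≠ P₂
  · exfalso
    obtain ⟨P₁, P₂, hne⟩ := hex
    obtain ⟨T, hTp, hTQ⟩ := lift_pgroup O Q hQp
    obtain ⟨S₁, hTS₁, hS₁⟩ := lift_sylow O P₁ T hTp
      (by rw [hTQ]; exact Cfsg.Agent.Lib.Helper5.PCore.pCore_le_sylow P₁)
    obtain ⟨S₂, hTS₂, hS₂⟩ := lift_sylow O P₂ T hTp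
      (by rw [hTQ]; exact Cfsg.Agent.Lib.Helper5.PCore.pCore_le_sylow P₂)
    have hS : S₁ ≠ S₂ := by
      intro h
      apply hne
      apply Sylow.ext
      rw [← hS₁, ← hS₂, h]
    have hcyc := hC S₁ S₂ hS
    have hTc : IsCyclic T := Subgroup.isCyclic_of_le (le_inf hTS₁ hTS₂)
    have hQc : IsCyclic Q := by
      have h1 : IsCyclic ↥(T.map (QuotientGroup.mk' O)) :=
        isCyclic_of_surjective _ ((QuotientGroup.mk' O).subgroupMap_surjective T)
      rw [hTQ] at h1
      exact h1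
    have hodd : ∀ x : G ⧸ O, (orderOf x).Coprime 2 → x = 1 := by
      intro x hx
      have hA : Subgroup.zpowers x ≤ Subgroup.normalizer (Q : Set (G ⧸ O)) := by
        rw [Subgroup.normalizer_eq_top]; exact le_top
      have hcop : (Nat.card (Subgroup.zpowers x)).Coprime (Nat.card Q) := by
        obtain ⟨k, hk⟩ := IsPGroup.iff_card.mp hQp
        rw [hk, Nat.card_zpowers]; exact Nat.Coprime.pow_right k hx
      have hcen : Subgroup.zpowers x ≤ Subgroup.centralizer (Q : Set (G ⧸ O)) := by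
        apply Cfsg.Agent.S0056.result (Subgroup.zpowers x) Q hA hcop
        intro v hv hvp a ha
        have hv2 : orderOf v = 2 := by
          obtain ⟨k, hk⟩ := hQp ⟨v, hv⟩
          have h1 : v ^ (2 ^ k) = 1 := by simpa using congrArg Subtype.val hk
          have h2 := orderOf_dvd_of_pow_eq_one h1
          exact (Nat.prime_dvd_prime_iff_eq hvp Nat.prime_two).1 (hvp.dvd_of_dvd_pow h2)
        have hw : a * v * a⁻¹ ∈ Q := hQn.conj_mem v hv a
        have hvv : v ^ 2 = 1 := by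
          have h0 := pow_orderOf_eq_one v
          rwa [hv2] at h0
        have hv1 : v ≠ 1 := by
          intro h; rw [h, orderOf_one] at hv2; omega
        have hww : (a * v * a⁻¹) ^ 2 = 1 := by rw [conj_pow, hvv]; group
        have hw1 : a * v * a⁻¹ ≠ 1 := by
          intro h; apply hv1
          have : v = a⁻¹ * (a * v * a⁻¹) * a := by group
          rw [this, h]; group
        have heq := cyc_invol (α := ↥Q) ⟨v, hv⟩ ⟨a * v * a⁻¹, hw⟩
          (Subtype.ext (by rw [Subgroup.coe_pow]; exact hvv))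
          (Subtype.ext (by rw [Subgroup.coe_pow]; exact hww))
          (fun h => hv1 (congrArg Subtype.val h)) (fun h => hw1 (congrArg Subtype.val h))
        have heq' : v = a * v * a⁻¹ := congrArg Subtype.val heq
        calc a * v = (a * v * a⁻¹) * a := by group
          _ = v * a := by rw [← heq']
      have hxQ : x ∈ Q := hcent (hcen (Subgroup.mem_zpowers x))
      obtain ⟨k, hk⟩ := hQp ⟨x, hxQ⟩
      have h1 : x ^ (2 ^ k) = 1 := by simpa using congrArg Subtype.val hk
      have h2 := orderOf_dvd_of_pow_eq_one h1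
      have h3 : orderOf x = 1 := Nat.Coprime.eq_one_of_dvd (Nat.Coprime.pow_right k hx) h2
      exact orderOf_eq_one_iff.1 h3
    have hpG : IsPGroup 2 (G ⧸ O) := by
      intro g
      obtain ⟨a, ha⟩ := Cfsg.Agent.Lib.Helper3.Residual.pow_mem_pResidual (p := 2) g
      refine ⟨a, ?_⟩
      have hres : Cfsg.pResidual 2 (G ⧸ O) = ⊥ := by
        unfold Cfsg.pResidual
        rw [Subgroup.closure_eq_bot_iff]
        intro x hx
        exact Set.mem_singleton_iff.2 (hodd x hx)
      rw [hres, Subgroup.mem_bot] at ha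
      exact ha
    have h1 : (P₁ : Subgroup (G ⧸ O)) = ⊤ :=
      (P₁.is_maximal' (Q := ⊤) (hpG.to_subgroup ⊤) le_top).symm
    have h2 : (P₂ : Subgroup (G ⧸ O)) = ⊤ :=
      (P₂.is_maximal' (Q := ⊤) (hpG.to_subgroup ⊤) le_top).symm
    exact hne (Sylow.ext (h1.trans h2.symm))
  · push Not at hex
    obtain ⟨P⟩ : Nonempty (Sylow 2 (G ⧸ O)) := inferInstance
    refine ⟨P, ⟨fun n hn g => ?_⟩⟩
    have h1 : g • P = P := hex _ _
    have h2 := (Cfsg.Agent.Lib.Helper5.SylowAux.mem_smul_sylow P g (g * n * g⁻¹)).2 (by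
      have e : g⁻¹ * (g * n * g⁻¹) * g = n := by group
      rw [e]; exact hn)
    rw [h1] at h2
    exact h2

end Cfsg.Agent.S3303
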