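import Cfsg.Statements.S3305
import Mathlib
import Cfsg.Agent.Lib.Helper5.SylowAux

set_option autoImplicit false
open Cfsg

namespace Cfsg.Agent.S3305

open Cfsg.Agent.Lib.Helper5.SylowAux in
theorem aux {G : Type*} [Group G] [Finite G] [Fact (Nat.Prime 2)]
    (hC : ∀ S T : Sylow 2 G, S ≠ T → IsCyclic ↥((S : Subgroup G) ⊓ (T : Subgroup G)))
    (H : Subgroup G) [H.Normal] (Sb Tb : Sylow 2 (G ⧸ H)) (hne : Sb ≠ Tb) :
    IsCyclic ↥((Sb : Subgroup (G ⧸ H)) ⊓ (Tb : Subgroup (G ⧸ H))) := by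
  have hsurj : Function.Surjective (QuotientGroup.mk' H) := QuotientGroup.mk'_surjective H
  obtain ⟨S, hS⟩ := Sylow.mapSurjective_surjective hsurj 2 Sb
  obtain ⟨T, hT⟩ := Sylow.mapSurjective_surjective hsurj 2 Tb
  have hS' : (Sb : Subgroup (G ⧸ H)) = (S : Subgroup G).map (QuotientGroup.mk' H) := by
    rw [← hS]
    rfl
  have hT' : (Tb : Subgroup (G ⧸ H)) = (T : Subgroup G).map (QuotientGroup.mk' H) := by
    rw [← hT]
    rfl
  have hQT : (S : Subgroup G) ⊓ ((Sb : Subgroup (G ⧸ H)) ⊓ (Tb : Subgroup (G ⧸ H))).comap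
      (QuotientGroup.mk' H) ≤ (T : Subgroup G) ⊔ H := by
    intro q hq
    have h1 : (QuotientGroup.mk' H) q ∈ (Tb : Subgroup (G ⧸ H)) := hq.2.2
    rw [hT'] at h1
    obtain ⟨t, ht, htq⟩ := h1
    have h2 : t⁻¹ * q ∈ H := QuotientGroup.eq.mp htq
    have h3 : q = t * (t⁻¹ * q) := by group
    rw [h3]
    exact Subgroup.mul_mem _ (Subgroup.mem_sup_left ht) (Subgroup.mem_sup_right h2)
  have hQp : IsPGroup 2 ↥((S : Subgroup G) ⊓ ((Sb : Subgroup (G ⧸ H)) ⊓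
      (Tb : Subgroup (G ⧸ H))).comap (QuotientGroup.mk' H)) := S.isPGroup'.to_le inf_le_left
  have hQS : (S : Subgroup G) ⊓ ((Sb : Subgroup (G ⧸ H)) ⊓ (Tb : Subgroup (G ⧸ H))).comap
      (QuotientGroup.mk' H) ≤ (S : Subgroup G) := inf_le_left
  have hQmap : ∀ d ∈ (Sb : Subgroup (G ⧸ H)) ⊓ (Tb : Subgroup (G ⧸ H)),
      ∃ s ∈ (S : Subgroup G) ⊓ ((Sb : Subgroup (G ⧸ H)) ⊓ (Tb : Subgroup (G ⧸ H))).comap
        (QuotientGroup.mk' H), (QuotientGroup.mk' H) s = d := by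
    intro d hd
    have h1 : d ∈ (Sb : Subgroup (G ⧸ H)) := hd.1
    rw [hS'] at h1
    obtain ⟨s, hs, rfl⟩ := h1
    exact ⟨s, ⟨hs, hd⟩, rfl⟩
  have hQle : ∀ q ∈ (S : Subgroup G) ⊓ ((Sb : Subgroup (G ⧸ H)) ⊓
      (Tb : Subgroup (G ⧸ H))).comap (QuotientGroup.mk' H),
      (QuotientGroup.mk' H) q ∈ (Sb : Subgroup (G ⧸ H)) ⊓ (Tb : Subgroup (G ⧸ H)) :=
    fun q hq => hq.2
  generalize (S : Subgroup G) ⊓ ((Sb : Subgroup (G ⧸ H)) ⊓ (Tb : Subgroup (G ⧸ H))).comap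
      (QuotientGroup.mk' H) = Q at hQT hQp hQS hQmap hQle
  obtain ⟨u, hu⟩ := sylow_conj_le
    (T.subtype (le_sup_left : (T : Subgroup G) ≤ (T : Subgroup G) ⊔ H))
    (Q.subgroupOf ((T : Subgroup G) ⊔ H)) hQp.comap_subtype
  obtain ⟨y, hy, z, hz, hyz⟩ := Subgroup.mem_sup_of_normal_right.mp u.2
  have hzQ : ∀ q ∈ Q, z * q * z⁻¹ ∈ (T : Subgroup G) := by
    intro q hq
    have h1 : (u : G) * q * (u : G)⁻¹ ∈ (T : Subgroup G) :=
      hu ⟨q, hQT hq⟩ (Subgroup.mem_subgroupOf.mpr hq)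
    have h3 := Subgroup.mul_mem _ (Subgroup.mul_mem _ (Subgroup.inv_mem _ hy) h1) hy
    rw [← hyz] at h3
    have e : y⁻¹ * (y * z * q * (y * z)⁻¹) * y = z * q * z⁻¹ := by group
    rwa [e] at h3
  have hQT' : Q ≤ ((z⁻¹ • T : Sylow 2 G) : Subgroup G) := by
    intro q hq
    rw [mem_smul_sylow, inv_inv]
    exact hzQ q hq
  have hneST : S ≠ z⁻¹ • T := by
    intro he
    apply hne
    have hle : (Sb : Subgroup (G ⧸ H)) ≤ (Tb : Subgroup (G ⧸ H)) := by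
      rw [hS', hT']
      rintro _ ⟨s, hs, rfl⟩
      have hs' : s ∈ ((z⁻¹ • T : Sylow 2 G) : Subgroup G) := by
        rw [← he]
        exact hs
      rw [mem_smul_sylow, inv_inv] at hs'
      refine ⟨z * s * z⁻¹, hs', ?_⟩
      have hz1 : (QuotientGroup.mk' H) z = 1 := (QuotientGroup.eq_one_iff z).mpr hz
      rw [map_mul, map_mul, map_inv, hz1, one_mul, inv_one, mul_one]
    exact Sylow.ext (Sb.is_maximal' Tb.isPGroup' hle).symm
  have hcyc := hC S (z⁻¹ • T) hneST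
  have hQcyc : IsCyclic ↥Q := by
    have h1 : IsCyclic ↥(Q.subgroupOf ((S : Subgroup G) ⊓ ((z⁻¹ • T : Sylow 2 G) : Subgroup G))) :=
      Subgroup.isCyclic _
    exact isCyclic_of_surjective (Subgroup.subgroupOfEquivOfLe (le_inf hQS hQT'))
      (Subgroup.subgroupOfEquivOfLe (le_inf hQS hQT')).surjective
  let f : ↥Q →* ↥((Sb : Subgroup (G ⧸ H)) ⊓ (Tb : Subgroup (G ⧸ H))) :=
    MonoidHom.codRestrict ((QuotientGroup.mk' H).comp Q.subtype) _ (fun q => hQle q q.2)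
  have hf : Function.Surjective f := by
    rintro ⟨d, hd⟩
    obtain ⟨s, hs, hsd⟩ := hQmap d hd
    exact ⟨⟨s, hs⟩, Subtype.ext hsd⟩
  exact isCyclic_of_surjective f hf

theorem result {G : Type*} [Group G] [Finite G]
    (hC : ∀ S T : Sylow 2 G, S ≠ T → IsCyclic ↥((S : Subgroup G) ⊓ (T : Subgroup G))) (H : Subgroup G) [H.Normal] :
    ∀ S T : Sylow 2 (G ⧸ H), S ≠ T → IsCyclic ↥((S : Subgroup (G ⧸ H)) ⊓ (T : Subgroup (G ⧸ H))) := by
  have hfact : Fact (Nat.Prime 2) := ⟨Nat.prime_two⟩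
  intro S T hne
  exact aux hC H S T hne

end Cfsg.Agent.S3305
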