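import Cfsg.Statements.S3349
import Mathlib

set_option autoImplicit false
open Cfsg

namespace Cfsg.Agent.S3349

/-- Let Q be a finite extraspecial p-group and α an automorphism of Q fixing every element of some maximal abelian subgroup of Q. Then the order of α is a power of p. -/
theorem result {Q : Type*} [Group Q] [Finite Q]
    (p : ℕ) [Fact p.Prime] (hQ : Cfsg.IsExtraspecial p Q) (α : MulAut Q)
    (A : Subgroup Q) (hA : IsMulCommutative A) (hmax : ∀ B : Subgroup Q, A ≤ B → IsMulCommutative B → B = A)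
    (hfix : ∀ a ∈ A, α a = a) :
    ∃ k : ℕ, orderOf α = p ^ k := by
  have hp : p.Prime := Fact.out
  obtain ⟨⟨hpg, hfr, hcomm⟩, hcard⟩ := hQ
  have hcent : ∀ c : Q, (∀ a ∈ A, a * c = c * a) → c ∈ A := by
    intro c hc
    have hB : IsMulCommutative (Subgroup.closure ((A : Set Q) ∪ {c})) := by
      apply Subgroup.isMulCommutative_closure
      rintro x (hx | hx) y (hy | hy)
      · exact setLike_mul_comm hx hy
      · rw [Set.mem_singleton_iff] at hy
        subst hy
        exact hc x hx
      · rw [Set.mem_singleton_iff] at hx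
        subst hx
        exact (hc y hy).symm
      · rw [Set.mem_singleton_iff] at hx hy
        subst hx
        subst hy
        rfl
    have hle : A ≤ Subgroup.closure ((A : Set Q) ∪ {c}) :=
      fun a ha => Subgroup.subset_closure (Or.inl ha)
    have h1 := hmax _ hle hB
    rw [← h1]
    exact Subgroup.subset_closure (Or.inr rfl)
  have hkey : ∀ x : Q, x⁻¹ * α x ∈ A := by
    intro x
    apply hcent
    intro a ha
    have hz : x * a * x⁻¹ * a⁻¹ ∈ Subgroup.center Q := by
      rw [← hcomm, commutator_def, ← commutatorElement_def]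
      exact Subgroup.commutator_mem_commutator (Subgroup.mem_top x) (Subgroup.mem_top a)
    have hzA : x * a * x⁻¹ * a⁻¹ ∈ A :=
      hcent _ (fun b _ => (Subgroup.mem_center_iff.1 hz b))
    have h1 := hfix _ hzA
    rw [map_mul, map_mul, map_mul, map_inv, map_inv, hfix a ha] at h1
    have h2 : α x * a * (α x)⁻¹ = x * a * x⁻¹ := mul_right_cancel h1
    calc a * (x⁻¹ * α x) = x⁻¹ * (x * a * x⁻¹) * α x := by group
      _ = x⁻¹ * (α x * a * (α x)⁻¹) * α x := by rw [h2]
      _ = x⁻¹ * α x * a := by group
  have hpow : ∀ n : ℕ, ∀ x : Q, (α ^ n) x = x * (x⁻¹ * α x) ^ n := by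
    intro n
    induction n with
    | zero => intro x; simp
    | succ n ih =>
      intro x
      have hb := hkey x
      obtain ⟨b, hbdef⟩ : ∃ b, b = x⁻¹ * α x := ⟨_, rfl⟩
      rw [← hbdef] at hb
      have hαx : α x = x * b := by rw [hbdef]; group
      rw [pow_succ', MulAut.mul_apply, ih, ← hbdef, map_mul, map_pow, hfix b hb, hαx, pow_succ',
        mul_assoc]
  have hone : α ^ Nat.card Q = 1 := by
    ext x
    rw [hpow, pow_card_eq_one', mul_one]
    rfl
  have hdvd := orderOf_dvd_of_pow_eq_one hone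
  obtain ⟨m, hm⟩ := IsPGroup.iff_card.1 hpg
  rw [hm] at hdvd
  obtain ⟨k, -, hk⟩ := (Nat.dvd_prime_pow hp).1 hdvd
  exact ⟨k, hk⟩

end Cfsg.Agent.S3349
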