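import Cfsg.Statements.S3389
import Mathlib
import Cfsg.Agent.Lib.Helper6.Orbits

set_option autoImplicit false
open Cfsg

namespace Cfsg.Agent.S3389

open MulAction Cfsg.Agent.Lib.Helper6.Orbits

theorem orbit_card_mul {G : Type*} [Group G] [Finite G] {Ω : Type*} [MulAction G Ω] (α β : Ω) :
    (orbit (stabilizer G α) β).ncard * Nat.card ↥(stabilizer G α ⊓ stabilizer G β)
      = Nat.card (stabilizer G α) := by
  have key : (stabilizer G β).subgroupOf (stabilizer G α) = stabilizer (stabilizer G α) β := by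
    ext g
    simp only [Subgroup.mem_subgroupOf, mem_stabilizer_iff]
    rfl
  have h1 := Subgroup.relIndex_mul_relIndex (H := (⊥ : Subgroup G))
    (K := stabilizer G α ⊓ stabilizer G β) (L := stabilizer G α) bot_le inf_le_left
  rw [Subgroup.relIndex_bot_left, Subgroup.relIndex_bot_left, Subgroup.inf_relIndex_left] at h1
  have h2 : (stabilizer G β).relIndex (stabilizer G α) = (orbit (stabilizer G α) β).ncard := by
    rw [Subgroup.relIndex, key, index_stabilizer]
  rw [h2] at h1
  rw [mul_comm]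
  exact h1

theorem mem_orbit_stab {G : Type*} [Group G] {Ω : Type*} [MulAction G Ω] (α γ δ : Ω) :
    δ ∈ orbit (stabilizer G α) γ ↔ ∃ h : G, h • α = α ∧ h • γ = δ := by
  constructor
  · rintro ⟨h, rfl⟩
    exact ⟨h.1, h.2, rfl⟩
  · rintro ⟨h, hα, rfl⟩
    exact ⟨⟨h, hα⟩, rfl⟩

theorem even_of_fixity_two {G : Type*} [Group G] [Finite G] {Ω : Type*} [Finite Ω] [MulAction G Ω]
    (htr : IsPretransitive G Ω)
    (hfix : ∀ g : G, g ≠ 1 → Nat.card (fixedBy Ω g) ≤ 2) (g₀ : G) (hg₀ : g₀ ≠ 1)
    (hg₀2 : Nat.card (fixedBy Ω g₀) = 2) : 2 ∣ Nat.card G := by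
  rw [Nat.card_coe_set_eq, Set.ncard_eq_two] at hg₀2
  obtain ⟨α, β, hαβ, hfixset⟩ := hg₀2
  have hgα : g₀ • α = α := by
    have : α ∈ fixedBy Ω g₀ := by rw [hfixset]; simp
    exact this
  have hgβ : g₀ • β = β := by
    have : β ∈ fixedBy Ω g₀ := by rw [hfixset]; simp
    exact this
  have hkey : ∀ t : G, t • α = α → t • β = β → ∀ δ : Ω, t • δ = δ → δ ≠ α → δ ≠ β → t = 1 := by
    intro t hα hβ δ hδ hδα hδβ
    by_contra ht
    have h1 := hfix t ht
    rw [Nat.card_coe_set_eq] at h1
    have h2 : ({α, β, δ} : Set Ω) ⊆ fixedBy Ω t := by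
      intro y hy
      rcases hy with rfl | rfl | rfl
      · exact hα
      · exact hβ
      · exact hδ
    have h3 : ({α, β, δ} : Set Ω).ncard = 3 := by
      rw [Set.ncard_eq_three]
      exact ⟨α, β, δ, hαβ, fun h => hδα h.symm, fun h => hδβ h.symm, rfl⟩
    have h4 := Set.ncard_le_ncard h2 (Set.toFinite _)
    omega
  obtain ⟨x, hx⟩ := exists_smul_eq G α β
  by_cases hcase : ∃ h : G, h • α = α ∧ h • β = x⁻¹ • α
  · obtain ⟨h, hhα, hhβ⟩ := hcase
    have hyα : (x * h) • α = β := by rw [mul_smul, hhα, hx]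
    have hyβ : (x * h) • β = α := by rw [mul_smul, hhβ, smul_inv_smul]
    have h2 : 2 ∣ orderOf (x * h) := by
      by_contra hodd
      obtain ⟨m, hm⟩ := Nat.odd_iff.2 (by omega : orderOf (x * h) % 2 = 1)
      have hsq : ∀ j : ℕ, ((x * h) ^ (2 * j)) • α = α := by
        intro j
        induction j with
        | zero => simp
        | succ j ih =>
          rw [mul_add, pow_add, mul_smul, mul_one, pow_two, mul_smul, hyα, hyβ]
          exact ih
      have h5 : (x * h) ^ (orderOf (x * h)) • α = β := by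
        rw [hm, pow_succ', mul_smul, hsq, hyα]
      rw [pow_orderOf_eq_one, one_smul] at h5
      exact hαβ h5
    exact h2.trans (orderOf_dvd_natCard _)
  · exfalso
    have hγα : x⁻¹ • α ≠ α := by
      intro h
      apply hαβ
      have h' : x • (x⁻¹ • α) = x • α := by rw [h]
      rw [smul_inv_smul, hx] at h'
      exact h'
    let S₁ : SubMulAction ↥(stabilizer G α ⊓ stabilizer G β) Ω :=
      { carrier := orbit (stabilizer G α) (x⁻¹ • α)
        smul_mem' := by
          intro t δ hδ
          rw [mem_orbit_stab] at hδ ⊢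
          obtain ⟨h, hh, rfl⟩ := hδ
          refine ⟨t.1 * h, ?_, mul_smul _ _ _⟩
          rw [mul_smul, hh]
          exact t.2.1 }
    let S₂ : SubMulAction ↥(stabilizer G α ⊓ stabilizer G β) Ω :=
      { carrier := orbit (stabilizer G α) β \ {β}
        smul_mem' := by
          intro t δ hδ
          obtain ⟨hδ1, hδ2⟩ := hδ
          rw [mem_orbit_stab] at hδ1
          obtain ⟨h, hh, rfl⟩ := hδ1
          refine ⟨?_, ?_⟩
          · rw [mem_orbit_stab]
            refine ⟨t.1 * h, ?_, mul_smul _ _ _⟩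
            rw [mul_smul, hh]
            exact t.2.1
          · intro h3
            apply hδ2
            have h4 : t.1 • (h • β) = t.1 • β := by
              have h5 : t.1 • β = β := t.2.2
              rw [h5]
              exact h3
            exact smul_left_cancel _ h4 }
    have hfree₁ : ∀ t : ↥(stabilizer G α ⊓ stabilizer G β), ∀ δ ∈ S₁, t • δ = δ → t = 1 := by
      intro t δ hδ htδ
      apply Subtype.ext
      have hδ' : δ ∈ orbit (stabilizer G α) (x⁻¹ • α) := hδ
      rw [mem_orbit_stab] at hδ'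
      obtain ⟨h, hh, rfl⟩ := hδ'
      refine hkey t.1 t.2.1 t.2.2 _ htδ ?_ ?_
      · intro h3
        apply hγα
        have h4 : h • (x⁻¹ • α) = h • α := by rw [h3, hh]
        exact smul_left_cancel _ h4
      · intro h3
        apply hcase
        refine ⟨h⁻¹, ?_, ?_⟩
        · rw [inv_smul_eq_iff, hh]
        · rw [inv_smul_eq_iff, h3]
    have hfree₂ : ∀ t : ↥(stabilizer G α ⊓ stabilizer G β), ∀ δ ∈ S₂, t • δ = δ → t = 1 := by
      intro t δ hδ htδ
      apply Subtype.ext
      have hδ' : δ ∈ orbit (stabilizer G α) β \ {β} := hδ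
      obtain ⟨hδ1, hδ2⟩ := hδ'
      rw [mem_orbit_stab] at hδ1
      obtain ⟨h, hh, rfl⟩ := hδ1
      refine hkey t.1 t.2.1 t.2.2 _ htδ ?_ ?_
      · intro h3
        apply hαβ
        have h4 : h • β = h • α := by rw [h3, hh]
        exact (smul_left_cancel _ h4).symm
      · intro h3
        exact hδ2 h3
    have hd1 := card_dvd_of_free S₁ hfree₁
    have hd2 := card_dvd_of_free S₂ hfree₂
    rw [card_subMul] at hd1 hd2
    have hc1 : (S₁ : Set Ω) = orbit (stabilizer G α) (x⁻¹ • α) := rfl
    have hc2 : (S₂ : Set Ω) = orbit (stabilizer G α) β \ {β} := rfl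
    rw [hc1] at hd1
    rw [hc2, Set.ncard_sdiff_singleton_of_mem (mem_orbit_self _)] at hd2
    have e1 := orbit_card_mul (G := G) α β
    have e2 := orbit_card_mul (G := G) α (x⁻¹ • α)
    have hcard : Nat.card ↥(stabilizer G α ⊓ stabilizer G (x⁻¹ • α))
        = Nat.card ↥(stabilizer G α ⊓ stabilizer G β) := by
      apply Nat.card_congr
      refine Equiv.subtypeEquiv (MulAut.conj x).toEquiv ?_
      intro g
      simp only [Subgroup.mem_inf, mem_stabilizer_iff, MulEquiv.toEquiv_eq_coe, MulEquiv.coe_toEquiv,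
        MulAut.conj_apply]
      constructor
      · rintro ⟨h1, h2⟩
        refine ⟨?_, ?_⟩
        · rw [mul_smul, mul_smul, h2, smul_inv_smul]
        · rw [← hx, mul_smul, mul_smul, inv_smul_smul, h1]
      · rintro ⟨h1, h2⟩
        refine ⟨?_, ?_⟩
        · rw [← hx, mul_smul, mul_smul, inv_smul_smul] at h2
          exact smul_left_cancel _ h2
        · rw [mul_smul, mul_smul] at h1
          rw [← h1, inv_smul_smul]
          nth_rewrite 2 [← h1]
          rw [inv_smul_smul]
    rw [hcard] at e2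
    have hTpos : 0 < Nat.card ↥(stabilizer G α ⊓ stabilizer G β) := Nat.card_pos
    have hΔ : (orbit (stabilizer G α) (x⁻¹ • α)).ncard = (orbit (stabilizer G α) β).ncard := by
      have := e2.trans e1.symm
      exact Nat.eq_of_mul_eq_mul_right hTpos this
    rw [hΔ] at hd1
    have hpos : 0 < (orbit (stabilizer G α) β).ncard := by
      rw [Set.ncard_pos (Set.toFinite _)]
      exact ⟨β, mem_orbit_self _⟩
    have h1 : Nat.card ↥(stabilizer G α ⊓ stabilizer G β) ∣ 1 := by
      have := (Nat.dvd_sub hd1 hd2)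
      have e : (orbit (stabilizer G α) β).ncard - ((orbit (stabilizer G α) β).ncard - 1) = 1 := by
        omega
      rwa [e] at this
    have h2 : Nat.card ↥(stabilizer G α ⊓ stabilizer G β) = 1 := Nat.dvd_one.1 h1
    rw [Subgroup.card_eq_one] at h2
    have h3 : g₀ ∈ stabilizer G α ⊓ stabilizer G β := ⟨hgα, hgβ⟩
    rw [h2, Subgroup.mem_bot] at h3
    exact hg₀ h3

/-- Let G be a finite group acting faithfully and transitively on a finite set Ω with fixity k ≥ 1: every non-identity element fixes at most k points and some non-identity element fixes exactly k points. Then |Z(G)| divides k; if k = 2 then |G| is even; and for every prime p > k dividing |G| and every point α, either p does not divide |G_α| or G_α contains a Sylow p-subgroup of G. -/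
theorem result {G : Type*} [Group G] [Finite G] {Ω : Type*} [Fintype Ω] [MulAction G Ω] [FaithfulSMul G Ω]
    (htr : MulAction.IsPretransitive G Ω) (k : ℕ) (hk : 1 ≤ k)
    (hfix : ∀ g : G, g ≠ 1 → Nat.card (MulAction.fixedBy Ω g) ≤ k) (hex : ∃ g : G, g ≠ 1 ∧ Nat.card (MulAction.fixedBy Ω g) = k) :
    Nat.card (Subgroup.center G) ∣ k ∧ (k = 2 → 2 ∣ Nat.card G) ∧
      ∀ (p : ℕ), p.Prime → k < p → p ∣ Nat.card G → ∀ α : Ω,
        ¬ p ∣ Nat.card (MulAction.stabilizer G α) ∨ ¬ p ∣ (MulAction.stabilizer G α).index := by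
  classical
  obtain ⟨g₀, hg₀, hg₀k⟩ := hex
  refine ⟨?_, ?_, ?_⟩
  · let S : SubMulAction ↥(Subgroup.center G) Ω :=
      { carrier := fixedBy Ω g₀
        smul_mem' := by
          intro z y hy
          have hy' : g₀ • y = y := hy
          change g₀ • (z.1 • y) = z.1 • y
          rw [← mul_smul, (Subgroup.mem_center_iff.1 z.2 g₀), mul_smul, hy'] }
    have hfree : ∀ z : ↥(Subgroup.center G), ∀ y ∈ S, z • y = y → z = 1 := by
      intro z y _ hzy
      apply Subtype.ext
      apply FaithfulSMul.eq_of_smul_eq_smul (α := Ω)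
      intro w
      obtain ⟨h, rfl⟩ := exists_smul_eq G y w
      have hzy' : z.1 • y = y := hzy
      change z.1 • h • y = (1 : G) • h • y
      rw [one_smul, ← mul_smul, ← (Subgroup.mem_center_iff.1 z.2 h), mul_smul, hzy']
    have hd := card_dvd_of_free S hfree
    have hS : Nat.card S = Nat.card (fixedBy Ω g₀) := rfl
    rw [hS, hg₀k] at hd
    exact hd
  · intro hk2
    subst hk2
    exact even_of_fixity_two htr hfix g₀ hg₀ hg₀k
  · intro p hp hkp hpG α
    by_contra hcon
    push Not at hcon
    obtain ⟨h1, h2⟩ := hcon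
    have : Fact p.Prime := ⟨hp⟩
    obtain ⟨x, hxo⟩ := exists_prime_orderOf_dvd_card' p h1
    have hx1 : x.1 ^ p ^ 1 = 1 := by
      rw [pow_one, ← hxo, ← Subgroup.orderOf_coe, pow_orderOf_eq_one]
    have hmod := card_fixedBy_modEq (X := Ω) p x.1 1 hx1
    have hidx : (stabilizer G α).index = Nat.card Ω := index_stabilizer_of_transitive G α
    rw [hidx] at h2
    have h3 : p ∣ Nat.card (fixedBy Ω x.1) := (Nat.modEq_zero_iff_dvd.1
      (hmod.symm.trans (Nat.modEq_zero_iff_dvd.2 h2)))
    have hxne : x.1 ≠ 1 := by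
      intro h
      rw [← orderOf_eq_one_iff, Subgroup.orderOf_coe, hxo] at h
      exact hp.one_lt.ne' h
    have h4 := hfix x.1 hxne
    have h5 : 0 < Nat.card (fixedBy Ω x.1) := by
      rw [Nat.card_pos_iff]
      exact ⟨⟨⟨α, x.2⟩⟩, inferInstance⟩
    have h6 := Nat.le_of_dvd h5 h3
    omega

end Cfsg.Agent.S3389
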