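import Cfsg.Statements.S3498
import Mathlib
import Cfsg.Agent.Lib.Helper6.Index
import Cfsg.Agent.Lib.Helper6.PPrime

set_option autoImplicit false
open Cfsg

namespace Cfsg.Agent.S3498

open Cfsg.Agent.Lib.Helper6.Index Cfsg.Agent.Lib.Helper6.PPrime

open scoped Pointwise

theorem card_sup_of_disjoint {G : Type*} [Group G] [Finite G] (A B : Subgroup G)
    (hn : A ≤ Subgroup.normalizer (B : Set G)) (hd : A ⊓ B = ⊥) :
    Nat.card ↥(A ⊔ B) = Nat.card A * Nat.card B := by
  rw [card_eq_card_mul_relIndex A (A ⊔ B) le_sup_left, relIndex_sup_of_le_normalizer A B hn,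
    ← Subgroup.inf_relIndex_right, hd, Subgroup.relIndex_bot_left]

/-- A maximal subgroup of a finite almost simple group does not have prime order. Here G is almost simple in the sense that it has a non-abelian simple normal subgroup T with trivial centralizer. -/
theorem result {G : Type*} [Group G] [Finite G] (T : Subgroup G) [T.Normal] (hT : IsSimpleGroup T) (hTc : ¬ IsMulCommutative T)
    (hC : Subgroup.centralizer (T : Set G) = ⊥) (H : Subgroup G) (hmax : IsCoatom H) : ¬ (Nat.card H).Prime := by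
  classical
  intro hprime
  obtain ⟨p, hpdef⟩ : ∃ p, p = Nat.card H := ⟨_, rfl⟩
  rw [← hpdef] at hprime
  have hp : p.Prime := hprime
  have : Fact p.Prime := ⟨hp⟩
  have hHp : IsPGroup p H := IsPGroup.of_card (n := 1) (by rw [pow_one, hpdef])
  have hHcyc : IsCyclic H := isCyclic_of_prime_card (p := p) hpdef.symm
  have hHcomm : ∀ a ∈ H, ∀ b ∈ H, a * b = b * a := by
    intro a ha b hb
    obtain ⟨g, hg⟩ := hHcyc.exists_generator
    obtain ⟨i, hi⟩ := Subgroup.mem_zpowers_iff.1 (hg ⟨a, ha⟩)
    obtain ⟨j, hj⟩ := Subgroup.mem_zpowers_iff.1 (hg ⟨b, hb⟩)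
    have : (⟨a, ha⟩ : H) * ⟨b, hb⟩ = ⟨b, hb⟩ * ⟨a, ha⟩ := by
      rw [← hi, ← hj, ← zpow_add, ← zpow_add, add_comm]
    exact congrArg Subtype.val this
  have hTna : ¬ ∀ a ∈ T, ∀ b ∈ T, a * b = b * a := by
    intro h
    apply hTc
    exact ⟨⟨fun a b => Subtype.ext (h a a.2 b b.2)⟩⟩
  have hTH : ¬ T ≤ H := by
    intro h
    apply hTna
    intro a ha b hb
    exact hHcomm a (h ha) b (h hb)
  have hsimple : ∀ K : Subgroup G, K.Normal → K ≤ T → K = ⊥ ∨ K = T := by
    intro K hK hKT
    have hKn : (K.subgroupOf T).Normal := hK.subgroupOf T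
    rcases hT.eq_bot_or_eq_top_of_normal _ hKn with h | h
    · left
      rw [Subgroup.subgroupOf_eq_bot] at h
      rw [← inf_of_le_left hKT]
      exact disjoint_iff.1 h
    · right
      rw [Subgroup.subgroupOf_eq_top] at h
      exact le_antisymm hKT h
  have hTnt : Nontrivial T := hT.toNontrivial
  have hTnotq : ∀ q : ℕ, q.Prime → ¬ IsPGroup q T := by
    intro q hq hTq
    have : Fact q.Prime := ⟨hq⟩
    have hZ := hTq.center_nontrivial
    rcases hT.eq_bot_or_eq_top_of_normal (Subgroup.center T) inferInstance with h | h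
    · exact ((Subgroup.nontrivial_iff_ne_bot _).1 hZ) h
    · apply hTc
      refine ⟨⟨fun a b => ?_⟩⟩
      have hb : b ∈ Subgroup.center T := h ▸ Subgroup.mem_top b
      exact Subgroup.mem_center_iff.1 hb a
  have hinf : H ⊓ T = ⊥ ∨ H ≤ T := by
    have h1 : Nat.card ↥(H ⊓ T) ∣ p := by
      rw [hpdef]
      exact Subgroup.card_dvd_of_le inf_le_left
    rcases (Nat.dvd_prime hp).1 h1 with h | h
    · left
      exact Subgroup.card_eq_one.1 h
    · right
      have : H ⊓ T = H := Subgroup.eq_of_le_of_card_ge inf_le_left (by rw [h, hpdef])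
      rw [← this]
      exact inf_le_right
  rcases hinf with hdisj | hle
  · have hTcard : 1 < Nat.card T := Finite.one_lt_card
    obtain ⟨q, hq, hqT, hpq⟩ : ∃ q : ℕ, q.Prime ∧ q ∣ Nat.card T ∧ (q = p ∨ ¬ p ∣ Nat.card T) := by
      by_cases hpT : p ∣ Nat.card T
      · exact ⟨p, hp, hpT, Or.inl rfl⟩
      · obtain ⟨q, hq, hqT⟩ := Nat.exists_prime_and_dvd (hTcard.ne')
        exact ⟨q, hq, hqT, Or.inr hpT⟩
    have : Fact q.Prime := ⟨hq⟩
    have hndvd : ¬ p ∣ Nat.card (Sylow q T) := by
      rcases hpq with rfl | hpT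
      · intro hdiv
        have h1 := card_sylow_modEq_one q T
        have h2 := (Nat.modEq_zero_iff_dvd.2 hdiv).symm.trans h1
        have h3 : q ∣ 1 := (Nat.modEq_iff_dvd' (Nat.zero_le 1)).1 h2
        exact hq.one_lt.ne' (Nat.dvd_one.1 h3)
      · intro hdiv
        obtain ⟨Q⟩ : Nonempty (Sylow q T) := inferInstance
        exact hpT (hdiv.trans ((Sylow.card_dvd_index Q).trans (Subgroup.index_dvd_card _)))
    let φ : ↥H →* MulAut ↥T := (MulAut.conjNormal (H := T)).comp H.subtype
    let _ : MulAction ↥H (Sylow q ↥T) := MulAction.compHom (Sylow q ↥T) φ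
    obtain ⟨Q, hQ⟩ := IsPGroup.nonempty_fixed_point_of_prime_not_dvd_card hHp (Sylow q ↥T) hndvd
    have hQ'T : (Q : Subgroup T).map T.subtype ≤ T := Subgroup.map_subtype_le _
    have hHQ : H ≤ Subgroup.normalizer (((Q : Subgroup T).map T.subtype : Subgroup G) : Set G) := by
      intro h hh
      apply mem_normalizer_of_conj_le
      rintro _ ⟨y, hy, rfl⟩
      have h1 : φ ⟨h, hh⟩ • Q = Q := hQ ⟨h, hh⟩
      have h2 : (φ ⟨h, hh⟩) • y ∈ (φ ⟨h, hh⟩) • (Q : Subgroup T) :=
        Subgroup.smul_mem_pointwise_smul _ _ _ hy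
      rw [← Sylow.pointwise_smul_def, h1] at h2
      exact ⟨(φ ⟨h, hh⟩) • y, h2, rfl⟩
    have hQ'card : Nat.card ((Q : Subgroup T).map T.subtype) = Nat.card Q :=
      Subgroup.card_map_of_injective T.subtype_injective
    have hQ'ne : (Q : Subgroup T).map T.subtype ≠ ⊥ := by
      intro h
      have h1 := Sylow.dvd_card_of_dvd_card Q hqT
      rw [← hQ'card, h, Subgroup.card_bot] at h1
      exact hq.one_lt.ne' (Nat.dvd_one.1 h1)
    have hQ'neT : (Q : Subgroup T).map T.subtype ≠ T := by
      intro h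
      apply hTnotq q hq
      obtain ⟨n, hn⟩ := IsPGroup.iff_card.1 Q.isPGroup'
      apply IsPGroup.of_card (n := n)
      rw [← hn, ← hQ'card, h]
    have hlt : H < H ⊔ (Q : Subgroup T).map T.subtype := by
      refine lt_of_le_of_ne le_sup_left ?_
      intro h
      have hQH : (Q : Subgroup T).map T.subtype ≤ H := by
        rw [h]
        exact le_sup_right
      have h3 : (Q : Subgroup T).map T.subtype ≤ H ⊓ T := le_inf hQH hQ'T
      rw [hdisj] at h3
      exact hQ'ne (le_bot_iff.1 h3)
    have htop := hmax.2 _ hlt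
    have hc1 := card_sup_of_disjoint H ((Q : Subgroup T).map T.subtype) hHQ
      (le_bot_iff.1 (hdisj ▸ inf_le_inf_left H hQ'T))
    have hc2 := card_sup_of_disjoint H T (by
      rw [Subgroup.normalizer_eq_top_iff.2 inferInstance]
      exact le_top) hdisj
    rw [htop, Subgroup.card_top] at hc1
    have hc3 : Nat.card ↥(H ⊔ T) ≤ Nat.card G := Subgroup.card_le_card_group _
    rw [hc2, hc1] at hc3
    have hc4 : Nat.card T ≤ Nat.card ((Q : Subgroup T).map T.subtype) :=
      Nat.le_of_mul_le_mul_left hc3 Nat.card_pos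
    exact hQ'neT (Subgroup.eq_of_le_of_card_ge hQ'T hc4)
  · have hTtop : T = ⊤ := by
      apply hmax.2
      exact lt_of_le_of_ne hle (fun h => hTH h.symm.le)
    have hsimpleG : ∀ K : Subgroup G, K.Normal → K = ⊥ ∨ K = ⊤ := by
      intro K hK
      have := hsimple K hK (hTtop ▸ le_top)
      rwa [hTtop] at this
    have hGna : ¬ ∀ a b : G, a * b = b * a := fun h => hTna (fun a _ b _ => h a b)
    obtain ⟨P, hHP⟩ := hHp.exists_le_sylow
    have hHeqP : H = P := by
      by_contra hne
      have hPtop : (P : Subgroup G) = ⊤ := hmax.2 _ (lt_of_le_of_ne hHP hne)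
      apply hTnotq p hp
      exact P.isPGroup'.to_le (hPtop ▸ le_top)
    have hNC : Subgroup.normalizer ((P : Subgroup G) : Set G) ≤
        Subgroup.centralizer ((P : Subgroup G) : Set G) := by
      have hle' : H ≤ Subgroup.normalizer ((P : Subgroup G) : Set G) := by
        rw [hHeqP]
        exact Subgroup.le_normalizer
      rcases eq_or_lt_of_le hle' with h | h
      · rw [← h]
        intro a ha
        rw [Subgroup.mem_centralizer_iff]
        intro b hb
        have hb' : b ∈ H := by
          rw [hHeqP]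
          exact hb
        exact hHcomm b hb' a ha
      · exfalso
        have htop := hmax.2 _ h
        have hPn : (P : Subgroup G).Normal := Subgroup.normalizer_eq_top_iff.1 htop
        rcases hsimpleG _ hPn with h1 | h1
        · rw [← hHeqP] at h1
          have h2 : Nat.card H = 1 := by
            rw [h1]
            exact Subgroup.card_bot
          rw [← hpdef] at h2
          exact hp.one_lt.ne' h2
        · rw [← hHeqP] at h1
          exact hGna (fun a b => hHcomm a (h1 ▸ Subgroup.mem_top a) b (h1 ▸ Subgroup.mem_top b))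
    have hcompl := MonoidHom.ker_transferSylow_isComplement' P hNC
    have hKn : (MonoidHom.transferSylow P hNC).ker.Normal := MonoidHom.normal_ker _
    rcases hsimpleG _ hKn with h1 | h1
    · rw [h1, Subgroup.isComplement'_bot_left] at hcompl
      rw [← hHeqP] at hcompl
      exact hGna (fun a b => hHcomm a (hcompl ▸ Subgroup.mem_top a) b
        (hcompl ▸ Subgroup.mem_top b))
    · rw [h1, Subgroup.isComplement'_top_left] at hcompl
      rw [← hHeqP] at hcompl
      have h2 : Nat.card H = 1 := by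
        rw [hcompl]
        exact Subgroup.card_bot
      rw [← hpdef] at h2
      exact hp.one_lt.ne' h2

end Cfsg.Agent.S3498
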