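import Cfsg.Statements.S3504
import Mathlib

set_option autoImplicit false
open Cfsg

namespace Cfsg.Agent.S3504

theorem cycleType_of_fpf_prime {n : ℕ} (g : Equiv.Perm (Fin n)) (hg : (orderOf g).Prime)
    (hf : ∀ i : Fin n, g i ≠ i) :
    orderOf g ∣ n ∧ g.cycleType = Multiset.replicate (n / orderOf g) (orderOf g) := by
  obtain ⟨m, hm⟩ := Equiv.Perm.cycleType_prime_order hg
  have hs : g.cycleType.sum = n := by
    rw [Equiv.Perm.sum_cycleType]
    have : g.support = Finset.univ := by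
      ext i
      simp [Equiv.Perm.mem_support, hf i]
    rw [this]
    simp
  rw [hm, Multiset.sum_replicate, smul_eq_mul] at hs
  have hpos := hg.pos
  generalize orderOf g = q at hm hs hpos
  refine ⟨⟨m + 1, by rw [← hs, mul_comm]⟩, ?_⟩
  rw [hm]
  congr 1
  exact (Nat.div_eq_of_eq_mul_left hpos hs.symm).symm

theorem exists_fpf_prime {n p : ℕ} (hp : p.Prime) (hpn : p ∣ n) (hn : 0 < n) :
    ∃ g : Equiv.Perm (Fin n), orderOf g = p ∧ ∀ i : Fin n, g i ≠ i := by
  obtain ⟨g, hg⟩ := (Equiv.Perm.exists_with_cycleType_iff (α := Fin n)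
    (m := Multiset.replicate (n / p) p)).2 (by
      constructor
      · rw [Multiset.sum_replicate, smul_eq_mul, Nat.div_mul_cancel hpn]
        simp
      · intro a ha
        rw [Multiset.eq_of_mem_replicate ha]
        exact hp.two_le)
  have hk : 0 < n / p := Nat.div_pos (Nat.le_of_dvd hn hpn) hp.pos
  have ho : orderOf g = p := by
    rw [← Equiv.Perm.lcm_cycleType, hg]
    apply Nat.dvd_antisymm
    · rw [Multiset.lcm_dvd]
      intro b hb
      rw [Multiset.eq_of_mem_replicate hb]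
    · apply Multiset.dvd_lcm
      rw [Multiset.mem_replicate]
      exact ⟨hk.ne', rfl⟩
  refine ⟨g, ho, ?_⟩
  have hs : g.support.card = n := by
    rw [← Equiv.Perm.sum_cycleType, hg, Multiset.sum_replicate, smul_eq_mul,
      Nat.div_mul_cancel hpn]
  have hu : g.support = Finset.univ := by
    rw [← Finset.card_eq_iff_eq_univ, hs]
    simp
  intro i
  rw [← Equiv.Perm.mem_support, hu]
  exact Finset.mem_univ i

/-- For n ≥ 5, the fixed-point-free permutations of prime order in the symmetric group of degree n form a single conjugacy class if and only if n is a prime power. -/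
theorem result (n : ℕ) (hn : 5 ≤ n) :
    Nat.card {c : ConjClasses (Equiv.Perm (Fin n)) // ∃ g : Equiv.Perm (Fin n), ConjClasses.mk g = c ∧ (orderOf g).Prime ∧ ∀ i : Fin n, g i ≠ i} = 1 ↔ IsPrimePow n := by
  have hn0 : 0 < n := by omega
  rw [Nat.card_eq_one_iff_unique]
  constructor
  · rintro ⟨hsub, -⟩
    have hn1 : n ≠ 1 := by omega
    have hp := Nat.minFac_prime hn1
    have hpn := Nat.minFac_dvd n
    have huniq : ∀ {d : ℕ}, d.Prime → d ∣ n → d = n.minFac := by
      intro d hd hdn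
      obtain ⟨g, hg, hgf⟩ := exists_fpf_prime hd hdn hn0
      obtain ⟨g', hg', hgf'⟩ := exists_fpf_prime hp hpn hn0
      have h := @Subsingleton.elim _ hsub
        ⟨ConjClasses.mk g, g, rfl, by rw [hg]; exact hd, hgf⟩
        ⟨ConjClasses.mk g', g', rfl, by rw [hg']; exact hp, hgf'⟩
      have h1 : ConjClasses.mk g = ConjClasses.mk g' := congrArg Subtype.val h
      rw [ConjClasses.mk_eq_mk_iff_isConj, Equiv.Perm.isConj_iff_cycleType_eq] at h1
      rw [← hg, ← hg', ← Equiv.Perm.lcm_cycleType, ← Equiv.Perm.lcm_cycleType, h1]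
    have h2 := Nat.eq_prime_pow_of_unique_prime_dvd hn0.ne' huniq
    rw [isPrimePow_nat_iff]
    refine ⟨n.minFac, n.primeFactorsList.length, hp, ?_, h2.symm⟩
    rcases Nat.eq_zero_or_pos (n.primeFactorsList.length) with h0 | h0
    · rw [h0, pow_zero] at h2
      exact absurd h2 hn1
    · exact h0
  · intro hpp
    rw [isPrimePow_nat_iff] at hpp
    obtain ⟨p, k, hp, hk, rfl⟩ := hpp
    have hpn : p ∣ p ^ k := dvd_pow_self p hk.ne'
    constructor
    · constructor
      rintro ⟨c₁, g₁, rfl, hg₁, hf₁⟩ ⟨c₂, g₂, rfl, hg₂, hf₂⟩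
      apply Subtype.ext
      change ConjClasses.mk g₁ = ConjClasses.mk g₂
      rw [ConjClasses.mk_eq_mk_iff_isConj, Equiv.Perm.isConj_iff_cycleType_eq]
      obtain ⟨hd₁, ht₁⟩ := cycleType_of_fpf_prime g₁ hg₁ hf₁
      obtain ⟨hd₂, ht₂⟩ := cycleType_of_fpf_prime g₂ hg₂ hf₂
      have e₁ : orderOf g₁ = p := (Nat.prime_dvd_prime_iff_eq hg₁ hp).1 (hg₁.dvd_of_dvd_pow hd₁)
      have e₂ : orderOf g₂ = p := (Nat.prime_dvd_prime_iff_eq hg₂ hp).1 (hg₂.dvd_of_dvd_pow hd₂)
      rw [ht₁, ht₂, e₁, e₂]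
    · obtain ⟨g, hg, hgf⟩ := exists_fpf_prime hp hpn hn0
      exact ⟨⟨ConjClasses.mk g, g, rfl, by rw [hg]; exact hp, hgf⟩⟩

end Cfsg.Agent.S3504
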