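import Cfsg.Statements.S3508
import Mathlib

set_option autoImplicit false
open Cfsg

namespace Cfsg.Agent.S3508

open Polynomial in
theorem LA_add {V : Type*} [AddCommGroup V] [Finite V] (p m : ℕ) [Fact p.Prime]
    [Module (ZMod p) V] (hcard : Nat.card V = p ^ m) (γ : AddMonoid.End V) (K k : ℕ)
    (hnil : γ ^ (p ^ K) = 1) (hq : m < p ^ k) :
    γ ^ (p ^ k) = 1 ∧ ∀ v : V, (∑ j ∈ Finset.range (p ^ k), (γ ^ j) v) = 0 := by
  classical
  haveI : Module.Finite (ZMod p) V := Module.Finite.of_finite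
  have hfin : Module.finrank (ZMod p) V = m := by
    have h1 := Module.natCard_eq_pow_finrank (K := ZMod p) (V := V)
    rw [Nat.card_zmod, hcard] at h1
    exact (Nat.pow_right_injective (Fact.out : p.Prime).two_le h1).symm
  let Φ : AddMonoid.End V →* Module.End (ZMod p) V :=
    { toFun := fun f => AddMonoidHom.toZModLinearMap p f
      map_one' := by apply LinearMap.ext; intro x; rfl
      map_mul' := fun f g => by apply LinearMap.ext; intro x; rfl }
  have hΦinj : Function.Injective Φ := fun f g hfg =>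
    AddMonoidHom.toZModLinearMap_injective p hfg
  obtain ⟨L, hL⟩ : ∃ L : Module.End (ZMod p) V, L = Φ γ := ⟨_, rfl⟩
  have hLK : L ^ (p ^ K) = 1 := by rw [hL, ← map_pow, hnil, map_one]
  have P1 : ∀ n : ℕ, (L - 1) ^ (p ^ n) = L ^ (p ^ n) - 1 := by
    intro n
    have h1 := sub_pow_char_pow (X : (ZMod p)[X]) 1 n
    have h2 := congrArg (aeval L) h1
    simpa using h2
  have hnilp : IsNilpotent (L - 1) := ⟨p ^ K, by rw [P1 K, hLK, sub_self]⟩
  have hδm : (L - 1) ^ m = 0 := by
    have h1 := IsNilpotent.charpoly_eq_X_pow_finrank hnilp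
    have h2 := LinearMap.aeval_self_charpoly (L - 1)
    rw [h1, hfin] at h2
    simpa using h2
  have hδ : ∀ n : ℕ, m ≤ n → (L - 1) ^ n = 0 := by
    intro n hn
    obtain ⟨d, rfl⟩ := Nat.exists_eq_add_of_le hn
    rw [pow_add, hδm, zero_mul]
  have hLq : L ^ (p ^ k) = 1 := by
    have := P1 k
    rw [hδ _ hq.le] at this
    exact (sub_eq_zero.mp this.symm)
  have P2 : ∑ j ∈ Finset.range (p ^ k), L ^ j = (L - 1) ^ (p ^ k - 1) := by
    have hpos : 0 < p ^ k := by omega
    have h1 : (X - 1 : (ZMod p)[X]) * ∑ j ∈ Finset.range (p ^ k), X ^ j =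
        (X - 1) * (X - 1) ^ (p ^ k - 1) := by
      rw [mul_geom_sum, ← pow_succ', Nat.sub_add_cancel hpos, sub_pow_char_pow, one_pow]
    have hne : (X - 1 : (ZMod p)[X]) ≠ 0 := by
      have := X_sub_C_ne_zero (1 : ZMod p)
      simpa using this
    have h2 := mul_left_cancel₀ hne h1
    have h3 := congrArg (aeval L) h2
    simpa using h3
  refine ⟨?_, ?_⟩
  · apply hΦinj
    rw [map_pow, map_one, ← hL]; exact hLq
  · intro v
    have h1 : (∑ j ∈ Finset.range (p ^ k), L ^ j) v = 0 := by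
      rw [P2, hδ _ (by omega)]; rfl
    rw [LinearMap.sum_apply] at h1
    rw [← h1]
    apply Finset.sum_congr rfl
    intro j _
    rw [hL, ← map_pow]
    rfl

theorem LA_comm {E : Type*} [CommGroup E] [Finite E] (p m : ℕ) [Fact p.Prime]
    (hexp : ∀ a : E, a ^ p = 1) (hcard : Nat.card E = p ^ m) (f : E →* E) (K k : ℕ)
    (hnil : ∀ a, f^[p ^ K] a = a) (hq : m < p ^ k) (a : E) :
    (∀ b, f^[p ^ k] b = b) ∧ ∃ P : ℕ → E, P 0 = 1 ∧ (∀ j, P (j + 1) = f (P j) * a) ∧
      P (p ^ k) = 1 := by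
  letI : Module (ZMod p) (Additive E) := AddCommGroup.zmodModule (n := p) (fun a => by
    show Additive.ofMul (Additive.toMul a ^ p) = Additive.ofMul 1
    rw [hexp])
  obtain ⟨γ, hγ⟩ : ∃ γ : AddMonoid.End (Additive E), γ = MonoidHom.toAdditive f := ⟨_, rfl⟩
  have hpow : ∀ (j : ℕ) (b : E), (γ ^ j) (Additive.ofMul b) = Additive.ofMul (f^[j] b) := by
    intro j
    induction j with
    | zero => intro b; rfl
    | succ j ih =>
      intro b
      have h1 : (γ ^ (j + 1)) (Additive.ofMul b) = (γ ^ j) (Additive.ofMul (f b)) := by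
        rw [pow_succ, hγ]; rfl
      rw [h1, ih, Function.iterate_succ_apply]
  have hnil' : γ ^ (p ^ K) = 1 := by
    apply AddMonoidHom.ext
    intro x
    have := hpow (p ^ K) (Additive.toMul x)
    rw [hnil] at this
    exact this
  obtain ⟨h1, h2⟩ := LA_add (V := Additive E) p m hcard γ K k hnil' hq
  refine ⟨?_, fun j => ∏ i ∈ Finset.range j, f^[i] a, Finset.prod_range_zero _, ?_, ?_⟩
  · intro b
    have := hpow (p ^ k) b
    rw [h1] at this
    exact (congrArg Additive.toMul this).symm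
  · intro j
    show ∏ i ∈ Finset.range (j + 1), f^[i] a = f (∏ i ∈ Finset.range j, f^[i] a) * a
    rw [Finset.prod_range_succ', map_prod]
    simp only [Function.iterate_succ_apply', Function.iterate_zero, id_eq]
  · have := h2 (Additive.ofMul a)
    simp only [hpow] at this
    rw [← ofMul_prod] at this
    exact congrArg Additive.toMul this

theorem LA_grp {E : Type*} [Group E] [Finite E] (hcomm : ∀ a b : E, a * b = b * a)
    (p m : ℕ) [Fact p.Prime]
    (hexp : ∀ a : E, a ^ p = 1) (hcard : Nat.card E = p ^ m) (f : E →* E) (K k : ℕ)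
    (hnil : ∀ a, f^[p ^ K] a = a) (hq : m < p ^ k) (a : E) :
    (∀ b, f^[p ^ k] b = b) ∧ ∃ P : ℕ → E, P 0 = 1 ∧ (∀ j, P (j + 1) = f (P j) * a) ∧
      P (p ^ k) = 1 := by
  letI : CommGroup E := { (inferInstance : Group E) with mul_comm := hcomm }
  exact LA_comm p m hexp hcard f K k hnil hq a

theorem ar_a (n : ℕ) (hn : 2 ≤ n) : n + 1 < 2 ^ n := by
  induction n, hn using Nat.le_induction with
  | base => norm_num
  | succ n hn ih => rw [pow_succ]; omega

theorem ar_b (n : ℕ) (hn : 1 ≤ n) : n + 1 < 3 ^ n := by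
  induction n, hn using Nat.le_induction with
  | base => norm_num
  | succ n hn ih => rw [pow_succ]; omega

/-- Let a finite group G act faithfully on a set Ω with p ^ m points (p prime) and have an elementary abelian normal p-subgroup N acting regularly on Ω (so G is a group of affine transformations of an m-dimensional space over the field with p elements). If G contains an element of order p ^ r with r ≥ 1, then p ^ (r − 1) ≤ m. In particular an element of order p ^ m forces m ≤ 2, and m ≤ 1 when p is odd. -/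
theorem result {G : Type*} [Group G] [Finite G] {Ω : Type*} [Fintype Ω] [MulAction G Ω] [FaithfulSMul G Ω] (p m : ℕ) (hp : p.Prime) (hcard : Fintype.card Ω = p ^ m)
    (N : Subgroup G) [N.Normal] (hNc : IsMulCommutative N) (hNp : ∀ n ∈ N, n ^ p = 1)
    (hNtr : MulAction.IsPretransitive N Ω) (hNreg : ∀ ω : Ω, MulAction.stabilizer N ω = ⊥)
    (g : G) (r : ℕ) (hr : 1 ≤ r) (hg : orderOf g = p ^ r) :
    p ^ (r - 1) ≤ m ∧ (r = m → m ≤ 2 ∧ (2 < p → m ≤ 1)) := by
  haveI : Fact p.Prime := ⟨hp⟩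
  obtain ⟨ω₀⟩ : Nonempty Ω := by
    apply Fintype.card_pos_iff.mp; rw [hcard]; exact pow_pos hp.pos m
  have hbij : Function.Bijective (fun n : N => n • ω₀) := by
    constructor
    · intro a b hab
      have hab' : a • ω₀ = b • ω₀ := hab
      have : b⁻¹ * a ∈ MulAction.stabilizer N ω₀ := by
        rw [MulAction.mem_stabilizer_iff, mul_smul, hab', inv_smul_smul]
      rw [hNreg ω₀, Subgroup.mem_bot] at this
      exact (inv_mul_eq_one.mp this).symm
    · intro ω
      exact MulAction.exists_smul_eq N ω₀ ω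
  have hNcard : Nat.card N = p ^ m := by
    rw [Nat.card_congr (Equiv.ofBijective _ hbij), Nat.card_eq_fintype_card, hcard]
  have key : ¬ (m < p ^ (r - 1)) := by
    intro hq
    obtain ⟨f, hf⟩ : ∃ f : N →* N, ∀ n : N, ((f n : N) : G) = g * n * g⁻¹ :=
      ⟨(MulAut.conjNormal g).toMonoidHom, fun n => by simp⟩
    have hfj : ∀ (j : ℕ) (n : N), ((f^[j] n : N) : G) = g ^ j * n * (g ^ j)⁻¹ := by
      intro j
      induction j with
      | zero => intro n; simp
      | succ j ih =>
        intro n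
        rw [Function.iterate_succ_apply', hf, ih, pow_succ']
        group
    have hgr : g ^ (p ^ r) = 1 := by rw [← hg]; exact pow_orderOf_eq_one g
    have hnil : ∀ n : N, f^[p ^ r] n = n := by
      intro n
      apply Subtype.ext
      rw [hfj, hgr]; simp
    obtain ⟨n₀, hn₀⟩ := MulAction.exists_smul_eq N ω₀ (g • ω₀)
    obtain ⟨h1, P, hP0, hPs, hPq⟩ := LA_grp (E := N) (fun a b => hNc.is_comm.comm a b) p m
      (fun a => Subtype.ext (by simpa using hNp a a.2)) hNcard f r (r - 1) hnil hq n₀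
    have hform : ∀ j : ℕ, g ^ j = (P j : G) * ((n₀ : G)⁻¹ * g) ^ j := by
      intro j
      induction j with
      | zero => simp [hP0]
      | succ j ih =>
        have e1 : ((P (j + 1) : N) : G) = g * (P j : G) * g⁻¹ * (n₀ : G) := by
          rw [hPs j, Subgroup.coe_mul, hf]
        calc g ^ (j + 1) = g * g ^ j := pow_succ' g j
          _ = g * ((P j : G) * ((n₀ : G)⁻¹ * g) ^ j) := by rw [← ih]
          _ = (g * (P j : G) * g⁻¹ * (n₀ : G)) * (((n₀ : G)⁻¹ * g) * ((n₀ : G)⁻¹ * g) ^ j) := by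
              simp only [mul_assoc, inv_mul_cancel_left, mul_inv_cancel_left]
          _ = (P (j + 1) : G) * ((n₀ : G)⁻¹ * g) ^ (j + 1) := by
              rw [e1, pow_succ' ((n₀ : G)⁻¹ * g)]
    have hgq : g ^ (p ^ (r - 1)) = ((n₀ : G)⁻¹ * g) ^ (p ^ (r - 1)) := by
      rw [hform (p ^ (r - 1)), hPq]; simp
    have hfix0 : ((n₀ : G)⁻¹ * g) • ω₀ = ω₀ := by
      rw [mul_smul, ← hn₀]
      exact inv_smul_smul (n₀ : G) ω₀
    have hfixq : g ^ (p ^ (r - 1)) • ω₀ = ω₀ := by
      rw [hgq]
      exact (MulAction.mem_stabilizer_iff.mp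
        (Subgroup.pow_mem _ (MulAction.mem_stabilizer_iff.mpr hfix0) _))
    have hall : ∀ ω : Ω, g ^ (p ^ (r - 1)) • ω = ω := by
      intro ω
      obtain ⟨n, rfl⟩ := MulAction.exists_smul_eq N ω₀ ω
      have hc : g ^ (p ^ (r - 1)) * (n : G) = (n : G) * g ^ (p ^ (r - 1)) := by
        have h2 := congrArg Subtype.val (h1 n)
        rw [hfj] at h2
        calc g ^ (p ^ (r - 1)) * (n : G)
            = (g ^ (p ^ (r - 1)) * (n : G) * (g ^ (p ^ (r - 1)))⁻¹) * g ^ (p ^ (r - 1)) := by
              group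
          _ = (n : G) * g ^ (p ^ (r - 1)) := by rw [h2]
      show g ^ (p ^ (r - 1)) • ((n : G) • ω₀) = (n : G) • ω₀
      rw [← mul_smul, hc, mul_smul, hfixq]
    have hone : g ^ (p ^ (r - 1)) = 1 := by
      apply FaithfulSMul.eq_of_smul_eq_smul (α := Ω)
      intro ω
      rw [hall ω, one_smul]
    have hdvd := orderOf_dvd_of_pow_eq_one hone
    rw [hg] at hdvd
    have h2 := Nat.le_of_dvd (pow_pos hp.pos _) hdvd
    have h3 : p ^ (r - 1) < p ^ r := Nat.pow_lt_pow_right hp.one_lt (by omega)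
    omega
  push_neg at key
  refine ⟨key, ?_⟩
  intro hrm
  subst hrm
  constructor
  · by_contra hlt
    push_neg at hlt
    have h1 := ar_a (r - 1) (by omega)
    have h2 : 2 ^ (r - 1) ≤ p ^ (r - 1) := Nat.pow_le_pow_left hp.two_le _
    omega
  · intro hp2
    by_contra hlt
    push_neg at hlt
    have h1 := ar_b (r - 1) (by omega)
    have h2 : 3 ^ (r - 1) ≤ p ^ (r - 1) := Nat.pow_le_pow_left (by omega) _
    omega

end Cfsg.Agent.S3508
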