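import Cfsg.Statements.S3511

set_option autoImplicit false
open Cfsg

namespace Cfsg.Agent.S3511

theorem aux {G : Type*} [Group G] [Finite G] {Ω : Type*} [MulAction G Ω]
    (h : ∀ g : G, Squarefree (orderOf g) →
      ∃ ω : Ω, MulAction.stabilizer (Subgroup.zpowers g) ω = ⊥) :
    ∀ n : ℕ, ∀ g : G, orderOf g = n →
      ∃ ω : Ω, MulAction.stabilizer (Subgroup.zpowers g) ω = ⊥ := by
  intro n
  induction n using Nat.strong_induction_on with
  | _ n ih =>
    intro g hg
    by_cases hsq : Squarefree (orderOf g)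
    · exact h g hsq
    · rw [Nat.squarefree_iff_prime_squarefree] at hsq
      push Not at hsq
      obtain ⟨p, hp, hpp⟩ := hsq
      have hpos : 0 < orderOf g := orderOf_pos g
      have hpdvd : p ∣ orderOf g := Dvd.dvd.trans (Dvd.intro _ rfl) hpp
      have hord : orderOf (g ^ p) = orderOf g / p := orderOf_pow_of_dvd hp.ne_zero hpdvd
      have hlt : orderOf (g ^ p) < n := by
        rw [hord, ← hg]; exact Nat.div_lt_self hpos hp.one_lt
      obtain ⟨ω, hω⟩ := ih _ hlt (g ^ p) rfl
      refine ⟨ω, ?_⟩
      rw [Subgroup.eq_bot_iff_forall]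
      rintro ⟨x, hx⟩ hfix
      rw [MulAction.mem_stabilizer_iff] at hfix
      have hfix' : x • ω = ω := hfix
      obtain ⟨k, rfl⟩ := Subgroup.mem_zpowers_iff.1 hx
      have key : ∀ y : G, y ∈ Subgroup.zpowers (g ^ p) → y • ω = ω → y = 1 := by
        intro y hy hyω
        have hmem : (⟨y, hy⟩ : Subgroup.zpowers (g ^ p)) ∈
            MulAction.stabilizer (Subgroup.zpowers (g ^ p)) ω := by
          rw [MulAction.mem_stabilizer_iff]; exact hyω
        rw [hω, Subgroup.mem_bot] at hmem
        exact congrArg Subtype.val hmem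
      have hs : g ^ k ∈ MulAction.stabilizer G ω := hfix'
      have h1 : (g ^ p) ^ k = 1 := by
        apply key _ (Subgroup.zpow_mem_zpowers _ _)
        have e : (g ^ p) ^ k = (g ^ k) ^ p := by
          rw [← zpow_natCast, ← zpow_mul, mul_comm, zpow_mul, zpow_natCast]
        rw [e]
        exact Subgroup.pow_mem _ hs p
      have h2 : g ^ ((p : ℤ) * k) = 1 := by
        rw [zpow_mul, zpow_natCast]; exact h1
      have h3 : (orderOf g : ℤ) ∣ (p : ℤ) * k := orderOf_dvd_iff_zpow_eq_one.2 h2
      have h4 : ((p : ℤ) * p) ∣ (p : ℤ) * k := by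
        refine Dvd.dvd.trans ?_ h3
        exact_mod_cast hpp
      have hp0 : (p : ℤ) ≠ 0 := by exact_mod_cast hp.ne_zero
      obtain ⟨j, hj⟩ := Int.dvd_of_mul_dvd_mul_left hp0 h4
      have h5 : g ^ k = 1 := by
        apply key _ _ hfix'
        rw [hj, zpow_mul, zpow_natCast]
        exact Subgroup.zpow_mem_zpowers _ _
      exact Subtype.ext h5

/-- Let a finite group G act faithfully on a set Ω. If every element of G of square-free order has a regular cycle (an orbit of the cyclic group it generates with trivial stabilizer), then every element of G has a regular cycle. -/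
theorem result {G : Type*} [Group G] [Finite G] {Ω : Type*} [MulAction G Ω] [FaithfulSMul G Ω]
    (h : ∀ g : G, Squarefree (orderOf g) → ∃ ω : Ω, MulAction.stabilizer (Subgroup.zpowers g) ω = ⊥) (g : G) :
    ∃ ω : Ω, MulAction.stabilizer (Subgroup.zpowers g) ω = ⊥ := by
  exact aux h _ g rfl

end Cfsg.Agent.S3511
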