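import Cfsg.Statements.S3514
import Mathlib
import Cfsg.Agent.Lib.Helper6.Index

set_option autoImplicit false
open Cfsg

namespace Cfsg.Agent.S3514

open MulAction Cfsg.Agent.Lib.Helper6.Index

/-- Let p be a prime, V a finite vector space over the field with p elements, and H a group of linear transformations of V all of whose orbits on V have size coprime to p. (i) Every normal subgroup K of H has all its orbits on V of size coprime to p. (ii) If N is a group of linear transformations of V of order coprime to p that is normalized by H, then the group generated by N and H has all its orbits on V of size coprime to p. -/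
theorem result (p : ℕ) [Fact p.Prime] {V : Type*} [AddCommGroup V] [Module (ZMod p) V] [Finite V]
    (H : Subgroup (V ≃ₗ[ZMod p] V)) (hH : ∀ v : V, ¬ p ∣ Nat.card {u : V | ∃ h ∈ H, h v = u}) :
    (∀ K : Subgroup (V ≃ₗ[ZMod p] V), K ≤ H → H ≤ Subgroup.normalizer (K : Set (V ≃ₗ[ZMod p] V)) →
        ∀ v : V, ¬ p ∣ Nat.card {u : V | ∃ k ∈ K, k v = u}) ∧
    (∀ N : Subgroup (V ≃ₗ[ZMod p] V), ¬ p ∣ Nat.card N → H ≤ Subgroup.normalizer (N : Set (V ≃ₗ[ZMod p] V)) →
        ∀ v : V, ¬ p ∣ Nat.card {u : V | ∃ x ∈ N ⊔ H, x v = u}) := by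
  classical
  have hfinG : Finite (V ≃ₗ[ZMod p] V) :=
    Finite.of_injective (fun f : V ≃ₗ[ZMod p] V => (f : V → V)) DFunLike.coe_injective
  have hp := (Fact.out : p.Prime)
  have horb : ∀ (L : Subgroup (V ≃ₗ[ZMod p] V)) (v : V),
      Nat.card {u : V | ∃ x ∈ L, x v = u} = (stabilizer (V ≃ₗ[ZMod p] V) v).relIndex L :=
    fun L v => card_orbit_set L v
  refine ⟨?_, ?_⟩
  · intro K hKH hnorm v
    rw [horb]
    have hH' := hH v
    rw [horb] at hH'
    intro hdiv
    apply hH'
    set S := stabilizer (V ≃ₗ[ZMod p] V) v with hS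
    have h1 : (S ⊓ H).relIndex ((S ⊓ H) ⊔ K) = (S ⊓ H).relIndex K :=
      relIndex_sup_of_le_normalizer (S ⊓ H) K (inf_le_right.trans hnorm)
    have h2 : (S ⊓ H).relIndex K = S.relIndex K := by
      rw [← Subgroup.inf_relIndex_right (S ⊓ H) K, inf_assoc, inf_of_le_right hKH,
        Subgroup.inf_relIndex_right]
    have h3 := Subgroup.relIndex_mul_relIndex (H := S ⊓ H) (K := (S ⊓ H) ⊔ K) (L := H)
      le_sup_left (sup_le inf_le_right hKH)
    rw [Subgroup.inf_relIndex_right, h1, h2] at h3
    rw [← h3]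
    exact Dvd.dvd.mul_right hdiv _
  · intro N hN hnorm v
    rw [horb]
    have hH' := hH v
    rw [horb] at hH'
    set S := stabilizer (V ≃ₗ[ZMod p] V) v with hS
    have h1 : H.relIndex (H ⊔ N) = H.relIndex N := relIndex_sup_of_le_normalizer H N hnorm
    have h2 : ¬ p ∣ H.relIndex (H ⊔ N) := by
      rw [h1]
      intro h
      exact hN (h.trans (Subgroup.relIndex_dvd_card _ _))
    have h3 := Subgroup.relIndex_inf_mul_relIndex S H (H ⊔ N)
    rw [inf_of_le_left (le_sup_left : H ≤ H ⊔ N)] at h3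
    have h4 : S.relIndex (H ⊔ N) ∣ (S ⊓ H).relIndex (H ⊔ N) :=
      Subgroup.relIndex_dvd_of_le_left _ inf_le_left
    rw [sup_comm]
    intro hdiv
    have h5 := hdiv.trans h4
    rw [← h3] at h5
    rcases hp.dvd_mul.1 h5 with h | h
    · exact hH' h
    · exact h2 h

end Cfsg.Agent.S3514
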