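import Cfsg.Statements.S3517
import Mathlib

set_option autoImplicit false
open Cfsg

namespace Cfsg.Agent.S3517

theorem exists_equiv_of_li {K V ι : Type*} [Field K] [AddCommGroup V] [Module K V]
    [FiniteDimensional K V] (u w : ι → V) (hu : LinearIndependent K u)
    (hw : LinearIndependent K w) : ∃ g : V ≃ₗ[K] V, ∀ i, g (u i) = w i := by
  let f := hu.linearCombinationEquiv.symm ≪≫ₗ hw.linearCombinationEquiv
  obtain ⟨g, hg⟩ := Submodule.exists_linearEquiv_restrict_eq f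
  refine ⟨g, fun i => ?_⟩
  have h1 : (hu.linearCombinationEquiv (Finsupp.single i 1) : V) = u i := by simp
  have h2 : (hw.linearCombinationEquiv (Finsupp.single i 1) : V) = w i := by simp
  rw [← h1, ← hg, ← h2]
  simp [f]

theorem exists_equiv_single {K V : Type*} [Field K] [AddCommGroup V] [Module K V]
    [FiniteDimensional K V] (u w : V) (hu : u ≠ 0) (hw : w ≠ 0) :
    ∃ g : V ≃ₗ[K] V, g u = w := by
  have h1 : LinearIndependent K (fun _ : Unit => u) := by
    rw [linearIndependent_unique_iff]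
    exact hu
  have h2 : LinearIndependent K (fun _ : Unit => w) := by
    rw [linearIndependent_unique_iff]
    exact hw
  obtain ⟨g, hg⟩ := exists_equiv_of_li _ _ h1 h2
  exact ⟨g, hg ()⟩

theorem li_pair_zmod2 {V : Type*} [AddCommGroup V] [Module (ZMod 2) V] (x y : V) (hx : x ≠ 0)
    (hy : y ≠ 0) (hxy : x ≠ y) : LinearIndependent (ZMod 2) ![x, y] := by
  rw [LinearIndependent.pair_iff]
  intro s t h
  have h01 : ∀ z : ZMod 2, z = 0 ∨ z = 1 := by decide
  have hs := h01 s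
  have ht := h01 t
  rcases hs with rfl | rfl <;> rcases ht with rfl | rfl
  · exact ⟨rfl, rfl⟩
  · rw [zero_smul, one_smul, zero_add] at h
    exact absurd h hy
  · rw [zero_smul, one_smul, add_zero] at h
    exact absurd h hx
  · exfalso
    rw [one_smul, one_smul] at h
    apply hxy
    have h2 : y + y = 0 := by
      have : (2 : ZMod 2) • y = 0 := by
        have e : (2 : ZMod 2) = 0 := by decide
        rw [e, zero_smul]
      rw [two_smul] at this
      exact this
    have h3 : x + y = y + y := by rw [h, h2]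
    exact add_right_cancel h3

theorem exists_equiv_two {V : Type*} [AddCommGroup V] [Module (ZMod 2) V]
    [FiniteDimensional (ZMod 2) V] (u₁ u₂ w₁ w₂ : V) (h1 : u₁ = 0 ↔ w₁ = 0) (h2 : u₂ = 0 ↔ w₂ = 0)
    (h12 : u₁ = u₂ ↔ w₁ = w₂) : ∃ g : V ≃ₗ[ZMod 2] V, g u₁ = w₁ ∧ g u₂ = w₂ := by
  by_cases hu1 : u₁ = 0
  · have hw1 := h1.1 hu1
    by_cases hu2 : u₂ = 0
    · have hw2 := h2.1 hu2
      refine ⟨LinearEquiv.refl _ _, ?_, ?_⟩
      · rw [hu1, hw1]; rfl
      · rw [hu2, hw2]; rfl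
    · have hw2 : w₂ ≠ 0 := fun h => hu2 (h2.2 h)
      obtain ⟨g, hg⟩ := exists_equiv_single (K := ZMod 2) u₂ w₂ hu2 hw2
      refine ⟨g, ?_, hg⟩
      rw [hu1, hw1, map_zero]
  · have hw1 : w₁ ≠ 0 := fun h => hu1 (h1.2 h)
    by_cases hu2 : u₂ = 0
    · have hw2 := h2.1 hu2
      obtain ⟨g, hg⟩ := exists_equiv_single (K := ZMod 2) u₁ w₁ hu1 hw1
      refine ⟨g, hg, ?_⟩
      rw [hu2, hw2, map_zero]
    · have hw2 : w₂ ≠ 0 := fun h => hu2 (h2.2 h)
      by_cases he : u₁ = u₂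
      · have he' := h12.1 he
        obtain ⟨g, hg⟩ := exists_equiv_single (K := ZMod 2) u₁ w₁ hu1 hw1
        refine ⟨g, hg, ?_⟩
        rw [← he, ← he']
        exact hg
      · have he' : w₁ ≠ w₂ := fun h => he (h12.2 h)
        obtain ⟨g, hg⟩ := exists_equiv_of_li _ _ (li_pair_zmod2 u₁ u₂ hu1 hu2 he)
          (li_pair_zmod2 w₁ w₂ hw1 hw2 he')
        exact ⟨g, hg 0, hg 1⟩

/-- For d ≥ 3, the 3-closure of the affine group AGL_d(2) acting on F_2^d is the full symmetric group: every permutation of F_2^d agrees on every ordered triple of points with some affine map (AGL_d(2) is 3-transitive). -/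
theorem result (d : ℕ) (hd : 3 ≤ d) (σ : Equiv.Perm (Fin d → ZMod 2)) (t : Fin 3 → (Fin d → ZMod 2)) :
    ∃ (A : (Fin d → ZMod 2) ≃ₗ[ZMod 2] (Fin d → ZMod 2)) (b : Fin d → ZMod 2), ∀ i, σ (t i) = A (t i) + b := by
  obtain ⟨g, hg1, hg2⟩ := exists_equiv_two (t 1 - t 0) (t 2 - t 0) (σ (t 1) - σ (t 0))
    (σ (t 2) - σ (t 0)) (by rw [sub_eq_zero, sub_eq_zero, σ.injective.eq_iff])
    (by rw [sub_eq_zero, sub_eq_zero, σ.injective.eq_iff])
    (by rw [sub_left_inj, sub_left_inj, σ.injective.eq_iff])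
  refine ⟨g, σ (t 0) - g (t 0), ?_⟩
  rw [map_sub] at hg1 hg2
  intro i
  fin_cases i
  · change σ (t 0) = g (t 0) + (σ (t 0) - g (t 0))
    abel
  · change σ (t 1) = g (t 1) + (σ (t 0) - g (t 0))
    have : σ (t 1) = (g (t 1) - g (t 0)) + σ (t 0) := by rw [hg1]; abel
    rw [this]
    abel
  · change σ (t 2) = g (t 2) + (σ (t 0) - g (t 0))
    have : σ (t 2) = (g (t 2) - g (t 0)) + σ (t 0) := by rw [hg2]; abel
    rw [this]
    abel

end Cfsg.Agent.S3517
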