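import Cfsg.Statements.S3518
import Mathlib
import Cfsg.Agent.Lib.Helper6.Agl1

set_option autoImplicit false
open Cfsg

namespace Cfsg.Agent.S3518

open Cfsg.Agent.Lib.Helper6.Agl1

/-- Closures of subgroups of the one-dimensional affine group. Let p be a prime and G a group of permutations of F_p lying in the affine group AGL₁(p) = {x ↦ ax + b, a ≠ 0} and containing all translations. (1) If G is a proper subgroup of AGL₁(p), then G is 2-closed: a permutation of F_p agreeing on every ordered pair of points with some element of G lies in G. (2) Every permutation of F_p agrees on every ordered pair with some element of AGL₁(p) (the 2-closure of AGL₁(p) is the symmetric group). (3) AGL₁(p) is 3-closed: a permutation agreeing on every ordered triple with some affine map is affine. -/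
theorem result (p : ℕ) [Fact p.Prime] (G : Subgroup (Equiv.Perm (ZMod p))) (hG : G ≤ Cfsg.affineGroup (ZMod p))
    (htrans : ∀ b : ZMod p, ∃ g ∈ G, ∀ x, g x = x + b) :
    (G ≠ Cfsg.affineGroup (ZMod p) → ∀ σ : Equiv.Perm (ZMod p), (∀ t : Fin 2 → ZMod p, ∃ g ∈ G, ∀ i, σ (t i) = g (t i)) → σ ∈ G) ∧
    (∀ σ : Equiv.Perm (ZMod p), (∀ t : Fin 2 → ZMod p, ∃ g ∈ Cfsg.affineGroup (ZMod p), ∀ i, σ (t i) = g (t i))) ∧
    (∀ σ : Equiv.Perm (ZMod p), (∀ t : Fin 3 → ZMod p, ∃ g ∈ Cfsg.affineGroup (ZMod p), ∀ i, σ (t i) = g (t i)) → σ ∈ Cfsg.affineGroup (ZMod p)) := by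
  refine ⟨?_, ?_, ?_⟩
  · intro hne σ hσ
    apply two_closed p G (fun g hg => hG hg) htrans ?_ σ ?_
    · by_contra hcon
      push Not at hcon
      apply hne
      apply le_antisymm hG
      intro τ hτ
      exact hcon τ hτ
    · intro x y
      obtain ⟨g, hg, hgi⟩ := hσ ![x, y]
      exact ⟨g, hg, hgi 0, hgi 1⟩
  · intro σ t
    obtain ⟨g, hg, h0, h1⟩ := pair_affine p σ (t 0) (t 1)
    refine ⟨g, hg, fun i => ?_⟩
    fin_cases i
    · exact h0
    · exact h1
  · intro σ hσ
    apply three_closed p σ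
    intro t
    obtain ⟨g, hg, hgi⟩ := hσ ![0, 1, t]
    obtain ⟨a, b, hab⟩ := hg
    refine ⟨a, b, ?_, ?_, ?_⟩
    · rw [← hab]; exact hgi 0
    · rw [← hab]; exact hgi 1
    · rw [← hab]; exact hgi 2

end Cfsg.Agent.S3518
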