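import Cfsg.Statements.S3546
import Mathlib
import Cfsg.Agent.Lib.Helper6.Burnside

set_option autoImplicit false
open Cfsg

namespace Cfsg.Agent.S3546

/-- Let G act faithfully and transitively on a finite set and let D be the subgroup of G generated by the derangements (the elements fixing no point). Then D is itself transitive, and D contains every element of G whose number of fixed points is different from 1. -/
theorem result {G Ω : Type*} [Group G] [Finite G] [MulAction G Ω] [FaithfulSMul G Ω] [Finite Ω]
    (htrans : MulAction.IsPretransitive G Ω) :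
    MulAction.IsPretransitive ↥(Subgroup.closure {g : G | ∀ ω : Ω, g • ω ≠ ω}) Ω ∧
    ∀ g : G, Nat.card (MulAction.fixedBy Ω g) ≠ 1 → g ∈ Subgroup.closure {g : G | ∀ ω : Ω, g • ω ≠ ω} := by
  classical
  by_cases hne : Nonempty Ω
  · obtain ⟨htr, hone⟩ := Cfsg.Agent.Lib.Helper6.Burnside.lemmaB (G := G) (X := Ω)
      (Subgroup.closure {g : G | ∀ ω : Ω, g • ω ≠ ω}) (fun g hg => by
        by_contra hcon
        push Not at hcon
        exact hg (Subgroup.subset_closure hcon))
    refine ⟨htr, fun g hg => ?_⟩
    by_contra hgD
    exact hg (hone g hgD)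
  · rw [not_nonempty_iff] at hne
    exact ⟨⟨fun x => isEmptyElim x⟩, fun g _ => Subgroup.subset_closure (fun ω => isEmptyElim ω)⟩

end Cfsg.Agent.S3546
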