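import Cfsg.Statements.S3547
import Mathlib
import Cfsg.Agent.Lib.Helper6.Burnside

set_option autoImplicit false
open Cfsg

namespace Cfsg.Agent.S3547

open MulAction

theorem card_fixed_prod {G Ω : Type*} [Group G] [MulAction G Ω] (g : G) :
    Nat.card (fixedBy (Ω × Ω) g) = Nat.card (fixedBy Ω g) * Nat.card (fixedBy Ω g) := by
  rw [← Nat.card_prod]
  apply Nat.card_congr
  exact
    { toFun := fun x => (⟨x.1.1, congrArg Prod.fst x.2⟩, ⟨x.1.2, congrArg Prod.snd x.2⟩)
      invFun := fun y => ⟨(y.1.1, y.2.1), Prod.ext y.1.2 y.2.2⟩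
      left_inv := fun x => rfl
      right_inv := fun y => rfl }

theorem main {G Ω : Type*} [Group G] [Finite G] [MulAction G Ω] [Finite Ω] [Nonempty Ω]
    (D : Subgroup G) (hone : ∀ g : G, g ∉ D → Nat.card (fixedBy Ω g) = 1) :
    Nat.card (orbitRel.Quotient D (Ω × Ω)) - 1 =
      (Nat.card (orbitRel.Quotient G (Ω × Ω)) - 1) * D.index := by
  classical
  have hfin := Fintype.ofFinite G
  have hG := Cfsg.Agent.Lib.Helper6.Burnside.sum_fixed (G := G) (X := Ω × Ω)
  have hD := Cfsg.Agent.Lib.Helper6.Burnside.sum_fixed (G := D) (X := Ω × Ω)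
  have hsplit : ∑ g : G, Nat.card (fixedBy (Ω × Ω) g) =
      ∑ g ∈ Finset.univ.filter (fun g => g ∈ D), Nat.card (fixedBy (Ω × Ω) g) +
      ∑ g ∈ Finset.univ.filter (fun g => ¬ g ∈ D), Nat.card (fixedBy (Ω × Ω) g) :=
    (Finset.sum_filter_add_sum_filter_not _ _ _).symm
  have hDsum' : ∑ g ∈ Finset.univ.filter (fun g => g ∈ D), Nat.card (fixedBy (Ω × Ω) g) =
      ∑ d : D, Nat.card (fixedBy (Ω × Ω) d) := by
    rw [Finset.sum_subtype (Finset.univ.filter (fun g => g ∈ D)) (p := fun g => g ∈ D)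
      (by simp) (fun g => Nat.card (fixedBy (Ω × Ω) g))]
    rfl
  have hrest : ∑ g ∈ Finset.univ.filter (fun g => ¬ g ∈ D), Nat.card (fixedBy (Ω × Ω) g) =
      (Finset.univ.filter (fun g => ¬ g ∈ D)).card := by
    rw [Finset.card_eq_sum_ones]
    apply Finset.sum_congr rfl
    intro g hg
    rw [card_fixed_prod, hone g (by simpa using hg)]
  have hcount : (Finset.univ.filter (fun g => g ∈ D)).card +
      (Finset.univ.filter (fun g => ¬ g ∈ D)).card = Nat.card G := by
    rw [Finset.card_filter_add_card_filter_not, Finset.card_univ, Nat.card_eq_fintype_card]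
  have hcD : (Finset.univ.filter (fun g => g ∈ D)).card = Nat.card D := by
    rw [Nat.card_eq_fintype_card]
    exact (Fintype.card_of_subtype _ (by simp)).symm
  have hidx : D.index * Nat.card D = Nat.card G := Subgroup.index_mul_card D
  have hrG : 1 ≤ Nat.card (Quotient (orbitRel G (Ω × Ω))) :=
    Nat.card_pos_iff.2 ⟨(nonempty_quotient_iff _).2 inferInstance, inferInstance⟩
  have hrD : 1 ≤ Nat.card (Quotient (orbitRel D (Ω × Ω))) :=
    Nat.card_pos_iff.2 ⟨(nonempty_quotient_iff _).2 inferInstance, inferInstance⟩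
  have hDpos : 0 < Nat.card D := Nat.card_pos
  have hi : 1 ≤ D.index := Nat.pos_of_ne_zero Subgroup.index_ne_zero_of_finite
  rw [hsplit, hDsum', hD, hrest] at hG
  change Nat.card (Quotient (orbitRel D (Ω × Ω))) - 1 =
    (Nat.card (Quotient (orbitRel G (Ω × Ω))) - 1) * D.index
  rw [hcD] at hcount
  generalize Nat.card (Quotient (orbitRel G (Ω × Ω))) = rG at hG hrG ⊢
  generalize Nat.card (Quotient (orbitRel D (Ω × Ω))) = rD at hG hrD ⊢
  generalize D.index = i at hidx hi ⊢
  generalize Nat.card D = d at hG hcount hidx hDpos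
  generalize Nat.card G = N at hG hcount hidx
  generalize (Finset.univ.filter (fun g => ¬ g ∈ D)).card = e at hG hcount
  subst hidx
  obtain ⟨a, rfl⟩ : ∃ a, rG = a + 1 := ⟨rG - 1, by omega⟩
  obtain ⟨c, rfl⟩ : ∃ c, rD = c + 1 := ⟨rD - 1, by omega⟩
  obtain ⟨j, rfl⟩ : ∃ j, i = j + 1 := ⟨i - 1, by omega⟩
  have he' : e = j * d := by
    have h1 : d + e = j * d + d := by rw [hcount]; ring
    omega
  subst he'
  have h3 : (c : ℤ) * d = a * (j + 1) * d := by
    have h2' : ((c : ℤ) + 1) * d + j * d = (a + 1) * ((j + 1) * d) := by exact_mod_cast hG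
    linear_combination h2'
  have h4 : c * d = a * (j + 1) * d := by exact_mod_cast h3
  have h5 := Nat.eq_of_mul_eq_mul_right hDpos h4
  simp only [Nat.add_sub_cancel]
  exact h5

/-- Let G act faithfully and transitively on a finite set Ω, let D be the subgroup generated by the derangements, and let r_G and r_D be the numbers of orbits of G and of D on ordered pairs of points (the permutation ranks). Then r_D − 1 = (r_G − 1)·[G : D]. -/
theorem result {G Ω : Type*} [Group G] [Finite G] [MulAction G Ω] [FaithfulSMul G Ω] [Finite Ω]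
    (htrans : MulAction.IsPretransitive G Ω) :
    Nat.card (MulAction.orbitRel.Quotient ↥(Subgroup.closure {g : G | ∀ ω : Ω, g • ω ≠ ω}) (Ω × Ω)) - 1 =
      (Nat.card (MulAction.orbitRel.Quotient G (Ω × Ω)) - 1) * (Subgroup.closure {g : G | ∀ ω : Ω, g • ω ≠ ω}).index := by
  classical
  by_cases hne : Nonempty Ω
  · obtain ⟨htr, hone⟩ := Cfsg.Agent.Lib.Helper6.Burnside.lemmaB (G := G) (X := Ω)
      (Subgroup.closure {g : G | ∀ ω : Ω, g • ω ≠ ω}) (fun g hg => by
        by_contra hcon
        push Not at hcon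
        exact hg (Subgroup.subset_closure hcon))
    exact main _ hone
  · rw [not_nonempty_iff] at hne
    have h1 : IsEmpty (MulAction.orbitRel.Quotient
        ↥(Subgroup.closure {g : G | ∀ ω : Ω, g • ω ≠ ω}) (Ω × Ω)) :=
      ⟨fun q => Quotient.inductionOn' q (fun x => isEmptyElim x.1)⟩
    have h2 : IsEmpty (MulAction.orbitRel.Quotient G (Ω × Ω)) :=
      ⟨fun q => Quotient.inductionOn' q (fun x => isEmptyElim x.1)⟩
    rw [Nat.card_of_isEmpty, Nat.card_of_isEmpty]
    simp

end Cfsg.Agent.S3547
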