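import Cfsg.Statements.S3548
import Mathlib
import Cfsg.Agent.Lib.Helper6.Burnside

set_option autoImplicit false
open Cfsg

namespace Cfsg.Agent.S3548

open MulAction

theorem closure_normal {G : Type*} [Group G] (S : Set G)
    (hS : ∀ g : G, ∀ s ∈ S, g * s * g⁻¹ ∈ S) : (Subgroup.closure S).Normal := by
  constructor
  intro n hn g
  induction hn using Subgroup.closure_induction with
  | mem x hx => exact Subgroup.subset_closure (hS g x hx)
  | one => simp
  | mul x y _ _ hx hy =>
    have e : g * (x * y) * g⁻¹ = (g * x * g⁻¹) * (g * y * g⁻¹) := by group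
    rw [e]
    exact Subgroup.mul_mem _ hx hy
  | inv x _ hx =>
    have e : g * x⁻¹ * g⁻¹ = (g * x * g⁻¹)⁻¹ := by group
    rw [e]
    exact Subgroup.inv_mem _ hx

theorem main {G Ω : Type*} [Group G] [Finite G] [MulAction G Ω] [FaithfulSMul G Ω] [Finite Ω]
    (htrans : IsPretransitive G Ω) (hΩ : 2 ≤ Nat.card Ω) (D : Subgroup G)
    (hDdef : D = Subgroup.closure {g : G | ∀ ω : Ω, g • ω ≠ ω}) :
    D.index ∣ Nat.card Ω - 1 ∧ (D.index = Nat.card Ω - 1 → IsPrimePow (Nat.card Ω)) := by
  classical
  have hne : Nonempty Ω := (Nat.card_pos_iff.1 (by omega)).1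
  have hne2 := hne
  obtain ⟨α⟩ := hne2
  have hDn : D.Normal := by
    rw [hDdef]
    apply closure_normal
    intro g s hs ω hfix
    apply hs (g⁻¹ • ω)
    have h1 : g⁻¹ • (g * s * g⁻¹) • ω = g⁻¹ • ω := by rw [hfix]
    rw [← mul_smul] at h1
    have e : g⁻¹ * (g * s * g⁻¹) = s * g⁻¹ := by group
    rw [e, mul_smul] at h1
    exact h1
  have hDfix : ∀ g : G, g ∉ D → ∃ x : Ω, g • x = x := by
    intro g hg
    by_contra hcon
    push Not at hcon
    exact hg (hDdef ▸ Subgroup.subset_closure hcon)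
  obtain ⟨hDtr, hone⟩ := Cfsg.Agent.Lib.Helper6.Burnside.lemmaB (G := G) (X := Ω) D hDfix
  have htwo : ∀ g : G, ∀ β : Ω, β ≠ α → g • α = α → g • β = β → g ∈ D := by
    intro g β hβ h1 h2
    by_contra hg
    have hc := hone g hg
    rw [Nat.card_eq_one_iff_unique] at hc
    have h3 := hc.1.elim (⟨α, h1⟩ : fixedBy Ω g) ⟨β, h2⟩
    exact hβ (congrArg Subtype.val h3).symm
  have hsup : stabilizer G α ⊔ D = ⊤ := by
    rw [eq_top_iff]
    intro g _
    obtain ⟨d, hd⟩ := hDtr.exists_smul_eq α (g • α)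
    have hd' : (d : G) • α = g • α := hd
    have hmem : (d : G)⁻¹ * g ∈ stabilizer G α := by
      rw [mem_stabilizer_iff, mul_smul, ← hd', inv_smul_smul]
    have e : g = (d : G) * ((d : G)⁻¹ * g) := by group
    rw [e]
    exact Subgroup.mul_mem _ (Subgroup.mem_sup_right d.2) (Subgroup.mem_sup_left hmem)
  have hidx : D.index = D.relIndex (stabilizer G α) := by
    rw [← Subgroup.relIndex_sup_right (H := stabilizer G α) (K := D), hsup,
      Subgroup.relIndex_top_right]
  have hstab : ∀ β : Ω, β ≠ α →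
      stabilizer (stabilizer G α) β ≤ D.subgroupOf (stabilizer G α) := by
    intro β hβ h hh
    rw [Subgroup.mem_subgroupOf]
    exact htwo h β hβ h.2 hh
  have hdiv : ∀ β : Ω, β ≠ α →
      D.relIndex (stabilizer G α) ∣ (orbit (stabilizer G α) β).ncard := by
    intro β hβ
    rw [← index_stabilizer]
    exact Subgroup.index_dvd_of_le (hstab β hβ)
  have hfinq : Fintype (Quotient (orbitRel (stabilizer G α) Ω)) := Fintype.ofFinite _
  have hcard : Nat.card Ω =
      ∑ ω : Quotient (orbitRel (stabilizer G α) Ω), (orbit (stabilizer G α) ω.out).ncard := by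
    rw [Nat.card_congr (selfEquivSigmaOrbits (stabilizer G α) Ω), Nat.card_sigma]
    apply Finset.sum_congr rfl
    intro ω _
    exact Nat.card_coe_set_eq _
  have horbα : orbit (stabilizer G α) α = {α} := by
    ext x
    constructor
    · rintro ⟨h, rfl⟩
      exact h.2
    · rintro rfl
      exact mem_orbit_self _
  have h0 : orbit (stabilizer G α)
      (Quotient.mk'' α : Quotient (orbitRel (stabilizer G α) Ω)).out = {α} := by
    have h2 : (Quotient.mk'' α : Quotient (orbitRel (stabilizer G α) Ω)).out ∈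
        orbit (stabilizer G α) α := by
      have h3 := Quotient.out_eq' (Quotient.mk'' α : Quotient (orbitRel (stabilizer G α) Ω))
      exact Quotient.exact' h3
    rw [horbα, Set.mem_singleton_iff] at h2
    rw [h2, horbα]
  have hother : ∀ ω ∈ (Finset.univ.erase
      (Quotient.mk'' α : Quotient (orbitRel (stabilizer G α) Ω))),
      D.relIndex (stabilizer G α) ∣ (orbit (stabilizer G α) ω.out).ncard := by
    intro ω hω
    apply hdiv
    intro heq
    apply (Finset.mem_erase.1 hω).1
    rw [← Quotient.out_eq' ω, heq]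
  have hsum := Finset.add_sum_erase Finset.univ
    (fun ω : Quotient (orbitRel (stabilizer G α) Ω) => (orbit (stabilizer G α) ω.out).ncard)
    (Finset.mem_univ (Quotient.mk'' α))
  simp only [h0, Set.ncard_singleton] at hsum
  have hd1 : D.relIndex (stabilizer G α) ∣ Nat.card Ω - 1 := by
    have e : Nat.card Ω - 1 = ∑ ω ∈ Finset.univ.erase
        (Quotient.mk'' α : Quotient (orbitRel (stabilizer G α) Ω)),
        (orbit (stabilizer G α) ω.out).ncard := by
      omega
    rw [e]
    exact Finset.dvd_sum hother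
  refine ⟨hidx ▸ hd1, fun heq => ?_⟩
  rw [hidx] at heq
  have horb : ∀ β : Ω, β ≠ α → orbit (stabilizer G α) β = {α}ᶜ := by
    intro β hβ
    have hsub : orbit (stabilizer G α) β ⊆ {α}ᶜ := by
      rintro _ ⟨h, rfl⟩ hmem
      apply hβ
      have h1 : (h : G) • β = α := hmem
      have h2 : (h : G) • α = α := h.2
      exact smul_left_cancel (h : G) (h1.trans h2.symm)
    apply Set.eq_of_subset_of_ncard_le hsub _ (Set.toFinite _)
    have hc : ({α}ᶜ : Set Ω).ncard = Nat.card Ω - 1 := by
      rw [Set.ncard_compl, Set.ncard_singleton]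
    have hpos : 0 < (orbit (stabilizer G α) β).ncard := by
      rw [Set.ncard_pos]
      exact nonempty_orbit β
    have h3 := Nat.le_of_dvd hpos (hdiv β hβ)
    omega
  have hK : ∀ k : G, k ∈ D → k • α = α → k = 1 := by
    intro k hkD hkα
    apply FaithfulSMul.eq_of_smul_eq_smul (α := Ω)
    intro β
    rw [one_smul]
    by_cases hβ : β = α
    · rw [hβ]
      exact hkα
    · have h1 : (stabilizer (stabilizer G α) β).index = D.relIndex (stabilizer G α) := by
        rw [index_stabilizer, horb β hβ, Set.ncard_compl, Set.ncard_singleton, heq]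
      have h2 := Subgroup.relIndex_mul_index (hstab β hβ)
      have h3 : (D.subgroupOf (stabilizer G α)).index = D.relIndex (stabilizer G α) := rfl
      have hpos : 0 < D.relIndex (stabilizer G α) := by omega
      have h4 : (stabilizer (stabilizer G α) β).relIndex (D.subgroupOf (stabilizer G α)) = 1 := by
        rw [h3, h1] at h2
        exact Nat.eq_of_mul_eq_mul_right hpos (by rw [h2, one_mul])
      have h5 := Subgroup.relIndex_eq_one.1 h4
      have hkH : k ∈ stabilizer G α := hkα
      have h6 := h5 (show (⟨k, hkH⟩ : stabilizer G α) ∈ D.subgroupOf (stabilizer G α) from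
        Subgroup.mem_subgroupOf.2 hkD)
      exact h6
  have hDcard : Nat.card D = Nat.card Ω := by
    have h1 := Nat.card_congr (orbitProdStabilizerEquivGroup D α)
    rw [Nat.card_prod] at h1
    have h2 : Nat.card (orbit D α) = Nat.card Ω := by
      rw [orbit_eq_univ D α]
      exact Nat.card_congr (Equiv.Set.univ Ω)
    have h3 : Nat.card (stabilizer D α) = 1 := by
      rw [Nat.card_eq_one_iff_unique]
      refine ⟨⟨fun a b => ?_⟩, ⟨1⟩⟩
      have ha : (a : D) = 1 := Subtype.ext (hK _ (a : D).2 a.2)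
      have hb : (b : D) = 1 := Subtype.ext (hK _ (b : D).2 b.2)
      exact Subtype.ext (ha.trans hb.symm)
    rw [h2, h3, mul_one] at h1
    exact h1.symm
  have hconj : ∀ d₁ d₂ : G, d₁ ∈ D → d₂ ∈ D → d₁ ≠ 1 → d₂ ≠ 1 → orderOf d₁ = orderOf d₂ := by
    intro d₁ d₂ h1 h2 hn1 hn2
    have hβ : d₁ • α ≠ α := fun h => hn1 (hK d₁ h1 h)
    have hγ : d₂ • α ≠ α := fun h => hn2 (hK d₂ h2 h)
    have hmem : d₂ • α ∈ orbit (stabilizer G α) (d₁ • α) := by
      rw [horb _ hβ]
      exact hγ
    obtain ⟨h, hh⟩ := hmem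
    have hh' : (h : G) • d₁ • α = d₂ • α := hh
    have hhα : (h : G) • α = α := h.2
    have hinv : (h : G)⁻¹ • α = α := by rw [inv_smul_eq_iff, hhα]
    have hfix : (d₂⁻¹ * ((h : G) * d₁ * (h : G)⁻¹)) • α = α := by
      rw [mul_smul, mul_smul, mul_smul, hinv, hh', inv_smul_smul]
    have hin : d₂⁻¹ * ((h : G) * d₁ * (h : G)⁻¹) ∈ D :=
      D.mul_mem (D.inv_mem h2) (hDn.conj_mem d₁ h1 h)
    have h7 := hK _ hin hfix
    have e : d₂ = (h : G) * d₁ * (h : G)⁻¹ := by
      rw [inv_mul_eq_one] at h7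
      exact h7
    rw [e]
    exact (MulEquiv.orderOf_eq (MulAut.conj (h : G)) d₁).symm
  obtain ⟨p, hp, hpdvd⟩ := Nat.exists_prime_and_dvd (show Nat.card D ≠ 1 by omega)
  have hpf := Fact.mk hp
  obtain ⟨x, hx⟩ := exists_prime_orderOf_dvd_card' p hpdvd
  have hpg : IsPGroup p D := by
    intro d
    by_cases hd : d = 1
    · exact ⟨0, by simp [hd]⟩
    · refine ⟨1, ?_⟩
      have hx1 : x ≠ 1 := by
        rintro rfl
        rw [orderOf_one] at hx
        exact hp.ne_one hx.symm
      have h8 := hconj (d : G) (x : G) d.2 x.2 (fun h => hd (Subtype.ext h))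
        (fun h => hx1 (Subtype.ext h))
      rw [Subgroup.orderOf_coe, Subgroup.orderOf_coe, hx] at h8
      rw [pow_one, ← h8]
      exact pow_orderOf_eq_one d
  obtain ⟨j, hj⟩ := IsPGroup.iff_card.1 hpg
  rw [hDcard] at hj
  rw [hj]
  have hj0 : j ≠ 0 := by
    rintro rfl
    rw [pow_zero] at hj
    omega
  exact ⟨p, j, hp.prime, Nat.pos_of_ne_zero hj0, rfl⟩

/-- Let G act faithfully and transitively on a finite set with n ≥ 2 points and let D be the subgroup generated by the derangements. Then the index of D in G divides n − 1, and if it equals n − 1 then n is a prime power. -/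
theorem result {G Ω : Type*} [Group G] [Finite G] [MulAction G Ω] [FaithfulSMul G Ω] [Finite Ω]
    (htrans : MulAction.IsPretransitive G Ω) (hΩ : 2 ≤ Nat.card Ω) :
    (Subgroup.closure {g : G | ∀ ω : Ω, g • ω ≠ ω}).index ∣ Nat.card Ω - 1 ∧
    ((Subgroup.closure {g : G | ∀ ω : Ω, g • ω ≠ ω}).index = Nat.card Ω - 1 → IsPrimePow (Nat.card Ω)) := by
  exact main htrans hΩ _ rfl

end Cfsg.Agent.S3548
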