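import Cfsg.Statements.S3549
import Mathlib
import Cfsg.Agent.Lib.Helper6.Burnside

set_option autoImplicit false
open Cfsg

namespace Cfsg.Agent.S3549

open MulAction
open scoped Pointwise

theorem closure_normal {G : Type*} [Group G] (S : Set G)
    (hS : ∀ g : G, ∀ s ∈ S, g * s * g⁻¹ ∈ S) : (Subgroup.closure S).Normal := by
  constructor
  intro n hn g
  induction hn using Subgroup.closure_induction with
  | mem x hx => exact Subgroup.subset_closure (hS g x hx)
  | one => simp
  | mul x y _ _ hx hy =>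
    have e : g * (x * y) * g⁻¹ = (g * x * g⁻¹) * (g * y * g⁻¹) := by group
    rw [e]
    exact Subgroup.mul_mem _ hx hy
  | inv x _ hx =>
    have e : g * x⁻¹ * g⁻¹ = (g * x * g⁻¹)⁻¹ := by group
    rw [e]
    exact Subgroup.inv_mem _ hx

theorem core {G Ω : Type*} [Group G] [Finite G] [MulAction G Ω] [Finite Ω]
    (htrans : IsPretransitive G Ω) (α : Ω) (D : Subgroup G)
    (hDdef : D = Subgroup.closure {g : G | ∀ ω : Ω, g • ω ≠ ω}) :
    D.index = D.relIndex (stabilizer G α) ∧
      ∀ β : Ω, β ≠ α → D.relIndex (stabilizer G α) ∣ (orbit (stabilizer G α) β).ncard := by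
  classical
  have hne : Nonempty Ω := ⟨α⟩
  have hDn : D.Normal := by
    rw [hDdef]
    apply closure_normal
    intro g s hs ω hfix
    apply hs (g⁻¹ • ω)
    have h1 : g⁻¹ • (g * s * g⁻¹) • ω = g⁻¹ • ω := by rw [hfix]
    rw [← mul_smul] at h1
    have e : g⁻¹ * (g * s * g⁻¹) = s * g⁻¹ := by group
    rw [e, mul_smul] at h1
    exact h1
  have hDfix : ∀ g : G, g ∉ D → ∃ x : Ω, g • x = x := by
    intro g hg
    by_contra hcon
    push Not at hcon
    exact hg (hDdef ▸ Subgroup.subset_closure hcon)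
  obtain ⟨hDtr, hone⟩ := Cfsg.Agent.Lib.Helper6.Burnside.lemmaB (G := G) (X := Ω) D hDfix
  have htwo : ∀ g : G, ∀ β : Ω, β ≠ α → g • α = α → g • β = β → g ∈ D := by
    intro g β hβ h1 h2
    by_contra hg
    have hc := hone g hg
    rw [Nat.card_eq_one_iff_unique] at hc
    have h3 := hc.1.elim (⟨α, h1⟩ : fixedBy Ω g) ⟨β, h2⟩
    exact hβ (congrArg Subtype.val h3).symm
  have hsup : stabilizer G α ⊔ D = ⊤ := by
    rw [eq_top_iff]
    intro g _
    obtain ⟨d, hd⟩ := hDtr.exists_smul_eq α (g • α)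
    have hd' : (d : G) • α = g • α := hd
    have hmem : (d : G)⁻¹ * g ∈ stabilizer G α := by
      rw [mem_stabilizer_iff, mul_smul, ← hd', inv_smul_smul]
    have e : g = (d : G) * ((d : G)⁻¹ * g) := by group
    rw [e]
    exact Subgroup.mul_mem _ (Subgroup.mem_sup_right d.2) (Subgroup.mem_sup_left hmem)
  have hidx : D.index = D.relIndex (stabilizer G α) := by
    rw [← Subgroup.relIndex_sup_right (H := stabilizer G α) (K := D), hsup,
      Subgroup.relIndex_top_right]
  have hstab : ∀ β : Ω, β ≠ α →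
      stabilizer (stabilizer G α) β ≤ D.subgroupOf (stabilizer G α) := by
    intro β hβ h hh
    rw [Subgroup.mem_subgroupOf]
    exact htwo h β hβ h.2 hh
  refine ⟨hidx, ?_⟩
  intro β hβ
  rw [← index_stabilizer]
  exact Subgroup.index_dvd_of_le (hstab β hβ)

theorem dvd_card_of_orbits {H X : Type*} [Group H] [MulAction H X] [Finite X]
    (S : SubMulAction H X) (m : ℕ) (hm : ∀ x ∈ S, m ∣ (orbit H x).ncard) : m ∣ Nat.card S := by
  classical
  have hfin : Fintype (Quotient (orbitRel H S)) := Fintype.ofFinite _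
  rw [Nat.card_congr (selfEquivSigmaOrbits H S), Nat.card_sigma]
  apply Finset.dvd_sum
  intro ω _
  have h1 := hm ω.out ω.out.2
  rw [← index_stabilizer] at h1
  rw [Nat.card_coe_set_eq, ← index_stabilizer, SubMulAction.stabilizer_of_subMul]
  exact h1

theorem index_dvd {G Ω : Type*} [Group G] [Finite G] [MulAction G Ω] [Finite Ω]
    (htrans : IsPretransitive G Ω) (α : Ω) :
    (Subgroup.closure {g : G | ∀ ω : Ω, g • ω ≠ ω}).index ∣ Nat.card Ω - 1 := by
  obtain ⟨hidx, hdiv⟩ := core htrans α _ rfl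
  rw [hidx]
  have h1 := dvd_card_of_orbits (SubMulAction.ofStabilizer G α) _ (fun x hx => hdiv x hx)
  have h2 : Nat.card (SubMulAction.ofStabilizer G α) = Nat.card Ω - 1 := by
    have h3 : Nat.card (SubMulAction.ofStabilizer G α) = Nat.card (({α}ᶜ : Set Ω)) := rfl
    rw [h3, Nat.card_coe_set_eq, Set.ncard_compl, Set.ncard_singleton]
  rw [h2] at h1
  exact h1

theorem main {G Ω : Type*} [Group G] [Finite G] [MulAction G Ω] [Finite Ω]
    (htrans : IsPretransitive G Ω) (himp : ¬ IsPreprimitive G Ω) :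
    ((Subgroup.closure {g : G | ∀ ω : Ω, g • ω ≠ ω}).index : ℝ) ≤
      Real.sqrt (Nat.card Ω) - 1 := by
  classical
  obtain ⟨B, hB, hBt⟩ : ∃ B : Set Ω, IsBlock G B ∧ ¬ IsTrivialBlock B := by
    by_contra hcon
    push Not at hcon
    exact himp { toIsPretransitive := htrans, isTrivialBlock_of_isBlock := fun {B} hB => hcon B hB }
  rw [IsTrivialBlock, not_or] at hBt
  obtain ⟨hBs, hBu⟩ := hBt
  have hBnt : B.Nontrivial := Set.not_subsingleton_iff.1 hBs
  obtain ⟨α, hα⟩ := hBnt.nonempty
  have hb2 : 2 ≤ B.ncard := Set.one_lt_ncard_iff_nontrivial.2 hBnt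
  have hbc : B.ncard * (orbit G B).ncard = Nat.card Ω :=
    hB.ncard_block_mul_ncard_orbit_eq ⟨α, hα⟩
  have hblt : B.ncard < Nat.card Ω := Set.ncard_lt_card hBu
  have hc2 : 2 ≤ (orbit G B).ncard := by
    by_contra hlt
    have h1 : (orbit G B).ncard ≤ 1 := by omega
    have h2 : B.ncard * (orbit G B).ncard ≤ B.ncard * 1 := Nat.mul_le_mul_left _ h1
    omega
  obtain ⟨hidx, hdiv⟩ := core htrans α (Subgroup.closure {g : G | ∀ ω : Ω, g • ω ≠ ω}) rfl
  have h1 : (Subgroup.closure {g : G | ∀ ω : Ω, g • ω ≠ ω}).index ∣ B.ncard - 1 := by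
    let S : SubMulAction (stabilizer G α) Ω :=
      { carrier := B \ {α}
        smul_mem' := by
          rintro h x ⟨hxB, hxα⟩
          have hh : (h : G) • B = B := hB.stabilizer_le hα h.2
          refine ⟨?_, ?_⟩
          · rw [← hh]
            exact Set.smul_mem_smul_set hxB
          · intro hx
            apply hxα
            have h2 : (h : G) • x = α := hx
            have h3 : (h : G) • α = α := h.2
            exact smul_left_cancel (h : G) (h2.trans h3.symm) }
    have h4 := dvd_card_of_orbits S _ (fun x hx => hdiv x hx.2)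
    have h5 : Nat.card S = B.ncard - 1 := by
      have h6 : Nat.card S = Nat.card ((B \ {α} : Set Ω)) := rfl
      rw [h6, Nat.card_coe_set_eq, Set.ncard_sdiff_singleton_of_mem hα]
    rw [hidx, ← h5]
    exact h4
  have h2 : (Subgroup.closure {g : G | ∀ ω : Ω, g • ω ≠ ω}).index ∣ (orbit G B).ncard - 1 := by
    have h3 := index_dvd (G := G) (Ω := G ⧸ stabilizer G B) inferInstance (QuotientGroup.mk 1)
    have h4 : Nat.card (G ⧸ stabilizer G B) = (orbit G B).ncard := by
      rw [← index_stabilizer]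
      rfl
    rw [h4] at h3
    refine dvd_trans (Subgroup.index_dvd_of_le ?_) h3
    apply Subgroup.closure_mono
    intro g hg ω hfix
    obtain ⟨x, rfl⟩ := htrans.exists_smul_eq α ω
    apply hg (QuotientGroup.mk x)
    change (QuotientGroup.mk (g * x) : G ⧸ stabilizer G B) = QuotientGroup.mk x
    rw [QuotientGroup.eq]
    apply hB.stabilizer_le hα
    rw [mem_stabilizer_iff, mul_smul, mul_inv_rev, mul_smul]
    have h5 : g⁻¹ • x • α = x • α := by rw [inv_smul_eq_iff, hfix]
    rw [h5, inv_smul_smul]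
  have hm1 : (Subgroup.closure {g : G | ∀ ω : Ω, g • ω ≠ ω}).index + 1 ≤ B.ncard := by
    have h3 := Nat.le_of_dvd (by omega) h1
    omega
  have hm2 : (Subgroup.closure {g : G | ∀ ω : Ω, g • ω ≠ ω}).index + 1 ≤ (orbit G B).ncard := by
    have h3 := Nat.le_of_dvd (by omega) h2
    omega
  have hsq : ((Subgroup.closure {g : G | ∀ ω : Ω, g • ω ≠ ω}).index + 1) *
      ((Subgroup.closure {g : G | ∀ ω : Ω, g • ω ≠ ω}).index + 1) ≤ Nat.card Ω := by
    rw [← hbc]
    exact Nat.mul_le_mul hm1 hm2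
  have hreal : (((Subgroup.closure {g : G | ∀ ω : Ω, g • ω ≠ ω}).index : ℝ) + 1) ≤
      Real.sqrt (Nat.card Ω) := by
    apply Real.le_sqrt_of_sq_le
    have h3 : ((((Subgroup.closure {g : G | ∀ ω : Ω, g • ω ≠ ω}).index + 1) *
      ((Subgroup.closure {g : G | ∀ ω : Ω, g • ω ≠ ω}).index + 1) : ℕ) : ℝ) ≤
        (Nat.card Ω : ℝ) := by exact_mod_cast hsq
    push_cast at h3
    nlinarith [h3]
  linarith

/-- Let G act faithfully, transitively but imprimitively on a finite set with n points, and let D be the subgroup generated by the derangements. Then the index of D in G is at most √n − 1. -/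
theorem result {G Ω : Type*} [Group G] [Finite G] [MulAction G Ω] [FaithfulSMul G Ω] [Finite Ω]
    (htrans : MulAction.IsPretransitive G Ω) (himp : ¬ MulAction.IsPreprimitive G Ω) :
    ((Subgroup.closure {g : G | ∀ ω : Ω, g • ω ≠ ω}).index : ℝ) ≤ Real.sqrt (Nat.card Ω) - 1 := by
  exact main htrans himp

end Cfsg.Agent.S3549
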