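import Cfsg.Statements.S3573
import Mathlib

set_option autoImplicit false
open Cfsg

namespace Cfsg.Agent.S3573

open Equiv

/-- an invariant finset is closed under the cycle relation -/
theorem inv_mem {n : ℕ} (σ : Perm (Fin n)) (s : Finset (Fin n)) (hs : s.image σ = s) :
    ∀ y ∈ s, ∀ z, σ.SameCycle y z → z ∈ s := by
  have h1 : ∀ y ∈ s, σ y ∈ s := by
    intro y hy
    rw [← hs]; exact Finset.mem_image_of_mem σ hy
  have h2 : ∀ i : ℕ, ∀ y ∈ s, (σ ^ i) y ∈ s := by
    intro i
    induction i with
    | zero => intro y hy; simpa using hy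
    | succ i ih =>
      intro y hy
      rw [pow_succ', Perm.mul_apply]
      exact h1 _ (ih y hy)
  intro y hy z hz
  obtain ⟨i, rfl⟩ := hz.exists_nat_pow_eq
  exact h2 i y hy

theorem exists_inv_subset {n : ℕ} (σ : Perm (Fin n)) (r : ℕ) (hr : r.Prime) (hσ : orderOf σ = r) :
    ∀ j : ℕ, j * r ≤ σ.support.card →
      ∃ s : Finset (Fin n), s ⊆ σ.support ∧ s.image σ = s ∧ s.card = j * r := by
  intro j
  induction j with
  | zero => intro _; exact ⟨∅, by simp, by simp, by simp⟩
  | succ j ih =>
    intro hj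
    obtain ⟨s, hs1, hs2, hs3⟩ := ih (by nlinarith [hr.pos])
    have hex : ∃ x ∈ σ.support, x ∉ s := by
      by_contra hcon
      push_neg at hcon
      have h1 := Finset.card_le_card (show σ.support ⊆ s from hcon)
      rw [hs3] at h1
      have := hr.pos
      nlinarith
    obtain ⟨x, hx, hxs⟩ := hex
    have hx' : σ x ≠ x := Perm.mem_support.mp hx
    have hO : ∀ y, y ∈ (σ.cycleOf x).support ↔ σ.SameCycle x y :=
      fun y => Perm.mem_support_cycleOf_iff' hx'
    have hOcard : (σ.cycleOf x).support.card = r := by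
      have hc := σ.isCycle_cycleOf hx'
      have h1 : orderOf (σ.cycleOf x) ∣ r := hσ ▸ σ.orderOf_cycleOf_dvd_orderOf x
      rw [hc.orderOf] at h1
      rcases (Nat.dvd_prime hr).mp h1 with h | h
      · have := hc.two_le_card_support; omega
      · exact h
    have hOsub : (σ.cycleOf x).support ⊆ σ.support := σ.support_cycleOf_le x
    have hOinv : (σ.cycleOf x).support.image σ = (σ.cycleOf x).support := by
      apply Finset.eq_of_subset_of_card_le
      · intro y hy
        obtain ⟨z, hz, rfl⟩ := Finset.mem_image.mp hy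
        rw [hO] at hz ⊢
        exact Perm.sameCycle_apply_right.mpr hz
      · rw [Finset.card_image_of_injective _ σ.injective]
    have hdisj : Disjoint s (σ.cycleOf x).support := by
      rw [Finset.disjoint_left]
      intro y hys hyO
      rw [hO] at hyO
      exact hxs (inv_mem σ s hs2 y hys x hyO.symm)
    refine ⟨s ∪ (σ.cycleOf x).support, Finset.union_subset hs1 hOsub, ?_, ?_⟩
    · rw [Finset.image_union, hs2, hOinv]
    · rw [Finset.card_union_of_disjoint hdisj, hs3, hOcard]; ring

theorem image_fixed {n : ℕ} (σ : Perm (Fin n)) (t : Finset (Fin n)) (ht : t ⊆ σ.supportᶜ) :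
    t.image σ = t := by
  have : Set.EqOn σ id t := by
    intro y hy
    have := ht hy
    rw [Finset.mem_compl, Perm.notMem_support] at this
    exact this
  rw [Finset.image_congr this, Finset.image_id]

theorem exists_fixed {n k r : ℕ} (hr : r.Prime) (hkn : k ≤ n) (hmod : k % r ≤ n % r)
    (σ : Perm (Fin n)) (hσ : orderOf σ = r) :
    ∃ s : Finset (Fin n), s.card = k ∧ s.image σ = s := by
  haveI : Fact r.Prime := ⟨hr⟩
  have hcm : σ.supportᶜ.card ≡ Fintype.card (Fin n) [MOD r] :=
    Perm.card_compl_support_modEq (p := r) (n := 1) (by rw [pow_one, ← hσ, pow_orderOf_eq_one])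
  rw [Fintype.card_fin] at hcm
  have hsum : σ.support.card + σ.supportᶜ.card = n := by
    rw [Finset.card_add_card_compl, Fintype.card_fin]
  have hfr : σ.supportᶜ.card % r = n % r := hcm
  have hf_ge : n % r ≤ σ.supportᶜ.card := by rw [← hfr]; exact Nat.mod_le _ _
  have hmr : r ∣ σ.support.card := by
    have h1 : (σ.support.card + σ.supportᶜ.card) % r = σ.supportᶜ.card % r := by rw [hsum, hfr]
    have h2 : σ.support.card + σ.supportᶜ.card ≡ 0 + σ.supportᶜ.card [MOD r] := by
      rw [zero_add]; exact h1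
    exact (Nat.modEq_zero_iff_dvd).mp (Nat.ModEq.add_right_cancel' _ h2)
  have hdisj : ∀ s t : Finset (Fin n), s ⊆ σ.support → t ⊆ σ.supportᶜ → Disjoint s t :=
    fun s t hs ht => Finset.disjoint_of_subset_left hs
      (Finset.disjoint_of_subset_right ht disjoint_compl_right)
  by_cases hcase : (k / r) * r ≤ σ.support.card
  · obtain ⟨s, hs1, hs2, hs3⟩ := exists_inv_subset σ r hr hσ (k / r) hcase
    have hi : k % r ≤ σ.supportᶜ.card := hmod.trans hf_ge
    obtain ⟨t, ht1, ht2⟩ := Finset.exists_subset_card_eq hi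
    refine ⟨s ∪ t, ?_, ?_⟩
    · rw [Finset.card_union_of_disjoint (hdisj s t hs1 ht1), hs3, ht2]
      exact Nat.div_add_mod' k r
    · rw [Finset.image_union, hs2, image_fixed σ t ht1]
  · push_neg at hcase
    obtain ⟨s, hs1, hs2, hs3⟩ := exists_inv_subset σ r hr hσ (σ.support.card / r)
      (by rw [Nat.div_mul_cancel hmr])
    have hs3' : s.card = σ.support.card := by rw [hs3, Nat.div_mul_cancel hmr]
    have hkm : σ.support.card ≤ k := by have := Nat.div_mul_le_self k r; omega
    have hi : k - σ.support.card ≤ σ.supportᶜ.card := by omega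
    obtain ⟨t, ht1, ht2⟩ := Finset.exists_subset_card_eq hi
    refine ⟨s ∪ t, ?_, ?_⟩
    · rw [Finset.card_union_of_disjoint (hdisj s t hs1 ht1), hs3', ht2]
      omega
    · rw [Finset.image_union, hs2, image_fixed σ t ht1]

/-- a permutation of order `r` with at most `n % r` fixed points -/
theorem exists_perm (n r : ℕ) (hr : r.Prime) (hrn : r ≤ n) :
    ∃ σ : Perm (Fin n), orderOf σ = r ∧ σ.supportᶜ.card ≤ n % r := by
  haveI : Fact r.Prime := ⟨hr⟩
  haveI : NeZero r := ⟨hr.pos.ne'⟩
  have hcard : Fintype.card ((Fin (n / r) × ZMod r) ⊕ Fin (n % r)) = Fintype.card (Fin n) := by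
    rw [Fintype.card_sum, Fintype.card_prod, Fintype.card_fin, Fintype.card_fin, ZMod.card,
      Fintype.card_fin]
    exact Nat.div_add_mod' n r
  let e : ((Fin (n / r) × ZMod r) ⊕ Fin (n % r)) ≃ Fin n := Fintype.equivOfCardEq hcard
  let τ : Perm ((Fin (n / r) × ZMod r) ⊕ Fin (n % r)) :=
    Equiv.sumCongr (Equiv.prodCongr (Equiv.refl _) (Equiv.addRight (1 : ZMod r))) (Equiv.refl _)
  have hτl : ∀ (j : ℕ) (a : Fin (n / r)) (b : ZMod r), (τ ^ j) (Sum.inl (a, b)) = Sum.inl (a, b + j) := by
    intro j
    induction j with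
    | zero => intro a b; simp
    | succ j ih =>
      intro a b
      rw [pow_succ', Perm.mul_apply, ih]
      simp [τ, add_assoc]
  have hτr : ∀ (j : ℕ) (c : Fin (n % r)), (τ ^ j) (Sum.inr c) = Sum.inr c := by
    intro j
    induction j with
    | zero => intro c; simp
    | succ j ih =>
      intro c
      rw [pow_succ', Perm.mul_apply, ih]
      simp [τ]
  have hτpow : τ ^ r = 1 := by
    ext y
    rcases y with ⟨a, b⟩ | c
    · rw [hτl]; simp
    · rw [hτr]; simp
  have hpos : 0 < n / r := Nat.div_pos hrn hr.pos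
  have hτne : τ ≠ 1 := by
    intro h
    have := congrArg (fun f : Perm ((Fin (n / r) × ZMod r) ⊕ Fin (n % r)) =>
      f (Sum.inl (⟨0, hpos⟩, 0))) h
    simp [τ] at this
  have hτord : orderOf τ = r := orderOf_eq_prime hτpow hτne
  refine ⟨e.permCongrHom τ, ?_, ?_⟩
  · exact (MulEquiv.orderOf_eq e.permCongrHom τ).trans hτord
  · have hsub : (e.permCongrHom τ).supportᶜ ⊆
        (Finset.univ : Finset (Fin (n % r))).image (fun c => e (Sum.inr c)) := by
      intro x hx
      rw [Finset.mem_compl, Perm.notMem_support] at hx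
      have hx2 : e (τ (e.symm x)) = x := hx
      have hx3 : τ (e.symm x) = e.symm x := by
        apply e.injective; rw [hx2]; simp
      rw [Finset.mem_image]
      rcases h : e.symm x with ⟨a, b⟩ | c
      · exfalso
        rw [h] at hx3
        have : (b + 1 : ZMod r) = b := by simpa [τ] using hx3
        have h1 : (1 : ZMod r) = 0 := by simpa using this
        exact one_ne_zero h1
      · exact ⟨c, Finset.mem_univ _, by rw [← h]; simp⟩
    calc (e.permCongrHom τ).supportᶜ.card
        ≤ ((Finset.univ : Finset (Fin (n % r))).image (fun c => e (Sum.inr c))).card :=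
          Finset.card_le_card hsub
      _ ≤ (Finset.univ : Finset (Fin (n % r))).card := Finset.card_image_le
      _ = n % r := by rw [Finset.card_univ, Fintype.card_fin]

theorem fixed_imp {n k r : ℕ} (hr : r.Prime) (hrn : r ≤ n)
    (h : ∀ σ : Perm (Fin n), orderOf σ = r → ∃ s : Finset (Fin n), s.card = k ∧ s.image σ = s) :
    k % r ≤ n % r := by
  haveI : Fact r.Prime := ⟨hr⟩
  obtain ⟨σ, hσ, hfix⟩ := exists_perm n r hr hrn
  obtain ⟨s, hs1, hs2⟩ := h σ hσ
  have hmem : ∀ x, σ x ∈ s ↔ x ∈ s := by
    intro x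
    constructor
    · intro hx
      rw [← hs2] at hx
      obtain ⟨z, hz, hzx⟩ := Finset.mem_image.mp hx
      rw [← σ.injective hzx]; exact hz
    · intro hx; rw [← hs2]; exact Finset.mem_image_of_mem σ hx
  have hval : ∀ (j : ℕ) (x : {x // x ∈ s}), (((σ.subtypePerm hmem) ^ j) x).val = (σ ^ j) x.val := by
    intro j
    induction j with
    | zero => intro x; simp
    | succ j ih =>
      intro x
      rw [pow_succ', Perm.mul_apply, pow_succ', Perm.mul_apply]
      show σ (((σ.subtypePerm hmem) ^ j) x).val = σ ((σ ^ j) x.val)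
      rw [ih]
  have hpow : (σ.subtypePerm hmem) ^ r ^ 1 = 1 := by
    rw [pow_one]
    ext x
    rw [hval, ← hσ, pow_orderOf_eq_one]
    simp
  have hcm := Perm.card_compl_support_modEq (p := r) (n := 1) hpow
  rw [Fintype.card_coe, hs1] at hcm
  have hle : (σ.subtypePerm hmem).supportᶜ.card ≤ σ.supportᶜ.card := by
    apply Finset.card_le_card_of_injOn (fun x => x.val)
    · intro x hx
      have hx' : x ∉ (σ.subtypePerm hmem).support := by simpa using hx
      rw [Perm.notMem_support] at hx'
      have : σ x.val = x.val := by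
        have := congrArg Subtype.val hx'
        simpa using this
      simp [this]
    · intro x _ y _ hxy
      exact Subtype.ext hxy
  have hlt : n % r < r := Nat.mod_lt n hr.pos
  have h1 : (σ.subtypePerm hmem).supportᶜ.card % r = k % r := hcm
  rw [← h1, Nat.mod_eq_of_lt (by omega)]
  omega

theorem main (n k : ℕ) (hk : 1 ≤ k) (hkn : 2 * k < n) (r : ℕ) (hr : r.Prime)
    (hrd : r ∣ Nat.choose n k) :
    (r ≠ 2 → ((∀ σ : Equiv.Perm (Fin n), orderOf σ = r →
        ∃ s : Finset (Fin n), s.card = k ∧ s.image σ = s) ↔ (r ≤ k ∧ k % r ≤ n % r))) ∧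
    (r = 2 → ((∀ σ : Equiv.Perm (Fin n), orderOf σ = 2 →
        ∃ s : Finset (Fin n), s.card = k ∧ s.image σ = s) ↔ (Even k ∨ Odd n))) := by
  have hch : ∀ a b : ℕ, b ≤ a → Nat.choose a b ∣ a.factorial := by
    intro a b hab
    have := Nat.choose_mul_factorial_mul_factorial hab
    exact Dvd.intro (b.factorial * (a - b).factorial) (by rw [← this]; ring)
  have hrn : r ≤ n := (Nat.Prime.dvd_factorial hr).mp (hrd.trans (hch n k (by omega)))
  have key : (∀ σ : Perm (Fin n), orderOf σ = r →
      ∃ s : Finset (Fin n), s.card = k ∧ s.image σ = s) ↔ k % r ≤ n % r :=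
    ⟨fixed_imp hr hrn, fun h σ hσ => exists_fixed hr (by omega) h σ hσ⟩
  have lucas : k % r ≤ n % r → r ≤ k := by
    intro h
    by_contra hlt
    push_neg at hlt
    haveI : Fact r.Prime := ⟨hr⟩
    have hl := Choose.choose_modEq_choose_mod_mul_choose_div_nat (n := n) (k := k) (p := r)
    rw [Nat.mod_eq_of_lt hlt, Nat.div_eq_of_lt hlt, Nat.choose_zero_right, mul_one] at hl
    have h2 : r ∣ Nat.choose (n % r) k :=
      Nat.modEq_zero_iff_dvd.mp (hl.symm.trans (Nat.modEq_zero_iff_dvd.mpr hrd))
    rw [Nat.mod_eq_of_lt hlt] at h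
    have h3 := (Nat.Prime.dvd_factorial hr).mp (h2.trans (hch (n % r) k h))
    have := Nat.mod_lt n hr.pos
    omega
  constructor
  · intro _
    rw [key]
    exact ⟨fun h => ⟨lucas h, h⟩, fun h => h.2⟩
  · intro h2
    subst h2
    rw [key, Nat.even_iff, Nat.odd_iff]
    omega

/-- Let 1 ≤ k with 2k < n and consider the symmetric group of degree n acting on the k-subsets of an n-set. Let r be a prime dividing the number C(n,k) of k-subsets. If r is odd, then every permutation of order r fixes some k-subset if and only if r ≤ k and the remainder of k modulo r is at most the remainder of n modulo r. If r = 2, then every involution fixes some k-subset if and only if k is even or n is odd. -/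
theorem result (n k : ℕ) (hk : 1 ≤ k) (hkn : 2 * k < n) (r : ℕ) (hr : r.Prime) (hrd : r ∣ Nat.choose n k) :
    (r ≠ 2 → ((∀ σ : Equiv.Perm (Fin n), orderOf σ = r → ∃ s : Finset (Fin n), s.card = k ∧ s.image σ = s) ↔
      (r ≤ k ∧ k % r ≤ n % r))) ∧
    (r = 2 → ((∀ σ : Equiv.Perm (Fin n), orderOf σ = 2 → ∃ s : Finset (Fin n), s.card = k ∧ s.image σ = s) ↔
      (Even k ∨ Odd n))) := by
  exact main n k hk hkn r hr hrd

end Cfsg.Agent.S3573
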