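import Cfsg.Statements.S3619
import Mathlib

set_option autoImplicit false
open Cfsg

namespace Cfsg.Agent.S3619

open scoped Pointwise

/-- Let G act faithfully on a finite set in such a way that every non-trivial normal subgroup of G is transitive (G is quasiprimitive). Let Γ be a subset with more than one point and not the whole set, such that the pointwise stabilizer of the complement of Γ acts transitively on Γ (a Jordan set). If that pointwise stabilizer acts primitively on Γ, then G is k-fold transitive where k is one more than the number of points outside Γ (the Jordan set is a trivial one). -/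
theorem result {G Ω : Type*} [Group G] [Finite G] [MulAction G Ω] [FaithfulSMul G Ω] [Finite Ω]
    (hqp : ∀ N : Subgroup G, N.Normal → N ≠ ⊥ → MulAction.IsPretransitive ↥N Ω)
    (Γ : Set Ω) (hΓ1 : 1 < Γ.ncard) (hΓ2 : Γ.ncard < Nat.card Ω)
    (hJ : MulAction.IsPretransitive ↥(fixingSubgroup G Γᶜ) ↥(SubMulAction.ofFixingSubgroup G Γᶜ))
    (hJp : MulAction.IsPreprimitive ↥(fixingSubgroup G Γᶜ) ↥(SubMulAction.ofFixingSubgroup G Γᶜ)) :
    MulAction.IsMultiplyPretransitive G Ω (Nat.card Ω - Γ.ncard + 1) := by
  classical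
  have hmem : ∀ x : Ω, x ∈ SubMulAction.ofFixingSubgroup G Γᶜ ↔ x ∈ Γ := by
    intro x
    rw [SubMulAction.mem_ofFixingSubgroup_iff, Set.notMem_compl_iff]
  obtain ⟨a, b, ha, hb, hab⟩ := (Set.one_lt_ncard_iff (Set.toFinite Γ)).1 hΓ1
  obtain ⟨h0, hh0⟩ := hJ.exists_smul_eq
    (⟨a, (hmem a).2 ha⟩ : ↥(SubMulAction.ofFixingSubgroup G Γᶜ)) ⟨b, (hmem b).2 hb⟩
  have hh0' : (h0 : G) • a = b := congrArg Subtype.val hh0
  have hne : (h0 : G) ≠ 1 := by
    intro h1
    rw [h1, one_smul] at hh0'
    exact hab hh0'
  have htop : (⊤ : Subgroup G) ≠ ⊥ := by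
    intro h
    have : (h0 : G) ∈ (⊥ : Subgroup G) := h ▸ Subgroup.mem_top _
    exact hne (Subgroup.mem_bot.1 this)
  have hGt : MulAction.IsPretransitive G Ω := by
    have := hqp ⊤ inferInstance htop
    constructor
    intro x y
    obtain ⟨g, hg⟩ := this.exists_smul_eq x y
    exact ⟨g, hg⟩
  have hprim : MulAction.IsPreprimitive G Ω := by
    refine { isTrivialBlock_of_isBlock := ?_ }
    intro B hB
    by_contra htriv
    rw [MulAction.IsTrivialBlock, not_or] at htriv
    obtain ⟨hBs, hBu⟩ := htriv
    have hBne : B.Nonempty := by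
      by_contra hempty
      rw [Set.not_nonempty_iff_eq_empty] at hempty
      exact hBs (hempty ▸ Set.subsingleton_empty)
    have hK : (MulAction.stabilizer G B).normalCore = ⊥ := by
      by_contra hKne
      have hKt := hqp _ (Subgroup.normalCore_normal _) hKne
      apply hBu
      obtain ⟨x, hx⟩ := hBne
      ext y
      simp only [Set.mem_univ, iff_true]
      obtain ⟨k, hk⟩ := hKt.exists_smul_eq x y
      have hk' : (k : G) ∈ MulAction.stabilizer G B := Subgroup.normalCore_le _ k.2
      rw [MulAction.mem_stabilizer_iff] at hk'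
      rw [← hk', ← hk]
      exact Set.smul_mem_smul_set hx
    have claim : ∀ h ∈ fixingSubgroup G Γᶜ, ∀ g : G, h • (g • B) = g • B := by
      intro h hh g
      have hC : MulAction.IsBlock G (g • B) := hB.translate g
      have hCs : ¬ (g • B).Subsingleton := by
        intro hsub
        apply hBs
        intro x hx y hy
        have := hsub (Set.smul_mem_smul_set hx) (Set.smul_mem_smul_set hy)
        exact smul_left_cancel g this
      have hCne : (g • B).Nonempty := hBne.smul_set
      by_cases hcase : ∃ x ∈ g • B, x ∉ Γ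
      · obtain ⟨x, hx, hxΓ⟩ := hcase
        have hfix : h • x = x := (mem_fixingSubgroup_iff G).1 hh x hxΓ
        exact (MulAction.isBlock_iff_smul_eq_of_mem.1 hC) hx (by rw [hfix]; exact hx)
      · push Not at hcase
        have hC' : MulAction.IsBlock (fixingSubgroup G Γᶜ)
            (Subtype.val ⁻¹' (g • B) : Set ↥(SubMulAction.ofFixingSubgroup G Γᶜ)) :=
          (hC.subgroup).subtype_val_preimage
        rcases hJp.isTrivialBlock_of_isBlock hC' with h1 | h1
        · exfalso
          apply hCs
          intro x hx y hy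
          have := @h1 ⟨x, (hmem x).2 (hcase x hx)⟩ hx ⟨y, (hmem y).2 (hcase y hy)⟩ hy
          exact congrArg Subtype.val this
        · obtain ⟨x, hx⟩ := hCne
          have hxΓ := hcase x hx
          have hhx : h • x ∈ Γ := by
            have := (SubMulAction.ofFixingSubgroup G Γᶜ).smul_mem
              (⟨h, hh⟩ : fixingSubgroup G Γᶜ) ((hmem x).2 hxΓ)
            exact (hmem _).1 this
          have hhxC : h • x ∈ g • B := by
            have : (⟨h • x, (hmem _).2 hhx⟩ : ↥(SubMulAction.ofFixingSubgroup G Γᶜ)) ∈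
                (Subtype.val ⁻¹' (g • B) : Set ↥(SubMulAction.ofFixingSubgroup G Γᶜ)) := by
              rw [h1]; exact Set.mem_univ _
            exact this
          exact (MulAction.isBlock_iff_smul_eq_of_mem.1 hC) hx hhxC
    have hmemK : (h0 : G) ∈ (MulAction.stabilizer G B).normalCore := by
      intro b
      rw [MulAction.mem_stabilizer_iff, mul_smul, mul_smul, claim h0 h0.2 b⁻¹, smul_inv_smul]
    rw [hK] at hmemK
    exact hne (Subgroup.mem_bot.1 hmemK)
  have hcompl : (Γᶜ).ncard = Nat.card Ω - Γ.ncard := Set.ncard_compl Γ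
  obtain ⟨n, hn⟩ : ∃ n, (Γᶜ).ncard = n + 1 := ⟨(Γᶜ).ncard - 1, by omega⟩
  have hmp := hprim.isMultiplyPreprimitive hn (by omega) hJp
  have heq : Nat.card Ω - Γ.ncard + 1 = n + 2 := by omega
  rw [heq]
  exact MulAction.IsMultiplyPreprimitive.isMultiplyPretransitive G Ω (n + 2)

end Cfsg.Agent.S3619
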