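import Cfsg.Statements.S3633
import Mathlib
import Cfsg.Agent.Lib.Helper6.PrimeGraph3

set_option autoImplicit false
open Cfsg

namespace Cfsg.Agent.S3633

open Cfsg.Agent.Lib.Helper6.PrimeGraph3

/-- Let G be a finite group and ρ a set of at least three prime divisors of the order of G that are pairwise non-adjacent in the prime graph (no element of order rs for distinct r, s ∈ ρ). Then at most one prime of ρ divides the order of any given solvable normal subgroup of G; in particular G is not solvable. -/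
theorem result {G : Type*} [Group G] [Finite G] (ρ : Finset ℕ) (hρ : 3 ≤ ρ.card) (hc : ((∀ r ∈ ρ, r.Prime ∧ r ∣ Nat.card G) ∧ (∀ r ∈ ρ, ∀ s ∈ ρ, r ≠ s → ¬ ∃ x : G, orderOf x = r * s)))
    (K : Subgroup G) [K.Normal] (hK : Group.IsSolvable ↥K) :
    (∀ r ∈ ρ, ∀ s ∈ ρ, r ∣ Nat.card ↥K → s ∣ Nat.card ↥K → r = s) ∧ ¬ Group.IsSolvable G := by
  refine ⟨?_, ?_⟩
  · obtain ⟨n, hn⟩ := dser_of_solvable K hK
    exact at_most_one ρ hρ hc n K inferInstance hn
  · intro hG
    have hT : Group.IsSolvable ↥(⊤ : Subgroup G) := inferInstance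
    obtain ⟨n, hn⟩ := dser_of_solvable (⊤ : Subgroup G) hT
    have key := at_most_one ρ hρ hc n ⊤ inferInstance hn
    obtain ⟨a, ha⟩ : ρ.Nonempty := Finset.card_pos.mp (by omega)
    obtain ⟨b, hb⟩ : (ρ.erase a).Nonempty := by
      apply Finset.card_pos.mp
      rw [Finset.card_erase_of_mem ha]
      omega
    rw [Finset.mem_erase] at hb
    have h1 : a ∣ Nat.card ↥(⊤ : Subgroup G) := by
      rw [Subgroup.card_top]; exact (hc.1 a ha).2
    have h2 : b ∣ Nat.card ↥(⊤ : Subgroup G) := by
      rw [Subgroup.card_top]; exact (hc.1 b hb.2).2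
    exact hb.1 (key a ha b hb.2 h1 h2).symm

end Cfsg.Agent.S3633
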