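import Cfsg.Statements.S3678
import Mathlib
import Cfsg.Agent.Lib.Helper6.AffSL2

set_option autoImplicit false
open Cfsg

namespace Cfsg.Agent.S3678

open Cfsg.Agent.Lib.Helper6.AffSL2

theorem step {K : Type*} [CommRing K] (M : Matrix (Fin 2) (Fin 2) K) (t : K)
    (hCH : M * M = t • M - 1) {n : ℕ} {a b : K} (h : M ^ n = a • M + b • 1) :
    M ^ (n + 1) = (a * t + b) • M + (-a) • 1 := by
  rw [pow_succ, h, add_mul, smul_mul_assoc, smul_mul_assoc, one_mul, hCH]
  module

theorem cayley {K : Type*} [CommRing K] (A : Matrix.SpecialLinearGroup (Fin 2) K) :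
    A.1 * A.1 = A.1.trace • A.1 - 1 := by
  have hdet := A.2
  rw [Matrix.det_fin_two] at hdet
  have e01 : (1 : Matrix (Fin 2) (Fin 2) K) 0 1 = 0 := Matrix.one_apply_ne (by decide)
  have e10 : (1 : Matrix (Fin 2) (Fin 2) K) 1 0 = 0 := Matrix.one_apply_ne (by decide)
  have h00 : (A.1 * A.1) 0 0 = (A.1.trace • A.1 - 1) 0 0 := by
    rw [Matrix.mul_apply, Fin.sum_univ_two, Matrix.sub_apply, Matrix.smul_apply,
      Matrix.one_apply_eq, Matrix.trace_fin_two, smul_eq_mul]
    linear_combination -hdet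
  have h01 : (A.1 * A.1) 0 1 = (A.1.trace • A.1 - 1) 0 1 := by
    rw [Matrix.mul_apply, Fin.sum_univ_two, Matrix.sub_apply, Matrix.smul_apply,
      e01, Matrix.trace_fin_two, smul_eq_mul]
    ring
  have h10 : (A.1 * A.1) 1 0 = (A.1.trace • A.1 - 1) 1 0 := by
    rw [Matrix.mul_apply, Fin.sum_univ_two, Matrix.sub_apply, Matrix.smul_apply,
      e10, Matrix.trace_fin_two, smul_eq_mul]
    ring
  have h11 : (A.1 * A.1) 1 1 = (A.1.trace • A.1 - 1) 1 1 := by
    rw [Matrix.mul_apply, Fin.sum_univ_two, Matrix.sub_apply, Matrix.smul_apply,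
      Matrix.one_apply_eq, Matrix.trace_fin_two, smul_eq_mul]
    linear_combination -hdet
  ext i j
  fin_cases i <;> fin_cases j
  · exact h00
  · exact h01
  · exact h10
  · exact h11

theorem pows {K : Type*} [CommRing K] (M : Matrix (Fin 2) (Fin 2) K) (t : K)
    (hCH : M * M = t • M - 1) :
    M ^ 2 = t • M + (-1 : K) • 1 ∧ M ^ 3 = (t ^ 2 - 1) • M + (-t) • 1 ∧
    M ^ 4 = (t ^ 3 - 2 * t) • M + (1 - t ^ 2) • 1 ∧
    M ^ 7 = (t ^ 6 - 5 * t ^ 4 + 6 * t ^ 2 - 1) • M + (-(t ^ 5 - 4 * t ^ 3 + 3 * t)) • 1 ∧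
    M ^ 9 = (t ^ 8 - 7 * t ^ 6 + 15 * t ^ 4 - 10 * t ^ 2 + 1) • M +
      (-(t ^ 7 - 6 * t ^ 5 + 10 * t ^ 3 - 4 * t)) • 1 := by
  have h0 : M ^ 0 = (0 : K) • M + (1 : K) • 1 := by simp
  have h1 := step M t hCH h0
  have h2 := step M t hCH h1
  have h3 := step M t hCH h2
  have h4 := step M t hCH h3
  have h5 := step M t hCH h4
  have h6 := step M t hCH h5
  have h7 := step M t hCH h6
  have h8 := step M t hCH h7
  have h9 := step M t hCH h8
  refine ⟨?_, ?_, ?_, ?_, ?_⟩
  · rw [h2]; congr 1 <;> congr 1 <;> ring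
  · rw [h3]; congr 1 <;> congr 1 <;> ring
  · rw [h4]; congr 1 <;> congr 1 <;> ring
  · rw [h7]; congr 1 <;> congr 1 <;> ring
  · rw [h9]; congr 1 <;> congr 1 <;> ring

theorem no_pq {p q r e : ℕ} (hp : p.Prime) (hq : q.Prime) (hr : r.Prime) (hpq : p ≠ q)
    (h : p * q ∣ r ^ e) : False := by
  have h1 : p ∣ r ^ e := Dvd.dvd.trans (Dvd.intro _ rfl) h
  have h2 : q ∣ r ^ e := Dvd.dvd.trans (Dvd.intro_left _ rfl) h
  have h3 := (Nat.prime_dvd_prime_iff_eq hp hr).mp (hp.dvd_of_dvd_pow h1)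
  have h4 := (Nat.prime_dvd_prime_iff_eq hq hr).mp (hq.dvd_of_dvd_pow h2)
  exact hpq (h3.trans h4.symm)

theorem mk_pow_eq_one {K : Type*} [Field K] (A : Matrix.SpecialLinearGroup (Fin 2) K) (n : ℕ)
    (ε : K) (hε : ε ^ 2 = 1) (h : A.1 ^ n = ε • (1 : Matrix (Fin 2) (Fin 2) K)) :
    (QuotientGroup.mk A : Matrix.ProjectiveSpecialLinearGroup (Fin 2) K) ^ n = 1 := by
  rw [← QuotientGroup.mk_pow, QuotientGroup.eq_one_iff, Matrix.SpecialLinearGroup.mem_center_iff]
  refine ⟨ε, by rw [Fintype.card_fin]; exact hε, ?_⟩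
  rw [Matrix.SpecialLinearGroup.coe_pow, h, Matrix.scalar_apply, Matrix.smul_one_eq_diagonal]

theorem mk_ne_one {K : Type*} [Field K] (A : Matrix.SpecialLinearGroup (Fin 2) K)
    (h : A.1 1 0 ≠ 0) :
    (QuotientGroup.mk A : Matrix.ProjectiveSpecialLinearGroup (Fin 2) K) ≠ 1 := by
  intro h1
  rw [QuotientGroup.eq_one_iff, Matrix.SpecialLinearGroup.mem_center_iff] at h1
  obtain ⟨r, -, hr⟩ := h1
  apply h
  rw [← hr, Matrix.scalar_apply, Matrix.diagonal_apply_ne]
  decide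

section f7

variable {K : Type*} [Field K] [Fintype K] (hK : Fintype.card K = 7)
include hK

theorem seven_eq_zero : (7 : K) = 0 := by
  have h := Nat.cast_card_eq_zero K
  rw [hK] at h
  exact_mod_cast h

theorem trace_cases (t : K) :
    t = 0 ∨ t = 1 ∨ t = -1 ∨ t = 2 ∨ t = -2 ∨ t = 3 ∨ t = -3 := by
  have h7 : (7 : K) = 0 := seven_eq_zero hK
  have ht := FiniteField.pow_card t
  rw [hK] at ht
  have hprod : t * (t - 1) * (t + 1) * (t - 2) * (t + 2) * (t - 3) * (t + 3) = 0 := by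
    linear_combination ht - (2 * t ^ 5 - 7 * t ^ 3 + 5 * t) * h7
  rcases mul_eq_zero.mp hprod with h | h
  · rcases mul_eq_zero.mp h with h | h
    · rcases mul_eq_zero.mp h with h | h
      · rcases mul_eq_zero.mp h with h | h
        · rcases mul_eq_zero.mp h with h | h
          · rcases mul_eq_zero.mp h with h | h
            · exact Or.inl h
            · exact Or.inr (Or.inl (sub_eq_zero.mp h))
          · exact Or.inr (Or.inr (Or.inl (eq_neg_of_add_eq_zero_left h)))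
        · exact Or.inr (Or.inr (Or.inr (Or.inl (sub_eq_zero.mp h))))
      · exact Or.inr (Or.inr (Or.inr (Or.inr (Or.inl (eq_neg_of_add_eq_zero_left h)))))
    · exact Or.inr (Or.inr (Or.inr (Or.inr (Or.inr (Or.inl (sub_eq_zero.mp h))))))
  · exact Or.inr (Or.inr (Or.inr (Or.inr (Or.inr (Or.inr (eq_neg_of_add_eq_zero_left h))))))

theorem f7_pow (M : Matrix (Fin 2) (Fin 2) K) (t : K) (hCH : M * M = t • M - 1) :
    (t = 0 ∧ M ^ 2 = (-1 : K) • 1) ∨ (t = 1 ∧ M ^ 3 = (-1 : K) • 1) ∨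
    (t = -1 ∧ M ^ 3 = (1 : K) • 1) ∨ (t = 2 ∧ M ^ 7 = (1 : K) • 1) ∨
    (t = -2 ∧ M ^ 7 = (-1 : K) • 1) ∨ (t = 3 ∧ M ^ 4 = (-1 : K) • 1) ∨
    (t = -3 ∧ M ^ 4 = (-1 : K) • 1) := by
  have h7 : (7 : K) = 0 := seven_eq_zero hK
  obtain ⟨p2, p3, p4, p7, -⟩ := pows M t hCH
  rcases trace_cases hK t with h | h | h | h | h | h | h
  · refine Or.inl ⟨h, ?_⟩
    rw [p2, h, zero_smul, zero_add]
  · refine Or.inr (Or.inl ⟨h, ?_⟩)
    have ha : t ^ 2 - 1 = 0 := by rw [h]; ring
    rw [p3, ha, h, zero_smul, zero_add]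
  · refine Or.inr (Or.inr (Or.inl ⟨h, ?_⟩))
    have ha : t ^ 2 - 1 = 0 := by rw [h]; ring
    have hb : -t = 1 := by rw [h]; ring
    rw [p3, ha, hb, zero_smul, zero_add]
  · refine Or.inr (Or.inr (Or.inr (Or.inl ⟨h, ?_⟩)))
    have ha : t ^ 6 - 5 * t ^ 4 + 6 * t ^ 2 - 1 = 0 := by rw [h]; linear_combination h7
    have hb : -(t ^ 5 - 4 * t ^ 3 + 3 * t) = 1 := by rw [h]; linear_combination -h7
    rw [p7, ha, hb, zero_smul, zero_add]
  · refine Or.inr (Or.inr (Or.inr (Or.inr (Or.inl ⟨h, ?_⟩))))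
    have ha : t ^ 6 - 5 * t ^ 4 + 6 * t ^ 2 - 1 = 0 := by rw [h]; linear_combination h7
    have hb : -(t ^ 5 - 4 * t ^ 3 + 3 * t) = -1 := by rw [h]; linear_combination h7
    rw [p7, ha, hb, zero_smul, zero_add]
  · refine Or.inr (Or.inr (Or.inr (Or.inr (Or.inr (Or.inl ⟨h, ?_⟩)))))
    have ha : t ^ 3 - 2 * t = 0 := by rw [h]; linear_combination 3 * h7
    have hb : 1 - t ^ 2 = -1 := by rw [h]; linear_combination -h7
    rw [p4, ha, hb, zero_smul, zero_add]
  · refine Or.inr (Or.inr (Or.inr (Or.inr (Or.inr (Or.inr ⟨h, ?_⟩)))))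
    have ha : t ^ 3 - 2 * t = 0 := by rw [h]; linear_combination -3 * h7
    have hb : 1 - t ^ 2 = -1 := by rw [h]; linear_combination -h7
    rw [p4, ha, hb, zero_smul, zero_add]

theorem psl7_pow (g : Matrix.ProjectiveSpecialLinearGroup (Fin 2) K) :
    g ^ 2 ^ 1 = 1 ∨ g ^ 3 ^ 1 = 1 ∨ g ^ 2 ^ 2 = 1 ∨ g ^ 7 ^ 1 = 1 := by
  obtain ⟨A, rfl⟩ := QuotientGroup.mk_surjective g
  have h1 : ((-1 : K)) ^ 2 = 1 := by ring
  have h2 : ((1 : K)) ^ 2 = 1 := by ring
  rcases f7_pow hK A.1 A.1.trace (cayley A) with ⟨-, h⟩ | ⟨-, h⟩ | ⟨-, h⟩ | ⟨-, h⟩ | ⟨-, h⟩ |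
    ⟨-, h⟩ | ⟨-, h⟩
  · exact Or.inl (mk_pow_eq_one A _ _ h1 h)
  · exact Or.inr (Or.inl (mk_pow_eq_one A _ _ h1 h))
  · exact Or.inr (Or.inl (mk_pow_eq_one A _ _ h2 h))
  · exact Or.inr (Or.inr (Or.inr (mk_pow_eq_one A _ _ h2 h)))
  · exact Or.inr (Or.inr (Or.inr (mk_pow_eq_one A _ _ h1 h)))
  · exact Or.inr (Or.inr (Or.inl (mk_pow_eq_one A _ _ h1 h)))
  · exact Or.inr (Or.inr (Or.inl (mk_pow_eq_one A _ _ h1 h)))

theorem psl7_no_pq (p q : ℕ) (hp : p.Prime) (hq : q.Prime) (hpq : p ≠ q) :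
    ¬ ∃ g : Matrix.ProjectiveSpecialLinearGroup (Fin 2) K, orderOf g = p * q := by
  rintro ⟨g, hg⟩
  rcases psl7_pow hK g with h | h | h | h
  · exact no_pq hp hq Nat.prime_two hpq (hg ▸ orderOf_dvd_of_pow_eq_one h)
  · exact no_pq hp hq Nat.prime_three hpq (hg ▸ orderOf_dvd_of_pow_eq_one h)
  · exact no_pq hp hq Nat.prime_two hpq (hg ▸ orderOf_dvd_of_pow_eq_one h)
  · exact no_pq hp hq (by norm_num) hpq (hg ▸ orderOf_dvd_of_pow_eq_one h)

theorem psl7_primes (p : ℕ) (hp : p.Prime) :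
    p ∣ Nat.card (Matrix.ProjectiveSpecialLinearGroup (Fin 2) K) ↔ (p = 2 ∨ p = 3 ∨ p = 7) := by
  have h7 : (7 : K) = 0 := seven_eq_zero hK
  constructor
  · intro h
    haveI : Fact p.Prime := ⟨hp⟩
    obtain ⟨g, hg⟩ := exists_prime_orderOf_dvd_card' (G := Matrix.ProjectiveSpecialLinearGroup (Fin 2) K) p h
    rcases psl7_pow hK g with h | h | h | h
    · have := orderOf_dvd_of_pow_eq_one h
      rw [hg] at this
      exact Or.inl ((Nat.prime_dvd_prime_iff_eq hp Nat.prime_two).mp (hp.dvd_of_dvd_pow this))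
    · have := orderOf_dvd_of_pow_eq_one h
      rw [hg] at this
      exact Or.inr (Or.inl ((Nat.prime_dvd_prime_iff_eq hp Nat.prime_three).mp (hp.dvd_of_dvd_pow this)))
    · have := orderOf_dvd_of_pow_eq_one h
      rw [hg] at this
      exact Or.inl ((Nat.prime_dvd_prime_iff_eq hp Nat.prime_two).mp (hp.dvd_of_dvd_pow this))
    · have := orderOf_dvd_of_pow_eq_one h
      rw [hg] at this
      exact Or.inr (Or.inr ((Nat.prime_dvd_prime_iff_eq hp (by norm_num)).mp (hp.dvd_of_dvd_pow this)))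
  · have key : ∀ (A : Matrix.SpecialLinearGroup (Fin 2) K) (r : ℕ) (ε : K), r.Prime → ε ^ 2 = 1 →
        A.1 1 0 ≠ 0 → A.1 ^ r = ε • (1 : Matrix (Fin 2) (Fin 2) K) →
        r ∣ Nat.card (Matrix.ProjectiveSpecialLinearGroup (Fin 2) K) := by
      intro A r ε hr hε hA hpow
      haveI : Fact r.Prime := ⟨hr⟩
      have h1 := orderOf_eq_prime (mk_pow_eq_one A r ε hε hpow) (mk_ne_one A hA)
      rw [← h1]
      exact orderOf_dvd_natCard _
    have e1 : ((-1 : K)) ^ 2 = 1 := by ring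
    have e2 : ((1 : K)) ^ 2 = 1 := by ring
    rintro (rfl | rfl | rfl)
    · let A : Matrix.SpecialLinearGroup (Fin 2) K := ⟨!![0, -1; 1, 0], by simp [Matrix.det_fin_two]⟩
      have hA : A.1 1 0 ≠ 0 := by simp [A]
      have htr : A.1.trace = 0 := by simp [A, Matrix.trace_fin_two]
      obtain ⟨p2, -⟩ := pows A.1 A.1.trace (cayley A)
      rw [htr, zero_smul, zero_add] at p2
      exact key A 2 (-1) Nat.prime_two e1 hA p2
    · let A : Matrix.SpecialLinearGroup (Fin 2) K := ⟨!![0, -1; 1, -1], by simp [Matrix.det_fin_two]⟩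
      have hA : A.1 1 0 ≠ 0 := by simp [A]
      have htr : A.1.trace = -1 := by simp [A, Matrix.trace_fin_two]
      obtain ⟨-, p3, -⟩ := pows A.1 A.1.trace (cayley A)
      have ha : A.1.trace ^ 2 - 1 = 0 := by rw [htr]; ring
      have hb : -A.1.trace = 1 := by rw [htr]; ring
      rw [ha, hb, zero_smul, zero_add] at p3
      exact key A 3 1 Nat.prime_three e2 hA p3
    · let A : Matrix.SpecialLinearGroup (Fin 2) K := ⟨!![1, 0; 1, 1], by simp [Matrix.det_fin_two]⟩
      have hA : A.1 1 0 ≠ 0 := by simp [A]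
      have htr : A.1.trace = 2 := by simp [A, Matrix.trace_fin_two]; norm_num
      obtain ⟨-, -, -, p7, -⟩ := pows A.1 A.1.trace (cayley A)
      have ha : A.1.trace ^ 6 - 5 * A.1.trace ^ 4 + 6 * A.1.trace ^ 2 - 1 = 0 := by
        rw [htr]; linear_combination h7
      have hb : -(A.1.trace ^ 5 - 4 * A.1.trace ^ 3 + 3 * A.1.trace) = 1 := by
        rw [htr]; linear_combination -h7
      rw [ha, hb, zero_smul, zero_add] at p7
      exact key A 7 1 (by norm_num) e2 hA p7

end f7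

section f8

variable {K : Type*} [Field K] [Fintype K] [CharP K 2] (hK : Fintype.card K = 8)
include hK

theorem sl8_pow (A : Matrix.SpecialLinearGroup (Fin 2) K) :
    A ^ 2 ^ 1 = 1 ∨ A ^ 7 ^ 1 = 1 ∨ A ^ 3 ^ 2 = 1 := by
  have h2 : (2 : K) = 0 := CharTwo.two_eq_zero
  by_cases ht : A.1.trace = 0
  · exact Or.inl (sq_eq_one_of_trace A ht)
  · have ht7 : A.1.trace ^ 7 = 1 := by
      have := FiniteField.pow_card_sub_one_eq_one A.1.trace ht
      rwa [hK] at this
    obtain ⟨-, -, -, p7, p9⟩ := pows A.1 A.1.trace (cayley A)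
    generalize A.1.trace = t at ht7 p7 p9
    have hcc : (t ^ 6 + t ^ 4 + 1) * (t ^ 6 + t ^ 4 + 1 - t) = 0 := by
      linear_combination (t ^ 5 + t - 1) * ht7 + (t ^ 10 + t ^ 6 + t ^ 4) * h2
    rcases mul_eq_zero.mp hcc with hc | hc
    · refine Or.inr (Or.inl ?_)
      have ha : t ^ 6 - 5 * t ^ 4 + 6 * t ^ 2 - 1 = 0 := by
        linear_combination hc + (-3 * t ^ 4 + 3 * t ^ 2 - 1) * h2
      have hb : -(t ^ 5 - 4 * t ^ 3 + 3 * t) = 1 := by
        linear_combination -t * hc + ht7 + (2 * t ^ 3 - t) * h2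
      rw [ha, hb, zero_smul, zero_add, one_smul] at p7
      apply Subtype.ext
      rw [Matrix.SpecialLinearGroup.coe_pow, Matrix.SpecialLinearGroup.coe_one]
      exact p7
    · refine Or.inr (Or.inr ?_)
      have ha : t ^ 8 - 7 * t ^ 6 + 15 * t ^ 4 - 10 * t ^ 2 + 1 = 0 := by
        linear_combination t * ht7 + hc + (t - 4 * t ^ 6 + 7 * t ^ 4 - 5 * t ^ 2) * h2
      have hb : -(t ^ 7 - 6 * t ^ 5 + 10 * t ^ 3 - 4 * t) = 1 := by
        linear_combination -ht7 + (-1 + 3 * t ^ 5 - 5 * t ^ 3 + 2 * t) * h2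
      rw [ha, hb, zero_smul, zero_add, one_smul] at p9
      apply Subtype.ext
      rw [Matrix.SpecialLinearGroup.coe_pow, Matrix.SpecialLinearGroup.coe_one]
      exact p9

theorem sl8_no_pq (p q : ℕ) (hp : p.Prime) (hq : q.Prime) (hpq : p ≠ q) :
    ¬ ∃ g : Matrix.SpecialLinearGroup (Fin 2) K, orderOf g = p * q := by
  rintro ⟨g, hg⟩
  rcases sl8_pow hK g with h | h | h
  · exact no_pq hp hq Nat.prime_two hpq (hg ▸ orderOf_dvd_of_pow_eq_one h)
  · exact no_pq hp hq (by norm_num) hpq (hg ▸ orderOf_dvd_of_pow_eq_one h)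
  · exact no_pq hp hq Nat.prime_three hpq (hg ▸ orderOf_dvd_of_pow_eq_one h)

theorem sl8_primes (p : ℕ) (hp : p.Prime) :
    p ∣ Nat.card (Matrix.SpecialLinearGroup (Fin 2) K) ↔ (p = 2 ∨ p = 3 ∨ p = 7) := by
  have h2 : (2 : K) = 0 := CharTwo.two_eq_zero
  constructor
  · intro h
    haveI : Fact p.Prime := ⟨hp⟩
    obtain ⟨g, hg⟩ := exists_prime_orderOf_dvd_card' (G := Matrix.SpecialLinearGroup (Fin 2) K) p h
    rcases sl8_pow hK g with h | h | h
    · have := orderOf_dvd_of_pow_eq_one h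
      rw [hg] at this
      exact Or.inl ((Nat.prime_dvd_prime_iff_eq hp Nat.prime_two).mp (hp.dvd_of_dvd_pow this))
    · have := orderOf_dvd_of_pow_eq_one h
      rw [hg] at this
      exact Or.inr (Or.inr ((Nat.prime_dvd_prime_iff_eq hp (by norm_num)).mp (hp.dvd_of_dvd_pow this)))
    · have := orderOf_dvd_of_pow_eq_one h
      rw [hg] at this
      exact Or.inr (Or.inl ((Nat.prime_dvd_prime_iff_eq hp Nat.prime_three).mp (hp.dvd_of_dvd_pow this)))
  · rintro (rfl | rfl | rfl)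
    · exact two_dvd_card
    · let A : Matrix.SpecialLinearGroup (Fin 2) K := ⟨!![0, 1; 1, 1], by
        simp [Matrix.det_fin_two]; linear_combination -h2⟩
      have htr : A.1.trace = 1 := by simp [A, Matrix.trace_fin_two]
      obtain ⟨-, p3, -⟩ := pows A.1 A.1.trace (cayley A)
      have ha : A.1.trace ^ 2 - 1 = 0 := by rw [htr]; ring
      have hb : -A.1.trace = 1 := by rw [htr]; linear_combination -h2
      rw [ha, hb, zero_smul, zero_add, one_smul] at p3
      have hA3 : A ^ 3 = 1 := by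
        apply Subtype.ext
        rw [Matrix.SpecialLinearGroup.coe_pow, Matrix.SpecialLinearGroup.coe_one]
        exact p3
      have hA1 : A ≠ 1 := by
        intro h
        have h3 := congrArg (fun M : Matrix.SpecialLinearGroup (Fin 2) K => M.1 0 0) h
        simp [A] at h3
      haveI : Fact (Nat.Prime 3) := ⟨Nat.prime_three⟩
      have h1 := orderOf_eq_prime hA3 hA1
      rw [← h1]
      exact orderOf_dvd_natCard _
    · obtain ⟨t, ht0, ht1⟩ : ∃ t : K, t ≠ 0 ∧ t ≠ 1 := by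
        have hcard : 2 < Fintype.card K := by rw [hK]; norm_num
        obtain ⟨a, b, c, hab, hac, hbc⟩ := Fintype.two_lt_card_iff.mp hcard
        by_cases ha0 : a = 0
        · by_cases hb1 : b = 1
          · refine ⟨c, ?_, ?_⟩
            · intro hc; exact hac (ha0.trans hc.symm)
            · intro hc; exact hbc (hb1.trans hc.symm)
          · refine ⟨b, ?_, hb1⟩
            intro hb; exact hab (ha0.trans hb.symm)
        · by_cases ha1 : a = 1
          · by_cases hb0 : b = 0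
            · refine ⟨c, ?_, ?_⟩
              · intro hc; exact hbc (hb0.trans hc.symm)
              · intro hc; exact hac (ha1.trans hc.symm)
            · refine ⟨b, hb0, ?_⟩
              intro hb; exact hab (ha1.trans hb.symm)
          · exact ⟨a, ha0, ha1⟩
      have ht7 : t ^ 7 = 1 := by
        have := FiniteField.pow_card_sub_one_eq_one t ht0
        rwa [hK] at this
      let A : Matrix.SpecialLinearGroup (Fin 2) K := ⟨Matrix.diagonal ![t, t⁻¹], by
        rw [Matrix.det_diagonal, Fin.prod_univ_two]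
        simp [ht0]⟩
      have hA7 : A ^ 7 = 1 := by
        apply Subtype.ext
        rw [Matrix.SpecialLinearGroup.coe_pow, Matrix.SpecialLinearGroup.coe_one]
        show (Matrix.diagonal ![t, t⁻¹]) ^ 7 = 1
        rw [Matrix.diagonal_pow, ← Matrix.diagonal_one]
        congr 1
        funext i
        fin_cases i
        · simp [ht7]
        · simp [ht7]
      have hA1 : A ≠ 1 := by
        intro h
        have h3 := congrArg (fun M : Matrix.SpecialLinearGroup (Fin 2) K => M.1 0 0) h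
        simp [A] at h3
        exact ht1 h3
      haveI : Fact (Nat.Prime 7) := ⟨by norm_num⟩
      have h1 := orderOf_eq_prime hA7 hA1
      rw [← h1]
      exact orderOf_dvd_natCard _

end f8

/-- The prime graph of a finite group has the prime divisors of its order as vertices, two distinct primes p, q being joined when the group has an element of order pq; two groups have the same prime graph when they have the same prime divisors and the same joined pairs. Let F be the field with 7 elements. There are finite groups of arbitrarily large order with the same prime graph as PSL(2,F) (the graph on {2, 3, 7} with no edges, which is also the prime graph of PSL(2,8)). -/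
theorem result {F : Type*} [Field F] [Fintype F] (hF : Fintype.card F = 7) (N : ℕ) :
    ∃ (H : Type) (_ : Group H) (_ : Finite H), N < Nat.card H ∧
      ((∀ p : ℕ, p.Prime → (p ∣ Nat.card (Matrix.ProjectiveSpecialLinearGroup (Fin 2) F) ↔ p ∣ Nat.card H)) ∧
      (∀ p q : ℕ, p.Prime → q.Prime → p ≠ q → ((∃ g : (Matrix.ProjectiveSpecialLinearGroup (Fin 2) F), orderOf g = p * q) ↔ (∃ g : H, orderOf g = p * q)))) := by
  haveI : Fintype (GaloisField 2 3) := Fintype.ofFinite _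
  have hK : Fintype.card (GaloisField 2 3) = 8 := by
    rw [← Nat.card_eq_fintype_card, GaloisField.card 2 3 (by norm_num)]
    norm_num
  obtain ⟨H, iG, iF, hN, h1, h2⟩ := main (GaloisField 2 3) N
  refine ⟨H, iG, iF, hN, ?_, ?_⟩
  · intro p hp
    rw [← h1 p hp, psl7_primes hF p hp, sl8_primes hK p hp]
  · intro p q hp hq hpq
    rw [← h2 p q hp hq hpq]
    constructor
    · intro h
      exact absurd h (psl7_no_pq hF p q hp hq hpq)
    · intro h
      exact absurd h (sl8_no_pq hK p q hp hq hpq)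

end Cfsg.Agent.S3678
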