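import Cfsg.Statements.S3683

set_option autoImplicit false
open Cfsg

namespace Cfsg.Agent.S3683

/-- Let a finite group G act faithfully and primitively on a set Ω, and suppose the stabilizer of a point a fixes a second point b ≠ a (a suborbit of length 1 other than {a}). Then the stabilizer of a is trivial and G is cyclic of prime order. -/
theorem result {G Ω : Type*} [Group G] [Finite G] [MulAction G Ω] [FaithfulSMul G Ω] [Finite Ω]
    (hprim : MulAction.IsPreprimitive G Ω) (a b : Ω) (hab : a ≠ b) (hfix : ∀ g : G, g • a = a → g • b = b) :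
    MulAction.stabilizer G a = ⊥ ∧ IsCyclic G ∧ (Nat.card G).Prime := by
  have := hprim
  have : Nontrivial Ω := ⟨⟨a, b, hab⟩⟩
  have hcoa : IsCoatom (MulAction.stabilizer G a) :=
    MulAction.IsPreprimitive.isCoatom_stabilizer_of_isPreprimitive G a
  have hcob : IsCoatom (MulAction.stabilizer G b) :=
    MulAction.IsPreprimitive.isCoatom_stabilizer_of_isPreprimitive G b
  have hle : MulAction.stabilizer G a ≤ MulAction.stabilizer G b := fun g hg => hfix g hg
  have heq : MulAction.stabilizer G a = MulAction.stabilizer G b := by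
    rcases eq_or_lt_of_le hle with h | h
    · exact h
    · exact absurd (hcoa.2 _ h) hcob.1
  have : MulAction.IsPretransitive G Ω := hprim.toIsPretransitive
  obtain ⟨g, hg⟩ := MulAction.exists_smul_eq G a b
  have hgN : g ∈ Subgroup.normalizer (MulAction.stabilizer G a : Set G) := by
    rw [Subgroup.mem_normalizer_iff]
    intro h
    rw [show (g * h * g⁻¹ ∈ MulAction.stabilizer G a) ↔
      (g * h * g⁻¹ ∈ MulAction.stabilizer G b) by rw [heq]]
    rw [MulAction.mem_stabilizer_iff, MulAction.mem_stabilizer_iff, ← hg]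
    simp [mul_smul]
  have hgn : g ∉ MulAction.stabilizer G a := by
    intro h
    rw [MulAction.mem_stabilizer_iff] at h
    exact hab (h.symm.trans hg)
  have hNtop : Subgroup.normalizer (MulAction.stabilizer G a : Set G) = ⊤ := by
    apply hcoa.2
    exact lt_of_le_of_ne Subgroup.le_normalizer (fun h => hgn (h ▸ hgN))
  have hnormal : (MulAction.stabilizer G a).Normal := Subgroup.normalizer_eq_top_iff.1 hNtop
  have hbot : MulAction.stabilizer G a = ⊥ := by
    rw [Subgroup.eq_bot_iff_forall]
    intro x hx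
    apply FaithfulSMul.eq_of_smul_eq_smul (α := Ω)
    intro c
    obtain ⟨u, rfl⟩ := MulAction.exists_smul_eq G a c
    have h1 : u⁻¹ * x * u⁻¹⁻¹ ∈ MulAction.stabilizer G a := hnormal.conj_mem x hx u⁻¹
    rw [MulAction.mem_stabilizer_iff] at h1
    rw [one_smul]
    calc x • u • a = u • (u⁻¹ * x * u⁻¹⁻¹) • a := by simp [mul_smul]
      _ = u • a := by rw [h1]
  refine ⟨hbot, ?_⟩
  rw [hbot] at hcoa
  have hsub : ∀ H : Subgroup G, H = ⊥ ∨ H = ⊤ := by
    intro H
    rcases eq_or_lt_of_le (bot_le : ⊥ ≤ H) with h | h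
    · exact Or.inl h.symm
    · exact Or.inr (hcoa.2 _ h)
  have hg1 : g ≠ 1 := by
    rintro rfl
    exact hgn (Subgroup.one_mem _)
  have hz : Subgroup.zpowers g = ⊤ := (hsub _).resolve_left (Subgroup.zpowers_ne_bot.2 hg1)
  have hcyc : IsCyclic G := ⟨⟨g, (Subgroup.eq_top_iff' _).1 hz⟩⟩
  refine ⟨hcyc, ?_⟩
  let cg : CommGroup G := IsCyclic.commGroup
  have hsimp : @IsSimpleGroup G cg.toGroup :=
    { exists_pair_ne := ⟨g, 1, hg1⟩
      eq_bot_or_eq_top_of_normal := fun H _ => hsub H }
  exact @IsSimpleGroup.prime_card G cg hsimp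

end Cfsg.Agent.S3683
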