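import Cfsg.Statements.S3696

import Mathlib

set_option autoImplicit false
open Cfsg
open scoped Pointwise

namespace Cfsg.Agent.S3696

universe u v

theorem amgm (m s a d : ℕ) (ha : 1 ≤ a) (hd : 1 ≤ d) :
    m ^ a * s ^ d * (a + d) ^ (a + d) ≤ (m + s) ^ (a + d) * (a ^ a * d ^ d) := by
  have haR : (0:ℝ) < (a:ℝ) := Nat.cast_pos.2 (by omega)
  have hdR : (0:ℝ) < (d:ℝ) := Nat.cast_pos.2 (by omega)
  have hk : (0:ℝ) < (a:ℝ) + (d:ℝ) := by linarith
  have hk' : (a:ℝ) + (d:ℝ) ≠ 0 := hk.ne'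
  have haR' : (a:ℝ) ≠ 0 := haR.ne'
  have hdR' : (d:ℝ) ≠ 0 := hdR.ne'
  have hm0 : (0:ℝ) ≤ (m:ℝ) / (a:ℝ) := div_nonneg (Nat.cast_nonneg m) haR.le
  have hs0 : (0:ℝ) ≤ (s:ℝ) / (d:ℝ) := div_nonneg (Nat.cast_nonneg s) hdR.le
  have h := Real.geom_mean_le_arith_mean2_weighted (w₁ := (a:ℝ) / ((a:ℝ) + (d:ℝ)))
    (w₂ := (d:ℝ) / ((a:ℝ) + (d:ℝ))) (p₁ := (m:ℝ) / (a:ℝ)) (p₂ := (s:ℝ) / (d:ℝ))
    (div_nonneg haR.le hk.le) (div_nonneg hdR.le hk.le) hm0 hs0 (by field_simp)
  have h2 : (a:ℝ) / ((a:ℝ) + (d:ℝ)) * ((m:ℝ) / (a:ℝ)) + (d:ℝ) / ((a:ℝ) + (d:ℝ)) * ((s:ℝ) / (d:ℝ))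
      = ((m:ℝ) + (s:ℝ)) / ((a:ℝ) + (d:ℝ)) := by
    field_simp
  rw [h2] at h
  have h3 := pow_le_pow_left₀ (mul_nonneg (Real.rpow_nonneg hm0 _) (Real.rpow_nonneg hs0 _)) h (a + d)
  have e1 : (a:ℝ) / ((a:ℝ) + (d:ℝ)) * (((a + d : ℕ)) : ℝ) = (a:ℝ) := by push_cast; field_simp
  have e2 : (d:ℝ) / ((a:ℝ) + (d:ℝ)) * (((a + d : ℕ)) : ℝ) = (d:ℝ) := by push_cast; field_simp
  have r1 : (((m:ℝ) / (a:ℝ)) ^ ((a:ℝ) / ((a:ℝ) + (d:ℝ)))) ^ (a + d) = ((m:ℝ) / (a:ℝ)) ^ a := by
    rw [← Real.rpow_natCast, ← Real.rpow_mul hm0, e1, Real.rpow_natCast]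
  have r2 : (((s:ℝ) / (d:ℝ)) ^ ((d:ℝ) / ((a:ℝ) + (d:ℝ)))) ^ (a + d) = ((s:ℝ) / (d:ℝ)) ^ d := by
    rw [← Real.rpow_natCast, ← Real.rpow_mul hs0, e2, Real.rpow_natCast]
  rw [mul_pow, r1, r2, div_pow, div_pow, div_pow, div_mul_div_comm,
    div_le_div_iff₀ (mul_pos (pow_pos haR _) (pow_pos hdR _)) (pow_pos hk _)] at h3
  exact_mod_cast h3

theorem arith (c s m a d : ℕ) (hd : 1 ≤ d) (hs : 2 ^ d ≤ s) (hc : c * a ^ a ≤ m ^ a) :
    c * s * (a + d) ^ (a + d) ≤ (m + s) ^ (a + d) := by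
  have h1 : m ^ a * s ^ d * (a + d) ^ (a + d) ≤ (m + s) ^ (a + d) * (a ^ a * d ^ d) := by
    rcases Nat.eq_zero_or_pos a with rfl | ha
    · simp only [pow_zero, one_mul, zero_add]
      exact Nat.mul_le_mul_right _ (Nat.pow_le_pow_left (Nat.le_add_left s m) d)
    · exact amgm m s a d ha hd
  have h2 : s * d ^ d ≤ s ^ d := by
    obtain ⟨e, rfl⟩ : ∃ e, d = e + 1 := ⟨d - 1, by omega⟩
    have h3 : e + 1 ≤ 2 ^ e := by
      have := @Nat.lt_two_pow_self e
      omega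
    have h4 : (e + 1) ^ (e + 1) ≤ s ^ e := by
      calc (e + 1) ^ (e + 1) ≤ (2 ^ e) ^ (e + 1) := Nat.pow_le_pow_left h3 _
        _ = (2 ^ (e + 1)) ^ e := by rw [← pow_mul, ← pow_mul, mul_comm]
        _ ≤ s ^ e := Nat.pow_le_pow_left hs _
    calc s * (e + 1) ^ (e + 1) ≤ s * s ^ e := Nat.mul_le_mul_left _ h4
      _ = s ^ (e + 1) := by rw [pow_succ, mul_comm]
  have hpos : 0 < a ^ a * d ^ d := by
    apply Nat.mul_pos
    · rcases Nat.eq_zero_or_pos a with rfl | ha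
      · simp
      · exact Nat.pow_pos ha
    · exact Nat.pow_pos (by omega)
  have h5 : c * s * (a + d) ^ (a + d) * (a ^ a * d ^ d) ≤ (m + s) ^ (a + d) * (a ^ a * d ^ d) := by
    calc c * s * (a + d) ^ (a + d) * (a ^ a * d ^ d)
        = (c * a ^ a) * (s * d ^ d) * (a + d) ^ (a + d) := by ring
      _ ≤ m ^ a * s ^ d * (a + d) ^ (a + d) := Nat.mul_le_mul_right _ (Nat.mul_le_mul hc h2)
      _ ≤ _ := h1
  exact Nat.le_of_mul_le_mul_right h5 hpos

theorem key (p : ℕ) (hp : p.Prime) : ∀ (N : ℕ) (A : Type u) [Group A] [Finite A] (Ω : Type v) [Finite Ω]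
    [MulAction A Ω] [FaithfulSMul A Ω], (∀ a b : A, a * b = b * a) → IsPGroup p A → Nat.card Ω = N →
    ∀ k : ℕ, Nat.card {x : A // x ^ p = 1} = p ^ k → Nat.card A * k ^ k ≤ N ^ k := by
  haveI : Fact p.Prime := ⟨hp⟩
  intro N
  induction' N using Nat.strong_induction_on with N ih
  intro A _ _ Ω _ _ _ hc hA hN k hk
  rcases Nat.eq_zero_or_pos k with rfl | hkpos
  · have hA1 : Nat.card A = 1 := by
      rcases hA.card_eq_or_dvd with h | h
      · exact h
      · exfalso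
        obtain ⟨x, hx⟩ := exists_prime_orderOf_dvd_card' p h
        have hsub : Subsingleton {x : A // x ^ p = 1} :=
          Finite.card_le_one_iff_subsingleton.1 (by rw [hk]; simp)
        have hxp : x ^ p = 1 := by rw [← hx]; exact pow_orderOf_eq_one x
        have h1 := congrArg Subtype.val (hsub.elim ⟨x, hxp⟩ ⟨1, one_pow p⟩)
        have hx1 : x = 1 := h1
        rw [hx1, orderOf_one] at hx
        exact hp.one_lt.ne hx
    simp [hA1]
  · have hnt : Nontrivial {x : A // x ^ p = 1} := by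
      rw [← Finite.one_lt_card_iff_nontrivial, hk]
      exact Nat.one_lt_pow (by omega) hp.one_lt
    obtain ⟨y, hy⟩ := exists_ne (⟨1, one_pow p⟩ : {x : A // x ^ p = 1})
    have hy1 : y.1 ≠ 1 := fun h => hy (Subtype.ext h)
    obtain ⟨ω, hω⟩ : ∃ ω : Ω, y.1 • ω ≠ ω := by
      by_contra hcon
      push Not at hcon
      exact hy1 (FaithfulSMul.eq_of_smul_eq_smul (α := Ω) (fun a => by rw [hcon a, one_smul]))
    obtain ⟨K, hKdef⟩ : ∃ K : Subgroup A, K = MulAction.stabilizer A ω := ⟨_, rfl⟩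
    have hKmem : ∀ g : A, g ∈ K ↔ g • ω = ω := by
      intro g; rw [hKdef]; exact MulAction.mem_stabilizer_iff
    have hKfix : ∀ g ∈ K, ∀ z ∈ MulAction.orbit A ω, g • z = z := by
      rintro g hg z ⟨c, rfl⟩
      have hg' : g • ω = ω := (hKmem g).1 hg
      show g • c • ω = c • ω
      rw [← mul_smul, hc g c, mul_smul, hg']
    let S : SubMulAction A Ω :=
      { carrier := (MulAction.orbit A ω)ᶜ
        smul_mem' := by
          intro c z hz hcz
          apply hz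
          obtain ⟨e, he⟩ := hcz
          refine ⟨c⁻¹ * e, ?_⟩
          show (c⁻¹ * e) • ω = z
          have he' : e • ω = c • z := he
          rw [mul_smul, he', inv_smul_smul] }
    haveI : FaithfulSMul ↥K ↥S := by
      refine ⟨fun {g h} hgh => ?_⟩
      apply Subtype.ext
      apply FaithfulSMul.eq_of_smul_eq_smul (α := Ω)
      intro z
      by_cases hz : z ∈ MulAction.orbit A ω
      · rw [hKfix g.1 g.2 z hz, hKfix h.1 h.2 z hz]
      · have h1 := congrArg Subtype.val (hgh ⟨z, hz⟩)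
        exact h1
    have hcK : ∀ a b : ↥K, a * b = b * a := fun a b => Subtype.ext (hc a.1 b.1)
    have hKp : IsPGroup p ↥K := hA.to_subgroup K
    haveI hKn : K.Normal := ⟨fun n hn g => by rw [hc g n, mul_inv_cancel_right]; exact hn⟩
    let E : Subgroup A :=
      { carrier := {x | x ^ p = 1}
        mul_mem' := by
          intro a b ha hb
          show (a * b) ^ p = 1
          rw [(show Commute a b from hc a b).mul_pow, show a ^ p = 1 from ha,
            show b ^ p = 1 from hb, one_mul]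
        one_mem' := one_pow p
        inv_mem' := by
          intro a ha
          show a⁻¹ ^ p = 1
          rw [inv_pow, show a ^ p = 1 from ha, inv_one] }
    have hEcard : Nat.card ↥E = p ^ k := by
      rw [← hk]; exact Nat.card_congr (Equiv.subtypeEquivRight (fun x => Iff.rfl))
    let f : ↥E →* A ⧸ K := (QuotientGroup.mk' K).comp E.subtype
    have h1 : Nat.card ↥f.ker * Nat.card ↥f.range = Nat.card ↥E := by
      rw [← Subgroup.index_ker]; exact Subgroup.card_mul_index f.ker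
    have hker : ∀ z : ↥E, z ∈ f.ker ↔ z.1 ∈ K := by
      intro z
      rw [MonoidHom.mem_ker]
      show (QuotientGroup.mk z.1 : A ⧸ K) = 1 ↔ _
      exact QuotientGroup.eq_one_iff z.1
    have hcardker : Nat.card ↥f.ker = Nat.card {x : ↥K // x ^ p = 1} := by
      refine Nat.card_congr
        { toFun := fun z => ⟨⟨z.1.1, (hker z.1).1 z.2⟩, Subtype.ext (show (z.1.1 : A) ^ p = 1 from z.1.2)⟩
          invFun := fun w => ⟨⟨w.1.1, show (w.1.1 : A) ^ p = 1 from congrArg Subtype.val w.2⟩,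
            (hker _).2 w.1.2⟩
          left_inv := fun z => rfl
          right_inv := fun w => rfl }
    obtain ⟨k', hk'⟩ : ∃ k', Nat.card {x : ↥K // x ^ p = 1} = p ^ k' := by
      rw [← hcardker]
      exact ((hA.to_subgroup E).to_subgroup f.ker).exists_card_eq
    rw [hcardker, hk', hEcard] at h1
    obtain ⟨d, hdk, hd⟩ := (Nat.dvd_prime_pow hp).1 (Dvd.intro_left _ h1)
    rw [hd, ← pow_add] at h1
    have hkd : k' + d = k := Nat.pow_right_injective hp.two_le h1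
    have hd1 : 1 ≤ d := by
      rcases Nat.eq_zero_or_pos d with rfl | h
      · exfalso
        rw [pow_zero] at hd
        have hbot : f.range = ⊥ := Subgroup.card_eq_one.1 hd
        have hmem : f ⟨y.1, y.2⟩ ∈ f.range := ⟨_, rfl⟩
        rw [hbot, Subgroup.mem_bot] at hmem
        have hyK : y.1 ∈ K := (hker ⟨y.1, y.2⟩).1 (MonoidHom.mem_ker.2 hmem)
        exact hω ((hKmem y.1).1 hyK)
      · exact h
    have hrs : p ^ d ≤ K.index := by
      rw [← hd, Subgroup.index_eq_card]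
      exact Nat.card_le_card_of_injective Subtype.val Subtype.val_injective
    have h2d : 2 ^ d ≤ K.index := le_trans (Nat.pow_le_pow_left hp.two_le d) hrs
    have hScard : Nat.card ↥S + K.index = N := by
      have e1 : Nat.card ↥S = ((MulAction.orbit A ω)ᶜ : Set Ω).ncard := by
        rw [← Nat.card_coe_set_eq]
        exact Nat.card_congr (Equiv.subtypeEquivRight (fun z => Iff.rfl))
      rw [e1, hKdef, MulAction.index_stabilizer, add_comm, Set.ncard_add_ncard_compl, hN]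
    have hlt : Nat.card ↥S < N := by
      have : 0 < K.index := Nat.pos_of_ne_zero Subgroup.index_ne_zero_of_finite
      omega
    have hIH := ih (Nat.card ↥S) hlt ↥K ↥S hcK hKp rfl k' hk'
    have hAcard : Nat.card A = Nat.card ↥K * K.index := (Subgroup.card_mul_index K).symm
    have hfin := arith (Nat.card ↥K) K.index (Nat.card ↥S) k' d hd1 h2d hIH
    rw [hScard, hkd] at hfin
    rw [hAcard]; exact hfin

theorem result {Ω : Type*} [Fintype Ω] [DecidableEq Ω]
    (p : ℕ) (hp : p.Prime) (hn : p ≤ Fintype.card Ω) (A : Subgroup (Equiv.Perm Ω)) (hA : IsPGroup p A) (hab : IsMulCommutative A)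
    (k : ℕ) (hk : Nat.card {x : A // x ^ p = 1} = p ^ k) :
    Nat.card A * k ^ k ≤ Fintype.card Ω ^ k := by
  have hc : ∀ a b : ↥A, a * b = b * a := hab.is_comm.comm
  exact key p hp (Fintype.card Ω) ↥A Ω hc hA Nat.card_eq_fintype_card k hk

end Cfsg.Agent.S3696
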