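import Cfsg.Statements.S3802
import Mathlib
import Cfsg.Agent.S3735
import Cfsg.Agent.Lib.Helper6.SubnormalMin

set_option autoImplicit false
open Cfsg

namespace Cfsg.Agent.S3802

open Cfsg.Agent.Lib.Helper6

/-- Let G be a finite group, M a maximal subgroup of G and N a subnormal subgroup of G contained in M. Then N is contained in every conjugate of M, that is, N lies in the core of M in G. -/
theorem result {G : Type*} [Group G] [Finite G] (M N : Subgroup G) (hM : IsCoatom M) (hN : N.IsSubnormal) (hNM : N ≤ M) :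
    N ≤ Subgroup.normalCore M := by
  classical
  haveI hCn : (M.normalCore).Normal := Subgroup.normalCore_normal M
  have hCM : M.normalCore ≤ M := Subgroup.normalCore_le M
  have hπ1 : ∀ g : G, QuotientGroup.mk' M.normalCore g = 1 ↔ g ∈ M.normalCore := by
    intro g
    rw [QuotientGroup.mk'_apply, QuotientGroup.eq_one_iff]
  have htop : (⊤ : Subgroup (G ⧸ M.normalCore)) ≠ ⊥ := by
    intro h
    apply hM.1
    rw [eq_top_iff]
    intro g _
    have h1 : QuotientGroup.mk' M.normalCore g ∈ (⊤ : Subgroup (G ⧸ M.normalCore)) :=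
      Subgroup.mem_top _
    rw [h, Subgroup.mem_bot, hπ1] at h1
    exact hCM h1
  obtain ⟨A, hA, -⟩ := Cfsg.Agent.S3735.exists_simp_le (⊤ : Subgroup (G ⧸ M.normalCore)) ⊤ ⊤
    le_rfl htop (fun a _ s _ => Subgroup.mem_top _)
  obtain ⟨-, hA1, hAinv, hAmin⟩ := hA
  have hAn : A.Normal := ⟨fun s hs g => hAinv g (Subgroup.mem_top g) s hs⟩
  have hAmin' : ∀ K : Subgroup (G ⧸ M.normalCore), K.Normal → K ≤ A → K = ⊥ ∨ K = A :=
    fun K hK hKA => hAmin K hKA (fun a _ s hs => hK.conj_mem s hs a)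
  have hsub : (N.map (QuotientGroup.mk' M.normalCore)).IsSubnormal :=
    hN.map (QuotientGroup.mk'_surjective M.normalCore)
  have hnorm := SubnormalMin.normalizes _ hsub A hAn hAmin'
  haveI hAtn : (A.comap (QuotientGroup.mk' M.normalCore)).Normal := hAn.comap _
  have hAt : ¬ A.comap (QuotientGroup.mk' M.normalCore) ≤ M := by
    intro h
    have h1 : A.comap (QuotientGroup.mk' M.normalCore) ≤ M.normalCore :=
      Subgroup.normal_le_normalCore.2 h
    apply hA1
    rw [eq_bot_iff]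
    intro a ha
    obtain ⟨g, rfl⟩ := QuotientGroup.mk'_surjective M.normalCore a
    have h2 : g ∈ M.normalCore := h1 (Subgroup.mem_comap.2 ha)
    rw [Subgroup.mem_bot, hπ1]
    exact h2
  have hsup : A.comap (QuotientGroup.mk' M.normalCore) ⊔ M = ⊤ := by
    apply hM.2
    exact lt_of_le_of_ne le_sup_right (fun h => hAt (le_sup_left.trans h.ge))
  have hkey : ∀ a ∈ A.comap (QuotientGroup.mk' M.normalCore), ∀ n ∈ N, a * n * a⁻¹ ∈ M := by
    intro a ha n hn
    have h1 := hnorm (Subgroup.mem_comap.1 ha)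
    have h2 := (Subgroup.mem_normalizer_iff.1 h1 (QuotientGroup.mk' M.normalCore n)).1
      ⟨n, hn, rfl⟩
    obtain ⟨n', hn', hnn⟩ := h2
    have h3 : n'⁻¹ * (a * n * a⁻¹) ∈ M.normalCore := by
      rw [← hπ1, map_mul, map_inv, hnn, map_mul, map_mul, map_inv, inv_mul_cancel]
    have h4 : a * n * a⁻¹ = n' * (n'⁻¹ * (a * n * a⁻¹)) := by group
    rw [h4]
    exact M.mul_mem (hNM hn') (hCM h3)
  intro n hn b
  have hb : b⁻¹ ∈ A.comap (QuotientGroup.mk' M.normalCore) ⊔ M := by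
    rw [hsup]; exact Subgroup.mem_top _
  obtain ⟨a, ha, m, hm, hab⟩ := Subgroup.mem_sup_of_normal_left.1 hb
  have hb' : b = m⁻¹ * a⁻¹ := by
    rw [← inv_inv b, ← hab]; group
  rw [hb']
  have h5 : m⁻¹ * a⁻¹ * n * (m⁻¹ * a⁻¹)⁻¹ = m⁻¹ * (a⁻¹ * n * a⁻¹⁻¹) * m := by group
  rw [h5]
  exact M.mul_mem (M.mul_mem (M.inv_mem hm) (hkey a⁻¹ (Subgroup.inv_mem _ ha) n hn)) hm

end Cfsg.Agent.S3802
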