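import Cfsg.Statements.S3815

set_option autoImplicit false
open Cfsg

namespace Cfsg.Agent.S3815

theorem orderOf_conj_eq {G : Type*} [Group G] (x y : G) : orderOf (x * y * x⁻¹) = orderOf y := by
  have := MulEquiv.orderOf_eq (MulAut.conj x) y
  rwa [MulAut.conj_apply] at this

def goodSub (G : Type*) [Group G] [Finite G] (p : ℕ) : Subgroup G where
  carrier := {d | ∀ g : G, (orderOf g).Coprime p → (orderOf (d * g)).Coprime p}
  one_mem' := by
    intro g hg
    simpa using hg
  mul_mem' := by
    intro a b ha hb g hg
    rw [mul_assoc]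
    exact ha _ (hb g hg)
  inv_mem' := by
    intro a ha
    have hsub : ∀ n : ℕ, ∀ g : G, (orderOf g).Coprime p → (orderOf (a ^ n * g)).Coprime p := by
      intro n
      induction n with
      | zero => intro g hg; simpa using hg
      | succ n ih =>
        intro g hg
        rw [pow_succ, mul_assoc]
        exact ih _ (ha g hg)
    have hinv : a⁻¹ = a ^ (orderOf a - 1) := by
      apply inv_eq_of_mul_eq_one_right
      rw [← pow_succ']
      have : orderOf a - 1 + 1 = orderOf a := Nat.sub_add_cancel (orderOf_pos a)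
      rw [this, pow_orderOf_eq_one]
    intro g hg
    show (orderOf (a⁻¹ * g)).Coprime p
    rw [hinv]
    exact hsub _ g hg

theorem goodSub_normal (G : Type*) [Group G] [Finite G] (p : ℕ) : (goodSub G p).Normal := by
  constructor
  intro n hn x g hg
  have h1 : x * n * x⁻¹ * g = x * (n * (x⁻¹ * g * x⁻¹⁻¹)) * x⁻¹ := by group
  rw [h1, orderOf_conj_eq]
  apply hn
  rw [orderOf_conj_eq]
  exact hg

theorem goodSub_coprime (G : Type*) [Group G] [Finite G] (p : ℕ) [hp : Fact p.Prime] :
    (Nat.card (goodSub G p)).Coprime p := by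
  apply Nat.Coprime.symm
  rw [Nat.Prime.coprime_iff_not_dvd hp.out]
  intro hdvd
  obtain ⟨x, hx⟩ := exists_prime_orderOf_dvd_card' p hdvd
  have hx' : orderOf (x : G) = p := by rw [Subgroup.orderOf_coe]; exact hx
  have h1 := x.2 1 (by simp)
  rw [mul_one, hx'] at h1
  exact hp.out.one_lt.ne' ((Nat.coprime_self p).1 h1)

/-- Let G be a finite group, p a prime and d ∈ G an element of order prime to p. If dg has order prime to p for every element g ∈ G of order prime to p, then d ∈ O_{p'}(G). -/
theorem result {G : Type*} [Group G] [Finite G] {p : ℕ} [Fact p.Prime]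
    (d : G) (hd : (orderOf d).Coprime p)
    (h : ∀ g : G, (orderOf g).Coprime p → (orderOf (d * g)).Coprime p) :
    d ∈ Cfsg.pPrimeCore p G := by
  have hd' : d ∈ goodSub G p := h
  have hle : goodSub G p ≤ Cfsg.pPrimeCore p G := by
    unfold Cfsg.pPrimeCore
    exact le_sSup ⟨goodSub_normal G p, goodSub_coprime G p⟩
  exact hle hd'

end Cfsg.Agent.S3815
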