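import Cfsg.Statements.S3820
import Mathlib

set_option autoImplicit false
open Cfsg

namespace Cfsg.Agent.S3820

theorem mem_cj {G : Type*} [Group G] (K : Subgroup G) (g y : G) :
    y ∈ K.map (MulAut.conj g).toMonoidHom ↔ g⁻¹ * y * g ∈ K := by
  rw [Subgroup.mem_map]
  constructor
  · rintro ⟨k, hk, rfl⟩
    have e : g⁻¹ * ((MulAut.conj g).toMonoidHom k) * g = k := by
      simp only [MulEquiv.coe_toMonoidHom, MulAut.conj_apply]
      group
    rw [e]; exact hk
  · intro h
    refine ⟨g⁻¹ * y * g, h, ?_⟩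
    simp only [MulEquiv.coe_toMonoidHom, MulAut.conj_apply]
    group

theorem cj_mul {G : Type*} [Group G] (K : Subgroup G) (a b : G) :
    K.map (MulAut.conj (a * b)).toMonoidHom =
      (K.map (MulAut.conj b).toMonoidHom).map (MulAut.conj a).toMonoidHom := by
  ext y
  rw [mem_cj, mem_cj, mem_cj]
  have e : (a * b)⁻¹ * y * (a * b) = b⁻¹ * (a⁻¹ * y * a) * b := by group
  rw [e]

theorem cj_one {G : Type*} [Group G] (K : Subgroup G) :
    K.map (MulAut.conj (1 : G)).toMonoidHom = K := by
  ext y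
  rw [mem_cj]
  simp

theorem cj_le {G : Type*} [Group G] (K J : Subgroup G) (w : G) (hw : w ∈ J) (hK : K ≤ J) :
    K.map (MulAut.conj w).toMonoidHom ≤ J := by
  intro y hy
  rw [mem_cj] at hy
  have e : y = w * (w⁻¹ * y * w) * w⁻¹ := by group
  rw [e]
  exact J.mul_mem (J.mul_mem hw (hK hy)) (J.inv_mem hw)

theorem mem_normalizer_cj {G : Type*} [Group G] (S : Subgroup G) (n : G) :
    n ∈ Subgroup.normalizer (S : Set G) ↔ S.map (MulAut.conj n).toMonoidHom = S := by
  rw [Subgroup.mem_normalizer_iff'']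
  constructor
  · intro h
    ext y
    rw [mem_cj]
    exact (h y).symm
  · intro h y
    rw [← mem_cj, h]

/-- Call a subgroup H of G pronormal if H and gHg⁻¹ are conjugate inside ⟨H, gHg⁻¹⟩ for every g ∈ G. Let S ≤ H ≤ G be subgroups of a finite group with S pronormal in G (for instance S a Sylow subgroup). Then H is pronormal in G if and only if H and gHg⁻¹ are conjugate inside ⟨H, gHg⁻¹⟩ for every g ∈ N_G(S). In particular H is pronormal whenever N_G(S) ≤ H. -/
theorem result {G : Type*} [Group G] [Finite G] (S H : Subgroup G) (hSH : S ≤ H)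
    (hS : Cfsg.IsPronormal S) :
    Cfsg.IsPronormal H ↔
      ∀ g ∈ Subgroup.normalizer (S : Set G), ∃ w ∈ H ⊔ H.map (MulAut.conj g).toMonoidHom,
        H.map (MulAut.conj g).toMonoidHom = H.map (MulAut.conj w).toMonoidHom := by
  constructor
  · intro hH g _
    exact hH g
  · intro hyp g
    obtain ⟨u, hu, huS⟩ := hS g
    have hn : u⁻¹ * g ∈ Subgroup.normalizer (S : Set G) := by
      rw [mem_normalizer_cj, cj_mul, huS, ← cj_mul, inv_mul_cancel, cj_one]
    obtain ⟨w, hw, hwH⟩ := hyp _ hn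
    have hgun : g = u * (u⁻¹ * g) := by group
    have huJ : u ∈ H ⊔ H.map (MulAut.conj g).toMonoidHom :=
      (sup_le_sup hSH (Subgroup.map_mono hSH)) hu
    refine ⟨u * w, ?_, ?_⟩
    · have h1 : (H ⊔ H.map (MulAut.conj (u⁻¹ * g)).toMonoidHom).map (MulAut.conj u).toMonoidHom ≤
          H ⊔ H.map (MulAut.conj g).toMonoidHom := by
        rw [Subgroup.map_sup, ← cj_mul, ← hgun]
        exact sup_le (cj_le H _ u huJ le_sup_left) le_sup_right
      have h2 : u * w * u⁻¹ ∈
          (H ⊔ H.map (MulAut.conj (u⁻¹ * g)).toMonoidHom).map (MulAut.conj u).toMonoidHom := by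
        rw [mem_cj]
        have e : u⁻¹ * (u * w * u⁻¹) * u = w := by group
        rw [e]; exact hw
      have h3 : u * w = (u * w * u⁻¹) * u := by group
      rw [h3]
      exact Subgroup.mul_mem _ (h1 h2) huJ
    · have e1 : H.map (MulAut.conj g).toMonoidHom =
          (H.map (MulAut.conj (u⁻¹ * g)).toMonoidHom).map (MulAut.conj u).toMonoidHom := by
        rw [← cj_mul, ← hgun]
      rw [e1, hwH, ← cj_mul]

end Cfsg.Agent.S3820
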