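import Cfsg.Statements.S3821
import Mathlib

set_option autoImplicit false
open Cfsg

namespace Cfsg.Agent.S3821

theorem mem_cj {G : Type*} [Group G] (K : Subgroup G) (g y : G) :
    y ∈ K.map (MulAut.conj g).toMonoidHom ↔ g⁻¹ * y * g ∈ K := by
  rw [Subgroup.mem_map]
  constructor
  · rintro ⟨k, hk, rfl⟩
    have e : g⁻¹ * ((MulAut.conj g).toMonoidHom k) * g = k := by
      simp only [MulEquiv.coe_toMonoidHom, MulAut.conj_apply]
      group
    rw [e]; exact hk
  · intro h
    refine ⟨g⁻¹ * y * g, h, ?_⟩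
    simp only [MulEquiv.coe_toMonoidHom, MulAut.conj_apply]
    group

theorem cj_mul {G : Type*} [Group G] (K : Subgroup G) (a b : G) :
    K.map (MulAut.conj (a * b)).toMonoidHom =
      (K.map (MulAut.conj b).toMonoidHom).map (MulAut.conj a).toMonoidHom := by
  ext y
  rw [mem_cj, mem_cj, mem_cj]
  have e : (a * b)⁻¹ * y * (a * b) = b⁻¹ * (a⁻¹ * y * a) * b := by group
  rw [e]

theorem cj_one {G : Type*} [Group G] (K : Subgroup G) :
    K.map (MulAut.conj (1 : G)).toMonoidHom = K := by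
  ext y
  rw [mem_cj]
  simp

theorem cj_le {G : Type*} [Group G] (K J : Subgroup G) (w : G) (hw : w ∈ J) (hK : K ≤ J) :
    K.map (MulAut.conj w).toMonoidHom ≤ J := by
  intro y hy
  rw [mem_cj] at hy
  have e : y = w * (w⁻¹ * y * w) * w⁻¹ := by group
  rw [e]
  exact J.mul_mem (J.mul_mem hw (hK hy)) (J.inv_mem hw)

theorem mem_normalizer_cj {G : Type*} [Group G] (S : Subgroup G) (n : G) :
    n ∈ Subgroup.normalizer (S : Set G) ↔ S.map (MulAut.conj n).toMonoidHom = S := by
  rw [Subgroup.mem_normalizer_iff'']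
  constructor
  · intro h
    ext y
    rw [mem_cj]
    exact (h y).symm
  · intro h y
    rw [← mem_cj, h]

theorem cj_subgroupOf {G : Type*} [Group G] (A H : Subgroup G) (a : A) :
    (H.subgroupOf A).map (MulAut.conj a).toMonoidHom =
      (H.map (MulAut.conj (a : G)).toMonoidHom).subgroupOf A := by
  ext y
  rw [mem_cj, Subgroup.mem_subgroupOf, Subgroup.mem_subgroupOf, mem_cj]
  rfl

/-- Let A be a normal subgroup of the finite group G and H a subgroup of A. Then H is pronormal in G (H and gHg⁻¹ conjugate inside ⟨H, gHg⁻¹⟩ for every g ∈ G) if and only if H is pronormal in A and G = A · N_G(H). -/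
theorem result {G : Type*} [Group G] [Finite G] (A H : Subgroup G) [A.Normal] (hHA : H ≤ A) :
    Cfsg.IsPronormal H ↔ (Cfsg.IsPronormal (H.subgroupOf A) ∧ A ⊔ Subgroup.normalizer (H : Set G) = ⊤) := by
  have hcjA : ∀ g : G, H.map (MulAut.conj g).toMonoidHom ≤ A := by
    intro g y hy
    rw [mem_cj] at hy
    have h1 := hHA hy
    have e : y = g * (g⁻¹ * y * g) * g⁻¹ := by group
    rw [e]
    exact ‹A.Normal›.conj_mem _ h1 g
  constructor
  · intro hH
    constructor
    · intro a
      obtain ⟨x, hx, hxH⟩ := hH (a : G)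
      have hxA : x ∈ A := (sup_le hHA (hcjA a)) hx
      refine ⟨⟨x, hxA⟩, ?_, ?_⟩
      · rw [cj_subgroupOf, ← Subgroup.subgroupOf_sup hHA (hcjA a), Subgroup.mem_subgroupOf]
        exact hx
      · rw [cj_subgroupOf, cj_subgroupOf, hxH]
    · rw [Subgroup.eq_top_iff']
      intro g
      obtain ⟨x, hx, hxH⟩ := hH g
      have hxA : x ∈ A := (sup_le hHA (hcjA g)) hx
      have hn : x⁻¹ * g ∈ Subgroup.normalizer (H : Set G) := by
        rw [mem_normalizer_cj, cj_mul, hxH, ← cj_mul, inv_mul_cancel, cj_one]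
      have e : g = x * (x⁻¹ * g) := by group
      rw [e]
      exact Subgroup.mul_mem_sup hxA hn
  · rintro ⟨hpro, htop⟩ g
    have hg : g ∈ A ⊔ Subgroup.normalizer (H : Set G) := by
      rw [htop]; exact Subgroup.mem_top g
    rw [← SetLike.mem_coe, Subgroup.normal_mul] at hg
    obtain ⟨a, ha, n, hn, rfl⟩ := Set.mem_mul.1 hg
    have hn' : H.map (MulAut.conj n).toMonoidHom = H := (mem_normalizer_cj H n).1 hn
    have e1 : H.map (MulAut.conj (a * n)).toMonoidHom = H.map (MulAut.conj a).toMonoidHom := by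
      rw [cj_mul, hn']
    rw [e1]
    obtain ⟨x', hx', hxH'⟩ := hpro ⟨a, ha⟩
    rw [cj_subgroupOf, ← Subgroup.subgroupOf_sup hHA (hcjA a), Subgroup.mem_subgroupOf] at hx'
    rw [cj_subgroupOf, cj_subgroupOf] at hxH'
    refine ⟨(x' : G), hx', ?_⟩
    have h2 : ∀ K L : Subgroup G, K ≤ A → L ≤ A → K.subgroupOf A = L.subgroupOf A → K = L := by
      intro K L hK hL hKL
      ext y
      constructor
      · intro hy
        have h3 : (⟨y, hK hy⟩ : A) ∈ K.subgroupOf A := Subgroup.mem_subgroupOf.2 hy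
        rw [hKL] at h3
        exact Subgroup.mem_subgroupOf.1 h3
      · intro hy
        have h3 : (⟨y, hL hy⟩ : A) ∈ L.subgroupOf A := Subgroup.mem_subgroupOf.2 hy
        rw [← hKL] at h3
        exact Subgroup.mem_subgroupOf.1 h3
    exact h2 _ _ (hcjA a) (hcjA _) hxH'

end Cfsg.Agent.S3821
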