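import Cfsg.Statements.S3825
import Mathlib

set_option autoImplicit false
open Cfsg

namespace Cfsg.Agent.S3825

theorem inv_of_fpf_involution {Q : Type*} [Group Q] [Finite Q] (σ : Q →* Q)
    (h2 : ∀ q, σ (σ q) = q) (hfpf : ∀ q, σ q = q → q = 1) : ∀ q, σ q = q⁻¹ := by
  have hinj : Function.Injective (fun q : Q => q⁻¹ * σ q) := by
    intro q r h
    have h' : q⁻¹ * σ q = r⁻¹ * σ r := h
    have h1 : σ (r * q⁻¹) = r * q⁻¹ := by
      rw [map_mul, map_inv]
      have : σ r = r * (q⁻¹ * σ q) := by rw [h', mul_inv_cancel_left]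
      rw [this]
      group
    have h2' := hfpf _ h1
    rw [mul_inv_eq_one] at h2'
    exact h2'.symm
  have hsurj := Finite.surjective_of_injective hinj
  intro q
  obtain ⟨r, rfl⟩ := hsurj q
  change σ (r⁻¹ * σ r) = (r⁻¹ * σ r)⁻¹
  rw [map_mul, map_inv, h2, mul_inv_rev, inv_inv]

theorem isCyclic_of_le_zpowers {G : Type*} [Group G] (H : Subgroup G) (g : G)
    (h : H ≤ Subgroup.zpowers g) : IsCyclic H :=
  isCyclic_of_injective (Subgroup.inclusion h) (Subgroup.inclusion_injective h)

/-- Let U be a subgroup of a finite group H and w an involution of H normalizing U and commuting with exactly two elements of U, the identity and y. If V is a non-cyclic elementary abelian 2-subgroup of U containing y which is normal in U and invariant under w, then V is a Sylow 2-subgroup of U, V has order 4, and U/V is abelian. -/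
theorem result {H : Type*} [Group H] [Finite H] (U : Subgroup H) (w : H) (hw : orderOf w = 2)
    (hwU : w ∈ Subgroup.normalizer (U : Set H)) (y : H) (hy : y ≠ 1) (hyU : y ∈ U)
    (hfix : ∀ u ∈ U, w * u * w⁻¹ = u ↔ (u = 1 ∨ u = y))
    (V : Subgroup H) (hVU : V ≤ U) (hVn : (V.subgroupOf U).Normal) (hVw : ∀ v ∈ V, w * v * w⁻¹ ∈ V)
    (hVe : Cfsg.IsElementaryAbelian 2 V) (hVc : ¬ IsCyclic ↥V) (hyV : y ∈ V) :
    ¬ 2 ∣ V.relIndex U ∧ Nat.card ↥V = 4 ∧ ⁅U, U⁆ ≤ V := by
  classical
  obtain ⟨hVcomm, hVexp⟩ := hVe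
  have hw2 : w * w = 1 := by
    rw [← sq, ← hw]
    exact pow_orderOf_eq_one w
  have hcc : ∀ u : H, w * (w * u * w⁻¹) * w⁻¹ = u := by
    intro u
    calc w * (w * u * w⁻¹) * w⁻¹ = (w * w) * u * (w * w)⁻¹ := by group
      _ = u := by rw [hw2]; group
  have hVmul : ∀ a ∈ V, ∀ b ∈ V, a * b = b * a := fun a ha b hb => by
    have := hVcomm.is_comm.comm (⟨a, ha⟩ : V) ⟨b, hb⟩
    exact congrArg Subtype.val this
  have hVinv : ∀ a ∈ V, a⁻¹ = a := by
    intro a ha
    have := hVexp a ha
    rw [sq] at this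
    exact inv_eq_of_mul_eq_one_left this
  have hyy : y * y = 1 := by
    have := hVexp y hyV
    rwa [sq] at this
  have hker : ∀ v ∈ V, v * (w * v * w⁻¹) = 1 → v = 1 ∨ v = y := by
    intro v hv h
    apply (hfix v (hVU hv)).1
    have : w * v * w⁻¹ = v⁻¹ := (inv_eq_of_mul_eq_one_right h).symm
    rw [this, hVinv v hv]
  have hrange : ∀ v ∈ V, v * (w * v * w⁻¹) = 1 ∨ v * (w * v * w⁻¹) = y := by
    intro v hv
    have hcv := hVw v hv
    apply (hfix _ (hVU (V.mul_mem hv hcv))).1
    calc w * (v * (w * v * w⁻¹)) * w⁻¹ = (w * v * w⁻¹) * (w * (w * v * w⁻¹) * w⁻¹) := by group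
      _ = (w * v * w⁻¹) * v := by rw [hcc]
      _ = v * (w * v * w⁻¹) := (hVmul _ hv _ hcv).symm
  obtain ⟨a, haV, ha1, hay⟩ : ∃ a ∈ V, a ≠ 1 ∧ a ≠ y := by
    by_contra hcon
    push Not at hcon
    apply hVc
    apply isCyclic_of_le_zpowers V y
    intro a ha
    by_cases h1 : a = 1
    · rw [h1]
      exact Subgroup.one_mem _
    · rw [hcon a ha h1]
      exact Subgroup.mem_zpowers y
  have hca : w * a * w⁻¹ = a * y := by
    rcases hrange a haV with h | h
    · exfalso
      rcases hker a haV h with h' | h'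
      · exact ha1 h'
      · exact hay h'
    · have : w * a * w⁻¹ = a⁻¹ * y := by
        rw [← h]
        group
      rw [this, hVinv a haV]
  have hset : (V : Set H) = {1, y, a, a * y} := by
    ext v
    constructor
    · intro hv
      have hv' : v ∈ V := hv
      rcases hrange v hv' with h | h
      · rcases hker v hv' h with h' | h'
        · left
          exact h'
        · right; left
          exact h'
      · have hcv := hVw v hv'
        have h2 : (v * a) * (w * (v * a) * w⁻¹) = 1 := by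
          calc (v * a) * (w * (v * a) * w⁻¹) = v * (a * (w * v * w⁻¹)) * (w * a * w⁻¹) := by group
            _ = v * ((w * v * w⁻¹) * a) * (w * a * w⁻¹) := by rw [hVmul a haV _ hcv]
            _ = (v * (w * v * w⁻¹)) * (a * (w * a * w⁻¹)) := by group
            _ = y * (a * (a * y)) := by rw [h, hca]
            _ = y * ((a * a) * y) := by group
            _ = 1 := by
              have haa : a * a = 1 := by
                have := hVexp a haV
                rwa [sq] at this
              rw [haa, one_mul, hyy]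
        rcases hker (v * a) (V.mul_mem hv' haV) h2 with h' | h'
        · right; right; left
          have : v = a⁻¹ := eq_inv_of_mul_eq_one_left h'
          rw [this, hVinv a haV]
        · right; right; right
          have : v = y * a⁻¹ := eq_mul_inv_of_mul_eq h'
          rw [this, hVinv a haV, hVmul y hyV a haV]
          rfl
    · rintro (rfl | rfl | rfl | rfl)
      · exact V.one_mem
      · exact hyV
      · exact haV
      · exact V.mul_mem haV hyV
  have hcard4 : Nat.card V = 4 := by
    have h0 : Nat.card V = (V : Set H).ncard := Nat.card_coe_set_eq (V : Set H)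
    rw [h0, hset]
    have n1 : (1 : H) ∉ ({y, a, a * y} : Set H) := by
      rintro (h | h | h)
      · exact hy h.symm
      · exact ha1 h.symm
      · apply hay
        have : a = y⁻¹ := eq_inv_of_mul_eq_one_left h.symm
        rw [this, hVinv y hyV]
    have n2 : y ∉ ({a, a * y} : Set H) := by
      rintro (h | h)
      · exact hay h.symm
      · apply ha1
        have : a * y = 1 * y := by rw [one_mul]; exact h.symm
        exact mul_right_cancel this
    have n3 : a ≠ a * y := by
      intro h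
      apply hy
      have : a * 1 = a * y := by rw [mul_one]; exact h
      exact (mul_left_cancel this).symm
    rw [Set.ncard_insert_of_notMem n1, Set.ncard_insert_of_notMem n2, Set.ncard_pair n3]
  have hVn' : (V.subgroupOf U).Normal := hVn
  let cU : ↥U →* ↥U := MonoidHom.mk'
    (fun u => ⟨w * u * w⁻¹, (Subgroup.mem_normalizer_iff.1 hwU u).1 u.2⟩) (by
      intro u u'
      apply Subtype.ext
      simp [mul_assoc])
  have hcomap : V.subgroupOf U ≤ (V.subgroupOf U).comap cU := by
    intro u hu
    rw [Subgroup.mem_comap, Subgroup.mem_subgroupOf]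
    exact hVw _ (Subgroup.mem_subgroupOf.1 hu)
  let σ : (↥U ⧸ V.subgroupOf U) →* (↥U ⧸ V.subgroupOf U) := QuotientGroup.map _ _ cU hcomap
  have hσ2 : ∀ q, σ (σ q) = q := by
    intro q
    obtain ⟨u, rfl⟩ := QuotientGroup.mk_surjective q
    change ((cU (cU u) : ↥U) : ↥U ⧸ V.subgroupOf U) = (u : ↥U ⧸ V.subgroupOf U)
    congr 1
    apply Subtype.ext
    exact hcc u
  have hfpf : ∀ q, σ q = q → q = 1 := by
    intro q hq
    obtain ⟨u, rfl⟩ := QuotientGroup.mk_surjective q
    have h1 : ((cU u : ↥U) : ↥U ⧸ V.subgroupOf U) = (u : ↥U ⧸ V.subgroupOf U) := hq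
    rw [QuotientGroup.eq_one_iff, Subgroup.mem_subgroupOf]
    rw [QuotientGroup.eq, Subgroup.mem_subgroupOf] at h1
    have hv : (w * (u : H) * w⁻¹)⁻¹ * (u : H) ∈ V := h1
    have hvV : (u : H)⁻¹ * (w * (u : H) * w⁻¹) ∈ V := by
      have := V.inv_mem hv
      have e : ((w * (u : H) * w⁻¹)⁻¹ * (u : H))⁻¹ = (u : H)⁻¹ * (w * (u : H) * w⁻¹) := by group
      rwa [e] at this
    have hcu : w * (u : H) * w⁻¹ = (u : H) * ((u : H)⁻¹ * (w * (u : H) * w⁻¹)) := by group
    generalize (u : H)⁻¹ * (w * (u : H) * w⁻¹) = v at hvV hcu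
    have hvc : v * (w * v * w⁻¹) = 1 := by
      have h3 : w * ((u : H) * v) * w⁻¹ = (u : H) := by
        rw [← hcu]
        exact hcc _
      have h4 : w * ((u : H) * v) * w⁻¹ = (w * (u : H) * w⁻¹) * (w * v * w⁻¹) := by group
      rw [h4, hcu] at h3
      have : (u : H) * (v * (w * v * w⁻¹)) = (u : H) * 1 := by rw [← mul_assoc, h3, mul_one]
      exact mul_left_cancel this
    rcases hker v hvV hvc with h | h
    · rw [h, mul_one] at hcu
      rcases (hfix u u.2).1 hcu with h' | h'
      · rw [h']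
        exact V.one_mem
      · rw [h']
        exact hyV
    · rw [h] at hcu
      have h5 : w * ((u : H) * a) * w⁻¹ = (u : H) * a := by
        calc w * ((u : H) * a) * w⁻¹ = (w * (u : H) * w⁻¹) * (w * a * w⁻¹) := by group
          _ = (u : H) * y * (a * y) := by rw [hcu, hca]
          _ = (u : H) * ((y * a) * y) := by group
          _ = (u : H) * ((a * y) * y) := by rw [hVmul y hyV a haV]
          _ = (u : H) * a * (y * y) := by group
          _ = (u : H) * a := by rw [hyy, mul_one]
      rcases (hfix _ (U.mul_mem u.2 (hVU haV))).1 h5 with h' | h'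
      · have : (u : H) = a⁻¹ := eq_inv_of_mul_eq_one_left h'
        rw [this]
        exact V.inv_mem haV
      · have : (u : H) = y * a⁻¹ := eq_mul_inv_of_mul_eq h'
        rw [this]
        exact V.mul_mem hyV (V.inv_mem haV)
  have hσinv := inv_of_fpf_involution σ hσ2 hfpf
  refine ⟨?_, hcard4, ?_⟩
  · intro hdiv
    have h1 : 2 ∣ Nat.card (↥U ⧸ V.subgroupOf U) := hdiv
    obtain ⟨q, hq⟩ := exists_prime_orderOf_dvd_card' 2 h1
    have h2 : q * q = 1 := by
      rw [← sq, ← hq]
      exact pow_orderOf_eq_one q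
    have h3 : σ q = q := by
      rw [hσinv]
      exact inv_eq_of_mul_eq_one_left h2
    have h4 := hfpf q h3
    rw [h4, orderOf_one] at hq
    norm_num at hq
  · rw [Subgroup.commutator_le]
    intro g₁ hg₁ g₂ hg₂
    have hcommQ : ∀ q r : ↥U ⧸ V.subgroupOf U, q * r = r * q := by
      intro q r
      have h1 := hσinv (q * r)
      rw [map_mul, hσinv, hσinv, mul_inv_rev] at h1
      have := congrArg (fun t => t⁻¹) h1
      simpa using this.symm
    have h5 : ((⟨g₁, hg₁⟩ * ⟨g₂, hg₂⟩ * ⟨g₁, hg₁⟩⁻¹ * ⟨g₂, hg₂⟩⁻¹ : ↥U) :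
        ↥U ⧸ V.subgroupOf U) = 1 := by
      simp only [QuotientGroup.mk_mul, QuotientGroup.mk_inv]
      rw [hcommQ (↑(⟨g₁, hg₁⟩ : ↥U)) ↑(⟨g₂, hg₂⟩ : ↥U)]
      group
    rw [QuotientGroup.eq_one_iff, Subgroup.mem_subgroupOf] at h5
    exact h5

end Cfsg.Agent.S3825
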