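import Cfsg.Statements.S3836
import Mathlib
import Cfsg.Agent.Lib.Helper3.Core

set_option autoImplicit false
open Cfsg

namespace Cfsg.Agent.S3836

/-- Let G be a finite group that is p-stable in the normalizer form: for every p-subgroup Q and every x ∈ N_G(Q) with [Q, x, x] = 1, the image of x in N_G(Q)/C_G(Q) lies in O_p(N_G(Q)/C_G(Q)). Then every subgroup of G is p-stable in the same sense. -/
theorem result {G : Type*} [Group G] [Finite G] {p : ℕ} [Fact p.Prime] (hst : Cfsg.IsNormalizerPStable p G) (H : Subgroup G) : Cfsg.IsNormalizerPStable p ↥H := by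
  classical
  intro P hP g hg hcomm
  have hP' : IsPGroup p ↥(P.map H.subtype) := hP.map _
  have hNmem : ∀ h : ↥H, h ∈ Subgroup.normalizer (P : Set ↥H) →
      (h : G) ∈ Subgroup.normalizer ((P.map H.subtype : Subgroup G) : Set G) := by
    intro h hh
    rw [Subgroup.mem_normalizer_iff]
    intro x
    constructor
    · rintro ⟨a, ha, rfl⟩
      exact ⟨h * a * h⁻¹, (Subgroup.mem_normalizer_iff.mp hh a).mp ha, rfl⟩
    · rintro ⟨b, hb, hbe⟩
      refine ⟨h⁻¹ * b * h, ?_, ?_⟩
      · refine (Subgroup.mem_normalizer_iff.mp hh (h⁻¹ * b * h)).mpr ?_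
        have e : h * (h⁻¹ * b * h) * h⁻¹ = b := by group
        rw [e]; exact hb
      · have e : (b : G) = (h : G) * x * (h : G)⁻¹ := hbe
        show ((h⁻¹ * b * h : ↥H) : G) = x
        push_cast
        rw [e]; group
  have hcomm' : ⁅⁅P.map H.subtype, Subgroup.zpowers (g : G)⁆, Subgroup.zpowers (g : G)⁆ = ⊥ := by
    have hz : Subgroup.zpowers (g : G) = (Subgroup.zpowers g).map H.subtype := by
      rw [MonoidHom.map_zpowers]; rfl
    rw [hz, ← Subgroup.map_commutator, ← Subgroup.map_commutator, hcomm, Subgroup.map_bot]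
  have h1 := hst (P.map H.subtype) hP' (g : G) (hNmem g hg) hcomm'
  let ι : ↥(Subgroup.normalizer (P : Set ↥H)) →*
      ↥(Subgroup.normalizer ((P.map H.subtype : Subgroup G) : Set G)) :=
    { toFun := fun h => ⟨((h : ↥H) : G), hNmem h h.2⟩
      map_one' := rfl
      map_mul' := fun a b => rfl }
  have hker : ∀ h : ↥(Subgroup.normalizer (P : Set ↥H)),
      h ∈ (Subgroup.centralizer (P : Set ↥H)).subgroupOf (Subgroup.normalizer (P : Set ↥H)) ↔
      ι h ∈ (Subgroup.centralizer ((P.map H.subtype : Subgroup G) : Set G)).subgroupOf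
        (Subgroup.normalizer ((P.map H.subtype : Subgroup G) : Set G)) := by
    intro h
    rw [Subgroup.mem_subgroupOf, Subgroup.mem_subgroupOf, Subgroup.mem_centralizer_iff,
      Subgroup.mem_centralizer_iff]
    constructor
    · rintro hc x ⟨a, ha, rfl⟩
      have := hc a ha
      exact congrArg Subtype.val this
    · intro hc a ha
      have := hc (a : G) ⟨a, ha, rfl⟩
      exact Subtype.ext this
  let ψ := QuotientGroup.map
    ((Subgroup.centralizer (P : Set ↥H)).subgroupOf (Subgroup.normalizer (P : Set ↥H)))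
    ((Subgroup.centralizer ((P.map H.subtype : Subgroup G) : Set G)).subgroupOf
        (Subgroup.normalizer ((P.map H.subtype : Subgroup G) : Set G))) ι
    (fun h hh => (hker h).mp hh)
  have hinj : Function.Injective ψ := by
    rw [injective_iff_map_eq_one]
    intro x
    induction x using QuotientGroup.induction_on with
    | H a =>
      intro ha
      have ha' : ι a ∈ (Subgroup.centralizer ((P.map H.subtype : Subgroup G) : Set G)).subgroupOf
          (Subgroup.normalizer ((P.map H.subtype : Subgroup G) : Set G)) :=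
        (QuotientGroup.eq_one_iff (ι a)).mp ha
      rw [QuotientGroup.eq_one_iff]
      exact (hker a).mpr ha'
  have hK : (Cfsg.pCore p (↥(Subgroup.normalizer ((P.map H.subtype : Subgroup G) : Set G)) ⧸
      (Subgroup.centralizer ((P.map H.subtype : Subgroup G) : Set G)).subgroupOf
        (Subgroup.normalizer ((P.map H.subtype : Subgroup G) : Set G)))).comap ψ ≤
      Cfsg.pCore p (↥(Subgroup.normalizer (P : Set ↥H)) ⧸
        (Subgroup.centralizer (P : Set ↥H)).subgroupOf (Subgroup.normalizer (P : Set ↥H))) := by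
    apply le_sSup
    refine ⟨?_, ?_⟩
    · exact (Cfsg.Agent.Lib.Helper3.Core.pCore_normal p).comap ψ
    · exact (Cfsg.Agent.Lib.Helper3.Core.pCore_isPGroup p).comap_of_injective ψ hinj
  apply hK
  exact h1

end Cfsg.Agent.S3836
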