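import Cfsg.Statements.S3858
import Mathlib
import Cfsg.Agent.Lib.Helper6.ASMax

set_option autoImplicit false
open Cfsg

namespace Cfsg.Agent.S3858

open Cfsg.Agent.Lib.Helper6

/-- Let G be a finite group with a normal non-abelian simple subgroup T whose centralizer is trivial (G almost simple with socle T), r a prime and R a Sylow r-subgroup of G meeting T nontrivially. Then R lies in exactly one maximal subgroup of G if and only if G has exactly one conjugacy class of maximal subgroups whose index is prime to r. -/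
theorem result {G : Type*} [Group G] [Finite G] (T : Subgroup G) [T.Normal] (hT : IsSimpleGroup T) (hna : ¬ IsMulCommutative T)
    (hC : Subgroup.centralizer (T : Set G) = ⊥) {r : ℕ} [Fact r.Prime] (R : Sylow r G) (hR0 : (R : Subgroup G) ⊓ T ≠ ⊥) :
    (∃! M : Subgroup G, IsCoatom M ∧ (R : Subgroup G) ≤ M) ↔
      ((∃ M : Subgroup G, IsCoatom M ∧ ¬ r ∣ M.index) ∧
        ∀ M₁ M₂ : Subgroup G, IsCoatom M₁ → ¬ r ∣ M₁.index → IsCoatom M₂ → ¬ r ∣ M₂.index → ∃ g : G, M₂ = M₁.map (MulAut.conj g).toMonoidHom) := by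
  classical
  have hSr : IsPGroup r ↥((R : Subgroup G) ⊓ T) := R.2.to_le inf_le_left
  have hSnn : ¬ ((R : Subgroup G) ⊓ T).Normal :=
    ASMax.not_normal_of_pgroup T hT hna _ inf_le_right hR0 hSr
  have hNtop : Subgroup.normalizer ((R : Subgroup G) : Set G) ≠ ⊤ := by
    intro h
    haveI hRn : (R : Subgroup G).Normal := Subgroup.normalizer_eq_top_iff.mp h
    exact hSnn inferInstance
  constructor
  · rintro ⟨M, ⟨hMco, hRM⟩, hMuniq⟩
    refine ⟨⟨M, hMco, ASMax.not_dvd_index_of_le R M hRM⟩, ?_⟩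
    intro M₁ M₂ h1 h1' h2 h2'
    obtain ⟨g₁, hg₁⟩ := ASMax.exists_conj_le_of_not_dvd R M₁ h1'
    obtain ⟨g₂, hg₂⟩ := ASMax.exists_conj_le_of_not_dvd R M₂ h2'
    have e1 : M₁.map (MulAut.conj g₁⁻¹).toMonoidHom = M := by
      apply hMuniq
      refine ⟨ASMax.isCoatom_map_conj _ _ h1, fun x hx => ?_⟩
      rw [ASMax.mem_map_conj, inv_inv]
      exact hg₁ x hx
    have e2 : M₂.map (MulAut.conj g₂⁻¹).toMonoidHom = M := by
      apply hMuniq
      refine ⟨ASMax.isCoatom_map_conj _ _ h2, fun x hx => ?_⟩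
      rw [ASMax.mem_map_conj, inv_inv]
      exact hg₂ x hx
    refine ⟨g₂ * g₁⁻¹, ?_⟩
    ext x
    rw [ASMax.mem_map_conj]
    have a1 : ∀ y, y ∈ M ↔ g₁ * y * g₁⁻¹ ∈ M₁ := by
      intro y; rw [← e1, ASMax.mem_map_conj, inv_inv]
    have a2 : ∀ y, y ∈ M ↔ g₂ * y * g₂⁻¹ ∈ M₂ := by
      intro y; rw [← e2, ASMax.mem_map_conj, inv_inv]
    have b2 := a2 (g₂⁻¹ * x * g₂)
    have b1 := a1 (g₂⁻¹ * x * g₂)
    have e3 : g₂ * (g₂⁻¹ * x * g₂) * g₂⁻¹ = x := by group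
    have e4 : g₁ * (g₂⁻¹ * x * g₂) * g₁⁻¹ = (g₂ * g₁⁻¹)⁻¹ * x * (g₂ * g₁⁻¹) := by group
    rw [e3] at b2
    rw [e4] at b1
    exact b2.symm.trans b1
  · rintro ⟨⟨M₀, hM₀co, hM₀i⟩, hconj⟩
    have hkey : ∀ M'' : Subgroup G, IsCoatom M'' → (R : Subgroup G) ≤ M'' →
        Subgroup.normalizer ((R : Subgroup G) : Set G) ≤ M'' := by
      intro M'' hco hRM
      rcases eq_top_or_exists_le_coatom (Subgroup.normalizer ((R : Subgroup G) : Set G)) with
        h | ⟨M₃, hM₃co, hNM₃⟩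
      · exact absurd h hNtop
      · have hRM₃ : (R : Subgroup G) ≤ M₃ := Subgroup.le_normalizer.trans hNM₃
        obtain ⟨g, hg⟩ := hconj M'' M₃ hco (ASMax.not_dvd_index_of_le R M'' hRM) hM₃co
          (ASMax.not_dvd_index_of_le R M₃ hRM₃)
        obtain ⟨h, hh, hhg⟩ := ASMax.exists_mem_mul_mem_normalizer R M'' M₃ g hg hRM hRM₃
        have hgM₃ : g ∈ M₃ := by
          have := M₃.mul_mem (M₃.inv_mem hh) (hNM₃ hhg)
          simpa using this
        rw [ASMax.eq_of_map_conj_mem M'' M₃ g hg hgM₃]; exact hNM₃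
    obtain ⟨g₀, hg₀⟩ := ASMax.exists_conj_le_of_not_dvd R M₀ hM₀i
    have hMco : IsCoatom (M₀.map (MulAut.conj g₀⁻¹).toMonoidHom) :=
      ASMax.isCoatom_map_conj _ _ hM₀co
    have hRM : (R : Subgroup G) ≤ M₀.map (MulAut.conj g₀⁻¹).toMonoidHom := fun x hx => by
      rw [ASMax.mem_map_conj, inv_inv]; exact hg₀ x hx
    refine ⟨M₀.map (MulAut.conj g₀⁻¹).toMonoidHom, ⟨hMco, hRM⟩, ?_⟩
    rintro M' ⟨hM'co, hRM'⟩
    obtain ⟨g, hg⟩ := hconj _ M' hMco (ASMax.not_dvd_index_of_le R _ hRM) hM'co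
      (ASMax.not_dvd_index_of_le R M' hRM')
    obtain ⟨h, hh, hhg⟩ := ASMax.exists_mem_mul_mem_normalizer R _ M' g hg hRM hRM'
    have hgM' : g ∈ M' := by
      have := M'.mul_mem (M'.inv_mem hh) (hkey M' hM'co hRM' hhg)
      simpa using this
    exact (ASMax.eq_of_map_conj_mem _ M' g hg hgM').symm

end Cfsg.Agent.S3858
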