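import Cfsg.Statements.S3859
import Mathlib
import Cfsg.Agent.Lib.Helper6.ASMax

set_option autoImplicit false
open Cfsg

namespace Cfsg.Agent.S3859

open Cfsg.Agent.Lib.Helper6

/-- Let G be a finite group with a normal non-abelian simple subgroup T whose centralizer is trivial (G almost simple with socle T), r a prime and R a Sylow r-subgroup of G meeting T nontrivially. If R lies in exactly one maximal subgroup of G, then G/T is an r-group. -/
theorem result {G : Type*} [Group G] [Finite G] (T : Subgroup G) [T.Normal] (hT : IsSimpleGroup T) (hna : ¬ IsMulCommutative T)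
    (hC : Subgroup.centralizer (T : Set G) = ⊥) {r : ℕ} [Fact r.Prime] (R : Sylow r G) (hR0 : (R : Subgroup G) ⊓ T ≠ ⊥)
    (huniq : ∃! M : Subgroup G, IsCoatom M ∧ (R : Subgroup G) ≤ M) : IsPGroup r (G ⧸ T) := by
  classical
  obtain ⟨M, ⟨hMco, hRM⟩, hMuniq⟩ := huniq
  have hle : ∀ H : Subgroup G, H ≠ ⊤ → (R : Subgroup G) ≤ H → H ≤ M := by
    intro H hH hRH
    rcases eq_top_or_exists_le_coatom H with h | ⟨K, hK, hHK⟩
    · exact absurd h hH
    · have := hMuniq K ⟨hK, hRH.trans hHK⟩
      rw [← this]; exact hHK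
  have hSr : IsPGroup r ↥((R : Subgroup G) ⊓ T) := R.2.to_le inf_le_left
  have hSnn : ¬ ((R : Subgroup G) ⊓ T).Normal :=
    ASMax.not_normal_of_pgroup T hT hna _ inf_le_right hR0 hSr
  have hNtop : Subgroup.normalizer (((R : Subgroup G) ⊓ T : Subgroup G) : Set G) ≠ ⊤ :=
    fun h => hSnn (Subgroup.normalizer_eq_top_iff.mp h)
  have hNM := hle _ hNtop (ASMax.le_normalizer_inf T (R : Subgroup G))
  have hfr := ASMax.frattini_inf T R
  have hRT : (R : Subgroup G) ⊔ T = ⊤ := by
    by_contra hne
    have hTM : T ≤ M := le_sup_right.trans (hle _ hne le_sup_left)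
    have : (⊤ : Subgroup G) ≤ M := by rw [← hfr]; exact sup_le hNM hTM
    exact hMco.1 (top_le_iff.mp this)
  have hmap : ((R : Subgroup G).map (QuotientGroup.mk' T)) = ⊤ := by
    have h1 : ((R : Subgroup G) ⊔ T).map (QuotientGroup.mk' T) = ⊤ := by
      rw [hRT]; exact Subgroup.map_top_of_surjective _ (QuotientGroup.mk'_surjective T)
    rw [Subgroup.map_sup, QuotientGroup.map_mk'_self, sup_bot_eq] at h1
    exact h1
  have hP : IsPGroup r ↥((R : Subgroup G).map (QuotientGroup.mk' T)) := R.2.map _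
  rw [hmap] at hP
  exact hP.of_equiv Subgroup.topEquiv

end Cfsg.Agent.S3859
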