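import Cfsg.Statements.S3861
import Mathlib
import Cfsg.Agent.Lib.Helper6.Invert

set_option autoImplicit false
open Cfsg

namespace Cfsg.Agent.S3861

/-- A finite group G has no non-identity element of odd order that is conjugate to its inverse if and only if the Sylow 2-subgroups of G are normal. -/
theorem result {G : Type*} [Group G] [Finite G] (P : Sylow 2 G) : (∀ x : G, x ≠ 1 → Odd (orderOf x) → ¬ IsConj x x⁻¹) ↔ (P : Subgroup G).Normal := by
  constructor
  · intro h
    by_contra hP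
    obtain ⟨x, g, hx1, hodd, hg⟩ := Cfsg.Agent.Lib.Helper6.Invert.exists_inverted P hP
    exact h x hx1 hodd (isConj_iff.2 ⟨g, hg⟩)
  · intro hP x hx1 hodd hconj
    haveI : Fact (Nat.Prime 2) := ⟨Nat.prime_two⟩
    obtain ⟨g, hg⟩ := isConj_iff.1 hconj
    obtain ⟨a, m, hm, ham⟩ := Nat.exists_eq_two_pow_mul_odd (orderOf_pos g).ne'
    obtain ⟨l, hl⟩ := hm
    have hc : Commute (g ^ 2) x := by
      have e : g ^ 2 * x * (g ^ 2)⁻¹ = x := by
        have e1 : g ^ 2 * x * (g ^ 2)⁻¹ = g * (g * x * g⁻¹) * g⁻¹ := by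
          simp only [sq, mul_inv_rev, mul_assoc]
        rw [e1, hg]
        have e2 : g * x⁻¹ * g⁻¹ = (g * x * g⁻¹)⁻¹ := by group
        rw [e2, hg, inv_inv]
      have : g ^ 2 * x = (g ^ 2 * x * (g ^ 2)⁻¹) * g ^ 2 := by
        rw [inv_mul_cancel_right]
      rw [e] at this
      exact this
    have hh : g ^ m * x * (g ^ m)⁻¹ = x⁻¹ := by
      have e1 : g ^ m = (g ^ 2) ^ l * g := by rw [hl, pow_succ, pow_mul]
      have hc2 : Commute ((g ^ 2) ^ l) x⁻¹ := (hc.pow_left l).inv_right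
      rw [e1]
      have e2 : (g ^ 2) ^ l * g * x * ((g ^ 2) ^ l * g)⁻¹ =
          (g ^ 2) ^ l * (g * x * g⁻¹) * ((g ^ 2) ^ l)⁻¹ := by group
      rw [e2, hg, hc2.eq, mul_assoc, mul_inv_cancel, mul_one]
    have hhP : g ^ m ∈ (P : Subgroup G) := by
      have hpg : IsPGroup 2 (Subgroup.zpowers (g ^ m)) := by
        apply Cfsg.Agent.Lib.Helper6.SylowConj.isPGroup_zpowers (g ^ m) a
        apply Nat.dvd_antisymm
        · apply orderOf_dvd_of_pow_eq_one
          rw [← pow_mul, mul_comm, ← ham, pow_orderOf_eq_one]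
        · have h1 : orderOf g ∣ m * orderOf (g ^ m) := by
            apply orderOf_dvd_of_pow_eq_one
            rw [pow_mul, pow_orderOf_eq_one]
          rw [ham, mul_comm] at h1
          have hm0 : 0 < m := by omega
          exact (Nat.mul_dvd_mul_iff_left hm0).1 h1
      obtain ⟨Q, hQ⟩ := hpg.exists_le_sylow
      obtain ⟨c, hc⟩ := MulAction.exists_smul_eq G P Q
      have hQP : Q = P := by rw [← hc]; exact Sylow.smul_eq_of_normal
      rw [← hQP]
      exact hQ (Subgroup.mem_zpowers _)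
    have h2 : x⁻¹ * x⁻¹ ∈ (P : Subgroup G) := by
      have e : x⁻¹ * x⁻¹ = g ^ m * (x * (g ^ m)⁻¹ * x⁻¹) := by
        rw [← hh]; group
      rw [e]
      exact Subgroup.mul_mem _ hhP (hP.conj_mem _ (Subgroup.inv_mem _ hhP) x)
    have h3 : x ^ 2 ∈ (P : Subgroup G) := by
      have := Subgroup.inv_mem _ h2
      have e : (x⁻¹ * x⁻¹)⁻¹ = x ^ 2 := by group
      rwa [e] at this
    obtain ⟨b, hb⟩ := P.isPGroup' ⟨x ^ 2, h3⟩
    have hb' : (x ^ 2) ^ 2 ^ b = 1 := by
      have := congrArg Subtype.val hb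
      simpa using this
    have h4 : orderOf x ∣ 2 ^ (b + 1) := by
      apply orderOf_dvd_of_pow_eq_one
      rw [pow_succ', pow_mul]; exact hb'
    have h5 : (orderOf x).Coprime (2 ^ (b + 1)) :=
      Nat.Coprime.pow_right _ (Nat.coprime_two_right.2 hodd)
    have h6 : orderOf x = 1 := Nat.Coprime.eq_one_of_dvd h5 h4
    exact hx1 (orderOf_eq_one_iff.1 h6)

end Cfsg.Agent.S3861
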