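import Cfsg.Statements.S3862
import Mathlib
import Cfsg.Agent.S0071

set_option autoImplicit false
open Cfsg

namespace Cfsg.Agent.S3862

theorem conj_pow_central {G : Type*} [Group G] (g u c : G) (hc : c ∈ Subgroup.center G)
    (h : g * u * g⁻¹ = u * c) : ∀ k : ℕ, g ^ k * u * (g ^ k)⁻¹ = u * c ^ k := by
  intro k
  induction k with
  | zero => simp
  | succ k ih =>
    have e : g ^ (k + 1) * u * (g ^ (k + 1))⁻¹ = g * (g ^ k * u * (g ^ k)⁻¹) * g⁻¹ := by
      rw [pow_succ']; group
    rw [e, ih]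
    have e2 : g * (u * c ^ k) * g⁻¹ = (g * u * g⁻¹) * (g * c ^ k * g⁻¹) := by group
    have hck : c ^ k ∈ Subgroup.center G := Subgroup.pow_mem _ hc k
    have e3 : g * c ^ k * g⁻¹ = c ^ k := by
      rw [Subgroup.mem_center_iff] at hck
      rw [hck g, mul_inv_cancel_right]
    rw [e2, h, e3, mul_assoc, ← pow_succ']

theorem key {G : Type*} [Group G] [Finite G]
    (h : ∀ x : G, (∃ j : ℕ, orderOf x = 2 ^ j) → IsConj x x⁻¹ → x ∈ Subgroup.center G)
    (Q : Subgroup G) (hQ : IsPGroup 2 Q) (g : G) (hg : g ∈ Subgroup.normalizer (Q : Set G))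
    (hodd : Nat.Coprime (orderOf g) 2) :
    ∀ j : ℕ, ∀ u ∈ Q, u ^ 2 ^ j = 1 → g * u * g⁻¹ = u := by
  intro j
  induction j with
  | zero =>
    intro u _ hu
    rw [pow_zero, pow_one] at hu
    rw [hu]; simp
  | succ j ih =>
    intro u hu huj
    have hu2 : g * u ^ 2 * g⁻¹ = u ^ 2 := by
      apply ih (u ^ 2) (Q.pow_mem hu 2)
      rw [← pow_mul, ← pow_succ']; exact huj
    have hu' : g * u * g⁻¹ ∈ Q := (Subgroup.mem_normalizer_iff.1 hg u).1 hu
    set c := u⁻¹ * (g * u * g⁻¹) with hc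
    have hcQ : c ∈ Q := Q.mul_mem (Q.inv_mem hu) hu'
    have huc : g * u * g⁻¹ = u * c := by rw [hc, mul_inv_cancel_left]
    have hsq : (u * c) ^ 2 = u ^ 2 := by
      rw [← huc, conj_pow, hu2]
    have hinv : u⁻¹ * c * u⁻¹⁻¹ = c⁻¹ := by
      have e1 : u * c * (u * c) = u * u := by rw [← sq, hsq, sq]
      have e2 : c * u * c = u := by
        have := congrArg (fun t => u⁻¹ * t) e1
        simp only [mul_assoc, inv_mul_cancel_left] at this
        rw [mul_assoc]; exact this
      rw [inv_inv]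
      have e3 : u⁻¹ * c * u = u⁻¹ * (c * u * c) * c⁻¹ := by group
      rw [e3, e2, inv_mul_cancel, one_mul]
    have hcord : ∃ i : ℕ, orderOf c = 2 ^ i := by
      obtain ⟨k, hk⟩ := hQ ⟨c, hcQ⟩
      have hk' : c ^ 2 ^ k = 1 := by
        have := congrArg Subtype.val hk
        simpa using this
      have := orderOf_dvd_of_pow_eq_one hk'
      obtain ⟨i, -, hi⟩ := (Nat.dvd_prime_pow Nat.prime_two).1 this
      exact ⟨i, hi⟩
    have hcZ : c ∈ Subgroup.center G := h c hcord (isConj_iff.2 ⟨u⁻¹, hinv⟩)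
    have hk := conj_pow_central g u c hcZ huc (orderOf g)
    rw [pow_orderOf_eq_one, one_mul, inv_one, mul_one] at hk
    have hck : c ^ orderOf g = 1 := by
      have := congrArg (fun t => u⁻¹ * t) hk
      simp only [inv_mul_cancel, inv_mul_cancel_left] at this
      exact this.symm
    have hc1 : c = 1 := by
      obtain ⟨i, hi⟩ := hcord
      have h1 : orderOf c ∣ orderOf g := orderOf_dvd_of_pow_eq_one hck
      have h2 : (orderOf c).Coprime (orderOf g) := by
        rw [hi]; exact Nat.Coprime.pow_left _ hodd.symm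
      rw [← orderOf_eq_one_iff]
      exact Nat.Coprime.eq_one_of_dvd h2 h1
    rw [huc, hc1, mul_one]

/-- If every 2-element of the finite group G that is conjugate to its inverse lies in the centre of G, then G has a normal 2-complement. -/
theorem result {G : Type*} [Group G] [Finite G] (h : ∀ x : G, (∃ j : ℕ, orderOf x = 2 ^ j) → IsConj x x⁻¹ → x ∈ Subgroup.center G) : Cfsg.HasNormalPComplement 2 G := by
  haveI : Fact (Nat.Prime 2) := ⟨Nat.prime_two⟩
  obtain ⟨P⟩ : Nonempty (Sylow 2 G) := inferInstance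
  obtain ⟨N, hN, hc⟩ := (Cfsg.Agent.S0071.result P).2 (by
    intro Q hQP g hg hodd
    have hQ : IsPGroup 2 Q := P.isPGroup'.to_le hQP
    rw [Subgroup.mem_centralizer_iff]
    intro u hu
    obtain ⟨k, hk⟩ := hQ ⟨u, hu⟩
    have hk' : u ^ 2 ^ k = 1 := by
      have := congrArg Subtype.val hk
      simpa using this
    have h1 := key h Q hQ g hg hodd k u hu hk'
    rw [← h1, inv_mul_cancel_right, h1])
  exact ⟨P, N, hN, hc⟩

end Cfsg.Agent.S3862
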