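import Cfsg.Statements.S3863
import Mathlib

set_option autoImplicit false
open Cfsg

namespace Cfsg.Agent.S3863

theorem inv_conj_odd {G : Type*} [Group G] (c w : G) (h : c * w * c⁻¹ = w⁻¹) (j : ℕ) :
    c ^ (2 * j + 1) * w * (c ^ (2 * j + 1))⁻¹ = w⁻¹ := by
  induction j with
  | zero => simpa using h
  | succ j ih =>
    have e : c ^ (2 * (j + 1) + 1) = c * c * c ^ (2 * j + 1) := by
      rw [show 2 * (j + 1) + 1 = 2 + (2 * j + 1) by ring, pow_add, pow_two]
    rw [e]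
    have e2 : c * c * c ^ (2 * j + 1) * w * (c * c * c ^ (2 * j + 1))⁻¹ =
        c * (c * (c ^ (2 * j + 1) * w * (c ^ (2 * j + 1))⁻¹) * c⁻¹) * c⁻¹ := by group
    rw [e2, ih]
    have h2 : c * w⁻¹ * c⁻¹ = w := by
      have e3 : c * w⁻¹ * c⁻¹ = (c * w * c⁻¹)⁻¹ := by group
      rw [e3, h, inv_inv]
    rw [h2, h]

def invStab {G : Type*} [Group G] (x : G) : Subgroup G where
  carrier := {g | g * x * g⁻¹ = x ∨ g * x * g⁻¹ = x⁻¹}
  one_mem' := Or.inl (by group)
  mul_mem' := by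
    rintro a b (ha | ha) (hb | hb)
    · left
      calc a * b * x * (a * b)⁻¹ = a * (b * x * b⁻¹) * a⁻¹ := by group
        _ = x := by rw [hb, ha]
    · right
      calc a * b * x * (a * b)⁻¹ = a * (b * x * b⁻¹) * a⁻¹ := by group
        _ = (a * x * a⁻¹)⁻¹ := by rw [hb]; group
        _ = x⁻¹ := by rw [ha]
    · right
      calc a * b * x * (a * b)⁻¹ = a * (b * x * b⁻¹) * a⁻¹ := by group
        _ = x⁻¹ := by rw [hb, ha]
    · left
      calc a * b * x * (a * b)⁻¹ = a * (b * x * b⁻¹) * a⁻¹ := by group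
        _ = (a * x * a⁻¹)⁻¹ := by rw [hb]; group
        _ = x := by rw [ha, inv_inv]
  inv_mem' := by
    rintro a (ha | ha)
    · left
      have e : a⁻¹ * (a * x * a⁻¹) * a⁻¹⁻¹ = x := by group
      rw [ha] at e
      exact e
    · right
      have e : a⁻¹ * (a * x * a⁻¹)⁻¹ * a⁻¹⁻¹ = x⁻¹ := by group
      rw [ha, inv_inv] at e
      exact e

theorem mem_cent_iff {G : Type*} [Group G] (x g : G) :
    g ∈ Subgroup.centralizer {x} ↔ g * x * g⁻¹ = x := by
  rw [Subgroup.mem_centralizer_iff]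
  simp only [Set.mem_singleton_iff, forall_eq]
  rw [mul_inv_eq_iff_eq_mul]
  exact eq_comm


theorem two_elt_conj {G : Type*} [Group G] [Finite G] (x : G) (hx : IsConj x x⁻¹) :
    ∃ t : G, (∃ j : ℕ, orderOf t = 2 ^ j) ∧ t * x * t⁻¹ = x⁻¹ := by
  obtain ⟨c, hc⟩ := isConj_iff.1 hx
  obtain ⟨b, t, ht, hbt⟩ := Nat.exists_eq_two_pow_mul_odd (orderOf_pos c).ne'
  obtain ⟨j, hj⟩ := ht
  have ht0 : t ≠ 0 := by omega
  refine ⟨c ^ t, ⟨b, ?_⟩, ?_⟩
  · rw [orderOf_pow_of_dvd ht0 (by rw [hbt]; exact dvd_mul_left t _), hbt,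
      Nat.mul_div_cancel _ (Nat.pos_of_ne_zero ht0)]
  · rw [hj]
    exact inv_conj_odd c x hc j

theorem odd_index_sq {G : Type*} [Group G] [Finite G] (x : G) (hx : IsConj x x⁻¹)
    (hodd : Odd (Subgroup.centralizer ({x} : Set G)).index) : x ^ 2 = 1 := by
  by_contra hne
  obtain ⟨c, hc⟩ := isConj_iff.1 hx
  have hxx : x ≠ x⁻¹ := by
    intro h
    apply hne
    rw [pow_two]
    nth_rewrite 2 [h]
    exact mul_inv_cancel x
  have hCT : Subgroup.centralizer {x} ≤ invStab x :=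
    fun g hg => Or.inl ((mem_cent_iff x g).1 hg)
  have hrel : (Subgroup.centralizer {x}).relIndex (invStab x) = 2 := by
    rw [Subgroup.relIndex_eq_two_iff]
    refine ⟨c, Or.inr hc, ?_⟩
    intro b hb
    have e : b * c * x * (b * c)⁻¹ = b * (c * x * c⁻¹) * b⁻¹ := by group
    rcases hb with hb | hb
    · right
      refine ⟨(mem_cent_iff x b).2 hb, ?_⟩
      rw [mem_cent_iff, e, hc]
      intro h
      have e2 : b * x⁻¹ * b⁻¹ = (b * x * b⁻¹)⁻¹ := by group
      rw [e2, hb] at h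
      exact hxx h.symm
    · left
      refine ⟨?_, ?_⟩
      · rw [mem_cent_iff, e, hc]
        have e2 : b * x⁻¹ * b⁻¹ = (b * x * b⁻¹)⁻¹ := by group
        rw [e2, hb, inv_inv]
      · rw [mem_cent_iff, hb]
        exact fun h => hxx h.symm
  have h2C : 2 ∣ (Subgroup.centralizer {x}).index := by
    rw [← Subgroup.relIndex_mul_index hCT, hrel]
    exact dvd_mul_right 2 _
  exact (Nat.not_even_iff_odd.2 hodd) (even_iff_two_dvd.2 h2C)

/-- Let x be an element of the finite group G that is conjugate to its inverse. Then some 2-element conjugates x to its inverse; if the conjugacy class of x has odd size then x ^ 2 = 1; and x lies in, and is conjugate to its inverse inside, every normal subgroup of odd index. -/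
theorem result {G : Type*} [Group G] [Finite G] (x : G) (hx : IsConj x x⁻¹) : (∃ t : G, (∃ j : ℕ, orderOf t = 2 ^ j) ∧ t * x * t⁻¹ = x⁻¹) ∧ (Odd (Subgroup.centralizer ({x} : Set G)).index → x ^ 2 = 1) ∧ ∀ (N : Subgroup G) [N.Normal], Odd N.index → ∃ hxN : x ∈ N, IsConj (⟨x, hxN⟩ : N) (⟨x, hxN⟩ : N)⁻¹ := by
  refine ⟨two_elt_conj x hx, odd_index_sq x hx, ?_⟩
  intro N hN hodd
  obtain ⟨t, ⟨j, hj⟩, ht⟩ := two_elt_conj x hx
  have hcardodd : Odd (Nat.card (G ⧸ N)) := by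
    rw [← Subgroup.index_eq_card]
    exact hodd
  have key : ∀ g : G, g ^ 2 ^ j = 1 → g ∈ N := by
    intro g hg
    rw [← QuotientGroup.eq_one_iff, ← orderOf_eq_one_iff]
    have h1 : orderOf (g : G ⧸ N) ∣ 2 ^ j := by
      apply orderOf_dvd_of_pow_eq_one
      rw [← QuotientGroup.mk_pow, hg]
      rfl
    have h2 : orderOf (g : G ⧸ N) ∣ Nat.card (G ⧸ N) := orderOf_dvd_natCard _
    have h3 : Nat.Coprime (2 ^ j) (Nat.card (G ⧸ N)) :=
      Nat.Coprime.pow_left j (Nat.coprime_two_left.mpr hcardodd)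
    exact Nat.eq_one_of_dvd_coprimes h3 h1 h2
  have htN : t ∈ N := key t (by rw [← hj]; exact pow_orderOf_eq_one t)
  have hx2 : x ^ 2 ∈ N := by
    have e : x ^ 2 = x * t * x⁻¹ * t⁻¹ := by
      have e1 : x * t * x⁻¹ * t⁻¹ = x * (t * x * t⁻¹)⁻¹ := by group
      rw [e1, ht, inv_inv, pow_two]
    rw [e]
    exact N.mul_mem (hN.conj_mem t htN x) (N.inv_mem htN)
  have hxN : x ∈ N := by
    rw [← QuotientGroup.eq_one_iff, ← orderOf_eq_one_iff]
    have h1 : orderOf (x : G ⧸ N) ∣ 2 := by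
      apply orderOf_dvd_of_pow_eq_one
      rw [← QuotientGroup.mk_pow]
      exact (QuotientGroup.eq_one_iff _).2 hx2
    have h2 : orderOf (x : G ⧸ N) ∣ Nat.card (G ⧸ N) := orderOf_dvd_natCard _
    have h3 : Nat.Coprime 2 (Nat.card (G ⧸ N)) := Nat.coprime_two_left.mpr hcardodd
    exact Nat.eq_one_of_dvd_coprimes h3 h1 h2
  refine ⟨hxN, ?_⟩
  rw [isConj_iff]
  refine ⟨⟨t, htN⟩, ?_⟩
  apply Subtype.ext
  exact ht

end Cfsg.Agent.S3863
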