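import Cfsg.Statements.S3866
import Mathlib

set_option autoImplicit false
open Cfsg

namespace Cfsg.Agent.S3866

/-- Let A be a commutative normal subgroup of the finite group G with G generated by A and an element x. Then a ↦ x a x⁻¹ a⁻¹ is a surjective homomorphism from A onto the commutator subgroup of G whose kernel is the centralizer of x in A; in particular the commutator subgroup has order equal to the index in A of that centralizer. -/
theorem result {G : Type*} [Group G] [Finite G] (A : Subgroup G) [A.Normal] (hA : IsMulCommutative A) (x : G) (hgen : A ⊔ Subgroup.zpowers x = ⊤) : (∀ a ∈ A, x * a * x⁻¹ * a⁻¹ ∈ commutator G) ∧ (∀ c ∈ commutator G, ∃ a ∈ A, x * a * x⁻¹ * a⁻¹ = c) ∧ (∀ a ∈ A, ∀ b ∈ A, x * (a * b) * x⁻¹ * (a * b)⁻¹ = (x * a * x⁻¹ * a⁻¹) * (x * b * x⁻¹ * b⁻¹)) ∧ Nat.card (commutator G) * Nat.card ↥(A ⊓ Subgroup.centralizer ({x} : Set G)) = Nat.card A := by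
  have hAn : A.Normal := inferInstance
  have hcomA : ∀ a ∈ A, ∀ b ∈ A, a * b = b * a := by
    intro a ha b hb
    exact congrArg Subtype.val (hA.is_comm.comm (⟨a, ha⟩ : A) ⟨b, hb⟩)
  have hmemA : ∀ a ∈ A, x * a * x⁻¹ * a⁻¹ ∈ A := by
    intro a ha
    exact A.mul_mem (hAn.conj_mem a ha x) (A.inv_mem ha)
  have hhom : ∀ a ∈ A, ∀ b ∈ A, x * (a * b) * x⁻¹ * (a * b)⁻¹ =
      (x * a * x⁻¹ * a⁻¹) * (x * b * x⁻¹ * b⁻¹) := by
    intro a ha b hb
    have h1 := hcomA a⁻¹ (A.inv_mem ha) (x * b * x⁻¹ * b⁻¹) (hmemA b hb)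
    calc x * (a * b) * x⁻¹ * (a * b)⁻¹
        = (x * a * x⁻¹) * ((x * b * x⁻¹ * b⁻¹) * a⁻¹) := by group
      _ = (x * a * x⁻¹) * (a⁻¹ * (x * b * x⁻¹ * b⁻¹)) := by rw [h1]
      _ = (x * a * x⁻¹ * a⁻¹) * (x * b * x⁻¹ * b⁻¹) := by group
  have h1 : ∀ a ∈ A, x * a * x⁻¹ * a⁻¹ ∈ commutator G := by
    intro a _
    have h0 := Subgroup.commutator_mem_commutator (Subgroup.mem_top x) (Subgroup.mem_top a)
    rw [commutatorElement_def] at h0
    rw [commutator_def]
    exact h0
  obtain ⟨φ, hφ⟩ : ∃ φ : A →* A, ∀ a : A, ((φ a : A) : G) = x * a * x⁻¹ * (a : G)⁻¹ :=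
    ⟨MonoidHom.mk' (fun a => ⟨x * a * x⁻¹ * (a : G)⁻¹, hmemA a a.2⟩) (by
      intro a b
      apply Subtype.ext
      exact hhom a a.2 b b.2), fun a => rfl⟩
  obtain ⟨D, hD⟩ : ∃ D : Subgroup G, D = φ.range.map A.subtype := ⟨_, rfl⟩
  have hDmem : ∀ d : G, d ∈ D ↔ ∃ a ∈ A, x * a * x⁻¹ * a⁻¹ = d := by
    intro d
    rw [hD]
    constructor
    · rintro ⟨_, ⟨a, rfl⟩, rfl⟩
      exact ⟨a, a.2, (hφ a).symm⟩
    · rintro ⟨a, ha, rfl⟩
      exact ⟨φ ⟨a, ha⟩, ⟨⟨a, ha⟩, rfl⟩, hφ ⟨a, ha⟩⟩
  have hDA : D ≤ A := by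
    intro d hd
    obtain ⟨a, ha, rfl⟩ := (hDmem d).1 hd
    exact hmemA a ha
  have hDnormal : D.Normal := by
    rw [← Subgroup.normalizer_eq_top_iff, eq_top_iff, ← hgen]
    apply sup_le
    · intro a ha
      apply Subgroup.mem_normalizer_fintype
      intro d hd
      have hd' : d ∈ D := hd
      have e : a * d * a⁻¹ = d := by
        rw [hcomA a ha d (hDA hd'), mul_inv_cancel_right]
      rw [e]
      exact hd
    · rw [Subgroup.zpowers_le]
      apply Subgroup.mem_normalizer_fintype
      intro d hd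
      have hd' : d ∈ D := hd
      obtain ⟨a, ha, rfl⟩ := (hDmem d).1 hd'
      show x * (x * a * x⁻¹ * a⁻¹) * x⁻¹ ∈ D
      rw [hDmem]
      exact ⟨x * a * x⁻¹, hAn.conj_mem a ha x, by group⟩
  have hGen : Subgroup.closure ((A : Set G) ∪ {x}) = ⊤ := by
    rw [Subgroup.closure_union, Subgroup.closure_eq, ← Subgroup.zpowers_eq_closure, hgen]
  have hcommQ : ∀ g h : G, (QuotientGroup.mk' D g) * (QuotientGroup.mk' D h) =
      (QuotientGroup.mk' D h) * (QuotientGroup.mk' D g) := by
    have hxa : ∀ a ∈ A, (QuotientGroup.mk' D x) * (QuotientGroup.mk' D a) =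
        (QuotientGroup.mk' D a) * (QuotientGroup.mk' D x) := by
      intro a ha
      rw [← map_mul, ← map_mul]
      have hd : x * a * x⁻¹ * a⁻¹ ∈ D := (hDmem _).2 ⟨a, ha, rfl⟩
      have e : x * a = (x * a * x⁻¹ * a⁻¹) * (a * x) := by group
      have hd1 : (QuotientGroup.mk' D) (x * a * x⁻¹ * a⁻¹) = 1 := (QuotientGroup.eq_one_iff _).2 hd
      rw [e, map_mul, hd1, one_mul]
    have hgg : ∀ g ∈ ((A : Set G) ∪ {x}), ∀ h ∈ ((A : Set G) ∪ {x}),
        (QuotientGroup.mk' D g) * (QuotientGroup.mk' D h) =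
        (QuotientGroup.mk' D h) * (QuotientGroup.mk' D g) := by
      rintro g (hg | hg) h (hh | hh)
      · rw [← map_mul, ← map_mul, hcomA g hg h hh]
      · rw [Set.mem_singleton_iff] at hh
        rw [hh]
        exact (hxa g hg).symm
      · rw [Set.mem_singleton_iff] at hg
        rw [hg]
        exact hxa h hh
      · rw [Set.mem_singleton_iff] at hg hh
        rw [hg, hh]
    have hZ1 : ∀ g : G, ∀ h ∈ ((A : Set G) ∪ {x}),
        (QuotientGroup.mk' D g) * (QuotientGroup.mk' D h) =
        (QuotientGroup.mk' D h) * (QuotientGroup.mk' D g) := by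
      intro g
      have hg : g ∈ Subgroup.closure ((A : Set G) ∪ {x}) := by rw [hGen]; exact Subgroup.mem_top g
      induction hg using Subgroup.closure_induction with
      | mem y hy => exact hgg y hy
      | one => intro h _; rw [map_one, one_mul, mul_one]
      | mul a b _ _ iha ihb =>
        intro h hh
        rw [map_mul]
        exact (Commute.mul_left (show Commute _ _ from iha h hh)
          (show Commute _ _ from ihb h hh)).eq
      | inv a _ iha =>
        intro h hh
        rw [map_inv]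
        exact (Commute.inv_left (show Commute _ _ from iha h hh)).eq
    intro g h
    have hh : h ∈ Subgroup.closure ((A : Set G) ∪ {x}) := by rw [hGen]; exact Subgroup.mem_top h
    induction hh using Subgroup.closure_induction with
    | mem y hy => exact hZ1 g y hy
    | one => rw [map_one, one_mul, mul_one]
    | mul a b _ _ iha ihb =>
      rw [map_mul]
      exact (Commute.mul_right (show Commute _ _ from iha) (show Commute _ _ from ihb)).eq
    | inv a _ iha =>
      rw [map_inv]
      exact (Commute.inv_right (show Commute _ _ from iha)).eq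
  have hle : commutator G ≤ D := by
    rw [commutator_def, Subgroup.commutator_le]
    intro g _ h _
    rw [← QuotientGroup.eq_one_iff, ← QuotientGroup.mk'_apply, map_commutatorElement,
      commutatorElement_eq_one_iff_commute]
    exact hcommQ g h
  have hDeq : commutator G = D := by
    apply le_antisymm hle
    intro d hd
    obtain ⟨a, ha, rfl⟩ := (hDmem d).1 hd
    exact h1 a ha
  refine ⟨h1, ?_, hhom, ?_⟩
  · intro c hc
    exact (hDmem c).1 (hle hc)
  · have hker : φ.ker.map A.subtype = A ⊓ Subgroup.centralizer ({x} : Set G) := by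
      ext y
      constructor
      · rintro ⟨a, ha, rfl⟩
        refine Subgroup.mem_inf.2 ⟨a.2, ?_⟩
        rw [Subgroup.mem_centralizer_iff]
        intro z hz
        rw [Set.mem_singleton_iff] at hz
        rw [hz]
        have h0 : ((φ a : A) : G) = 1 := by
          have h00 : φ a = 1 := ha
          rw [h00]; rfl
        rw [hφ] at h0
        show x * (a : G) = (a : G) * x
        calc x * (a : G) = (x * a * x⁻¹ * (a : G)⁻¹) * (a * x) := by group
          _ = (a : G) * x := by rw [h0, one_mul]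
      · intro hy
        obtain ⟨hyA, hyC⟩ := Subgroup.mem_inf.1 hy
        refine ⟨⟨y, hyA⟩, ?_, rfl⟩
        show φ ⟨y, hyA⟩ = 1
        apply Subtype.ext
        rw [hφ]
        rw [Subgroup.mem_centralizer_iff] at hyC
        have h0 := hyC x rfl
        show x * y * x⁻¹ * y⁻¹ = 1
        rw [h0]
        group
    rw [hDeq, hD, Subgroup.card_subtype, ← hker, Subgroup.card_subtype, ← Subgroup.index_ker,
      mul_comm]
    exact Subgroup.card_mul_index φ.ker

end Cfsg.Agent.S3866
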