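import Cfsg.Statements.S3879

import Mathlib
import Cfsg.Agent.Lib.Helper7.Meta

set_option autoImplicit false
open Cfsg
open scoped Pointwise

namespace Cfsg.Agent.S3879

open Subgroup Cfsg.Agent.Lib.Helper7.Meta

theorem result {G : Type*} [Group G] [Finite G] {p : ℕ} [Fact p.Prime] (hp : p ≠ 2) (hG : IsPGroup p G) (hmc : Cfsg.IsMetacyclic G) : (Subgroup.center G).index = Nat.card ↥(commutator G) ^ 2 := by
  have hpp : p.Prime := Fact.out
  obtain ⟨a, b, α, r, D⟩ := exists_data hG hmc
  have hr2 := D.hr2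
  have hr1 : r - 1 ≠ 0 := by omega
  obtain ⟨k, hk⟩ := hG (a ^ (r - 1))
  obtain ⟨n, _, hn⟩ := (Nat.dvd_prime_pow hpp).mp (orderOf_dvd_of_pow_eq_one hk)
  have hnα : n ≤ α := by
    have h1 : orderOf (a ^ (r - 1)) ∣ orderOf a := orderOf_pow_dvd (r - 1)
    rw [hn, D.ha] at h1
    exact (Nat.pow_dvd_pow_iff_le_right hpp.one_lt).mp h1
  have hG' : Nat.card (commutator G) = p ^ n := by
    rw [D.commutator_eq, Nat.card_zpowers, hn]
  have hdpow : ∀ x : ℕ, (a ^ (r - 1)) ^ x = 1 ↔ p ^ α ∣ (r - 1) * x := by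
    intro x; rw [← pow_mul, D.pow_eq_one_iff]
  have hZN : zpowers a ⊓ center G = zpowers (a ^ (p ^ n)) := by
    apply le_antisymm
    · rintro x ⟨hxa, hxz⟩
      obtain ⟨t, ht⟩ := mem_zpowers_iff.mp hxa
      obtain ⟨i, hi⟩ := nat_pow_of_zpow a t
      rw [ht] at hi
      have hxz' : x ∈ center G := hxz
      have h1 : b * x = x * b := (mem_center_iff.mp hxz' b)
      have h2 : b ^ 1 * a ^ i * (b ^ 1)⁻¹ = a ^ i := by
        rw [pow_one, hi, h1]; group
      rw [D.conj_pow' 1 i, pow_one, D.pow_eq_pow_iff] at h2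
      have h3 : p ^ α ∣ (r - 1) * i := by
        have h0 := (Nat.modEq_iff_dvd' (show i ≤ i * r by nlinarith)).mp h2.symm
        have e : i * r - i = (r - 1) * i := by
          rw [Nat.sub_mul, one_mul, mul_comm]
        rwa [e] at h0
      have h4 := (hdpow i).mpr h3
      have h5 : p ^ n ∣ i := by rw [← hn]; exact orderOf_dvd_of_pow_eq_one h4
      obtain ⟨c, rfl⟩ := h5
      rw [← hi, pow_mul]
      exact pow_mem (mem_zpowers _) c
    · rw [zpowers_le]
      refine ⟨pow_mem (mem_zpowers a) _, ?_⟩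
      apply D.mem_center
      · exact ((Commute.refl a).pow_right _).eq
      · have h1 : b ^ 1 * a ^ (p ^ n) * (b ^ 1)⁻¹ = a ^ (p ^ n) := by
          rw [D.conj_pow' 1, pow_one, D.pow_eq_pow_iff]
          have h2 : p ^ α ∣ (r - 1) * p ^ n :=
            (hdpow (p ^ n)).mp (by rw [← hn]; exact pow_orderOf_eq_one _)
          have h3 : p ^ n ≤ p ^ n * r := by nlinarith
          apply Nat.ModEq.symm
          rw [Nat.modEq_iff_dvd' h3]
          have e : p ^ n * r - p ^ n = (r - 1) * p ^ n := by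
            rw [Nat.sub_mul, one_mul, mul_comm]
          rw [e]; exact h2
        rw [pow_one] at h1
        calc b * a ^ (p ^ n) = (b * a ^ (p ^ n) * b⁻¹) * b := by group
          _ = a ^ (p ^ n) * b := by rw [h1]
  have hZNcard : Nat.card (zpowers a ⊓ center G : Subgroup G) = p ^ (α - n) := by
    rw [hZN, Nat.card_zpowers, orderOf_pow_of_dvd (pow_ne_zero _ hpp.ne_zero)
      (by rw [D.ha]; exact pow_dvd_pow p hnα), D.ha, Nat.pow_div hnα hpp.pos]
  haveI := D.normal
  have hCeq := D.centralizer_eq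
  have hCcard : Nat.card (centralizer ((zpowers a : Subgroup G) : Set G)) * p ^ (α - n)
      = p ^ α * Nat.card (center G) := by
    have h1 := Cfsg.Agent.S0003.card_sup_mul_card_inf (zpowers a) (center G)
    rw [hZNcard, Nat.card_zpowers, D.ha, ← hCeq] at h1
    exact h1
  have hidxC : (centralizer ((zpowers a : Subgroup G) : Set G)).index = p ^ n := by
    rw [Subgroup.index_eq_card]
    have hgenQ : ∀ q : G ⧸ centralizer ((zpowers a : Subgroup G) : Set G),
        q ∈ zpowers (QuotientGroup.mk b : G ⧸ centralizer ((zpowers a : Subgroup G) : Set G)) := by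
      intro q
      obtain ⟨g, rfl⟩ := QuotientGroup.mk_surjective q
      obtain ⟨j, i, rfl⟩ := D.hgen g
      have h1 : (QuotientGroup.mk (a ^ i) : G ⧸ centralizer ((zpowers a : Subgroup G) : Set G)) = 1 := by
        rw [QuotientGroup.eq_one_iff, D.mem_centralizer]
        exact ((Commute.refl a).pow_left i).eq
      rw [QuotientGroup.mk_mul, h1, mul_one, QuotientGroup.mk_pow]
      exact pow_mem (mem_zpowers _) j
    rw [← orderOf_eq_card_of_forall_mem_zpowers hgenQ]
    have hpow : ∀ j : ℕ, (QuotientGroup.mk b : G ⧸ centralizer ((zpowers a : Subgroup G) : Set G)) ^ j = 1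
        ↔ p ^ α ∣ r ^ j - 1 := by
      intro j
      rw [← QuotientGroup.mk_pow, QuotientGroup.eq_one_iff, D.mem_centralizer, D.comm_iff]
    rcases Nat.eq_zero_or_pos n with hn0 | hnpos
    · rw [hn0, pow_zero] at hn ⊢
      rw [orderOf_eq_one_iff]
      have h1 : a ^ (r - 1) = 1 := orderOf_eq_one_iff.mp hn
      have h2 := (D.pow_eq_one_iff (r - 1)).mp h1
      have h3 := (hpow 1).mpr (by rwa [pow_one])
      rwa [pow_one] at h3
    · obtain ⟨m, rfl⟩ : ∃ m, n = m + 1 := ⟨n - 1, by omega⟩
      have hα1 : 1 ≤ α := by omega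
      have hpr := D.p_dvd hG hα1
      have hval : ∀ j : ℕ, padicValNat p (r ^ p ^ j - 1) = padicValNat p (r - 1) + j := by
        intro j
        rw [D.val hp hpr (p ^ j) (pow_ne_zero _ hpp.ne_zero), padicValNat.prime_pow]
      have hne : ∀ j : ℕ, r ^ p ^ j - 1 ≠ 0 := by
        intro j
        have h0 : 2 ≤ r ^ p ^ j := by
          calc 2 ≤ r := hr2
            _ = r ^ 1 := (pow_one r).symm
            _ ≤ r ^ p ^ j := Nat.pow_le_pow_right (by omega) (Nat.one_le_pow _ _ hpp.pos)
        omega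
      have h1 : p ^ α ∣ (r - 1) * p ^ (m + 1) :=
        (hdpow _).mp (by rw [← hn]; exact pow_orderOf_eq_one _)
      have h2 : ¬ p ^ α ∣ (r - 1) * p ^ m := by
        intro h
        have h3 := (hdpow _).mpr h
        have h4 := orderOf_dvd_of_pow_eq_one h3
        rw [hn] at h4
        have h5 := (Nat.pow_dvd_pow_iff_le_right hpp.one_lt).mp h4
        omega
      have hmul : ∀ j : ℕ, padicValNat p ((r - 1) * p ^ j) = padicValNat p (r - 1) + j := by
        intro j
        rw [padicValNat.mul hr1 (pow_ne_zero _ hpp.ne_zero), padicValNat.prime_pow]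
      have hmne : ∀ j : ℕ, (r - 1) * p ^ j ≠ 0 :=
        fun j => mul_ne_zero hr1 (pow_ne_zero _ hpp.ne_zero)
      rw [padicValNat_dvd_iff_le (hmne _), hmul] at h1 h2
      apply orderOf_eq_prime_pow
      · rw [hpow, padicValNat_dvd_iff_le (hne _), hval]; exact h2
      · rw [hpow, padicValNat_dvd_iff_le (hne _), hval]; exact h1
  have h1 := Subgroup.card_mul_index (centralizer ((zpowers a : Subgroup G) : Set G))
  rw [hidxC] at h1
  have h2 := Subgroup.card_mul_index (center G)
  have h3 : p ^ α = p ^ n * p ^ (α - n) := by rw [← pow_add]; congr 1; omega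
  have hpos : 0 < p ^ (α - n) := pos_of_ne_zero (pow_ne_zero _ hpp.ne_zero)
  have h4 : Nat.card (centralizer ((zpowers a : Subgroup G) : Set G)) = p ^ n * Nat.card (center G) := by
    apply Nat.eq_of_mul_eq_mul_right hpos
    rw [hCcard, h3]; ring
  rw [hG']
  have hZpos : 0 < Nat.card (center G) := Nat.card_pos
  apply Nat.eq_of_mul_eq_mul_left hZpos
  rw [h2, ← h1, h4]; ring

end Cfsg.Agent.S3879
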