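import Cfsg.Statements.S3880

import Mathlib
import Cfsg.Agent.Lib.Helper7.Meta

set_option autoImplicit false
open Cfsg
open scoped Pointwise

namespace Cfsg.Agent.S3880

open Subgroup Cfsg.Agent.Lib.Helper7.Meta

theorem comm_ba {G : Type*} [Group G] [Finite G] {p : ℕ} [Fact p.Prime] (hp : p ≠ 2)
    (hG : IsPGroup p G) {a b : G} {α r : ℕ} (D : Data p a b α r) (n : ℕ)
    (hn : orderOf (a ^ (r - 1)) = p ^ n) (k j : ℕ) (hk : k ≠ 0) (hj : j ≠ 0) :
    Commute (b ^ j) (a ^ k) ↔ n ≤ padicValNat p k + padicValNat p j := by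
  rw [← D.key hp hG n hn k j hk hj]
  have h1 : Commute (b ^ j) (a ^ k) ↔ b ^ j * a ^ k * (b ^ j)⁻¹ = a ^ k := by
    constructor
    · intro h; rw [h.eq]; group
    · intro h
      show b ^ j * a ^ k = a ^ k * b ^ j
      calc b ^ j * a ^ k = (b ^ j * a ^ k * (b ^ j)⁻¹) * b ^ j := by group
        _ = a ^ k * b ^ j := by rw [h]
  rw [h1, D.conj_pow' j k, D.pow_eq_pow_iff, Nat.ModEq.comm,
    Nat.modEq_iff_dvd' (Nat.le_mul_of_pos_right k (D.one_le_pow j)), ← Nat.mul_sub_one]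

theorem abel_iff {G : Type*} [Group G] [Finite G] {p : ℕ} [Fact p.Prime] (hp : p ≠ 2)
    (hG : IsPGroup p G) {a b : G} {α r : ℕ} (D : Data p a b α r) (n : ℕ)
    (hn : orderOf (a ^ (r - 1)) = p ^ n)
    (L : Subgroup G) (u w i : ℕ)
    (hamem : ∀ m : ℕ, a ^ m ∈ L ↔ p ^ u ∣ m) (hx : b ^ (p ^ w) * a ^ i ∈ L)
    (hform : ∀ y ∈ L, ∃ t c : ℕ, y = (b ^ (p ^ w) * a ^ i) ^ t * a ^ (p ^ u * c)) :
    (∀ y ∈ L, ∀ y' ∈ L, y * y' = y' * y) ↔ n ≤ u + w := by
  have hpp : p.Prime := Fact.out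
  have hcomm := comm_ba hp hG D n hn (p ^ u) (p ^ w) (pow_ne_zero _ hpp.ne_zero)
    (pow_ne_zero _ hpp.ne_zero)
  rw [padicValNat.prime_pow, padicValNat.prime_pow] at hcomm
  rw [← hcomm]
  constructor
  · intro h
    have h1 := h _ hx _ ((hamem (p ^ u)).mpr dvd_rfl)
    have hc1 : Commute (b ^ (p ^ w) * a ^ i) (a ^ (p ^ u)) := h1
    have hc2 : Commute (a ^ i) (a ^ (p ^ u)) := (Commute.refl a).pow_pow _ _
    have h0 := hc1.mul_left hc2.inv_left
    rwa [mul_inv_cancel_right] at h0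
  · intro h y hy y' hy'
    obtain ⟨t, c, rfl⟩ := hform y hy
    obtain ⟨t', c', rfl⟩ := hform y' hy'
    have hcx : Commute (b ^ (p ^ w) * a ^ i) (a ^ (p ^ u)) :=
      h.mul_left ((Commute.refl a).pow_pow _ _)
    rw [pow_mul, pow_mul]
    exact (((Commute.refl _).pow_pow t t').mul_right (hcx.pow_pow t c')).mul_left
      ((hcx.symm.pow_pow c t').mul_right ((Commute.refl _).pow_pow c c'))

theorem index_eq {G : Type*} [Group G] [Finite G] {p : ℕ} [Fact p.Prime]
    {a b : G} {α r : ℕ} (D : Data p a b α r) (n : ℕ)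
    (hn : orderOf (a ^ (r - 1)) = p ^ n) (β : ℕ) (hcard : Nat.card G = p ^ (α + β)) :
    (commutator G).index = p ^ (α + β - n) := by
  have hpp : p.Prime := Fact.out
  have hnα := D.n_le n hn
  have h1 := (commutator G).card_mul_index
  rw [D.commutator_eq, Nat.card_zpowers, hn, hcard] at h1
  have h2 : p ^ (α + β) = p ^ n * p ^ (α + β - n) := by
    rw [← pow_add]; congr 1; omega
  rw [h2] at h1
  rw [D.commutator_eq]
  exact Nat.eq_of_mul_eq_mul_left (pow_pos hpp.pos n) h1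

theorem comm_iff_el {G : Type*} [Group G] (L : Subgroup G) :
    IsMulCommutative ↥L ↔ (∀ y ∈ L, ∀ y' ∈ L, y * y' = y' * y) := by
  constructor
  · intro h y hy y' hy'
    have := h.is_comm.comm ⟨y, hy⟩ ⟨y', hy'⟩
    exact congrArg Subtype.val this
  · intro h
    exact ⟨⟨fun x y => Subtype.ext (h x x.2 y y.2)⟩⟩

theorem part1 {G : Type*} [Group G] [Finite G] {p : ℕ} [Fact p.Prime] (hp : p ≠ 2)
    (hG : IsPGroup p G) {a b : G} {α r : ℕ} (D : Data p a b α r) (n : ℕ)
    (hn : orderOf (a ^ (r - 1)) = p ^ n) (β : ℕ) (hcard : Nat.card G = p ^ (α + β))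
    (hβ : ∀ m : ℕ, (b ^ m ∈ zpowers a ↔ p ^ β ∣ m)) (L : Subgroup G) :
    IsMulCommutative ↥L ↔ Nat.card ↥L ≤ (commutator G).index := by
  have hpp : p.Prime := Fact.out
  have hnα := D.n_le n hn
  rw [index_eq D n hn β hcard]
  obtain ⟨u, w, i, hu, hw, hcL, hamem, hx, hform, -⟩ := D.sub_struct β hβ L
  rw [hcL, Nat.pow_le_pow_iff_right hpp.one_lt]
  have h1 := abel_iff hp hG D n hn L u w i hamem hx hform
  rw [comm_iff_el, h1]
  omega

theorem result {G : Type*} [Group G] [Finite G] {p : ℕ} [Fact p.Prime] (hp : p ≠ 2) (hG : IsPGroup p G) (hmc : Cfsg.IsMetacyclic G) (L : Subgroup G) :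
    (IsMulCommutative ↥L ↔ Nat.card ↥L ≤ (commutator G).index) ∧
      (Maximal (fun K : Subgroup G => IsMulCommutative ↥K) L ↔ Nat.card ↥L = (commutator G).index) := by
  have hpp : p.Prime := Fact.out
  obtain ⟨a, b, α, r, D⟩ := exists_data hG hmc
  have hdv : orderOf (a ^ (r - 1)) ∣ p ^ α := by
    rw [← D.ha]; exact orderOf_pow_dvd (r - 1)
  obtain ⟨n, -, hn⟩ := (Nat.dvd_prime_pow hpp).mp hdv
  obtain ⟨β, hcard, hβ⟩ := D.beta hG
  have hnα := D.n_le n hn
  have hP1 := part1 hp hG D n hn β hcard hβ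
  refine ⟨hP1 L, ?_⟩
  have hidx := index_eq D n hn β hcard
  constructor
  · intro hmax
    obtain ⟨u, w, i, hu, hw, hcL, hamem, hx, hform, hbm⟩ := D.sub_struct β hβ L
    have hab := abel_iff hp hG D n hn L u w i hamem hx hform
    have hLel : ∀ y ∈ L, ∀ y' ∈ L, y * y' = y' * y := (comm_iff_el L).mp hmax.1
    have hnuw := hab.mp hLel
    rw [hidx, hcL]
    congr 1
    by_contra hne
    have hlt : n < u + w := by omega
    have hz : ∃ z : G, z ∉ L ∧ ∀ y ∈ L, y * z = z * y := by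
      rcases Nat.eq_zero_or_pos u with hu0 | hupos
      · have hw1 : 1 ≤ w := by omega
        refine ⟨b ^ (p ^ (w - 1)), ?_, ?_⟩
        · intro hmem
          have h1 := hbm (p ^ (w - 1)) 0 (by simpa using hmem)
          have h2 := (Nat.pow_dvd_pow_iff_le_right hpp.one_lt).mp h1
          omega
        · have hc := (comm_ba hp hG D n hn 1 (p ^ (w - 1)) one_ne_zero
            (pow_ne_zero _ hpp.ne_zero)).mpr
              (by rw [padicValNat.prime_pow, padicValNat.one]; omega)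
          rw [pow_one] at hc
          intro y hy
          obtain ⟨t, c, rfl⟩ := hform y hy
          have hc1 : Commute (b ^ (p ^ w) * a ^ i) (b ^ (p ^ (w - 1))) :=
            (((Commute.refl b).pow_pow _ _).mul_left (hc.symm.pow_left i))
          exact ((hc1.pow_left t).mul_left (hc.symm.pow_left _))
      · refine ⟨a ^ (p ^ (u - 1)), ?_, ?_⟩
        · intro hmem
          have h1 := (hamem _).mp hmem
          have h2 := (Nat.pow_dvd_pow_iff_le_right hpp.one_lt).mp h1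
          omega
        · have hc := (comm_ba hp hG D n hn (p ^ (u - 1)) (p ^ w) (pow_ne_zero _ hpp.ne_zero)
            (pow_ne_zero _ hpp.ne_zero)).mpr
              (by rw [padicValNat.prime_pow, padicValNat.prime_pow]; omega)
          intro y hy
          obtain ⟨t, c, rfl⟩ := hform y hy
          have hc1 : Commute (b ^ (p ^ w) * a ^ i) (a ^ (p ^ (u - 1))) :=
            hc.mul_left ((Commute.refl a).pow_pow _ _)
          exact ((hc1.pow_left t).mul_left ((Commute.refl a).pow_pow _ _))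
    obtain ⟨z, hzL, hzc⟩ := hz
    have hsup := comm_sup L hLel z hzc
    have hK : IsMulCommutative ↥(L ⊔ zpowers z) := (comm_iff_el _).mpr hsup
    have hle := hmax.2 hK le_sup_left
    exact hzL (hle ((le_sup_right : zpowers z ≤ L ⊔ zpowers z) (mem_zpowers z)))
  · intro hcL
    refine ⟨(hP1 L).mpr hcL.le, ?_⟩
    intro K hK hLK
    have h1 := (hP1 K).mp hK
    exact (Subgroup.eq_of_le_of_card_ge hLK (by rw [hcL]; exact h1)).ge

end Cfsg.Agent.S3880
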