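import Cfsg.Statements.S3882

import Mathlib
import Cfsg.Agent.Lib.Helper7.Meta

set_option autoImplicit false
open Cfsg
open scoped Pointwise

namespace Cfsg.Agent.S3882

open Subgroup Cfsg.Agent.Lib.Helper7.Meta
open scoped commutatorElement

theorem main1 {G : Type*} [Group G] [Finite G] {p : ℕ} [Fact p.Prime] (hp : p ≠ 2) (hG : IsPGroup p G)
    (hmc : Cfsg.IsMetacyclic G) (n : ℕ) (hGn : Nat.card ↥(commutator G) = p ^ n) (s : ℕ) (hs : s ≤ n)
    (g : G) :
    g ∈ Subgroup.closure {x : G | ∃ y : G, y ^ p ^ s = x} ↔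
      (Subgroup.centralizer ({g} : Set G)).index ≤ p ^ (n - s) := by
  have hpp : p.Prime := Fact.out
  obtain ⟨a, b, α, r, D⟩ := exists_data hG hmc
  have hr2 := D.hr2
  have hr1 : r - 1 ≠ 0 := by omega
  have hn : orderOf (a ^ (r - 1)) = p ^ n := by
    rw [← Nat.card_zpowers, ← D.commutator_eq, hGn]
  constructor
  · intro hg
    have hds : (a ^ (r - 1)) ^ (p ^ s) = a ^ ((r - 1) * p ^ s) := by rw [← pow_mul]
    haveI hDn : (zpowers ((a ^ (r - 1)) ^ (p ^ s))).Normal := by
      rw [hds]; exact D.pow_normal _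
    have hW : ∀ y x : G, x * y ^ (p ^ s) * x⁻¹ * (y ^ (p ^ s))⁻¹
        ∈ zpowers ((a ^ (r - 1)) ^ (p ^ s)) := by
      intro y x
      obtain ⟨j, i, rfl⟩ := D.hgen y
      have hc : x * (b ^ j * a ^ i) * x⁻¹ * (b ^ j * a ^ i)⁻¹ ∈ zpowers (a ^ (r - 1)) := by
        rw [← D.commutator_eq, _root_.commutator_def]
        have h8 := Subgroup.commutator_mem_commutator (Subgroup.mem_top x)
          (Subgroup.mem_top (b ^ j * a ^ i))
        rwa [commutatorElement_def] at h8
      obtain ⟨t, ht⟩ := mem_zpowers_iff.mp hc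
      obtain ⟨u, hu⟩ := nat_pow_of_zpow (a ^ (r - 1)) t
      rw [ht, ← pow_mul] at hu
      rw [D.comm_pow x j i ((r - 1) * u) (p ^ s) hu.symm]
      rcases Nat.eq_zero_or_pos α with hα0 | hαpos
      · have ha1 : a = 1 := by
          rw [← orderOf_eq_one_iff, D.ha, hα0, pow_zero]
        simp [ha1]
      · have hpr := D.p_dvd hG hαpos
        obtain ⟨c, hc⟩ := D.geom_dvd hp hpr j s
        rw [hc]
        have e : a ^ ((r - 1) * u * (p ^ s * c)) = ((a ^ (r - 1)) ^ (p ^ s)) ^ (u * c) := by
          rw [← pow_mul, ← pow_mul]; congr 1; ring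
        rw [e]; exact pow_mem (mem_zpowers _) _
    have hle : Subgroup.closure {x : G | ∃ y : G, y ^ p ^ s = x}
        ≤ (center (G ⧸ zpowers ((a ^ (r - 1)) ^ (p ^ s)))).comap
          (QuotientGroup.mk' (zpowers ((a ^ (r - 1)) ^ (p ^ s)))) := by
      rw [closure_le]
      rintro _ ⟨y, rfl⟩
      show QuotientGroup.mk' (zpowers ((a ^ (r - 1)) ^ (p ^ s))) (y ^ p ^ s)
        ∈ center (G ⧸ zpowers ((a ^ (r - 1)) ^ (p ^ s)))
      rw [mem_center_iff]
      intro q
      obtain ⟨x, rfl⟩ := QuotientGroup.mk'_surjective (zpowers ((a ^ (r - 1)) ^ (p ^ s))) q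
      have h1 := hW y x
      rw [← QuotientGroup.eq_one_iff (N := zpowers ((a ^ (r - 1)) ^ (p ^ s)))] at h1
      rw [QuotientGroup.mk_mul, QuotientGroup.mk_mul, QuotientGroup.mk_mul, QuotientGroup.mk_inv,
        QuotientGroup.mk_inv, mul_inv_eq_one, mul_inv_eq_iff_eq_mul] at h1
      exact h1
    have hgc : QuotientGroup.mk' (zpowers ((a ^ (r - 1)) ^ (p ^ s))) g
        ∈ center (G ⧸ zpowers ((a ^ (r - 1)) ^ (p ^ s))) := hle hg
    have hcomm : ∀ x : G, ⁅x, g⁆ ∈ zpowers ((a ^ (r - 1)) ^ (p ^ s)) := by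
      intro x
      rw [commutatorElement_def, ← QuotientGroup.eq_one_iff (N := zpowers ((a ^ (r - 1)) ^ (p ^ s)))]
      have h2 := mem_center_iff.mp hgc (QuotientGroup.mk x)
      rw [QuotientGroup.mk_mul, QuotientGroup.mk_mul, QuotientGroup.mk_mul, QuotientGroup.mk_inv,
        QuotientGroup.mk_inv, mul_inv_eq_one, mul_inv_eq_iff_eq_mul]
      exact h2
    have hmem : ∀ q : G ⧸ centralizer ({g} : Set G),
        (quotientCentralizerEmbedding g q : G) ∈ zpowers ((a ^ (r - 1)) ^ (p ^ s)) := by
      intro q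
      obtain ⟨x, rfl⟩ := QuotientGroup.mk_surjective q
      rw [quotientCentralizerEmbedding_apply]; exact hcomm x
    have hinj : Function.Injective (fun q : G ⧸ centralizer ({g} : Set G) =>
        (⟨(quotientCentralizerEmbedding g q : G), hmem q⟩ : zpowers ((a ^ (r - 1)) ^ (p ^ s)))) := by
      intro q q' h
      apply (quotientCentralizerEmbedding g).injective
      apply Subtype.ext
      have h' : (quotientCentralizerEmbedding g q : G) = (quotientCentralizerEmbedding g q' : G) := by
        simpa using h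
      exact h'
    have hcard := Nat.card_le_card_of_injective _ hinj
    rw [Subgroup.index_eq_card]
    calc Nat.card (G ⧸ centralizer ({g} : Set G))
        ≤ Nat.card (zpowers ((a ^ (r - 1)) ^ (p ^ s))) := hcard
      _ = p ^ (n - s) := by
        rw [Nat.card_zpowers, orderOf_pow_of_dvd (pow_ne_zero _ hpp.ne_zero)
          (by rw [hn]; exact pow_dvd_pow p hs), hn, Nat.pow_div hs hpp.pos]
  · intro hidx
    obtain ⟨j, i, rfl⟩ := D.hgen g
    have hidx0 : (centralizer ({b ^ j * a ^ i} : Set G)).index ≠ 0 := Subgroup.index_ne_zero_of_finite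
    have hval_le : ∀ m : ℕ, 0 < m → m ≤ p ^ (n - s) → padicValNat p m ≤ n - s := by
      intro m hm hmle
      have h1 : p ^ padicValNat p m ∣ m := pow_padicValNat_dvd
      have h2 := Nat.le_of_dvd hm h1
      exact (Nat.pow_le_pow_iff_right hpp.one_lt).mp (le_trans h2 hmle)
    have hj : p ^ s ∣ j := by
      rcases Nat.eq_zero_or_pos j with hj0 | hjpos
      · rw [hj0]; exact dvd_zero _
      · obtain ⟨m, hm0, hmle, hmem⟩ := Subgroup.exists_pow_mem_of_index_ne_zero hidx0 a
        rw [mem_centralizer_singleton_iff] at hmem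
        have hc1 : Commute (a ^ m) (b ^ j * a ^ i) := hmem
        have hc2 : Commute (a ^ m) (a ^ i) := (Commute.refl a).pow_pow m i
        have hc3 : Commute (a ^ m) (b ^ j) := by
          have h0 := hc1.mul_right hc2.inv_right
          rwa [mul_inv_cancel_right] at h0
        have h1 : b ^ j * a ^ m * (b ^ j)⁻¹ = a ^ m := by rw [← hc3.eq]; group
        rw [D.conj_pow' j m, D.pow_eq_pow_iff] at h1
        have h5 : p ^ α ∣ m * (r ^ j - 1) := by
          have h6 := (Nat.modEq_iff_dvd' (show m ≤ m * r ^ j from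
            Nat.le_mul_of_pos_right m (D.one_le_pow j))).mp h1.symm
          rwa [← Nat.mul_sub_one] at h6
        have h7 := (D.key hp hG n hn m j (by omega) (by omega)).mp h5
        have h8 := hval_le m hm0 (le_trans hmle hidx)
        have h9 : s ≤ padicValNat p j := by omega
        exact dvd_trans (pow_dvd_pow p h9) pow_padicValNat_dvd
    have hi : p ^ s ∣ i := by
      rcases Nat.eq_zero_or_pos i with hi0 | hipos
      · rw [hi0]; exact dvd_zero _
      · obtain ⟨m, hm0, hmle, hmem⟩ := Subgroup.exists_pow_mem_of_index_ne_zero hidx0 b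
        rw [mem_centralizer_singleton_iff] at hmem
        have hc1 : Commute (b ^ m) (b ^ j * a ^ i) := hmem
        have hc2 : Commute (b ^ m) (b ^ j) := (Commute.refl b).pow_pow m j
        have hc3 : Commute (b ^ m) (a ^ i) := by
          have h0 := hc2.inv_right.mul_right hc1
          rwa [inv_mul_cancel_left] at h0
        have h1 : b ^ m * a ^ i * (b ^ m)⁻¹ = a ^ i := by rw [hc3.eq]; group
        rw [D.conj_pow' m i, D.pow_eq_pow_iff] at h1
        have h5 : p ^ α ∣ i * (r ^ m - 1) := by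
          have h6 := (Nat.modEq_iff_dvd' (show i ≤ i * r ^ m from
            Nat.le_mul_of_pos_right i (D.one_le_pow m))).mp h1.symm
          rwa [← Nat.mul_sub_one] at h6
        have h7 := (D.key hp hG n hn i m (by omega) (by omega)).mp h5
        have h8 := hval_le m hm0 (le_trans hmle hidx)
        have h9 : s ≤ padicValNat p i := by omega
        exact dvd_trans (pow_dvd_pow p h9) pow_padicValNat_dvd
    obtain ⟨j', rfl⟩ := hj
    obtain ⟨i', rfl⟩ := hi
    apply Subgroup.mul_mem
    · apply Subgroup.subset_closure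
      exact ⟨b ^ j', by rw [← pow_mul, mul_comm]⟩
    · apply Subgroup.subset_closure
      exact ⟨a ^ i', by rw [← pow_mul, mul_comm]⟩

theorem result {G : Type*} [Group G] [Finite G] {p : ℕ} [Fact p.Prime] (hp : p ≠ 2) (hG : IsPGroup p G) (hmc : Cfsg.IsMetacyclic G) (n : ℕ) (hGn : Nat.card ↥(commutator G) = p ^ n) (s : ℕ) (hs : s ≤ n) (g : G) :
    (g ∈ Subgroup.closure {x : G | ∃ y : G, y ^ p ^ s = x} ↔ (Subgroup.centralizer ({g} : Set G)).index ≤ p ^ (n - s)) ∧
      Subgroup.closure {x : G | ∃ y : G, y ^ p ^ n = x} = Subgroup.center G := by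
  refine ⟨main1 hp hG hmc n hGn s hs g, ?_⟩
  ext x
  rw [main1 hp hG hmc n hGn n le_rfl x, Nat.sub_self, pow_zero]
  constructor
  · intro h
    have h0 : (Subgroup.centralizer ({x} : Set G)).index ≠ 0 := Subgroup.index_ne_zero_of_finite
    have h1 : (Subgroup.centralizer ({x} : Set G)).index = 1 := by omega
    rw [Subgroup.index_eq_one] at h1
    rw [Subgroup.mem_center_iff]
    intro y
    have hy : y ∈ Subgroup.centralizer ({x} : Set G) := by rw [h1]; trivial
    exact Subgroup.mem_centralizer_singleton_iff.mp hy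
  · intro h
    have h1 : Subgroup.centralizer ({x} : Set G) = ⊤ := by
      rw [eq_top_iff]
      intro y _
      rw [Subgroup.mem_centralizer_singleton_iff]
      exact (Subgroup.mem_center_iff.mp h y)
    rw [h1, Subgroup.index_top]

end Cfsg.Agent.S3882
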