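import Cfsg.Statements.S3881

import Mathlib
import Cfsg.Agent.Lib.Helper7.Meta
import Cfsg.Agent.S3879
import Cfsg.Agent.S3882

set_option autoImplicit false
open Cfsg
open scoped Pointwise

namespace Cfsg.Agent.S3881

open Subgroup Cfsg.Agent.Lib.Helper7.Meta

theorem dvd_of_index {G : Type*} [Group G] [Finite G] {p : ℕ} [Fact p.Prime] (hp : p ≠ 2)
    (hG : IsPGroup p G) {a b : G} {α r : ℕ} (D : Data p a b α r) (n : ℕ)
    (hn : orderOf (a ^ (r - 1)) = p ^ n) (s : ℕ) (hs : s ≤ n) (j i : ℕ)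
    (hidx : (centralizer ({b ^ j * a ^ i} : Set G)).index ≤ p ^ (n - s)) :
    p ^ s ∣ j ∧ p ^ s ∣ i := by
  have hpp : p.Prime := Fact.out
  have hidx0 : (centralizer ({b ^ j * a ^ i} : Set G)).index ≠ 0 := Subgroup.index_ne_zero_of_finite
  have hval_le : ∀ m : ℕ, 0 < m → m ≤ p ^ (n - s) → padicValNat p m ≤ n - s := by
    intro m hm hmle
    have h1 : p ^ padicValNat p m ∣ m := pow_padicValNat_dvd
    have h2 := Nat.le_of_dvd hm h1
    exact (Nat.pow_le_pow_iff_right hpp.one_lt).mp (le_trans h2 hmle)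
  constructor
  · rcases Nat.eq_zero_or_pos j with hj0 | hjpos
    · rw [hj0]; exact dvd_zero _
    · obtain ⟨m, hm0, hmle, hmem⟩ := Subgroup.exists_pow_mem_of_index_ne_zero hidx0 a
      rw [mem_centralizer_singleton_iff] at hmem
      have hc1 : Commute (a ^ m) (b ^ j * a ^ i) := hmem
      have hc2 : Commute (a ^ m) (a ^ i) := (Commute.refl a).pow_pow m i
      have hc3 : Commute (a ^ m) (b ^ j) := by
        have h0 := hc1.mul_right hc2.inv_right
        rwa [mul_inv_cancel_right] at h0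
      have h1 : b ^ j * a ^ m * (b ^ j)⁻¹ = a ^ m := by rw [← hc3.eq]; group
      rw [D.conj_pow' j m, D.pow_eq_pow_iff] at h1
      have h5 : p ^ α ∣ m * (r ^ j - 1) := by
        have h6 := (Nat.modEq_iff_dvd' (show m ≤ m * r ^ j from
          Nat.le_mul_of_pos_right m (D.one_le_pow j))).mp h1.symm
        rwa [← Nat.mul_sub_one] at h6
      have h7 := (D.key hp hG n hn m j (by omega) (by omega)).mp h5
      have h8 := hval_le m hm0 (le_trans hmle hidx)
      have h9 : s ≤ padicValNat p j := by omega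
      exact dvd_trans (pow_dvd_pow p h9) pow_padicValNat_dvd
  · rcases Nat.eq_zero_or_pos i with hi0 | hipos
    · rw [hi0]; exact dvd_zero _
    · obtain ⟨m, hm0, hmle, hmem⟩ := Subgroup.exists_pow_mem_of_index_ne_zero hidx0 b
      rw [mem_centralizer_singleton_iff] at hmem
      have hc1 : Commute (b ^ m) (b ^ j * a ^ i) := hmem
      have hc2 : Commute (b ^ m) (b ^ j) := (Commute.refl b).pow_pow m j
      have hc3 : Commute (b ^ m) (a ^ i) := by
        have h0 := hc2.inv_right.mul_right hc1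
        rwa [inv_mul_cancel_left] at h0
      have h1 : b ^ m * a ^ i * (b ^ m)⁻¹ = a ^ i := by rw [hc3.eq]; group
      rw [D.conj_pow' m i, D.pow_eq_pow_iff] at h1
      have h5 : p ^ α ∣ i * (r ^ m - 1) := by
        have h6 := (Nat.modEq_iff_dvd' (show i ≤ i * r ^ m from
          Nat.le_mul_of_pos_right i (D.one_le_pow m))).mp h1.symm
        rwa [← Nat.mul_sub_one] at h6
      have h7 := (D.key hp hG n hn i m (by omega) (by omega)).mp h5
      have h8 := hval_le m hm0 (le_trans hmle hidx)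
      have h9 : s ≤ padicValNat p i := by omega
      exact dvd_trans (pow_dvd_pow p h9) pow_padicValNat_dvd

/-- `|℧_s(G)| * p^(2s) = |G|` for `s ≤ n`. -/
theorem card_agemo {G : Type*} [Group G] [Finite G] {p : ℕ} [Fact p.Prime] (hp : p ≠ 2)
    (hG : IsPGroup p G) (hmc : Cfsg.IsMetacyclic G) (n : ℕ)
    (hGn : Nat.card ↥(commutator G) = p ^ n) (s : ℕ) (hs : s ≤ n) :
    Nat.card (Subgroup.closure {x : G | ∃ y : G, y ^ p ^ s = x}) * p ^ (2 * s) = Nat.card G := by
  have hpp : p.Prime := Fact.out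
  obtain ⟨a, b, α, r, D⟩ := exists_data hG hmc
  have hr2 := D.hr2
  have hn : orderOf (a ^ (r - 1)) = p ^ n := by
    rw [← Nat.card_zpowers, ← D.commutator_eq, hGn]
  have hnα := D.n_le n hn
  -- valuations from commuting
  have hvb : ∀ l : ℕ, l ≠ 0 → b ^ l * a = a * b ^ l → p ^ n ∣ l := by
    intro l hl hc
    have h1 := (D.comm_iff l).mp hc
    have h2 := (D.key hp hG n hn 1 l one_ne_zero hl).mp (by rwa [one_mul])
    rw [padicValNat.one, zero_add] at h2
    exact dvd_trans (pow_dvd_pow p h2) pow_padicValNat_dvd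
  have hva : ∀ k : ℕ, k ≠ 0 → b * a ^ k = a ^ k * b → p ^ n ∣ k := by
    intro k hk hc
    have h1 : b ^ 1 * a ^ k * (b ^ 1)⁻¹ = a ^ k := by rw [pow_one, hc]; group
    rw [D.conj_pow' 1 k, D.pow_eq_pow_iff] at h1
    have h5 : p ^ α ∣ k * (r ^ 1 - 1) := by
      have h6 := (Nat.modEq_iff_dvd' (show k ≤ k * r ^ 1 from
        Nat.le_mul_of_pos_right k (D.one_le_pow 1))).mp h1.symm
      rwa [← Nat.mul_sub_one] at h6
    have h2 := (D.key hp hG n hn k 1 hk one_ne_zero).mp h5
    rw [padicValNat.one, add_zero] at h2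
    exact dvd_trans (pow_dvd_pow p h2) pow_padicValNat_dvd
  have hordb : p ^ n ∣ orderOf b := by
    apply hvb _ (orderOf_pos b).ne'
    rw [pow_orderOf_eq_one, one_mul, mul_one]
  have hps : p ^ s ∣ p ^ n := pow_dvd_pow p hs
  haveI hKn : (zpowers (a ^ (p ^ s))).Normal := D.pow_normal _
  haveI hK0n : (zpowers a).Normal := D.normal
  -- U s = H ⊔ K
  have hU : Subgroup.closure {x : G | ∃ y : G, y ^ p ^ s = x}
      = zpowers (b ^ (p ^ s)) ⊔ zpowers (a ^ (p ^ s)) := by
    apply le_antisymm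
    · intro g hg
      have h1 := (Cfsg.Agent.S3882.main1 hp hG hmc n hGn s hs g).mp hg
      obtain ⟨j, i, rfl⟩ := D.hgen g
      obtain ⟨⟨j', rfl⟩, ⟨i', rfl⟩⟩ := dvd_of_index hp hG D n hn s hs j i h1
      apply Subgroup.mul_mem
      · apply le_sup_left (b := zpowers (a ^ (p ^ s)))
        rw [pow_mul]; exact pow_mem (mem_zpowers _) _
      · apply le_sup_right (a := zpowers (b ^ (p ^ s)))
        rw [pow_mul]; exact pow_mem (mem_zpowers _) _
    · apply sup_le
      · rw [zpowers_le]; exact Subgroup.subset_closure ⟨b, rfl⟩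
      · rw [zpowers_le]; exact Subgroup.subset_closure ⟨a, rfl⟩
  have htop : zpowers b ⊔ zpowers a = ⊤ := by
    rw [eq_top_iff]
    intro g _
    obtain ⟨j, i, rfl⟩ := D.hgen g
    exact Subgroup.mul_mem _ (le_sup_left (b := zpowers a) (pow_mem (mem_zpowers b) j))
      (le_sup_right (a := zpowers b) (pow_mem (mem_zpowers a) i))
  have hinf : zpowers (b ^ (p ^ s)) ⊓ zpowers (a ^ (p ^ s)) = zpowers b ⊓ zpowers a := by
    apply le_antisymm
    · apply inf_le_inf
      · rw [zpowers_le]; exact pow_mem (mem_zpowers b) _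
      · rw [zpowers_le]; exact pow_mem (mem_zpowers a) _
    · rintro x ⟨hxb, hxa⟩
      obtain ⟨tb, htb⟩ := mem_zpowers_iff.mp hxb
      obtain ⟨l, hl⟩ := nat_pow_of_zpow b tb
      rw [htb] at hl
      obtain ⟨ta, hta⟩ := mem_zpowers_iff.mp hxa
      obtain ⟨k, hk⟩ := nat_pow_of_zpow a ta
      rw [hta] at hk
      constructor
      · rcases Nat.eq_zero_or_pos l with hl0 | hlpos
        · rw [← hl, hl0, pow_zero]; exact one_mem _
        · have hc : b ^ l * a = a * b ^ l := by
            rw [hl, ← hk]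
            exact ((Commute.refl a).pow_left k).eq
          obtain ⟨c, hc'⟩ := dvd_trans hps (hvb l (by omega) hc)
          show x ∈ zpowers (b ^ (p ^ s))
          rw [← hl, hc', pow_mul]; exact pow_mem (mem_zpowers _) _
      · rcases Nat.eq_zero_or_pos k with hk0 | hkpos
        · rw [← hk, hk0, pow_zero]; exact one_mem _
        · have hc : b * a ^ k = a ^ k * b := by
            rw [hk, ← hl]
            exact ((Commute.refl b).pow_right l).eq
          obtain ⟨c, hc'⟩ := dvd_trans hps (hva k (by omega) hc)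
          show x ∈ zpowers (a ^ (p ^ s))
          rw [← hk, hc', pow_mul]; exact pow_mem (mem_zpowers _) _
  have h1 := Cfsg.Agent.S0003.card_sup_mul_card_inf (zpowers (b ^ (p ^ s))) (zpowers (a ^ (p ^ s)))
  have h2 := Cfsg.Agent.S0003.card_sup_mul_card_inf (zpowers b) (zpowers a)
  rw [hinf, ← hU, Nat.card_zpowers, Nat.card_zpowers,
    orderOf_pow_of_dvd (pow_ne_zero _ hpp.ne_zero) (dvd_trans hps hordb),
    orderOf_pow_of_dvd (pow_ne_zero _ hpp.ne_zero)
      (by rw [D.ha]; exact pow_dvd_pow p (le_trans hs hnα))] at h1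
  rw [htop, Subgroup.card_top, Nat.card_zpowers, Nat.card_zpowers] at h2
  have hc0 : 0 < Nat.card (zpowers b ⊓ zpowers a : Subgroup G) := Nat.card_pos
  have e1 : orderOf b / p ^ s * p ^ s = orderOf b := Nat.div_mul_cancel (dvd_trans hps hordb)
  have e2 : orderOf a / p ^ s * p ^ s = orderOf a :=
    Nat.div_mul_cancel (by rw [D.ha]; exact pow_dvd_pow p (le_trans hs hnα))
  apply Nat.eq_of_mul_eq_mul_right hc0
  calc Nat.card (Subgroup.closure {x : G | ∃ y : G, y ^ p ^ s = x}) * p ^ (2 * s)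
        * Nat.card (zpowers b ⊓ zpowers a : Subgroup G)
      = (Nat.card (Subgroup.closure {x : G | ∃ y : G, y ^ p ^ s = x})
          * Nat.card (zpowers b ⊓ zpowers a : Subgroup G)) * (p ^ s * p ^ s) := by
        rw [two_mul, pow_add]; ring
    _ = (orderOf b / p ^ s * (orderOf a / p ^ s)) * (p ^ s * p ^ s) := by rw [h1]
    _ = (orderOf b / p ^ s * p ^ s) * (orderOf a / p ^ s * p ^ s) := by ring
    _ = orderOf b * orderOf a := by rw [e1, e2]
    _ = Nat.card G * Nat.card (zpowers b ⊓ zpowers a : Subgroup G) := h2.symm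

theorem result {G : Type*} [Group G] [Finite G] {p : ℕ} [Fact p.Prime] (hp : p ≠ 2) (hG : IsPGroup p G) (hmc : Cfsg.IsMetacyclic G) (n : ℕ) (hn : n ≠ 0) (hGn : Nat.card ↥(commutator G) = p ^ n) (i : ℕ) (hi : 1 ≤ i) (hin : i ≤ n) :
    Nat.card {g : G // (Subgroup.centralizer ({g} : Set G)).index = p ^ i} =
      Nat.card ↥(Subgroup.center G) * (p ^ (2 * i) - p ^ (2 * i - 2)) := by
  have hpp : p.Prime := Fact.out
  have hZ := Cfsg.Agent.S3879.result hp hG hmc
  rw [hGn] at hZ
  have hcG := Subgroup.card_mul_index (Subgroup.center G)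
  rw [hZ] at hcG
  have hZpos : 0 < Nat.card (Subgroup.center G) := Nat.card_pos
  -- cards of the two agemo subgroups
  have hA := card_agemo hp hG hmc n hGn (n - i) (by omega)
  have hB := card_agemo hp hG hmc n hGn (n - i + 1) (by omega)
  have hcA : Nat.card (Subgroup.closure {x : G | ∃ y : G, y ^ p ^ (n - i) = x})
      = Nat.card (Subgroup.center G) * p ^ (2 * i) := by
    have hpos : 0 < p ^ (2 * (n - i)) := pos_of_ne_zero (pow_ne_zero _ hpp.ne_zero)
    apply Nat.eq_of_mul_eq_mul_right hpos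
    rw [hA, ← hcG, mul_assoc, ← pow_add, ← pow_mul]
    congr 2; omega
  have hcB : Nat.card (Subgroup.closure {x : G | ∃ y : G, y ^ p ^ (n - i + 1) = x})
      = Nat.card (Subgroup.center G) * p ^ (2 * i - 2) := by
    have hpos : 0 < p ^ (2 * (n - i + 1)) := pos_of_ne_zero (pow_ne_zero _ hpp.ne_zero)
    apply Nat.eq_of_mul_eq_mul_right hpos
    rw [hB, ← hcG, mul_assoc, ← pow_add, ← pow_mul]
    congr 2; omega
  -- the set
  have hset : {g : G | (Subgroup.centralizer ({g} : Set G)).index = p ^ i}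
      = ((Subgroup.closure {x : G | ∃ y : G, y ^ p ^ (n - i) = x} : Subgroup G) : Set G)
        \ ((Subgroup.closure {x : G | ∃ y : G, y ^ p ^ (n - i + 1) = x} : Subgroup G) : Set G) := by
    ext g
    simp only [Set.mem_setOf_eq, Set.mem_diff, SetLike.mem_coe]
    rw [Cfsg.Agent.S3882.main1 hp hG hmc n hGn (n - i) (by omega) g,
      Cfsg.Agent.S3882.main1 hp hG hmc n hGn (n - i + 1) (by omega) g]
    have e1 : n - (n - i) = i := by omega
    have e2 : n - (n - i + 1) = i - 1 := by omega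
    rw [e1, e2]
    -- index is a power of p
    have hdvd : (Subgroup.centralizer ({g} : Set G)).index ∣ Nat.card G := Subgroup.index_dvd_card _
    obtain ⟨m, hm⟩ := IsPGroup.iff_card.mp hG
    rw [hm] at hdvd
    obtain ⟨c, _, hc⟩ := (Nat.dvd_prime_pow hpp).mp hdvd
    rw [hc]
    rw [Nat.pow_le_pow_iff_right hpp.one_lt, Nat.pow_le_pow_iff_right hpp.one_lt]
    constructor
    · intro h
      have := Nat.pow_right_injective hpp.two_le h
      omega
    · intro h
      have hci : c = i := by omega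
      rw [hci]
  have hsub : ((Subgroup.closure {x : G | ∃ y : G, y ^ p ^ (n - i + 1) = x} : Subgroup G) : Set G)
      ⊆ ((Subgroup.closure {x : G | ∃ y : G, y ^ p ^ (n - i) = x} : Subgroup G) : Set G) := by
    intro g hg
    have h1 := (Cfsg.Agent.S3882.main1 hp hG hmc n hGn (n - i + 1) (by omega) g).mp hg
    apply (Cfsg.Agent.S3882.main1 hp hG hmc n hGn (n - i) (by omega) g).mpr
    exact le_trans h1 (Nat.pow_le_pow_right hpp.pos (by omega))
  have hcard : Nat.card {g : G // (Subgroup.centralizer ({g} : Set G)).index = p ^ i}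
      = Set.ncard {g : G | (Subgroup.centralizer ({g} : Set G)).index = p ^ i} := by
    rw [← Nat.card_coe_set_eq]; rfl
  have hA' : Set.ncard ((Subgroup.closure {x : G | ∃ y : G, y ^ p ^ (n - i) = x} : Subgroup G) : Set G)
      = Nat.card (Subgroup.closure {x : G | ∃ y : G, y ^ p ^ (n - i) = x}) :=
    (Nat.card_coe_set_eq _).symm
  have hB' : Set.ncard ((Subgroup.closure {x : G | ∃ y : G, y ^ p ^ (n - i + 1) = x} : Subgroup G) : Set G)
      = Nat.card (Subgroup.closure {x : G | ∃ y : G, y ^ p ^ (n - i + 1) = x}) :=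
    (Nat.card_coe_set_eq _).symm
  rw [hcard, hset, Set.ncard_diff hsub, hA', hB', hcA, hcB, Nat.mul_sub]

end Cfsg.Agent.S3881
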