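import Cfsg.Statements.S3883

import Mathlib
import Cfsg.Agent.Lib.Helper7.Meta
import Cfsg.Agent.Lib.Helper1.Nil
import Cfsg.Agent.S3880
import Cfsg.Agent.S3882

set_option autoImplicit false
open Cfsg
open scoped Pointwise

namespace Cfsg.Agent.S3883

open Subgroup Cfsg.Agent.Lib.Helper7.Meta
open scoped commutatorElement

theorem frat_iff {G : Type*} [Group G] [Finite G] {p : ℕ} [Fact p.Prime]
    (hG : IsPGroup p G) {a b : G} {α r : ℕ} (D : Data p a b α r) (hna : ¬ IsMulCommutative G)
    (g : G) :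
    g ∈ frattini G ↔ g ∈ Subgroup.closure {x : G | ∃ y : G, y ^ p ^ 1 = x} := by
  have hpp : p.Prime := Fact.out
  constructor
  · intro hg
    obtain ⟨j, i, rfl⟩ := D.hgen g
    by_cases hd : p ∣ j ∧ p ∣ i
    · obtain ⟨⟨j', rfl⟩, ⟨i', rfl⟩⟩ := hd
      apply Subgroup.mul_mem
      · apply Subgroup.subset_closure; exact ⟨b ^ j', by rw [pow_one, ← pow_mul, mul_comm]⟩
      · apply Subgroup.subset_closure; exact ⟨a ^ i', by rw [pow_one, ← pow_mul, mul_comm]⟩
    · exfalso
      have hzg : zpowers (b ^ j * a ^ i) ≤ frattini G := by rw [zpowers_le]; exact hg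
      have hcyc : ∀ c : G, zpowers c = ⊤ → False := by
        intro c hc
        apply hna
        refine ⟨⟨fun x y => ?_⟩⟩
        have hx : x ∈ zpowers c := by rw [hc]; exact Subgroup.mem_top x
        have hy : y ∈ zpowers c := by rw [hc]; exact Subgroup.mem_top y
        obtain ⟨k, rfl⟩ := mem_zpowers_iff.mp hx
        obtain ⟨l, rfl⟩ := mem_zpowers_iff.mp hy
        exact zpow_mul_comm c k l
      have hgen : ∀ K : Subgroup G, a ∈ K → b ∈ K → K = ⊤ := by
        intro K ha hb
        rw [eq_top_iff]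
        intro x _
        obtain ⟨j', i', rfl⟩ := D.hgen x
        exact K.mul_mem (K.pow_mem hb _) (K.pow_mem ha _)
      have hnd : ¬ p ∣ j ∨ ¬ p ∣ i := by tauto
      rcases hnd with hnd | hnd
      · obtain ⟨k, hk⟩ := (IsPGroup.iff_orderOf.mp hG) b
        have hcop : Nat.Coprime j (orderOf b) := by
          rw [hk]
          exact Nat.Coprime.pow_right k ((Nat.Prime.coprime_iff_not_dvd hpp).mpr hnd).symm
        obtain ⟨m, hm⟩ := exists_pow_eq_self_of_coprime hcop
        apply hcyc a
        apply frattini_nongenerating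
        rw [eq_top_iff]
        have hbj : b ^ j ∈ zpowers a ⊔ zpowers (b ^ j * a ^ i) := by
          have e : (b ^ j * a ^ i) * (a ^ i)⁻¹ = b ^ j := by group
          have h0 : (b ^ j * a ^ i) * (a ^ i)⁻¹ ∈ zpowers a ⊔ zpowers (b ^ j * a ^ i) :=
            Subgroup.mul_mem _ (mem_sup_right (mem_zpowers _))
              (Subgroup.inv_mem _ (Subgroup.pow_mem _ (mem_sup_left (mem_zpowers a)) i))
          rwa [e] at h0
        have hbK : b ∈ zpowers a ⊔ zpowers (b ^ j * a ^ i) := by
          have h0 := Subgroup.pow_mem _ hbj m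
          rwa [hm] at h0
        have hK := hgen (zpowers a ⊔ zpowers (b ^ j * a ^ i)) (mem_sup_left (mem_zpowers a)) hbK
        rw [← hK]; exact sup_le_sup_left hzg _
      · have hcop : Nat.Coprime i (orderOf a) := by
          rw [D.ha]
          exact Nat.Coprime.pow_right α ((Nat.Prime.coprime_iff_not_dvd hpp).mpr hnd).symm
        obtain ⟨m, hm⟩ := exists_pow_eq_self_of_coprime hcop
        apply hcyc b
        apply frattini_nongenerating
        rw [eq_top_iff]
        have hai : a ^ i ∈ zpowers b ⊔ zpowers (b ^ j * a ^ i) := by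
          have e : (b ^ j)⁻¹ * (b ^ j * a ^ i) = a ^ i := by group
          have h0 : (b ^ j)⁻¹ * (b ^ j * a ^ i) ∈ zpowers b ⊔ zpowers (b ^ j * a ^ i) :=
            Subgroup.mul_mem _
              (Subgroup.inv_mem _ (Subgroup.pow_mem _ (mem_sup_left (mem_zpowers b)) j))
              (mem_sup_right (mem_zpowers _))
          rwa [e] at h0
        have haK : a ∈ zpowers b ⊔ zpowers (b ^ j * a ^ i) := by
          have h0 := Subgroup.pow_mem _ hai m
          rwa [hm] at h0
        have hK := hgen (zpowers b ⊔ zpowers (b ^ j * a ^ i)) haK (mem_sup_left (mem_zpowers b))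
        rw [← hK]; exact sup_le_sup_left hzg _
  · intro hg
    refine (Subgroup.closure_le (frattini G)).mpr ?_ hg
    rintro x ⟨y, rfl⟩
    have hfr : frattini G = ⨅ M ∈ {H : Subgroup G | IsCoatom H}, M := rfl
    show y ^ p ^ 1 ∈ frattini G
    rw [hfr, Subgroup.mem_iInf]
    intro M
    rw [Subgroup.mem_iInf]
    intro hM
    obtain ⟨hMn, hMi⟩ := Cfsg.Agent.Lib.Helper1.coatom_normal_index_of_isPGroup p hG M hM
    have := hMn
    have h1 := M.pow_index_mem y
    rwa [hMi, ← pow_one p] at h1

theorem result {G : Type*} [Group G] [Finite G] {p : ℕ} [Fact p.Prime] (hp : p ≠ 2) (hG : IsPGroup p G) (hmc : Cfsg.IsMetacyclic G) (hna : ¬ IsMulCommutative G) (g : G) :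
    g ∉ frattini G ↔ IsMulCommutative ↥(Subgroup.centralizer ({g} : Set G)) := by
  have hpp : p.Prime := Fact.out
  obtain ⟨a, b, α, r, D⟩ := exists_data hG hmc
  have hdv : orderOf (a ^ (r - 1)) ∣ p ^ α := by
    rw [← D.ha]; exact orderOf_pow_dvd (r - 1)
  obtain ⟨n, -, hn⟩ := (Nat.dvd_prime_pow hpp).mp hdv
  have hGn : Nat.card ↥(commutator G) = p ^ n := by
    rw [D.commutator_eq, Nat.card_zpowers, hn]
  have hn1 : 1 ≤ n := by
    by_contra h0
    have hn0 : n = 0 := by omega
    rw [hn0, pow_zero] at hGn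
    have hbot : commutator G = ⊥ := Subgroup.eq_bot_of_card_eq _ hGn
    apply hna
    refine ⟨⟨fun x y => ?_⟩⟩
    have hmem : ⁅x, y⁆ ∈ commutator G := by
      rw [_root_.commutator_def]
      exact Subgroup.commutator_mem_commutator (Subgroup.mem_top x) (Subgroup.mem_top y)
    rw [hbot, Subgroup.mem_bot, commutatorElement_eq_one_iff_mul_comm] at hmem
    exact hmem
  rw [frat_iff hG D hna g, Cfsg.Agent.S3882.main1 hp hG hmc n hGn 1 hn1 g,
    (Cfsg.Agent.S3880.result hp hG hmc (centralizer {g})).1]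
  have h1 := (centralizer ({g} : Set G)).card_mul_index
  have h2 := (commutator G).card_mul_index
  rw [hGn] at h2
  obtain ⟨e, he⟩ := hG.index (centralizer ({g} : Set G))
  rw [he] at h1 ⊢
  rw [Nat.pow_le_pow_iff_right hpp.one_lt]
  constructor
  · intro h
    have hne : n ≤ e := by omega
    have h3 : Nat.card (centralizer ({g} : Set G)) * p ^ n ≤ p ^ n * (commutator G).index := by
      rw [h2, ← h1]; exact Nat.mul_le_mul_left _ (Nat.pow_le_pow_right hpp.pos hne)
    rw [mul_comm] at h3
    exact Nat.le_of_mul_le_mul_left h3 (pow_pos hpp.pos n)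
  · intro h hle
    have h3 : p ^ n * Nat.card (centralizer ({g} : Set G))
        ≤ Nat.card (centralizer ({g} : Set G)) * p ^ e := by
      rw [h1, ← h2]; exact Nat.mul_le_mul_left _ h
    rw [mul_comm] at h3
    have h4 := Nat.le_of_mul_le_mul_left h3 Nat.card_pos
    have h5 := (Nat.pow_le_pow_iff_right hpp.one_lt).mp h4
    omega

end Cfsg.Agent.S3883
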