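import Cfsg.Statements.S3884

import Mathlib
import Cfsg.Agent.Lib.Helper7.Meta

set_option autoImplicit false
open Cfsg
open scoped Pointwise

namespace Cfsg.Agent.S3884

open Subgroup Cfsg.Agent.Lib.Helper7.Meta

section
variable {p : ℕ} {G : Type*} [Group G] {a b : G} {α r : ℕ}

theorem pow_formula (D : Data p a b α r) (k J m : ℕ) :
    (a ^ k * b ^ J) ^ m = a ^ (k * ∑ i ∈ Finset.range m, (r ^ J) ^ i) * b ^ (J * m) := by
  induction m with
  | zero => simp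
  | succ m ih =>
    have h1 : b ^ (J * m) * a ^ k = a ^ (k * r ^ (J * m)) * b ^ (J * m) := by
      rw [← D.conj_pow' (J * m) k]; group
    have e1 : k * ∑ i ∈ Finset.range (m + 1), (r ^ J) ^ i
        = k * ∑ i ∈ Finset.range m, (r ^ J) ^ i + k * r ^ (J * m) := by
      rw [Finset.sum_range_succ, mul_add, pow_mul]
    have e2 : J * (m + 1) = J * m + J := by ring
    calc (a ^ k * b ^ J) ^ (m + 1) = (a ^ k * b ^ J) ^ m * (a ^ k * b ^ J) := pow_succ _ _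
      _ = a ^ (k * ∑ i ∈ Finset.range m, (r ^ J) ^ i) * (b ^ (J * m) * a ^ k) * b ^ J := by
        rw [ih]; simp only [mul_assoc]
      _ = a ^ (k * ∑ i ∈ Finset.range m, (r ^ J) ^ i) * (a ^ (k * r ^ (J * m)) * b ^ (J * m))
            * b ^ J := by rw [h1]
      _ = a ^ (k * ∑ i ∈ Finset.range (m + 1), (r ^ J) ^ i) * b ^ (J * (m + 1)) := by
        rw [e1, e2, pow_add, pow_add]; simp only [mul_assoc]

theorem geom_val' [hp : Fact p.Prime] (D : Data p a b α r) (hodd : p ≠ 2) (hpr : p ∣ r - 1)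
    (J m : ℕ) (hJ : J ≠ 0) (hm : m ≠ 0) :
    ∑ t ∈ Finset.range m, (r ^ J) ^ t ≠ 0 ∧
      padicValNat p (∑ t ∈ Finset.range m, (r ^ J) ^ t) = padicValNat p m := by
  have hpp := hp.out
  have hgeom := geom_sum_mul_of_one_le (D.one_le_pow J) m
  have hne1 := D.pow_sub_ne J hJ
  have hJm : J * m ≠ 0 := mul_ne_zero hJ hm
  have hne2 := D.pow_sub_ne (J * m) hJm
  rw [← pow_mul] at hgeom
  have hS : ∑ t ∈ Finset.range m, (r ^ J) ^ t ≠ 0 := by
    intro h0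
    rw [h0, zero_mul] at hgeom
    exact hne2 hgeom.symm
  have hv := congrArg (padicValNat p) hgeom
  rw [padicValNat.mul hS hne1, D.val hodd hpr J hJ, D.val hodd hpr (J * m) hJm,
    padicValNat.mul hJ hm] at hv
  exact ⟨hS, by omega⟩

end

theorem solve {p : ℕ} [hp : Fact p.Prime] (α S c v : ℕ) (hS : S ≠ 0)
    (hv : padicValNat p S = v) (hc : p ^ v ∣ c) :
    ∃ k : ℕ, p ^ α ∣ k * S + c := by
  have hpp := hp.out
  rcases Nat.eq_zero_or_pos α with hα0 | hαpos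
  · exact ⟨0, by rw [hα0, pow_zero]; exact one_dvd _⟩
  obtain ⟨c', hc'⟩ := hc
  obtain ⟨s', hs'⟩ : p ^ v ∣ S := by rw [← hv]; exact pow_padicValNat_dvd
  have hcop : Nat.Coprime s' (p ^ α) := by
    apply Nat.Coprime.pow_right
    rw [Nat.coprime_comm, Nat.Prime.coprime_iff_not_dvd hpp]
    intro hdvd
    obtain ⟨s'', hs''⟩ := hdvd
    have h1 : p ^ (v + 1) ∣ S := ⟨s'', by rw [hs', hs'', pow_succ]; ring⟩
    have h2 := (padicValNat_dvd_iff_le hS).mp h1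
    omega
  obtain ⟨k₀, -, hk₀⟩ := Nat.exists_mul_mod_eq_one_of_coprime hcop
    (Nat.one_lt_pow (by omega) hpp.one_lt)
  obtain ⟨P', hP'⟩ : ∃ P', p ^ α = P' + 1 := ⟨p ^ α - 1, by have := pow_pos hpp.pos α; omega⟩
  have h1 : s' * k₀ = (P' + 1) * (s' * k₀ / (P' + 1)) + 1 := by
    have h0 := Nat.div_add_mod (s' * k₀) (p ^ α)
    rw [hk₀, hP'] at h0
    exact h0.symm
  refine ⟨k₀ * c' * P', ⟨p ^ v * c' * ((s' * k₀ / (P' + 1)) * P' + 1), ?_⟩⟩
  rw [hP', hs', hc']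
  calc k₀ * c' * P' * (p ^ v * s') + p ^ v * c' = p ^ v * c' * (s' * k₀ * P' + 1) := by ring
    _ = p ^ v * c' * (((P' + 1) * (s' * k₀ / (P' + 1)) + 1) * P' + 1) := by rw [← h1]
    _ = (P' + 1) * (p ^ v * c' * ((s' * k₀ / (P' + 1)) * P' + 1)) := by ring

theorem result {G : Type*} [Group G] [Finite G] {p : ℕ} [Fact p.Prime] (hp : p ≠ 2) (hG : IsPGroup p G) (hmc : Cfsg.IsMetacyclic G) : ∃ A B : Subgroup G, IsCyclic ↥A ∧ IsCyclic ↥B ∧ A ⊓ B = ⊥ ∧ Nat.card ↥A * Nat.card ↥B = Nat.card G := by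
  have hpp : p.Prime := Fact.out
  obtain ⟨a, b, α, r, D⟩ := exists_data hG hmc
  obtain ⟨β, hcard, hβ⟩ := D.beta hG
  obtain ⟨c, hc0, hc⟩ : ∃ c : ℕ, c ≠ 0 ∧ b ^ (p ^ β) = a ^ c := by
    have h1 : b ^ (p ^ β) ∈ zpowers a := (hβ _).mpr dvd_rfl
    obtain ⟨t, ht⟩ := mem_zpowers_iff.mp h1
    obtain ⟨c₀, hc₀⟩ := nat_pow_of_zpow a t
    refine ⟨c₀ + p ^ α, by have := pow_pos hpp.pos α; omega, ?_⟩
    rw [pow_add, hc₀, ht, ← D.ha, pow_orderOf_eq_one, mul_one]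
  have hcommon : ∀ k e f : ℕ, e + f = β → (a ^ k * b ^ (p ^ e)) ^ (p ^ f) = 1 →
      (∀ l : ℕ, (a ^ k * b ^ (p ^ e)) ^ l ∈ zpowers a → (a ^ k * b ^ (p ^ e)) ^ l = 1) ∧
        orderOf (a ^ k * b ^ (p ^ e)) = p ^ f := by
    intro k e f hef hx
    have h1 : ∀ l : ℕ, (a ^ k * b ^ (p ^ e)) ^ l ∈ zpowers a → p ^ f ∣ l := by
      intro l hl
      rw [pow_formula D] at hl
      have h2 : b ^ (p ^ e * l) ∈ zpowers a := by
        have h0 := (zpowers a).mul_mem ((zpowers a).inv_mem (pow_mem (mem_zpowers a)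
          (k * ∑ i ∈ Finset.range l, (r ^ (p ^ e)) ^ i))) hl
        rwa [inv_mul_cancel_left] at h0
      have h3 := (hβ _).mp h2
      rw [← hef, pow_add] at h3
      exact Nat.dvd_of_mul_dvd_mul_left (pow_pos hpp.pos e) h3
    constructor
    · intro l hl
      obtain ⟨q, rfl⟩ := h1 l hl
      rw [pow_mul, hx, one_pow]
    · apply Nat.dvd_antisymm (orderOf_dvd_of_pow_eq_one hx)
      apply h1
      rw [pow_orderOf_eq_one]; exact one_mem _
  -- Case I : some `a ^ k * b` has order `p ^ β`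
  have hcaseI : (∃ k : ℕ, (a ^ k * b ^ (p ^ 0)) ^ (p ^ β) = 1) →
      ∃ A B : Subgroup G, IsCyclic ↥A ∧ IsCyclic ↥B ∧ A ⊓ B = ⊥ ∧
        Nat.card ↥A * Nat.card ↥B = Nat.card G := by
    rintro ⟨k, hk⟩
    obtain ⟨hc1, hc2⟩ := hcommon k 0 β (by omega) hk
    refine ⟨zpowers a, zpowers (a ^ k * b ^ (p ^ 0)), inferInstance, inferInstance, ?_, ?_⟩
    · rw [eq_bot_iff]
      rintro z ⟨hz1, hz2⟩
      obtain ⟨t, ht⟩ := mem_zpowers_iff.mp hz2
      obtain ⟨l, hl⟩ := nat_pow_of_zpow (a ^ k * b ^ (p ^ 0)) t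
      rw [ht] at hl
      rw [Subgroup.mem_bot, ← hl]
      apply hc1
      rw [hl]; exact hz1
    · rw [Nat.card_zpowers, Nat.card_zpowers, D.ha, hc2, hcard, pow_add]
  by_cases hcα : p ^ α ∣ c
  · apply hcaseI
    refine ⟨0, ?_⟩
    rw [pow_zero, one_mul, pow_zero, pow_one, hc, D.pow_eq_one_iff]
    exact hcα
  have hαpos : 1 ≤ α := by
    by_contra h0
    have h1 : α = 0 := by omega
    rw [h1, pow_zero] at hcα
    exact hcα (one_dvd _)
  have hpr := D.p_dvd hG hαpos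
  by_cases hcβ : p ^ β ∣ c
  · apply hcaseI
    obtain ⟨hS, hvS⟩ := geom_val' D hp hpr (p ^ 0) (p ^ β) (by simp) (pow_ne_zero _ hpp.ne_zero)
    rw [padicValNat.prime_pow] at hvS
    obtain ⟨k, hk⟩ := solve α _ c β hS hvS hcβ
    refine ⟨k, ?_⟩
    rw [pow_formula D, pow_zero, one_mul, hc, ← pow_add, D.pow_eq_one_iff]
    exact hk
  -- Case II
  have hγβ : padicValNat p c < β := by
    by_contra h0
    exact hcβ ((padicValNat_dvd_iff_le hc0).mpr (not_lt.mp h0))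
  have hγα : padicValNat p c < α := by
    by_contra h0
    exact hcα ((padicValNat_dvd_iff_le hc0).mpr (not_lt.mp h0))
  obtain ⟨γ, hγ⟩ : ∃ γ, padicValNat p c = γ := ⟨_, rfl⟩
  rw [hγ] at hγβ hγα
  have hcγ : p ^ γ ∣ c := by rw [← hγ]; exact pow_padicValNat_dvd
  have hJ0 : p ^ (β - γ) ≠ 0 := pow_ne_zero _ hpp.ne_zero
  obtain ⟨hS, hvS⟩ := geom_val' D hp hpr (p ^ (β - γ)) (p ^ γ) hJ0 (pow_ne_zero _ hpp.ne_zero)
  rw [padicValNat.prime_pow] at hvS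
  obtain ⟨k, hk⟩ := solve α _ c γ hS hvS hcγ
  have hx : (a ^ k * b ^ (p ^ (β - γ))) ^ (p ^ γ) = 1 := by
    have e : p ^ (β - γ) * p ^ γ = p ^ β := by rw [← pow_add]; congr 1; omega
    rw [pow_formula D, e, hc, ← pow_add, D.pow_eq_one_iff]
    exact hk
  obtain ⟨hc1, hc2⟩ := hcommon k (β - γ) γ (by omega) hx
  have hpk : ¬ p ∣ k := by
    intro hdk
    have h1 : p ^ (γ + 1) ∣ k * ∑ t ∈ Finset.range (p ^ γ), (r ^ p ^ (β - γ)) ^ t := by
      obtain ⟨k', rfl⟩ := hdk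
      obtain ⟨s', hs'⟩ : p ^ γ ∣ ∑ t ∈ Finset.range (p ^ γ), (r ^ p ^ (β - γ)) ^ t := by
        have h0 : p ^ padicValNat p (∑ t ∈ Finset.range (p ^ γ), (r ^ p ^ (β - γ)) ^ t)
            ∣ ∑ t ∈ Finset.range (p ^ γ), (r ^ p ^ (β - γ)) ^ t := pow_padicValNat_dvd
        rwa [hvS] at h0
      rw [hs']
      exact ⟨k' * s', by rw [pow_succ]; ring⟩
    have h2 : p ^ (γ + 1) ∣ k * ∑ t ∈ Finset.range (p ^ γ), (r ^ p ^ (β - γ)) ^ t + c :=
      dvd_trans (pow_dvd_pow p (by omega)) hk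
    have h3 := (Nat.dvd_add_right h1).mp h2
    have h4 := (padicValNat_dvd_iff_le hc0).mp h3
    omega
  -- order of b
  have hbpow : ∀ m' : ℕ, b ^ (p ^ β * m') = a ^ (c * m') := by
    intro m'; rw [pow_mul, hc, ← pow_mul]
  have hordb : orderOf b = p ^ (β + (α - γ)) := by
    apply Nat.dvd_antisymm
    · apply orderOf_dvd_of_pow_eq_one
      rw [pow_add, hbpow, D.pow_eq_one_iff]
      obtain ⟨c'', hc''⟩ := hcγ
      rw [hc'']
      exact ⟨c'', by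
        have e : p ^ α = p ^ γ * p ^ (α - γ) := by rw [← pow_add]; congr 1; omega
        rw [e]; ring⟩
    · have h1 : b ^ orderOf b ∈ zpowers a := by rw [pow_orderOf_eq_one]; exact one_mem _
      obtain ⟨m', hm'⟩ := (hβ _).mp h1
      have h2 : a ^ (c * m') = 1 := by rw [← hbpow, ← hm', pow_orderOf_eq_one]
      rw [D.pow_eq_one_iff] at h2
      have hm0 : m' ≠ 0 := by
        intro h0
        rw [h0, mul_zero] at hm'
        exact (orderOf_pos b).ne' hm'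
      rw [padicValNat_dvd_iff_le (mul_ne_zero hc0 hm0), padicValNat.mul hc0 hm0, hγ] at h2
      have h3 : p ^ (α - γ) ∣ m' := (padicValNat_dvd_iff_le hm0).mpr (by omega)
      rw [hm', pow_add]
      exact Nat.mul_dvd_mul_left _ h3
  refine ⟨zpowers (a ^ k * b ^ (p ^ (β - γ))), zpowers b, inferInstance, inferInstance, ?_, ?_⟩
  · rw [eq_bot_iff]
    rintro z ⟨hz1, hz2⟩
    obtain ⟨t, ht⟩ := mem_zpowers_iff.mp hz1
    obtain ⟨l, hl⟩ := nat_pow_of_zpow (a ^ k * b ^ (p ^ (β - γ))) t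
    rw [ht] at hl
    rw [Subgroup.mem_bot, ← hl]
    rcases Nat.eq_zero_or_pos l with hl0 | hlpos
    · rw [hl0, pow_zero]
    have hl0 : l ≠ 0 := by omega
    have hz3 : (a ^ k * b ^ (p ^ (β - γ))) ^ l ∈ zpowers b := by rw [hl]; exact hz2
    rw [pow_formula D] at hz3
    have h4 : a ^ (k * ∑ i ∈ Finset.range l, (r ^ p ^ (β - γ)) ^ i) ∈ zpowers b := by
      have h0 := (zpowers b).mul_mem hz3 ((zpowers b).inv_mem (pow_mem (mem_zpowers b)
        (p ^ (β - γ) * l)))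
      rwa [mul_inv_cancel_right] at h0
    obtain ⟨t', ht'⟩ := mem_zpowers_iff.mp h4
    obtain ⟨m, hm⟩ := nat_pow_of_zpow b t'
    rw [ht'] at hm
    have h5 : b ^ m ∈ zpowers a := by rw [hm]; exact pow_mem (mem_zpowers a) _
    obtain ⟨m', rfl⟩ := (hβ _).mp h5
    rw [hbpow, D.pow_eq_pow_iff] at hm
    have h6 : p ^ γ ∣ k * ∑ i ∈ Finset.range l, (r ^ p ^ (β - γ)) ^ i :=
      (hm.dvd_iff (pow_dvd_pow p hγα.le)).mp (dvd_trans hcγ (dvd_mul_right _ _))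
    have hcop : Nat.Coprime (p ^ γ) k :=
      Nat.Coprime.pow_left γ ((Nat.Prime.coprime_iff_not_dvd hpp).mpr hpk)
    have h7 := hcop.dvd_of_dvd_mul_left h6
    obtain ⟨hSl, hvSl⟩ := geom_val' D hp hpr (p ^ (β - γ)) l hJ0 hl0
    have h8 := (padicValNat_dvd_iff_le hSl).mp h7
    rw [hvSl] at h8
    obtain ⟨q, rfl⟩ := (padicValNat_dvd_iff_le hl0).mpr h8
    rw [pow_mul, hx, one_pow]
  · rw [Nat.card_zpowers, Nat.card_zpowers, hc2, hordb, hcard, ← pow_add]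
    congr 1; omega

end Cfsg.Agent.S3884
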