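import Cfsg.Statements.S3886

import Mathlib
import Cfsg.Agent.S3879
import Cfsg.Agent.S3880

set_option autoImplicit false
open Cfsg
open scoped Pointwise

namespace Cfsg.Agent.S3886

open Subgroup

theorem meta_sub {G : Type*} [Group G] (hmc : Cfsg.IsMetacyclic G) (R : Subgroup G) :
    Cfsg.IsMetacyclic ↥R := by
  obtain ⟨N, hN, hNc, hQc⟩ := hmc
  refine ⟨N.subgroupOf R, inferInstance, ?_, ?_⟩
  · let f : ↥(N.subgroupOf R) →* ↥N :=
      { toFun := fun x => ⟨((x : ↥R) : G), Subgroup.mem_subgroupOf.mp x.2⟩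
        map_one' := rfl
        map_mul' := fun _ _ => rfl }
    have hf : Function.Injective f := by
      intro x y hxy
      have h1 := congrArg (fun z : ↥N => (z : G)) hxy
      exact Subtype.ext (Subtype.ext h1)
    exact isCyclic_of_injective f hf
  · let f : ↥R ⧸ N.subgroupOf R →* G ⧸ N :=
      QuotientGroup.map (N.subgroupOf R) N R.subtype (le_refl _)
    have hf : Function.Injective f := by
      rw [injective_iff_map_eq_one]
      intro q hq
      induction q using QuotientGroup.induction_on with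
      | H x =>
        have h1 : f (QuotientGroup.mk x) = QuotientGroup.mk (x : G) := rfl
        rw [h1, QuotientGroup.eq_one_iff] at hq
        exact (QuotientGroup.eq_one_iff x).2 (Subgroup.mem_subgroupOf.2 hq)
    exact isCyclic_of_injective f hf

theorem center_formula {H : Type*} [Group H] [Finite H] {p : ℕ} [Fact p.Prime] (hp : p ≠ 2)
    (hH : IsPGroup p H) (hmc : Cfsg.IsMetacyclic H) :
    Nat.card H * Nat.card ↥(Subgroup.center H) = (commutator H).index ^ 2 := by
  have h1 := Cfsg.Agent.S3879.result hp hH hmc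
  have h2 := (Subgroup.center H).card_mul_index
  have h3 := (commutator H).card_mul_index
  rw [h1] at h2
  have hc : 0 < Nat.card ↥(commutator H) := Nat.card_pos
  have hI : (commutator H).index
      = Nat.card ↥(Subgroup.center H) * Nat.card ↥(commutator H) := by
    apply Nat.eq_of_mul_eq_mul_left hc
    rw [h3, ← h2]; ring
  rw [hI, ← h2]; ring

theorem comm_map {G : Type*} [Group G] (R : Subgroup G) (L' : Subgroup ↥R) :
    IsMulCommutative ↥(L'.map R.subtype) ↔ IsMulCommutative ↥L' := by
  rw [Cfsg.Agent.S3880.comm_iff_el, Cfsg.Agent.S3880.comm_iff_el]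
  constructor
  · intro h y hy y' hy'
    have h1 := h _ (Subgroup.mem_map_of_mem R.subtype hy) _ (Subgroup.mem_map_of_mem R.subtype hy')
    exact Subtype.ext h1
  · rintro h _ ⟨y, hy, rfl⟩ _ ⟨y', hy', rfl⟩
    exact congrArg Subtype.val (h y hy y' hy')

theorem idx_le {G : Type*} [Group G] [Finite G] {p : ℕ} [Fact p.Prime] (hp : p ≠ 2)
    (hG : IsPGroup p G) (hmc : Cfsg.IsMetacyclic G) (R : Subgroup G)
    (hR : ¬ IsMulCommutative ↥R) : (commutator G).index ≤ (commutator ↥R).index := by
  have hpp : p.Prime := Fact.out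
  have hI_lt : (commutator G).index < Nat.card ↥R := by
    by_contra h
    exact hR ((Cfsg.Agent.S3880.result hp hG hmc R).1.mpr (not_lt.mp h))
  obtain ⟨e, he⟩ := hG.index (commutator G)
  obtain ⟨m, hm⟩ := IsPGroup.iff_card.mp (hG.to_subgroup R)
  have hdvd : p ^ e ∣ Nat.card ↥R := by
    rw [hm]; apply pow_dvd_pow
    rw [he, hm] at hI_lt
    exact ((Nat.pow_lt_pow_iff_right hpp.one_lt).mp hI_lt).le
  obtain ⟨L', hL'⟩ := Sylow.exists_subgroup_card_pow_prime p hdvd
  have hc : IsMulCommutative ↥(L'.map R.subtype) :=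
    (Cfsg.Agent.S3880.result hp hG hmc _).1.mpr
      (by rw [Subgroup.card_map_of_injective R.subtype_injective, hL', he])
  have hc' : IsMulCommutative ↥L' := (comm_map R L').mp hc
  have h1 := (Cfsg.Agent.S3880.result hp (hG.to_subgroup R) (meta_sub hmc R) L').1.mp hc'
  rw [hL', ← he] at h1
  exact h1

theorem idx_ge {G : Type*} [Group G] [Finite G] {p : ℕ} [Fact p.Prime] (hp : p ≠ 2)
    (hG : IsPGroup p G) (hmc : Cfsg.IsMetacyclic G) (R : Subgroup G) :
    (commutator ↥R).index ≤ (commutator G).index := by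
  have hpp : p.Prime := Fact.out
  obtain ⟨e, he⟩ := (hG.to_subgroup R).index (commutator ↥R)
  have hdvd : p ^ e ∣ Nat.card ↥R := by rw [← he]; exact Subgroup.index_dvd_card _
  obtain ⟨L', hL'⟩ := Sylow.exists_subgroup_card_pow_prime p hdvd
  have hc' : IsMulCommutative ↥L' :=
    (Cfsg.Agent.S3880.result hp (hG.to_subgroup R) (meta_sub hmc R) L').1.mpr (by rw [hL', he])
  have hc : IsMulCommutative ↥(L'.map R.subtype) := (comm_map R L').mpr hc'
  have h1 := (Cfsg.Agent.S3880.result hp hG hmc _).1.mp hc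
  rw [Subgroup.card_map_of_injective R.subtype_injective, hL', ← he] at h1
  exact h1

theorem nonab_val {G : Type*} [Group G] [Finite G] {p : ℕ} [Fact p.Prime] (hp : p ≠ 2)
    (hG : IsPGroup p G) (hmc : Cfsg.IsMetacyclic G) (R : Subgroup G)
    (hR : ¬ IsMulCommutative ↥R) :
    Nat.card ↥R * Nat.card ↥(Subgroup.center ↥R) = (commutator G).index ^ 2 := by
  rw [center_formula hp (hG.to_subgroup R) (meta_sub hmc R)]
  congr 1
  exact le_antisymm (idx_ge hp hG hmc R) (idx_le hp hG hmc R hR)

theorem ab_val {G : Type*} [Group G] (R : Subgroup G) (hR : IsMulCommutative ↥R) :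
    Nat.card ↥R * Nat.card ↥(Subgroup.center ↥R) = Nat.card ↥R ^ 2 := by
  have h1 : Subgroup.center ↥R = ⊤ := by
    rw [Subgroup.eq_top_iff']; intro x; rw [Subgroup.mem_center_iff]; intro y
    exact hR.is_comm.comm y x
  rw [h1, Subgroup.card_top, sq]

theorem result {G : Type*} [Group G] [Finite G] {p : ℕ} [Fact p.Prime] (hp : p ≠ 2) (hG : IsPGroup p G) (hmc : Cfsg.IsMetacyclic G) : Cfsg.maxCentralProduct G = (commutator G).index ^ 2 ∧
    ∀ R : Subgroup G, Cfsg.IsCentrallyLarge R ↔ (¬ IsMulCommutative ↥R ∨ Maximal (fun K : Subgroup G => IsMulCommutative ↥K) R) := by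
  have hpp : p.Prime := Fact.out
  have hub : ∀ R : Subgroup G,
      Nat.card ↥R * Nat.card ↥(Subgroup.center ↥R) ≤ (commutator G).index ^ 2 := by
    intro R
    by_cases hR : IsMulCommutative ↥R
    · rw [ab_val R hR]
      exact Nat.pow_le_pow_left ((Cfsg.Agent.S3880.result hp hG hmc R).1.mp hR) 2
    · rw [nonab_val hp hG hmc R hR]
  obtain ⟨e, he⟩ := hG.index (commutator G)
  have hdvd : p ^ e ∣ Nat.card G := by rw [← he]; exact Subgroup.index_dvd_card _
  obtain ⟨L, hL⟩ := Sylow.exists_subgroup_card_pow_prime p hdvd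
  have hLc : IsMulCommutative ↥L :=
    (Cfsg.Agent.S3880.result hp hG hmc L).1.mpr (by rw [hL, he])
  have hmax : Cfsg.maxCentralProduct G = (commutator G).index ^ 2 := by
    unfold Cfsg.maxCentralProduct
    apply le_antisymm
    · apply csSup_le
      · exact ⟨_, L, rfl⟩
      · rintro k ⟨R, rfl⟩; exact hub R
    · apply le_csSup
      · exact ⟨(commutator G).index ^ 2, by rintro k ⟨R, rfl⟩; exact hub R⟩
      · exact ⟨L, by rw [ab_val L hLc, hL, he]⟩
  refine ⟨hmax, ?_⟩
  intro R
  unfold Cfsg.IsCentrallyLarge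
  rw [hmax]
  by_cases hR : IsMulCommutative ↥R
  · rw [ab_val R hR, (Cfsg.Agent.S3880.result hp hG hmc R).2]
    constructor
    · intro h; right; exact Nat.pow_left_injective two_ne_zero h
    · rintro (h | h)
      · exact absurd hR h
      · rw [h]
  · rw [nonab_val hp hG hmc R hR]
    exact ⟨fun _ => Or.inl hR, fun _ => rfl⟩

end Cfsg.Agent.S3886
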