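import Cfsg.Statements.S3887

import Mathlib
import Cfsg.Agent.Lib.Helper7.Meta
import Cfsg.Agent.Lib.Helper1.Nil
import Cfsg.Agent.S0112
import Cfsg.Agent.S3879
import Cfsg.Agent.S3880
import Cfsg.Agent.S3886

set_option autoImplicit false
open Cfsg
open scoped Pointwise

namespace Cfsg.Agent.S3887

open Subgroup Cfsg.Agent.Lib.Helper7.Meta
open scoped commutatorElement

theorem geom_val {G : Type*} [Group G] {p : ℕ} [hp : Fact p.Prime] {a b : G} {α r : ℕ}
    (D : Data p a b α r) (hodd : p ≠ 2) (hpr : p ∣ r - 1) (j : ℕ) :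
    ∑ t ∈ Finset.range p, (r ^ j) ^ t ≠ 0 ∧
      padicValNat p (∑ t ∈ Finset.range p, (r ^ j) ^ t) = 1 := by
  have hpp := hp.out
  rcases Nat.eq_zero_or_pos j with hj0 | hjpos
  · rw [hj0]
    simp only [pow_zero, one_pow, Finset.sum_const, Finset.card_range, smul_eq_mul, mul_one]
    exact ⟨hpp.ne_zero, padicValNat_self⟩
  · have hj : j ≠ 0 := by omega
    have hgeom := geom_sum_mul_of_one_le (D.one_le_pow j) p
    have hne1 := D.pow_sub_ne j hj
    have hjs : j * p ≠ 0 := mul_ne_zero hj hpp.ne_zero
    have hne2 := D.pow_sub_ne (j * p) hjs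
    rw [← pow_mul] at hgeom
    have hS : ∑ t ∈ Finset.range p, (r ^ j) ^ t ≠ 0 := by
      intro h0
      rw [h0, zero_mul] at hgeom
      exact hne2 hgeom.symm
    have hv := congrArg (padicValNat p) hgeom
    rw [padicValNat.mul hS hne1, D.val hodd hpr j hj, D.val hodd hpr (j * p) hjs,
      padicValNat.mul hj hpp.ne_zero, padicValNat_self] at hv
    exact ⟨hS, by omega⟩

theorem step {G : Type*} [Group G] [Finite G] {p : ℕ} [Fact p.Prime] (hp : p ≠ 2)
    (hG : IsPGroup p G) {a b : G} {α r : ℕ} (D : Data p a b α r) (K₀ : Subgroup G) (g : G)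
    (hg : g ^ p ∈ K₀) :
    Nat.card (centralizer (K₀ : Set G)) ≤
      p * Nat.card (centralizer (K₀ : Set G) ⊓ centralizer ({g} : Set G) : Subgroup G) := by
  have hpp : p.Prime := Fact.out
  have hΩ : Nat.card (zpowers (a ^ (p ^ (α - 1)))) ≤ p := by
    rw [Nat.card_zpowers]
    apply Nat.le_of_dvd hpp.pos
    apply orderOf_dvd_of_pow_eq_one
    rw [← pow_mul, D.pow_eq_one_iff]
    rcases Nat.eq_zero_or_pos α with h0 | hpos
    · rw [h0]; simp
    · obtain ⟨m, rfl⟩ : ∃ m, α = m + 1 := ⟨α - 1, by omega⟩
      exact dvd_of_eq (by rw [Nat.add_sub_cancel, pow_succ])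
  have hmem : ∀ c ∈ centralizer (K₀ : Set G), ⁅c, g⁆ ∈ zpowers (a ^ (p ^ (α - 1))) := by
    intro c hc
    obtain ⟨j, i, rfl⟩ := D.hgen g
    have hcg : ⁅c, b ^ j * a ^ i⁆ ∈ zpowers (a ^ (r - 1)) := by
      rw [← D.commutator_eq, _root_.commutator_def]
      exact Subgroup.commutator_mem_commutator (Subgroup.mem_top _) (Subgroup.mem_top _)
    obtain ⟨k, hk⟩ := mem_zpowers_iff.mp hcg
    obtain ⟨w0, hw0⟩ := nat_pow_of_zpow (a ^ (r - 1)) k
    rw [hk, ← pow_mul] at hw0
    have hw : c * (b ^ j * a ^ i) * c⁻¹ * (b ^ j * a ^ i)⁻¹ = a ^ ((r - 1) * w0) := by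
      rw [hw0, commutatorElement_def]
    have h1 := D.comm_pow c j i ((r - 1) * w0) p hw
    have hcomm : c * (b ^ j * a ^ i) ^ p = (b ^ j * a ^ i) ^ p * c :=
      (mem_centralizer_iff.mp hc _ hg).symm
    have h2 : c * (b ^ j * a ^ i) ^ p * c⁻¹ * ((b ^ j * a ^ i) ^ p)⁻¹ = 1 := by
      rw [hcomm]; group
    rw [h2] at h1
    have h3 := (D.pow_eq_one_iff _).mp h1.symm
    rw [← hw0]
    have hdv : p ^ (α - 1) ∣ (r - 1) * w0 := by
      rcases Nat.eq_zero_or_pos α with h0 | hpos
      · rw [h0]; simp
      · have hpr := D.p_dvd hG hpos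
        obtain ⟨hS, hvS⟩ := geom_val D hp hpr j
        rcases Nat.eq_zero_or_pos ((r - 1) * w0) with hz | hnz
        · rw [hz]; exact dvd_zero _
        · have hne : (r - 1) * w0 ≠ 0 := by omega
          rw [padicValNat_dvd_iff_le (mul_ne_zero hne hS), padicValNat.mul hne hS, hvS] at h3
          rw [padicValNat_dvd_iff_le hne]
          omega
    obtain ⟨q, hq⟩ := hdv
    rw [hq, pow_mul]
    exact pow_mem (mem_zpowers _) q
  have h := Cfsg.Agent.S0112.card_le_of_comm_mem (centralizer (K₀ : Set G))
    (zpowers (a ^ (p ^ (α - 1)))) g hmem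
  exact le_trans h (Nat.mul_le_mul_right _ hΩ)

theorem lower {G : Type*} [Group G] [Finite G] {p : ℕ} [Fact p.Prime] (hp : p ≠ 2)
    (hG : IsPGroup p G) {a b : G} {α r : ℕ} (D : Data p a b α r) :
    ∀ n : ℕ, ∀ K : Subgroup G, Nat.card K = n → center G ≤ K → IsMulCommutative ↥K →
      Nat.card G * Nat.card (center G) ≤ Nat.card K * Nat.card (centralizer (K : Set G)) := by
  have hpp : p.Prime := Fact.out
  intro n
  induction n using Nat.strong_induction_on with
  | _ n ih =>
    intro K hKn hZK hKc
    by_cases hKZ : K ≤ center G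
    · have hKeq : K = center G := le_antisymm hKZ hZK
      have htop : centralizer (K : Set G) = ⊤ := by
        rw [Subgroup.centralizer_eq_top_iff_subset]; exact hKZ
      rw [htop, Subgroup.card_top, hKeq, mul_comm]
    · have hZ' : (center G).subgroupOf K ≠ ⊤ := by
        rw [Ne, Subgroup.subgroupOf_eq_top]; exact hKZ
      obtain ⟨M', hM', hZM'⟩ :=
        (eq_top_or_exists_le_coatom ((center G).subgroupOf K)).resolve_left hZ'
      obtain ⟨hM'n, hM'i⟩ :=
        Cfsg.Agent.Lib.Helper1.coatom_normal_index_of_isPGroup p (hG.to_subgroup K) M' hM'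
      have hcardM : Nat.card M' * p = Nat.card K := by
        have h0 := M'.card_mul_index; rwa [hM'i] at h0
      have hK₀card : Nat.card (M'.map K.subtype) = Nat.card M' :=
        Subgroup.card_map_of_injective K.subtype_injective
      have hZK₀ : center G ≤ M'.map K.subtype := by
        intro z hz
        exact ⟨⟨z, hZK hz⟩, hZM' (Subgroup.mem_subgroupOf.mpr hz), rfl⟩
      have hK₀c : IsMulCommutative ↥(M'.map K.subtype) := by
        rw [Cfsg.Agent.S3886.comm_map]
        exact ⟨⟨fun x y => Subtype.ext (hKc.is_comm.comm x.1 y.1)⟩⟩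
      have hlt : Nat.card (M'.map K.subtype) < n := by
        rw [hK₀card, ← hKn, ← hcardM]
        have h0 : 0 < Nat.card M' := Nat.card_pos
        have h1 := hpp.one_lt
        nlinarith
      have hIH := ih _ hlt (M'.map K.subtype) rfl hZK₀ hK₀c
      obtain ⟨x, hx⟩ : ∃ x : ↥K, x ∉ M' := by
        by_contra hall
        push_neg at hall
        exact hM'.1 ((Subgroup.eq_top_iff' M').mpr hall)
      have hxp : (x : G) ^ p ∈ M'.map K.subtype := by
        have := hM'n
        have h1 := M'.pow_index_mem x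
        rw [hM'i] at h1
        exact ⟨x ^ p, h1, by simp⟩
      have hstep := step hp hG D (M'.map K.subtype) (x : G) hxp
      have hle : centralizer ((M'.map K.subtype : Subgroup G) : Set G)
          ⊓ centralizer ({(x : G)} : Set G) ≤ centralizer (K : Set G) := by
        intro h hh
        obtain ⟨hh1, hh2⟩ := hh
        have htop : M' ⊔ zpowers x = ⊤ := by
          apply hM'.2
          refine lt_of_le_of_ne le_sup_left ?_
          intro heq
          apply hx
          rw [heq]
          exact mem_sup_right (mem_zpowers x)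
        have hT : M' ⊔ zpowers x ≤ (centralizer ({h} : Set G)).subgroupOf K := by
          apply sup_le
          · intro y hy
            rw [Subgroup.mem_subgroupOf, mem_centralizer_singleton_iff]
            exact (mem_centralizer_iff.mp hh1 (y : G) ⟨y, hy, rfl⟩)
          · rw [zpowers_le, Subgroup.mem_subgroupOf, mem_centralizer_singleton_iff]
            exact (mem_centralizer_singleton_iff.mp hh2).symm
        rw [htop] at hT
        rw [mem_centralizer_iff]
        intro k hk
        have h5 := hT (Subgroup.mem_top (⟨k, hk⟩ : ↥K))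
        rw [Subgroup.mem_subgroupOf, mem_centralizer_singleton_iff] at h5
        exact h5
      have hcle := Subgroup.card_le_of_le hle
      calc Nat.card G * Nat.card (center G)
          ≤ Nat.card (M'.map K.subtype)
            * Nat.card (centralizer ((M'.map K.subtype : Subgroup G) : Set G)) := hIH
        _ ≤ Nat.card M' * (p * Nat.card (centralizer ((M'.map K.subtype : Subgroup G) : Set G)
              ⊓ centralizer ({(x : G)} : Set G) : Subgroup G)) := by
            rw [hK₀card]; exact Nat.mul_le_mul_left _ hstep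
        _ = (Nat.card M' * p) * Nat.card (centralizer ((M'.map K.subtype : Subgroup G) : Set G)
              ⊓ centralizer ({(x : G)} : Set G) : Subgroup G) := by ring
        _ ≤ Nat.card K * Nat.card (centralizer (K : Set G)) := by
            rw [hcardM]; exact Nat.mul_le_mul_left _ hcle

theorem cent_le_of_nonab {G : Type*} [Group G] [Finite G] {p : ℕ} [Fact p.Prime] (hp : p ≠ 2)
    (hG : IsPGroup p G) (hmc : Cfsg.IsMetacyclic G) (R : Subgroup G)
    (hR : ¬ IsMulCommutative ↥R) : centralizer (R : Set G) ≤ R := by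
  have hpp : p.Prime := Fact.out
  have hI_lt : (commutator G).index < Nat.card ↥R := by
    by_contra h
    exact hR ((Cfsg.Agent.S3880.result hp hG hmc R).1.mpr (not_lt.mp h))
  obtain ⟨e, he⟩ := hG.index (commutator G)
  obtain ⟨m, hm⟩ := IsPGroup.iff_card.mp (hG.to_subgroup R)
  have hdvd : p ^ e ∣ Nat.card ↥R := by
    rw [hm]; apply pow_dvd_pow
    rw [he, hm] at hI_lt
    exact ((Nat.pow_lt_pow_iff_right hpp.one_lt).mp hI_lt).le
  obtain ⟨L', hL'⟩ := Sylow.exists_subgroup_card_pow_prime p hdvd
  have hAcard : Nat.card (L'.map R.subtype) = (commutator G).index := by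
    rw [Subgroup.card_map_of_injective R.subtype_injective, hL', he]
  have hAmax := (Cfsg.Agent.S3880.result hp hG hmc (L'.map R.subtype)).2.mpr hAcard
  have hAR : L'.map R.subtype ≤ R := Subgroup.map_subtype_le L'
  intro h hh
  have hAel := (Cfsg.Agent.S3880.comm_iff_el _).mp hAmax.1
  have hz : ∀ y ∈ L'.map R.subtype, y * h = h * y :=
    fun y hy => mem_centralizer_iff.mp hh y (hAR hy)
  have hsup := comm_sup (L'.map R.subtype) hAel h hz
  have hK : IsMulCommutative ↥(L'.map R.subtype ⊔ zpowers h) :=
    (Cfsg.Agent.S3880.comm_iff_el _).mpr hsup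
  have hle := hAmax.2 hK le_sup_left
  exact hAR (hle ((le_sup_right : zpowers h ≤ L'.map R.subtype ⊔ zpowers h) (mem_zpowers h)))

theorem nonab_cent {G : Type*} [Group G] [Finite G] {p : ℕ} [Fact p.Prime] (hp : p ≠ 2)
    (hG : IsPGroup p G) (hmc : Cfsg.IsMetacyclic G) (R : Subgroup G)
    (hR : ¬ IsMulCommutative ↥R) :
    Nat.card ↥R * Nat.card (centralizer (R : Set G)) = (commutator G).index ^ 2 := by
  have hle := cent_le_of_nonab hp hG hmc R hR
  have h1 : (centralizer (R : Set G)).subgroupOf R = center ↥R := by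
    ext x
    rw [Subgroup.mem_subgroupOf, mem_centralizer_iff, Subgroup.mem_center_iff]
    constructor
    · intro h y; exact Subtype.ext (h y y.2)
    · intro h y hy; exact congrArg Subtype.val (h ⟨y, hy⟩)
  have h2 : Nat.card ((centralizer (R : Set G)).subgroupOf R)
      = Nat.card (centralizer (R : Set G)) :=
    Nat.card_congr (Subgroup.subgroupOfEquivOfLe hle).toEquiv
  rw [← h2, h1]
  exact Cfsg.Agent.S3886.nonab_val hp hG hmc R hR

theorem upper {G : Type*} [Group G] [Finite G] {p : ℕ} [Fact p.Prime] (hp : p ≠ 2)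
    (hG : IsPGroup p G) (hmc : Cfsg.IsMetacyclic G) (R : Subgroup G) :
    Nat.card ↥R * Nat.card (centralizer (R : Set G)) ≤ (commutator G).index ^ 2 := by
  by_cases hR : IsMulCommutative ↥R
  · have hRel := (Cfsg.Agent.S3880.comm_iff_el R).mp hR
    have hRC : R ≤ centralizer (R : Set G) := by
      intro x hx; rw [mem_centralizer_iff]; intro y hy; exact hRel y hy x hx
    by_cases hC : IsMulCommutative ↥(centralizer (R : Set G))
    · have h1 := (Cfsg.Agent.S3880.result hp hG hmc _).1.mp hC
      have h2 := (Cfsg.Agent.S3880.result hp hG hmc R).1.mp hR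
      rw [sq]; exact Nat.mul_le_mul h2 h1
    · have h1 := Cfsg.Agent.S3886.nonab_val hp hG hmc _ hC
      rw [← h1, mul_comm]
      apply Nat.mul_le_mul_left
      have h2 : R.subgroupOf (centralizer (R : Set G))
          ≤ center ↥(centralizer (R : Set G)) := by
        intro x hx
        rw [Subgroup.mem_center_iff]
        intro y
        apply Subtype.ext
        exact (mem_centralizer_iff.mp y.2 (x : G) (Subgroup.mem_subgroupOf.mp hx)).symm
      have h3 : Nat.card (R.subgroupOf (centralizer (R : Set G))) = Nat.card R :=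
        Nat.card_congr (Subgroup.subgroupOfEquivOfLe hRC).toEquiv
      rw [← h3]; exact Subgroup.card_le_of_le h2
  · rw [nonab_cent hp hG hmc R hR]

theorem full {G : Type*} [Group G] [Finite G] {p : ℕ} [Fact p.Prime] (hp : p ≠ 2)
    (hG : IsPGroup p G) (hmc : Cfsg.IsMetacyclic G) (R : Subgroup G) (hZ : center G ≤ R) :
    Nat.card ↥R * Nat.card (centralizer (R : Set G)) = (commutator G).index ^ 2 := by
  by_cases hR : IsMulCommutative ↥R
  · apply le_antisymm (upper hp hG hmc R)
    obtain ⟨a, b, α, r, D⟩ := exists_data hG hmc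
    rw [← Cfsg.Agent.S3886.center_formula hp hG hmc]
    exact lower hp hG D _ R rfl hZ hR
  · exact nonab_cent hp hG hmc R hR

theorem result {G : Type*} [Group G] [Finite G] {p : ℕ} [Fact p.Prime] (hp : p ≠ 2) (hG : IsPGroup p G) (hmc : Cfsg.IsMetacyclic G) (R : Subgroup G) : Cfsg.IsCentralizerLarge R ↔ Subgroup.center G ≤ R := by
  have hmax : Cfsg.maxCentralizerProduct G = (commutator G).index ^ 2 := by
    unfold Cfsg.maxCentralizerProduct
    apply le_antisymm
    · apply csSup_le
      · exact ⟨_, ⊤, rfl⟩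
      · rintro k ⟨R, rfl⟩; exact upper hp hG hmc R
    · apply le_csSup
      · exact ⟨(commutator G).index ^ 2, by rintro k ⟨R, rfl⟩; exact upper hp hG hmc R⟩
      · exact ⟨⊤, full hp hG hmc ⊤ le_top⟩
  unfold Cfsg.IsCentralizerLarge
  rw [hmax]
  constructor
  · intro h
    have hC : centralizer (R : Set G) ≤ centralizer ((R ⊔ center G : Subgroup G) : Set G) := by
      intro x hx
      rw [mem_centralizer_iff]
      intro y hy
      have hle : R ⊔ center G ≤ centralizer ({x} : Set G) := by
        apply sup_le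
        · intro y hy; rw [mem_centralizer_singleton_iff]; exact mem_centralizer_iff.mp hx y hy
        · intro y hy; rw [mem_centralizer_singleton_iff]
          exact (Subgroup.mem_center_iff.mp hy x).symm
      exact mem_centralizer_singleton_iff.mp (hle hy)
    have h1 := upper hp hG hmc (R ⊔ center G)
    have h2 : Nat.card ↥(R ⊔ center G) * Nat.card (centralizer (R : Set G))
        ≤ Nat.card ↥R * Nat.card (centralizer (R : Set G)) := by
      rw [h]; exact le_trans (Nat.mul_le_mul_left _ (Subgroup.card_le_of_le hC)) h1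
    have h3 := Nat.le_of_mul_le_mul_right h2 Nat.card_pos
    have h4 := Subgroup.eq_of_le_of_card_ge (le_sup_left : R ≤ R ⊔ center G) h3
    exact le_of_le_of_eq le_sup_right h4.symm
  · intro h; exact full hp hG hmc R h

end Cfsg.Agent.S3887
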