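import Cfsg.Statements.S3885

import Mathlib
import Cfsg.Agent.S3880
import Cfsg.Agent.S3887

set_option autoImplicit false
open Cfsg
open scoped Pointwise

namespace Cfsg.Agent.S3885

open Subgroup

theorem result {G : Type*} [Group G] [Finite G] {p : ℕ} [Fact p.Prime] (hp : p ≠ 2) (hG : IsPGroup p G) (hmc : Cfsg.IsMetacyclic G) (K : Subgroup G) (hK : IsMulCommutative ↥K) (hZ : Subgroup.center G ≤ K) :
    K = Subgroup.centralizer (K : Set G) ⊓ Subgroup.centralizer (Subgroup.centralizer (K : Set G) : Set G) := by
  have hKel := (Cfsg.Agent.S3880.comm_iff_el K).mp hK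
  have hKC : K ≤ centralizer (K : Set G) := by
    intro x hx; rw [mem_centralizer_iff]; intro y hy; exact hKel y hy x hx
  have hKZc : K ≤ centralizer (K : Set G) ⊓ centralizer (centralizer (K : Set G) : Set G) := by
    intro x hx
    have hx2 : x ∈ centralizer (centralizer (K : Set G) : Set G) := by
      rw [mem_centralizer_iff]; intro y hy
      exact (mem_centralizer_iff.mp hy x hx).symm
    exact ⟨hKC hx, hx2⟩
  have hZcC : centralizer (K : Set G) ≤ centralizer
      ((centralizer (K : Set G) ⊓ centralizer (centralizer (K : Set G) : Set G) : Subgroup G)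
        : Set G) := by
    intro h hh
    rw [mem_centralizer_iff]; intro y hy
    exact (mem_centralizer_iff.mp hy.2 h hh).symm
  have h1 := Cfsg.Agent.S3887.full hp hG hmc K hZ
  have h2 := Cfsg.Agent.S3887.full hp hG hmc _ (le_trans hZ hKZc)
  have h3 : Nat.card ↥(centralizer (K : Set G) ⊓ centralizer (centralizer (K : Set G) : Set G)
        : Subgroup G) * Nat.card (centralizer (K : Set G))
      ≤ Nat.card K * Nat.card (centralizer (K : Set G)) := by
    rw [h1, ← h2]; exact Nat.mul_le_mul_left _ (Subgroup.card_le_of_le hZcC)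
  have h4 := Nat.le_of_mul_le_mul_right h3 Nat.card_pos
  exact Subgroup.eq_of_le_of_card_ge hKZc h4

end Cfsg.Agent.S3885
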