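import Cfsg.Statements.S3897
import Mathlib
import Cfsg.Agent.Lib.Helper6.Burnside
import Cfsg.Agent.Lib.Helper6.SylowConj

set_option autoImplicit false
open Cfsg

namespace Cfsg.Agent.S3897

open Cfsg.Agent.Lib.Helper6
open MulAction

@[reducible] def conjAct {G : Type*} [Group G] (P : Subgroup G) :
    MulAction ↥(Subgroup.normalizer (P : Set G)) ↥P where
  smul := fun w x => ⟨(w : G) * x * (w : G)⁻¹, (Subgroup.mem_normalizer_iff.1 w.2 x).1 x.2⟩
  one_smul := fun x => by
    apply Subtype.ext
    change (1 : G) * x * (1 : G)⁻¹ = x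
    group
  mul_smul := fun a b x => by
    apply Subtype.ext
    change ((a : G) * b) * x * ((a : G) * b)⁻¹ = a * (b * x * (b : G)⁻¹) * (a : G)⁻¹
    group

theorem orbit_bound {W X : Type*} [Group W] [Finite W] [MulAction W X] [Finite X] (p : ℕ)
    (C : Subgroup W) (hfix : ∀ w : W, w ∉ C → p * Nat.card (fixedBy X w) ≤ Nat.card X) :
    ∃ b : ℕ, Nat.card C + b = Nat.card W ∧
      p * (Nat.card (Quotient (orbitRel W X)) * Nat.card W) ≤ Nat.card X * (p * Nat.card C + b) := by
  classical
  haveI : Fintype W := Fintype.ofFinite W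
  have hG := Burnside.sum_fixed (G := W) (X := X)
  have hcount : (Finset.univ.filter (fun g : W => g ∈ C)).card +
      (Finset.univ.filter (fun g : W => ¬ g ∈ C)).card = Nat.card W := by
    rw [Finset.card_filter_add_card_filter_not, Finset.card_univ, Nat.card_eq_fintype_card]
  have hcD : (Finset.univ.filter (fun g : W => g ∈ C)).card = Nat.card C := by
    rw [Nat.card_eq_fintype_card]
    exact (Fintype.card_of_subtype _ (by simp)).symm
  refine ⟨(Finset.univ.filter (fun g : W => ¬ g ∈ C)).card, by rw [← hcD]; exact hcount, ?_⟩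
  rw [← hG, Finset.mul_sum, ← Finset.sum_filter_add_sum_filter_not _ (fun g : W => g ∈ C)]
  have h1 : ∑ g ∈ Finset.univ.filter (fun g : W => g ∈ C), p * Nat.card (fixedBy X g) ≤
      (Finset.univ.filter (fun g : W => g ∈ C)).card * (p * Nat.card X) := by
    rw [← smul_eq_mul, ← Finset.sum_const]
    apply Finset.sum_le_sum
    intro g _
    exact Nat.mul_le_mul_left p (Finite.card_subtype_le _)
  have h2 : ∑ g ∈ Finset.univ.filter (fun g : W => ¬ g ∈ C), p * Nat.card (fixedBy X g) ≤
      (Finset.univ.filter (fun g : W => ¬ g ∈ C)).card * Nat.card X := by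
    rw [← smul_eq_mul, ← Finset.sum_const]
    apply Finset.sum_le_sum
    intro g hg
    exact hfix g (by simpa using hg)
  rw [hcD] at h1
  calc _ ≤ Nat.card C * (p * Nat.card X) +
        (Finset.univ.filter (fun g : W => ¬ g ∈ C)).card * Nat.card X := Nat.add_le_add h1 h2
    _ = _ := by ring

theorem key {G : Type*} [Group G] [Finite G] {p : ℕ} [Fact p.Prime] (P : Sylow p G)
    (h : (p + 1) * Nat.card ↥(P : Subgroup G) < 2 * p *
      Nat.card {c : ConjClasses G // ∀ x ∈ c.carrier, ∃ k : ℕ, orderOf x = p ^ k}) :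
    Subgroup.normalizer ((P : Subgroup G) : Set G) ≤
      Subgroup.centralizer ((P : Subgroup G) : Set G) := by
  classical
  have hp : p.Prime := Fact.out
  letI := conjAct (P : Subgroup G)
  have hsmul : ∀ (w : ↥(Subgroup.normalizer ((P : Subgroup G) : Set G))) (x : ↥(P : Subgroup G)),
      ((w • x : ↥(P : Subgroup G)) : G) = (w : G) * x * (w : G)⁻¹ := fun w x => rfl
  have hfix : ∀ w : ↥(Subgroup.normalizer ((P : Subgroup G) : Set G)),
      w ∉ (Subgroup.centralizer ((P : Subgroup G) : Set G)).subgroupOf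
        (Subgroup.normalizer ((P : Subgroup G) : Set G)) →
      p * Nat.card (fixedBy ↥(P : Subgroup G) w) ≤ Nat.card ↥(P : Subgroup G) := by
    intro w hw
    have heq : fixedBy ↥(P : Subgroup G) w =
        (((Subgroup.centralizer ({(w : G)} : Set G)).subgroupOf (P : Subgroup G) :
          Subgroup ↥(P : Subgroup G)) : Set ↥(P : Subgroup G)) := by
      ext x
      rw [mem_fixedBy, SetLike.mem_coe, Subgroup.mem_subgroupOf, Subgroup.mem_centralizer_iff]
      constructor
      · intro hx z hz
        rw [Set.mem_singleton_iff] at hz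
        rw [hz]
        have h1 := congrArg Subtype.val hx
        rw [hsmul] at h1
        calc (w : G) * x = (w : G) * x * (w : G)⁻¹ * w := by group
          _ = x * w := by rw [h1]
      · intro hx
        apply Subtype.ext
        rw [hsmul]
        have h1 := hx (w : G) rfl
        rw [h1]; group
    have hne : (Subgroup.centralizer ({(w : G)} : Set G)).subgroupOf (P : Subgroup G) ≠ ⊤ := by
      intro htop
      apply hw
      rw [Subgroup.mem_subgroupOf, Subgroup.mem_centralizer_iff]
      intro x hx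
      have h1 : (⟨x, hx⟩ : ↥(P : Subgroup G)) ∈
          (Subgroup.centralizer ({(w : G)} : Set G)).subgroupOf (P : Subgroup G) := by
        rw [htop]; exact Subgroup.mem_top _
      rw [Subgroup.mem_subgroupOf, Subgroup.mem_centralizer_iff] at h1
      exact (h1 (w : G) rfl).symm
    have hidx1 : ((Subgroup.centralizer ({(w : G)} : Set G)).subgroupOf (P : Subgroup G)).index
        ≠ 1 := fun h1 => hne (Subgroup.index_eq_one.1 h1)
    obtain ⟨n, hn⟩ := IsPGroup.iff_card.1 P.isPGroup'
    have hdvd : ((Subgroup.centralizer ({(w : G)} : Set G)).subgroupOf (P : Subgroup G)).index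
        ∣ p ^ n := by
      rw [← hn]; exact Subgroup.index_dvd_card _
    obtain ⟨j, -, hj⟩ := (Nat.dvd_prime_pow hp).1 hdvd
    have hj0 : j ≠ 0 := by
      rintro rfl
      exact hidx1 (by rw [hj, pow_zero])
    have hpd : p ∣ ((Subgroup.centralizer ({(w : G)} : Set G)).subgroupOf
        (P : Subgroup G)).index := by
      rw [hj]; exact dvd_pow_self p hj0
    obtain ⟨m, hm⟩ := hpd
    have hcm := Subgroup.card_mul_index
      ((Subgroup.centralizer ({(w : G)} : Set G)).subgroupOf (P : Subgroup G))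
    have hm0 : 0 < m := by
      rcases Nat.eq_zero_or_pos m with h0 | h0
      · rw [h0, mul_zero] at hm
        exact absurd hm Subgroup.index_ne_zero_of_finite
      · exact h0
    have hcardeq : Nat.card (fixedBy ↥(P : Subgroup G) w) =
        Nat.card ((Subgroup.centralizer ({(w : G)} : Set G)).subgroupOf (P : Subgroup G)) := by
      rw [heq]; rfl
    rw [hcardeq, ← hcm, hm]
    calc p * Nat.card ((Subgroup.centralizer ({(w : G)} : Set G)).subgroupOf (P : Subgroup G))
        = Nat.card ((Subgroup.centralizer ({(w : G)} : Set G)).subgroupOf (P : Subgroup G)) *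
          (p * 1) := by ring
      _ ≤ Nat.card ((Subgroup.centralizer ({(w : G)} : Set G)).subgroupOf (P : Subgroup G)) *
          (p * m) := Nat.mul_le_mul_left _ (Nat.mul_le_mul_left p hm0)
  obtain ⟨b, hb, hle⟩ := orbit_bound (W := ↥(Subgroup.normalizer ((P : Subgroup G) : Set G)))
    (X := ↥(P : Subgroup G)) p _ hfix
  have hrep : ∀ c : {c : ConjClasses G // ∀ x ∈ c.carrier, ∃ k : ℕ, orderOf x = p ^ k},
      ∃ x : ↥(P : Subgroup G), ConjClasses.mk (x : G) = c.1 := by
    rintro ⟨c, hc⟩
    obtain ⟨x, rfl⟩ := ConjClasses.exists_rep c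
    obtain ⟨k, hk⟩ := hc x ConjClasses.mem_carrier_mk
    obtain ⟨g, hg⟩ := SylowConj.exists_conj_le_sylow P (SylowConj.isPGroup_zpowers x k hk)
    refine ⟨⟨g * x * g⁻¹, hg x (Subgroup.mem_zpowers x)⟩, ?_⟩
    exact ConjClasses.mk_eq_mk_iff_isConj.2 (isConj_iff.2 ⟨g⁻¹, by group⟩)
  choose r hr using hrep
  have hinj : Function.Injective (fun c : {c : ConjClasses G // ∀ x ∈ c.carrier,
      ∃ k : ℕ, orderOf x = p ^ k} =>
      (Quotient.mk'' (r c) : Quotient (orbitRel ↥(Subgroup.normalizer ((P : Subgroup G) : Set G))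
        ↥(P : Subgroup G)))) := by
    intro c c' hcc
    have h1 : (orbitRel ↥(Subgroup.normalizer ((P : Subgroup G) : Set G))
        ↥(P : Subgroup G)) (r c) (r c') := Quotient.exact' hcc
    rw [orbitRel_apply] at h1
    obtain ⟨w, hw⟩ := h1
    have h2 : ((r c : ↥(P : Subgroup G)) : G) = (w : G) * (r c') * (w : G)⁻¹ := by
      rw [← hsmul]; exact congrArg Subtype.val hw.symm
    apply Subtype.ext
    rw [← hr c, ← hr c', h2]
    exact ConjClasses.mk_eq_mk_iff_isConj.2 (isConj_iff.2 ⟨(w : G)⁻¹, by group⟩)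
  have hkle := Nat.card_le_card_of_injective _ hinj
  have hPpos : 0 < Nat.card ↥(P : Subgroup G) := Nat.card_pos
  have hWpos : 0 < Nat.card ↥(Subgroup.normalizer ((P : Subgroup G) : Set G)) := Nat.card_pos
  obtain ⟨K, hK⟩ : ∃ K : ℕ, K = Nat.card {c : ConjClasses G // ∀ x ∈ c.carrier,
      ∃ k : ℕ, orderOf x = p ^ k} := ⟨_, rfl⟩
  obtain ⟨O, hO⟩ : ∃ O : ℕ, O = Nat.card (Quotient (orbitRel
      ↥(Subgroup.normalizer ((P : Subgroup G) : Set G)) ↥(P : Subgroup G))) := ⟨_, rfl⟩
  obtain ⟨a, ha⟩ : ∃ a : ℕ, a = Nat.card ((Subgroup.centralizer ((P : Subgroup G) : Set G)).subgroupOf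
        (Subgroup.normalizer ((P : Subgroup G) : Set G))) := ⟨_, rfl⟩
  obtain ⟨n, hn⟩ : ∃ n : ℕ, n = Nat.card ↥(P : Subgroup G) := ⟨_, rfl⟩
  obtain ⟨ww, hww⟩ : ∃ ww : ℕ, ww = Nat.card ↥(Subgroup.normalizer ((P : Subgroup G) : Set G)) :=
    ⟨_, rfl⟩
  rw [← hK, ← hn] at h
  rw [← hK, ← hO] at hkle
  rw [← hO, ← ha, ← hn, ← hww] at hle
  rw [← ha, ← hww] at hb
  rw [← hn] at hPpos
  rw [← hww] at hWpos
  have hp2 : 2 ≤ p := hp.two_le
  have hba : b < a := by
    have e1 : (p + 1) * n * ww < 2 * p * K * ww := Nat.mul_lt_mul_of_pos_right h hWpos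
    have e2 : 2 * p * K * ww ≤ 2 * (p * (O * ww)) := by
      have : K * ww ≤ O * ww := Nat.mul_le_mul_right ww hkle
      nlinarith
    have e3 : (p + 1) * n * ww < 2 * (n * (p * a + b)) := by
      calc (p + 1) * n * ww < 2 * p * K * ww := e1
        _ ≤ 2 * (p * (O * ww)) := e2
        _ ≤ 2 * (n * (p * a + b)) := Nat.mul_le_mul_left 2 hle
    have e4 : n * ((p + 1) * ww) < n * (2 * (p * a + b)) := by
      calc n * ((p + 1) * ww) = (p + 1) * n * ww := by ring
        _ < 2 * (n * (p * a + b)) := e3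
        _ = n * (2 * (p * a + b)) := by ring
    have e5 : (p + 1) * ww < 2 * (p * a + b) := Nat.lt_of_mul_lt_mul_left e4
    rw [← hb] at e5
    by_contra hcon
    push Not at hcon
    have : (p + 1) * (a + b) ≥ 2 * (p * a + b) := by nlinarith
    omega
  have hidx := Subgroup.card_mul_index ((Subgroup.centralizer ((P : Subgroup G) : Set G)).subgroupOf
        (Subgroup.normalizer ((P : Subgroup G) : Set G)))
  rw [← ha, ← hww, ← hb] at hidx
  have hidx1 : ((Subgroup.centralizer ((P : Subgroup G) : Set G)).subgroupOf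
        (Subgroup.normalizer ((P : Subgroup G) : Set G))).index = 1 := by
    by_contra hne
    have h0 : ((Subgroup.centralizer ((P : Subgroup G) : Set G)).subgroupOf
        (Subgroup.normalizer ((P : Subgroup G) : Set G))).index ≠ 0 :=
      Subgroup.index_ne_zero_of_finite
    have h2 : 2 ≤ ((Subgroup.centralizer ((P : Subgroup G) : Set G)).subgroupOf
        (Subgroup.normalizer ((P : Subgroup G) : Set G))).index := by omega
    have : a * 2 ≤ a + b := by rw [← hidx]; exact Nat.mul_le_mul_left a h2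
    omega
  exact Subgroup.subgroupOf_eq_top.1 (Subgroup.index_eq_one.1 hidx1)

/-- Let p be an odd prime and G a finite group with Sylow p-subgroup P, and write k_p(G) for the number of conjugacy classes of G consisting of p-elements (elements of p-power order, the identity included). Then k_p(G) > (p + 1)|P|/(2p) if and only if G has a normal p-complement and P is abelian. -/
theorem result {G : Type*} [Group G] [Finite G] {p : ℕ} [Fact p.Prime] (hp : p ≠ 2) (P : Sylow p G) :
    (p + 1) * Nat.card ↥(P : Subgroup G) < 2 * p * Nat.card {c : ConjClasses G // ∀ x ∈ c.carrier, ∃ k : ℕ, orderOf x = p ^ k} ↔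
      Cfsg.HasNormalPComplement p G ∧ IsMulCommutative ↥(P : Subgroup G) := by
  have hp' : p.Prime := Fact.out
  constructor
  · intro h
    have hNC := key P h
    refine ⟨⟨P, _, MonoidHom.normal_ker _, MonoidHom.ker_transferSylow_isComplement' P hNC⟩,
      ⟨⟨fun a b => ?_⟩⟩⟩
    apply Subtype.ext
    have hb : (b : G) ∈ Subgroup.centralizer ((P : Subgroup G) : Set G) :=
      hNC (Subgroup.le_normalizer b.2)
    rw [Subgroup.mem_centralizer_iff] at hb
    exact hb a a.2
  · rintro ⟨⟨P₀, N, hN, hc⟩, hab⟩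
    haveI := hN
    have hab₀ : ∀ a b : ↥(P₀ : Subgroup G), a * b = b * a := by
      intro a b
      apply (Sylow.equiv P₀ P).injective
      rw [map_mul, map_mul]
      exact IsMulCommutative.is_comm.comm _ _
    have hpel : ∀ x : ↥(P₀ : Subgroup G), ∀ y ∈ (ConjClasses.mk (x : G)).carrier,
        ∃ k : ℕ, orderOf y = p ^ k := by
      intro x y hy
      rw [ConjClasses.mem_carrier_iff_mk_eq, ConjClasses.mk_eq_mk_iff_isConj, isConj_iff] at hy
      obtain ⟨c, hc'⟩ := hy
      obtain ⟨k, hk⟩ := P₀.isPGroup' x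
      have hk' : (x : G) ^ (p ^ k) = 1 := congrArg Subtype.val hk
      have hx : orderOf (x : G) = orderOf y := by
        have := orderOf_injective (MulAut.conj c).toMonoidHom (MulAut.conj c).injective y
        rw [← this, ← hc']
        rfl
      obtain ⟨j, -, hj⟩ := (Nat.dvd_prime_pow hp').1 (orderOf_dvd_of_pow_eq_one hk')
      exact ⟨j, hx ▸ hj⟩
    have hinj : Function.Injective (fun x : ↥(P₀ : Subgroup G) =>
        (⟨ConjClasses.mk (x : G), hpel x⟩ :
          {c : ConjClasses G // ∀ x ∈ c.carrier, ∃ k : ℕ, orderOf x = p ^ k})) := by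
      intro x y hxy
      have h1 : ConjClasses.mk (x : G) = ConjClasses.mk (y : G) := congrArg Subtype.val hxy
      rw [ConjClasses.mk_eq_mk_iff_isConj, isConj_iff] at h1
      obtain ⟨g, hg⟩ := h1
      have hgmem : g ∈ ((N ⊔ (P₀ : Subgroup G) : Subgroup G) : Set G) := by
        rw [hc.sup_eq_top]; exact Set.mem_univ g
      rw [Subgroup.normal_mul] at hgmem
      obtain ⟨n, hn, u, hu, rfl⟩ := Set.mem_mul.1 hgmem
      have hux : u * (x : G) * u⁻¹ = x := by
        have := hab₀ ⟨u, hu⟩ x
        have h2 : u * (x : G) = x * u := congrArg Subtype.val this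
        rw [h2]; group
      have hy : (y : G) = n * x * n⁻¹ := by
        rw [← hg]
        calc n * u * (x : G) * (n * u)⁻¹ = n * (u * (x : G) * u⁻¹) * n⁻¹ := by group
          _ = n * x * n⁻¹ := by rw [hux]
      have hmemN : (x : G)⁻¹ * y ∈ N := by
        rw [hy]
        have h3 : (x : G)⁻¹ * n * ((x : G)⁻¹)⁻¹ ∈ N := hN.conj_mem n hn _
        have h4 : (x : G)⁻¹ * (n * x * n⁻¹) = ((x : G)⁻¹ * n * ((x : G)⁻¹)⁻¹) * n⁻¹ := by group
        rw [h4]
        exact N.mul_mem h3 (N.inv_mem hn)
      have hmemP : (x : G)⁻¹ * y ∈ (P₀ : Subgroup G) :=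
        (P₀ : Subgroup G).mul_mem ((P₀ : Subgroup G).inv_mem x.2) y.2
      have h5 := Subgroup.disjoint_def.1 hc.disjoint hmemN hmemP
      apply Subtype.ext
      calc (x : G) = x * ((x : G)⁻¹ * y) := by rw [h5, mul_one]
        _ = y := by group
    have hle := Nat.card_le_card_of_injective _ hinj
    have hcard : Nat.card ↥(P₀ : Subgroup G) = Nat.card ↥(P : Subgroup G) :=
      Nat.card_congr (Sylow.equiv P₀ P).toEquiv
    rw [hcard] at hle
    have hPpos : 0 < Nat.card ↥(P : Subgroup G) := Nat.card_pos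
    have hp2 : 2 ≤ p := hp'.two_le
    calc (p + 1) * Nat.card ↥(P : Subgroup G) < 2 * p * Nat.card ↥(P : Subgroup G) := by
          apply Nat.mul_lt_mul_of_pos_right _ hPpos
          omega
      _ ≤ _ := Nat.mul_le_mul_left _ hle

end Cfsg.Agent.S3897
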