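import Cfsg.Statements.S3899
import Mathlib
import Cfsg.Agent.S3897
import Cfsg.Agent.Lib.Helper6.SylowConj

set_option autoImplicit false
open Cfsg

namespace Cfsg.Agent.S3899

open Cfsg.Agent.Lib.Helper6

universe u

abbrev KK (σ : Finset ℕ) (G : Type*) [Group G] : Type _ :=
  {c : ConjClasses G // ∀ x ∈ c.carrier, ∀ r : ℕ, r.Prime → r ∣ orderOf x → r ∈ σ}

abbrev Kp (p : ℕ) (G : Type*) [Group G] : Type _ :=
  {c : ConjClasses G // ∀ x ∈ c.carrier, ∃ k : ℕ, orderOf x = p ^ k}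

theorem zpow_pow_eq_one {G : Type*} [Group G] {g : G} {n : ℕ} (h : g ^ n = 1) (s : ℤ) :
    (g ^ s) ^ n = 1 := by
  rw [← zpow_natCast, ← zpow_mul, mul_comm, zpow_mul, zpow_natCast, h, one_zpow]

theorem orderOf_conj' {G : Type*} [Group G] (g x : G) : orderOf (g * x * g⁻¹) = orderOf x :=
  orderOf_injective (MulAut.conj g).toMonoidHom (MulAut.conj g).injective x

theorem orderOf_eq_of_mem {G : Type*} [Group G] {c : ConjClasses G} {x y : G}
    (hx : x ∈ c.carrier) (hy : y ∈ c.carrier) : orderOf x = orderOf y := by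
  rw [ConjClasses.mem_carrier_iff_mk_eq] at hx hy
  have h := hx.trans hy.symm
  rw [ConjClasses.mk_eq_mk_iff_isConj, isConj_iff] at h
  obtain ⟨g, rfl⟩ := h
  exact (orderOf_conj' g x).symm

theorem exists_decomp {G : Type*} [Group G] [Finite G] (x : G) {r : ℕ} (hr : r.Prime) :
    ∃ y z : G, x = y * z ∧ y * z = z * y ∧ (∃ k : ℕ, orderOf y = r ^ k) ∧
      ∀ s : ℕ, s.Prime → s ∣ orderOf z → s ∣ orderOf x ∧ s ≠ r := by
  obtain ⟨a, m, hm, hnm⟩ := Nat.exists_eq_pow_mul_and_not_dvd (orderOf_pos x).ne' r hr.ne_one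
  have hcop : IsCoprime (m : ℤ) ((r ^ a : ℕ) : ℤ) :=
    Nat.isCoprime_iff_coprime.2
      (Nat.Coprime.pow_right a ((Nat.Prime.coprime_iff_not_dvd hr).2 hm).symm)
  obtain ⟨s, t, hst⟩ := hcop
  have h1 : (x ^ m) ^ (r ^ a) = 1 := by rw [← pow_mul, mul_comm, ← hnm, pow_orderOf_eq_one]
  have h2 : (x ^ (r ^ a)) ^ m = 1 := by rw [← pow_mul, ← hnm, pow_orderOf_eq_one]
  refine ⟨(x ^ m) ^ s, (x ^ (r ^ a)) ^ t, ?_, ?_, ?_, ?_⟩
  · calc x = x ^ (1 : ℤ) := (zpow_one x).symm
      _ = x ^ (s * (m : ℤ) + t * ((r ^ a : ℕ) : ℤ)) := by rw [hst]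
      _ = (x ^ m) ^ s * (x ^ (r ^ a)) ^ t := by
        rw [zpow_add, mul_comm s, mul_comm t, zpow_mul, zpow_mul, zpow_natCast, zpow_natCast]
  · have hc : Commute ((x ^ m) ^ s) ((x ^ (r ^ a)) ^ t) :=
      ((Commute.refl x).pow_pow m (r ^ a)).zpow_zpow s t
    exact hc.eq
  · have h3 := zpow_pow_eq_one h1 s
    obtain ⟨k, -, hk⟩ := (Nat.dvd_prime_pow hr).1 (orderOf_dvd_of_pow_eq_one h3)
    exact ⟨k, hk⟩
  · intro q hq hqd
    have h4 := zpow_pow_eq_one h2 t
    have hqm : q ∣ m := hqd.trans (orderOf_dvd_of_pow_eq_one h4)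
    refine ⟨hqm.trans (Dvd.intro_left _ hnm.symm), ?_⟩
    rintro rfl
    exact hm hqm

theorem exists_rep_sylow {G : Type*} [Group G] [Finite G] {p : ℕ} [Fact p.Prime] (P : Sylow p G)
    (c : Kp p G) : ∃ x : ↥(P : Subgroup G), ConjClasses.mk (x : G) = c.1 := by
  obtain ⟨c, hc⟩ := c
  obtain ⟨x, rfl⟩ := ConjClasses.exists_rep c
  obtain ⟨k, hk⟩ := hc x ConjClasses.mem_carrier_mk
  obtain ⟨g, hg⟩ := SylowConj.exists_conj_le_sylow P (SylowConj.isPGroup_zpowers x k hk)
  refine ⟨⟨g * x * g⁻¹, hg x (Subgroup.mem_zpowers x)⟩, ?_⟩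
  exact ConjClasses.mk_eq_mk_iff_isConj.2 (isConj_iff.2 ⟨g⁻¹, by group⟩)

theorem kp_le {G : Type*} [Group G] [Finite G] (p : ℕ) [Fact p.Prime] :
    Nat.card (Kp p G) ≤ p ^ (Nat.card G).factorization p := by
  obtain ⟨P⟩ : Nonempty (Sylow p G) := inferInstance
  choose r hr using exists_rep_sylow P
  have hinj : Function.Injective r := by
    intro c c' h
    apply Subtype.ext
    rw [← hr c, ← hr c', h]
  have := Nat.card_le_card_of_injective r hinj
  rwa [Sylow.card_eq_multiplicity] at this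

theorem step {G : Type u} [Group G] [Finite G] (σ : Finset ℕ) (hσ : ∀ s ∈ σ, s.Prime) {r : ℕ}
    (hr : r.Prime)
    (hT : ∀ (C : Type u) [Group C] [Finite C],
      Nat.card (KK σ C) ≤ ∏ s ∈ σ, s ^ (Nat.card C).factorization s) :
    Nat.card (KK (insert r σ) G) ≤
      Nat.card (Kp r G) * ∏ s ∈ σ, s ^ (Nat.card G).factorization s := by
  classical
  have hrepex : ∀ d : Kp r G, ∃ y : G, ConjClasses.mk y = d.1 :=
    fun d => ConjClasses.exists_rep d.1
  choose rep hrep using hrepex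
  have hex : ∀ c : KK (insert r σ) G, ∃ d : Kp r G, ∃ z : G,
      z ∈ Subgroup.centralizer ({rep d} : Set G) ∧
      (∀ s : ℕ, s.Prime → s ∣ orderOf z → s ∈ σ) ∧
      ConjClasses.mk (rep d * z) = c.1 := by
    rintro ⟨c, hc⟩
    obtain ⟨x, rfl⟩ := ConjClasses.exists_rep c
    obtain ⟨y, z, hxyz, hcomm, ⟨k, hk⟩, hz⟩ := exists_decomp x hr
    have hyclass : ∀ w ∈ (ConjClasses.mk y).carrier, ∃ k : ℕ, orderOf w = r ^ k := by
      intro w hw
      exact ⟨k, (orderOf_eq_of_mem hw ConjClasses.mem_carrier_mk).trans hk⟩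
    obtain ⟨g, hg⟩ : ∃ g : G, g * y * g⁻¹ = rep ⟨ConjClasses.mk y, hyclass⟩ := by
      have h1 := hrep ⟨ConjClasses.mk y, hyclass⟩
      rw [ConjClasses.mk_eq_mk_iff_isConj, isConj_iff] at h1
      obtain ⟨g, hg⟩ := h1
      refine ⟨g⁻¹, ?_⟩
      generalize rep ⟨ConjClasses.mk y, hyclass⟩ = w at hg ⊢
      rw [← hg]; group
    refine ⟨⟨ConjClasses.mk y, hyclass⟩, g * z * g⁻¹, ?_, ?_, ?_⟩
    · rw [Subgroup.mem_centralizer_iff]
      intro w hw
      rw [Set.mem_singleton_iff] at hw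
      rw [hw, ← hg]
      calc g * y * g⁻¹ * (g * z * g⁻¹) = g * (y * z) * g⁻¹ := by group
        _ = g * (z * y) * g⁻¹ := by rw [hcomm]
        _ = g * z * g⁻¹ * (g * y * g⁻¹) := by group
    · intro s hs hsd
      rw [orderOf_conj'] at hsd
      obtain ⟨h1, h2⟩ := hz s hs hsd
      have h3 := hc x ConjClasses.mem_carrier_mk s hs h1
      exact (Finset.mem_insert.1 h3).resolve_left h2
    · rw [← hg]
      apply ConjClasses.mk_eq_mk_iff_isConj.2
      rw [isConj_iff]
      refine ⟨g⁻¹, ?_⟩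
      rw [hxyz]; group
  choose dd zz hzz using hex
  have hfib : ∀ d₀ : Kp r G, Nat.card {c : KK (insert r σ) G // dd c = d₀} ≤
      ∏ s ∈ σ, s ^ (Nat.card G).factorization s := by
    intro d₀
    have hmem : ∀ c : {c : KK (insert r σ) G // dd c = d₀},
        zz c.1 ∈ Subgroup.centralizer ({rep d₀} : Set G) := by
      rintro ⟨c, h⟩
      have h1 := (hzz c).1
      rw [h] at h1
      exact h1
    have hcls : ∀ c : {c : KK (insert r σ) G // dd c = d₀},
        ∀ w ∈ (ConjClasses.mk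
          (⟨zz c.1, hmem c⟩ : ↥(Subgroup.centralizer ({rep d₀} : Set G)))).carrier,
          ∀ s : ℕ, s.Prime → s ∣ orderOf w → s ∈ σ := by
      intro c w hw s hs hsd
      have h1 := orderOf_eq_of_mem hw ConjClasses.mem_carrier_mk
      rw [h1, Subgroup.orderOf_mk] at hsd
      exact (hzz c.1).2.1 s hs hsd
    have hinj : Function.Injective (fun c : {c : KK (insert r σ) G // dd c = d₀} =>
        (⟨ConjClasses.mk (⟨zz c.1, hmem c⟩ : ↥(Subgroup.centralizer ({rep d₀} : Set G))),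
          hcls c⟩ : KK σ ↥(Subgroup.centralizer ({rep d₀} : Set G)))) := by
      intro c c' h
      have h1 : ConjClasses.mk (⟨zz c.1, hmem c⟩ : ↥(Subgroup.centralizer ({rep d₀} : Set G))) =
          ConjClasses.mk ⟨zz c'.1, hmem c'⟩ := congrArg Subtype.val h
      rw [ConjClasses.mk_eq_mk_iff_isConj, isConj_iff] at h1
      obtain ⟨g, hg⟩ := h1
      have hg' : (g : G) * zz c.1 * (g : G)⁻¹ = zz c'.1 := congrArg Subtype.val hg
      have hgc := Subgroup.mem_centralizer_iff.1 g.2 (rep d₀) rfl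
      apply Subtype.ext
      apply Subtype.ext
      have e1 := (hzz c.1).2.2
      have e2 := (hzz c'.1).2.2
      rw [c.2] at e1
      rw [c'.2] at e2
      rw [← e1, ← e2, ← hg']
      apply ConjClasses.mk_eq_mk_iff_isConj.2
      rw [isConj_iff]
      refine ⟨(g : G), ?_⟩
      calc (g : G) * (rep d₀ * zz c.1) * (g : G)⁻¹
          = ((g : G) * rep d₀) * zz c.1 * (g : G)⁻¹ := by group
        _ = (rep d₀ * g) * zz c.1 * (g : G)⁻¹ := by rw [hgc]
        _ = rep d₀ * ((g : G) * zz c.1 * (g : G)⁻¹) := by group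
    have h1 := Nat.card_le_card_of_injective _ hinj
    have h2 := hT ↥(Subgroup.centralizer ({rep d₀} : Set G))
    refine h1.trans (h2.trans ?_)
    apply Finset.prod_le_prod (fun i _ => Nat.zero_le _)
    intro s hs
    apply Nat.pow_le_pow_right (hσ s hs).pos
    exact (Nat.factorization_le_iff_dvd Nat.card_pos.ne' Nat.card_pos.ne').2
      (Subgroup.card_subgroup_dvd_card _) s
  haveI : Fintype (Kp r G) := Fintype.ofFinite _
  have hcount : Nat.card (KK (insert r σ) G) =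
      ∑ d₀ : Kp r G, Nat.card {c : KK (insert r σ) G // dd c = d₀} := by
    rw [← Nat.card_sigma]
    exact Nat.card_congr (Equiv.sigmaFiberEquiv dd).symm
  rw [hcount]
  calc ∑ d₀ : Kp r G, Nat.card {c : KK (insert r σ) G // dd c = d₀}
      ≤ ∑ _d₀ : Kp r G, ∏ s ∈ σ, s ^ (Nat.card G).factorization s :=
        Finset.sum_le_sum (fun d₀ _ => hfib d₀)
    _ = Nat.card (Kp r G) * ∏ s ∈ σ, s ^ (Nat.card G).factorization s := by
      rw [Finset.sum_const, Finset.card_univ, smul_eq_mul, ← Nat.card_eq_fintype_card]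

theorem kk_le (σ : Finset ℕ) : (∀ s ∈ σ, s.Prime) → ∀ (G : Type u) [Group G] [Finite G],
    Nat.card (KK σ G) ≤ ∏ s ∈ σ, s ^ (Nat.card G).factorization s := by
  classical
  induction σ using Finset.induction_on with
  | empty =>
    intro _ G _ _
    rw [Finset.prod_empty, Finite.card_le_one_iff_subsingleton]
    constructor
    rintro ⟨c, hc⟩ ⟨c', hc'⟩
    apply Subtype.ext
    obtain ⟨x, rfl⟩ := ConjClasses.exists_rep c
    obtain ⟨x', rfl⟩ := ConjClasses.exists_rep c'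
    have h1 : x = 1 := by
      rw [← orderOf_eq_one_iff]
      by_contra hne
      obtain ⟨q, hq, hqd⟩ := Nat.exists_prime_and_dvd hne
      exact absurd (hc x ConjClasses.mem_carrier_mk q hq hqd) (Finset.notMem_empty q)
    have h2 : x' = 1 := by
      rw [← orderOf_eq_one_iff]
      by_contra hne
      obtain ⟨q, hq, hqd⟩ := Nat.exists_prime_and_dvd hne
      exact absurd (hc' x' ConjClasses.mem_carrier_mk q hq hqd) (Finset.notMem_empty q)
    subst h1
    subst h2
    rfl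
  | insert r σ hr ih =>
    intro hprime G _ _
    have hrp : r.Prime := hprime r (Finset.mem_insert_self r σ)
    haveI : Fact r.Prime := ⟨hrp⟩
    have hσ : ∀ s ∈ σ, s.Prime := fun s hs => hprime s (Finset.mem_insert_of_mem hs)
    have h1 := step (G := G) σ hσ hrp (fun C _ _ => ih hσ C)
    rw [Finset.prod_insert hr]
    exact h1.trans (Nat.mul_le_mul_right _ (kp_le r))

/-- Let π be a finite non-empty set of odd primes with smallest member p and G a finite group. Write k_π(G) for the number of conjugacy classes of G consisting of π-elements (elements all of whose order's prime divisors lie in π) and |G|_π for the π-part of the order of G. If k_π(G) > (p + 1)|G|_π/(2p), then G has a normal π-complement (a normal subgroup of order prime to π whose index is a π-number) and an abelian Hall π-subgroup. -/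
theorem result {G : Type*} [Group G] [Finite G] (π : Finset ℕ) (hπ : ∀ r ∈ π, r.Prime) (h2 : 2 ∉ π) (p : ℕ) (hp : p ∈ π)
    (hmin : ∀ r ∈ π, p ≤ r) (hk : (p + 1) * π.prod (fun r => r ^ (Nat.card G).factorization r) < 2 * p * Nat.card {c : ConjClasses G // ∀ x ∈ c.carrier, ∀ r : ℕ, r.Prime → r ∣ orderOf x → r ∈ π}) :
    (∃ N : Subgroup G, N.Normal ∧ (∀ r : ℕ, r.Prime → r ∣ Nat.card ↥N → r ∉ π) ∧ ∀ r : ℕ, r.Prime → r ∣ N.index → r ∈ π) ∧ ∃ H : Subgroup G, Cfsg.IsPiHall (↑π : Set ℕ) H ∧ IsMulCommutative ↥H := by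
  classical
  have hpp : p.Prime := hπ p hp
  have hkey : ∀ r ∈ π, ∀ (_ : Fact r.Prime) (R : Sylow r G),
      Subgroup.normalizer ((R : Subgroup G) : Set G) ≤
        Subgroup.centralizer ((R : Subgroup G) : Set G) := by
    intro r hr hfact R
    have hrp : r.Prime := hπ r hr
    apply Cfsg.Agent.S3897.key R
    have h1 : Nat.card (KK π G) ≤
        Nat.card (Kp r G) * ∏ s ∈ π.erase r, s ^ (Nat.card G).factorization s := by
      have h0 := step (G := G) (π.erase r) (fun s hs => hπ s (Finset.mem_of_mem_erase hs)) hrp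
        (fun C _ _ => kk_le (π.erase r) (fun s hs => hπ s (Finset.mem_of_mem_erase hs)) C)
      rwa [Finset.insert_erase hr] at h0
    have h2 : r ^ (Nat.card G).factorization r *
        ∏ s ∈ π.erase r, s ^ (Nat.card G).factorization s
        = ∏ s ∈ π, s ^ (Nat.card G).factorization s :=
      Finset.mul_prod_erase π (fun s => s ^ (Nat.card G).factorization s) hr
    have hM : 0 < ∏ s ∈ π.erase r, s ^ (Nat.card G).factorization s :=
      Finset.prod_pos (fun s hs => pow_pos (hπ s (Finset.mem_of_mem_erase hs)).pos _)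
    have hR : Nat.card ↥(R : Subgroup G) = r ^ (Nat.card G).factorization r :=
      Sylow.card_eq_multiplicity R
    have hpr : p ≤ r := hmin r hr
    obtain ⟨A, hA⟩ : ∃ A : ℕ, A = r ^ (Nat.card G).factorization r := ⟨_, rfl⟩
    obtain ⟨M, hMd⟩ : ∃ M : ℕ, M = ∏ s ∈ π.erase r, s ^ (Nat.card G).factorization s := ⟨_, rfl⟩
    obtain ⟨K, hK⟩ : ∃ K : ℕ, K = Nat.card (KK π G) := ⟨_, rfl⟩
    obtain ⟨k, hkd⟩ : ∃ k : ℕ, k = Nat.card (Kp r G) := ⟨_, rfl⟩
    have hk' : (p + 1) * (A * M) < 2 * p * K := by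
      rw [hA, hMd, h2, hK]; exact hk
    rw [← hK, ← hkd, ← hMd] at h1
    rw [← hMd] at hM
    rw [hR, ← hA]
    suffices hgoal : (r + 1) * A < 2 * r * k by
      rw [hkd] at hgoal
      exact hgoal
    have e1 : (p + 1) * (A * M) < 2 * p * (k * M) :=
      lt_of_lt_of_le hk' (Nat.mul_le_mul_left _ h1)
    have e2 : ((p + 1) * A) * M < (2 * p * k) * M := by
      calc ((p + 1) * A) * M = (p + 1) * (A * M) := by ring
        _ < 2 * p * (k * M) := e1
        _ = (2 * p * k) * M := by ring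
    have e3 : (p + 1) * A < 2 * p * k := Nat.lt_of_mul_lt_mul_right e2
    have e4 : (r + 1) * A * p ≤ (p + 1) * A * r := by
      nlinarith [Nat.mul_le_mul_left A hpr]
    have e5 : (r + 1) * A * p < 2 * r * k * p := by
      calc (r + 1) * A * p ≤ (p + 1) * A * r := e4
        _ < 2 * p * k * r := Nat.mul_lt_mul_of_pos_right e3 hrp.pos
        _ = 2 * r * k * p := by ring
    exact Nat.lt_of_mul_lt_mul_right e5
  have hdata : ∀ r : π, ∃ N : Subgroup G, N.Normal ∧ ¬ (r : ℕ) ∣ Nat.card N ∧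
      (∀ a b : G, a * b * a⁻¹ * b⁻¹ ∈ N) ∧ ∃ e : ℕ, ∀ g : G, g ^ ((r : ℕ) ^ e) ∈ N := by
    rintro ⟨r, hr⟩
    haveI hfact : Fact r.Prime := ⟨hπ r hr⟩
    obtain ⟨R⟩ : Nonempty (Sylow r G) := inferInstance
    have hNC := hkey r hr hfact R
    haveI : IsMulCommutative ↥(R : Subgroup G) := ⟨⟨fun a b => by
      apply Subtype.ext
      have hb : (b : G) ∈ Subgroup.centralizer ((R : Subgroup G) : Set G) :=
        hNC (Subgroup.le_normalizer b.2)
      rw [Subgroup.mem_centralizer_iff] at hb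
      exact hb a a.2⟩⟩
    refine ⟨(MonoidHom.transferSylow R hNC).ker, MonoidHom.normal_ker _,
      MonoidHom.not_dvd_card_ker_transferSylow R hNC, ?_, ?_⟩
    · intro a b
      rw [MonoidHom.mem_ker, map_mul, map_mul, map_mul, map_inv, map_inv]
      have h1 := IsMulCommutative.is_comm.comm (MonoidHom.transferSylow R hNC a)
        (MonoidHom.transferSylow R hNC b)
      rw [h1]; group
    · obtain ⟨e, he⟩ := IsPGroup.iff_card.1 R.isPGroup'
      refine ⟨e, fun g => ?_⟩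
      rw [MonoidHom.mem_ker, map_pow, ← he]
      exact pow_card_eq_one'
  choose Nr hNn hNcop hNcomm hNexp using hdata
  choose e he using hNexp
  have hNnormal : (⨅ r : π, Nr r).Normal := Subgroup.normal_iInf_normal hNn
  have hcomm : ∀ a b : G, a * b * a⁻¹ * b⁻¹ ∈ ⨅ r : π, Nr r :=
    fun a b => Subgroup.mem_iInf.2 (fun r => hNcomm r a b)
  have hord : ∀ s : ℕ, s.Prime → s ∣ Nat.card ↥(⨅ r : π, Nr r) → s ∉ π := by
    intro s hs hsd hsπ
    have hle : (⨅ r : π, Nr r) ≤ Nr ⟨s, hsπ⟩ := iInf_le _ _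
    exact hNcop ⟨s, hsπ⟩ (hsd.trans (Subgroup.card_dvd_of_le hle))
  have hidx : ∀ s : ℕ, s.Prime → s ∣ (⨅ r : π, Nr r).index → s ∈ π := by
    intro s hs hsd
    haveI := hNnormal
    haveI : Fact s.Prime := ⟨hs⟩
    rw [Subgroup.index_eq_card] at hsd
    obtain ⟨q, hq⟩ := exists_prime_orderOf_dvd_card' s hsd
    obtain ⟨g, rfl⟩ := QuotientGroup.mk_surjective q
    have hD : g ^ (∏ r : π, (r : ℕ) ^ e r) ∈ ⨅ r : π, Nr r := by
      rw [Subgroup.mem_iInf]
      intro r
      have hd : (r : ℕ) ^ e r ∣ ∏ r : π, (r : ℕ) ^ e r :=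
        Finset.dvd_prod_of_mem _ (Finset.mem_univ r)
      obtain ⟨c, hc⟩ := hd
      rw [hc, pow_mul]
      exact Subgroup.pow_mem _ (he r g) c
    have h1 : (QuotientGroup.mk g : G ⧸ ⨅ r : π, Nr r) ^ (∏ r : π, (r : ℕ) ^ e r) = 1 := by
      rw [← QuotientGroup.mk_pow]
      exact (QuotientGroup.eq_one_iff _).2 hD
    have h2 : s ∣ ∏ r : π, (r : ℕ) ^ e r := hq ▸ orderOf_dvd_of_pow_eq_one h1
    obtain ⟨r, -, hr⟩ := (Prime.dvd_finsetProd_iff hs.prime _).1 h2
    have h3 : s ∣ (r : ℕ) := hs.dvd_of_dvd_pow hr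
    have h4 : s = r := (Nat.prime_dvd_prime_iff_eq hs (hπ r r.2)).1 h3
    rw [h4]; exact r.2
  refine ⟨⟨⨅ r : π, Nr r, hNnormal, hord, hidx⟩, ?_⟩
  haveI := hNnormal
  have hcop : Nat.Coprime (Nat.card ↥(⨅ r : π, Nr r)) (⨅ r : π, Nr r).index := by
    apply Nat.Coprime.symm
    apply Nat.coprime_of_dvd
    intro k hk hk1 hk2
    exact hord k hk hk2 (hidx k hk hk1)
  obtain ⟨H, hH⟩ := Subgroup.exists_right_complement'_of_coprime hcop
  refine ⟨H, ⟨?_, ?_⟩, ⟨⟨fun a b => ?_⟩⟩⟩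
  · intro q hq hqd
    rw [← hH.symm.index_eq_card] at hqd
    exact Finset.mem_coe.2 (hidx q hq hqd)
  · intro q hq hqπ hqd
    rw [hH.index_eq_card] at hqd
    exact hord q hq hqd (Finset.mem_coe.1 hqπ)
  · apply Subtype.ext
    have h1 := hcomm (a : G) (b : G)
    have h2 : (a : G) * b * (a : G)⁻¹ * (b : G)⁻¹ ∈ H :=
      H.mul_mem (H.mul_mem (H.mul_mem a.2 b.2) (H.inv_mem a.2)) (H.inv_mem b.2)
    have h3 := Subgroup.disjoint_def.1 hH.disjoint h1 h2
    calc (a : G) * b = ((a : G) * b * (a : G)⁻¹ * (b : G)⁻¹) * (b * a) := by group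
      _ = b * a := by rw [h3, one_mul]

end Cfsg.Agent.S3899
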