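import Cfsg.Statements.S3908
import Mathlib
import Cfsg.Agent.Lib.Helper6.AbConj

set_option autoImplicit false
open Cfsg

namespace Cfsg.Agent.S3908

/-- Let G be a finite group in which any two abelian subgroups of the same order are conjugate. Then a Sylow 2-subgroup of G is cyclic, elementary abelian or generalized quaternion, and for an odd prime p a Sylow p-subgroup of G is cyclic or has exponent dividing p. -/
theorem result {G : Type*} [Group G] [Finite G] (hB : ∀ A B : Subgroup G, IsMulCommutative ↥A → IsMulCommutative ↥B → Nat.card ↥A = Nat.card ↥B → ∃ g : G, B = A.map (MulAut.conj g).toMonoidHom) :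
    (∀ P : Sylow 2 G, IsCyclic ↥(P : Subgroup G) ∨ Cfsg.IsElementaryAbelian 2 (P : Subgroup G) ∨ ∃ k : ℕ, Nonempty (↥(P : Subgroup G) ≃* QuaternionGroup (2 ^ k))) ∧
    ∀ (p : ℕ) [Fact p.Prime], p ≠ 2 → ∀ P : Sylow p G, IsCyclic ↥(P : Subgroup G) ∨ ∀ x ∈ (P : Subgroup G), x ^ p = 1 := by
  constructor
  · intro P
    haveI : Fact (Nat.Prime 2) := ⟨Nat.prime_two⟩
    rcases Cfsg.Agent.Lib.Helper6.AbConj.key hB 2 P with hexp | huniq
    · right; left
      refine ⟨⟨⟨fun a b => ?_⟩⟩, hexp⟩
      have ha : (a : G) ^ 2 = 1 := hexp a a.2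
      have hb : (b : G) ^ 2 = 1 := hexp b b.2
      have hab : ((a : G) * (b : G)) ^ 2 = 1 := hexp _ (mul_mem a.2 b.2)
      apply Subtype.ext
      show (a : G) * (b : G) = (b : G) * (a : G)
      have h1 : (a : G)⁻¹ = a := by
        rw [inv_eq_iff_mul_eq_one, ← sq]; exact ha
      have h2 : (b : G)⁻¹ = b := by
        rw [inv_eq_iff_mul_eq_one, ← sq]; exact hb
      have h3 : ((a : G) * (b : G))⁻¹ = (a : G) * (b : G) := by
        rw [inv_eq_iff_mul_eq_one, ← sq]; exact hab
      rw [← h3, mul_inv_rev, h1, h2]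
    · rcases Cfsg.Agent.Lib.Helper1.UniqP.cyclic_or_quat P.isPGroup' huniq with hc | ⟨-, n, hn⟩
      · left; exact hc
      · right; right; exact ⟨n, hn⟩
  · intro p _ hp2 P
    rcases Cfsg.Agent.Lib.Helper6.AbConj.key hB p P with hexp | huniq
    · right; exact hexp
    · rcases Cfsg.Agent.Lib.Helper1.UniqP.cyclic_or_quat P.isPGroup' huniq with hc | ⟨h2, -⟩
      · left; exact hc
      · exact absurd h2 hp2

end Cfsg.Agent.S3908
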