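import Cfsg.Statements.S3909
import Mathlib

set_option autoImplicit false
open Cfsg

namespace Cfsg.Agent.S3909

theorem part1 {G : Type*} [Group G] [Finite G]
    (hB : ∀ A B : Subgroup G, IsMulCommutative ↥A → IsMulCommutative ↥B →
      Nat.card ↥A = Nat.card ↥B → ∃ g : G, B = A.map (MulAut.conj g).toMonoidHom)
    (M : Subgroup G) [M.Normal] (a : G) (h : ∃ m ∈ M, orderOf m = orderOf a) : a ∈ M := by
  obtain ⟨m, hm, ho⟩ := h
  obtain ⟨g, hg⟩ := hB (Subgroup.zpowers m) (Subgroup.zpowers a) inferInstance inferInstance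
    (by rw [Nat.card_zpowers, Nat.card_zpowers, ho])
  have ha : a ∈ (Subgroup.zpowers m).map (MulAut.conj g).toMonoidHom :=
    hg ▸ Subgroup.mem_zpowers a
  obtain ⟨b, hb, rfl⟩ := ha
  obtain ⟨k, rfl⟩ := Subgroup.mem_zpowers_iff.mp hb
  show g * m ^ k * g⁻¹ ∈ M
  exact ‹M.Normal›.conj_mem _ (M.zpow_mem hm k) g

/-- Let G be a finite group in which any two abelian subgroups of the same order are conjugate. Let M be a normal subgroup of G. If M contains an element of the same order as a ∈ G, then a ∈ M; and if M is elementary abelian of order p^t with p prime and t ≥ 2, then M is the unique Sylow p-subgroup of G. -/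
theorem result {G : Type*} [Group G] [Finite G] (hB : ∀ A B : Subgroup G, IsMulCommutative ↥A → IsMulCommutative ↥B → Nat.card ↥A = Nat.card ↥B → ∃ g : G, B = A.map (MulAut.conj g).toMonoidHom) (M : Subgroup G) [M.Normal] :
    (∀ a : G, (∃ m ∈ M, orderOf m = orderOf a) → a ∈ M) ∧
    ∀ (p t : ℕ) [Fact p.Prime], 2 ≤ t → Nat.card ↥M = p ^ t → Cfsg.IsElementaryAbelian p M → ∀ P : Sylow p G, (P : Subgroup G) = M := by
  refine ⟨fun a h => part1 hB M a h, ?_⟩
  intro p t _ ht hcard hel P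
  have hp : p.Prime := Fact.out
  obtain ⟨hMc, hMp⟩ := hel
  have hMpg : IsPGroup p M := IsPGroup.iff_card.mpr ⟨t, hcard⟩
  have hMP : M ≤ (P : Subgroup G) := hMpg.le_sylow_of_normal P
  refine le_antisymm ?_ hMP
  intro x hx
  obtain ⟨m, hm, hm1⟩ : ∃ m ∈ M, m ≠ 1 := by
    by_contra hcon
    push Not at hcon
    have hbot : M = ⊥ := (Subgroup.eq_bot_iff_forall M).mpr hcon
    rw [hbot, Subgroup.card_bot] at hcard
    have h1 : 1 < p ^ t := Nat.one_lt_pow (by omega) hp.one_lt
    omega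
  have hmo : orderOf m = p := orderOf_eq_prime (hMp m hm) hm1
  obtain ⟨k, hk⟩ := IsPGroup.iff_orderOf.mp P.isPGroup' ⟨x, hx⟩
  have hk' : orderOf x = p ^ k := by rw [← hk, ← Subgroup.orderOf_coe]
  have hk1 : k ≤ 1 := by
    by_contra hcon
    have hk2 : 2 ≤ k := by omega
    have hd : p ^ 2 ∣ orderOf x := by rw [hk']; exact pow_dvd_pow p hk2
    have hox : orderOf x ≠ 0 := by rw [hk']; exact pow_ne_zero _ hp.ne_zero
    have hy := orderOf_pow_orderOf_div hox hd
    have hdM : p ^ 2 ∣ Nat.card M := by rw [hcard]; exact pow_dvd_pow p ht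
    obtain ⟨B', hB'⟩ := Sylow.exists_subgroup_card_pow_prime p hdM
    have hBc : IsMulCommutative ↥(B'.map M.subtype) := by
      refine ⟨⟨?_⟩⟩
      rintro ⟨a, ha⟩ ⟨b, hb⟩
      apply Subtype.ext
      have haM : a ∈ M := Subgroup.map_subtype_le B' ha
      have hbM : b ∈ M := Subgroup.map_subtype_le B' hb
      exact setLike_mul_comm haM hbM
    obtain ⟨g, hg⟩ := hB (Subgroup.zpowers (x ^ (orderOf x / p ^ 2))) (B'.map M.subtype)
      inferInstance hBc
      (by rw [Nat.card_zpowers, hy, Subgroup.card_map_of_injective (Subgroup.subtype_injective M),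
        hB'])
    have hmem : g * x ^ (orderOf x / p ^ 2) * g⁻¹ ∈ B'.map M.subtype := by
      rw [hg]
      exact ⟨_, Subgroup.mem_zpowers _, rfl⟩
    have hmemM : g * x ^ (orderOf x / p ^ 2) * g⁻¹ ∈ M := Subgroup.map_subtype_le B' hmem
    have hpow := hMp _ hmemM
    rw [conj_pow] at hpow
    have hpow' : (x ^ (orderOf x / p ^ 2)) ^ p = 1 := by
      have h3 : (x ^ (orderOf x / p ^ 2)) ^ p =
          g⁻¹ * (g * (x ^ (orderOf x / p ^ 2)) ^ p * g⁻¹) * g := by group
      rw [h3, hpow]; group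
    have h4 := orderOf_dvd_of_pow_eq_one hpow'
    rw [hy] at h4
    have h5 := Nat.le_of_dvd hp.pos h4
    have h6 : p < p ^ 2 := by
      have := hp.one_lt
      nlinarith
    omega
  rcases Nat.lt_or_ge k 1 with h0 | h1
  · have hk0 : k = 0 := by omega
    rw [hk0, pow_zero, orderOf_eq_one_iff] at hk'
    rw [hk']; exact M.one_mem
  · have hk1' : k = 1 := by omega
    rw [hk1', pow_one] at hk'
    exact part1 hB M x ⟨m, hm, by rw [hmo, hk']⟩

end Cfsg.Agent.S3909
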