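import Cfsg.Statements.S3910
import Mathlib

set_option autoImplicit false
open Cfsg

namespace Cfsg.Agent.S3910

theorem pgroup_univ {Γ : Type*} [Group Γ] [Finite Γ] {p : ℕ} (hp : p.Prime) (h : IsPGroup p Γ) :
    ∃ x : Γ, ∀ y : Γ, orderOf y ∣ orderOf x := by
  obtain ⟨x, hx⟩ := Finite.exists_max (fun y : Γ => orderOf y)
  refine ⟨x, fun y => ?_⟩
  haveI : Fact p.Prime := ⟨hp⟩
  obtain ⟨a, ha⟩ := IsPGroup.iff_orderOf.mp h x
  obtain ⟨b, hb⟩ := IsPGroup.iff_orderOf.mp h y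
  have hle : orderOf y ≤ orderOf x := hx y
  rw [ha, hb] at hle ⊢
  exact pow_dvd_pow p ((Nat.pow_le_pow_iff_right hp.one_lt).mp hle)

theorem pi_univ {ι : Type*} {Γ : ι → Type*} [∀ i, Group (Γ i)]
    (h : ∀ i, ∃ x : Γ i, ∀ y : Γ i, orderOf y ∣ orderOf x) :
    ∃ X : (∀ i, Γ i), ∀ Y : (∀ i, Γ i), orderOf Y ∣ orderOf X := by
  choose x hx using h
  refine ⟨x, fun Y => ?_⟩
  apply orderOf_dvd_of_pow_eq_one
  funext i
  rw [Pi.pow_apply, Pi.one_apply]
  have h1 : orderOf (x i) ∣ orderOf x := orderOf_map_dvd (Pi.evalMonoidHom Γ i) x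
  exact orderOf_dvd_iff_pow_eq_one.mp ((hx i (Y i)).trans h1)

theorem nilpotent_univ {G : Type*} [Group G] [Finite G] (hnil : Group.IsNilpotent G) :
    ∃ x : G, ∀ y : G, orderOf y ∣ orderOf x := by
  obtain ⟨e⟩ := ((Group.isNilpotent_of_finite_tfae (G := G)).out 0 4).mp hnil
  have h1 : ∃ X : (∀ p : (Nat.card G).primeFactors, ∀ P : Sylow (p : ℕ) G, ↥(P : Subgroup G)),
      ∀ Y : (∀ p : (Nat.card G).primeFactors, ∀ P : Sylow (p : ℕ) G, ↥(P : Subgroup G)),
        orderOf Y ∣ orderOf X := by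
    apply pi_univ
    intro p
    apply pi_univ
    intro P
    exact pgroup_univ (Nat.prime_of_mem_primeFactors p.2) P.isPGroup'
  obtain ⟨X, hX⟩ := h1
  refine ⟨e X, fun y => ?_⟩
  have h2 := hX (e.symm y)
  rw [MulEquiv.orderOf_eq] at h2
  rw [MulEquiv.orderOf_eq]
  exact h2

theorem eq_top_of_union_conj {G : Type*} [Group G] [Finite G] (H : Subgroup G)
    (h : ∀ y : G, ∃ g : G, ∃ k ∈ H, y = g * k * g⁻¹) : H = ⊤ := by
  let f : (G ⧸ H) × H → G := fun q => q.1.out * (q.2 : G) * (q.1.out)⁻¹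
  have hf : Function.Surjective f := by
    intro y
    obtain ⟨g, k, hk, rfl⟩ := h y
    obtain ⟨h₀, hh₀⟩ := QuotientGroup.mk_out_eq_mul H g
    refine ⟨((g : G ⧸ H), ⟨(h₀ : G)⁻¹ * k * h₀, H.mul_mem (H.mul_mem (H.inv_mem h₀.2) hk) h₀.2⟩), ?_⟩
    show (Quotient.out (g : G ⧸ H)) * ((h₀ : G)⁻¹ * k * h₀) * (Quotient.out (g : G ⧸ H))⁻¹ = _
    rw [hh₀]
    group
  have hcard : Nat.card ((G ⧸ H) × H) ≤ Nat.card G := by
    rw [Nat.card_prod, ← Subgroup.card_eq_card_quotient_mul_card_subgroup]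
  have hbij := hf.bijective_of_nat_card_le hcard
  apply QuotientGroup.subgroup_eq_top_of_subsingleton
  refine ⟨fun q q' => ?_⟩
  have h1 : f (q, 1) = f (q', 1) := by
    show q.out * ((1 : H) : G) * (q.out)⁻¹ = q'.out * ((1 : H) : G) * (q'.out)⁻¹
    simp
  exact congrArg Prod.fst (hbij.1 h1)

/-- A finite nilpotent group in which any two abelian subgroups of the same order are conjugate is cyclic. -/
theorem result {G : Type*} [Group G] [Finite G] (hB : ∀ A B : Subgroup G, IsMulCommutative ↥A → IsMulCommutative ↥B → Nat.card ↥A = Nat.card ↥B → ∃ g : G, B = A.map (MulAut.conj g).toMonoidHom) (hnil : Group.IsNilpotent G) : IsCyclic G := by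
  obtain ⟨x, hx⟩ := nilpotent_univ hnil
  have htop : Subgroup.zpowers x = ⊤ := by
    apply eq_top_of_union_conj
    intro y
    have hox : orderOf x ≠ 0 := (orderOf_pos x).ne'
    have hy := orderOf_pow_orderOf_div hox (hx y)
    obtain ⟨g, hg⟩ := hB (Subgroup.zpowers (x ^ (orderOf x / orderOf y))) (Subgroup.zpowers y)
      inferInstance inferInstance (by rw [Nat.card_zpowers, Nat.card_zpowers, hy])
    have hmem : y ∈ (Subgroup.zpowers (x ^ (orderOf x / orderOf y))).map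
        (MulAut.conj g).toMonoidHom := hg ▸ Subgroup.mem_zpowers y
    obtain ⟨b, hb, hby⟩ := hmem
    obtain ⟨k, hk⟩ := Subgroup.mem_zpowers_iff.mp hb
    refine ⟨g, b, ?_, hby.symm⟩
    rw [← hk]
    exact Subgroup.zpow_mem _ (Subgroup.pow_mem _ (Subgroup.mem_zpowers x) _) k
  exact isCyclic_iff_exists_zpowers_eq_top.mpr ⟨x, htop⟩

end Cfsg.Agent.S3910
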