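import Cfsg.Statements.S3917
import Mathlib

set_option autoImplicit false
open Cfsg

namespace Cfsg.Agent.S3917

theorem card_ker_pow_eq {G : Type*} [CommGroup G] [Fintype G] [DecidableEq G] (n : ℕ) :
    Nat.card (powMonoidHom n : G →* G).ker = (Finset.univ.filter (fun a : G => a ^ n = 1)).card := by
  have h1 : Nat.card (powMonoidHom n : G →* G).ker = Nat.card {a : G // a ^ n = 1} :=
    Nat.card_congr (Equiv.subtypeEquivRight (fun a => by rw [MonoidHom.mem_ker]; rfl))
  rw [h1, Nat.card_eq_fintype_card, Fintype.card_subtype]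

theorem cyclic_card_le {G : Type*} [Group G] [Finite G] (H : Subgroup G) (n : ℕ) (hn : 0 < n)
    (hH : IsCyclic H) (hall : ∀ a ∈ H, a ^ n = 1) : Nat.card H ≤ n := by
  classical
  have : Fintype H := Fintype.ofFinite H
  have h1 := IsCyclic.card_pow_eq_one_le (α := H) hn
  have h2 : (Finset.univ.filter (fun a : H => a ^ n = 1)) = Finset.univ := by
    apply Finset.filter_true_of_mem
    intro a _
    exact Subtype.ext (hall a a.2)
  rw [h2, Finset.card_univ, ← Nat.card_eq_fintype_card] at h1
  exact h1

/-- Say that a group has self-centralizing non-cyclic subgroups when every non-cyclic subgroup H satisfies C_G(H) ≤ H. A finite abelian group with self-centralizing non-cyclic subgroups is cyclic or elementary abelian of order p² for a prime p. -/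
theorem result {G : Type*} [CommGroup G] [Finite G] (hX : (∀ H : Subgroup G, ¬ IsCyclic ↥H → Subgroup.centralizer (H : Set G) ≤ H)) :
    IsCyclic G ∨ ∃ p : ℕ, p.Prime ∧ Nat.card G = p ^ 2 ∧ Monoid.exponent G = p := by
  classical
  by_cases hcyc : IsCyclic G
  · exact Or.inl hcyc
  right
  have : Fintype G := Fintype.ofFinite G
  have hprop : ∀ H : Subgroup G, H ≠ ⊤ → IsCyclic H := by
    intro H hH
    by_contra hnc
    apply hH
    rw [eq_top_iff]
    refine le_trans ?_ (hX H hnc)
    intro g _
    rw [Subgroup.mem_centralizer_iff]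
    intro h _
    exact mul_comm _ _
  have hK : ∀ n : ℕ, ∀ a : G, a ∈ (powMonoidHom n : G →* G).ker ↔ a ^ n = 1 := fun n a => by
    rw [MonoidHom.mem_ker]; rfl
  have hex : ∃ n : ℕ, 0 < n ∧ n < Nat.card (powMonoidHom n : G →* G).ker := by
    by_contra hcon
    push Not at hcon
    apply hcyc
    apply isCyclic_of_card_pow_eq_one_le
    intro n hn
    have := hcon n hn
    rw [card_ker_pow_eq] at this
    exact this
  have hn₀ := Nat.find_spec hex
  have hmin : ∀ m, m < Nat.find hex → 0 < m → Nat.card (powMonoidHom m : G →* G).ker ≤ m := by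
    intro m hm hm0
    have := Nat.find_min hex hm
    push Not at this
    exact this hm0
  generalize Nat.find hex = n₀ at hn₀ hmin
  have htop : (powMonoidHom n₀ : G →* G).ker = ⊤ := by
    by_contra hne
    have hc := hprop _ hne
    have := cyclic_card_le _ n₀ hn₀.1 hc (fun a ha => (hK n₀ a).1 ha)
    omega
  have hall : ∀ a : G, a ^ n₀ = 1 := fun a => (hK n₀ a).1 (htop ▸ Subgroup.mem_top a)
  have hcardG : n₀ < Nat.card G := by
    have := hn₀.2
    rw [htop, Subgroup.card_top] at this
    exact this
  have hn1 : n₀ ≠ 1 := by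
    rintro rfl
    have h1 : ∀ a : G, a = 1 := fun a => by simpa using hall a
    have : Subsingleton G := ⟨fun a b => by rw [h1 a, h1 b]⟩
    have := Nat.card_of_subsingleton (1 : G)
    omega
  obtain ⟨p, hp, hpn⟩ := Nat.exists_prime_and_dvd hn1
  obtain ⟨d, hd⟩ := hpn
  have hd1 : d = 1 := by
    by_contra hd1
    have hd0 : 0 < d := by
      rcases Nat.eq_zero_or_pos d with h | h
      · rw [h, mul_zero] at hd
        omega
      · exact h
    have hd2 : 2 ≤ d := by omega
    have hp2 := hp.two_le
    have hpn : p < n₀ := by rw [hd]; nlinarith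
    have hdn : d < n₀ := by rw [hd]; nlinarith
    have h1 := Subgroup.card_mul_index (powMonoidHom d : G →* G).ker
    rw [Subgroup.index_ker] at h1
    have h2 := hmin d hdn hd0
    have h3 : (powMonoidHom d : G →* G).range ≤ (powMonoidHom p : G →* G).ker := by
      rintro _ ⟨a, rfl⟩
      rw [hK]
      change (a ^ d) ^ p = 1
      rw [← pow_mul, mul_comm, ← hd]
      exact hall a
    have h4 := (Subgroup.card_le_of_le h3).trans (hmin p hpn hp.pos)
    have h5 : Nat.card G ≤ d * p := by
      rw [← h1]
      exact Nat.mul_le_mul h2 h4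
    rw [hd] at hcardG
    nlinarith
  rw [hd1, mul_one] at hd
  subst hd
  have : Fact (Nat.Prime n₀) := ⟨hp⟩
  have hexp : Monoid.exponent G = n₀ := by
    have h5 : Monoid.exponent G ∣ n₀ := Monoid.exponent_dvd_of_forall_pow_eq_one hall
    rcases (Nat.dvd_prime hp).1 h5 with h | h
    · exfalso
      have h1 : ∀ a : G, a = 1 := fun a => by
        have := Monoid.pow_exponent_eq_one a
        rwa [h, pow_one] at this
      have : Subsingleton G := ⟨fun a b => by rw [h1 a, h1 b]⟩
      have := Nat.card_of_subsingleton (1 : G)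
      have := hp.two_le
      omega
    · exact h
  refine ⟨n₀, hp, ?_, hexp⟩
  have hPG : IsPGroup n₀ G := fun g => ⟨1, by rw [pow_one]; exact hall g⟩
  obtain ⟨k, hk⟩ := IsPGroup.iff_card.1 hPG
  have hk2 : 2 ≤ k := by
    by_contra hcon
    push Not at hcon
    rcases (by omega : k = 0 ∨ k = 1) with rfl | rfl
    · rw [pow_zero] at hk
      have := hp.two_le
      omega
    · rw [pow_one] at hk
      omega
  obtain ⟨K, hKc⟩ := Sylow.exists_subgroup_card_pow_prime n₀ (n := k - 1)
    (by rw [hk]; exact pow_dvd_pow _ (by omega))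
  have hKne : K ≠ ⊤ := by
    rintro rfl
    rw [Subgroup.card_top, hk] at hKc
    have := Nat.pow_right_injective hp.two_le hKc
    omega
  have hKle := cyclic_card_le K n₀ hp.pos (hprop K hKne) (fun a _ => hall a)
  rw [hKc] at hKle
  have hk1 : k - 1 ≤ 1 := by
    have h1 : n₀ ^ (k - 1) ≤ n₀ ^ 1 := by rwa [pow_one]
    exact (Nat.pow_le_pow_iff_right hp.one_lt).1 h1
  have hk2' : k = 2 := by omega
  rw [hk, hk2']

end Cfsg.Agent.S3917
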