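import Cfsg.Statements.S3918
import Mathlib
import Cfsg.Agent.Lib.Helper6.SelfCent

set_option autoImplicit false
open Cfsg

namespace Cfsg.Agent.S3918

/-- Say that a group has self-centralizing non-cyclic subgroups when every non-cyclic subgroup H satisfies C_G(H) ≤ H. For an odd prime p, a finite non-abelian p-group has self-centralizing non-cyclic subgroups if and only if it has order p³. -/
theorem result {G : Type*} [Group G] [Finite G] {p : ℕ} [Fact p.Prime] (hp : p ≠ 2) (hG : IsPGroup p G) (hna : ¬ IsMulCommutative G) :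
    (∀ H : Subgroup G, ¬ IsCyclic ↥H → Subgroup.centralizer (H : Set G) ≤ H) ↔ Nat.card G = p ^ 3 := by
  have hna' : ∃ a b : G, a * b ≠ b * a := by
    by_contra hcon
    push_neg at hcon
    exact hna ⟨⟨hcon⟩⟩
  constructor
  · intro h
    exact Cfsg.Agent.Lib.Helper6.SelfCent.sc_card hp hG hna' h
  · intro h H hH
    exact Cfsg.Agent.Lib.Helper6.SelfCent.sc_of_card hna' h H hH

end Cfsg.Agent.S3918
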