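import Cfsg.Statements.S3920
import Mathlib

set_option autoImplicit false
open Cfsg

namespace Cfsg.Agent.S3920

theorem val_add_self {n : ℕ} [NeZero n] (x : ZMod n) (h : x + x = 0) (hx : x ≠ 0) :
    x.val + x.val = n := by
  have h1 : (x + x).val = 0 := by rw [h, ZMod.val_zero]
  rw [ZMod.val_add] at h1
  have h2 : x.val < n := ZMod.val_lt x
  have h3 : x.val ≠ 0 := fun h' => hx ((ZMod.val_eq_zero x).1 h')
  have h4 : n ∣ x.val + x.val := Nat.dvd_of_mod_eq_zero h1
  obtain ⟨t, ht⟩ := h4
  rcases t with _ | _ | t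
  · omega
  · omega
  · exfalso
    nlinarith

theorem isCyclic_of_le_zpowers {G : Type*} [Group G] (H : Subgroup G) (g : G)
    (h : H ≤ Subgroup.zpowers g) : IsCyclic H :=
  isCyclic_of_injective (Subgroup.inclusion h) (Subgroup.inclusion_injective h)

theorem exists_mul_eq {n : ℕ} [NeZero n] (m : ℕ) (hm : n = 2 ^ m) (j : ZMod n) (hj : j ≠ 0)
    (k : ZMod n) (hkk : k + k = 0) (hk : k ≠ 0) : ∃ c : ℕ, j * (c : ZMod n) = k := by
  have hex : ∃ s : ℕ, j * ((2 ^ s : ℕ) : ZMod n) = 0 :=
    ⟨m, by rw [← hm, ZMod.natCast_self, mul_zero]⟩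
  have hs := Nat.find_spec hex
  have hmin := fun t (ht : t < Nat.find hex) => Nat.find_min hex ht
  generalize Nat.find hex = s at hs hmin
  have hs0 : s ≠ 0 := by
    rintro rfl
    apply hj
    simpa using hs
  obtain ⟨t, rfl⟩ := Nat.exists_eq_succ_of_ne_zero hs0
  refine ⟨2 ^ t, ?_⟩
  have h1 : j * ((2 ^ t : ℕ) : ZMod n) ≠ 0 := hmin t (Nat.lt_succ_self t)
  have h2 : j * ((2 ^ t : ℕ) : ZMod n) + j * ((2 ^ t : ℕ) : ZMod n) = 0 := by
    rw [← hs, pow_succ]
    push_cast
    ring
  have hv1 := val_add_self _ h2 h1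
  have hv2 := val_add_self k hkk hk
  exact ZMod.val_injective n (by omega)

theorem self_centralizing_of {n : ℕ} [NeZero n] (hodd2 : Odd n ∨ ∃ k, n = 2 ^ k)
    (H : Subgroup (DihedralGroup n)) (hH : ¬ IsCyclic H) :
    Subgroup.centralizer (H : Set (DihedralGroup n)) ≤ H := by
  have ha : ∃ i, DihedralGroup.sr i ∈ H := by
    by_contra hcon
    push Not at hcon
    apply hH
    apply isCyclic_of_le_zpowers H (DihedralGroup.r 1)
    intro x hx
    rcases x with j | j
    · rw [Subgroup.mem_zpowers_iff]
      refine ⟨(j.val : ℤ), ?_⟩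
      rw [zpow_natCast, DihedralGroup.r_one_pow, ZMod.natCast_zmod_val]
    · exact absurd hx (hcon j)
  obtain ⟨i, hi⟩ := ha
  have hb : ∃ j, j ≠ 0 ∧ DihedralGroup.r j ∈ H := by
    by_contra hcon
    push Not at hcon
    apply hH
    apply isCyclic_of_le_zpowers H (DihedralGroup.sr i)
    intro x hx
    rcases x with j | j
    · have : j = 0 := by
        by_contra h
        exact hcon j h hx
      rw [this, DihedralGroup.r_zero]
      exact Subgroup.one_mem _
    · have h1 : DihedralGroup.sr i * DihedralGroup.sr j ∈ H := H.mul_mem hi hx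
      rw [DihedralGroup.sr_mul_sr] at h1
      have : j - i = 0 := by
        by_contra h
        exact hcon _ h h1
      rw [sub_eq_zero] at this
      rw [this]
      exact Subgroup.mem_zpowers _
  obtain ⟨j, hj0, hj⟩ := hb
  intro g hg
  rw [Subgroup.mem_centralizer_iff] at hg
  have hgi := hg _ hi
  have hgj := hg _ hj
  rcases g with k | k
  · rw [DihedralGroup.sr_mul_r, DihedralGroup.r_mul_sr] at hgi
    have hkk : k + k = 0 := by
      have := DihedralGroup.sr.inj hgi
      linear_combination this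
    by_cases hk0 : k = 0
    · rw [hk0, DihedralGroup.r_zero]
      exact Subgroup.one_mem _
    · have hv := val_add_self k hkk hk0
      rcases hodd2 with hodd | ⟨m, hm⟩
      · exfalso
        rw [← hv] at hodd
        exact (Nat.not_odd_iff_even.2 ⟨k.val, rfl⟩) hodd
      · obtain ⟨c, hc⟩ := exists_mul_eq m hm j hj0 k hkk hk0
        have : DihedralGroup.r k = (DihedralGroup.r j) ^ c := by
          rw [DihedralGroup.r_pow, hc]
        rw [this]
        exact H.pow_mem hj c
  · rw [DihedralGroup.r_mul_sr, DihedralGroup.sr_mul_r] at hgj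
    have hjj : j + j = 0 := by
      have := DihedralGroup.sr.inj hgj
      linear_combination -this
    have hvj := val_add_self j hjj hj0
    rw [DihedralGroup.sr_mul_sr, DihedralGroup.sr_mul_sr] at hgi
    have hd : (k - i) + (k - i) = 0 := by
      have := DihedralGroup.r.inj hgi
      linear_combination this
    by_cases hki : k - i = 0
    · rw [sub_eq_zero] at hki
      rw [hki]
      exact hi
    · have hvd := val_add_self (k - i) hd hki
      have : k - i = j := ZMod.val_injective n (by omega)
      have hk : k = i + j := by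
        rw [← this]
        ring
      rw [hk, ← DihedralGroup.sr_mul_r]
      exact H.mul_mem hi hj

noncomputable def dihedralCast (n d : ℕ) (h : d ∣ n) : DihedralGroup n →* DihedralGroup d :=
  MonoidHom.mk' (fun x => match x with
    | DihedralGroup.r i => DihedralGroup.r (ZMod.castHom h (ZMod d) i)
    | DihedralGroup.sr i => DihedralGroup.sr (ZMod.castHom h (ZMod d) i))
    (by
      rintro (i | i) (j | j)
      · simp only [DihedralGroup.r_mul_r, map_add]
      · simp only [DihedralGroup.r_mul_sr, map_sub]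
      · simp only [DihedralGroup.sr_mul_r, map_add]
      · simp only [DihedralGroup.sr_mul_sr, map_sub])

theorem dihedralCast_r (n d : ℕ) (h : d ∣ n) (i : ZMod n) :
    dihedralCast n d h (DihedralGroup.r i) = DihedralGroup.r (ZMod.castHom h (ZMod d) i) := rfl

theorem dihedralCast_sr (n d : ℕ) (h : d ∣ n) (i : ZMod n) :
    dihedralCast n d h (DihedralGroup.sr i) = DihedralGroup.sr (ZMod.castHom h (ZMod d) i) := rfl

/-- Say that a group has self-centralizing non-cyclic subgroups when every non-cyclic subgroup H satisfies C_G(H) ≤ H. For n ≥ 3, the dihedral group of order 2n has self-centralizing non-cyclic subgroups if and only if n is odd or a power of 2. -/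
theorem result (n : ℕ) (hn : 3 ≤ n) : (∀ H : Subgroup (DihedralGroup n), ¬ IsCyclic ↥H → Subgroup.centralizer (H : Set (DihedralGroup n)) ≤ H) ↔ (Odd n ∨ ∃ k : ℕ, n = 2 ^ k) := by
  have : NeZero n := ⟨by omega⟩
  constructor
  · intro hX
    by_contra hcon
    push Not at hcon
    obtain ⟨hnodd, hnpow⟩ := hcon
    obtain ⟨a, m, hm, hnm⟩ := Nat.exists_eq_two_pow_mul_odd (by omega : n ≠ 0)
    have ha : a ≠ 0 := by
      rintro rfl
      apply hnodd
      rw [hnm]
      simpa using hm
    have hm1 : m ≠ 1 := by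
      rintro rfl
      exact hnpow a (by rw [hnm, mul_one])
    have hm3 : 3 ≤ m := by
      obtain ⟨t, ht⟩ := hm
      omega
    obtain ⟨b, rfl⟩ := Nat.exists_eq_succ_of_ne_zero ha
    have hdvd : 2 ^ (b + 1) ∣ n := ⟨m, hnm⟩
    have hsr : DihedralGroup.sr (0 : ZMod n) ∈
        (Subgroup.zpowers (DihedralGroup.sr (0 : ZMod (2 ^ (b + 1))))).comap
          (dihedralCast n (2 ^ (b + 1)) hdvd) := by
      rw [Subgroup.mem_comap, dihedralCast_sr, map_zero]
      exact Subgroup.mem_zpowers _
    have hr : DihedralGroup.r ((2 ^ (b + 1) : ℕ) : ZMod n) ∈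
        (Subgroup.zpowers (DihedralGroup.sr (0 : ZMod (2 ^ (b + 1))))).comap
          (dihedralCast n (2 ^ (b + 1)) hdvd) := by
      rw [Subgroup.mem_comap, dihedralCast_r, map_natCast, ZMod.natCast_self,
        DihedralGroup.r_zero]
      exact Subgroup.one_mem _
    have hnc : ¬ IsCyclic ↥((Subgroup.zpowers (DihedralGroup.sr (0 : ZMod (2 ^ (b + 1))))).comap
          (dihedralCast n (2 ^ (b + 1)) hdvd)) := by
      intro hc
      obtain ⟨g, hg⟩ := hc.exists_generator
      obtain ⟨e1, he1⟩ := Subgroup.mem_zpowers_iff.1 (hg ⟨_, hsr⟩)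
      obtain ⟨e2, he2⟩ := Subgroup.mem_zpowers_iff.1 (hg ⟨_, hr⟩)
      have hcomm : g ^ e1 * g ^ e2 = g ^ e2 * g ^ e1 := by
        rw [← zpow_add, ← zpow_add, add_comm e1 e2]
      rw [he1, he2] at hcomm
      have h1 := congrArg Subtype.val hcomm
      simp only [Subgroup.coe_mul] at h1
      rw [DihedralGroup.sr_mul_r, DihedralGroup.r_mul_sr] at h1
      have h2 := DihedralGroup.sr.inj h1
      have h3 : ((2 ^ (b + 1) + 2 ^ (b + 1) : ℕ) : ZMod n) = 0 := by
        rw [Nat.cast_add]
        linear_combination h2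
      rw [ZMod.natCast_eq_zero_iff] at h3
      have h4 : m ∣ 2 := by
        have : 2 ^ (b + 1) * m ∣ 2 ^ (b + 1) * 2 := by
          rw [mul_two, ← hnm]
          exact h3
        exact (Nat.mul_dvd_mul_iff_left (by positivity)).1 this
      have := Nat.le_of_dvd (by norm_num) h4
      omega
    have hn2 : n / 2 = 2 ^ b * m := by
      rw [hnm, pow_succ]
      have : 2 ^ b * 2 * m = 2 * (2 ^ b * m) := by ring
      rw [this, Nat.mul_div_cancel_left _ (by norm_num : 0 < 2)]
    have hz : DihedralGroup.r ((n / 2 : ℕ) : ZMod n) ∈ Subgroup.centralizer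
        (((Subgroup.zpowers (DihedralGroup.sr (0 : ZMod (2 ^ (b + 1))))).comap
          (dihedralCast n (2 ^ (b + 1)) hdvd) : Subgroup (DihedralGroup n)) :
            Set (DihedralGroup n)) := by
      rw [Subgroup.mem_centralizer_iff]
      have h2 : ((n / 2 : ℕ) : ZMod n) + ((n / 2 : ℕ) : ZMod n) = 0 := by
        have : n / 2 + n / 2 = n := by
          rw [hn2, hnm, pow_succ]
          ring
        rw [← Nat.cast_add, this, ZMod.natCast_self]
      rintro (i | i) _
      · rw [DihedralGroup.r_mul_r, DihedralGroup.r_mul_r, add_comm]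
      · rw [DihedralGroup.sr_mul_r, DihedralGroup.r_mul_sr]
        congr 1
        linear_combination h2
    have hzH := hX _ hnc hz
    rw [Subgroup.mem_comap, dihedralCast_r, map_natCast] at hzH
    obtain ⟨e, he⟩ := Subgroup.mem_zpowers_iff.1 hzH
    have h5 : ((n / 2 : ℕ) : ZMod (2 ^ (b + 1))) = 0 := by
      rcases Int.even_or_odd e with ⟨t, ht⟩ | ⟨t, ht⟩
      · rw [ht, ← two_mul, zpow_mul, zpow_ofNat, sq, DihedralGroup.sr_mul_self, one_zpow,
          DihedralGroup.one_def] at he
        exact (DihedralGroup.r.inj he).symm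
      · exfalso
        rw [ht, zpow_add, zpow_one, zpow_mul, zpow_ofNat, sq, DihedralGroup.sr_mul_self,
          one_zpow, one_mul] at he
        cases he
    rw [ZMod.natCast_eq_zero_iff, hn2, pow_succ] at h5
    have h6 : 2 ∣ m := (Nat.mul_dvd_mul_iff_left (by positivity)).1 h5
    exact (Nat.not_even_iff_odd.2 hm) (even_iff_two_dvd.2 h6)
  · intro h H hH
    exact self_centralizing_of h H hH

end Cfsg.Agent.S3920
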