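import Cfsg.Statements.S3937
import Mathlib
import Cfsg.Agent.S0540
import Cfsg.Agent.Lib.Helper2.Fit
import Cfsg.Agent.Lib.Helper2.Sub
import Cfsg.Agent.Lib.Helper6.ConjSmul

set_option autoImplicit false
open Cfsg

namespace Cfsg.Agent.S3937

open Cfsg.Agent.Lib.Helper2.Sub
open Cfsg.Agent.Lib.Helper6
open scoped Pointwise

universe u

/-- iterated commutator `[x, g, …, g]`. -/
def eng {G : Type*} [Group G] (g : G) (n : ℕ) (x : G) : G :=
  (List.replicate n g).foldl (fun a b => a * b * a⁻¹ * b⁻¹) x

theorem eng_zero {G : Type*} [Group G] (g x : G) : eng g 0 x = x := rfl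

theorem eng_succ {G : Type*} [Group G] (g x : G) (n : ℕ) :
    eng g (n + 1) x = eng g n (x * g * x⁻¹ * g⁻¹) := by
  simp [eng, List.replicate_succ]

theorem eng_map {G H : Type*} [Group G] [Group H] (f : G →* H) (g x : G) (n : ℕ) :
    f (eng g n x) = eng (f g) n (f x) := by
  induction n generalizing x with
  | zero => rfl
  | succ n ih => rw [eng_succ, eng_succ, ih]; simp

def LeftEngel {G : Type*} [Group G] (g : G) : Prop := ∀ x : G, ∃ n : ℕ, eng g n x = 1

theorem zipper {G : Type*} [Group G] [Finite G] (A : Subgroup G)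
    (hsub : ∀ V : Subgroup G, V ≠ ⊤ → ∀ c : G, MulAut.conj c • A ≤ V →
      RelSN (MulAut.conj c • A) V)
    (hnot : ¬ A.IsSubnormal) :
    ∃ M : Subgroup G, M ≠ ⊤ ∧ A ≤ M ∧ ∀ V : Subgroup G, V ≠ ⊤ → A ≤ V → V ≤ M := by
  have hA : A ≠ ⊤ := by
    rintro rfl; exact hnot Subgroup.IsSubnormal.top
  have hA1 : ∀ V : Subgroup G, V ≠ ⊤ → A ≤ V → RelSN A V := by
    intro V hV hAV
    have := hsub V hV 1 (by rwa [map_one, one_smul])
    rwa [map_one, one_smul] at this
  have key := Cfsg.Agent.S0540.result A {V | A ≤ V ∧ V ≠ ⊤} ⟨A, le_rfl, hA⟩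
    (fun V => {B | (∃ g : G, B = MulAut.conj g • A) ∧ B ≤ V ∧ (B.subgroupOf V).IsSubnormal})
    (fun V B => Iff.rfl)
    (by
      intro V hV
      exact ⟨⟨1, by rw [map_one, one_smul]⟩, hV.1, (hA1 V hV.2 hV.1).2⟩)
    (by
      rintro V hV W hW B ⟨⟨g, rfl⟩, hBW, hsn⟩ hBV
      exact ⟨⟨g, rfl⟩, hBV, (hsub V hV.2 g hBV).2⟩)
    (by
      intro V hV W hW
      set T : Subgroup G := sSup
        ({B | (∃ g : G, B = MulAut.conj g • A) ∧ B ≤ V ∧ (B.subgroupOf V).IsSubnormal} ∩
         {B | (∃ g : G, B = MulAut.conj g • A) ∧ B ≤ W ∧ (B.subgroupOf W).IsSubnormal}) with hT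
      have hAT : A ≤ T := by
        apply le_sSup
        exact ⟨⟨⟨1, by rw [map_one, one_smul]⟩, hV.1, (hA1 V hV.2 hV.1).2⟩,
          ⟨⟨1, by rw [map_one, one_smul]⟩, hW.1, (hA1 W hW.2 hW.1).2⟩⟩
      have hTV : T ≤ V := by
        apply sSup_le
        rintro B ⟨⟨-, hBV, -⟩, -⟩
        exact hBV
      refine ⟨Subgroup.normalizer (T : Set G), ⟨hAT.trans Subgroup.le_normalizer, ?_⟩, le_rfl⟩
      intro htop
      have hTn : T.Normal := Subgroup.normalizer_eq_top_iff.mp htop
      have h1 : RelSN A T := (hA1 V hV.2 hV.1).of_le hAT hTV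
      exact hnot (h1.isSubnormal hTn.isSubnormal))
  obtain ⟨M, hM, hmax⟩ := key
  exact ⟨M, hM.2, hM.1, fun V hV hAV => hmax V ⟨hAV, hV⟩⟩

theorem engel_sn : ∀ (n : ℕ) (G : Type u) [Group G] [Finite G], Nat.card G = n →
    ∀ g : G, LeftEngel g → (Subgroup.zpowers g).IsSubnormal := by
  intro n
  induction n using Nat.strong_induction_on with
  | _ n ih =>
    intro G _ _ hn g hg
    by_contra hnot
    have hsub : ∀ V : Subgroup G, V ≠ ⊤ → ∀ c : G, MulAut.conj c • Subgroup.zpowers g ≤ V →
        RelSN (MulAut.conj c • Subgroup.zpowers g) V := by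
      intro V hV c hcV
      have hconj : MulAut.conj c • Subgroup.zpowers g = Subgroup.zpowers (c * g * c⁻¹) := by
        ext y
        rw [ConjSmul.mem_conj_smul, Subgroup.mem_zpowers_iff, Subgroup.mem_zpowers_iff]
        constructor
        · rintro ⟨k, hk⟩
          refine ⟨k, ?_⟩
          have : y = c * (c⁻¹ * y * c) * c⁻¹ := by group
          rw [this, ← hk]
          simp
        · rintro ⟨k, hk⟩
          refine ⟨k, ?_⟩
          rw [← hk]
          simp only [conj_zpow]
          group
      rw [hconj] at hcV ⊢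
      have hmem : c * g * c⁻¹ ∈ V := hcV (Subgroup.mem_zpowers _)
      have hlt : Nat.card V < n := by
        rw [← hn, ← Subgroup.card_top (G := G)]
        exact card_lt_of_ne le_top hV
      have hE : LeftEngel (⟨c * g * c⁻¹, hmem⟩ : V) := by
        intro y
        obtain ⟨k, hk⟩ := hg (c⁻¹ * (y : G) * c)
        refine ⟨k, ?_⟩
        apply Subtype.ext
        have h1 := eng_map V.subtype ⟨c * g * c⁻¹, hmem⟩ y k
        simp only [Subgroup.coe_subtype] at h1
        rw [h1]
        have h2 := eng_map (MulAut.conj c).toMonoidHom g (c⁻¹ * (y : G) * c) k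
        simp only [MulEquiv.coe_toMonoidHom, MulAut.conj_apply] at h2
        have h3 : c * (c⁻¹ * (y : G) * c) * c⁻¹ = (y : G) := by group
        rw [h3, hk] at h2
        rw [← h2]
        simp
      have hV' := ih _ hlt ↥V rfl _ hE
      refine ⟨hcV, ?_⟩
      have e : (Subgroup.zpowers (c * g * c⁻¹)).subgroupOf V =
          Subgroup.zpowers (⟨c * g * c⁻¹, hmem⟩ : V) := by
        ext y
        simp only [Subgroup.mem_subgroupOf, Subgroup.mem_zpowers_iff]
        constructor
        · rintro ⟨k, hk⟩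
          exact ⟨k, Subtype.ext (by simpa using hk)⟩
        · rintro ⟨k, hk⟩
          exact ⟨k, by rw [← hk]; simp⟩
      rw [e]; exact hV'
    obtain ⟨M, hM, hAM, hmax⟩ := zipper _ hsub hnot
    have hgM : g ∈ M := hAM (Subgroup.mem_zpowers g)
    by_cases hMn : M.Normal
    · have h1 : RelSN (Subgroup.zpowers g) M := by
        have := hsub M hM 1 (by rwa [map_one, one_smul])
        rwa [map_one, one_smul] at this
      exact hnot (h1.isSubnormal hMn.isSubnormal)
    · have hN : Subgroup.normalizer (M : Set G) ≠ ⊤ :=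
        fun h => hMn (Subgroup.normalizer_eq_top_iff.mp h)
      have hNM : Subgroup.normalizer (M : Set G) ≤ M :=
        hmax _ hN (hAM.trans Subgroup.le_normalizer)
      have key : ∀ z : G, z * g * z⁻¹ ∈ M → z ∈ M := by
        intro z hz
        have h1 : Subgroup.zpowers g ≤ MulAut.conj z⁻¹ • M := by
          rw [Subgroup.zpowers_le, ConjSmul.mem_conj_smul]
          simpa using hz
        have h2 : MulAut.conj z⁻¹ • M ≠ ⊤ := by
          intro h
          apply hM
          rw [eq_top_iff]
          intro w _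
          have hw : z⁻¹ * w * z ∈ MulAut.conj z⁻¹ • M := by rw [h]; trivial
          rw [ConjSmul.mem_conj_smul] at hw
          have : z⁻¹⁻¹ * (z⁻¹ * w * z) * z⁻¹ = w := by group
          rwa [this] at hw
        have h3 := hmax _ h2 h1
        have h4 : MulAut.conj z⁻¹ • M = M := Cfsg.Agent.S0539.smul_eq_of_le z⁻¹ M h3
        have h5 : z ∈ Subgroup.normalizer (M : Set G) := by
          rw [Subgroup.mem_normalizer_iff]
          intro h
          constructor
          · intro hh
            have : h ∈ MulAut.conj z⁻¹ • M := by rw [h4]; exact hh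
            rw [ConjSmul.mem_conj_smul] at this
            simpa using this
          · intro hh
            have : h ∈ MulAut.conj z⁻¹ • M := by
              rw [ConjSmul.mem_conj_smul]
              simpa using hh
            rwa [h4] at this
        exact hNM h5
      have chain : ∀ (k : ℕ) (x : G), eng g k x ∈ M → x ∈ M := by
        intro k
        induction k with
        | zero => intro x hx; exact hx
        | succ k ihk =>
          intro x hx
          rw [eng_succ] at hx
          have h1 := ihk _ hx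
          apply key
          have : x * g * x⁻¹ = (x * g * x⁻¹ * g⁻¹) * g := by group
          rw [this]
          exact M.mul_mem h1 hgM
      apply hM
      rw [eq_top_iff]
      intro x _
      obtain ⟨k, hk⟩ := hg x
      exact chain k x (by rw [hk]; exact M.one_mem)

/-- Baer's characterization of the Fitting subgroup: in a finite group G, an element g lies in the Fitting subgroup if and only if g is a left Engel element, that is, for every x there is n with [x, g, g, …, g] = 1 (n entries g, [a, b] = aba⁻¹b⁻¹). -/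
theorem result {G : Type*} [Group G] [Finite G] (g : G) :
    g ∈ Cfsg.fittingSubgroup G ↔ ∀ x : G, ∃ n : ℕ, (List.replicate n g).foldl (fun a b => a * b * a⁻¹ * b⁻¹) x = 1 := by
  constructor
  · intro hg x
    haveI hFn := Cfsg.Agent.Lib.Helper2.Fit.fitting_normal (G := G)
    have hnil := Cfsg.Agent.Lib.Helper2.Fit.fitting_nilpotent (G := G)
    obtain ⟨c, hc⟩ := Subgroup.nilpotent_iff_lowerCentralSeries.mp hnil
    have he1 : x * g * x⁻¹ * g⁻¹ ∈ Cfsg.fittingSubgroup G :=
      Subgroup.mul_mem _ (hFn.conj_mem g hg x) (Subgroup.inv_mem _ hg)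
    have key : ∀ (j k : ℕ) (y : ↥(Cfsg.fittingSubgroup G)),
        y ∈ Subgroup.lowerCentralSeries (⊤ : Subgroup ↥(Cfsg.fittingSubgroup G)) k →
        eng (⟨g, hg⟩ : ↥(Cfsg.fittingSubgroup G)) j y ∈
          Subgroup.lowerCentralSeries (⊤ : Subgroup ↥(Cfsg.fittingSubgroup G)) (k + j) := by
      intro j
      induction j with
      | zero => intro k y hy; exact hy
      | succ j ih =>
        intro k y hy
        rw [eng_succ]
        have h1 : y * (⟨g, hg⟩ : ↥(Cfsg.fittingSubgroup G)) * y⁻¹ * (⟨g, hg⟩ : ↥(Cfsg.fittingSubgroup G))⁻¹ ∈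
            Subgroup.lowerCentralSeries (⊤ : Subgroup ↥(Cfsg.fittingSubgroup G)) (k + 1) := by
          rw [Subgroup.lowerCentralSeries_succ]
          exact Subgroup.subset_closure ⟨y, hy, ⟨g, hg⟩, Subgroup.mem_top _, rfl⟩
        have h2 := ih (k + 1) _ h1
        rwa [show k + 1 + j = k + (j + 1) by ring] at h2
    have h1 := key c 0 ⟨_, he1⟩ (by rw [Subgroup.lowerCentralSeries_zero]; trivial)
    rw [zero_add, hc, Subgroup.mem_bot] at h1
    refine ⟨c + 1, ?_⟩
    show eng g (c + 1) x = 1
    rw [eng_succ]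
    have h2 := eng_map (Cfsg.fittingSubgroup G).subtype ⟨g, hg⟩ ⟨_, he1⟩ c
    rw [h1] at h2
    simpa using h2.symm
  · intro h
    have hsn := engel_sn _ G rfl g h
    have hnil : Group.IsNilpotent ↥(Subgroup.zpowers g) := by
      letI : CommGroup ↥(Subgroup.zpowers g) := IsCyclic.commGroup
      exact CommGroup.isNilpotent
    exact Cfsg.Agent.Lib.Helper2.Fit.sn_nilpotent_le_fitting hsn hnil (Subgroup.mem_zpowers g)

end Cfsg.Agent.S3937
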