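import Cfsg.Statements.S3939
import Mathlib
import Cfsg.Agent.Lib.Helper6.Primary

set_option autoImplicit false
open Cfsg

namespace Cfsg.Agent.S3939

open Cfsg.Agent.Lib.Helper6
open scoped commutatorElement

/-- elements of coprime order in a nilpotent group commute. -/
theorem commute_of_coprime (G : Type*) [Group G] [Group.IsNilpotent G] :
    ∀ a b : G, (orderOf a).Coprime (orderOf b) → a * b = b * a := by
  refine nilpotent_center_quotient_ind
    (P := fun G _ _ => ∀ a b : G, (orderOf a).Coprime (orderOf b) → a * b = b * a) G ?_ ?_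
  · intro G _ _ a b _
    exact Subsingleton.elim _ _
  · intro G _ _ ih a b hab
    have h1 : orderOf (QuotientGroup.mk' (Subgroup.center G) a) ∣ orderOf a := orderOf_map_dvd _ a
    have h2 : orderOf (QuotientGroup.mk' (Subgroup.center G) b) ∣ orderOf b := orderOf_map_dvd _ b
    have hq := ih (QuotientGroup.mk' (Subgroup.center G) a) (QuotientGroup.mk' (Subgroup.center G) b)
      ((hab.coprime_dvd_left h1).coprime_dvd_right h2)
    have hc : a * b * a⁻¹ * b⁻¹ ∈ Subgroup.center G := by
      rw [← QuotientGroup.eq_one_iff]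
      have e : ((a * b * a⁻¹ * b⁻¹ : G) : G ⧸ Subgroup.center G) =
          (QuotientGroup.mk' (Subgroup.center G) a) * (QuotientGroup.mk' (Subgroup.center G) b) *
          (QuotientGroup.mk' (Subgroup.center G) a)⁻¹ * (QuotientGroup.mk' (Subgroup.center G) b)⁻¹ := by
        simp
      rw [e, hq]
      group
    set c := a * b * a⁻¹ * b⁻¹ with hcdef
    have hcc : ∀ x : G, c * x = x * c := fun x => (Subgroup.mem_center_iff.mp hc x).symm
    have hcomm : Commute c b := hcc b
    have e1 : c ^ orderOf b = 1 := by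
      have h : (c * b) ^ orderOf b = 1 := by
        have : c * b = a * b * a⁻¹ := by rw [hcdef]; group
        rw [this, conj_pow, pow_orderOf_eq_one]; group
      rwa [hcomm.mul_pow, pow_orderOf_eq_one, mul_one] at h
    have e2 : c ^ orderOf a = 1 := by
      have h : (a⁻¹ * c) ^ orderOf a = 1 := by
        have : a⁻¹ * c = b * a⁻¹ * b⁻¹ := by rw [hcdef]; group
        rw [this, conj_pow, inv_pow, pow_orderOf_eq_one]; group
      have hc2 : Commute a⁻¹ c := (hcc a⁻¹).symm
      rwa [hc2.mul_pow, inv_pow, pow_orderOf_eq_one, inv_one, one_mul] at h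
    have e3 : orderOf c ∣ 1 := by
      have := Nat.dvd_gcd (orderOf_dvd_of_pow_eq_one e2) (orderOf_dvd_of_pow_eq_one e1)
      rwa [Nat.Coprime.gcd_eq_one hab] at this
    have e4 : c = 1 := orderOf_eq_one_iff.mp (Nat.dvd_one.mp e3)
    calc a * b = (a * b * a⁻¹ * b⁻¹) * (b * a) := by group
      _ = b * a := by rw [← hcdef, e4, one_mul]

/-- an element lies in a subgroup as soon as all its primary powers do. -/
theorem mem_of_primary {G : Type*} [Group G] [Finite G] (y : G) (H : Subgroup G)
    (h : ∀ q : ℕ, q.Prime → ∀ k : ℕ, (∃ v, orderOf (y ^ k) = q ^ v) → y ^ k ∈ H) :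
    y ∈ H := by
  have hm : 0 < orderOf y := orderOf_pos y
  have hD : ∀ q : ℕ, q.Prime → q ^ ((orderOf y).factorization q) ∣
      Nat.card ↥(Subgroup.zpowers y ⊓ H) := by
    intro q hq
    have hdv : q ^ ((orderOf y).factorization q) ∣ orderOf y := Nat.ordProj_dvd _ q
    have hk : orderOf y / q ^ ((orderOf y).factorization q) ∣ orderOf y := Nat.div_dvd_of_dvd hdv
    have hk0 : orderOf y / q ^ ((orderOf y).factorization q) ≠ 0 :=
      (Nat.div_pos (Nat.le_of_dvd hm hdv) (pow_pos hq.pos _)).ne'
    have hord : orderOf (y ^ (orderOf y / q ^ ((orderOf y).factorization q)))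
        = q ^ ((orderOf y).factorization q) := by
      rw [orderOf_pow_of_dvd hk0 hk]
      exact Nat.div_div_self hdv hm.ne'
    generalize orderOf y / q ^ ((orderOf y).factorization q) = k at hord
    generalize (orderOf y).factorization q = v at hord ⊢
    have hcomm := h q hq k ⟨v, hord⟩
    have hmem : y ^ k ∈ Subgroup.zpowers y ⊓ H :=
      ⟨Subgroup.pow_mem _ (Subgroup.mem_zpowers y) k, hcomm⟩
    rw [← hord]
    have := orderOf_dvd_natCard (⟨y ^ k, hmem⟩ : ↥(Subgroup.zpowers y ⊓ H))
    rwa [Subgroup.orderOf_mk] at this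
  have hdvd : orderOf y ∣ Nat.card ↥(Subgroup.zpowers y ⊓ H) :=
    Primary.dvd_of_prime_pow_dvd hm.ne' Nat.card_pos.ne' hD
  have heq : Subgroup.zpowers y ⊓ H = Subgroup.zpowers y := by
    apply Subgroup.eq_of_le_of_card_ge inf_le_left
    rw [Nat.card_zpowers]
    exact Nat.le_of_dvd Nat.card_pos hdvd
  have hy' : y ∈ Subgroup.zpowers y ⊓ H := by
    rw [heq]
    exact Subgroup.mem_zpowers y
  exact hy'.2

/-- a `p`-element centralizing all `p'`-elements lies in the hypercenter. -/
theorem pmain {G : Type*} [Group G] [Finite G] (p : ℕ) [hp : Fact p.Prime] (z : G) (k : ℕ)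
    (hz : orderOf z = p ^ k)
    (hcomm : ∀ y : G, (orderOf y).Coprime p → z * y = y * z) :
    ∃ n, z ∈ Subgroup.upperCentralSeries G n := by
  classical
  set S : Set G := {y | (orderOf y).Coprime p} with hS
  set K : Subgroup G := Subgroup.normalClosure S with hK
  haveI hKn : K.Normal := Subgroup.normalClosure_normal
  set C : Subgroup G := Subgroup.centralizer (K : Set G) with hC
  haveI hCn : C.Normal := Subgroup.normal_centralizer
  have hzC : z ∈ C := by
    have hle : K ≤ Subgroup.centralizer {z} := by
      rw [hK, Subgroup.normalClosure, Subgroup.closure_le]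
      intro y hy
      rw [Group.mem_conjugatesOfSet_iff] at hy
      obtain ⟨a, ha, hconj⟩ := hy
      have hy' : (orderOf y).Coprime p := by
        obtain ⟨c, hc⟩ := isConj_iff.mp hconj
        have ho : orderOf y = orderOf a := by
          rw [← hc]
          exact MulEquiv.orderOf_eq (MulAut.conj c) a
        rw [ho]
        exact ha
      change y ∈ Subgroup.centralizer {z}
      rw [Subgroup.mem_centralizer_iff]
      intro w hw
      rw [Set.mem_singleton_iff] at hw
      subst hw
      exact hcomm y hy'
    rw [hC, Subgroup.mem_centralizer_iff]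
    intro w hw
    have := hle hw
    rw [Subgroup.mem_centralizer_iff] at this
    exact (this z (Set.mem_singleton z)).symm
  obtain ⟨P, hP⟩ : ∃ P : Sylow p G, z ∈ P := by
    have hpg : IsPGroup p (Subgroup.zpowers z) := by
      apply IsPGroup.of_card (n := k)
      rw [Nat.card_zpowers, hz]
    obtain ⟨P, hP⟩ := hpg.exists_le_sylow
    exact ⟨P, hP (Subgroup.mem_zpowers z)⟩
  have hPK : (P : Subgroup G) ⊔ K = ⊤ := by
    have hQ : IsPGroup p (G ⧸ K) := by
      intro xb
      obtain ⟨x, rfl⟩ := QuotientGroup.mk_surjective xb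
      obtain ⟨e, m, hm, hxm⟩ := Nat.exists_eq_pow_mul_and_not_dvd (orderOf_pos x).ne' p hp.out.ne_one
      refine ⟨e, ?_⟩
      have hmem : x ^ p ^ e ∈ K := by
        apply Subgroup.subset_normalClosure
        change (orderOf (x ^ p ^ e)).Coprime p
        have hdvd : orderOf (x ^ p ^ e) ∣ m := by
          apply orderOf_dvd_of_pow_eq_one
          rw [← pow_mul, ← hxm, pow_orderOf_eq_one]
        exact Nat.Coprime.coprime_dvd_left hdvd ((Nat.Prime.coprime_iff_not_dvd hp.out).mpr hm).symm
      rw [← QuotientGroup.mk_pow]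
      exact (QuotientGroup.eq_one_iff _).mpr hmem
    obtain ⟨n, hn⟩ := IsPGroup.iff_card.mp hQ
    have h1 : ((P : Subgroup G) ⊔ K).index ∣ p ^ n := by
      rw [← hn, ← Subgroup.index_eq_card]
      exact Subgroup.index_dvd_of_le le_sup_right
    have h2 : ((P : Subgroup G) ⊔ K).index ∣ (P : Subgroup G).index :=
      Subgroup.index_dvd_of_le le_sup_left
    obtain ⟨i, -, hi⟩ := (Nat.dvd_prime_pow hp.out).mp h1
    have hi0 : i = 0 := by
      by_contra hne
      apply P.not_dvd_index
      refine dvd_trans ?_ h2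
      rw [hi]
      exact dvd_pow_self p hne
    rw [hi0, pow_zero] at hi
    exact Subgroup.index_eq_one.mp hi
  have hnilP : Group.IsNilpotent (P : Subgroup G) := P.isPGroup'.isNilpotent
  obtain ⟨c, hc⟩ := (Subgroup.isNilpotent_iff_lowerCentralSeries (P : Subgroup G)).mp hnilP
  have key : ∀ (j i : ℕ), (P : Subgroup G).lowerCentralSeries (i + j) = ⊥ →
      ∀ v : G, v ∈ C → v ∈ (P : Subgroup G).lowerCentralSeries i →
      v ∈ Subgroup.upperCentralSeries G j := by
    intro j
    induction j with
    | zero =>
      intro i hi v _ hv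
      rw [add_zero] at hi
      rw [hi] at hv
      rw [Subgroup.upperCentralSeries_zero]
      exact hv
    | succ j ih =>
      intro i hi v hvC hv
      rw [Subgroup.mem_upperCentralSeries_succ_iff]
      intro x
      apply ih (i + 1) (by rw [← hi]; congr 1; ring)
      · rw [commutatorElement_def]
        have : v * x * v⁻¹ * x⁻¹ = v * (x * v⁻¹ * x⁻¹) := by group
        rw [this]
        exact C.mul_mem hvC (hCn.conj_mem _ (C.inv_mem hvC) x)
      · have hx : x ∈ (P : Subgroup G) ⊔ K := by rw [hPK]; trivial
        rw [Subgroup.mem_sup_of_normal_right] at hx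
        obtain ⟨a, ha, b, hb, rfl⟩ := hx
        have hvb : b * v = v * b := by
          rw [hC, Subgroup.mem_centralizer_iff] at hvC
          exact hvC b hb
        have hvb' : b * v⁻¹ = v⁻¹ * b := by
          calc b * v⁻¹ = v⁻¹ * (v * b) * v⁻¹ := by group
            _ = v⁻¹ * (b * v) * v⁻¹ := by rw [hvb]
            _ = v⁻¹ * b := by group
        have e : ⁅v, a * b⁆ = ⁅v, a⁆ := by
          rw [commutatorElement_def, commutatorElement_def]
          calc v * (a * b) * v⁻¹ * (a * b)⁻¹ = v * a * (b * v⁻¹) * b⁻¹ * a⁻¹ := by group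
            _ = v * a * (v⁻¹ * b) * b⁻¹ * a⁻¹ := by rw [hvb']
            _ = v * a * v⁻¹ * a⁻¹ := by group
        rw [e, Subgroup.lowerCentralSeries_succ]
        exact Subgroup.commutator_mem_commutator hv ha
  refine ⟨c, key c 0 (by rwa [zero_add]) z hzC ?_⟩
  rw [Subgroup.lowerCentralSeries_zero]
  exact hP

/-- the upper central series of the ambient group restricts into that of a subgroup. -/
theorem ucs_sub {G : Type*} [Group G] (M : Subgroup G) :
    ∀ (n : ℕ) (y : M), (y : G) ∈ Subgroup.upperCentralSeries G n →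
      y ∈ Subgroup.upperCentralSeries M n := by
  intro n
  induction n with
  | zero =>
    intro y hy
    rw [Subgroup.upperCentralSeries_zero, Subgroup.mem_bot] at hy ⊢
    exact Subtype.ext hy
  | succ n ih =>
    intro y hy
    rw [Subgroup.mem_upperCentralSeries_succ_iff] at hy ⊢
    intro w
    apply ih
    have := hy (w : G)
    simpa [commutatorElement_def] using this

/-- In a finite group G the set of elements g such that the subgroup generated by g and x is nilpotent for every x ∈ G is exactly the hypercenter of G (the last term of the upper central series). -/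
theorem result {G : Type*} [Group G] [Finite G] (g : G) :
    (∀ x : G, Group.IsNilpotent ↥(Subgroup.closure ({x, g} : Set G))) ↔ g ∈ ⨆ n : ℕ, Subgroup.upperCentralSeries G n := by
  constructor
  · intro hg
    apply mem_of_primary
    intro q hq k ⟨v, hv⟩
    haveI : Fact q.Prime := ⟨hq⟩
    obtain ⟨n, hn⟩ := pmain q (g ^ k) v hv (by
      intro y hy
      haveI := hg y
      have hymem : y ∈ Subgroup.closure ({y, g} : Set G) := Subgroup.subset_closure (by simp)
      have hgmem : g ^ k ∈ Subgroup.closure ({y, g} : Set G) :=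
        Subgroup.pow_mem _ (Subgroup.subset_closure (by simp)) k
      have := commute_of_coprime ↥(Subgroup.closure ({y, g} : Set G)) ⟨g ^ k, hgmem⟩ ⟨y, hymem⟩ (by
        rw [Subgroup.orderOf_mk, Subgroup.orderOf_mk, hv]
        exact (Nat.Coprime.pow_right v hy).symm)
      exact congrArg Subtype.val this)
    exact (le_iSup (fun n => Subgroup.upperCentralSeries G n) n) hn
  · intro hg x
    obtain ⟨n, hn⟩ := (Subgroup.mem_iSup_of_directed
      (Subgroup.upperCentralSeries_mono (G := G)).directed_le).mp hg
    set M : Subgroup G := Subgroup.closure ({x, g} : Set G) with hM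
    have hxM : x ∈ M := Subgroup.subset_closure (by simp)
    have hgM : g ∈ M := Subgroup.subset_closure (by simp)
    have hg' : (⟨g, hgM⟩ : M) ∈ Subgroup.upperCentralSeries M n := ucs_sub M n ⟨g, hgM⟩ hn
    set Z : Subgroup M := Subgroup.upperCentralSeries M n with hZ
    have hT : (Subgroup.zpowers (QuotientGroup.mk' Z ⟨x, hxM⟩)).comap (QuotientGroup.mk' Z) = ⊤ := by
      rw [eq_top_iff, ← Subgroup.closure_closure_coe_preimage (k := ({x, g} : Set G)),
        Subgroup.closure_le]
      rintro ⟨w, hw⟩ hw2
      change w ∈ ({x, g} : Set G) at hw2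
      rw [Set.mem_insert_iff, Set.mem_singleton_iff] at hw2
      change QuotientGroup.mk' Z ⟨w, hw⟩ ∈ Subgroup.zpowers (QuotientGroup.mk' Z ⟨x, hxM⟩)
      rcases hw2 with rfl | rfl
      · exact Subgroup.mem_zpowers _
      · have : QuotientGroup.mk' Z ⟨w, hw⟩ = 1 := (QuotientGroup.eq_one_iff _).mpr hg'
        rw [this]
        exact Subgroup.one_mem _
    have hall : ∀ y : M, QuotientGroup.mk' Z y ∈ Subgroup.zpowers (QuotientGroup.mk' Z ⟨x, hxM⟩) := by
      intro y
      have : y ∈ (Subgroup.zpowers (QuotientGroup.mk' Z ⟨x, hxM⟩)).comap (QuotientGroup.mk' Z) := by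
        rw [hT]; trivial
      exact this
    refine ⟨⟨n + 1, ?_⟩⟩
    rw [eq_top_iff]
    intro y _
    rw [Subgroup.mem_upperCentralSeries_succ_iff]
    intro w
    obtain ⟨i, hi⟩ := Subgroup.mem_zpowers_iff.mp (hall y)
    obtain ⟨j, hj⟩ := Subgroup.mem_zpowers_iff.mp (hall w)
    have : QuotientGroup.mk' Z ⁅y, w⁆ = 1 := by
      rw [map_commutatorElement, ← hi, ← hj, commutatorElement_def]
      rw [← zpow_add, ← zpow_neg, ← zpow_add, ← zpow_neg, ← zpow_add]
      have : i + j + -i + -j = 0 := by ring
      rw [this, zpow_zero]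
    exact (QuotientGroup.eq_one_iff _).mp this

end Cfsg.Agent.S3939
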