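import Cfsg.Statements.S3941
import Mathlib
import Cfsg.Agent.Lib.Helper6.AltPClosed

set_option autoImplicit false
open Cfsg

namespace Cfsg.Agent.S3941

/-- Let n ≥ 5 and p an odd prime with p ≤ n, and suppose that every proper subgroup of the alternating group of degree n whose order is divisible by p has a normal Sylow p-subgroup. Then n = p. -/
theorem result (n p : ℕ) (hn : 5 ≤ n) [Fact p.Prime] (hp : p ≠ 2) (hpn : p ≤ n)
    (h : ∀ H : Subgroup ↥(alternatingGroup (Fin n)), H ≠ ⊤ → p ∣ Nat.card ↥H → Cfsg.IsPClosed p ↥H) : n = p := by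
  exact Cfsg.Agent.Lib.Helper6.AltPClosed.main n p hn hp hpn (fun H h1 h2 => h H h1 h2)

end Cfsg.Agent.S3941
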