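import Cfsg.Statements.S3949
import Mathlib

set_option autoImplicit false
open Cfsg

namespace Cfsg.Agent.S3949

theorem iter_inverted {G : Type*} [Group G] (α : MulAut G) (g : G) (hg : α g = g⁻¹) (i : ℕ) :
    ((fun c : G => c * (α c)⁻¹)^[i]) g = g ^ (2 ^ i) := by
  induction i with
  | zero => simp
  | succ i ih =>
    rw [Function.iterate_succ_apply', ih]
    have h1 : α (g ^ 2 ^ i) = (g ^ 2 ^ i)⁻¹ := by rw [map_pow, hg, inv_pow]
    change g ^ 2 ^ i * (α (g ^ 2 ^ i))⁻¹ = g ^ 2 ^ (i + 1)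
    rw [h1, inv_inv, ← pow_add, pow_succ]
    congr 1
    ring

/-- Let G be a finite group and α an automorphism of G of order 2 such that the elements g·α(g)⁻¹ generate G. Let j be a positive integer such that 2^j divides the order of no element inverted by α. Then the set of values of the j-th iterate of the map c ↦ c·α(c)⁻¹ is exactly the set of elements of odd order inverted by α. -/
theorem result {G : Type*} [Group G] [Finite G] (α : MulAut G) (hα : orderOf α = 2) (hG : Subgroup.closure (Set.range (fun c : G => c * (α c)⁻¹)) = ⊤)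
    (j : ℕ) (hj : ∀ g : G, α g = g⁻¹ → ¬ 2 ^ j ∣ orderOf g) :
    Set.range ((fun c : G => c * (α c)⁻¹)^[j]) = {g : G | Odd (orderOf g) ∧ α g = g⁻¹} := by
  have hα2 : ∀ g : G, α (α g) = g := by
    intro g
    have h1 : α ^ 2 = 1 := by rw [← hα]; exact pow_orderOf_eq_one α
    have h2 : (α ^ 2) g = g := by rw [h1]; rfl
    rw [sq] at h2
    exact h2
  have hinv : ∀ c : G, α (c * (α c)⁻¹) = (c * (α c)⁻¹)⁻¹ := by
    intro c
    rw [map_mul, map_inv, hα2, mul_inv_rev, inv_inv]
  have hj0 : j ≠ 0 := by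
    rintro rfl
    exact hj 1 (by simp) (by simp)
  obtain ⟨i, rfl⟩ := Nat.exists_eq_succ_of_ne_zero hj0
  ext y
  constructor
  · rintro ⟨c, rfl⟩
    rw [Function.iterate_succ_apply, iter_inverted α _ (hinv c)]
    have hgi := hinv c
    have hjc := hj (c * (α c)⁻¹) (hinv c)
    generalize c * (α c)⁻¹ = g at hgi hjc ⊢
    refine ⟨?_, ?_⟩
    · obtain ⟨a, m, hm, ho⟩ := Nat.exists_eq_two_pow_mul_odd (orderOf_pos g).ne'
      have hai : a ≤ i := by
        by_contra hcon
        push Not at hcon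
        apply hjc
        rw [ho]
        exact Dvd.dvd.mul_right (pow_dvd_pow 2 hcon) m
      have h1 : (g ^ 2 ^ i) ^ m = 1 := by
        rw [← pow_mul]
        have e : 2 ^ i * m = orderOf g * 2 ^ (i - a) := by
          rw [ho]
          have : 2 ^ i = 2 ^ a * 2 ^ (i - a) := by rw [← pow_add]; congr 1; omega
          rw [this]
          ring
        rw [e, pow_mul, pow_orderOf_eq_one, one_pow]
      exact Odd.of_dvd_nat hm (orderOf_dvd_of_pow_eq_one h1)
    · change α (g ^ 2 ^ i) = (g ^ 2 ^ i)⁻¹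
      rw [map_pow, hgi, inv_pow]
  · rintro ⟨hodd, hy⟩
    have hcop : (2 ^ (i + 1)).Coprime (orderOf y) :=
      Nat.Coprime.pow_left _ (Nat.coprime_two_left.2 hodd)
    obtain ⟨m, hm⟩ := exists_pow_eq_self_of_coprime hcop
    refine ⟨y ^ m, ?_⟩
    have h1 : α (y ^ m) = (y ^ m)⁻¹ := by rw [map_pow, hy, inv_pow]
    rw [iter_inverted α _ h1, ← pow_mul, mul_comm, pow_mul]
    exact hm

end Cfsg.Agent.S3949
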