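import Cfsg.Statements.S3983
import Mathlib
import Cfsg.Agent.Lib.Helper6.PPrime
import Cfsg.Agent.Lib.Helper6.SylowConj
import Cfsg.Agent.Lib.Helper6.ConjSmul

set_option autoImplicit false
open scoped Pointwise
open Cfsg

namespace Cfsg.Agent.S3983

open Cfsg.Agent.Lib.Helper6.PPrime Cfsg.Agent.Lib.Helper6.SylowConj Cfsg.Agent.Lib.Helper6.ConjSmul

/-- Let P be a Sylow p-subgroup of the finite group G that meets each conjugate g P g⁻¹ with g outside N_G(P) trivially, and let U be a subgroup of G of order divisible by p. Then a Sylow p-subgroup Q of U has the same property inside U: Q meets each conjugate u Q u⁻¹ with u ∈ U outside N_U(Q) trivially. -/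
theorem result {G : Type*} [Group G] [Finite G] (p : ℕ) [Fact p.Prime] (P : Sylow p G) (hTI : ∀ g : G, g ∉ Subgroup.normalizer ((P : Subgroup G) : Set G) → (P : Subgroup G) ⊓ (MulAut.conj g • (P : Subgroup G)) = ⊥) (U : Subgroup G) (hU : p ∣ Nat.card ↥U) (Q : Sylow p ↥U) : ∀ u : ↥U, u ∉ Subgroup.normalizer ((Q : Subgroup ↥U) : Set ↥U) → (Q : Subgroup ↥U) ⊓ (MulAut.conj u • (Q : Subgroup ↥U)) = ⊥ := by
  classical
  intro u hu
  rw [Subgroup.eq_bot_iff_forall]
  intro w hw
  by_contra hw1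
  apply hu
  have hwQ : w ∈ (Q : Subgroup U) := hw.1
  have hwQ' : w ∈ MulAut.conj u • (Q : Subgroup U) := hw.2
  rw [mem_conj_smul] at hwQ'
  have hQ' : IsPGroup p ((Q : Subgroup U).map U.subtype) := Q.isPGroup'.map _
  obtain ⟨h, hh⟩ := exists_conj_le_sylow P hQ'
  have hb' : ∀ b : U, b ∈ (Q : Subgroup U) → h * (b : G) * h⁻¹ ∈ (P : Subgroup G) :=
    fun b hb => hh _ ⟨b, hb, rfl⟩
  have hg : h * (u : G) * h⁻¹ ∈ Subgroup.normalizer ((P : Subgroup G) : Set G) := by
    by_contra hg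
    have hTI' := hTI _ hg
    have hmem : h * (w : G) * h⁻¹ ∈
        (P : Subgroup G) ⊓ (MulAut.conj (h * (u : G) * h⁻¹) • (P : Subgroup G)) := by
      refine ⟨hb' w hwQ, ?_⟩
      change h * (w : G) * h⁻¹ ∈ MulAut.conj (h * (u : G) * h⁻¹) • (P : Subgroup G)
      rw [mem_conj_smul]
      have := hb' _ hwQ'
      have e : (h * (u : G) * h⁻¹)⁻¹ * (h * (w : G) * h⁻¹) * (h * (u : G) * h⁻¹)
          = h * ((u⁻¹ * w * u : U) : G) * h⁻¹ := by
        simp only [Subgroup.coe_mul, Subgroup.coe_inv]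
        group
      rw [e]
      exact this
    rw [hTI', Subgroup.mem_bot] at hmem
    apply hw1
    have : (w : G) = 1 := by
      have := congrArg (fun t => h⁻¹ * t * h) hmem
      simpa [mul_assoc] using this
    exact Subtype.ext this
  have hRmem : ∀ b : U, b ∈ ((P : Subgroup G).comap (MulAut.conj h).toMonoidHom).subgroupOf U
      ↔ h * (b : G) * h⁻¹ ∈ (P : Subgroup G) := by
    intro b
    simp [Subgroup.mem_subgroupOf]
  have hRp : IsPGroup p (((P : Subgroup G).comap (MulAut.conj h).toMonoidHom).subgroupOf U) :=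
    (P.isPGroup'.comap_of_injective _ (MulAut.conj h).injective).comap_subtype
  have hQR : (Q : Subgroup U) ≤ ((P : Subgroup G).comap (MulAut.conj h).toMonoidHom).subgroupOf U :=
    fun b hb => (hRmem b).2 (hb' b hb)
  have hRQ := Q.is_maximal' hRp hQR
  apply mem_normalizer_of_conj_le
  intro b hb
  change u * b * u⁻¹ ∈ (Q : Subgroup U)
  rw [← hRQ, hRmem]
  have h1 := (Subgroup.mem_normalizer_iff.1 hg (h * (b : G) * h⁻¹)).1 (hb' b hb)
  have e : h * ((u * b * u⁻¹ : U) : G) * h⁻¹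
      = (h * (u : G) * h⁻¹) * (h * (b : G) * h⁻¹) * (h * (u : G) * h⁻¹)⁻¹ := by
    simp only [Subgroup.coe_mul, Subgroup.coe_inv]
    group
  rw [e]
  exact h1

end Cfsg.Agent.S3983
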