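import Cfsg.Statements.S3984
import Mathlib
import Cfsg.Agent.Lib.Helper6.PPrime
import Cfsg.Agent.Lib.Helper6.PPrime2
import Cfsg.Agent.Lib.Helper6.SylowConj
import Cfsg.Agent.Lib.Helper6.ConjSmul

set_option autoImplicit false
open scoped Pointwise
open Cfsg

namespace Cfsg.Agent.S3984

open Cfsg.Agent.Lib.Helper6.PPrime Cfsg.Agent.Lib.Helper6.PPrime2 Cfsg.Agent.Lib.Helper6.SylowConj
open Cfsg.Agent.Lib.Helper6.ConjSmul

/-- Let P be a Sylow p-subgroup of the finite group G that meets each conjugate g P g⁻¹ with g outside N_G(P) trivially, and let N be a normal subgroup of G of order prime to p. Then every Sylow p-subgroup Q of G ⧸ N meets each conjugate x Q x⁻¹ with x outside its normalizer trivially. -/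
theorem result {G : Type*} [Group G] [Finite G] (p : ℕ) [Fact p.Prime] (P : Sylow p G) (hTI : ∀ g : G, g ∉ Subgroup.normalizer ((P : Subgroup G) : Set G) → (P : Subgroup G) ⊓ (MulAut.conj g • (P : Subgroup G)) = ⊥) (N : Subgroup G) [N.Normal] (hN : (Nat.card ↥N).Coprime p) (Q : Sylow p (G ⧸ N)) : ∀ x : G ⧸ N, x ∉ Subgroup.normalizer ((Q : Subgroup (G ⧸ N)) : Set (G ⧸ N)) → (Q : Subgroup (G ⧸ N)) ⊓ (MulAut.conj x • (Q : Subgroup (G ⧸ N))) = ⊥ := by
  classical
  have hsurj : Function.Surjective (QuotientGroup.mk' N) := QuotientGroup.mk'_surjective N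
  obtain ⟨P₁, hP₁⟩ := Sylow.mapSurjective_surjective hsurj p Q
  have hQ : (Q : Subgroup (G ⧸ N)) = (P₁ : Subgroup G).map (QuotientGroup.mk' N) := by
    rw [← hP₁]
    rfl
  obtain ⟨h, rfl⟩ := MulAction.exists_smul_eq G P P₁
  have hTI₁ : ∀ g x : G, x ≠ 1 → x ∈ ((h • P : Sylow p G) : Subgroup G) →
      g⁻¹ * x * g ∈ ((h • P : Sylow p G) : Subgroup G) →
      g ∈ Subgroup.normalizer (((h • P : Sylow p G) : Subgroup G) : Set G) := by
    intro g x hx1 hx hgx
    rw [mem_smul_sylow] at hx hgx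
    have hg' : h⁻¹ * g * h ∈ Subgroup.normalizer ((P : Subgroup G) : Set G) := by
      by_contra hcon
      have h1 := hTI _ hcon
      have h2 : h⁻¹ * x * h ∈
          (P : Subgroup G) ⊓ MulAut.conj (h⁻¹ * g * h) • (P : Subgroup G) := by
        refine ⟨hx, ?_⟩
        change _ ∈ MulAut.conj (h⁻¹ * g * h) • (P : Subgroup G)
        rw [mem_conj_smul]
        have e : (h⁻¹ * g * h)⁻¹ * (h⁻¹ * x * h) * (h⁻¹ * g * h) = h⁻¹ * (g⁻¹ * x * g) * h := by
          group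
        rw [e]
        exact hgx
      rw [h1, Subgroup.mem_bot] at h2
      apply hx1
      have := congrArg (fun t => h * t * h⁻¹) h2
      simpa [mul_assoc] using this
    apply mem_normalizer_of_conj_le
    intro u hu
    rw [mem_smul_sylow] at hu ⊢
    have h3 := (Subgroup.mem_normalizer_iff.1 hg' _).1 hu
    have e : h⁻¹ * (g * u * g⁻¹) * h = (h⁻¹ * g * h) * (h⁻¹ * u * h) * (h⁻¹ * g * h)⁻¹ := by
      group
    rw [e]
    exact h3
  intro xb hxb
  rw [Subgroup.eq_bot_iff_forall]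
  intro yb hyb
  by_contra hyb1
  apply hxb
  obtain ⟨x, rfl⟩ := hsurj xb
  have hy1 : yb ∈ (Q : Subgroup (G ⧸ N)) := hyb.1
  have hy2 : yb ∈ MulAut.conj (QuotientGroup.mk' N x) • (Q : Subgroup (G ⧸ N)) := hyb.2
  rw [mem_conj_smul] at hy2
  rw [hQ] at hy1 hy2
  obtain ⟨u₁, hu₁, rfl⟩ := hy1
  obtain ⟨u₂, hu₂, he⟩ := hy2
  have hu₁1 : u₁ ≠ 1 := by
    rintro rfl
    exact hyb1 (map_one _)
  have hDp : IsPGroup p (Subgroup.zpowers (x⁻¹ * u₁ * x)) := by
    refine ((h • P : Sylow p G).isPGroup'.map (MulAut.conj x⁻¹).toMonoidHom).to_le ?_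
    rw [Subgroup.zpowers_le]
    exact ⟨u₁, hu₁, by simp⟩
  have hDle : Subgroup.zpowers (x⁻¹ * u₁ * x) ≤ N ⊔ ((h • P : Sylow p G) : Subgroup G) := by
    rw [Subgroup.zpowers_le]
    have h2 : u₂⁻¹ * (x⁻¹ * u₁ * x) ∈ N := by
      apply (QuotientGroup.eq (s := N)).1
      have e2 : QuotientGroup.mk' N u₂ = QuotientGroup.mk' N (x⁻¹ * u₁ * x) := by
        rw [he]
        simp
      exact e2
    have h3 : x⁻¹ * u₁ * x = u₂ * (u₂⁻¹ * (x⁻¹ * u₁ * x)) := by group
    rw [h3]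
    exact Subgroup.mul_mem _ (Subgroup.mem_sup_right hu₂) (Subgroup.mem_sup_left h2)
  obtain ⟨n, hn, hnD⟩ := exists_conj_mem_of_le_sup N hN ((h • P : Sylow p G) : Subgroup G) _
    hDp hDle
  have hg := hTI₁ (x * n) u₁ hu₁1 hu₁ (by
    have := hnD _ (Subgroup.mem_zpowers _)
    have e : (x * n)⁻¹ * u₁ * (x * n) = n⁻¹ * (x⁻¹ * u₁ * x) * n := by group
    rw [e]
    exact this)
  have h5 : QuotientGroup.mk' N (x * n) ∈ Subgroup.normalizer
      (((((h • P : Sylow p G) : Subgroup G).map (QuotientGroup.mk' N)) : Subgroup (G ⧸ N)) :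
        Set (G ⧸ N)) :=
    Subgroup.le_normalizer_map _ ⟨x * n, hg, rfl⟩
  have hn1 : QuotientGroup.mk' N n = 1 := (QuotientGroup.eq_one_iff n).2 hn
  rw [map_mul, hn1, mul_one] at h5
  rw [hQ]
  exact h5

end Cfsg.Agent.S3984
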