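import Cfsg.Statements.S3985
import Mathlib
import Cfsg.Agent.Lib.Helper6.Primary
import Cfsg.Agent.Lib.Helper6.PPrime
import Cfsg.Agent.Lib.Helper6.SylowConj
import Cfsg.Agent.Lib.Helper6.ConjSmul
import Cfsg.Agent.Lib.Helper6.CyclicAut

set_option autoImplicit false
open scoped Pointwise
open Cfsg

namespace Cfsg.Agent.S3985

open Cfsg.Agent.Lib.Helper6.Primary Cfsg.Agent.Lib.Helper6.PPrime Cfsg.Agent.Lib.Helper6.SylowConj
open Cfsg.Agent.Lib.Helper6.ConjSmul Cfsg.Agent.Lib.Helper6.CyclicAut

/-- Let P be a cyclic Sylow p-subgroup of the finite group G. Then P meets each conjugate g P g⁻¹ with g outside N_G(P) trivially if and only if P is weakly self-centralizing: C_G(x) = C_G(P) for every non-identity x ∈ P. -/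
theorem result {G : Type*} [Group G] [Finite G] (p : ℕ) [Fact p.Prime] (P : Sylow p G) (hcyc : IsCyclic ↥(P : Subgroup G)) : (∀ g : G, g ∉ Subgroup.normalizer ((P : Subgroup G) : Set G) → (P : Subgroup G) ⊓ (MulAut.conj g • (P : Subgroup G)) = ⊥) ↔ ∀ x : G, x ∈ (P : Subgroup G) → x ≠ 1 → Subgroup.centralizer ({x} : Set G) = Subgroup.centralizer ((P : Subgroup G) : Set G) := by
  classical
  have hp := (Fact.out : p.Prime)
  obtain ⟨t, ht⟩ := hcyc.exists_generator
  have hPt : (P : Subgroup G) = Subgroup.zpowers (t : G) := by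
    ext u
    constructor
    · intro hu
      obtain ⟨i, hi⟩ := Subgroup.mem_zpowers_iff.1 (ht ⟨u, hu⟩)
      rw [Subgroup.mem_zpowers_iff]
      exact ⟨i, by simpa using congrArg Subtype.val hi⟩
    · intro hu
      obtain ⟨i, rfl⟩ := Subgroup.mem_zpowers_iff.1 hu
      exact Subgroup.zpow_mem _ t.2 i
  have hPcomm : ∀ a ∈ (P : Subgroup G), ∀ b ∈ (P : Subgroup G), a * b = b * a := by
    intro a ha b hb
    rw [hPt] at ha hb
    obtain ⟨i, rfl⟩ := Subgroup.mem_zpowers_iff.1 ha
    obtain ⟨j, rfl⟩ := Subgroup.mem_zpowers_iff.1 hb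
    rw [← zpow_add, ← zpow_add, add_comm]
  obtain ⟨n, hn⟩ : ∃ n, orderOf (t : G) = p ^ n := by
    obtain ⟨k, hk⟩ := P.isPGroup' t
    have hk' : (t : G) ^ p ^ k = 1 := congrArg Subtype.val hk
    obtain ⟨a, _, ha⟩ := (Nat.dvd_prime_pow hp).1 (orderOf_dvd_of_pow_eq_one hk')
    exact ⟨a, ha⟩
  constructor
  · intro hTI x hxP hx1
    apply le_antisymm
    · intro g hg
      have hgx : x * g = g * x := (Subgroup.mem_centralizer_iff.1 hg) x (Set.mem_singleton x)
      have hgN : g ∈ Subgroup.normalizer ((P : Subgroup G) : Set G) := by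
        by_contra hgN
        have h1 := hTI g hgN
        have h2 : x ∈ (P : Subgroup G) ⊓ MulAut.conj g • (P : Subgroup G) := by
          refine ⟨hxP, ?_⟩
          change x ∈ MulAut.conj g • (P : Subgroup G)
          rw [mem_conj_smul]
          have : g⁻¹ * x * g = x := by rw [mul_assoc, hgx, inv_mul_cancel_left]
          rw [this]
          exact hxP
        rw [h1, Subgroup.mem_bot] at h2
        exact hx1 h2
      rw [Subgroup.mem_centralizer_iff]
      intro u hu
      apply commute_of_primary g u
      rintro q hq k' ⟨v, hv⟩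
      have hw : g ^ k' ∈ Subgroup.normalizer ((P : Subgroup G) : Set G) :=
        Subgroup.pow_mem _ hgN k'
      have hwx : g ^ k' * x = x * g ^ k' :=
        (Commute.pow_left (show Commute g x from hgx.symm) k').eq
      generalize g ^ k' = w at hv hw hwx ⊢
      by_cases hqp : q = p
      · subst hqp
        have hT : IsPGroup q ↥(Subgroup.zpowers w ⊔ (P : Subgroup G)) := by
          apply IsPGroup.to_sup_of_normal_right' (isPGroup_zpowers w v hv) P.isPGroup'
          rw [Subgroup.zpowers_le]
          exact hw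
        have heq := P.is_maximal' hT le_sup_right
        have hwP : w ∈ (P : Subgroup G) := by
          rw [← heq]
          exact Subgroup.mem_sup_left (Subgroup.mem_zpowers w)
        exact hPcomm u hu w hwP
      · have hw' : w ∈ Subgroup.normalizer ((Subgroup.zpowers (t : G) : Subgroup G) : Set G) := by
          rw [← hPt]
          exact hw
        have hx' : x ∈ Subgroup.zpowers (t : G) := by
          rw [← hPt]
          exact hxP
        obtain ⟨c, hc⟩ := pow_prime_commute (t : G) w x n hn hw' hx' hx1 hwx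
        have hcop : (p ^ c).Coprime (orderOf w) := by
          rw [hv]
          exact Nat.Coprime.pow _ _ ((Nat.coprime_primes hp hq).2 (Ne.symm hqp))
        obtain ⟨m, hm⟩ := exists_pow_eq_self_of_coprime hcop
        have hwt : Commute w (t : G) := by
          rw [← hm]
          exact (Commute.pow_left (show Commute (w ^ p ^ c) (t : G) from hc) m)
        rw [hPt] at hu
        obtain ⟨i, rfl⟩ := Subgroup.mem_zpowers_iff.1 hu
        exact ((hwt.zpow_right i).symm).eq
    · exact Subgroup.centralizer_le (Set.singleton_subset_iff.2 hxP)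
  · intro hyp g hg
    rw [Subgroup.eq_bot_iff_forall]
    intro x hx
    by_contra hx1
    apply hg
    have hxP : x ∈ (P : Subgroup G) := hx.1
    have hxg : x ∈ MulAut.conj g • (P : Subgroup G) := hx.2
    rw [mem_conj_smul] at hxg
    have hC := hyp x hxP hx1
    have hQ : ∀ u ∈ (P : Subgroup G),
        g * u * g⁻¹ ∈ Subgroup.centralizer ((P : Subgroup G) : Set G) := by
      intro u hu
      rw [← hC, Subgroup.mem_centralizer_iff]
      intro y hy
      rw [Set.mem_singleton_iff] at hy
      subst hy
      have h1 := hPcomm _ hxg u hu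
      calc y * (g * u * g⁻¹) = g * ((g⁻¹ * y * g) * u) * g⁻¹ := by group
        _ = g * (u * (g⁻¹ * y * g)) * g⁻¹ := by rw [h1]
        _ = g * u * g⁻¹ * y := by group
    have hQp : IsPGroup p ((P : Subgroup G).map (MulAut.conj g).toMonoidHom) :=
      P.isPGroup'.map _
    have hQle : (P : Subgroup G).map (MulAut.conj g).toMonoidHom ≤
        Subgroup.normalizer ((P : Subgroup G) : Set G) := by
      rintro _ ⟨u, hu, rfl⟩
      exact Subgroup.centralizer_le_normalizer _ (hQ u hu)
    have hT := IsPGroup.to_sup_of_normal_right' hQp P.isPGroup' hQle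
    have heq := P.is_maximal' hT le_sup_right
    apply mem_normalizer_of_conj_le
    intro u hu
    have h2 : g * u * g⁻¹ ∈ (P : Subgroup G).map (MulAut.conj g).toMonoidHom ⊔ (P : Subgroup G) :=
      Subgroup.mem_sup_left ⟨u, hu, rfl⟩
    rwa [heq] at h2

end Cfsg.Agent.S3985
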