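import Cfsg.Statements.S3986
import Mathlib
import Cfsg.Agent.Lib.Helper6.Primary

set_option autoImplicit false
open Cfsg

namespace Cfsg.Agent.S3986

open Cfsg.Agent.Lib.Helper6.Primary

/-- Let p be a prime and G a finite group. Then some Sylow p-subgroup of G is a direct factor of G (it is normal and has a normal complement) if and only if every element of p-power order commutes with every element whose order is a power of a prime other than p. -/
theorem result {G : Type*} [Group G] [Finite G] (p : ℕ) [Fact p.Prime] : (∃ (P : Sylow p G) (K : Subgroup G), (P : Subgroup G).Normal ∧ K.Normal ∧ (P : Subgroup G) ⊓ K = ⊥ ∧ (P : Subgroup G) ⊔ K = ⊤) ↔ ∀ x y : G, (∃ a : ℕ, orderOf x = p ^ a) → (∃ q b : ℕ, q.Prime ∧ q ≠ p ∧ orderOf y = q ^ b) → x * y = y * x := by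
  classical
  have hp := (Fact.out : p.Prime)
  have hidx : ∀ P : Sylow p G, ¬ p ∣ (P : Subgroup G).index := by
    intro P hdiv
    have h1 : p ∣ Nat.card G := hdiv.trans (Subgroup.index_dvd_card _)
    have h2 : p ∣ Nat.card P := Sylow.dvd_card_of_dvd_card P h1
    have h3 := Nat.dvd_gcd h2 hdiv
    rw [(Sylow.card_coprime_index P).gcd_eq_one] at h3
    exact hp.one_lt.ne' (Nat.dvd_one.1 h3)
  constructor
  · rintro ⟨P, K, hPn, hKn, hPK, hPK'⟩ x y ⟨a, ha⟩ ⟨q, b, hq, hqp, hb⟩
    have hxP : x ∈ (P : Subgroup G) := by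
      apply mem_of_coprime_index
      rw [ha]
      exact Nat.Coprime.pow_left a ((Nat.Prime.coprime_iff_not_dvd hp).2 (hidx P))
    have hyK : y ∈ K := by
      apply mem_of_coprime_index
      rw [hb]
      have h1 : K.index ∣ Nat.card P := by
        have h2 : K.relIndex ((P : Subgroup G) ⊔ K) = K.relIndex P :=
          Subgroup.relIndex_sup_right _ _
        rw [hPK', Subgroup.relIndex_top_right] at h2
        rw [h2]
        exact Subgroup.relIndex_dvd_card _ _
      obtain ⟨n, hn⟩ := IsPGroup.iff_card.1 P.isPGroup'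
      rw [hn] at h1
      apply Nat.Coprime.coprime_dvd_right h1
      exact Nat.Coprime.pow _ _ ((Nat.coprime_primes hq hp).2 hqp)
    exact Subgroup.commute_of_normal_of_disjoint _ _ hPn hKn (disjoint_iff.2 hPK) x y hxP hyK
  · intro hyp
    obtain ⟨P⟩ : Nonempty (Sylow p G) := inferInstance
    have hpel : ∀ x ∈ (P : Subgroup G), ∃ a, orderOf x = p ^ a := by
      intro x hx
      obtain ⟨k, hk⟩ := P.isPGroup' ⟨x, hx⟩
      have hk' : x ^ p ^ k = 1 := congrArg Subtype.val hk
      obtain ⟨a, _, ha⟩ := (Nat.dvd_prime_pow hp).1 (orderOf_dvd_of_pow_eq_one hk')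
      exact ⟨a, ha⟩
    have hPn : (P : Subgroup G).Normal := by
      rw [← Subgroup.normalizer_eq_top_iff]
      apply eq_top_of_sylow_le
      intro q hqF
      have hq := hqF.out
      by_cases hqp : q = p
      · subst hqp
        exact ⟨P, Subgroup.le_normalizer⟩
      · obtain ⟨Q⟩ : Nonempty (Sylow q G) := inferInstance
        refine ⟨Q, ?_⟩
        intro y hy
        apply Subgroup.centralizer_le_normalizer
        rw [Subgroup.mem_centralizer_iff]
        intro x hx
        obtain ⟨k, hk⟩ := Q.isPGroup' ⟨y, hy⟩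
        have hk' : y ^ q ^ k = 1 := congrArg Subtype.val hk
        obtain ⟨b, _, hb⟩ := (Nat.dvd_prime_pow hq).1 (orderOf_dvd_of_pow_eq_one hk')
        exact hyp x y (hpel x hx) ⟨q, b, hq, hqp, hb⟩
    obtain ⟨H, hH⟩ := Subgroup.exists_right_complement'_of_coprime (Sylow.card_coprime_index P)
    have hHcard : (P : Subgroup G).index = Nat.card H := hH.symm.index_eq_card
    have hcent : ∀ h ∈ H, ∀ x ∈ (P : Subgroup G), x * h = h * x := by
      intro h hh x hx
      apply commute_of_primary
      rintro q hq k ⟨v, hv⟩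
      by_cases hqp : q = p
      · subst hqp
        have h1 : orderOf (h ^ k) ∣ Nat.card H := by
          have := orderOf_dvd_natCard (⟨h ^ k, H.pow_mem hh k⟩ : H)
          rwa [Subgroup.orderOf_mk] at this
        have hv0 : v = 0 := by
          by_contra hv0
          apply hidx P
          rw [hHcard]
          exact (dvd_pow_self q hv0).trans (hv ▸ h1)
        rw [hv0, pow_zero, orderOf_eq_one_iff] at hv
        rw [hv, mul_one, one_mul]
      · exact hyp x (h ^ k) (hpel x hx) ⟨q, v, hq, hqp, hv⟩
    have hHn : H.Normal := by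
      rw [← Subgroup.normalizer_eq_top_iff, eq_top_iff, ← hH.sup_eq_top]
      apply sup_le
      · intro x hx
        apply Subgroup.centralizer_le_normalizer
        rw [Subgroup.mem_centralizer_iff]
        intro h hh
        exact (hcent h hh x hx).symm
      · exact Subgroup.le_normalizer
    exact ⟨P, H, hPn, hHn, disjoint_iff.1 hH.disjoint, hH.sup_eq_top⟩

end Cfsg.Agent.S3986
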