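import Cfsg.Statements.S4013

set_option autoImplicit false
open Cfsg

namespace Cfsg.Agent.S4013

/-- Let G be a finite p-group (p prime) and N < M normal subgroups of G such that for some g ∈ M ∖ N the conjugacy class of g is exactly M ∖ N. Then p = 2 and N has index 2 in M. -/
theorem result {G : Type*} [Group G] [Finite G] (p : ℕ) [Fact p.Prime] (hG : IsPGroup p G) (N M : Subgroup G) [N.Normal] [M.Normal] (hNM : N < M) (g : G) (hgM : g ∈ M) (hgN : g ∉ N) (hcl : {h : G | IsConj g h} = (M : Set G) \ (N : Set G)) : p = 2 ∧ N.relIndex M = 2 := by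
  have hp := (Fact.out : p.Prime)
  have horb : {h : G | IsConj g h} = MulAction.orbit (ConjAct G) g := by
    ext h
    rw [ConjAct.mem_orbit_conjAct]
    exact ⟨fun h1 => h1.symm, fun h1 => h1.symm⟩
  have hG' : IsPGroup p (ConjAct G) := hG
  obtain ⟨k, hk⟩ := hG'.card_orbit g
  obtain ⟨m, hm⟩ := IsPGroup.iff_card.1 (hG.to_subgroup M)
  obtain ⟨n, hn⟩ := IsPGroup.iff_card.1 (hG.to_subgroup N)
  have hsub : (N : Set G) ⊆ (M : Set G) := fun x hx => hNM.le hx
  have hcard : Nat.card ((M : Set G) \ (N : Set G) : Set G) = p ^ m - p ^ n := by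
    rw [Nat.card_coe_set_eq, Set.ncard_sdiff hsub, ← Nat.card_coe_set_eq,
      ← Nat.card_coe_set_eq]
    exact congrArg₂ _ hm hn
  have hkey : p ^ m - p ^ n = p ^ k := by
    rw [← hcard, ← hcl, horb, hk]
  have hidx : N.relIndex M * p ^ n = p ^ m := by
    rw [← hn, ← hm]
    have h0 := Subgroup.card_mul_index (N.subgroupOf M)
    rw [Nat.card_congr (Subgroup.subgroupOfEquivOfLe hNM.le).toEquiv] at h0
    rw [mul_comm]; exact h0
  have hnm : n < m := by
    have h0 : Nat.card N < Nat.card M := by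
      by_contra hcon
      exact hNM.ne (Subgroup.eq_of_le_of_card_ge hNM.le (not_lt.1 hcon))
    rw [hn, hm] at h0
    exact (Nat.pow_lt_pow_iff_right hp.one_lt).1 h0
  obtain ⟨d, rfl⟩ : ∃ d, m = n + (d + 1) := ⟨m - n - 1, by omega⟩
  have h1 : p ^ n * (p ^ (d + 1) - 1) = p ^ k := by
    rw [← hkey, Nat.mul_sub, mul_one, ← pow_add]
  have h2 : p ^ (d + 1) - 1 ∣ p ^ k := Dvd.intro_left _ h1
  obtain ⟨j, hj, hj'⟩ := (Nat.dvd_prime_pow hp).1 h2
  have hge : 2 ≤ p ^ (d + 1) := by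
    calc 2 ≤ p := hp.two_le
      _ = p ^ 1 := (pow_one p).symm
      _ ≤ p ^ (d + 1) := Nat.pow_le_pow_right hp.pos (by omega)
  have hj0 : j = 0 := by
    by_contra hne
    have h3 : p ∣ p ^ (d + 1) - 1 := by rw [hj']; exact dvd_pow_self p hne
    have h4 : p ∣ p ^ (d + 1) := dvd_pow_self p (Nat.succ_ne_zero d)
    have h5 : p ∣ p ^ (d + 1) - (p ^ (d + 1) - 1) := Nat.dvd_sub h4 h3
    have h6 : p ^ (d + 1) - (p ^ (d + 1) - 1) = 1 := by omega
    rw [h6] at h5
    exact hp.one_lt.ne' (Nat.dvd_one.1 h5)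
  rw [hj0, pow_zero] at hj'
  have h4 : p ^ (d + 1) = 2 := by omega
  have hp2 : p = 2 := by
    have h5 : p ∣ 2 := by rw [← h4]; exact dvd_pow_self p (Nat.succ_ne_zero d)
    exact (Nat.prime_dvd_prime_iff_eq hp Nat.prime_two).1 h5
  refine ⟨hp2, ?_⟩
  have h7 : N.relIndex M * p ^ n = 2 * p ^ n := by rw [hidx, pow_add, h4, mul_comm]
  exact Nat.eq_of_mul_eq_mul_right (pow_pos hp.pos n) h7

end Cfsg.Agent.S4013
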