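import Cfsg.Statements.S4027
import Mathlib
import Cfsg.Agent.Lib.Helper6.Invert

set_option autoImplicit false
open Cfsg

namespace Cfsg.Agent.S4027

/-- Let G be a finite group in which every element x of odd order satisfies N_G(⟨x⟩) = C_G(x). Then the Sylow 2-subgroups of G are normal. -/
theorem result {G : Type*} [Group G] [Finite G]
    (hirr : ∀ x : G, (∀ r : ℕ, r.Prime → r ∣ orderOf x → r ≠ 2) →
      Subgroup.normalizer ((Subgroup.zpowers x : Subgroup G) : Set G) ≤ Subgroup.centralizer {x}) (P : Sylow 2 G) :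
    (P : Subgroup G).Normal := by
  by_contra hP
  obtain ⟨x, g, hx1, hodd, hg⟩ := Cfsg.Agent.Lib.Helper6.Invert.exists_inverted P hP
  have h1 := hirr x (by
    intro r hr hrx h2
    rw [h2] at hrx
    exact (Nat.not_even_iff_odd.2 hodd) (even_iff_two_dvd.2 hrx))
  have hgN : g ∈ Subgroup.normalizer ((Subgroup.zpowers x : Subgroup G) : Set G) := by
    apply Cfsg.Agent.Lib.Helper6.PPrime.mem_normalizer_of_conj_le
    intro u hu
    obtain ⟨i, rfl⟩ := Subgroup.mem_zpowers_iff.1 hu
    rw [← conj_zpow, hg]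
    exact Subgroup.zpow_mem _ (Subgroup.inv_mem _ (Subgroup.mem_zpowers x)) i
  have h2 := h1 hgN
  rw [Subgroup.mem_centralizer_iff] at h2
  have h3 : x * g = g * x := h2 x rfl
  have h4 : x = x⁻¹ := by
    rw [← hg, ← h3, mul_inv_cancel_right]
  have h5 : x ^ 2 = 1 := by
    rw [sq]
    nth_rewrite 1 [h4]
    exact inv_mul_cancel x
  have h6 : orderOf x ∣ 2 := orderOf_dvd_of_pow_eq_one h5
  have h7 : orderOf x = 1 := by
    rcases (Nat.dvd_prime Nat.prime_two).1 h6 with h | h
    · exact h
    · rw [h] at hodd; exact absurd hodd (by decide)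
  exact hx1 (orderOf_eq_one_iff.1 h7)

end Cfsg.Agent.S4027
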