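import Cfsg.Statements.S4028
import Mathlib
import Cfsg.Agent.Lib.Helper6.Primary
import Cfsg.Agent.Lib.Helper6.PPrime
import Cfsg.Agent.Lib.Helper6.SylowConj

set_option autoImplicit false
open Cfsg

namespace Cfsg.Agent.S4028

open Cfsg.Agent.Lib.Helper6.Primary Cfsg.Agent.Lib.Helper6.PPrime Cfsg.Agent.Lib.Helper6.SylowConj

/-- Let G be a finite group with Sylow 2-subgroup P. Then N_G(⟨x⟩) = C_G(x) holds for every 2-element x of G if and only if N_P(⟨y⟩) = C_P(y) holds for every y ∈ P (computed inside P). -/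
theorem result {G : Type*} [Group G] [Finite G] (P : Sylow 2 G) :
    (∀ x : G, (∀ r : ℕ, r.Prime → r ∣ orderOf x → r = 2) →
      Subgroup.normalizer ((Subgroup.zpowers x : Subgroup G) : Set G) ≤ Subgroup.centralizer {x}) ↔
    (∀ y : ↥(P : Subgroup G), Subgroup.normalizer ((Subgroup.zpowers y : Subgroup ↥(P : Subgroup G)) : Set ↥(P : Subgroup G)) ≤
        Subgroup.centralizer {y}) := by
  constructor
  · intro hyp y z hz
    rw [Subgroup.mem_centralizer_iff]
    intro y' hy'
    rw [Set.mem_singleton_iff] at hy'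
    subst hy'
    have hx2 : ∀ r : ℕ, r.Prime → r ∣ orderOf (y' : G) → r = 2 := by
      intro r hr hdiv
      rw [Subgroup.orderOf_coe] at hdiv
      have h1 := hdiv.trans (orderOf_dvd_natCard y')
      obtain ⟨n, hn⟩ := IsPGroup.iff_card.1 P.isPGroup'
      rw [hn] at h1
      exact (Nat.prime_dvd_prime_iff_eq hr Nat.prime_two).1 (hr.dvd_of_dvd_pow h1)
    have hzn : (z : G) ∈ Subgroup.normalizer
        ((Subgroup.zpowers (y' : G) : Subgroup G) : Set G) := by
      apply mem_normalizer_of_conj_le
      intro u hu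
      obtain ⟨i, rfl⟩ := Subgroup.mem_zpowers_iff.1 hu
      have h1 := (Subgroup.mem_normalizer_iff.1 hz (y' ^ i)).1
        (Subgroup.zpow_mem _ (Subgroup.mem_zpowers y') i)
      obtain ⟨j, hj⟩ := Subgroup.mem_zpowers_iff.1 h1
      rw [Subgroup.mem_zpowers_iff]
      refine ⟨j, ?_⟩
      have h2 := congrArg Subtype.val hj
      simpa using h2
    have h3 := hyp (y' : G) hx2 hzn
    rw [Subgroup.mem_centralizer_iff] at h3
    exact Subtype.ext (h3 _ (Set.mem_singleton _))
  · intro hyp x hx g hg
    rw [Subgroup.mem_centralizer_iff]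
    intro x' hx'
    rw [Set.mem_singleton_iff] at hx'
    subst hx'
    have hxo : orderOf x' = 2 ^ (orderOf x').primeFactorsList.length :=
      Nat.eq_prime_pow_of_unique_prime_dvd (orderOf_pos x').ne' (fun hd hdiv => hx _ hd hdiv)
    apply commute_of_primary g x'
    rintro q hq k' ⟨v, hv⟩
    have hg' : g ^ k' ∈ Subgroup.normalizer
        ((Subgroup.zpowers x' : Subgroup G) : Set G) := Subgroup.pow_mem _ hg k'
    obtain ⟨c, hc⟩ := pow_two_commute x' (g ^ k') _ hxo hg'
    generalize g ^ k' = w at hv hg' hc ⊢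
    by_cases hq2 : q = 2
    · subst hq2
      have hT : IsPGroup 2 ↥(Subgroup.zpowers w ⊔ Subgroup.zpowers x') := by
        apply IsPGroup.to_sup_of_normal_right'
        · exact isPGroup_zpowers w v hv
        · exact isPGroup_zpowers x' _ hxo
        · rw [Subgroup.zpowers_le]
          exact hg'
      obtain ⟨h, hh⟩ := exists_conj_le_sylow P hT
      have hyP := hh x' (Subgroup.mem_sup_right (Subgroup.mem_zpowers x'))
      have hzP := hh w (Subgroup.mem_sup_left (Subgroup.mem_zpowers _))
      have hz : (⟨h * w * h⁻¹, hzP⟩ : (P : Subgroup G)) ∈ Subgroup.normalizer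
          ((Subgroup.zpowers (⟨h * x' * h⁻¹, hyP⟩ : (P : Subgroup G)) :
            Subgroup (P : Subgroup G)) : Set (P : Subgroup G)) := by
        apply mem_normalizer_of_conj_le
        intro u hu
        obtain ⟨i, rfl⟩ := Subgroup.mem_zpowers_iff.1 hu
        have h1 := (Subgroup.mem_normalizer_iff.1 hg' (x' ^ i)).1
          (Subgroup.zpow_mem _ (Subgroup.mem_zpowers x') i)
        obtain ⟨j, hj⟩ := Subgroup.mem_zpowers_iff.1 h1
        rw [Subgroup.mem_zpowers_iff]
        refine ⟨j, Subtype.ext ?_⟩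
        simp only [Subgroup.coe_zpow, Subgroup.coe_mul, Subgroup.coe_inv]
        rw [conj_zpow, conj_zpow, hj]
        group
      have h5 := hyp _ hz
      rw [Subgroup.mem_centralizer_iff] at h5
      have h6 := h5 _ (Set.mem_singleton _)
      have h8 : h * x' * h⁻¹ * (h * w * h⁻¹) = h * w * h⁻¹ * (h * x' * h⁻¹) :=
        congrArg Subtype.val h6
      have h9 : h * (x' * w) * h⁻¹ = h * (w * x') * h⁻¹ := by
        calc h * (x' * w) * h⁻¹ = h * x' * h⁻¹ * (h * w * h⁻¹) := by group
          _ = h * w * h⁻¹ * (h * x' * h⁻¹) := h8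
          _ = h * (w * x') * h⁻¹ := by group
      exact mul_left_cancel (mul_right_cancel h9)
    · have hcop : (2 ^ c).Coprime (orderOf w) := by
        rw [hv]
        exact Nat.Coprime.pow _ _ ((Nat.coprime_primes Nat.prime_two hq).2 (Ne.symm hq2))
      obtain ⟨m, hm⟩ := exists_pow_eq_self_of_coprime hcop
      rw [← hm]
      have hcomm : Commute x' (w ^ 2 ^ c) := hc.symm
      exact (hcomm.pow_right m).eq

end Cfsg.Agent.S4028
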