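import Cfsg.Statements.S4032
import Mathlib
import Cfsg.Agent.Lib.Helper6.PPrime

set_option autoImplicit false
open Cfsg

namespace Cfsg.Agent.S4032

open Cfsg.Agent.Lib.Helper6.PPrime

theorem claimA {G : Type*} [Group G] [Finite G] (π : Set ℕ)
    (hirr : ∀ x : G, (∀ r : ℕ, r.Prime → r ∣ orderOf x → r ∈ π) →
      Subgroup.normalizer ((Subgroup.zpowers x : Subgroup G) : Set G) ≤ Subgroup.centralizer {x})
    (N : Subgroup G) [N.Normal] (hN : ∀ r : ℕ, r.Prime → r ∣ Nat.card N → r ∉ π)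
    (p : ℕ) [Fact p.Prime] (hpπ : p ∈ π) (w z : G ⧸ N) (e : ℕ) (hw : w ^ p ^ e = 1)
    (hz : z * w * z⁻¹ ∈ Subgroup.zpowers w) : z * w = w * z := by
  have hp := (Fact.out : p.Prime)
  obtain ⟨x₁, rfl⟩ := QuotientGroup.mk'_surjective N w
  obtain ⟨z₀, rfl⟩ := QuotientGroup.mk'_surjective N z
  obtain ⟨a, b, hb, ho⟩ := Nat.exists_eq_pow_mul_and_not_dvd (orderOf_pos x₁).ne' p hp.ne_one
  have hcop : Nat.Coprime (p ^ a) b := Nat.Coprime.pow_left a ((Nat.Prime.coprime_iff_not_dvd hp).2 hb)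
  obtain ⟨s, t, hst⟩ := hcop.isCoprime
  have hxp : (x₁ ^ (t * (b : ℤ))) ^ (p ^ a) = 1 := by
    rw [← zpow_natCast, ← zpow_mul]
    have e1 : t * (b : ℤ) * ((p ^ a : ℕ) : ℤ) = ((orderOf x₁ : ℕ) : ℤ) * t := by
      rw [ho]
      push_cast
      ring
    rw [e1, zpow_mul, zpow_natCast, pow_orderOf_eq_one, one_zpow]
  have hwpa : (QuotientGroup.mk' N x₁) ^ (p ^ a) = 1 := by
    have h1 : orderOf (QuotientGroup.mk' N x₁) ∣ p ^ e := orderOf_dvd_of_pow_eq_one hw
    obtain ⟨j, _, hj⟩ := (Nat.dvd_prime_pow hp).1 h1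
    have h2 : orderOf (QuotientGroup.mk' N x₁) ∣ p ^ a * b := by
      rw [← ho]
      apply orderOf_dvd_of_pow_eq_one
      rw [← map_pow, pow_orderOf_eq_one, map_one]
    rw [hj] at h2
    have h3 : p ^ j ∣ p ^ a :=
      Nat.Coprime.dvd_of_dvd_mul_right
        (Nat.Coprime.pow_left j ((Nat.Prime.coprime_iff_not_dvd hp).2 hb)) h2
    rw [← hj] at h3
    exact orderOf_dvd_iff_pow_eq_one.1 h3
  have hmkx : QuotientGroup.mk' N (x₁ ^ (t * (b : ℤ))) = QuotientGroup.mk' N x₁ := by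
    rw [map_zpow]
    have e2 : t * (b : ℤ) = 1 - s * ((p ^ a : ℕ) : ℤ) := by linarith
    rw [e2, zpow_sub, zpow_one, zpow_mul', zpow_natCast, hwpa, one_zpow, inv_one, mul_one]
  rw [← hmkx] at hz ⊢
  generalize x₁ ^ (t * (b : ℤ)) = x at hxp hz ⊢
  have hxπ : ∀ r : ℕ, r.Prime → r ∣ orderOf x → r ∈ π := by
    intro r hr hrx
    have h1 : r ∣ p ^ a := hrx.trans (orderOf_dvd_of_pow_eq_one hxp)
    have h2 := (Nat.prime_dvd_prime_iff_eq hr hp).1 (hr.dvd_of_dvd_pow h1)
    rw [h2]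
    exact hpπ
  have hPp : IsPGroup p (Subgroup.zpowers x) := by
    rintro ⟨g, hg⟩
    obtain ⟨i, rfl⟩ := Subgroup.mem_zpowers_iff.1 hg
    refine ⟨a, Subtype.ext ?_⟩
    change (x ^ i) ^ (p ^ a) = 1
    rw [← zpow_natCast, ← zpow_mul, mul_comm, zpow_mul, zpow_natCast, hxp, one_zpow]
  have hNp : (Nat.card N).Coprime p :=
    Nat.Coprime.symm ((Nat.Prime.coprime_iff_not_dvd hp).2 (fun h => hN p hp h hpπ))
  obtain ⟨j, hj⟩ := Subgroup.mem_zpowers_iff.1 hz
  have hx : ∀ u ∈ Subgroup.zpowers x, z₀ * u * z₀⁻¹ ∈ Subgroup.zpowers x ⊔ N := by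
    intro u hu
    obtain ⟨i, rfl⟩ := Subgroup.mem_zpowers_iff.1 hu
    have h1 : QuotientGroup.mk' N ((x ^ j) ^ i) = QuotientGroup.mk' N (z₀ * x ^ i * z₀⁻¹) := by
      rw [map_zpow, map_zpow, hj, map_mul, map_mul, map_inv, map_zpow, conj_zpow]
    have h2 : ((x ^ j) ^ i)⁻¹ * (z₀ * x ^ i * z₀⁻¹) ∈ N := (QuotientGroup.eq (s := N)).1 h1
    have h3 : z₀ * x ^ i * z₀⁻¹ = (x ^ j) ^ i * (((x ^ j) ^ i)⁻¹ * (z₀ * x ^ i * z₀⁻¹)) := by group
    rw [h3]
    refine Subgroup.mul_mem _ (Subgroup.mem_sup_left ?_) (Subgroup.mem_sup_right h2)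
    exact Subgroup.zpow_mem _ (Subgroup.zpow_mem _ (Subgroup.mem_zpowers x) j) i
  obtain ⟨n, hn, hnz⟩ := exists_mul_mem_normalizer N hNp (Subgroup.zpowers x) hPp z₀ hx
  have h4 := hirr x hxπ hnz
  have h5 : x * (n * z₀) = n * z₀ * x :=
    (Subgroup.mem_centralizer_iff.1 h4) x (Set.mem_singleton x)
  have h6 : QuotientGroup.mk' N (n * z₀) = QuotientGroup.mk' N z₀ := by
    have : QuotientGroup.mk' N n = 1 := (QuotientGroup.eq_one_iff n).2 hn
    rw [map_mul, this, one_mul]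
  have h7 := congrArg (QuotientGroup.mk' N) h5
  rw [map_mul (QuotientGroup.mk' N) x (n * z₀), map_mul (QuotientGroup.mk' N) (n * z₀) x, h6] at h7
  exact h7.symm

/-- Let π be a set of primes and G a finite group in which N_G(⟨x⟩) = C_G(x) for every π-element x. If N is a normal subgroup of G whose order is divisible by no prime of π, then G/N has the same property: N_{G/N}(⟨y⟩) = C_{G/N}(y) for every π-element y of G/N. -/
theorem result {G : Type*} [Group G] [Finite G] (π : Set ℕ)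
    (hirr : ∀ x : G, (∀ r : ℕ, r.Prime → r ∣ orderOf x → r ∈ π) →
      Subgroup.normalizer ((Subgroup.zpowers x : Subgroup G) : Set G) ≤ Subgroup.centralizer {x})
    (N : Subgroup G) [N.Normal] (hN : ∀ r : ℕ, r.Prime → r ∣ Nat.card N → r ∉ π) :
    ∀ y : G ⧸ N, (∀ r : ℕ, r.Prime → r ∣ orderOf y → r ∈ π) →
      Subgroup.normalizer ((Subgroup.zpowers y : Subgroup (G ⧸ N)) : Set (G ⧸ N)) ≤ Subgroup.centralizer {y} := by
  intro y hy z hz
  have hm : 0 < orderOf y := orderOf_pos y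
  have hD : ∀ p : ℕ, p.Prime → p ^ ((orderOf y).factorization p) ∣
      Nat.card ↥(Subgroup.zpowers y ⊓ Subgroup.centralizer {z}) := by
    intro p hp
    have : Fact p.Prime := ⟨hp⟩
    by_cases hpm : p ∣ orderOf y
    · have hpπ : p ∈ π := hy p hp hpm
      have hdv : p ^ ((orderOf y).factorization p) ∣ orderOf y := Nat.ordProj_dvd _ p
      have hk : orderOf y / p ^ ((orderOf y).factorization p) ∣ orderOf y := Nat.div_dvd_of_dvd hdv
      have hk0 : orderOf y / p ^ ((orderOf y).factorization p) ≠ 0 :=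
        (Nat.div_pos (Nat.le_of_dvd hm hdv) (pow_pos hp.pos _)).ne'
      have hord : orderOf (y ^ (orderOf y / p ^ ((orderOf y).factorization p)))
          = p ^ ((orderOf y).factorization p) := by
        rw [orderOf_pow_of_dvd hk0 hk]
        exact Nat.div_div_self hdv hm.ne'
      generalize orderOf y / p ^ ((orderOf y).factorization p) = k at hord
      generalize (orderOf y).factorization p = v at hord ⊢
      have hwp : (y ^ k) ^ p ^ v = 1 := by
        rw [← hord]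
        exact pow_orderOf_eq_one _
      have hzw : z * y ^ k * z⁻¹ ∈ Subgroup.zpowers (y ^ k) := by
        have h1 := (Subgroup.mem_normalizer_iff.1 hz y).1 (Subgroup.mem_zpowers y)
        obtain ⟨j, hj⟩ := Subgroup.mem_zpowers_iff.1 h1
        rw [Subgroup.mem_zpowers_iff]
        refine ⟨j, ?_⟩
        rw [← conj_pow, ← hj, ← zpow_natCast, ← zpow_natCast, ← zpow_mul, ← zpow_mul, mul_comm]
      have hcomm := claimA π hirr N hN p hpπ (y ^ k) z v hwp hzw
      have hmem : y ^ k ∈ Subgroup.zpowers y ⊓ Subgroup.centralizer {z} := by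
        refine ⟨Subgroup.pow_mem _ (Subgroup.mem_zpowers y) k, ?_⟩
        change y ^ k ∈ Subgroup.centralizer {z}
        rw [Subgroup.mem_centralizer_iff]
        intro h hh
        rw [Set.mem_singleton_iff] at hh
        subst hh
        exact hcomm
      rw [← hord]
      have := orderOf_dvd_natCard
        (⟨y ^ k, hmem⟩ : ↥(Subgroup.zpowers y ⊓ Subgroup.centralizer {z}))
      rwa [Subgroup.orderOf_mk] at this
    · rw [Nat.factorization_eq_zero_of_not_dvd hpm, pow_zero]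
      exact one_dvd _
  have hdvd : orderOf y ∣ Nat.card ↥(Subgroup.zpowers y ⊓ Subgroup.centralizer {z}) := by
    rw [← Nat.factorization_prime_le_iff_dvd hm.ne' Nat.card_pos.ne']
    intro p hp
    exact (hp.pow_dvd_iff_le_factorization Nat.card_pos.ne').1 (hD p hp)
  have heq : Subgroup.zpowers y ⊓ Subgroup.centralizer {z} = Subgroup.zpowers y := by
    apply Subgroup.eq_of_le_of_card_ge inf_le_left
    rw [Nat.card_zpowers]
    exact Nat.le_of_dvd Nat.card_pos hdvd
  have hy' : y ∈ Subgroup.zpowers y ⊓ Subgroup.centralizer {z} := by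
    rw [heq]
    exact Subgroup.mem_zpowers y
  have h9 := (Subgroup.mem_centralizer_iff.1 hy'.2) z (Set.mem_singleton z)
  rw [Subgroup.mem_centralizer_iff]
  intro h hh
  rw [Set.mem_singleton_iff] at hh
  subst hh
  exact h9.symm

end Cfsg.Agent.S4032
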