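import Cfsg.Statements.S4034
import Mathlib
import Cfsg.Agent.S4035
import Cfsg.Agent.S0143
import Cfsg.Agent.S1326
import Cfsg.Agent.Lib.Helper2.Fit
import Cfsg.Agent.Lib.Helper2.Comp
import Cfsg.Agent.Lib.Helper6.Index
import Cfsg.Agent.Lib.Helper6.SylowConj

set_option autoImplicit false
open Cfsg

namespace Cfsg.Agent.S4034

open Cfsg.Agent.Lib.Helper6
open Cfsg.Agent.Lib.Helper2

universe u

def Hyp (p : ℕ) (G : Type*) [Group G] : Prop :=
  ∀ x : G, (orderOf x).Coprime p → ∃ k : ℕ, (Subgroup.centralizer ({x} : Set G)).index = p ^ k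

theorem relIndex_normal_dvd {G : Type*} [Group G] [Finite G] (C N : Subgroup G) [hN : N.Normal] :
    C.relIndex N ∣ C.index := by
  have h1 := Index.relIndex_sup_of_le_normalizer C N
    (by rw [Subgroup.normalizer_eq_top]; exact le_top)
  rw [← h1]
  exact Subgroup.relIndex_dvd_index_of_le le_sup_left

theorem hyp_sub {G : Type*} [Group G] [Finite G] {p : ℕ} (hp : p.Prime) (h : Hyp p G)
    (N : Subgroup G) [N.Normal] : Hyp p ↥N := by
  intro y hy
  have hy' : (orderOf (y : G)).Coprime p := by rwa [Subgroup.orderOf_coe]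
  obtain ⟨k, hk⟩ := h (y : G) hy'
  have e : Subgroup.centralizer ({y} : Set ↥N) =
      (Subgroup.centralizer ({(y : G)} : Set G)).subgroupOf N := by
    ext g
    rw [Subgroup.mem_subgroupOf, Subgroup.mem_centralizer_iff, Subgroup.mem_centralizer_iff]
    constructor
    · intro hg z hz
      rw [Set.mem_singleton_iff] at hz
      rw [hz]
      exact congrArg Subtype.val (hg y rfl)
    · intro hg z hz
      rw [Set.mem_singleton_iff] at hz
      rw [hz]
      exact Subtype.ext (hg (y : G) rfl)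
  have h1 : (Subgroup.centralizer ({y} : Set ↥N)).index ∣ p ^ k := by
    rw [e, ← hk]
    exact relIndex_normal_dvd _ N
  obtain ⟨j, -, hj⟩ := (Nat.dvd_prime_pow hp).1 h1
  exact ⟨j, hj⟩

theorem hyp_quot {G : Type*} [Group G] [Finite G] {p : ℕ} (hp : p.Prime) (h : Hyp p G)
    (N : Subgroup G) [N.Normal] : Hyp p (G ⧸ N) := by
  intro y hy
  obtain ⟨x0, rfl⟩ := QuotientGroup.mk_surjective y
  obtain ⟨a, m, hm, hn⟩ := Nat.exists_eq_pow_mul_and_not_dvd (orderOf_pos x0).ne' p hp.ne_one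
  have hcop : (p ^ a).Coprime (orderOf (x0 : G ⧸ N)) := (Nat.Coprime.pow_right a hy).symm
  obtain ⟨t, ht⟩ := exists_pow_eq_self_of_coprime hcop
  obtain ⟨x, hx⟩ : ∃ x : G, x = (x0 ^ (p ^ a)) ^ t := ⟨_, rfl⟩
  have hxm0 : (x0 ^ (p ^ a)) ^ m = 1 := by rw [← pow_mul, ← hn, pow_orderOf_eq_one]
  have hxm : x ^ m = 1 := by
    rw [hx, pow_right_comm, hxm0, one_pow]
  have hmp : Nat.Coprime m p := ((Nat.Prime.coprime_iff_not_dvd hp).2 hm).symm
  have hxcop : (orderOf x).Coprime p :=
    Nat.Coprime.coprime_dvd_left (orderOf_dvd_of_pow_eq_one hxm) hmp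
  have hmk : (x : G ⧸ N) = (x0 : G ⧸ N) := by
    rw [hx, QuotientGroup.mk_pow, QuotientGroup.mk_pow]
    exact ht
  obtain ⟨k, hk⟩ := h x hxcop
  have hle : (Subgroup.centralizer ({x} : Set G)).map (QuotientGroup.mk' N) ≤
      Subgroup.centralizer ({(x0 : G ⧸ N)} : Set (G ⧸ N)) := by
    rintro _ ⟨g, hg, rfl⟩
    have hg' : g ∈ Subgroup.centralizer ({x} : Set G) := hg
    rw [Subgroup.mem_centralizer_iff] at hg' ⊢
    intro z hz
    rw [Set.mem_singleton_iff] at hz
    rw [hz, ← hmk]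
    have := hg' x rfl
    exact congrArg (QuotientGroup.mk (s := N)) this
  have h1 : (Subgroup.centralizer ({(x0 : G ⧸ N)} : Set (G ⧸ N))).index ∣ p ^ k := by
    rw [← hk]
    exact (Subgroup.index_dvd_of_le hle).trans
      (Subgroup.index_map_dvd _ (QuotientGroup.mk'_surjective N))
  obtain ⟨j, -, hj⟩ := (Nat.dvd_prime_pow hp).1 h1
  exact ⟨j, hj⟩

theorem solv {p : ℕ} (hp : p.Prime) : ∀ (n : ℕ) (G : Type u) [Group G] [Finite G],
    Nat.card G = n → Hyp p G → Group.IsSolvable G := by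
  intro n
  induction n using Nat.strong_induction_on with
  | _ n ih =>
    intro G _ _ hn h
    by_cases hsimp : ∃ N : Subgroup G, N.Normal ∧ N ≠ ⊥ ∧ N ≠ ⊤
    · obtain ⟨N, hN, hb, ht⟩ := hsimp
      haveI := hN
      have c1 : Nat.card N < n := by
        rw [← hn]
        exact lt_of_le_of_ne (Subgroup.card_le_card_group N)
          (fun hc => ht (Subgroup.eq_top_of_card_eq N hc))
      have c2 : Nat.card (G ⧸ N) < n := by
        rw [← hn, ← Subgroup.index_eq_card, ← Subgroup.card_mul_index N]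
        have h1 : 1 < Nat.card N := (Subgroup.one_lt_card_iff_ne_bot N).2 hb
        have h2 : 0 < N.index := Nat.pos_of_ne_zero Subgroup.index_ne_zero_of_finite
        nlinarith
      haveI := ih _ c1 N rfl (hyp_sub hp h N)
      haveI := ih _ c2 (G ⧸ N) rfl (hyp_quot hp h N)
      exact Group.isSolvable_of_ker_le_range N.subtype (QuotientGroup.mk' N)
        (by rw [QuotientGroup.ker_mk', Subgroup.range_subtype])
    · push Not at hsimp
      by_cases hpg : IsPGroup p G
      · haveI : Fact p.Prime := ⟨hp⟩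
        haveI := hpg.isNilpotent
        infer_instance
      · unfold IsPGroup at hpg
        push Not at hpg
        obtain ⟨x0, hx0⟩ := hpg
        obtain ⟨a, m, hm, hn'⟩ :=
          Nat.exists_eq_pow_mul_and_not_dvd (orderOf_pos x0).ne' p hp.ne_one
        have hx1 : x0 ^ (p ^ a) ≠ 1 := hx0 a
        have hxm : (x0 ^ (p ^ a)) ^ m = 1 := by rw [← pow_mul, ← hn', pow_orderOf_eq_one]
        have hmp : Nat.Coprime m p := ((Nat.Prime.coprime_iff_not_dvd hp).2 hm).symm
        have hcop : (orderOf (x0 ^ (p ^ a))).Coprime p :=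
          Nat.Coprime.coprime_dvd_left (orderOf_dvd_of_pow_eq_one hxm) hmp
        obtain ⟨k, hk⟩ := h _ hcop
        haveI : Nontrivial G := ⟨⟨_, 1, hx1⟩⟩
        haveI : IsSimpleGroup G := ⟨fun H hH => by
          by_contra hc
          push Not at hc
          exact hc.2 (hsimp H hH hc.1)⟩
        have hprime := Cfsg.Agent.S0143.result p k hp (x0 ^ (p ^ a)) hx1 hk
        haveI : Fact (Nat.card G).Prime := ⟨hprime⟩
        haveI : IsCyclic G := isCyclic_of_prime_card (p := Nat.card G) rfl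
        haveI : IsMulCommutative G := IsCyclic.isMulCommutative
        exact Group.isSolvable_of_comm (fun a b => IsMulCommutative.is_comm.comm a b)

theorem pcore_quot {G : Type*} [Group G] [Finite G] {p : ℕ} [Fact p.Prime] (N : Subgroup G)
    [N.Normal] (hNp : IsPGroup p N) (hmax : Cfsg.pCore p G ≤ N) :
    Cfsg.pCore p (G ⧸ N) = ⊥ := by
  haveI hOn : (Cfsg.pCore p (G ⧸ N)).Normal := Fit.pCore_normal p
  have hOp : IsPGroup p (Cfsg.pCore p (G ⧸ N)) := Fit.pCore_isPGroup p
  have hKn : ((Cfsg.pCore p (G ⧸ N)).comap (QuotientGroup.mk' N)).Normal := hOn.comap _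
  have hKp : IsPGroup p ((Cfsg.pCore p (G ⧸ N)).comap (QuotientGroup.mk' N)) := by
    rintro ⟨g, hg⟩
    obtain ⟨k, hk⟩ := hOp ⟨QuotientGroup.mk' N g, hg⟩
    have hk' : (QuotientGroup.mk' N g) ^ (p ^ k) = 1 := congrArg Subtype.val hk
    have hgN : g ^ (p ^ k) ∈ N := by
      rw [← QuotientGroup.eq_one_iff, QuotientGroup.mk_pow]
      exact hk'
    obtain ⟨j, hj⟩ := hNp ⟨g ^ (p ^ k), hgN⟩
    have hj' : (g ^ (p ^ k)) ^ (p ^ j) = 1 := congrArg Subtype.val hj
    refine ⟨k + j, Subtype.ext ?_⟩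
    change g ^ (p ^ (k + j)) = 1
    rw [pow_add, pow_mul]
    exact hj'
  have hle : (Cfsg.pCore p (G ⧸ N)).comap (QuotientGroup.mk' N) ≤ N :=
    (Fit.le_pCore _ hKn hKp).trans hmax
  rw [eq_bot_iff, ← Subgroup.map_comap_eq_self_of_surjective (QuotientGroup.mk'_surjective N)
    (Cfsg.pCore p (G ⧸ N))]
  calc ((Cfsg.pCore p (G ⧸ N)).comap (QuotientGroup.mk' N)).map (QuotientGroup.mk' N)
      ≤ N.map (QuotientGroup.mk' N) := Subgroup.map_mono hle
    _ = ⊥ := QuotientGroup.map_mk'_self N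

theorem keyB {G : Type*} [Group G] [Finite G] [Group.IsSolvable G] {p : ℕ} (hp : p.Prime)
    (h : Hyp p G) (hO : Cfsg.pCore p G = ⊥) :
    ∃ H : Subgroup G, IsMulCommutative H ∧ ¬ p ∣ Nat.card H ∧ ∃ k : ℕ, H.index = p ^ k := by
  haveI : Fact p.Prime := ⟨hp⟩
  have hF : ∀ x : G, (orderOf x).Coprime p →
      Cfsg.fittingSubgroup G ≤ Subgroup.centralizer ({x} : Set G) := by
    intro x hx
    obtain ⟨k, hk⟩ := h x hx
    rw [Fit.fitting_eq_iSup_pCore]
    apply iSup_le
    intro q
    haveI : Fact (q : ℕ).Prime := ⟨q.2⟩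
    by_cases hqp : (q : ℕ) = p
    · rw [hqp, hO]; exact bot_le
    · haveI := Fit.pCore_normal (G := G) (q : ℕ)
      rw [← Subgroup.relIndex_eq_one]
      have d1 : (Subgroup.centralizer ({x} : Set G)).relIndex (Cfsg.pCore (q : ℕ) G) ∣ p ^ k := by
        rw [← hk]; exact relIndex_normal_dvd _ _
      have d2 : (Subgroup.centralizer ({x} : Set G)).relIndex (Cfsg.pCore (q : ℕ) G) ∣
          Nat.card (Cfsg.pCore (q : ℕ) G) := Subgroup.relIndex_dvd_card _ _
      obtain ⟨j, hj⟩ := (IsPGroup.iff_card.1 (Fit.pCore_isPGroup (G := G) (q : ℕ)))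
      rw [hj] at d2
      have hcop : Nat.Coprime (p ^ k) ((q : ℕ) ^ j) :=
        Nat.Coprime.pow _ _ ((Nat.coprime_primes hp q.2).2 (Ne.symm hqp))
      exact Nat.eq_one_of_dvd_coprimes hcop d1 d2
  have hCF : Subgroup.centralizer (Cfsg.fittingSubgroup G : Set G) ≤ Cfsg.fittingSubgroup G :=
    (Cfsg.Agent.S1326.result).2 Comp.layer_eq_bot_of_solvable
  have hmemF : ∀ x : G, (orderOf x).Coprime p → x ∈ Cfsg.fittingSubgroup G := by
    intro x hx
    apply hCF
    rw [Subgroup.mem_centralizer_iff]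
    intro f hf
    have := hF x hx hf
    rw [Subgroup.mem_centralizer_iff] at this
    exact (this x rfl).symm
  have hcomm : ∀ x ∈ {x : G | (orderOf x).Coprime p}, ∀ y ∈ {x : G | (orderOf x).Coprime p},
      x * y = y * x := by
    intro x hx y hy
    have := hF x hx (hmemF y hy)
    rw [Subgroup.mem_centralizer_iff] at this
    exact this x rfl
  haveI hHc : IsMulCommutative (Subgroup.closure {x : G | (orderOf x).Coprime p}) :=
    Subgroup.isMulCommutative_closure hcomm
  have hall : ∀ z ∈ Subgroup.closure {x : G | (orderOf x).Coprime p}, (orderOf z).Coprime p := by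
    intro z hz
    induction hz using Subgroup.closure_induction with
    | mem x hx => exact hx
    | one => simp
    | mul x y hx hy ihx ihy =>
      have hc : Commute x y := by
        have := IsMulCommutative.is_comm.comm
          (⟨x, hx⟩ : Subgroup.closure {x : G | (orderOf x).Coprime p}) ⟨y, hy⟩
        exact congrArg Subtype.val this
      exact Nat.Coprime.coprime_dvd_left (hc.orderOf_mul_dvd_lcm.trans (Nat.lcm_dvd_mul _ _))
        (Nat.Coprime.mul_left ihx ihy)
    | inv x hx ihx => rwa [orderOf_inv]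
  refine ⟨Subgroup.closure {x : G | (orderOf x).Coprime p}, hHc, ?_, ?_⟩
  · intro hdvd
    obtain ⟨u, hu⟩ := exists_prime_orderOf_dvd_card' p hdvd
    have h1 := hall u.1 u.2
    rw [Subgroup.orderOf_coe, hu, Nat.coprime_self] at h1
    exact hp.one_lt.ne' h1
  · have hidx : ∀ q : ℕ, q.Prime →
        q ∣ (Subgroup.closure {x : G | (orderOf x).Coprime p}).index → q = p := by
      intro q hq hdvd
      by_contra hqp
      haveI : Fact q.Prime := ⟨hq⟩
      obtain ⟨Q⟩ : Nonempty (Sylow q G) := inferInstance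
      have hQH : (Q : Subgroup G) ≤ Subgroup.closure {x : G | (orderOf x).Coprime p} := by
        intro z hz
        apply Subgroup.subset_closure
        obtain ⟨j, hj⟩ := Q.isPGroup' ⟨z, hz⟩
        have hj' : z ^ (q ^ j) = 1 := congrArg Subtype.val hj
        exact Nat.Coprime.coprime_dvd_left (orderOf_dvd_of_pow_eq_one hj')
          (Nat.Coprime.pow_left j ((Nat.coprime_primes hq hp).2 hqp))
      exact Q.not_dvd_index (hdvd.trans (Subgroup.index_dvd_of_le hQH))
    exact ⟨_, Nat.eq_prime_pow_of_unique_prime_dvd Subgroup.index_ne_zero_of_finite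
      (fun {d} hd hdd => hidx d hd hdd)⟩

theorem forward {G : Type*} [Group G] [Finite G] {p : ℕ} (hp : p.Prime) (h : Hyp p G) :
    ∃ H : Subgroup G, IsMulCommutative H ∧ ¬ p ∣ Nat.card H ∧ ∃ k : ℕ, H.index = p ^ k := by
  haveI : Fact p.Prime := ⟨hp⟩
  haveI hsolv : Group.IsSolvable G := solv hp _ G rfl h
  obtain ⟨N, hNdef⟩ : ∃ N : Subgroup G, N = Cfsg.pCore p G := ⟨_, rfl⟩
  haveI hNn : N.Normal := by rw [hNdef]; exact Fit.pCore_normal p
  have hNp : IsPGroup p N := by rw [hNdef]; exact Fit.pCore_isPGroup p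
  obtain ⟨Hb, hHc, hHp, k, hHk⟩ := keyB (G := G ⧸ N) hp (hyp_quot hp h N)
    (pcore_quot N hNp hNdef.ge)
  obtain ⟨K, hK⟩ : ∃ K : Subgroup G, K = Hb.comap (QuotientGroup.mk' N) := ⟨_, rfl⟩
  have hNK : N ≤ K := by
    intro g hg
    rw [hK, Subgroup.mem_comap]
    have : (QuotientGroup.mk' N) g = 1 := (QuotientGroup.eq_one_iff g).2 hg
    rw [this]; exact Hb.one_mem
  have e1 : Nat.card K = Nat.card N * N.relIndex K := Index.card_eq_card_mul_relIndex N K hNK
  have e2 : K.index = Hb.index := by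
    rw [hK]; exact Subgroup.index_comap_of_surjective Hb (QuotientGroup.mk'_surjective N)
  have e3 := Subgroup.card_mul_index K
  have e4 := Subgroup.card_mul_index Hb
  have e5 := Subgroup.card_mul_index N
  have e6 : N.index = Nat.card (G ⧸ N) := Subgroup.index_eq_card N
  have hNpos : 0 < Nat.card N := Nat.card_pos
  have hidxpos : 0 < Hb.index := by rw [hHk]; exact pow_pos hp.pos k
  have e7 : N.relIndex K = Nat.card Hb := by
    have : Nat.card N * (N.relIndex K * Hb.index) = Nat.card N * (Nat.card Hb * Hb.index) := by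
      calc Nat.card N * (N.relIndex K * Hb.index) = Nat.card K * K.index := by
            rw [e1, e2, mul_assoc]
        _ = Nat.card N * N.index := by rw [e3, e5]
        _ = Nat.card N * (Nat.card Hb * Hb.index) := by rw [e6, e4]
    exact Nat.eq_of_mul_eq_mul_right hidxpos (Nat.eq_of_mul_eq_mul_left hNpos this)
  obtain ⟨j, hj⟩ := IsPGroup.iff_card.1 hNp
  have hcard' : Nat.card (N.subgroupOf K) = p ^ j := by
    rw [← hj]
    exact Nat.card_congr (Subgroup.subgroupOfEquivOfLe hNK).toEquiv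
  have hcop : Nat.Coprime (Nat.card (N.subgroupOf K)) (N.subgroupOf K).index := by
    rw [hcard']
    change Nat.Coprime (p ^ j) (N.relIndex K)
    rw [e7]
    exact Nat.Coprime.pow_left j ((Nat.Prime.coprime_iff_not_dvd hp).2 hHp)
  obtain ⟨H0, hH0⟩ := Subgroup.exists_right_complement'_of_coprime hcop
  have hcardH0 : Nat.card H0 = Nat.card Hb := by
    rw [← hH0.symm.index_eq_card]
    exact e7
  have hKmem : ∀ g ∈ K, QuotientGroup.mk' N g ∈ Hb := by
    intro g hg
    rw [hK] at hg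
    exact hg
  have hcommH0 : ∀ a ∈ H0, ∀ b ∈ H0, a * b = b * a := by
    intro a ha b hb
    have hmem : a * b * a⁻¹ * b⁻¹ ∈ N.subgroupOf K := by
      rw [Subgroup.mem_subgroupOf]
      have ha' : QuotientGroup.mk' N (a : G) ∈ Hb := hKmem a a.2
      have hb' : QuotientGroup.mk' N (b : G) ∈ Hb := hKmem b b.2
      have hc := IsMulCommutative.is_comm.comm (⟨_, ha'⟩ : Hb) ⟨_, hb'⟩
      have hc' : QuotientGroup.mk' N (a : G) * QuotientGroup.mk' N (b : G) =
          QuotientGroup.mk' N (b : G) * QuotientGroup.mk' N (a : G) := congrArg Subtype.val hc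
      rw [← QuotientGroup.eq_one_iff]
      change QuotientGroup.mk' N ((a : G) * b * (a : G)⁻¹ * (b : G)⁻¹) = 1
      rw [map_mul, map_mul, map_mul, map_inv, map_inv, hc']
      group
    have hmem2 : a * b * a⁻¹ * b⁻¹ ∈ H0 :=
      H0.mul_mem (H0.mul_mem (H0.mul_mem ha hb) (H0.inv_mem ha)) (H0.inv_mem hb)
    have h1 := Subgroup.disjoint_def.1 hH0.disjoint hmem hmem2
    calc a * b = (a * b * a⁻¹ * b⁻¹) * (b * a) := by group
      _ = b * a := by rw [h1, one_mul]
  have hcardH : Nat.card (H0.map K.subtype) = Nat.card Hb := by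
    rw [← hcardH0]
    exact Nat.card_congr (Subgroup.equivMapOfInjective H0 K.subtype K.subtype_injective).toEquiv.symm
  refine ⟨H0.map K.subtype, ⟨⟨?_⟩⟩, ?_, j + k, ?_⟩
  · rintro ⟨_, a, ha, rfl⟩ ⟨_, b, hb, rfl⟩
    apply Subtype.ext
    change K.subtype a * K.subtype b = K.subtype b * K.subtype a
    rw [← map_mul, ← map_mul, hcommH0 a ha b hb]
  · rw [hcardH]; exact hHp
  · have e8 := Subgroup.card_mul_index (H0.map K.subtype)
    rw [hcardH, ← e3, e1, e7, e2, hHk, hj] at e8
    have hpos : 0 < Nat.card Hb := Nat.card_pos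
    have : Nat.card Hb * (H0.map K.subtype).index = Nat.card Hb * (p ^ (j + k)) := by
      rw [e8, pow_add]; ring
    exact Nat.eq_of_mul_eq_mul_left hpos this

theorem conj_q {C : Type*} [Group C] [Finite C] (H : Subgroup C) {q : ℕ} [Fact q.Prime]
    (hq : ¬ q ∣ H.index) (y : C) (a : ℕ) (hy : y ^ (q ^ a) = 1) : ∃ c : C, c⁻¹ * y * c ∈ H := by
  have hq' : q.Prime := Fact.out
  obtain ⟨b, -, hb⟩ := (Nat.dvd_prime_pow hq').1 (orderOf_dvd_of_pow_eq_one hy)
  have hK : IsPGroup q (Subgroup.zpowers y) := SylowConj.isPGroup_zpowers y b hb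
  have hidx : ¬ q ∣ Nat.card (C ⧸ H) := by rwa [← Subgroup.index_eq_card]
  obtain ⟨f, hf⟩ := hK.nonempty_fixed_point_of_prime_not_dvd_card (C ⧸ H) hidx
  obtain ⟨c, rfl⟩ := QuotientGroup.mk_surjective f
  refine ⟨c, ?_⟩
  have h1 := hf ⟨y, Subgroup.mem_zpowers y⟩
  have h2 : (QuotientGroup.mk (y * c) : C ⧸ H) = QuotientGroup.mk c := h1
  rw [QuotientGroup.eq] at h2
  have h3 := H.inv_mem h2
  simpa [mul_assoc] using h3

theorem conj_into {G : Type*} [Group G] [Finite G] {p : ℕ} (hp : p.Prime) (H : Subgroup G)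
    (hH : IsMulCommutative H) (k : ℕ) (hk : H.index = p ^ k) :
    ∀ (n : ℕ) (x : G), orderOf x = n → n.Coprime p → ∃ g : G, g * x * g⁻¹ ∈ H := by
  intro n
  induction n using Nat.strong_induction_on with
  | _ n ih =>
    intro x hxn hcop
    by_cases hn1 : n = 1
    · refine ⟨1, ?_⟩
      have : x = 1 := orderOf_eq_one_iff.1 (hxn.trans hn1)
      simp [this, H.one_mem]
    · obtain ⟨q, hq⟩ : ∃ q : ℕ, q = n.minFac := ⟨_, rfl⟩
      have hqprime : q.Prime := by rw [hq]; exact Nat.minFac_prime hn1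
      have hqn : q ∣ n := by rw [hq]; exact Nat.minFac_dvd n
      have hn0 : n ≠ 0 := by rw [← hxn]; exact (orderOf_pos x).ne'
      obtain ⟨a, m, hm, hnm⟩ := Nat.exists_eq_pow_mul_and_not_dvd hn0 q hqprime.ne_one
      have ha : a ≠ 0 := by
        rintro rfl
        rw [pow_zero, one_mul] at hnm
        rw [← hnm] at hm
        exact hm hqn
      have hqp : q ≠ p := by
        rintro rfl
        exact hqprime.one_lt.ne' (Nat.eq_one_of_dvd_coprimes hcop hqn dvd_rfl)
      have hm0 : 0 < m := by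
        rcases Nat.eq_zero_or_pos m with h0 | h0
        · rw [h0, mul_zero] at hnm; exact absurd hnm hn0
        · exact h0
      have hqa : 1 < q ^ a := Nat.one_lt_pow ha hqprime.one_lt
      have hmn : m < n := by rw [hnm]; nlinarith
      obtain ⟨z, hz⟩ : ∃ z : G, z = x ^ (q ^ a) := ⟨_, rfl⟩
      obtain ⟨y, hy⟩ : ∃ y : G, y = x ^ m := ⟨_, rfl⟩
      have hzm : z ^ m = 1 := by rw [hz, ← pow_mul, ← hnm, ← hxn, pow_orderOf_eq_one]
      have hyq : y ^ (q ^ a) = 1 := by
        rw [hy, ← pow_mul, mul_comm, ← hnm, ← hxn, pow_orderOf_eq_one]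
      have hzo : orderOf z ∣ m := orderOf_dvd_of_pow_eq_one hzm
      have hzlt : orderOf z < n := lt_of_le_of_lt (Nat.le_of_dvd hm0 hzo) hmn
      have hmcop : m.Coprime p := Nat.Coprime.coprime_dvd_left (Dvd.intro_left _ hnm.symm) hcop
      have hzcop : (orderOf z).Coprime p := Nat.Coprime.coprime_dvd_left hzo hmcop
      obtain ⟨g, hg⟩ := ih _ hzlt z rfl hzcop
      have hcopmq : IsCoprime (m : ℤ) ((q ^ a : ℕ) : ℤ) :=
        Nat.isCoprime_iff_coprime.2
          (Nat.Coprime.pow_right a ((Nat.Prime.coprime_iff_not_dvd hqprime).2 hm).symm)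
      obtain ⟨s, t, hst⟩ := hcopmq
      have hxyz : x = y ^ s * z ^ t := by
        calc x = x ^ (1 : ℤ) := (zpow_one x).symm
          _ = x ^ (s * (m : ℤ) + t * ((q ^ a : ℕ) : ℤ)) := by rw [hst]
          _ = y ^ s * z ^ t := by
            rw [zpow_add, mul_comm s, mul_comm t, zpow_mul, zpow_mul, zpow_natCast, zpow_natCast,
              hy, hz]
      have hyzc : y * z = z * y := by
        rw [hy, hz, ← pow_add, ← pow_add, add_comm]
      haveI : Fact q.Prime := ⟨hqprime⟩
      have hHC : H ≤ Subgroup.centralizer ({g * z * g⁻¹} : Set G) := by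
        intro h hh
        rw [Subgroup.mem_centralizer_iff]
        intro w hw
        rw [Set.mem_singleton_iff] at hw
        subst hw
        have := IsMulCommutative.is_comm.comm (⟨g * z * g⁻¹, hg⟩ : H) ⟨h, hh⟩
        exact congrArg Subtype.val this
      have hyC : g * y * g⁻¹ ∈ Subgroup.centralizer ({g * z * g⁻¹} : Set G) := by
        rw [Subgroup.mem_centralizer_iff]
        intro w hw
        rw [Set.mem_singleton_iff] at hw
        subst hw
        calc g * z * g⁻¹ * (g * y * g⁻¹) = g * (z * y) * g⁻¹ := by group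
          _ = g * (y * z) * g⁻¹ := by rw [hyzc]
          _ = g * y * g⁻¹ * (g * z * g⁻¹) := by group
      have hnd : ¬ q ∣ (H.subgroupOf (Subgroup.centralizer ({g * z * g⁻¹} : Set G))).index := by
        intro hd
        have h1 : H.relIndex (Subgroup.centralizer ({g * z * g⁻¹} : Set G)) ∣ p ^ k := by
          rw [← hk]; exact Subgroup.relIndex_dvd_index_of_le hHC
        have h2 : q ∣ p ^ k := hd.trans h1
        exact hqp ((Nat.prime_dvd_prime_iff_eq hqprime hp).1 (hqprime.dvd_of_dvd_pow h2))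
      have hyq' : (⟨g * y * g⁻¹, hyC⟩ : Subgroup.centralizer ({g * z * g⁻¹} : Set G)) ^ (q ^ a)
          = 1 := by
        apply Subtype.ext
        change (g * y * g⁻¹) ^ (q ^ a) = 1
        rw [conj_pow, hyq]; group
      obtain ⟨c, hc⟩ := conj_q _ hnd _ a hyq'
      rw [Subgroup.mem_subgroupOf] at hc
      have hc1 : (c : G)⁻¹ * (g * y * g⁻¹) * c ∈ H := hc
      have hc2 : (c : G)⁻¹ * (g * z * g⁻¹) * c = g * z * g⁻¹ := by
        have := Subgroup.mem_centralizer_iff.1 c.2 (g * z * g⁻¹) rfl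
        calc (c : G)⁻¹ * (g * z * g⁻¹) * c = (c : G)⁻¹ * ((g * z * g⁻¹) * c) := by group
          _ = (c : G)⁻¹ * (c * (g * z * g⁻¹)) := by rw [this]
          _ = g * z * g⁻¹ := by group
      refine ⟨(c : G)⁻¹ * g, ?_⟩
      have e1 : (c : G)⁻¹ * g * x * ((c : G)⁻¹ * g)⁻¹ = MulAut.conj ((c : G)⁻¹ * g) x := rfl
      have e2 : MulAut.conj ((c : G)⁻¹ * g) y = (c : G)⁻¹ * (g * y * g⁻¹) * c := by
        rw [MulAut.conj_apply]; group
      have e3 : MulAut.conj ((c : G)⁻¹ * g) z = (c : G)⁻¹ * (g * z * g⁻¹) * c := by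
        rw [MulAut.conj_apply]; group
      rw [e1, hxyz, map_mul, map_zpow, map_zpow, e2, e3, hc2]
      exact H.mul_mem (H.zpow_mem hc1 s) (H.zpow_mem hg t)

theorem backward {G : Type*} [Group G] [Finite G] {p : ℕ} (hp : p.Prime) (H : Subgroup G)
    (hH : IsMulCommutative H) (k : ℕ) (hk : H.index = p ^ k) : Hyp p G := by
  intro x hx
  obtain ⟨g, hg⟩ := conj_into hp H hH k hk _ x rfl hx
  have hle : H ≤ Subgroup.centralizer ({g * x * g⁻¹} : Set G) := by
    intro h hh
    rw [Subgroup.mem_centralizer_iff]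
    intro z hz
    rw [Set.mem_singleton_iff] at hz
    subst hz
    have := IsMulCommutative.is_comm.comm (⟨g * x * g⁻¹, hg⟩ : H) ⟨h, hh⟩
    exact congrArg Subtype.val this
  have hd : (Subgroup.centralizer ({g * x * g⁻¹} : Set G)).index ∣ p ^ k := by
    rw [← hk]; exact Subgroup.index_dvd_of_le hle
  have hcc : ConjClasses.mk (g * x * g⁻¹) = ConjClasses.mk x :=
    ConjClasses.mk_eq_mk_iff_isConj.2 (isConj_iff.2 ⟨g⁻¹, by group⟩)
  have heq : (Subgroup.centralizer ({g * x * g⁻¹} : Set G)).index =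
      (Subgroup.centralizer ({x} : Set G)).index := by
    rw [← Cfsg.Agent.S4035.class_card, ← Cfsg.Agent.S4035.class_card, hcc]
  rw [heq] at hd
  obtain ⟨j, -, hj⟩ := (Nat.dvd_prime_pow hp).1 hd
  exact ⟨j, hj⟩

/-- Let G be a finite group and p a prime. Every conjugacy class of p-regular elements of G (elements of order prime to p) has p-power size if and only if G has an abelian p-complement, i.e. an abelian subgroup of order prime to p and p-power index. -/
theorem result {G : Type*} [Group G] [Finite G] {p : ℕ} (hp : p.Prime) :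
    (∀ x : G, (orderOf x).Coprime p → ∃ k : ℕ, (ConjClasses.mk x).carrier.ncard = p ^ k) ↔
    (∃ H : Subgroup G, IsMulCommutative H ∧ ¬ p ∣ Nat.card H ∧ ∃ k : ℕ, H.index = p ^ k) := by
  constructor
  · intro h
    apply forward hp
    intro x hx
    obtain ⟨k, hk⟩ := h x hx
    exact ⟨k, by rw [← Cfsg.Agent.S4035.class_card]; exact hk⟩
  · rintro ⟨H, hH, -, k, hk⟩ x hx
    obtain ⟨j, hj⟩ := backward hp H hH k hk x hx
    exact ⟨j, by rw [Cfsg.Agent.S4035.class_card]; exact hj⟩

end Cfsg.Agent.S4034
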