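import Cfsg.Statements.S4036
import Mathlib

set_option autoImplicit false
open Cfsg

namespace Cfsg.Agent.S4036

/-- Let P be a finite abelian p-group and K a group of automorphisms of P (a subgroup of Aut P) whose order is divisible by p. If all non-identity elements of K have the same fixed-point subgroup on P, then K has no non-trivial normal subgroup of order prime to p. -/
theorem result {P : Type*} [CommGroup P] [Finite P] {p : ℕ}
    [Fact p.Prime] (hP : IsPGroup p P) (K : Subgroup (MulAut P)) (hK : p ∣ Nat.card K)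
    (hfix : ∀ x y : MulAut P, x ∈ K → y ∈ K → x ≠ 1 → y ≠ 1 → ∀ v : P, x v = v ↔ y v = v) :
    ∀ N : Subgroup ↥K, N.Normal → ¬ p ∣ Nat.card N → N = ⊥ := by
  intro N hN hpN
  by_contra hNbot
  have hp := (Fact.out : p.Prime)
  classical
  have hfinAut : Finite (MulAut P) :=
    Finite.of_injective (fun f : MulAut P => (f : P → P)) DFunLike.coe_injective
  obtain ⟨k, hk⟩ := exists_prime_orderOf_dvd_card' p hK
  have hk1 : (k : MulAut P) ≠ 1 := by
    intro h
    have h0 : k = 1 := Subtype.ext h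
    rw [h0, orderOf_one] at hk
    exact hp.one_lt.ne hk
  obtain ⟨n₀, hn₀N, hn₀1⟩ : ∃ n₀ ∈ N, n₀ ≠ 1 := by
    by_contra hcon
    push Not at hcon
    exact hNbot ((Subgroup.eq_bot_iff_forall _).2 hcon)
  cases nonempty_fintype N
  obtain ⟨θ, hθdef⟩ : ∃ θ : P →* P, θ = ∏ n : N, (((n : K) : MulAut P).toMonoidHom) := ⟨_, rfl⟩
  have hθ : ∀ v : P, θ v = ∏ n : N, ((n : K) : MulAut P) v := by
    intro v
    rw [hθdef, MonoidHom.finsetProd_apply]
    rfl
  have hθfix : ∀ v : P, (∀ n : N, ((n : K) : MulAut P) v = v) → θ v = v ^ Nat.card N := by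
    intro v hv
    rw [hθ, Finset.prod_congr rfl (fun n _ => hv n), Finset.prod_const, Finset.card_univ,
      Nat.card_eq_fintype_card]
  have hθinv : ∀ (m : N) (w : P), θ (((m : K) : MulAut P) w) = θ w := by
    intro m w
    rw [hθ, hθ]
    exact Fintype.prod_equiv (Equiv.mulRight m) _ _ (fun n => rfl)
  obtain ⟨S, hS⟩ : ∃ S : Set P, S = {d | ∃ (m : N) (w : P), d = ((m : K) : MulAut P) w * w⁻¹} :=
    ⟨_, rfl⟩
  obtain ⟨D, hD⟩ : ∃ D : Subgroup P, D = Subgroup.closure S := ⟨_, rfl⟩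
  have hDker : D ≤ θ.ker := by
    rw [hD, Subgroup.closure_le]
    intro d hd
    rw [hS] at hd
    obtain ⟨m, w, rfl⟩ := hd
    rw [SetLike.mem_coe, MonoidHom.mem_ker, map_mul, map_inv, hθinv, mul_inv_cancel]
  have hDinv : ∀ κ : K, ∀ d ∈ D, (κ : MulAut P) d ∈ D := by
    intro κ d hd
    have hmap : D.map ((κ : MulAut P).toMonoidHom) ≤ D := by
      rw [hD, MonoidHom.map_closure, Subgroup.closure_le]
      rintro _ ⟨d, hd, rfl⟩
      rw [hS] at hd
      obtain ⟨m, w, rfl⟩ := hd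
      apply Subgroup.subset_closure
      rw [hS]
      refine ⟨⟨κ * m * κ⁻¹, hN.conj_mem m m.2 κ⟩, (κ : MulAut P) w, ?_⟩
      simp [MulAut.mul_apply]
    exact hmap (Subgroup.mem_map_of_mem _ hd)
  have hDne : D ≠ ⊥ := by
    have h0 : ((n₀ : K) : MulAut P) ≠ 1 := fun h => hn₀1 (Subtype.ext h)
    obtain ⟨w₀, hw₀⟩ : ∃ w₀, ((n₀ : K) : MulAut P) w₀ ≠ w₀ := by
      by_contra hcon
      push Not at hcon
      exact h0 (MulEquiv.ext hcon)
    intro hbot
    have hmem : ((n₀ : K) : MulAut P) w₀ * w₀⁻¹ ∈ D := by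
      rw [hD]
      apply Subgroup.subset_closure
      rw [hS]
      exact ⟨⟨n₀, hn₀N⟩, w₀, rfl⟩
    rw [hbot, Subgroup.mem_bot, mul_inv_eq_one] at hmem
    exact hw₀ hmem
  have hZp : IsPGroup p (Subgroup.zpowers k) :=
    IsPGroup.of_card (n := 1) (by rw [Nat.card_zpowers, hk, pow_one])
  let act : MulAction (Subgroup.zpowers k) D :=
    { smul := fun κ d => ⟨(((κ : K) : MulAut P)) (d : P), hDinv (κ : K) d d.2⟩
      one_smul := fun d => Subtype.ext rfl
      mul_smul := fun a b d => Subtype.ext rfl }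
  have hDp : IsPGroup p D := hP.to_subgroup D
  have hpD : p ∣ Nat.card D := by
    obtain ⟨j, hj⟩ := IsPGroup.iff_card.1 hDp
    rw [hj]
    apply dvd_pow_self
    rintro rfl
    rw [pow_zero] at hj
    exact hDne (Subgroup.eq_bot_of_card_eq D hj)
  have h1fix : (1 : D) ∈ MulAction.fixedPoints (Subgroup.zpowers k) D := by
    intro κ
    apply Subtype.ext
    show ((κ : K) : MulAut P) (1 : P) = 1
    exact map_one _
  obtain ⟨b, hbfix, hb1⟩ :=
    hZp.exists_fixed_point_of_prime_dvd_card_of_fixed_point D hpD h1fix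
  have hkb : (k : MulAut P) (b : P) = b := by
    have h0 := hbfix ⟨k, Subgroup.mem_zpowers k⟩
    exact congrArg Subtype.val h0
  have hNb : ∀ n : N, ((n : K) : MulAut P) (b : P) = b := by
    intro n
    by_cases hn1 : ((n : K) : MulAut P) = 1
    · rw [hn1]; rfl
    · exact (hfix _ _ (n : K).2 k.2 hn1 hk1 b).2 hkb
  have h1 : (b : P) ^ Nat.card N = 1 := by
    rw [← hθfix b hNb]
    exact hDker b.2
  obtain ⟨j, hj⟩ := hP (b : P)
  have hcop : Nat.Coprime (Nat.card N) (p ^ j) :=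
    Nat.Coprime.pow_right _ ((Nat.Prime.coprime_iff_not_dvd hp).2 hpN).symm
  have hb : (b : P) = 1 := by
    have d1 := orderOf_dvd_of_pow_eq_one h1
    have d2 := orderOf_dvd_of_pow_eq_one hj
    have d3 := Nat.dvd_gcd d1 d2
    rw [hcop.gcd_eq_one] at d3
    exact orderOf_eq_one_iff.1 (Nat.dvd_one.1 d3)
  exact hb1 (Subtype.ext hb.symm)

end Cfsg.Agent.S4036
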