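import Cfsg.Statements.S4043
import Mathlib
import Cfsg.Agent.S0001
import Cfsg.Agent.Lib.Helper6.PPrime
import Cfsg.Agent.Lib.Helper6.ConjSmul

set_option autoImplicit false
open Cfsg

namespace Cfsg.Agent.S4043

open Cfsg.Agent.Lib.Helper6
open Pointwise

theorem fix_lemma {G : Type*} [Group G] [Finite G] {p : ℕ} [Fact p.Prime] (P C : Subgroup G)
    (hP : IsPGroup p P) (hC : IsPGroup p C) (hPC : P ≤ Subgroup.normalizer (C : Set G))
    (hfix : ∀ c ∈ C, (∀ x ∈ P, x * c * x⁻¹ = c) → c = 1) : C = ⊥ := by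
  letI : MulAction ↥P ↥C :=
    { smul := fun x c => ⟨(x : G) * c * (x : G)⁻¹,
        (Subgroup.mem_normalizer_iff.1 (hPC x.2) c).1 c.2⟩
      one_smul := fun c => by
        apply Subtype.ext
        change (1 : G) * c * (1 : G)⁻¹ = c
        group
      mul_smul := fun x y c => by
        apply Subtype.ext
        change ((x : G) * y) * c * ((x : G) * y)⁻¹ = x * (y * c * (y : G)⁻¹) * (x : G)⁻¹
        group }
  have h1 := hP.card_modEq_card_fixedPoints ↥C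
  have hsmul : ∀ (x : P) (n : C), ((x • n : C) : G) = (x : G) * n * (x : G)⁻¹ := by
    intro x n
    rfl
  have h2 : Nat.card (MulAction.fixedPoints ↥P ↥C) = 1 := by
    rw [Nat.card_eq_one_iff_exists]
    refine ⟨⟨1, fun x => ?_⟩, ?_⟩
    · apply Subtype.ext
      rw [hsmul]; simp
    · rintro ⟨y, hy⟩
      apply Subtype.ext
      apply Subtype.ext
      change (y : G) = 1
      apply hfix y y.2
      intro x hx
      have := congrArg Subtype.val (hy ⟨x, hx⟩)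
      rw [hsmul] at this
      exact this
  obtain ⟨k, hk⟩ := IsPGroup.iff_card.1 hC
  rw [h2, hk] at h1
  rcases Nat.eq_zero_or_pos k with h0 | hpos
  · rw [h0, pow_zero] at hk
    exact Subgroup.eq_bot_of_card_eq _ hk
  · exfalso
    have h5 : p ∣ p ^ k := dvd_pow_self p hpos.ne'
    have h3 : p ^ k % p = 0 := Nat.mod_eq_zero_of_dvd h5
    have h4 : p ^ k % p = 1 % p := h1
    rw [h3, Nat.mod_eq_of_lt (Fact.out : p.Prime).one_lt] at h4
    exact absurd h4 (by norm_num)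

theorem extract {G : Type*} [Group G] [Finite G] {p : ℕ} [Fact p.Prime] (A : Subgroup G)
    (h : Cfsg.HasNormalPComplement p ↥A) :
    ∃ K S : Subgroup G, K ≤ A ∧ S ≤ A ∧ (∀ a ∈ A, ∀ k ∈ K, a * k * a⁻¹ ∈ K) ∧
      (Nat.card K).Coprime p ∧ IsPGroup p S ∧ (∀ a ∈ A, ∃ k ∈ K, ∃ s ∈ S, a = k * s) ∧
      (∀ a ∈ A, (orderOf a).Coprime p → a ∈ K) := by
  have hp := (Fact.out : p.Prime)
  obtain ⟨S₀, K₀, hK₀n, hc⟩ := h
  have hcard := hc.card_mul_card
  have hS₀ : Nat.card (S₀ : Subgroup ↥A) = p ^ (Nat.card ↥A).factorization p :=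
    Sylow.card_eq_multiplicity S₀
  have hK₀cop : (Nat.card K₀).Coprime p := by
    rw [Nat.coprime_comm, Nat.Prime.coprime_iff_not_dvd hp]
    intro hdvd
    obtain ⟨f, hf⟩ : ∃ f, f = (Nat.card ↥A).factorization p := ⟨_, rfl⟩
    rw [← hf] at hS₀
    have h1 : p ^ (f + 1) ∣ Nat.card K₀ * Nat.card (S₀ : Subgroup ↥A) := by
      rw [hS₀, pow_succ']
      exact Nat.mul_dvd_mul hdvd dvd_rfl
    rw [hcard, hf] at h1
    exact Nat.pow_succ_factorization_not_dvd Nat.card_pos.ne' hp h1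
  refine ⟨K₀.map A.subtype, (S₀ : Subgroup ↥A).map A.subtype, Subgroup.map_subtype_le _,
    Subgroup.map_subtype_le _, ?_, ?_, S₀.isPGroup'.map _, ?_, ?_⟩
  · rintro a ha _ ⟨k, hk, rfl⟩
    exact ⟨⟨a, ha⟩ * k * ⟨a, ha⟩⁻¹, hK₀n.conj_mem k hk ⟨a, ha⟩, rfl⟩
  · rw [Subgroup.card_map_of_injective A.subtype_injective]
    exact hK₀cop
  · intro a ha
    have h1 : (⟨a, ha⟩ : ↥A) ∈ K₀ ⊔ (S₀ : Subgroup ↥A) := by
      rw [hc.sup_eq_top]; exact Subgroup.mem_top _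
    obtain ⟨k, hk, s, hs, hks⟩ := Subgroup.mem_sup_of_normal_left.1 h1
    refine ⟨k, ⟨k, hk, rfl⟩, s, ⟨s, hs, rfl⟩, ?_⟩
    have := congrArg Subtype.val hks
    exact this.symm
  · intro a ha hcop
    have hidx : K₀.index = Nat.card (S₀ : Subgroup ↥A) := hc.symm.index_eq_card
    have h1 : (QuotientGroup.mk' K₀ ⟨a, ha⟩) ^ K₀.index = 1 := by
      rw [Subgroup.index_eq_card]
      exact pow_card_eq_one'
    have h2 : (QuotientGroup.mk' K₀ ⟨a, ha⟩) ^ orderOf a = 1 := by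
      rw [← map_pow]
      have : (⟨a, ha⟩ : ↥A) ^ orderOf a = 1 := by
        apply Subtype.ext
        simp [pow_orderOf_eq_one]
      rw [this, map_one]
    have h3 : orderOf (QuotientGroup.mk' K₀ ⟨a, ha⟩) ∣ Nat.gcd (orderOf a) K₀.index :=
      Nat.dvd_gcd (orderOf_dvd_of_pow_eq_one h2) (orderOf_dvd_of_pow_eq_one h1)
    have h4 : Nat.gcd (orderOf a) K₀.index = 1 := by
      rw [hidx, hS₀]
      exact Nat.Coprime.pow_right _ hcop
    rw [h4, Nat.dvd_one, orderOf_eq_one_iff, QuotientGroup.mk'_apply,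
      QuotientGroup.eq_one_iff] at h3
    exact ⟨⟨a, ha⟩, h3, rfl⟩

theorem pow_mul_normal {G : Type*} [Group G] (N : Subgroup G) [hN : N.Normal] (a n : G)
    (hn : n ∈ N) : ∀ j : ℕ, ∃ n' ∈ N, (a * n) ^ j = a ^ j * n' := by
  intro j
  induction j with
  | zero => exact ⟨1, N.one_mem, by simp⟩
  | succ j ih =>
    obtain ⟨n', hn', h⟩ := ih
    refine ⟨a⁻¹ * n' * a * n, N.mul_mem ?_ hn, ?_⟩
    · have := hN.conj_mem n' hn' a⁻¹
      simpa using this
    · rw [pow_succ, h, pow_succ]; group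

theorem le_sup_of_coprime {G : Type*} [Group G] [Finite G] {p : ℕ} [Fact p.Prime]
    (N : Subgroup G) [N.Normal] (A K K₁ : Subgroup G) (hA : A.IsComplement' N)
    (hK₁ : (Nat.card K₁).Coprime p) (hK : ∀ a ∈ A, (orderOf a).Coprime p → a ∈ K) :
    K₁ ≤ N ⊔ K := by
  intro k₁ hk₁
  have h1 : k₁ ∈ A ⊔ N := by rw [hA.sup_eq_top]; exact Subgroup.mem_top _
  obtain ⟨a, ha, n, hn, han⟩ := Subgroup.mem_sup_of_normal_right.1 h1
  obtain ⟨n', hn', hpow⟩ := pow_mul_normal N a n hn (orderOf k₁)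
  rw [han, pow_orderOf_eq_one] at hpow
  have h2 : a ^ orderOf k₁ = n'⁻¹ := eq_inv_of_mul_eq_one_left hpow.symm
  have h3 : a ^ orderOf k₁ ∈ A ⊓ N := ⟨A.pow_mem ha _, by rw [h2]; exact N.inv_mem hn'⟩
  rw [hA.disjoint.eq_bot, Subgroup.mem_bot] at h3
  have h4 : orderOf a ∣ orderOf k₁ := orderOf_dvd_of_pow_eq_one h3
  have h5 : (orderOf k₁).Coprime p := by
    have : orderOf k₁ ∣ Nat.card K₁ := by
      have := orderOf_dvd_natCard (⟨k₁, hk₁⟩ : K₁)
      rwa [Subgroup.orderOf_mk] at this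
    exact Nat.Coprime.coprime_dvd_left this hK₁
  have h6 : a ∈ K := hK a ha (Nat.Coprime.coprime_dvd_left h4 h5)
  rw [← han]
  exact Subgroup.mul_mem _ (Subgroup.mem_sup_right h6) (Subgroup.mem_sup_left hn)

theorem sz_conj {G : Type*} [Group G] [Finite G] {p : ℕ} [Fact p.Prime]
    (N : Subgroup G) [hNn : N.Normal] (hN : IsPGroup p N) (K K₁ : Subgroup G)
    (hKp : (Nat.card K).Coprime p) (hNK : N ⊓ K = ⊥) (hNK₁ : N ⊓ K₁ = ⊥)
    (hsup : N ⊔ K = N ⊔ K₁) :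
    ∃ n ∈ N, ∀ x, x ∈ K₁ ↔ n⁻¹ * x * n ∈ K := by
  have hKM : K ≤ N ⊔ K := le_sup_right
  have hK₁M : K₁ ≤ N ⊔ K := by rw [hsup]; exact le_sup_right
  have hNM : N ≤ N ⊔ K := le_sup_left
  have hcompl : ∀ L : Subgroup G, L ≤ N ⊔ K → N ⊓ L = ⊥ → N ⊔ K = N ⊔ L →
      Subgroup.IsComplement' (N.subgroupOf (N ⊔ K)) (L.subgroupOf (N ⊔ K)) := by
    intro L hLM hNL hs
    apply Subgroup.isComplement'_of_disjoint_and_mul_eq_univ
    · rw [disjoint_iff, eq_bot_iff]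
      rintro x ⟨hx1, hx2⟩
      have : (x : G) ∈ N ⊓ L := ⟨Subgroup.mem_subgroupOf.1 hx1, Subgroup.mem_subgroupOf.1 hx2⟩
      rw [hNL, Subgroup.mem_bot] at this
      rw [Subgroup.mem_bot]
      exact Subtype.ext this
    · rw [Set.eq_univ_iff_forall]
      intro x
      have hx : (x : G) ∈ N ⊔ L := by rw [← hs]; exact x.2
      obtain ⟨n, hn, l, hl, hnl⟩ := Subgroup.mem_sup_of_normal_left.1 hx
      exact Set.mem_mul.2 ⟨⟨n, hNM hn⟩, Subgroup.mem_subgroupOf.2 hn, ⟨l, hLM hl⟩,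
        Subgroup.mem_subgroupOf.2 hl, Subtype.ext hnl⟩
  have hc := hcompl K hKM hNK rfl
  have hc₁ := hcompl K₁ hK₁M hNK₁ hsup
  have hNp : IsPGroup p (N.subgroupOf (N ⊔ K)) := hN.comap_subtype
  have hcop : (Nat.card (N.subgroupOf (N ⊔ K))).Coprime (N.subgroupOf (N ⊔ K)).index := by
    rw [hc.symm.index_eq_card]
    obtain ⟨k, hk⟩ := IsPGroup.iff_card.1 hNp
    rw [hk]
    apply Nat.Coprime.pow_left
    rw [Nat.card_congr (Subgroup.subgroupOfEquivOfLe hKM).toEquiv]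
    exact hKp.symm
  have hsolv : Group.IsSolvable (N.subgroupOf (N ⊔ K)) ∨
      Group.IsSolvable (↥(N ⊔ K) ⧸ N.subgroupOf (N ⊔ K)) := by
    left
    have := hNp.isNilpotent
    infer_instance
  obtain ⟨g, hg⟩ := Cfsg.Agent.S0001.result (N.subgroupOf (N ⊔ K)) hcop hsolv _ _ hc hc₁
  have hgM : (g : G) ∈ N ⊔ K := g.2
  obtain ⟨n, hn, k, hk, hnk⟩ := Subgroup.mem_sup_of_normal_left.1 hgM
  have key : ∀ x, x ∈ K₁ ↔ (g : G)⁻¹ * x * (g : G) ∈ K := by
    intro x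
    constructor
    · intro hx
      have h1 : (⟨x, hK₁M hx⟩ : ↥(N ⊔ K)) ∈ K₁.subgroupOf (N ⊔ K) := Subgroup.mem_subgroupOf.2 hx
      rw [← hg, ConjSmul.mem_conj_smul] at h1
      exact Subgroup.mem_subgroupOf.1 h1
    · intro hx
      have hxM : x ∈ N ⊔ K := by
        have e : x = (g : G) * ((g : G)⁻¹ * x * (g : G)) * (g : G)⁻¹ := by group
        rw [e]
        exact Subgroup.mul_mem _ (Subgroup.mul_mem _ hgM (hKM hx)) (Subgroup.inv_mem _ hgM)
      have h1 : (⟨x, hxM⟩ : ↥(N ⊔ K)) ∈ MulAut.conj g • K.subgroupOf (N ⊔ K) := by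
        rw [ConjSmul.mem_conj_smul]
        exact Subgroup.mem_subgroupOf.2 hx
      rw [hg] at h1
      exact Subgroup.mem_subgroupOf.1 h1
  refine ⟨n, hn, fun x => ?_⟩
  rw [key x, ← hnk]
  constructor
  · intro h
    have e : n⁻¹ * x * n = k * ((n * k)⁻¹ * x * (n * k)) * k⁻¹ := by group
    rw [e]
    exact K.mul_mem (K.mul_mem hk h) (K.inv_mem hk)
  · intro h
    have e : (n * k)⁻¹ * x * (n * k) = k⁻¹ * (n⁻¹ * x * n) * k := by group
    rw [e]
    exact K.mul_mem (K.mul_mem (K.inv_mem hk) h) hk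

/-- Let G be a finite group that is the semidirect product of a normal p-subgroup N by a subgroup A, and also of N by a subgroup A₁, where p is a prime and A and A₁ both have normal p-complements. If C_N(A) = C_N(A₁) = 1, then A₁ is conjugate to A by an element of N. -/
theorem result {G : Type*} [Group G] [Finite G] {p : ℕ}
    [Fact p.Prime] (N : Subgroup G) [N.Normal] (hN : IsPGroup p N) (A A₁ : Subgroup G)
    (hA : A.IsComplement' N) (hA₁ : A₁.IsComplement' N)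
    (hAp : Cfsg.HasNormalPComplement p A) (hA₁p : Cfsg.HasNormalPComplement p A₁)
    (hC : ∀ n : G, n ∈ N → (∀ a : G, a ∈ A → a * n * a⁻¹ = n) → n = 1)
    (hC₁ : ∀ n : G, n ∈ N → (∀ a : G, a ∈ A₁ → a * n * a⁻¹ = n) → n = 1) :
    ∃ n : G, n ∈ N ∧ A₁ = A.map (MulAut.conj n).toMonoidHom := by
  classical
  have hp := (Fact.out : p.Prime)
  obtain ⟨K, S, hKA, hSA, hKn, hKp, hSp, hKS, hKpr⟩ := extract A hAp
  obtain ⟨K₁, S₁, hK₁A, hS₁A, hK₁n, hK₁p, hS₁p, hKS₁, hK₁pr⟩ := extract A₁ hA₁p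
  have hAN : A ⊓ N = ⊥ := hA.disjoint.eq_bot
  have hA₁N : A₁ ⊓ N = ⊥ := hA₁.disjoint.eq_bot
  have hNK : N ⊓ K = ⊥ := by
    rw [eq_bot_iff, ← hAN, inf_comm]; exact inf_le_inf_right N hKA
  have hNK₁ : N ⊓ K₁ = ⊥ := by
    rw [eq_bot_iff, ← hA₁N, inf_comm]; exact inf_le_inf_right N hK₁A
  have hsup : N ⊔ K = N ⊔ K₁ := by
    apply le_antisymm
    · exact sup_le le_sup_left (le_sup_of_coprime N A₁ K₁ K hA₁ hKp hK₁pr)
    · exact sup_le le_sup_left (le_sup_of_coprime N A K K₁ hA hK₁p hKpr)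
  obtain ⟨n, hn, hconj⟩ := sz_conj N hN K K₁ hKp hNK hNK₁ hsup
  refine ⟨n, hn, ?_⟩
  have hC : N ⊓ Subgroup.centralizer (K₁ : Set G) = ⊥ := by
    apply fix_lemma S₁ _ hS₁p (hN.to_le inf_le_left)
    · intro s hs
      apply PPrime.mem_normalizer_of_conj_le
      intro c hc
      obtain ⟨hcN, hcK⟩ := Subgroup.mem_inf.1 hc
      refine Subgroup.mem_inf.2 ⟨(inferInstance : N.Normal).conj_mem c hcN s, ?_⟩
      rw [Subgroup.mem_centralizer_iff] at hcK ⊢
      intro x hx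
      have hx' : s⁻¹ * x * s ∈ K₁ := by
        have := hK₁n s⁻¹ (A₁.inv_mem (hS₁A hs)) x hx
        simpa using this
      have h1 := hcK _ hx'
      calc x * (s * c * s⁻¹) = s * ((s⁻¹ * x * s) * c) * s⁻¹ := by group
        _ = s * (c * (s⁻¹ * x * s)) * s⁻¹ := by rw [h1]
        _ = s * c * s⁻¹ * x := by group
    · intro c hc hfix
      obtain ⟨hcN, hcK⟩ := Subgroup.mem_inf.1 hc
      apply hC₁ c hcN
      intro a ha
      obtain ⟨k, hk, s, hs, rfl⟩ := hKS₁ a ha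
      rw [Subgroup.mem_centralizer_iff] at hcK
      have h1 := hfix s hs
      have h2 := hcK k hk
      calc k * s * c * (k * s)⁻¹ = k * (s * c * s⁻¹) * k⁻¹ := by group
        _ = k * c * k⁻¹ := by rw [h1]
        _ = c := by rw [h2, mul_inv_cancel_right]
  have hle : A.map (MulAut.conj n).toMonoidHom ≤ A₁ := by
    rintro _ ⟨a, ha, rfl⟩
    change n * a * n⁻¹ ∈ A₁
    have hnorm : ∀ x ∈ K₁, (n * a * n⁻¹) * x * (n * a * n⁻¹)⁻¹ ∈ K₁ := by
      intro x hx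
      rw [hconj]
      have h1 := (hconj x).1 hx
      have e : n⁻¹ * ((n * a * n⁻¹) * x * (n * a * n⁻¹)⁻¹) * n = a * (n⁻¹ * x * n) * a⁻¹ := by
        group
      rw [e]
      exact hKn a ha _ h1
    have h1 : n * a * n⁻¹ ∈ A₁ ⊔ N := by rw [hA₁.sup_eq_top]; exact Subgroup.mem_top _
    obtain ⟨a₁, ha₁, m, hm, ham⟩ := Subgroup.mem_sup_of_normal_right.1 h1
    have hmK : m ∈ Subgroup.centralizer (K₁ : Set G) := by
      rw [Subgroup.mem_centralizer_iff]
      intro x hx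
      have h2 : m * x * m⁻¹ ∈ K₁ := by
        have e : m * x * m⁻¹ = a₁⁻¹ * ((a₁ * m) * x * (a₁ * m)⁻¹) * a₁⁻¹⁻¹ := by group
        rw [e, ham]
        exact hK₁n a₁⁻¹ (A₁.inv_mem ha₁) _ (hnorm x hx)
      have h3 : m * x * m⁻¹ * x⁻¹ ∈ A₁ ⊓ N := by
        refine ⟨A₁.mul_mem (hK₁A h2) (A₁.inv_mem (hK₁A hx)), ?_⟩
        have e : m * x * m⁻¹ * x⁻¹ = m * (x * m⁻¹ * x⁻¹) := by group
        rw [e]
        exact N.mul_mem hm ((inferInstance : N.Normal).conj_mem _ (N.inv_mem hm) x)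
      rw [hA₁N, Subgroup.mem_bot] at h3
      have h4 : m * x * m⁻¹ = x := by
        have := congrArg (fun z => z * x) h3
        simpa using this
      calc x * m = (m * x * m⁻¹) * m := by rw [h4]
        _ = m * x := by group
    have hm1 : m ∈ N ⊓ Subgroup.centralizer (K₁ : Set G) := ⟨hm, hmK⟩
    rw [hC, Subgroup.mem_bot] at hm1
    rw [← ham, hm1, mul_one]
    exact ha₁
  have hcard : Nat.card A₁ ≤ Nat.card (A.map (MulAut.conj n).toMonoidHom) := by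
    rw [Subgroup.card_map_of_injective (MulAut.conj n).injective]
    have h1 := hA.card_mul_card
    have h2 := hA₁.card_mul_card
    have hpos : 0 < Nat.card N := Nat.card_pos
    have h3 : Nat.card A₁ * Nat.card N = Nat.card A * Nat.card N := by rw [h1, h2]
    exact (Nat.eq_of_mul_eq_mul_right hpos h3).le
  exact (Subgroup.eq_of_le_of_card_ge hle hcard).symm

end Cfsg.Agent.S4043
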