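import Cfsg.Statements.S4049
import Mathlib
import Cfsg.Agent.Lib.Helper6.Invert

set_option autoImplicit false
open Cfsg

namespace Cfsg.Agent.S4049

/-- Let G be a finite group such that N_G(H)/C_G(H) has odd order for every nontrivial subgroup H of odd order. Then the Sylow 2-subgroups of G are normal. -/
theorem result {G : Type*} [Group G] [Finite G]
    (hhom : ∀ H : Subgroup G, H ≠ ⊥ → ¬ 2 ∣ Nat.card ↥H →
        ¬ 2 ∣ (Subgroup.centralizer (H : Set G)).relIndex (Subgroup.normalizer (H : Set G))) (P : Sylow 2 G) :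
    (P : Subgroup G).Normal := by
  by_contra hP
  obtain ⟨x, g, hx1, hodd, hg⟩ := Cfsg.Agent.Lib.Helper6.Invert.exists_inverted P hP
  have hHbot : Subgroup.zpowers x ≠ ⊥ := by
    intro h
    apply hx1
    have : x ∈ Subgroup.zpowers x := Subgroup.mem_zpowers x
    rw [h] at this
    exact Subgroup.mem_bot.1 this
  have hcard : ¬ 2 ∣ Nat.card (Subgroup.zpowers x) := by
    rw [Nat.card_zpowers]
    intro h; exact (Nat.not_even_iff_odd.2 hodd) (even_iff_two_dvd.2 h)
  apply hhom (Subgroup.zpowers x) hHbot hcard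
  have hgN : g ∈ Subgroup.normalizer ((Subgroup.zpowers x : Subgroup G) : Set G) := by
    apply Cfsg.Agent.Lib.Helper6.PPrime.mem_normalizer_of_conj_le
    intro u hu
    obtain ⟨i, rfl⟩ := Subgroup.mem_zpowers_iff.1 hu
    rw [← conj_zpow, hg]
    exact Subgroup.zpow_mem _ (Subgroup.inv_mem _ (Subgroup.mem_zpowers x)) i
  have hCN : Subgroup.centralizer ((Subgroup.zpowers x : Subgroup G) : Set G) ≤
      Subgroup.normalizer ((Subgroup.zpowers x : Subgroup G) : Set G) :=
    Subgroup.centralizer_le_normalizer _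
  have hnorm : ((Subgroup.centralizer ((Subgroup.zpowers x : Subgroup G) : Set G)).subgroupOf
      (Subgroup.normalizer ((Subgroup.zpowers x : Subgroup G) : Set G))).Normal := by
    rw [Subgroup.normal_subgroupOf_iff_le_normalizer hCN]
    intro n hn
    apply Cfsg.Agent.Lib.Helper6.PPrime.mem_normalizer_of_conj_le
    intro c hc
    rw [Subgroup.mem_centralizer_iff]
    intro h hh
    have h1 : n⁻¹ * h * n ∈ Subgroup.zpowers x := by
      have := (Subgroup.mem_normalizer_iff.1 (Subgroup.inv_mem _ hn) h).1 hh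
      simpa using this
    have h2 := (Subgroup.mem_centralizer_iff.1 hc) _ h1
    calc h * (n * c * n⁻¹) = n * ((n⁻¹ * h * n) * c) * n⁻¹ := by group
      _ = n * (c * (n⁻¹ * h * n)) * n⁻¹ := by rw [h2]
      _ = n * c * n⁻¹ * h := by group
  have hx2 : x ^ 2 ≠ 1 := by
    intro h5
    have h6 : orderOf x ∣ 2 := orderOf_dvd_of_pow_eq_one h5
    have h7 : orderOf x = 1 := by
      rcases (Nat.dvd_prime Nat.prime_two).1 h6 with h | h
      · exact h
      · rw [h] at hodd; exact absurd hodd (by decide)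
    exact hx1 (orderOf_eq_one_iff.1 h7)
  have hgC : g ∉ Subgroup.centralizer ((Subgroup.zpowers x : Subgroup G) : Set G) := by
    intro h
    have h3 : x * g = g * x := (Subgroup.mem_centralizer_iff.1 h) x (Subgroup.mem_zpowers x)
    have h4 : x = x⁻¹ := by
      rw [← hg, ← h3, mul_inv_cancel_right]
    apply hx2
    rw [sq]
    nth_rewrite 1 [h4]
    exact inv_mul_cancel x
  have hg2C : g ^ 2 ∈ Subgroup.centralizer ((Subgroup.zpowers x : Subgroup G) : Set G) := by
    have hc : Commute (g ^ 2) x := by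
      have e : g ^ 2 * x * (g ^ 2)⁻¹ = x := by
        have e1 : g ^ 2 * x * (g ^ 2)⁻¹ = g * (g * x * g⁻¹) * g⁻¹ := by
          simp only [sq, mul_inv_rev, mul_assoc]
        rw [e1, hg]
        have e2 : g * x⁻¹ * g⁻¹ = (g * x * g⁻¹)⁻¹ := by group
        rw [e2, hg, inv_inv]
      have : g ^ 2 * x = (g ^ 2 * x * (g ^ 2)⁻¹) * g ^ 2 := by
        rw [inv_mul_cancel_right]
      rw [e] at this
      exact this
    rw [Subgroup.mem_centralizer_iff]
    intro h hh
    obtain ⟨i, rfl⟩ := Subgroup.mem_zpowers_iff.1 hh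
    exact ((hc.zpow_right i).eq).symm
  have hord : orderOf (QuotientGroup.mk' ((Subgroup.centralizer
      ((Subgroup.zpowers x : Subgroup G) : Set G)).subgroupOf
      (Subgroup.normalizer ((Subgroup.zpowers x : Subgroup G) : Set G))) ⟨g, hgN⟩) = 2 := by
    haveI : Fact (Nat.Prime 2) := ⟨Nat.prime_two⟩
    apply orderOf_eq_prime
    · rw [← map_pow, QuotientGroup.mk'_apply, QuotientGroup.eq_one_iff, Subgroup.mem_subgroupOf]
      exact hg2C
    · rw [QuotientGroup.mk'_apply, Ne, QuotientGroup.eq_one_iff, Subgroup.mem_subgroupOf]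
      exact hgC
  have hdvd := orderOf_dvd_natCard (QuotientGroup.mk' ((Subgroup.centralizer
      ((Subgroup.zpowers x : Subgroup G) : Set G)).subgroupOf
      (Subgroup.normalizer ((Subgroup.zpowers x : Subgroup G) : Set G))) ⟨g, hgN⟩)
  rw [hord] at hdvd
  rw [Subgroup.relIndex, Subgroup.index_eq_card]
  exact hdvd

end Cfsg.Agent.S4049
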