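import Cfsg.Statements.S4056
import Mathlib

set_option autoImplicit false
open Cfsg

namespace Cfsg.Agent.S4056

theorem frattini_le_of_sq_comm {P : Type*} [Group P] [Finite P] (E : Subgroup P)
    (hsq : ∀ x : P, x ^ 2 ∈ E) (hcomm : ∀ x y : P, x * y * x⁻¹ * y⁻¹ ∈ E) : frattini P ≤ E := by
  intro v hv
  by_contra hvE
  obtain ⟨M, hEM, hMmax⟩ := Finite.exists_le_maximal
    (p := fun M : Subgroup P => E ≤ M ∧ v ∉ M) (a := E) ⟨le_rfl, hvE⟩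
  obtain ⟨⟨hEM', hvM⟩, hmax⟩ := hMmax
  have hMnormal : M.Normal := by
    constructor
    intro n hn g
    have e : g * n * g⁻¹ = (g * n * g⁻¹ * n⁻¹) * n := by group
    rw [e]
    exact M.mul_mem (hEM' (hcomm g n)) hn
  have hcoatom : IsCoatom M := by
    refine ⟨fun htop => hvM (htop ▸ Subgroup.mem_top v), ?_⟩
    intro K hMK
    have hvK : v ∈ K := by
      by_contra hvK
      exact (lt_irrefl M) (lt_of_lt_of_le hMK (hmax ⟨hEM'.trans hMK.le, hvK⟩ hMK.le))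
    rw [Subgroup.eq_top_iff']
    intro u
    by_cases huM : u ∈ M
    · exact hMK.le huM
    · have hv' : v ∈ M ⊔ Subgroup.zpowers u := by
        by_contra hcon
        have hle := hmax ⟨hEM'.trans le_sup_left, hcon⟩ le_sup_left
        exact huM (hle (Subgroup.mem_sup_right (Subgroup.mem_zpowers u)))
      rw [← SetLike.mem_coe, Subgroup.normal_mul] at hv'
      obtain ⟨m, hm, z, hz, hmz⟩ := Set.mem_mul.1 hv'
      obtain ⟨k, rfl⟩ := Subgroup.mem_zpowers_iff.1 hz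
      have hu2 : u ^ 2 ∈ M := hEM' (hsq u)
      rcases Int.even_or_odd' k with ⟨j, rfl | rfl⟩
      · exfalso
        apply hvM
        rw [← hmz]
        refine M.mul_mem hm ?_
        rw [zpow_mul, zpow_ofNat]
        exact M.zpow_mem hu2 j
      · have e : u = ((u ^ 2) ^ j)⁻¹ * m⁻¹ * v := by
          rw [← hmz, zpow_add, zpow_mul, zpow_one, zpow_ofNat]
          group
        rw [e]
        exact K.mul_mem (K.mul_mem (K.inv_mem (hMK.le (M.zpow_mem hu2 j)))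
          (K.inv_mem (hMK.le hm))) hvK
  exact hvM (frattini_le_coatom hcoatom hv)

theorem hom1 {P : Type*} [Group P] (hcen : ∀ a b : P, a * b * a⁻¹ * b⁻¹ ∈ Subgroup.center P)
    (a₁ a₂ b : P) : (a₁ * a₂) * b * (a₁ * a₂)⁻¹ * b⁻¹ =
      (a₂ * b * a₂⁻¹ * b⁻¹) * (a₁ * b * a₁⁻¹ * b⁻¹) := by
  have hz := Subgroup.mem_center_iff.1 (hcen a₂ b) a₁
  calc (a₁ * a₂) * b * (a₁ * a₂)⁻¹ * b⁻¹
      = (a₁ * (a₂ * b * a₂⁻¹ * b⁻¹)) * (b * a₁⁻¹ * b⁻¹) := by group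
    _ = ((a₂ * b * a₂⁻¹ * b⁻¹) * a₁) * (b * a₁⁻¹ * b⁻¹) := by rw [hz]
    _ = (a₂ * b * a₂⁻¹ * b⁻¹) * (a₁ * b * a₁⁻¹ * b⁻¹) := by group

theorem hom2 {P : Type*} [Group P] (hcen : ∀ a b : P, a * b * a⁻¹ * b⁻¹ ∈ Subgroup.center P)
    (a b₁ b₂ : P) : a * (b₁ * b₂) * a⁻¹ * (b₁ * b₂)⁻¹ =
      (a * b₂ * a⁻¹ * b₂⁻¹) * (a * b₁ * a⁻¹ * b₁⁻¹) := by
  have hz := Subgroup.mem_center_iff.1 (hcen a b₂) (a * b₁ * a⁻¹)
  calc a * (b₁ * b₂) * a⁻¹ * (b₁ * b₂)⁻¹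
      = ((a * b₁ * a⁻¹) * (a * b₂ * a⁻¹ * b₂⁻¹)) * b₁⁻¹ := by group
    _ = ((a * b₂ * a⁻¹ * b₂⁻¹) * (a * b₁ * a⁻¹)) * b₁⁻¹ := by rw [hz]
    _ = (a * b₂ * a⁻¹ * b₂⁻¹) * (a * b₁ * a⁻¹ * b₁⁻¹) := by group

theorem sqform {P : Type*} [Group P] (hcen : ∀ a b : P, a * b * a⁻¹ * b⁻¹ ∈ Subgroup.center P)
    (a b : P) : (a * b) ^ 2 = (b * a * b⁻¹ * a⁻¹) * (a ^ 2 * b ^ 2) := by
  have hz := Subgroup.mem_center_iff.1 (hcen b a) a
  rw [pow_two, pow_two, pow_two]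
  calc (a * b) * (a * b) = (a * (b * a * b⁻¹ * a⁻¹)) * (a * b * b) := by group
    _ = ((b * a * b⁻¹ * a⁻¹) * a) * (a * b * b) := by rw [hz]
    _ = (b * a * b⁻¹ * a⁻¹) * (a * a * (b * b)) := by group

theorem comm_sq {P : Type*} [Group P] (hcen : ∀ a b : P, a * b * a⁻¹ * b⁻¹ ∈ Subgroup.center P)
    (h4 : ∀ g : P, g ^ 4 = 1) (x y : P) : (y * x * y⁻¹ * x⁻¹) ^ 2 = 1 := by
  obtain ⟨c, hc⟩ : ∃ c : P, c = y * x * y⁻¹ * x⁻¹ := ⟨_, rfl⟩
  have hccen : ∀ g : P, g * c = c * g := by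
    rw [hc]
    exact Subgroup.mem_center_iff.1 (hcen y x)
  have h1 : (x * y) ^ 2 = c * (x ^ 2 * y ^ 2) := by
    rw [hc]
    exact sqform hcen x y
  have h2 : (y ^ 2) * (x ^ 2) * (y ^ 2)⁻¹ * (x ^ 2)⁻¹ = 1 := by
    have e1 : (y ^ 2) * (x ^ 2) * (y ^ 2)⁻¹ * (x ^ 2)⁻¹ =
        (y * (x ^ 2) * y⁻¹ * (x ^ 2)⁻¹) * (y * (x ^ 2) * y⁻¹ * (x ^ 2)⁻¹) := by
      rw [pow_two y]
      exact hom1 hcen y y (x ^ 2)
    have e2 : y * (x ^ 2) * y⁻¹ * (x ^ 2)⁻¹ = c * c := by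
      rw [pow_two x, hc]
      exact hom2 hcen y x x
    rw [e1, e2]
    have e3 : c * c * (c * c) = c ^ 4 := by
      rw [show (4 : ℕ) = 2 + 2 from rfl, pow_add, pow_two]
    rw [e3, h4]
  have h3 : (x ^ 2 * y ^ 2) ^ 2 = 1 := by
    rw [sqform hcen (x ^ 2) (y ^ 2), h2, one_mul, ← pow_mul, ← pow_mul]
    norm_num
    rw [h4, h4, one_mul]
  have h5 : (x * y) ^ 4 = c ^ 2 := by
    calc (x * y) ^ 4 = ((x * y) ^ 2) ^ 2 := by rw [← pow_mul]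
      _ = (c * (x ^ 2 * y ^ 2)) ^ 2 := by rw [h1]
      _ = c ^ 2 * (x ^ 2 * y ^ 2) ^ 2 := by
          have hcm : Commute c (x ^ 2 * y ^ 2) := (hccen _).symm
          exact hcm.mul_pow 2
      _ = c ^ 2 := by rw [h3, mul_one]
  rw [← hc, ← h5, h4]

/-- In a finite 2-group of nilpotency class at most 2 and exponent dividing 4, the Frattini subgroup lies in the centre and is elementary abelian. -/
theorem result {P : Type*} [Group P] [Finite P] (hP : IsPGroup 2 P)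
    (hcl : Group.nilpotencyClass P ≤ 2) (hexp : Monoid.exponent P ∣ 4) :
    frattini P ≤ Subgroup.center P ∧ Cfsg.IsElementaryAbelian 2 (frattini P) := by
  have hf2 : Fact (Nat.Prime 2) := ⟨Nat.prime_two⟩
  have hnil : Group.IsNilpotent P := hP.isNilpotent
  have h4 : ∀ g : P, g ^ 4 = 1 := Monoid.exponent_dvd_iff_forall_pow_eq_one.1 hexp
  have hucs : Subgroup.upperCentralSeries P 2 = ⊤ :=
    Subgroup.upperCentralSeries_eq_top_iff_nilpotencyClass_le.2 hcl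
  have hcen : ∀ a b : P, a * b * a⁻¹ * b⁻¹ ∈ Subgroup.center P := by
    intro a b
    have ha : a ∈ Subgroup.upperCentralSeries P (1 + 1) := by
      rw [show (1 + 1 : ℕ) = 2 from rfl, hucs]
      exact Subgroup.mem_top a
    have h0 := (Subgroup.mem_upperCentralSeries_succ_iff.1 ha) b
    rw [Subgroup.upperCentralSeries_one, commutatorElement_def] at h0
    exact h0
  have hc2 : ∀ a b : P, (a * b * a⁻¹ * b⁻¹) ^ 2 = 1 := fun a b => comm_sq hcen h4 b a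
  have hsqcen : ∀ x : P, x ^ 2 ∈ Subgroup.center P := by
    intro x
    rw [Subgroup.mem_center_iff]
    intro y
    have e1 : (x ^ 2) * y * (x ^ 2)⁻¹ * y⁻¹ = 1 := by
      rw [pow_two x, hom1 hcen x x y, ← pow_two, hc2]
    calc y * x ^ 2 = ((x ^ 2) * y * (x ^ 2)⁻¹ * y⁻¹)⁻¹ * (x ^ 2 * y) := by group
      _ = x ^ 2 * y := by rw [e1, inv_one, one_mul]
  obtain ⟨E, hE⟩ : ∃ E : Subgroup P, ∀ z : P, z ∈ E ↔ z ∈ Subgroup.center P ∧ z ^ 2 = 1 := by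
    refine ⟨{ carrier := {z | z ∈ Subgroup.center P ∧ z ^ 2 = 1}
              one_mem' := ⟨Subgroup.one_mem _, one_pow 2⟩
              mul_mem' := ?_
              inv_mem' := ?_ }, fun z => Iff.rfl⟩
    · rintro a b ⟨ha, ha2⟩ ⟨hb, hb2⟩
      refine ⟨Subgroup.mul_mem _ ha hb, ?_⟩
      have hcm : Commute a b := Subgroup.mem_center_iff.1 hb a
      rw [hcm.mul_pow, ha2, hb2, one_mul]
    · rintro a ⟨ha, ha2⟩
      exact ⟨Subgroup.inv_mem _ ha, by rw [inv_pow, ha2, inv_one]⟩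
  have hfE : frattini P ≤ E := by
    apply frattini_le_of_sq_comm
    · intro x
      rw [hE]
      refine ⟨hsqcen x, ?_⟩
      rw [← pow_mul]
      exact h4 x
    · intro x y
      rw [hE]
      exact ⟨hcen x y, hc2 x y⟩
  refine ⟨fun z hz => ((hE z).1 (hfE hz)).1, ?_, fun a ha => ((hE a).1 (hfE ha)).2⟩
  refine ⟨⟨fun a b => ?_⟩⟩
  apply Subtype.ext
  have hb := ((hE b).1 (hfE b.2)).1
  show (a : P) * b = b * a
  exact Subgroup.mem_center_iff.1 hb a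

end Cfsg.Agent.S4056
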