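import Cfsg.Statements.S4058
import Mathlib
import Cfsg.Agent.Lib.Helper6.InvCount
import Cfsg.Agent.S0012
import Cfsg.Agent.S0159

set_option autoImplicit false
open Cfsg

namespace Cfsg.Agent.S4058

open Cfsg.Agent.Lib.Helper6
open scoped commutatorElement
open Cfsg.Agent.Lib.Helper3.Char Cfsg.Agent.Lib.Helper3.CharCore Cfsg.Agent.Lib.Helper3.CharInt Cfsg.Agent.Lib.Helper3.CharArith Cfsg.Agent.Lib.Helper3.CharLinear Cfsg.Agent.Lib.Helper3.CharAb

/-- Let G be a finite 2-group with #(G/Φ(G)) ≥ 2^(2k+1). Then the number of elements x of G with x² = 1 is divisible by 2^(k+1). -/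
theorem result {G : Type*} [Group G] [Finite G] (hG : IsPGroup 2 G) (k : ℕ)
    (hgen : 2 ^ (2 * k + 1) ≤ Nat.card (G ⧸ frattini G)) :
    2 ^ (k + 1) ∣ Nat.card {x : G // x ^ 2 = 1} := by
  classical
  haveI : Fintype G := Fintype.ofFinite G
  haveI : Fintype (Cfsg.IrrCharacter G) := Fintype.ofFinite _
  obtain ⟨hcomm, hsq⟩ := Cfsg.Agent.S0012.result 2 hG
  have hQab : ∀ a b : G ⧸ frattini G, a * b = b * a := by
    intro a b
    induction a using QuotientGroup.induction_on with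
    | H x =>
      induction b using QuotientGroup.induction_on with
      | H y =>
        rw [← QuotientGroup.mk_mul, ← QuotientGroup.mk_mul, QuotientGroup.eq]
        apply hcomm
        have h1 : (x * y)⁻¹ * (y * x) = ⁅y⁻¹, x⁻¹⁆ := by
          rw [commutatorElement_def]
          group
        rw [h1, commutator_def]
        exact Subgroup.commutator_mem_commutator (Subgroup.mem_top _) (Subgroup.mem_top _)
  have hΛcard : Nat.card ((G ⧸ frattini G) →* ℂˣ) = Nat.card (G ⧸ frattini G) := by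
    rw [card_hom_units]
    have h1 : commutator (G ⧸ frattini G) = ⊥ := by
      rw [commutator_def, eq_bot_iff]
      apply Subgroup.commutator_le.mpr
      intro a _ b _
      rw [Subgroup.mem_bot, commutatorElement_eq_one_iff_commute]
      exact hQab a b
    rw [h1, Subgroup.index_bot]
  obtain ⟨d, hd⟩ := IsPGroup.iff_card.mp (hG.to_quotient (frattini G))
  have hdk : 2 * k + 1 ≤ d := by
    rw [hd] at hgen
    exact (Nat.pow_le_pow_iff_right (by norm_num)).mp hgen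
  let lam : ((G ⧸ frattini G) →* ℂˣ) →* (G →* ℂˣ) :=
    MonoidHom.compHom' (QuotientGroup.mk' (frattini G))
  have hinj : Function.Injective lam := by
    intro μ μ' h
    exact (MonoidHom.cancel_right (QuotientGroup.mk'_surjective _)).mp h
  have hlsq : ∀ (μ : (G ⧸ frattini G) →* ℂˣ) (s : G), lam μ (s * s) = 1 := by
    intro μ s
    show μ (QuotientGroup.mk' (frattini G) (s * s)) = 1
    have h1 : QuotientGroup.mk' (frattini G) (s * s) = 1 := by
      rw [QuotientGroup.mk'_apply, QuotientGroup.eq_one_iff, ← pow_two]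
      exact hsq s
    rw [h1, map_one]
  have key : ∀ (e : ℕ) (c : ℂ), 2 ^ (k + 1) ∣ 2 ^ e * Nat.card {χ : Cfsg.IrrCharacter G //
      (χ : G → ℂ) 1 = ((2 ^ e : ℕ) : ℂ) ∧
        (Nat.card G : ℂ)⁻¹ * ∑ s : G, (χ : G → ℂ) (s * s) = c} := by
    intro e c
    have h1 := InvCount.dvd_card_twist lam hinj hlsq d (by rw [hΛcard, hd]) e c
    by_cases he : k + 1 ≤ e
    · exact Dvd.dvd.mul_right (pow_dvd_pow 2 he) _
    · have h2 : 2 ^ (k + 1) ∣ 2 ^ e * 2 ^ (d - 2 * e) := by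
        rw [← pow_add]
        exact pow_dvd_pow 2 (by omega)
      exact h2.trans (mul_dvd_mul_left _ h1)
  let ν : Cfsg.IrrCharacter G → ℂ := fun χ =>
    (Nat.card G : ℂ)⁻¹ * ∑ s : G, (χ : G → ℂ) (s * s)
  have hν : ∀ χ : Cfsg.IrrCharacter G, ν χ = 0 ∨ ν χ = 1 ∨ ν χ = -1 := by
    rintro ⟨χ, n, ρ, hirr, rfl⟩
    haveI : ρ.IsIrreducible := hirr
    exact (Cfsg.Agent.S0158.result ρ).1
  obtain ⟨cG, hcG⟩ := IsPGroup.iff_card.mp hG
  have hdeg : ∀ χ : Cfsg.IrrCharacter G, ∃ e : ℕ, (χ : G → ℂ) 1 = ((2 ^ e : ℕ) : ℂ) := by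
    intro χ
    obtain ⟨n, hn, h1, hdvd⟩ := irr_degree_dvd_card χ.2
    rw [hcG] at hdvd
    obtain ⟨e, -, rfl⟩ := (Nat.dvd_prime_pow Nat.prime_two).mp hdvd
    exact ⟨e, h1⟩
  choose ε hε using hdeg
  have hsum : ∀ c : ℂ, 2 ^ (k + 1) ∣
      ∑ χ ∈ Finset.univ.filter (fun χ : Cfsg.IrrCharacter G => ν χ = c), 2 ^ (ε χ) := by
    intro c
    rw [← Finset.sum_fiberwise_of_maps_to (g := ε)
      (t := (Finset.univ.filter (fun χ : Cfsg.IrrCharacter G => ν χ = c)).image ε)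
      (fun χ hχ => Finset.mem_image_of_mem ε hχ)]
    apply Finset.dvd_sum
    intro j _
    have h1 : ∑ χ ∈ (Finset.univ.filter (fun χ : Cfsg.IrrCharacter G => ν χ = c)).filter
        (fun χ => ε χ = j), 2 ^ (ε χ) =
        2 ^ j * Nat.card {χ : Cfsg.IrrCharacter G // (χ : G → ℂ) 1 = ((2 ^ j : ℕ) : ℂ) ∧
          (Nat.card G : ℂ)⁻¹ * ∑ s : G, (χ : G → ℂ) (s * s) = c} := by
      have h2 : ∀ χ ∈ (Finset.univ.filter (fun χ : Cfsg.IrrCharacter G => ν χ = c)).filter
          (fun χ => ε χ = j), 2 ^ (ε χ) = 2 ^ j := by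
        intro χ hχ
        rw [(Finset.mem_filter.mp hχ).2]
      rw [Finset.sum_congr rfl h2, Finset.sum_const, smul_eq_mul, mul_comm]
      congr 1
      rw [Nat.card_eq_fintype_card, Fintype.card_subtype]
      congr 1
      ext χ
      simp only [Finset.mem_filter, Finset.mem_univ, true_and]
      constructor
      · rintro ⟨h1, h2⟩
        exact ⟨by rw [hε χ, h2], h1⟩
      · rintro ⟨h1, h2⟩
        refine ⟨h2, ?_⟩
        rw [hε χ] at h1
        have h3 : (2 : ℕ) ^ (ε χ) = 2 ^ j := by exact_mod_cast h1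
        exact Nat.pow_right_injective (le_refl 2) h3
    rw [h1]
    exact key j c
  have hmain := Cfsg.Agent.S0159.result (G := G)
  rw [finsum_eq_sum_of_fintype] at hmain
  have hcardeq : Nat.card {x : G // x ^ 2 = 1} = Nat.card {s : G // s * s = 1} := by
    simp only [pow_two]
  rw [hcardeq]
  have hterm : ∀ χ : Cfsg.IrrCharacter G,
      ((Nat.card G : ℂ)⁻¹ * ∑ s : G, (χ : G → ℂ) (s * s)) * (χ : G → ℂ) 1 =
      (if ν χ = 1 then ((2 ^ (ε χ) : ℕ) : ℂ) else 0) -
        (if ν χ = -1 then ((2 ^ (ε χ) : ℕ) : ℂ) else 0) := by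
    intro χ
    rw [hε χ]
    show ν χ * _ = _
    rcases hν χ with h | h | h
    · rw [h]; simp
    · rw [h]; norm_num
    · rw [h]; norm_num
  rw [Finset.sum_congr rfl (fun χ _ => hterm χ), Finset.sum_sub_distrib, ← Finset.sum_filter,
    ← Finset.sum_filter] at hmain
  have h2 : (Nat.card {s : G // s * s = 1} : ℤ) =
      ((∑ χ ∈ Finset.univ.filter (fun χ : Cfsg.IrrCharacter G => ν χ = 1), 2 ^ (ε χ) : ℕ) : ℤ) -
      ((∑ χ ∈ Finset.univ.filter (fun χ : Cfsg.IrrCharacter G => ν χ = -1), 2 ^ (ε χ) : ℕ) : ℤ) := by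
    have h3 : ((Nat.card {s : G // s * s = 1} : ℤ) : ℂ) =
        ((((∑ χ ∈ Finset.univ.filter (fun χ : Cfsg.IrrCharacter G => ν χ = 1), 2 ^ (ε χ) : ℕ) : ℤ) -
        ((∑ χ ∈ Finset.univ.filter (fun χ : Cfsg.IrrCharacter G => ν χ = -1), 2 ^ (ε χ) : ℕ) : ℤ) : ℤ) : ℂ) := by
      push_cast
      push_cast at hmain
      exact hmain
    exact_mod_cast h3
  have h3 : ((2 ^ (k + 1) : ℕ) : ℤ) ∣ (Nat.card {s : G // s * s = 1} : ℤ) := by
    rw [h2]
    exact dvd_sub (Int.natCast_dvd_natCast.mpr (hsum 1)) (Int.natCast_dvd_natCast.mpr (hsum (-1)))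
  exact Int.natCast_dvd_natCast.mp h3

end Cfsg.Agent.S4058
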