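import Cfsg.Statements.S4066
import Mathlib

set_option autoImplicit false
open Cfsg

namespace Cfsg.Agent.S4066

/-- Let G be a finite group in which the centralizer of every element meets each of its conjugates by elements outside its normalizer trivially. Then any two distinct Sylow p-subgroups of G, for any prime p, intersect trivially. -/
theorem result {G : Type*} [Group G] [Finite G] (hTI : ∀ x : G, Cfsg.IsTISubset (Subgroup.centralizer ({x} : Set G) : Set G))
    {p : ℕ} [Fact p.Prime] (P Q : Sylow p G) (hPQ : P ≠ Q) : (P : Subgroup G) ⊓ (Q : Subgroup G) = ⊥ := by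
  by_contra hne
  obtain ⟨z, hz, hz1⟩ : ∃ z ∈ (P : Subgroup G) ⊓ (Q : Subgroup G), z ≠ 1 := by
    by_contra hcon
    push Not at hcon
    exact hne ((Subgroup.eq_bot_iff_forall _).2 hcon)
  obtain ⟨hzP, hzQ⟩ := Subgroup.mem_inf.1 hz
  have hnt : Nontrivial (P : Subgroup G) :=
    ⟨⟨⟨z, hzP⟩, 1, fun h => hz1 (congrArg Subtype.val h)⟩⟩
  have hcnt := P.isPGroup'.center_nontrivial
  obtain ⟨x', hx'⟩ := exists_ne (1 : Subgroup.center (P : Subgroup G))
  obtain ⟨x, hxdef⟩ : ∃ x : G, x = ((x' : (P : Subgroup G)) : G) := ⟨_, rfl⟩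
  have hx1 : x ≠ 1 := by
    intro h
    apply hx'
    apply Subtype.ext
    apply Subtype.ext
    rw [← hxdef]
    exact h
  have hxP : ∀ w ∈ (P : Subgroup G), w * x = x * w := by
    intro w hw
    have h0 := (Subgroup.mem_center_iff.1 x'.2) ⟨w, hw⟩
    have h1 := congrArg Subtype.val h0
    rw [hxdef]
    exact h1
  have hmemC : ∀ a w : G, w ∈ Subgroup.centralizer {a} ↔ a * w = w * a := by
    intro a w
    rw [Subgroup.mem_centralizer_iff]
    constructor
    · intro h
      exact h a rfl
    · intro h b hb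
      rw [Set.mem_singleton_iff] at hb
      rw [hb]; exact h
  have hPC : (P : Subgroup G) ≤ Subgroup.centralizer {x} :=
    fun w hw => (hmemC x w).2 (hxP w hw).symm
  obtain ⟨g, hg⟩ := MulAction.exists_smul_eq G P Q
  have hQ : ∀ y : G, y ∈ (Q : Subgroup G) ↔ g⁻¹ * y * g ∈ (P : Subgroup G) := by
    intro y
    rw [← hg, Sylow.coe_subgroup_smul, Subgroup.mem_pointwise_smul_iff_inv_smul_mem,
      MulAut.smul_def, ← map_inv, MulAut.conj_apply, inv_inv]
  have hgN : g ∈ Subgroup.normalizer ((Subgroup.centralizer {x} : Subgroup G) : Set G) := by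
    by_contra hgn
    have h0 := hTI x g hgn (g⁻¹ * z * g) (hPC ((hQ z).1 hzQ)) (by
      have e : g * (g⁻¹ * z * g) * g⁻¹ = z := by group
      rw [e]; exact hPC hzP)
    apply hz1
    calc z = g * (g⁻¹ * z * g) * g⁻¹ := by group
      _ = 1 := by rw [h0]; group
  have hB : ∀ w ∈ Subgroup.centralizer {x},
      ∀ n ∈ Subgroup.normalizer ((Subgroup.centralizer {x} : Subgroup G) : Set G),
      n ∈ Subgroup.normalizer ((Subgroup.centralizer {w} : Subgroup G) : Set G) := by
    intro w hw n hn
    by_contra hnn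
    have hxw : x ∈ Subgroup.centralizer {w} := by
      rw [hmemC]
      exact ((hmemC x w).1 hw).symm
    have hnx : n * x * n⁻¹ ∈ Subgroup.centralizer {w} := by
      rw [hmemC]
      have h1 : n⁻¹ * w * n ∈ Subgroup.centralizer {x} :=
        (Subgroup.mem_normalizer_iff''.1 hn w).1 hw
      have h2 := (hmemC x _).1 h1
      calc w * (n * x * n⁻¹) = n * ((n⁻¹ * w * n) * x) * n⁻¹ := by group
        _ = n * (x * (n⁻¹ * w * n)) * n⁻¹ := by rw [h2]
        _ = n * x * n⁻¹ * w := by group
    exact hx1 (hTI w n hnn x hxw hnx)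
  have hcommute : ∀ w ∈ Subgroup.centralizer {x},
      ∀ n ∈ Subgroup.normalizer ((Subgroup.centralizer {x} : Subgroup G) : Set G),
      w * (n * w * n⁻¹) = (n * w * n⁻¹) * w := by
    intro w hw n hn
    have h1 := hB w hw n hn
    have hww : w ∈ Subgroup.centralizer {w} := by rw [hmemC]
    have h2 := (Subgroup.mem_normalizer_iff.1 h1 w).1 hww
    exact (hmemC w _).1 h2
  have hfinal : ∀ w ∈ (P : Subgroup G), g * w * g⁻¹ ∈ (P : Subgroup G) := by
    intro w hw
    obtain ⟨S, hS⟩ : ∃ S : Set G, S = {y | ∃ n ∈ Subgroup.normalizer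
        ((Subgroup.centralizer {x} : Subgroup G) : Set G), y = n * w * n⁻¹} := ⟨_, rfl⟩
    have hScomm : ∀ a ∈ S, ∀ b ∈ S, a * b = b * a := by
      intro a ha b hb
      rw [hS] at ha hb
      obtain ⟨n, hn, rfl⟩ := ha
      obtain ⟨m, hm, rfl⟩ := hb
      have hw' : m * w * m⁻¹ ∈ Subgroup.centralizer {x} :=
        (Subgroup.mem_normalizer_iff.1 hm w).1 (hPC hw)
      have h0 := hcommute (m * w * m⁻¹) hw' (n * m⁻¹)
        (Subgroup.mul_mem _ hn (Subgroup.inv_mem _ hm))
      have e : n * m⁻¹ * (m * w * m⁻¹) * (n * m⁻¹)⁻¹ = n * w * n⁻¹ := by group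
      rw [e] at h0
      exact h0.symm
    have hAcomm : ∀ a ∈ Subgroup.closure S, ∀ b ∈ Subgroup.closure S, a * b = b * a := by
      have h1 : Subgroup.closure S ≤ Subgroup.centralizer S := by
        rw [Subgroup.closure_le]
        intro a ha
        rw [SetLike.mem_coe, Subgroup.mem_centralizer_iff]
        intro b hb
        exact hScomm b hb a ha
      have h2 : Subgroup.closure S ≤ Subgroup.centralizer (Subgroup.closure S : Set G) := by
        rw [Subgroup.closure_le]
        intro a ha
        rw [SetLike.mem_coe, Subgroup.mem_centralizer_iff]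
        intro b hb
        have h3 := h1 hb
        rw [Subgroup.mem_centralizer_iff] at h3
        exact (h3 a ha).symm
      intro a ha b hb
      have h3 := h2 hb
      rw [Subgroup.mem_centralizer_iff] at h3
      exact h3 a ha
    have hApow : ∀ a ∈ Subgroup.closure S, ∃ k : ℕ, a ^ p ^ k = 1 := by
      intro a ha
      induction ha using Subgroup.closure_induction with
      | mem y hy =>
        rw [hS] at hy
        obtain ⟨n, hn, rfl⟩ := hy
        obtain ⟨k, hk⟩ := P.isPGroup' ⟨w, hw⟩
        have hk' : w ^ p ^ k = 1 := congrArg Subtype.val hk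
        exact ⟨k, by rw [conj_pow, hk']; group⟩
      | one => exact ⟨0, one_pow _⟩
      | mul a b ha hb iha ihb =>
        obtain ⟨k, hk⟩ := iha
        obtain ⟨l, hl⟩ := ihb
        refine ⟨k + l, ?_⟩
        have hc : Commute a b := hAcomm a ha b hb
        rw [hc.mul_pow, pow_add, pow_mul, hk, one_pow, mul_comm (p ^ k), pow_mul, hl, one_pow,
          one_mul]
      | inv a ha iha =>
        obtain ⟨k, hk⟩ := iha
        exact ⟨k, by rw [inv_pow, hk, inv_one]⟩
    have hAp : IsPGroup p (Subgroup.closure S) := by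
      intro a
      obtain ⟨k, hk⟩ := hApow a a.2
      exact ⟨k, Subtype.ext hk⟩
    have hPA : (P : Subgroup G) ≤ Subgroup.normalizer ((Subgroup.closure S : Subgroup G) : Set G) := by
      rw [Subgroup.le_normalizer_closure_iff]
      intro u hu y hy
      rw [hS] at hy
      obtain ⟨n, hn, rfl⟩ := hy
      apply Subgroup.subset_closure
      rw [hS]
      exact ⟨u * n, Subgroup.mul_mem _ (Subgroup.le_normalizer (hPC hu)) hn, by group⟩
    have hsup : IsPGroup p ((P : Subgroup G) ⊔ Subgroup.closure S : Subgroup G) :=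
      IsPGroup.to_sup_of_normal_right' P.isPGroup' hAp hPA
    have hEq := P.is_maximal' hsup le_sup_left
    have hAP : Subgroup.closure S ≤ P := by
      rw [← hEq]; exact le_sup_right
    apply hAP
    apply Subgroup.subset_closure
    rw [hS]
    exact ⟨g, hgN, rfl⟩
  have hQP : (Q : Subgroup G) ≤ P := by
    intro y hy
    have h1 := (hQ y).1 hy
    have h2 := hfinal _ h1
    have e : g * (g⁻¹ * y * g) * g⁻¹ = y := by group
    rwa [e] at h2
  have hPQ' : (P : Subgroup G) = Q := Q.is_maximal' P.isPGroup' hQP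
  exact hPQ (Sylow.ext hPQ')

end Cfsg.Agent.S4066
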