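import Cfsg.Statements.S4074
import Mathlib

set_option autoImplicit false
open Cfsg

namespace Cfsg.Agent.S4074

open DihedralGroup in
theorem lemmaA {n : ℕ} (H : Subgroup (DihedralGroup n)) (hH : ¬ IsMulCommutative H) :
    ∃ i j : ZMod n, r i ∈ H ∧ sr j ∈ H ∧ i + i ≠ 0 := by
  by_contra hne
  push Not at hne
  apply hH
  refine ⟨⟨?_⟩⟩
  rintro ⟨a, ha⟩ ⟨b, hb⟩
  apply Subtype.ext
  show a * b = b * a
  cases a with
  | r i =>
    cases b with
    | r j => rw [r_mul_r, r_mul_r, add_comm]
    | sr j =>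
      rw [r_mul_sr, sr_mul_r]
      have h0 := hne i j ha hb
      congr 1
      linear_combination (-1 : ZMod n) * h0
  | sr i =>
    cases b with
    | r j =>
      rw [sr_mul_r, r_mul_sr]
      have h0 := hne j i hb ha
      congr 1
      linear_combination h0
    | sr j =>
      rw [sr_mul_sr, sr_mul_sr]
      have hmem : r (j - i) ∈ H := by rw [← sr_mul_sr]; exact H.mul_mem ha hb
      have h0 := hne (j - i) j hmem hb
      congr 1
      linear_combination h0

open DihedralGroup in
theorem odd_case {n : ℕ} (hodd : Odd n) (H : Subgroup (DihedralGroup n))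
    (hH : ¬ IsMulCommutative H) :
    Subgroup.normalizer (H : Set (DihedralGroup n)) = H := by
  obtain ⟨i, j, hi, hj, _⟩ := lemmaA H hH
  obtain ⟨m, hm⟩ := hodd
  have hm0 : (2 * (m : ZMod n) + 1) = 0 := by
    have h0 : ((2 * m + 1 : ℕ) : ZMod n) = 0 := by rw [← hm]; exact ZMod.natCast_self n
    push_cast at h0
    exact h0
  have hrot : ∀ k : ZMod n, r k ∈ Subgroup.normalizer (H : Set (DihedralGroup n)) → r k ∈ H := by
    intro k hk
    rw [Subgroup.mem_normalizer_iff] at hk
    have h1 := (hk (sr j)).1 hj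
    rw [r_mul_sr, inv_r, sr_mul_r] at h1
    have h2 : r (-(k + k)) ∈ H := by
      have h0 := H.mul_mem hj h1
      rw [sr_mul_sr] at h0
      convert h0 using 2
      ring
    have h3 := H.pow_mem h2 m
    rw [r_pow] at h3
    convert h3 using 2
    linear_combination k * hm0
  apply le_antisymm
  · intro x hx
    cases x with
    | r k => exact hrot k hx
    | sr k =>
      have h1 : sr k * sr j ∈ Subgroup.normalizer (H : Set (DihedralGroup n)) :=
        Subgroup.mul_mem _ hx (Subgroup.le_normalizer hj)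
      rw [sr_mul_sr] at h1
      have h2 := hrot _ h1
      have h3 := H.mul_mem h2 hj
      rw [r_mul_sr] at h3
      convert h3 using 2
      ring
  · exact Subgroup.le_normalizer

theorem key4 : ∀ i : ZMod 4, i + i ≠ 0 → i = 1 ∨ i = -1 := by decide

open DihedralGroup in
theorem four_case (H : Subgroup (DihedralGroup 4)) (hH : ¬ IsMulCommutative H) : H = ⊤ := by
  obtain ⟨i, j, hi, hj, hij⟩ := lemmaA H hH
  have hi' := key4 i hij
  have h1 : r (1 : ZMod 4) ∈ H := by
    rcases hi' with rfl | rfl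
    · exact hi
    · have h0 := H.inv_mem hi
      rwa [inv_r, neg_neg] at h0
  have hr : ∀ k : ZMod 4, r k ∈ H := by
    intro k
    have h0 := H.pow_mem h1 k.val
    rw [r_pow, one_mul, ZMod.natCast_zmod_val] at h0
    exact h0
  rw [Subgroup.eq_top_iff']
  intro x
  cases x with
  | r k => exact hr k
  | sr k =>
    have h0 := H.mul_mem hj (hr (k - j))
    rw [sr_mul_r] at h0
    convert h0 using 2
    ring

open DihedralGroup in
def evenSub (n : ℕ) : Subgroup (DihedralGroup n) where
  carrier := {x | ∃ j : ZMod n, x = r (j + j) ∨ x = sr (j + j)}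
  one_mem' := ⟨0, Or.inl (by rw [add_zero, r_zero])⟩
  mul_mem' := by
    rintro a b ⟨j, rfl | rfl⟩ ⟨k, rfl | rfl⟩
    · exact ⟨j + k, Or.inl (by rw [r_mul_r]; congr 1; ring)⟩
    · exact ⟨k - j, Or.inr (by rw [r_mul_sr]; congr 1; ring)⟩
    · exact ⟨j + k, Or.inr (by rw [sr_mul_r]; congr 1; ring)⟩
    · exact ⟨k - j, Or.inl (by rw [sr_mul_sr]; congr 1; ring)⟩
  inv_mem' := by
    rintro a ⟨j, rfl | rfl⟩
    · exact ⟨-j, Or.inl (by rw [inv_r]; congr 1; ring)⟩
    · exact ⟨j, Or.inr (by rw [inv_sr])⟩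

open DihedralGroup in
theorem evenSub_normal (n : ℕ) : (evenSub n).Normal := by
  constructor
  rintro h ⟨j, rfl | rfl⟩ g
  · cases g with
    | r k => exact ⟨j, Or.inl (by rw [r_mul_r, inv_r, r_mul_r]; congr 1; ring)⟩
    | sr k => exact ⟨-j, Or.inl (by rw [sr_mul_r, inv_sr, sr_mul_sr]; congr 1; ring)⟩
  · cases g with
    | r k => exact ⟨j - k, Or.inr (by rw [r_mul_sr, inv_r, sr_mul_r]; congr 1; ring)⟩
    | sr k => exact ⟨k - j, Or.inr (by rw [sr_mul_sr, inv_sr, r_mul_sr]; congr 1; ring)⟩

/-- For n > 2, every non-abelian subgroup of the dihedral group of order 2n is self-normalizing if and only if n = 4 or n is odd. -/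
theorem result (n : ℕ) (hn : 2 < n) :
    (∀ H : Subgroup (DihedralGroup n), ¬ IsMulCommutative H → Subgroup.normalizer (H : Set (DihedralGroup n)) = H) ↔
    (n = 4 ∨ Odd n) := by
  constructor
  · intro h
    by_contra hcon
    push Not at hcon
    obtain ⟨h4, hnodd⟩ := hcon
    have heven : Even n := Nat.not_odd_iff_even.1 hnodd
    have h2n : 2 ∣ n := heven.two_dvd
    have hnc : ¬ IsMulCommutative (evenSub n) := by
      intro hc
      have hr : DihedralGroup.r (1 + 1 : ZMod n) ∈ evenSub n := ⟨1, Or.inl rfl⟩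
      have hs : DihedralGroup.sr (0 + 0 : ZMod n) ∈ evenSub n := ⟨0, Or.inr rfl⟩
      have h0 := hc.is_comm.comm (⟨_, hr⟩ : evenSub n) ⟨_, hs⟩
      have h' : DihedralGroup.r (1 + 1 : ZMod n) * DihedralGroup.sr (0 + 0 : ZMod n) =
          DihedralGroup.sr (0 + 0 : ZMod n) * DihedralGroup.r (1 + 1 : ZMod n) :=
        congrArg Subtype.val h0
      rw [DihedralGroup.r_mul_sr, DihedralGroup.sr_mul_r] at h'
      have h'' := DihedralGroup.sr.inj h'
      have h4' : ((4 : ℕ) : ZMod n) = 0 := by
        push_cast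
        linear_combination (-1 : ZMod n) * h''
      rw [ZMod.natCast_eq_zero_iff] at h4'
      have hle := Nat.le_of_dvd (by norm_num) h4'
      obtain ⟨c, hc⟩ := heven
      omega
    have hN := h (evenSub n) hnc
    have hnormal := evenSub_normal n
    rw [Subgroup.normalizer_eq_top] at hN
    have h1 : DihedralGroup.r (1 : ZMod n) ∈ evenSub n := by
      rw [← hN]; exact Subgroup.mem_top _
    obtain ⟨j, hj | hj⟩ := h1
    · have hj' := DihedralGroup.r.inj hj
      have h5 := congrArg (ZMod.castHom h2n (ZMod 2)) hj'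
      simp only [map_one, map_add] at h5
      rw [CharTwo.add_self_eq_zero] at h5
      exact absurd h5 (by decide)
    · cases hj
  · rintro (rfl | hodd) H hH
    · rw [four_case H hH]
      exact Subgroup.normalizer_eq_top ⊤
    · exact odd_case hodd H hH

end Cfsg.Agent.S4074
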