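import Cfsg.Statements.S4075
import Mathlib

set_option autoImplicit false
open Cfsg

namespace Cfsg.Agent.S4075

/-- Let G be a finite nilpotent group. Every non-abelian subgroup of G is self-normalizing if and only if G is abelian or G is a minimal non-abelian p-group for some prime p (non-abelian of prime-power order with every proper subgroup abelian). -/
theorem result {G : Type*} [Group G] [Finite G]
    [Group.IsNilpotent G] :
    (∀ H : Subgroup G, ¬ IsMulCommutative H → Subgroup.normalizer (H : Set G) = H) ↔
    (IsMulCommutative G ∨ (IsPrimePow (Nat.card G) ∧ ¬ IsMulCommutative G ∧ ∀ H : Subgroup G, H ≠ ⊤ → IsMulCommutative H)) := by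
  constructor
  · intro h
    by_cases hc : IsMulCommutative G
    · exact Or.inl hc
    · right
      have hproper : ∀ H : Subgroup G, H ≠ ⊤ → IsMulCommutative H := by
        intro H hH
        by_contra hnc
        have h1 := h H hnc
        have hNC : NormalizerCondition G := Group.normalizerCondition_of_isNilpotent
        have h2 := (normalizerCondition_iff_only_full_group_self_normalizing.1 hNC) H h1
        exact hH h2
      refine ⟨?_, hc, hproper⟩
      by_contra hpp
      apply hc
      have hnil : Group.IsNilpotent G := inferInstance
      obtain ⟨e⟩ := ((Group.isNilpotent_of_finite_tfae (G := G)).out 0 4).mp hnil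
      have hsyl : ∀ (p : (Nat.card G).primeFactors) (P : Sylow p G),
          IsMulCommutative (P : Subgroup G) := by
        intro p P
        apply hproper
        intro htop
        apply hpp
        have hpprime : (p : ℕ).Prime := Nat.prime_of_mem_primeFactors p.2
        have hfact : Fact (p : ℕ).Prime := ⟨hpprime⟩
        obtain ⟨k, hk⟩ := IsPGroup.iff_card.1 P.isPGroup'
        have hcard : Nat.card G = (p : ℕ) ^ k := by
          rw [← hk, htop, Subgroup.card_top]
        rw [hcard]
        have hk0 : k ≠ 0 := by
          rintro rfl
          have hdvd : (p : ℕ) ∣ Nat.card G := Nat.dvd_of_mem_primeFactors p.2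
          have h1 : Nat.card G = 1 := by rw [hcard, pow_zero]
          have hle : (p : ℕ) ≤ Nat.card G := Nat.le_of_dvd Nat.card_pos hdvd
          have h2 := hpprime.two_le
          omega
        exact hpprime.isPrimePow.pow hk0
      refine ⟨⟨fun a b => ?_⟩⟩
      have hab : e.symm a * e.symm b = e.symm b * e.symm a := by
        funext p
        funext P
        exact (hsyl p P).is_comm.comm _ _
      have h3 := congrArg e hab
      simpa using h3
  · rintro (hc | ⟨_, hnc, hproper⟩) H hH
    · exfalso
      apply hH
      exact ⟨⟨fun a b => Subtype.ext (hc.is_comm.comm a b)⟩⟩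
    · have htop : H = ⊤ := by
        by_contra hne
        exact hH (hproper H hne)
      rw [htop]
      exact Subgroup.normalizer_eq_top ⊤

end Cfsg.Agent.S4075
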