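import Cfsg.Statements.S4080

import Mathlib

set_option autoImplicit false
open Cfsg
open scoped Pointwise

namespace Cfsg.Agent.S4080

universe u

section
variable {p : ℕ} [hpF : Fact p.Prime]

lemma sq_smul (m : ZMod (p ^ 2) × ZMod (p ^ 2)) : (p ^ 2) • m = 0 := by
  have key : ∀ u : ZMod (p ^ 2), (p ^ 2) • u = 0 := by
    intro u
    rw [nsmul_eq_mul, ZMod.natCast_self, zero_mul]
  exact Prod.ext (key m.1) (key m.2)

lemma exists_of_p_smul (m : ZMod (p ^ 2) × ZMod (p ^ 2)) (h : p • m = 0) :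
    ∃ m' : ZMod (p ^ 2) × ZMod (p ^ 2), m = p • m' := by
  have key : ∀ u : ZMod (p ^ 2), p • u = 0 → ∃ u' : ZMod (p ^ 2), u = p • u' := by
    intro u hu
    haveI : NeZero (p ^ 2) := ⟨pow_ne_zero 2 hpF.out.ne_zero⟩
    have h1 : ((p * u.val : ℕ) : ZMod (p ^ 2)) = 0 := by
      rw [Nat.cast_mul, ZMod.natCast_zmod_val, ← nsmul_eq_mul]; exact hu
    rw [ZMod.natCast_eq_zero_iff] at h1
    have h2 : p ∣ u.val := by
      have : p * p ∣ p * u.val := by rwa [← sq]
      exact Nat.dvd_of_mul_dvd_mul_left hpF.out.pos this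
    obtain ⟨t, ht⟩ := h2
    refine ⟨(t : ZMod (p ^ 2)), ?_⟩
    rw [nsmul_eq_mul, ← Nat.cast_mul, ← ht, ZMod.natCast_zmod_val]
  obtain ⟨u', hu'⟩ := key m.1 (congrArg Prod.fst h)
  obtain ⟨w', hw'⟩ := key m.2 (congrArg Prod.snd h)
  exact ⟨(u', w'), Prod.ext hu' hw'⟩

lemma card_MM : Nat.card (ZMod (p ^ 2) × ZMod (p ^ 2)) = p ^ 2 * p ^ 2 := by
  rw [Nat.card_prod, Nat.card_zmod]

end

section
variable {M : Type u} [AddCommGroup M] [Finite M]

/-- If `D` maps `W` onto itself and `D^n` kills `W`, then `W = ⊥`. -/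
lemma surj_bot (D : M →+ M) (n : ℕ) (W : AddSubgroup M)
    (hn : ∀ w ∈ W, ((⇑D)^[n] w) = 0)
    (hW : W.map D = W) : W = ⊥ := by
  have hk : ∀ k : ℕ, ∀ w ∈ W, ∃ w' ∈ W, (⇑D)^[k] w' = w := by
    intro k
    induction k with
    | zero => intro w hw; exact ⟨w, hw, rfl⟩
    | succ k ih =>
      intro w hw
      rw [← hW] at hw
      obtain ⟨u, hu, rfl⟩ := hw
      obtain ⟨u', hu', rfl⟩ := ih u hu
      exact ⟨u', hu', Function.iterate_succ_apply' (⇑D) k u'⟩
  rw [eq_bot_iff]
  intro w hw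
  obtain ⟨w', hw', rfl⟩ := hk n w hw
  rw [AddSubgroup.mem_bot]
  exact hn w' hw'

lemma pow_apply_iter (D : M →+ M) (n : ℕ) (v : M) :
    ((show AddMonoid.End M from D) ^ n) v = (⇑D)^[n] v := by
  induction n generalizing v with
  | zero => rfl
  | succ n ih =>
    rw [pow_succ, Function.iterate_succ_apply]
    show ((show AddMonoid.End M from D) ^ n) (D v) = _
    rw [ih]

/-- `D² V = 0` if `|V| = p²`, `D V ≤ V`, `D^n V = 0`. -/
lemma sq_kill {p : ℕ} (hpp : p.Prime) (D : M →+ M) (n : ℕ) (V : AddSubgroup M)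
    (hVcard : Nat.card V = p ^ 2)
    (hDV : ∀ v ∈ V, D v ∈ V) (hDn : ∀ v ∈ V, (⇑D)^[n] v = 0) :
    ∀ v ∈ V, D (D v) = 0 := by
  have hsurj : ∀ W : AddSubgroup M, W ≤ V → W.map D = W → W = ⊥ := by
    intro W hWV hW
    exact surj_bot D n W (fun w hw => hDn w (hWV hw)) hW
  obtain ⟨V₁, hV₁⟩ : ∃ V₁ : AddSubgroup M, V₁ = V.map D := ⟨_, rfl⟩
  obtain ⟨V₂, hV₂⟩ : ∃ V₂ : AddSubgroup M, V₂ = V₁.map D := ⟨_, rfl⟩
  have h1V : V₁ ≤ V := by
    rw [hV₁]
    rintro _ ⟨v, hv, rfl⟩
    exact hDV v hv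
  have h21 : V₂ ≤ V₁ := by
    rw [hV₂]
    have := AddSubgroup.map_mono (f := D) h1V
    rw [← hV₁] at this
    exact this
  have hne1 : V₁ ≠ V := by
    intro h
    have := hsurj V le_rfl (by rw [← hV₁, h])
    rw [this, AddSubgroup.card_bot] at hVcard
    have := hpp.one_lt
    nlinarith
  have hc1 : Nat.card V₁ ∣ p := by
    have hd : Nat.card V₁ ∣ p ^ 2 := hVcard ▸ AddSubgroup.card_dvd_of_le h1V
    obtain ⟨j, hj, hj'⟩ := (Nat.dvd_prime_pow hpp).mp hd
    have : j ≠ 2 := by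
      intro h2
      rw [h2] at hj'
      exact hne1 (AddSubgroup.eq_of_le_of_card_ge h1V (by rw [hj', hVcard]))
    have hj1 : j ≤ 1 := by omega
    rw [hj']
    have := pow_dvd_pow p hj1
    rwa [pow_one] at this
  have hV₂bot : V₂ = ⊥ := by
    by_cases h : V₂ = V₁
    · have h1 := hsurj V₁ h1V (by rw [← hV₂, h])
      rw [h, h1]
    · have hc2 : Nat.card V₂ ∣ Nat.card V₁ := AddSubgroup.card_dvd_of_le h21
      have hlt : Nat.card V₂ < Nat.card V₁ := by
        by_contra hcon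
        push_neg at hcon
        exact h (AddSubgroup.eq_of_le_of_card_ge h21 hcon)
      rcases (Nat.dvd_prime hpp).mp hc1 with h1 | h1
      · rw [h1] at hlt
        have : 0 < Nat.card V₂ := Nat.card_pos
        omega
      · rw [h1] at hc2 hlt
        rcases (Nat.dvd_prime hpp).mp hc2 with h2 | h2
        · exact AddSubgroup.card_eq_one.mp h2
        · omega
  intro v hv
  have : D (D v) ∈ V₂ := by
    rw [hV₂, hV₁]
    exact ⟨D v, ⟨v, hv, rfl⟩, rfl⟩
  rw [hV₂bot, AddSubgroup.mem_bot] at this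
  exact this

lemma card_tors {p : ℕ} (hpp : p.Prime) (hsq : ∀ m : M, (p ^ 2) • m = 0)
    (hex : ∀ m : M, p • m = 0 → ∃ m' : M, m = p • m')
    (hcard : Nat.card M = p ^ 2 * p ^ 2) :
    Nat.card (nsmulAddMonoidHom p : M →+ M).ker = p ^ 2 := by
  have hrange : (nsmulAddMonoidHom p : M →+ M).range = (nsmulAddMonoidHom p : M →+ M).ker := by
    ext v
    constructor
    · rintro ⟨m', rfl⟩
      show p • (p • m') = 0
      rw [← mul_smul, ← sq]; exact hsq m'
    · intro hv
      obtain ⟨m', hm'⟩ := hex v hv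
      exact ⟨m', hm'.symm⟩
  have h1 := AddSubgroup.card_mul_index (nsmulAddMonoidHom p : M →+ M).ker
  have h2 : (nsmulAddMonoidHom p : M →+ M).ker.index
      = Nat.card (nsmulAddMonoidHom p : M →+ M).range :=
    AddSubgroup.index_ker _
  rw [h2, hrange, hcard] at h1
  exact Nat.mul_self_inj.mp h1

theorem key_end {p : ℕ} (hpp : p.Prime) (hp : 3 < p) (hsq : ∀ m : M, (p ^ 2) • m = 0)
    (hex : ∀ m : M, p • m = 0 → ∃ m' : M, m = p • m')
    (hcard : Nat.card M = p ^ 2 * p ^ 2)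
    (φ : AddMonoid.End M) (hφ : φ ^ p = 1) (m : M)
    (hm : p • m = 0) : φ m = m := by
  classical
  obtain ⟨D, hD⟩ : ∃ D : AddMonoid.End M, D = φ - 1 := ⟨_, rfl⟩
  have hφD : φ = 1 + D := by rw [hD]; abel
  obtain ⟨S, hS⟩ : ∃ S : AddMonoid.End M,
      S = ∑ k ∈ Finset.Ioo 0 p, 1 ^ k * D ^ (p - k) * ((p.choose k / p : ℕ) : AddMonoid.End M) :=
    ⟨_, rfl⟩
  have hbin : (1 + D) ^ p = 1 ^ p + D ^ p + (p : AddMonoid.End M) * S := by
    rw [hS]; exact (Commute.one_left D).add_pow_prime_eq' hpp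
  rw [← hφD, hφ, one_pow] at hbin
  have hA : D ^ p + (p : AddMonoid.End M) * S = 0 := by
    have : (1 : AddMonoid.End M) + (D ^ p + (p : AddMonoid.End M) * S) = 1 + 0 := by
      rw [add_zero, ← add_assoc]; exact hbin.symm
    exact add_left_cancel this
  have hDsmul : ∀ (E : AddMonoid.End M) (k : ℕ) (v : M), E (k • v) = k • E v :=
    fun E k v => map_nsmul E k v
  -- V = p-torsion
  obtain ⟨V, hV⟩ : ∃ V : AddSubgroup M, V = (nsmulAddMonoidHom p : M →+ M).ker := ⟨_, rfl⟩
  have hVmem : ∀ v : M, v ∈ V ↔ p • v = 0 := fun v => by rw [hV]; exact Iff.rfl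
  have hDpV : ∀ v ∈ V, (D ^ p) v = 0 := by
    intro v hv
    rw [hVmem] at hv
    have h1 : (D ^ p) v + ((p : AddMonoid.End M) * S) v = 0 := by
      have := congrArg (fun f : AddMonoid.End M => f v) hA
      exact this
    have h2 : ((p : AddMonoid.End M) * S) v = 0 := by
      show p • S v = 0
      rw [← hDsmul, hv, map_zero]
    rw [h2, add_zero] at h1
    exact h1
  have hDV : ∀ v ∈ V, D v ∈ V := by
    intro v hv
    rw [hVmem] at hv ⊢
    rw [← hDsmul, hv, map_zero]
  have hVcard : Nat.card V = p ^ 2 := by rw [hV]; exact card_tors hpp hsq hex hcard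
  have hD2V : ∀ v ∈ V, D (D v) = 0 :=
    sq_kill hpp D p V hVcard hDV (fun v hv => (pow_apply_iter D p v).symm.trans (hDpV v hv))
  have hpV : ∀ m' : M, p • m' ∈ V := by
    intro m'
    rw [hVmem, ← mul_smul, ← sq]; exact hsq m'
  have hpD2 : ∀ m' : M, p • D (D m') = 0 := by
    intro m'
    rw [← hDsmul, ← hDsmul]
    exact hD2V _ (hpV m')
  have hD4 : ∀ m' : M, D (D (D (D m'))) = 0 := by
    intro m'
    exact hD2V _ ((hVmem _).mpr (hpD2 m'))
  have hDp : D ^ p = 0 := by
    have : D ^ p = D ^ 4 * D ^ (p - 4) := by rw [← pow_add]; congr 1; omega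
    rw [this]
    ext1 m'
    show (D ^ 4) ((D ^ (p - 4)) m') = 0
    exact hD4 _
  have hpS : (p : AddMonoid.End M) * S = (p : AddMonoid.End M) * D := by
    rw [hS, Finset.mul_sum]
    have hmem : p - 1 ∈ Finset.Ioo 0 p := by
      rw [Finset.mem_Ioo]; omega
    rw [Finset.sum_eq_single_of_mem (p - 1) hmem]
    · have e1 : p - (p - 1) = 1 := by omega
      have e2 : p.choose (p - 1) / p = 1 := by
        have : p.choose (p - 1) = p := by
          have h := Nat.choose_succ_self_right (p - 1)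
          have e : p - 1 + 1 = p := by omega
          rw [e] at h
          exact h
        rw [this, Nat.div_self hpp.pos]
      rw [e1, e2, one_pow, one_mul, pow_one, Nat.cast_one, mul_one]
    · intro k hk hkne
      rw [Finset.mem_Ioo] at hk
      ext1 m'
      show p • ((1 ^ k * D ^ (p - k) * ((p.choose k / p : ℕ) : AddMonoid.End M)) m') = 0
      rw [one_pow, one_mul]
      have e : D ^ (p - k) = D ^ 2 * D ^ (p - k - 2) := by rw [← pow_add]; congr 1; omega
      rw [e]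
      show p • (D ^ 2) ((D ^ (p - k - 2)) ((p.choose k / p) • m')) = 0
      exact hpD2 _
  have hpD : ∀ m' : M, p • D m' = 0 := by
    intro m'
    rw [hDp, zero_add, hpS] at hA
    have := congrArg (fun f : AddMonoid.End M => f m') hA
    exact this
  obtain ⟨m', rfl⟩ := hex m hm
  have hDm : D (p • m') = 0 := by rw [hDsmul]; exact hpD m'
  rw [hD] at hDm
  have : φ (p • m') - p • m' = 0 := hDm
  exact sub_eq_zero.mp this

/-- additive version of a multiplicative automorphism -/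
def addOf (a : MulAut (Multiplicative M)) : AddMonoid.End M :=
  { toFun := fun m => Multiplicative.toAdd (a (Multiplicative.ofAdd m))
    map_zero' := by
      show Multiplicative.toAdd (a 1) = 0
      rw [map_one]; rfl
    map_add' := fun m n => by
      show Multiplicative.toAdd (a (Multiplicative.ofAdd m * Multiplicative.ofAdd n)) = _
      rw [map_mul]; rfl }

lemma addOf_pow (a : MulAut (Multiplicative M)) (k : ℕ) (m : M) :
    ((addOf a) ^ k) m = Multiplicative.toAdd ((a ^ k) (Multiplicative.ofAdd m)) := by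
  induction k generalizing m with
  | zero => rfl
  | succ k ih =>
    rw [pow_succ', pow_succ']
    show (addOf a) (((addOf a) ^ k) m) = Multiplicative.toAdd (a ((a ^ k) (Multiplicative.ofAdd m)))
    rw [ih]
    rfl

theorem key_mul {p : ℕ} (hpp : p.Prime) (hp : 3 < p) (hsq : ∀ m : M, (p ^ 2) • m = 0)
    (hex : ∀ m : M, p • m = 0 → ∃ m' : M, m = p • m')
    (hcard : Nat.card M = p ^ 2 * p ^ 2)
    (a : MulAut (Multiplicative M)) (ha : a ^ p = 1)
    (x : Multiplicative M) (hx : x ^ p = 1) : a x = x := by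
  have hφ : (addOf a) ^ p = 1 := by
    ext1 m
    rw [addOf_pow, ha]
    rfl
  have hx' : p • (Multiplicative.toAdd x) = 0 := congrArg Multiplicative.toAdd hx
  exact key_end hpp hp hsq hex hcard (addOf a) hφ (Multiplicative.toAdd x) hx'

end

theorem result {p : ℕ} [Fact p.Prime] (hp : 3 < p)
    (a : MulAut (Multiplicative (ZMod (p ^ 2) × ZMod (p ^ 2)))) (ha : orderOf a = p)
    (x : Multiplicative (ZMod (p ^ 2) × ZMod (p ^ 2))) (hx : orderOf x = p) : a x = x := by
  have hpp : p.Prime := Fact.out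
  haveI : NeZero (p ^ 2) := ⟨pow_ne_zero 2 hpp.ne_zero⟩
  have ha' : a ^ p = 1 := by
    have := pow_orderOf_eq_one a
    rwa [ha] at this
  have hx' : x ^ p = 1 := by
    have := pow_orderOf_eq_one x
    rwa [hx] at this
  exact key_mul hpp hp sq_smul exists_of_p_smul card_MM a ha' x hx'

end Cfsg.Agent.S4080
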