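import Cfsg.Statements.S4084

import Mathlib

set_option autoImplicit false
open Cfsg
open scoped Pointwise

namespace Cfsg.Agent.S4084

def dc {G : Type*} [Group G] (x : G) : Subgroup G :=
  Subgroup.centralizer (Subgroup.centralizer ({x} : Set G) : Set G)

theorem mem_dc {G : Type*} [Group G] (x z : G) :
    z ∈ dc x ↔ ∀ y, Commute x y → Commute y z := by
  unfold dc
  rw [Subgroup.mem_centralizer_iff]
  constructor
  · intro h y hy
    apply h y
    rw [SetLike.mem_coe, Subgroup.mem_centralizer_iff]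
    intro w hw
    rw [Set.mem_singleton_iff] at hw
    subst hw
    exact hy
  · intro h y hy
    apply h y
    rw [SetLike.mem_coe, Subgroup.mem_centralizer_iff] at hy
    exact hy x rfl

theorem self_mem_dc {G : Type*} [Group G] (x : G) : x ∈ dc x := by
  rw [mem_dc]
  intro y hy
  exact hy.symm

theorem dc_comm {G : Type*} [Group G] (x a b : G) (ha : a ∈ dc x) (hb : b ∈ dc x) :
    Commute a b := by
  rw [mem_dc] at ha hb
  have h1 : Commute x a := (ha x (Commute.refl x))
  exact hb a h1

theorem card_dc {G H : Type*} [Group G] [Group H] (e : G ≃ H)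
    (he : ∀ x y : G, Commute x y ↔ Commute (e x) (e y)) (x : G) :
    Nat.card (dc x) = Nat.card (dc (e x)) := by
  apply Nat.card_congr
  refine Equiv.subtypeEquiv e ?_
  intro z
  change z ∈ dc x ↔ e z ∈ dc (e x)
  rw [mem_dc, mem_dc]
  constructor
  · intro h y hy
    obtain ⟨y, rfl⟩ := e.surjective y
    rw [← he] at hy ⊢
    exact h y hy
  · intro h y hy
    rw [he] at hy ⊢
    exact h (e y) hy

theorem one_dir {G H : Type*} [Group G] [Finite G] [Group H] [Finite H] (e : G ≃ H)
    (he : ∀ x y : G, Commute x y ↔ Commute (e x) (e y))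
    {p q : ℕ} (hp : p.Prime) (hq : q.Prime) (hpq : p ≠ q) :
    (∃ g : G, orderOf g = p * q) → (∃ h : H, orderOf h = p * q) := by
  rintro ⟨g, hg⟩
  have h1 : p * q ∣ Nat.card (dc (e g)) := by
    rw [← card_dc e he g, ← hg, ← Nat.card_zpowers]
    apply Subgroup.card_dvd_of_le
    rw [Subgroup.zpowers_le]
    exact self_mem_dc g
  have := Fact.mk hp
  have := Fact.mk hq
  obtain ⟨a, ha⟩ := exists_prime_orderOf_dvd_card' p ((dvd_mul_right p q).trans h1)
  obtain ⟨b, hb⟩ := exists_prime_orderOf_dvd_card' q ((dvd_mul_left q p).trans h1)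
  rw [← Subgroup.orderOf_coe] at ha hb
  have hc : Commute (a : H) (b : H) := dc_comm (e g) a b a.2 b.2
  refine ⟨(a : H) * (b : H), ?_⟩
  rw [hc.orderOf_mul_eq_mul_orderOf_of_coprime, ha, hb]
  rw [ha, hb]
  exact (Nat.coprime_primes hp hq).mpr hpq

theorem result {G H : Type*} [Group G] [Finite G] [Group H] [Finite H] (e : G ≃ H)
    (he : ∀ x y : G, Commute x y ↔ Commute (e x) (e y))
    {p q : ℕ} (hp : p.Prime) (hq : q.Prime) (hpq : p ≠ q) :
    (∃ g : G, orderOf g = p * q) ↔ (∃ h : H, orderOf h = p * q) := by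
  constructor
  · exact one_dir e he hp hq hpq
  · apply one_dir e.symm _ hp hq hpq
    intro x y
    rw [he]
    simp

end Cfsg.Agent.S4084
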