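import Cfsg.Statements.S4086

import Mathlib

set_option autoImplicit false
open Cfsg
open scoped Pointwise

namespace Cfsg.Agent.S4086

theorem aux_gen {G : Type*} [Group G] (g : G) (p k : ℕ) (hp : p.Prime) (hpk : p ^ k = orderOf g)
    (a : ℤ) (hna : ¬ (p : ℤ) ∣ a) : g ∈ Subgroup.zpowers (g ^ a) := by
  have hpi : Prime (p : ℤ) := Nat.prime_iff_prime_int.mp hp
  have hcop : IsCoprime ((p : ℤ) ^ k) a := (hpi.coprime_iff_not_dvd.mpr hna).pow_left
  obtain ⟨u, v, huv⟩ := hcop
  rw [Subgroup.mem_zpowers_iff]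
  refine ⟨v, ?_⟩
  have h1 : g ^ (u * (p : ℤ) ^ k) = 1 := by
    rw [mul_comm, zpow_mul]
    have : g ^ ((p : ℤ) ^ k) = 1 := by
      rw [← Nat.cast_pow, zpow_natCast, hpk, pow_orderOf_eq_one]
    rw [this, one_zpow]
  calc (g ^ a) ^ v = g ^ (v * a) := by rw [← zpow_mul, mul_comm]
    _ = g ^ (u * (p : ℤ) ^ k + v * a) := by rw [zpow_add, h1, one_mul]
    _ = g := by rw [huv, zpow_one]

theorem aux_fwd {G : Type*} [Group G] [Finite G] (h : ∀ g : G, g ≠ 1 → IsPrimePow (orderOf g))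
    (x y : G) (hc : IsCyclic ↥(Subgroup.closure ({x, y} : Set G))) :
    x ∈ Subgroup.zpowers y ∨ y ∈ Subgroup.zpowers x := by
  obtain ⟨⟨g, hgC⟩, hg⟩ := hc.exists_generator
  have hxC : x ∈ Subgroup.closure ({x, y} : Set G) := Subgroup.subset_closure (by simp)
  have hyC : y ∈ Subgroup.closure ({x, y} : Set G) := Subgroup.subset_closure (by simp)
  have key : ∀ z ∈ Subgroup.closure ({x, y} : Set G), z ∈ Subgroup.zpowers g := by
    intro z hz
    obtain ⟨n, hn⟩ := Subgroup.mem_zpowers_iff.mp (hg ⟨z, hz⟩)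
    rw [Subgroup.mem_zpowers_iff]
    refine ⟨n, ?_⟩
    have := congrArg Subtype.val hn
    simpa using this
  obtain ⟨a, ha⟩ := Subgroup.mem_zpowers_iff.mp (key x hxC)
  obtain ⟨b, hb⟩ := Subgroup.mem_zpowers_iff.mp (key y hyC)
  by_cases hg1 : g = 1
  · left
    rw [← ha, hg1, one_zpow]
    exact one_mem _
  obtain ⟨p, k, hp, hk, hpk⟩ := h g hg1
  have hp' : p.Prime := hp.nat_prime
  by_cases hpa : (p : ℤ) ∣ a
  · by_cases hpb : (p : ℤ) ∣ b
    · exfalso
      obtain ⟨a', rfl⟩ := hpa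
      obtain ⟨b', rfl⟩ := hpb
      have hle : Subgroup.closure ({x, y} : Set G) ≤ Subgroup.zpowers (g ^ p) := by
        rw [Subgroup.closure_le]
        intro z hz
        rcases hz with rfl | hz
        · rw [← ha, SetLike.mem_coe, Subgroup.mem_zpowers_iff]
          exact ⟨a', by rw [← zpow_natCast, ← zpow_mul]⟩
        · rw [Set.mem_singleton_iff.mp hz, ← hb, SetLike.mem_coe, Subgroup.mem_zpowers_iff]
          exact ⟨b', by rw [← zpow_natCast, ← zpow_mul]⟩
      obtain ⟨c, hc'⟩ := Subgroup.mem_zpowers_iff.mp (hle hgC)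
      have h1 : g ^ ((p : ℤ) * c - 1) = 1 := by
        rw [zpow_sub, zpow_mul, zpow_natCast, hc', zpow_one, mul_inv_cancel]
      have h2 : (orderOf g : ℤ) ∣ (p : ℤ) * c - 1 := orderOf_dvd_iff_zpow_eq_one.mpr h1
      have h3 : (p : ℤ) ∣ (orderOf g : ℤ) := by
        rw [← hpk]; push_cast; exact dvd_pow_self _ hk.ne'
      have h4 : (p : ℤ) ∣ 1 := by
        have h5 := h3.trans h2
        have h6 : (p : ℤ) ∣ (p : ℤ) * c := dvd_mul_right _ _
        have h7 := dvd_sub h6 h5
        simpa using h7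
      have h8 : p ∣ 1 := by exact_mod_cast h4
      exact hp'.one_lt.ne' (Nat.dvd_one.mp h8)
    · left
      have hgy : g ∈ Subgroup.zpowers y := by
        rw [← hb]; exact aux_gen g p k hp' hpk b hpb
      rw [← ha]
      exact zpow_mem hgy a
  · right
    have hgx : g ∈ Subgroup.zpowers x := by
      rw [← ha]; exact aux_gen g p k hp' hpk a hpa
    rw [← hb]
    exact zpow_mem hgx b

theorem aux_fact (n : ℕ) (hn : 1 < n) (hnp : ¬ IsPrimePow n) :
    ∃ a b : ℕ, 1 < a ∧ 1 < b ∧ Nat.Coprime a b ∧ n = a * b := by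
  have hp : (n.minFac).Prime := Nat.minFac_prime hn.ne'
  obtain ⟨e, n', hnd, hnn⟩ := Nat.exists_eq_pow_mul_and_not_dvd (by omega : n ≠ 0) n.minFac hp.one_lt.ne'
  have he : e ≠ 0 := by
    rintro rfl
    rw [pow_zero, one_mul] at hnn
    exact hnd (hnn ▸ Nat.minFac_dvd n)
  have hn'1 : n' ≠ 1 := by
    rintro rfl
    rw [mul_one] at hnn
    exact hnp ⟨n.minFac, e, hp.prime, Nat.pos_of_ne_zero he, hnn.symm⟩
  have hn'0 : n' ≠ 0 := by
    rintro rfl
    rw [mul_zero] at hnn
    omega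
  refine ⟨n.minFac ^ e, n', Nat.one_lt_pow he hp.one_lt, by omega, ?_, hnn⟩
  exact Nat.Coprime.pow_left e (hp.coprime_iff_not_dvd.mpr hnd)

theorem result {G : Type*} [Group G] [Finite G] :
    (∀ g : G, g ≠ 1 → IsPrimePow (orderOf g)) ↔
    (∀ x y : G, IsCyclic ↥(Subgroup.closure ({x, y} : Set G)) → (x ∈ Subgroup.zpowers y ∨ y ∈ Subgroup.zpowers x)) := by
  constructor
  · intro h x y hc
    exact aux_fwd h x y hc
  · intro h g hg1
    by_contra hnp
    have hn : 1 < orderOf g := by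
      have h0 : 0 < orderOf g := orderOf_pos g
      have h1 : orderOf g ≠ 1 := by
        rw [Ne, orderOf_eq_one_iff]; exact hg1
      omega
    obtain ⟨a, b, ha, hb, hcop, hab⟩ := aux_fact (orderOf g) hn hnp
    have hcyc : IsCyclic ↥(Subgroup.closure ({g ^ a, g ^ b} : Set G)) := by
      have hle : Subgroup.closure ({g ^ a, g ^ b} : Set G) ≤ Subgroup.zpowers g := by
        rw [Subgroup.closure_le]
        intro z hz
        rcases hz with rfl | hz
        · exact pow_mem (Subgroup.mem_zpowers g) a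
        · rw [Set.mem_singleton_iff.mp hz]
          exact pow_mem (Subgroup.mem_zpowers g) b
      exact (Subgroup.subgroupOfEquivOfLe hle).isCyclic.mp inferInstance
    have hoa : orderOf (g ^ a) = b := by
      rw [orderOf_pow_of_dvd (by omega) (hab ▸ dvd_mul_right a b), hab, Nat.mul_div_cancel_left b (by omega)]
    have hob : orderOf (g ^ b) = a := by
      rw [orderOf_pow_of_dvd (by omega) (hab ▸ dvd_mul_left b a), hab, Nat.mul_div_cancel a (by omega)]
    rcases h (g ^ a) (g ^ b) hcyc with h1 | h1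
    · have h2 := orderOf_dvd_of_mem_zpowers h1
      rw [hoa, hob] at h2
      have := Nat.eq_one_of_dvd_coprimes hcop h2 dvd_rfl
      omega
    · have h2 := orderOf_dvd_of_mem_zpowers h1
      rw [hoa, hob] at h2
      have := Nat.eq_one_of_dvd_coprimes hcop.symm h2 dvd_rfl
      omega

end Cfsg.Agent.S4086
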