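import Cfsg.Statements.S4089

import Mathlib
import Cfsg.Agent.S0067
import Cfsg.Agent.Lib.Helper2.Fit

set_option autoImplicit false
open Cfsg
open scoped Pointwise

namespace Cfsg.Agent.S4089

open Cfsg.Agent.Lib.Helper2 Cfsg.Agent.Lib.Helper2.Sub
open Cfsg.Agent.S0538 Cfsg.Agent.S0539

/-- image in `G` of `O_p(K)` -/
def coreIn {G : Type*} [Group G] (p : ℕ) (K : Subgroup G) : Subgroup G :=
  (Cfsg.pCore p K).map K.subtype

theorem coreIn_le {G : Type*} [Group G] (p : ℕ) (K : Subgroup G) : coreIn p K ≤ K :=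
  Subgroup.map_subtype_le _

theorem coreIn_pgroup {G : Type*} [Group G] (p : ℕ) (K : Subgroup G) : IsPGroup p (coreIn p K) :=
  (Fit.pCore_isPGroup p).map _

theorem le_normalizer_coreIn {G : Type*} [Group G] (p : ℕ) (K : Subgroup G) :
    K ≤ Subgroup.normalizer (coreIn p K : Set G) := by
  rw [← Subgroup.normal_subgroupOf_iff_le_normalizer (coreIn_le p K)]
  have e : (coreIn p K).subgroupOf K = Cfsg.pCore p K :=
    Subgroup.comap_map_eq_self_of_injective K.subtype_injective _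
  rw [e]
  exact Fit.pCore_normal p

theorem le_coreIn {G : Type*} [Group G] [Finite G] (p : ℕ) [Fact p.Prime] {X K : Subgroup G}
    (h : RelSN X K) (hX : IsPGroup p X) : X ≤ coreIn p K := by
  have h1 : X.subgroupOf K ≤ Cfsg.pCore p K :=
    Fit.sn_pgroup_le_pCore h.2 (hX.comap_subtype)
  intro x hx
  exact ⟨⟨x, h.1 hx⟩, h1 (Subgroup.mem_subgroupOf.mpr hx), rfl⟩

theorem normal_le_coreIn {G : Type*} [Group G] [Finite G] (p : ℕ) [Fact p.Prime]
    {T K : Subgroup G} (hTK : T ≤ K) (hn : K ≤ Subgroup.normalizer (T : Set G))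
    (hT : IsPGroup p T) : T ≤ coreIn p K :=
  le_coreIn p (RelSN.of_normal hTK hn) hT

theorem relSN_of_le_pgroup {G : Type*} [Group G] [Finite G] (p : ℕ) [Fact p.Prime]
    {X T K : Subgroup G} (hT : IsPGroup p T) (hXT : X ≤ T) (hXK : X ≤ K)
    (hK : K ≤ Subgroup.normalizer (T : Set G)) : RelSN X K := by
  have h1 : RelSN X (T ⊓ K) := by
    refine ⟨le_inf hXT hXK, ?_⟩
    haveI : Group.IsNilpotent ↥(T ⊓ K) := (hT.to_le inf_le_left).isNilpotent
    exact Cfsg.Agent.S0067.subnormal_of_nilpotent _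
  have h2 : RelSN (T ⊓ K) K := by
    apply RelSN.of_normal inf_le_right
    intro k hk
    have hkT := hK hk
    rw [Subgroup.mem_normalizer_iff] at hkT ⊢
    intro h
    rw [Subgroup.mem_inf, Subgroup.mem_inf, ← hkT h]
    constructor
    · rintro ⟨a, b⟩
      exact ⟨a, K.mul_mem (K.mul_mem hk b) (K.inv_mem hk)⟩
    · rintro ⟨a, b⟩
      refine ⟨a, ?_⟩
      have := K.mul_mem (K.mul_mem (K.inv_mem hk) b) hk
      have e : k⁻¹ * (k * h * k⁻¹) * k = h := by group
      rwa [e] at this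
  exact h1.trans h2

theorem exists_radical {G : Type*} [Group G] [Finite G] (p : ℕ) [Fact p.Prime]
    {R₀ : Subgroup G} (hR₀ : IsPGroup p R₀) (g : G)
    (hg : g ∈ Subgroup.normalizer (R₀ : Set G)) :
    ∃ R : Subgroup G, R₀ ≤ R ∧ coreIn p (Subgroup.normalizer (R : Set G)) = R ∧
      g ∈ Subgroup.normalizer (R : Set G) := by
  obtain ⟨R, hle, hmax⟩ := Finite.exists_le_maximal
    (p := fun T : Subgroup G => IsPGroup p T ∧ g ∈ Subgroup.normalizer (T : Set G)) ⟨hR₀, hg⟩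
  refine ⟨R, hle, ?_, hmax.prop.2⟩
  have h1 : R ≤ coreIn p (Subgroup.normalizer (R : Set G)) :=
    normal_le_coreIn p Subgroup.le_normalizer le_rfl hmax.prop.1
  have h2 : coreIn p (Subgroup.normalizer (R : Set G)) ≤ R := by
    apply hmax.le_of_ge ⟨coreIn_pgroup p _, ?_⟩ h1
    exact le_normalizer_coreIn p _ hmax.prop.2
  exact le_antisymm h2 h1

theorem part1 {G : Type*} [Group G] [Finite G] (p : ℕ) [Fact p.Prime]
    (H : Subgroup G) (hH : IsPGroup p H) (g : G) :
    RelSN H (H ⊔ Subgroup.zpowers g) ↔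
      ∃ R : Subgroup G, H ≤ R ∧ coreIn p (Subgroup.normalizer (R : Set G)) = R ∧
        g ∈ Subgroup.normalizer (R : Set G) := by
  constructor
  · intro h
    have h1 : H ≤ coreIn p (H ⊔ Subgroup.zpowers g) := le_coreIn p h hH
    have hgK : g ∈ H ⊔ Subgroup.zpowers g :=
      (le_sup_right : Subgroup.zpowers g ≤ _) (Subgroup.mem_zpowers g)
    obtain ⟨R, hR1, hR2, hR3⟩ := exists_radical p (coreIn_pgroup p (H ⊔ Subgroup.zpowers g)) g
      (le_normalizer_coreIn p _ hgK)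
    exact ⟨R, h1.trans hR1, hR2, hR3⟩
  · rintro ⟨R, hHR, hR, hg⟩
    have hRp : IsPGroup p R := hR ▸ coreIn_pgroup p _
    exact relSN_of_le_pgroup p hRp hHR le_sup_left
      (sup_le (hHR.trans Subgroup.le_normalizer) ((Subgroup.zpowers_le).mpr hg))

theorem sInf_sylow_le_of_radical {G : Type*} [Group G] [Finite G] (p : ℕ) [Fact p.Prime]
    {R : Subgroup G} (hR : coreIn p (Subgroup.normalizer (R : Set G)) = R) :
    sInf {K : Subgroup G | ∃ Q : Sylow p G, R ≤ (Q : Subgroup G) ∧ K = (Q : Subgroup G)} ≤ R := by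
  set I : Subgroup G :=
    sInf {K : Subgroup G | ∃ Q : Sylow p G, R ≤ (Q : Subgroup G) ∧ K = (Q : Subgroup G)} with hI
  have hRp : IsPGroup p R := hR ▸ coreIn_pgroup p _
  obtain ⟨Q₀, hQ₀⟩ := hRp.exists_le_sylow
  have hIQ : I ≤ (Q₀ : Subgroup G) := sInf_le ⟨Q₀, hQ₀, rfl⟩
  have hIp : IsPGroup p I := Q₀.isPGroup'.to_le hIQ
  have hRI : R ≤ I := by
    apply le_sInf
    rintro K ⟨Q, hQ, rfl⟩
    exact hQ
  -- N(R) normalizes I
  have hNI : Subgroup.normalizer (R : Set G) ≤ Subgroup.normalizer (I : Set G) := by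
    intro n hn
    rw [mem_normalizer_iff_smul]
    apply smul_eq_of_le
    intro y hy
    rw [Subgroup.mem_pointwise_smul_iff_inv_smul_mem] at hy
    have hy' : n⁻¹ * y * n ∈ I := by simpa [MulAut.conj_apply] using hy
    rw [hI, Subgroup.mem_sInf]
    rintro K ⟨Q, hQ, rfl⟩
    -- n⁻¹ • Q is a Sylow containing R
    have h1 : R ≤ ((n⁻¹ • Q : Sylow p G) : Subgroup G) := by
      intro r hr
      rw [Sylow.coe_subgroup_smul, Subgroup.mem_pointwise_smul_iff_inv_smul_mem]
      have hr' : n * r * n⁻¹ ∈ R := (Subgroup.mem_normalizer_iff.mp hn r).mp hr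
      simpa [MulAut.conj_apply] using hQ hr'
    have h2 : n⁻¹ * y * n ∈ ((n⁻¹ • Q : Sylow p G) : Subgroup G) := by
      rw [hI, Subgroup.mem_sInf] at hy'
      exact hy' _ ⟨n⁻¹ • Q, h1, rfl⟩
    rw [Sylow.coe_subgroup_smul, Subgroup.mem_pointwise_smul_iff_inv_smul_mem] at h2
    have e : (MulAut.conj n⁻¹)⁻¹ • (n⁻¹ * y * n) = y := by
      simp [MulAut.conj_apply]
      group
    rwa [e] at h2
  -- I ⊓ N(R) ≤ R
  have hIN : I ⊓ Subgroup.normalizer (R : Set G) ≤ R := by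
    have h1 : I ⊓ Subgroup.normalizer (R : Set G) ≤
        coreIn p (Subgroup.normalizer (R : Set G)) := by
      apply normal_le_coreIn p inf_le_right _ (hIp.to_le inf_le_left)
      intro k hk
      have hkI := hNI hk
      rw [Subgroup.mem_normalizer_iff] at hkI ⊢
      intro h
      rw [Subgroup.mem_inf, Subgroup.mem_inf, ← hkI h]
      constructor
      · rintro ⟨a, b⟩
        exact ⟨a, Subgroup.mul_mem _ (Subgroup.mul_mem _ hk b) (Subgroup.inv_mem _ hk)⟩
      · rintro ⟨a, b⟩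
        refine ⟨a, ?_⟩
        have := Subgroup.mul_mem _ (Subgroup.mul_mem _ (Subgroup.inv_mem _ hk) b) hk
        have e : k⁻¹ * (k * h * k⁻¹) * k = h := by group
        rwa [e] at this
    rwa [hR] at h1
  by_contra hcon
  -- normalizer grows in the p-group I
  haveI : Group.IsNilpotent ↥I := hIp.isNilpotent
  have hnc := Group.normalizerCondition_of_isNilpotent (G := ↥I)
  have hlt : R.subgroupOf I < ⊤ := by
    rw [lt_top_iff_ne_top]
    intro e
    apply hcon
    rw [Subgroup.subgroupOf_eq_top] at e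
    exact e
  have h2 := hnc _ hlt
  obtain ⟨y, hyN, hyR⟩ := SetLike.exists_of_lt h2
  apply hyR
  rw [Subgroup.mem_subgroupOf]
  apply hIN
  refine Subgroup.mem_inf.mpr ⟨y.2, ?_⟩
  rw [mem_normalizer_iff_smul]
  apply smul_eq_of_le
  intro z hz
  rw [Subgroup.mem_pointwise_smul_iff_inv_smul_mem] at hz
  have hz' : (y : G)⁻¹ * z * (y : G) ∈ R := by simpa [MulAut.conj_apply] using hz
  have hzI : (y : G)⁻¹ * z * (y : G) ∈ I := hRI hz'
  have h3 := (Subgroup.mem_normalizer_iff.mp hyN ⟨_, hzI⟩).mp (Subgroup.mem_subgroupOf.mpr hz')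
  rw [Subgroup.mem_subgroupOf] at h3
  have e : ((y * ⟨_, hzI⟩ * y⁻¹ : ↥I) : G) = z := by
    simp only [Subgroup.coe_mul, Subgroup.coe_inv]
    group
  rwa [e] at h3

theorem result {G : Type*} [Group G] [Finite G] (p : ℕ) [Fact p.Prime]
    (H : Subgroup G) (hH : IsPGroup p H) :
    {g : G | ((H).subgroupOf (H ⊔ Subgroup.zpowers g)).IsSubnormal} =
      {g : G | ∃ R : Subgroup G, H ≤ R ∧ (Cfsg.pCore p (Subgroup.normalizer (R : Set G))).map (Subgroup.normalizer (R : Set G)).subtype = R ∧ g ∈ Subgroup.normalizer (R : Set G)} ∧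
    ∀ g : G, (((H).subgroupOf (H ⊔ Subgroup.zpowers g)).IsSubnormal ↔
      (((sInf {K : Subgroup G | ∃ Q : Sylow p G, H ≤ (Q : Subgroup G) ∧ K = (Q : Subgroup G)})).subgroupOf ((sInf {K : Subgroup G | ∃ Q : Sylow p G, H ≤ (Q : Subgroup G) ∧ K = (Q : Subgroup G)}) ⊔ Subgroup.zpowers g)).IsSubnormal) := by
  have key : ∀ (X : Subgroup G) (g : G),
      (X.subgroupOf (X ⊔ Subgroup.zpowers g)).IsSubnormal ↔ RelSN X (X ⊔ Subgroup.zpowers g) :=
    fun X g => ⟨fun h => ⟨le_sup_left, h⟩, fun h => h.2⟩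
  constructor
  · ext g
    simp only [Set.mem_setOf_eq]
    rw [key, part1 p H hH g]
    rfl
  · intro g
    set Hs : Subgroup G :=
      sInf {K : Subgroup G | ∃ Q : Sylow p G, H ≤ (Q : Subgroup G) ∧ K = (Q : Subgroup G)} with hHs
    rw [key, key]
    have hHHs : H ≤ Hs := by
      apply le_sInf
      rintro K ⟨Q, hQ, rfl⟩
      exact hQ
    obtain ⟨Q₀, hQ₀⟩ := hH.exists_le_sylow
    have hHsp : IsPGroup p Hs := Q₀.isPGroup'.to_le (sInf_le ⟨Q₀, hQ₀, rfl⟩)
    constructor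
    · intro h
      obtain ⟨R, hHR, hR, hg⟩ := (part1 p H hH g).mp h
      have hRp : IsPGroup p R := hR ▸ coreIn_pgroup p _
      have h1 : Hs ≤ R := by
        refine le_trans ?_ (sInf_sylow_le_of_radical p hR)
        apply sInf_le_sInf
        rintro K ⟨Q, hQ, rfl⟩
        exact ⟨Q, hHR.trans hQ, rfl⟩
      exact relSN_of_le_pgroup p hRp h1 le_sup_left
        (sup_le (h1.trans Subgroup.le_normalizer) ((Subgroup.zpowers_le).mpr hg))
    · intro h
      have h1 : Hs ≤ coreIn p (Hs ⊔ Subgroup.zpowers g) := le_coreIn p h hHsp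
      exact relSN_of_le_pgroup p (coreIn_pgroup p _) (hHHs.trans h1) le_sup_left
        ((sup_le_sup_right hHHs _).trans (le_normalizer_coreIn p _))

end Cfsg.Agent.S4089
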