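import Cfsg.Statements.S4092

import Mathlib

set_option autoImplicit false
open Cfsg
open scoped Pointwise

namespace Cfsg.Agent.S4092

universe u

theorem key {G : Type u} [Group G] [Finite G] (p : ℕ) [Fact p.Prime] (P Q : Sylow p G) (hne : P ≠ Q)
    (hmax : ∀ R R' : Sylow p G, R ≠ R' →
      Nat.card ↥((R : Subgroup G) ⊓ R') ≤ Nat.card ↥((P : Subgroup G) ⊓ Q)) :
    p * Nat.card (P : Subgroup G) ≤ Nat.card {g : G // ∃ k : ℕ, orderOf g = p ^ k} := by
  classical
  haveI := Fintype.ofFinite G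
  have hp : p.Prime := Fact.out
  set D : Subgroup G := (P : Subgroup G) ⊓ Q with hD
  have hDP : D ≤ P := inf_le_left
  have hDQ : D ≤ Q := inf_le_right
  have hDneP : D ≠ P := by
    intro h
    have hPQ : (P : Subgroup G) ≤ Q := by rw [← h]; exact hDQ
    exact hne (Sylow.ext (P.is_maximal' Q.isPGroup' hPQ).symm)
  obtain ⟨x, hxP, hxN, hxD⟩ : ∃ x : G, x ∈ (P : Subgroup G) ∧
      x ∈ Subgroup.normalizer (D : Set G) ∧ x ∉ D := by
    haveI : Group.IsNilpotent ↥(P : Subgroup G) := P.isPGroup'.isNilpotent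
    have hlt : D.subgroupOf P < ⊤ := by
      rw [lt_top_iff_ne_top, Ne, Subgroup.subgroupOf_eq_top]
      intro h
      exact hDneP (le_antisymm hDP h)
    have := normalizerCondition_of_isNilpotent (D.subgroupOf P) hlt
    obtain ⟨y, hyN, hyD⟩ := SetLike.exists_of_lt this
    refine ⟨y, y.2, ?_, fun h => hyD (Subgroup.mem_subgroupOf.mpr h)⟩
    rw [Subgroup.mem_normalizer_iff]
    intro g
    rw [Subgroup.mem_normalizer_iff] at hyN
    constructor
    · intro hg
      have := (hyN ⟨g, hDP hg⟩).mp (Subgroup.mem_subgroupOf.mpr hg)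
      exact Subgroup.mem_subgroupOf.mp this
    · intro hg
      have hgP : g ∈ (P : Subgroup G) := by
        have h1 := hDP hg
        have : g = (y : G)⁻¹ * (y * g * (y:G)⁻¹) * y := by group
        rw [this]
        exact mul_mem (mul_mem (inv_mem y.2) h1) y.2
      have := (hyN ⟨g, hgP⟩).mpr (Subgroup.mem_subgroupOf.mpr hg)
      exact Subgroup.mem_subgroupOf.mp this
  set A : Subgroup G := Subgroup.zpowers x with hA
  have hAP : A ≤ P := (Subgroup.zpowers_le).mpr hxP
  have hApg : IsPGroup p A := P.isPGroup'.to_le hAP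
  have hAN : A ≤ Subgroup.normalizer (D : Set G) := (Subgroup.zpowers_le).mpr hxN
  have hQfix : Q ∉ MulAction.fixedPoints A (Sylow p G) := by
    intro h
    rw [hApg.sylow_mem_fixedPoints_iff] at h
    exact hxD ⟨hxP, h (Subgroup.mem_zpowers x)⟩
  set O : Set (Sylow p G) := MulAction.orbit A Q with hO
  have hOcard : p ≤ Nat.card O := by
    obtain ⟨n, hn⟩ := hApg.card_orbit Q
    rcases Nat.eq_zero_or_pos n with h0 | hpos
    · exfalso
      rw [h0, pow_zero] at hn
      apply hQfix
      rw [MulAction.mem_fixedPoints_iff_card_orbit_eq_one]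
      rw [← Nat.card_eq_fintype_card]; exact hn
    · rw [hn]; exact Nat.le_self_pow hpos.ne' p
  have hO1 : ∀ R ∈ O, D ≤ (R : Subgroup G) := by
    rintro R ⟨a, rfl⟩
    intro d hd
    have ha : (a : G)⁻¹ ∈ Subgroup.normalizer (D : Set G) := inv_mem (hAN a.2)
    have h1 : (a : G)⁻¹ * d * (a : G)⁻¹⁻¹ ∈ D := (Subgroup.mem_normalizer_iff.mp ha d).mp hd
    rw [inv_inv] at h1
    show d ∈ (((a : G) • Q : Sylow p G) : Subgroup G)
    rw [Sylow.smul_def, Sylow.pointwise_smul_def, Subgroup.mem_pointwise_smul_iff_inv_smul_mem]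
    simp only [MulAut.smul_def, MulAut.conj_inv_apply]
    exact hDQ h1
  have hO2 : ∀ R ∈ O, R ≠ P := by
    rintro R ⟨a, rfl⟩ h
    apply hne
    have h2 : (a : G) ∈ Subgroup.normalizer ((P : Subgroup G) : Set G) :=
      Subgroup.le_normalizer (hAP a.2)
    have h3 : (a : G) • P = P := Sylow.smul_eq_iff_mem_normalizer.mpr h2
    have h4 : (a : G) • Q = P := h
    have : (a : G) • Q = (a : G) • P := by rw [h4, h3]
    exact (smul_left_cancel _ this).symm
  set T : Finset (Sylow p G) := insert P O.toFinset with hT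
  have hTcard : p + 1 ≤ T.card := by
    have hnot : P ∉ O.toFinset := by
      rw [Set.mem_toFinset]
      exact fun h => hO2 P h rfl
    rw [hT, Finset.card_insert_of_notMem hnot]
    have : O.toFinset.card = Nat.card O := by rw [Set.toFinset_card, Nat.card_eq_fintype_card]
    omega
  have hT1 : ∀ R ∈ T, D ≤ (R : Subgroup G) := by
    intro R hR
    rw [hT, Finset.mem_insert] at hR
    rcases hR with rfl | hR
    · exact hDP
    · exact hO1 R (Set.mem_toFinset.mp hR)
  have hT2 : ∀ R ∈ T, ∀ R' ∈ T, R ≠ R' → ((R : Subgroup G) ⊓ R') = D := by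
    intro R hR R' hR' hRR
    symm
    apply Subgroup.eq_of_le_of_card_ge (le_inf (hT1 R hR) (hT1 R' hR'))
    exact hmax R R' hRR
  let S : Sylow p G → Finset G := fun R =>
    Finset.univ.filter (fun g => g ∈ (R : Subgroup G) ∧ g ∉ D)
  have hScard : ∀ R ∈ T, (S R).card = Nat.card (P : Subgroup G) - Nat.card D := by
    intro R hR
    have h1 : S R = (Finset.univ.filter (fun g => g ∈ (R : Subgroup G))) \
        (Finset.univ.filter (fun g => g ∈ D)) := by
      ext g; simp [S]
    have hsub : (Finset.univ.filter (fun g => g ∈ D)) ⊆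
        (Finset.univ.filter (fun g => g ∈ (R : Subgroup G))) := by
      intro g hg
      simp only [Finset.mem_filter, Finset.mem_univ, true_and] at hg ⊢
      exact hT1 R hR hg
    rw [h1, Finset.card_sdiff_of_subset hsub]
    have h2 : (Finset.univ.filter (fun g => g ∈ (R : Subgroup G))).card =
        Nat.card (R : Subgroup G) := by
      rw [Nat.card_eq_fintype_card, Fintype.card_subtype]
    have h3 : (Finset.univ.filter (fun g => g ∈ D)).card = Nat.card D := by
      rw [Nat.card_eq_fintype_card, Fintype.card_subtype]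
    rw [h2, h3, Sylow.card_eq_multiplicity R, Sylow.card_eq_multiplicity P]
  have hdisj : ∀ R ∈ T, ∀ R' ∈ T, R ≠ R' → Disjoint (S R) (S R') := by
    intro R hR R' hR' hRR
    rw [Finset.disjoint_left]
    intro g hg hg'
    simp only [S, Finset.mem_filter, Finset.mem_univ, true_and] at hg hg'
    apply hg.2
    rw [← hT2 R hR R' hR' hRR]
    exact ⟨hg.1, hg'.1⟩
  have hbU : (T.biUnion S).card = T.card * (Nat.card (P : Subgroup G) - Nat.card D) := by
    rw [Finset.card_biUnion hdisj, Finset.sum_const_nat hScard]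
  set Dset : Finset G := Finset.univ.filter (fun g => g ∈ D) with hDset
  set U : Finset G := Finset.univ.filter (fun g => ∃ k : ℕ, orderOf g = p ^ k) with hU
  have hUcard : Nat.card {g : G // ∃ k : ℕ, orderOf g = p ^ k} = U.card := by
    rw [Nat.card_eq_fintype_card, Fintype.card_subtype]
  have hsub : Dset ∪ T.biUnion S ⊆ U := by
    intro g hg
    simp only [Finset.mem_union, Finset.mem_biUnion, Dset, S, U, Finset.mem_filter,
      Finset.mem_univ, true_and] at hg ⊢
    have hgP : ∃ R : Sylow p G, g ∈ (R : Subgroup G) := by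
      rcases hg with hg | ⟨R, _, hg, _⟩
      · exact ⟨P, hDP hg⟩
      · exact ⟨R, hg⟩
    obtain ⟨R, hgR⟩ := hgP
    obtain ⟨k, hk⟩ := (IsPGroup.iff_orderOf.mp R.isPGroup') ⟨g, hgR⟩
    exact ⟨k, by rw [← hk, Subgroup.orderOf_mk]⟩
  have hdisj2 : Disjoint Dset (T.biUnion S) := by
    rw [Finset.disjoint_left]
    intro g hg hg'
    simp only [Finset.mem_biUnion, Dset, S, Finset.mem_filter, Finset.mem_univ, true_and] at hg hg'
    obtain ⟨R, _, _, h⟩ := hg'
    exact h hg
  have hcard := Finset.card_le_card hsub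
  rw [Finset.card_union_of_disjoint hdisj2, hbU] at hcard
  have hDcard : Dset.card = Nat.card D := by rw [Nat.card_eq_fintype_card, Fintype.card_subtype]
  have hDle : Nat.card D ≤ Nat.card (P : Subgroup G) := Subgroup.card_le_of_le hDP
  have hpD : p * Nat.card D ≤ Nat.card (P : Subgroup G) := by
    obtain ⟨m, hm⟩ := (P.isPGroup'.to_le hDP).exists_card_eq
    obtain ⟨n, hn⟩ := P.isPGroup'.exists_card_eq
    have hneq : Nat.card D ≠ Nat.card (P : Subgroup G) := by
      intro h
      exact hDneP (Subgroup.eq_of_le_of_card_ge hDP h.ge)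
    rw [hm, hn] at hneq hDle ⊢
    have hmn : m < n := by
      have h1 : m ≤ n := (Nat.pow_le_pow_iff_right hp.one_lt).mp hDle
      rcases h1.lt_or_eq with h | h
      · exact h
      · exact absurd (by rw [h]) hneq
    calc p * p ^ m = p ^ (m + 1) := by ring
      _ ≤ p ^ n := Nat.pow_le_pow_right hp.pos hmn
  rw [hUcard]
  obtain ⟨e, he⟩ := Nat.exists_eq_add_of_le hDle
  have hsubd : Nat.card (P : Subgroup G) - Nat.card D = e := by omega
  rw [hsubd, hDcard] at hcard
  have h5 : (p + 1) * e ≤ T.card * e := Nat.mul_le_mul_right e hTcard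
  nlinarith

theorem result {G : Type*} [Group G] [Finite G] (p : ℕ) [Fact p.Prime]
    (P : Sylow p G) (hP : ¬ (P : Subgroup G).Normal) :
    p * Nat.card (P : Subgroup G) ≤ Nat.card {g : G // ∃ k : ℕ, orderOf g = p ^ k} := by
  classical
  have hex : ∃ Q : Sylow p G, Q ≠ P := by
    by_contra h
    push_neg at h
    apply hP
    haveI : Subsingleton (Sylow p G) := ⟨fun a b => (h a).trans (h b).symm⟩
    exact Sylow.normal_of_subsingleton P
  obtain ⟨Q, hQ⟩ := hex
  haveI : Nonempty {pq : Sylow p G × Sylow p G // pq.1 ≠ pq.2} := ⟨⟨(P, Q), hQ.symm⟩⟩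
  obtain ⟨⟨⟨P₁, Q₁⟩, h1⟩, hmax⟩ := Finite.exists_max
    (fun pq : {pq : Sylow p G × Sylow p G // pq.1 ≠ pq.2} =>
      Nat.card ↥((pq.1.1 : Subgroup G) ⊓ pq.1.2))
  have := key p P₁ Q₁ h1 (fun R R' hRR => hmax ⟨(R, R'), hRR⟩)
  rwa [Sylow.card_eq_multiplicity P₁, ← Sylow.card_eq_multiplicity P] at this

end Cfsg.Agent.S4092
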