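import Cfsg.Statements.S4116

import Mathlib

set_option autoImplicit false
open Cfsg
open scoped Pointwise

namespace Cfsg.Agent.S4116

theorem ti_norm {G : Type*} [Group G] (H : Subgroup G) (hTI : Cfsg.IsTISubset (H : Set G))
    (x g : G) (hx : x ∈ H) (hx1 : x ≠ 1) (hg : g * x * g⁻¹ ∈ H) :
    g ∈ Subgroup.normalizer (H : Set G) := by
  by_contra h
  exact hx1 (hTI g h x hx hg)

theorem mem_of_normalizer {G : Type*} [Group G] [Finite G] (H : Subgroup G)
    (hHall : (Nat.card H).Coprime H.index) (n : G)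
    (hn : n ∈ Subgroup.normalizer (H : Set G))
    (hπ : ∀ q : ℕ, q.Prime → q ∣ orderOf n → q ∣ Nat.card H) : n ∈ H := by
  have hcop0 : (orderOf n).Coprime H.index := by
    apply Nat.coprime_of_dvd
    intro q hq h1 h2
    have := Nat.dvd_gcd (hπ q hq h1) h2
    rw [hHall.gcd_eq_one] at this
    exact hq.not_dvd_one this
  have hcop : (H.relIndex (Subgroup.normalizer (H : Set G))).Coprime (orderOf n) :=
    (Nat.Coprime.coprime_dvd_right (Subgroup.relIndex_dvd_index_of_le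
      (Subgroup.le_normalizer)) hcop0).symm
  have hN : (H.subgroupOf (Subgroup.normalizer (H : Set G))).Normal :=
    Subgroup.normal_in_normalizer
  have h1 := Subgroup.pow_index_mem (H.subgroupOf (Subgroup.normalizer (H : Set G))) ⟨n, hn⟩
  have h2 : n ^ (H.relIndex (Subgroup.normalizer (H : Set G))) ∈ H := by
    simpa [Subgroup.mem_subgroupOf, Subgroup.relIndex] using h1
  obtain ⟨m, hm⟩ := exists_pow_eq_self_of_coprime hcop
  rw [← hm]
  exact H.pow_mem h2 m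

theorem conj_prime {G : Type*} [Group G] [Finite G] (H : Subgroup G) (p : ℕ) [Fact p.Prime]
    (hp : ¬ p ∣ H.index) (y : G) (hy : orderOf y = p) : ∃ g : G, g⁻¹ * y * g ∈ H := by
  have hP : IsPGroup p (Subgroup.zpowers y) := by
    apply IsPGroup.of_card (n := 1)
    rw [Nat.card_zpowers, hy, pow_one]
  have hne := hP.nonempty_fixed_point_of_prime_not_dvd_card (G ⧸ H)
    (by rwa [← Subgroup.index_eq_card])
  obtain ⟨q, hq⟩ := hne
  induction q using QuotientGroup.induction_on with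
  | H g =>
    refine ⟨g, ?_⟩
    have h1 := hq ⟨y, Subgroup.mem_zpowers y⟩
    have h2 : ((y * g : G) : G ⧸ H) = (g : G ⧸ H) := h1
    rw [QuotientGroup.eq] at h2
    have h3 := H.inv_mem h2
    have e : ((y * g)⁻¹ * g)⁻¹ = g⁻¹ * y * g := by group
    rwa [e] at h3

theorem cover {G : Type*} [Group G] [Finite G] (H : Subgroup G)
    (hHall : (Nat.card H).Coprime H.index) (hTI : Cfsg.IsTISubset (H : Set G))
    (k : G) (hk1 : k ≠ 1) (hπ : ∀ q : ℕ, q.Prime → q ∣ orderOf k → q ∣ Nat.card H) :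
    ∃ g : G, g⁻¹ * k * g ∈ H := by
  have hord : orderOf k ≠ 1 := by rwa [Ne, orderOf_eq_one_iff]
  obtain ⟨p, hp, hpk⟩ := Nat.exists_prime_and_dvd hord
  have : Fact p.Prime := ⟨hp⟩
  have hpH : ¬ p ∣ H.index := fun h => hp.not_dvd_one (by
    have := Nat.dvd_gcd (hπ p hp hpk) h
    rwa [hHall.gcd_eq_one] at this)
  have hy : orderOf (k ^ (orderOf k / p)) = p :=
    orderOf_pow_orderOf_div (orderOf_pos k).ne' hpk
  obtain ⟨g, hg⟩ := conj_prime H p hpH _ hy
  refine ⟨g, ?_⟩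
  have hcomm : k * (k ^ (orderOf k / p)) * k⁻¹ = k ^ (orderOf k / p) := by
    rw [← pow_succ', pow_succ, mul_inv_cancel_right]
  generalize k ^ (orderOf k / p) = y at hy hg hcomm
  have hy1 : y ≠ 1 := by
    rintro rfl
    rw [orderOf_one] at hy
    exact hp.one_lt.ne hy
  apply mem_of_normalizer H hHall
  · apply ti_norm H hTI (g⁻¹ * y * g) _ hg
    · intro h
      apply hy1
      have := congrArg (fun z => g * z * g⁻¹) h
      simpa [mul_assoc] using this
    · have e : g⁻¹ * k * g * (g⁻¹ * y * g) * (g⁻¹ * k * g)⁻¹ = g⁻¹ * (k * y * k⁻¹) * g := by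
        group
      rw [e, hcomm]
      exact hg
  · intro q hq hqd
    apply hπ q hq
    have e : orderOf (g⁻¹ * k * g) = orderOf k := by
      have := orderOf_injective (MulAut.conj g⁻¹).toMonoidHom (MulEquiv.injective _) k
      simpa using this
    rwa [e] at hqd

theorem count {G : Type*} [Group G] [Finite G] (H K : Subgroup G)
    (hTI : Cfsg.IsTISubset (H : Set G))
    (hN : ∀ n ∈ K, ∀ g : G, g⁻¹ * n * g ∈ Subgroup.normalizer (H : Set G) → g⁻¹ * n * g ∈ H)
    (g : G) :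
    ({k : G | k ∈ K ∧ k ≠ 1 ∧ ∃ x ∈ K, (x * g)⁻¹ * k * (x * g) ∈ H}).ncard *
        ({k : G | k ∈ K ∧ g⁻¹ * k * g ∈ H}).ncard
      = Nat.card K * (({k : G | k ∈ K ∧ g⁻¹ * k * g ∈ H}).ncard - 1) := by
  classical
  set T : Set G := {k : G | k ∈ K ∧ k ≠ 1 ∧ ∃ x ∈ K, (x * g)⁻¹ * k * (x * g) ∈ H} with hT
  set B : Set G := {k : G | k ∈ K ∧ g⁻¹ * k * g ∈ H} with hB
  have h1B : (1 : G) ∈ B := ⟨K.one_mem, by simp⟩
  have hex : ∀ k, k ∈ T → ∃ x, x ∈ K ∧ (x * g)⁻¹ * k * (x * g) ∈ H := fun k hk => hk.2.2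
  choose! r hr using hex
  have key : (T ×ˢ B).ncard = ((K : Set G) ×ˢ (B \ {1})).ncard := by
    apply Set.ncard_congr
      (fun (a : G × G) _ => (r a.1 * a.2, (r a.1 * a.2)⁻¹ * a.1 * (r a.1 * a.2)))
    · rintro ⟨k, y⟩ ⟨hk, hy⟩
      obtain ⟨hrK, hrH⟩ := hr k hk
      refine ⟨K.mul_mem hrK hy.1, ⟨?_, ?_⟩, ?_⟩
      · exact K.mul_mem (K.mul_mem (K.inv_mem (K.mul_mem hrK hy.1)) hk.1) (K.mul_mem hrK hy.1)
      · have e : g⁻¹ * ((r k * y)⁻¹ * k * (r k * y)) * g
            = (g⁻¹ * y * g)⁻¹ * ((r k * g)⁻¹ * k * (r k * g)) * (g⁻¹ * y * g) := by group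
        show g⁻¹ * ((r k * y)⁻¹ * k * (r k * y)) * g ∈ H
        rw [e]
        exact H.mul_mem (H.mul_mem (H.inv_mem hy.2) hrH) hy.2
      · intro h
        apply hk.2.1
        have h' : (r k * y)⁻¹ * k * (r k * y) = 1 := h
        have := congrArg (fun z => (r k * y) * z * (r k * y)⁻¹) h'
        simpa [mul_assoc] using this
    · rintro ⟨k, y⟩ ⟨k', y'⟩ ⟨hk, hy⟩ ⟨hk', hy'⟩ h
      simp only [Prod.mk.injEq] at h
      obtain ⟨h1, h2⟩ := h
      have hkk : k = k' := by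
        rw [h1] at h2
        simpa using h2
      subst hkk
      have : y = y' := mul_left_cancel h1
      rw [this]
    · rintro ⟨x, h⟩ ⟨hx, hh, hh1⟩
      have hh1' : h ≠ 1 := hh1
      have hkT : x * h * x⁻¹ ∈ T := by
        refine ⟨K.mul_mem (K.mul_mem hx hh.1) (K.inv_mem hx), ?_, x, hx, ?_⟩
        · intro h0
          apply hh1'
          have := congrArg (fun z => x⁻¹ * z * x) h0
          simpa [mul_assoc] using this
        · have e : (x * g)⁻¹ * (x * h * x⁻¹) * (x * g) = g⁻¹ * h * g := by group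
          rw [e]
          exact hh.2
      obtain ⟨hrK, hrH⟩ := hr _ hkT
      generalize hkdef : x * h * x⁻¹ = k at hkT hrK hrH
      have hyB : (r k)⁻¹ * x ∈ B := by
        refine ⟨K.mul_mem (K.inv_mem hrK) hx, ?_⟩
        have hnorm : g⁻¹ * ((r k)⁻¹ * x) * g ∈ Subgroup.normalizer (H : Set G) := by
          apply ti_norm H hTI (g⁻¹ * h * g) _ hh.2
          · intro h0
            apply hh1'
            have := congrArg (fun z => g * z * g⁻¹) h0
            simpa [mul_assoc] using this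
          · have e : g⁻¹ * ((r k)⁻¹ * x) * g * (g⁻¹ * h * g) * (g⁻¹ * ((r k)⁻¹ * x) * g)⁻¹
                = (r k * g)⁻¹ * (x * h * x⁻¹) * (r k * g) := by
              group
            rw [e, hkdef]
            exact hrH
        exact hN _ (K.mul_mem (K.inv_mem hrK) hx) g hnorm
      refine ⟨(k, (r k)⁻¹ * x), ⟨hkT, hyB⟩, ?_⟩
      have e1 : r k * ((r k)⁻¹ * x) = x := by group
      simp only [e1, Prod.mk.injEq, true_and]
      rw [← hkdef]
      group
  rw [Set.ncard_prod, Set.ncard_prod, Set.ncard_sdiff_singleton_of_mem h1B] at key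
  rw [key]
  congr 1

theorem result {G : Type*} [Group G] [Finite G] (H : Subgroup G)
    (hHall : (Nat.card H).Coprime H.index) (hTI : Cfsg.IsTISubset (H : Set G))
    (K : Subgroup G) (hK : ∀ q : ℕ, q.Prime → q ∣ Nat.card K → q ∣ Nat.card H) :
    ∃ g : G, K ≤ H.map (MulAut.conj g).toMonoidHom := by
  classical
  by_contra hcon
  push_neg at hcon
  have hmem : ∀ (g y : G), y ∈ H.map (MulAut.conj g).toMonoidHom ↔ g⁻¹ * y * g ∈ H := by
    intro g y
    constructor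
    · rintro ⟨x, hx, rfl⟩
      simpa [mul_assoc] using hx
    · intro h
      exact ⟨g⁻¹ * y * g, h, by simp [mul_assoc]⟩
  have hKπ : ∀ k ∈ K, ∀ q : ℕ, q.Prime → q ∣ orderOf k → q ∣ Nat.card H := by
    intro k hk q hq hqk
    exact hK q hq (hqk.trans (Subgroup.orderOf_dvd_natCard K hk))
  have hcov : ∀ k ∈ K, k ≠ 1 → ∃ g : G, g⁻¹ * k * g ∈ H :=
    fun k hk hk1 => cover H hHall hTI k hk1 (hKπ k hk)
  have hN : ∀ n ∈ K, ∀ g : G, g⁻¹ * n * g ∈ Subgroup.normalizer (H : Set G) →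
      g⁻¹ * n * g ∈ H := by
    intro n hn g hg
    apply mem_of_normalizer H hHall _ hg
    intro q hq hqd
    apply hKπ n hn q hq
    have e : orderOf (g⁻¹ * n * g) = orderOf n := by
      have := orderOf_injective (MulAut.conj g⁻¹).toMonoidHom (MulEquiv.injective _) n
      simpa using this
    rwa [e] at hqd
  have hcount := count H K hTI hN
  set B : G → Set G := fun g => {k : G | k ∈ K ∧ g⁻¹ * k * g ∈ H} with hBdef
  set T : G → Set G :=
    fun g => {k : G | k ∈ K ∧ k ≠ 1 ∧ ∃ x ∈ K, (x * g)⁻¹ * k * (x * g) ∈ H} with hTdef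
  have hcount' : ∀ g, (T g).ncard * (B g).ncard = Nat.card K * ((B g).ncard - 1) := hcount
  have hKcard : (K : Set G).ncard = Nat.card K := (Nat.card_coe_set_eq (K : Set G)).symm
  have hKpos : 0 < Nat.card K := Nat.card_pos
  have hBlt : ∀ g, (B g).ncard < Nat.card K := by
    intro g
    have hss : B g ⊂ (K : Set G) := by
      refine ⟨fun k hk => hk.1, fun h => hcon g ?_⟩
      intro k hk
      rw [hmem]
      exact (h hk).2
    have := Set.ncard_lt_ncard hss
    rwa [hKcard] at this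
  have hK1card : ((K : Set G) \ {1}).ncard = Nat.card K - 1 := by
    rw [Set.ncard_sdiff_singleton_of_mem K.one_mem, hKcard]
  have hB2 : ∀ g k, k ∈ K → k ≠ 1 → g⁻¹ * k * g ∈ H → 2 ≤ (B g).ncard := by
    intro g k hk hk1 hg
    have hsub : ({1, k} : Set G) ⊆ B g := by
      intro z hz
      rcases hz with rfl | rfl
      · exact ⟨K.one_mem, by simp⟩
      · exact ⟨hk, hg⟩
    calc 2 = ({1, k} : Set G).ncard := (Set.ncard_pair (Ne.symm hk1)).symm
      _ ≤ _ := Set.ncard_le_ncard hsub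
  have hTlt : ∀ g, 2 ≤ (B g).ncard →
      (T g).ncard < Nat.card K - 1 ∧ Nat.card K ≤ 2 * (T g).ncard := by
    intro g h2
    have e := hcount' g
    have hlt := hBlt g
    obtain ⟨c, hc⟩ : ∃ c, (B g).ncard = c + 2 := ⟨(B g).ncard - 2, by omega⟩
    rw [hc] at e hlt
    have e' : (T g).ncard * (c + 2) = Nat.card K * (c + 1) := e
    constructor
    · by_contra hge
      have hge' : Nat.card K ≤ (T g).ncard + 1 := by omega
      have h3 : Nat.card K * (c + 2) ≤ ((T g).ncard + 1) * (c + 2) :=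
        Nat.mul_le_mul_right _ hge'
      nlinarith
    · by_contra hlt2
      have hlt' : 2 * (T g).ncard + 1 ≤ Nat.card K := by omega
      have h3 : (2 * (T g).ncard + 1) * (c + 2) ≤ Nat.card K * (c + 2) :=
        Nat.mul_le_mul_right _ hlt'
      nlinarith
  have hK1 : ∃ k ∈ K, k ≠ 1 := by
    by_contra h
    push_neg at h
    apply hcon 1
    intro k hk
    rw [h k hk]
    exact Subgroup.one_mem _
  obtain ⟨k₀, hk₀, hk₀1⟩ := hK1
  obtain ⟨g₁, hg₁⟩ := hcov k₀ hk₀ hk₀1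
  obtain ⟨hlt1, hge1⟩ := hTlt g₁ (hB2 g₁ k₀ hk₀ hk₀1 hg₁)
  have hex2 : ∃ k₂ ∈ (K : Set G) \ {1}, k₂ ∉ T g₁ := by
    by_contra h
    push_neg at h
    have hsub : (K : Set G) \ {1} ⊆ T g₁ := h
    have := Set.ncard_le_ncard hsub
    rw [hK1card] at this
    omega
  obtain ⟨k₂, ⟨hk₂, hk₂1⟩, hk₂T⟩ := hex2
  have hk₂1' : k₂ ≠ 1 := hk₂1
  obtain ⟨g₂, hg₂⟩ := hcov k₂ hk₂ hk₂1'
  obtain ⟨hlt2, hge2⟩ := hTlt g₂ (hB2 g₂ k₂ hk₂ hk₂1' hg₂)
  have hdisj : Disjoint (T g₁) (T g₂) := by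
    rw [Set.disjoint_left]
    rintro k ⟨hk, hk1, x, hx, hxH⟩ ⟨-, -, x', hx', hx'H⟩
    apply hk₂T
    refine ⟨hk₂, hk₂1', x'⁻¹ * x, K.mul_mem (K.inv_mem hx') hx, ?_⟩
    have hn : (x * g₁)⁻¹ * (x' * g₂) ∈ Subgroup.normalizer (H : Set G) := by
      apply ti_norm H hTI ((x' * g₂)⁻¹ * k * (x' * g₂)) _ hx'H
      · intro h0
        apply hk1
        have := congrArg (fun z => (x' * g₂) * z * (x' * g₂)⁻¹) h0
        simpa [mul_assoc] using this
      · have e : (x * g₁)⁻¹ * (x' * g₂) * ((x' * g₂)⁻¹ * k * (x' * g₂)) *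
            ((x * g₁)⁻¹ * (x' * g₂))⁻¹ = (x * g₁)⁻¹ * k * (x * g₁) := by group
        rw [e]
        exact hxH
    have h4 := (Subgroup.mem_normalizer_iff.mp hn (g₂⁻¹ * k₂ * g₂)).mp hg₂
    have e : (x * g₁)⁻¹ * (x' * g₂) * (g₂⁻¹ * k₂ * g₂) * ((x * g₁)⁻¹ * (x' * g₂))⁻¹
        = (x'⁻¹ * x * g₁)⁻¹ * k₂ * (x'⁻¹ * x * g₁) := by group
    rw [e] at h4
    exact h4
  have hunion : (T g₁ ∪ T g₂).ncard = (T g₁).ncard + (T g₂).ncard := Set.ncard_union_eq hdisj
  have hsubU : T g₁ ∪ T g₂ ⊆ (K : Set G) \ {1} := by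
    intro k hk
    rcases hk with hk | hk
    · exact ⟨hk.1, hk.2.1⟩
    · exact ⟨hk.1, hk.2.1⟩
  have := Set.ncard_le_ncard hsubU
  rw [hK1card, hunion] at this
  omega

end Cfsg.Agent.S4116
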