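import Cfsg.Statements.S4126

import Mathlib
import Cfsg.Agent.S0006
import Cfsg.Agent.Lib.Helper1.Frob

set_option autoImplicit false
open Cfsg
open scoped Pointwise

namespace Cfsg.Agent.S4126

universe u
open Subgroup
open scoped commutatorElement

section
variable {G : Type u} [Group G]

lemma pow_mul_c2 (x y c : G) (hyx : y * x = c * x * y) (hcy : Commute c y) (n : ℕ) :
    y ^ n * x = c ^ n * x * y ^ n := by
  induction n with
  | zero => simp
  | succ n ih =>
    calc y ^ (n + 1) * x = y * (y ^ n * x) := by rw [pow_succ']; group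
      _ = y * (c ^ n * x * y ^ n) := by rw [ih]
      _ = (y * c ^ n) * x * y ^ n := by group
      _ = (c ^ n * y) * x * y ^ n := by rw [(hcy.pow_left n).eq]
      _ = c ^ n * (y * x) * y ^ n := by group
      _ = c ^ n * (c * x * y) * y ^ n := by rw [hyx]
      _ = c ^ (n + 1) * x * y ^ (n + 1) := by rw [pow_succ c, pow_succ' y]; group

lemma mul_pow_c2 (x y c : G) (hyx : y * x = c * x * y) (hcx : Commute c x) (hcy : Commute c y)
    (n : ℕ) : (x * y) ^ n = c ^ (n.choose 2) * x ^ n * y ^ n := by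
  induction n with
  | zero => simp
  | succ n ih =>
    have hch : (n + 1).choose 2 = n.choose 2 + n := by
      rw [Nat.choose_succ_succ, Nat.choose_one_right, add_comm]
    calc (x * y) ^ (n + 1) = (x * y) ^ n * (x * y) := pow_succ _ _
      _ = c ^ (n.choose 2) * x ^ n * y ^ n * (x * y) := by rw [ih]
      _ = c ^ (n.choose 2) * x ^ n * (y ^ n * x) * y := by group
      _ = c ^ (n.choose 2) * x ^ n * (c ^ n * x * y ^ n) * y := by rw [pow_mul_c2 x y c hyx hcy n]
      _ = c ^ (n.choose 2) * (x ^ n * c ^ n) * x * y ^ n * y := by group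
      _ = c ^ (n.choose 2) * (c ^ n * x ^ n) * x * y ^ n * y := by rw [(hcx.pow_pow n n).eq]
      _ = c ^ ((n + 1).choose 2) * x ^ (n + 1) * y ^ (n + 1) := by
        rw [hch, pow_add, pow_succ x, pow_succ y]; group

lemma twist (g x c : G) (hc : Commute c g) (h : g * x = x * g * c)
    (hcop : (orderOf c).Coprime (orderOf g)) : g * x = x * g := by
  have hk : ∀ k : ℕ, g ^ k * x = x * g ^ k * c ^ k := by
    intro k
    induction k with
    | zero => simp
    | succ k ih =>
      calc g ^ (k + 1) * x = g * (g ^ k * x) := by rw [pow_succ']; group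
        _ = g * (x * g ^ k * c ^ k) := by rw [ih]
        _ = (g * x) * (g ^ k * c ^ k) := by group
        _ = (x * g * c) * (g ^ k * c ^ k) := by rw [h]
        _ = x * g * (c * g ^ k) * c ^ k := by group
        _ = x * g * (g ^ k * c) * c ^ k := by rw [(hc.pow_right k).eq]
        _ = x * g ^ (k + 1) * c ^ (k + 1) := by rw [pow_succ' g, pow_succ' c]; group
  have h1 := hk (orderOf g)
  rw [pow_orderOf_eq_one, one_mul, mul_one] at h1
  have h2 : c ^ orderOf g = 1 := by
    have : x * 1 = x * c ^ orderOf g := by rw [mul_one]; exact h1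
    exact (mul_left_cancel this).symm
  have h3 : orderOf c ∣ orderOf g := orderOf_dvd_of_pow_eq_one h2
  have h4 : orderOf c = 1 := Nat.Coprime.eq_one_of_dvd hcop h3
  rw [orderOf_eq_one_iff] at h4
  rw [h, h4, mul_one]

lemma coprime_of_mem {p : ℕ} (P₁ : Subgroup G) (hP₁ : IsPGroup p P₁) (c g : G)
    (hc : c ∈ P₁) (hg : (orderOf g).Coprime p) : (orderOf c).Coprime (orderOf g) := by
  obtain ⟨k, hk⟩ := hP₁ ⟨c, hc⟩
  have h1 : c ^ p ^ k = 1 := by
    have := congrArg Subtype.val hk
    simpa using this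
  have h2 : orderOf c ∣ p ^ k := orderOf_dvd_of_pow_eq_one h1
  exact Nat.Coprime.coprime_dvd_left h2 (Nat.Coprime.pow_left k hg.symm)

lemma central_of_commute_sylow [Finite G] {p : ℕ} [Fact p.Prime] (P : Sylow p G) (x : G)
    (hx : ∃ a : ℕ, (centralizer ({x} : Set G)).index = p ^ a)
    (hP : ∀ u ∈ (P : Subgroup G), u * x = x * u) : x ∈ center G := by
  obtain ⟨a, ha⟩ := hx
  have hle : (P : Subgroup G) ≤ centralizer ({x} : Set G) := by
    intro u hu
    rw [mem_centralizer_iff]
    intro h hh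
    rw [Set.mem_singleton_iff.mp hh]
    exact (hP u hu).symm
  have hdvd : (centralizer ({x} : Set G)).index ∣ (P : Subgroup G).index := index_dvd_of_le hle
  have hnd : ¬ p ∣ (P : Subgroup G).index := P.not_dvd_index
  have ha0 : a = 0 := by
    by_contra h0
    apply hnd
    have : p ∣ p ^ a := dvd_pow_self p h0
    rw [← ha] at this
    exact this.trans hdvd
  rw [ha0, pow_zero, index_eq_one] at ha
  rw [mem_center_iff]
  intro g
  have : g ∈ centralizer ({x} : Set G) := ha ▸ mem_top g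
  rw [mem_centralizer_iff] at this
  exact (this x (Set.mem_singleton x)).symm

lemma inf_center_ne_bot [Finite G] {p : ℕ} [Fact p.Prime] (M : Subgroup G) [M.Normal]
    (hM : IsPGroup p M) (hne : M ≠ ⊥)
    (hcls : ∀ x ∈ M, ∃ a : ℕ, (centralizer ({x} : Set G)).index = p ^ a) :
    M ⊓ center G ≠ ⊥ := by
  obtain ⟨P, hMP⟩ := hM.exists_le_sylow
  letI : MulAction (P : Subgroup G) M :=
    MulAction.compHom M ((MulAut.conjNormal (H := M)).comp (P : Subgroup G).subtype)
  have hsmul : ∀ (u : (P : Subgroup G)) (m : M), ((u • m : M) : G) = (u : G) * m * (u : G)⁻¹ := by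
    intro u m; rfl
  have hpM : p ∣ Nat.card M := by
    obtain ⟨n, hn⟩ := IsPGroup.iff_card.mp hM
    have : n ≠ 0 := by
      rintro rfl
      rw [pow_zero] at hn
      exact hne (Subgroup.card_eq_one.mp hn)
    rw [hn]; exact dvd_pow_self p this
  have h1 : (1 : M) ∈ MulAction.fixedPoints (P : Subgroup G) M := by
    intro u
    apply Subtype.ext
    rw [hsmul]; simp
  obtain ⟨b, hb, hb1⟩ := P.2.exists_fixed_point_of_prime_dvd_card_of_fixed_point M hpM h1
  have hbc : (b : G) ∈ center G := by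
    apply central_of_commute_sylow P (b : G) (hcls b b.2)
    intro u hu
    have := hb ⟨u, hu⟩
    have h2 := congrArg (Subtype.val) this
    rw [hsmul] at h2
    calc u * b = u * b * u⁻¹ * u := by group
      _ = b * u := by rw [h2]
  intro hbot
  have : (b : G) ∈ M ⊓ center G := mem_inf.mpr ⟨b.2, hbc⟩
  rw [hbot, mem_bot] at this
  exact hb1 (Subtype.ext this.symm)

end

theorem T1 {p : ℕ} [Fact p.Prime] : ∀ (n : ℕ) (G : Type u) [Group G] [Finite G], Nat.card G = n →
    ∀ (M : Subgroup G) [M.Normal], IsPGroup p M →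
    (∀ x ∈ M, ∃ a : ℕ, (centralizer ({x} : Set G)).index = p ^ a) →
    ∀ g : G, (orderOf g).Coprime p → ∀ x ∈ M, g * x = x * g := by
  intro n
  induction n using Nat.strong_induction_on with
  | _ n ih =>
    intro G _ _ hn M _ hM hcls g hg x hx
    have hp : p.Prime := Fact.out
    by_cases hMbot : M = ⊥
    · rw [hMbot, mem_bot] at hx
      rw [hx]; simp
    · have hC := inf_center_ne_bot M hM hMbot hcls
      obtain ⟨C, hCdef⟩ : ∃ C : Subgroup G, C = M ⊓ center G := ⟨_, rfl⟩
      haveI : C.Normal := by rw [hCdef]; infer_instance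
      have hlt : Nat.card (G ⧸ C) < n := by
        have h1 : 1 < Nat.card C := C.one_lt_card_iff_ne_bot.mpr (hCdef ▸ hC)
        have h2 := C.card_mul_index
        have h3 : 0 < C.index := Nat.pos_of_ne_zero Subgroup.index_ne_zero_of_finite
        rw [← Subgroup.index_eq_card, ← hn]
        nlinarith
      haveI : (M.map (QuotientGroup.mk' C)).Normal :=
        Subgroup.Normal.map ‹M.Normal› (QuotientGroup.mk' C) (QuotientGroup.mk'_surjective C)
      have hcls' : ∀ y ∈ M.map (QuotientGroup.mk' C), ∃ b : ℕ,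
          (centralizer ({y} : Set (G ⧸ C))).index = p ^ b := by
        rintro _ ⟨x', hx', rfl⟩
        obtain ⟨a, ha⟩ := hcls x' hx'
        have hle : (centralizer ({x'} : Set G)).map (QuotientGroup.mk' C)
            ≤ centralizer ({QuotientGroup.mk' C x'} : Set (G ⧸ C)) := by
          rintro _ ⟨c, hc0, rfl⟩
          have hc : c ∈ centralizer ({x'} : Set G) := hc0
          rw [mem_centralizer_iff] at hc ⊢
          intro h hh
          rw [Set.mem_singleton_iff] at hh
          rw [hh, ← map_mul, ← map_mul, hc x' (Set.mem_singleton x')]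
        have hd1 := index_dvd_of_le hle
        have hd2 : ((centralizer ({x'} : Set G)).map (QuotientGroup.mk' C)).index
            ∣ (centralizer ({x'} : Set G)).index :=
          index_map_dvd _ (QuotientGroup.mk'_surjective C)
        rw [ha] at hd2
        obtain ⟨b, -, hb⟩ := (Nat.dvd_prime_pow hp).mp (hd1.trans hd2)
        exact ⟨b, hb⟩
      have hg' : (orderOf (QuotientGroup.mk' C g)).Coprime p :=
        Nat.Coprime.coprime_dvd_left (orderOf_map_dvd _ g) hg
      have key := ih _ hlt (G ⧸ C) rfl (M.map (QuotientGroup.mk' C)) (hM.map _) hcls'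
        (QuotientGroup.mk' C g) hg' (QuotientGroup.mk' C x) (mem_map_of_mem _ hx)
      rw [← map_mul, ← map_mul] at key
      have hcC : (x * g)⁻¹ * (g * x) ∈ C := QuotientGroup.eq.mp key.symm
      have hcM : (x * g)⁻¹ * (g * x) ∈ M := by rw [hCdef] at hcC; exact (mem_inf.mp hcC).1
      have hcZ : (x * g)⁻¹ * (g * x) ∈ center G := by rw [hCdef] at hcC; exact (mem_inf.mp hcC).2
      exact twist g x _ ((commute_iff_eq _ _).mpr ((mem_center_iff.mp hcZ) g).symm) (by group)
        (coprime_of_mem M hM _ g hcM hg)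

section
variable {G : Type u} [Group G]

lemma conj_mem_sylow [Finite G] {p : ℕ} [Fact p.Prime] (P : Sylow p G) (x : G)
    (hx : x ∈ (P : Subgroup G)) (a : ℕ) (ha : (centralizer ({x} : Set G)).index = p ^ a) (h : G) :
    h * x * h⁻¹ ∈ (P : Subgroup G) := by
  have hcop : ((P : Subgroup G).index).Coprime (centralizer ({x} : Set G)).index := by
    rw [ha]
    exact Nat.Coprime.pow_right a
      ((Nat.Prime.coprime_iff_not_dvd Fact.out).mpr P.not_dvd_index).symm
  obtain ⟨u, hu, c, hc, rfl⟩ := Cfsg.Agent.S0006.exists_mul_of_coprime_index _ _ hcop h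
  have hcx : c * x = x * c := by
    rw [mem_centralizer_iff] at hc
    exact (hc x (Set.mem_singleton x)).symm
  have : u * c * x * (u * c)⁻¹ = u * x * u⁻¹ := by
    calc u * c * x * (u * c)⁻¹ = u * (c * x) * c⁻¹ * u⁻¹ := by group
      _ = u * (x * c) * c⁻¹ * u⁻¹ := by rw [hcx]
      _ = u * x * u⁻¹ := by group
  rw [this]
  exact (P : Subgroup G).mul_mem ((P : Subgroup G).mul_mem hu hx) ((P : Subgroup G).inv_mem hu)

lemma normal_inf_centralizer (P₁ : Subgroup G) [hP₁ : P₁.Normal] (S : Set G)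
    (hS : ∀ s ∈ S, ∀ h : G, h * s * h⁻¹ ∈ S) : (P₁ ⊓ centralizer S).Normal := by
  constructor
  intro x hx h
  rw [mem_inf] at hx ⊢
  refine ⟨hP₁.conj_mem x hx.1 h, ?_⟩
  rw [mem_centralizer_iff]
  intro s hs
  have h1 := (mem_centralizer_iff.mp hx.2) (h⁻¹ * s * h) (by simpa using hS s hs h⁻¹)
  calc s * (h * x * h⁻¹) = h * ((h⁻¹ * s * h) * x) * h⁻¹ := by group
    _ = h * (x * (h⁻¹ * s * h)) * h⁻¹ := by rw [h1]
    _ = h * x * h⁻¹ * s := by group

end

section
variable {G : Type u} [Group G]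

theorem T2 [Finite G] {p : ℕ} [Fact p.Prime] (e : ℕ) (he : (p ≠ 2 ∧ e = p) ∨ (p = 2 ∧ e = 4))
    (hW : ∀ (W : Subgroup G), W.Normal → (∀ x ∈ W, x ^ e = 1) →
      ∀ g : G, (orderOf g).Coprime p → ∀ x ∈ W, g * x = x * g) :
    ∀ (n : ℕ) (P₁ : Subgroup G), P₁.Normal → Nat.card P₁ = n → IsPGroup p P₁ →
      ∀ g : G, (orderOf g).Coprime p → ∀ x ∈ P₁, g * x = x * g := by
  classical
  intro n
  induction n using Nat.strong_induction_on with
  | _ n ih =>
  intro P₁ hP₁n hcard hP₁ g hg x hx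
  have hp : p.Prime := Fact.out
  haveI := hP₁n
  obtain ⟨S, hSdef⟩ : ∃ S : Set G, S = {g : G | (orderOf g).Coprime p} := ⟨_, rfl⟩
  have hSconj : ∀ s ∈ S, ∀ h : G, h * s * h⁻¹ ∈ S := by
    intro s hs h
    rw [hSdef] at hs ⊢
    show (orderOf (h * s * h⁻¹)).Coprime p
    have : orderOf (h * s * h⁻¹) = orderOf s :=
      orderOf_injective (MulAut.conj h).toMonoidHom (MulAut.conj h).injective s
    rw [this]; exact hs
  obtain ⟨E, hEdef⟩ : ∃ E : Subgroup G, E = P₁ ⊓ centralizer S := ⟨_, rfl⟩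
  haveI hEn : E.Normal := by rw [hEdef]; exact normal_inf_centralizer P₁ S hSconj
  have hEmem : ∀ z : G, z ∈ E ↔ z ∈ P₁ ∧ ∀ g' : G, (orderOf g').Coprime p → g' * z = z * g' := by
    intro z
    rw [hEdef, mem_inf, mem_centralizer_iff, hSdef]
    rfl
  have hEle : E ≤ P₁ := by rw [hEdef]; exact inf_le_left
  have hprop : ∀ K : Subgroup G, K.Normal → K ≤ P₁ → K ≠ P₁ → K ≤ E := by
    intro K hKn hKle hKne z hz
    have hlt : Nat.card K < n := by
      rw [← hcard]
      by_contra hcon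
      push_neg at hcon
      exact hKne (Subgroup.eq_of_le_of_card_ge hKle hcon)
    rw [hEmem]
    exact ⟨hKle hz, fun g' hg' => ih _ hlt K hKn rfl (hP₁.to_le hKle) g' hg' z hz⟩
  by_cases hEP : E = P₁
  · exact ((hEmem x).mp (hEP ▸ hx)).2 g hg
  obtain ⟨F, hFdef⟩ : ∃ F : Subgroup G, F = P₁ ⊓ centralizer (E : Set G) := ⟨_, rfl⟩
  haveI hFn : F.Normal := by
    rw [hFdef]; exact normal_inf_centralizer P₁ (E : Set G) (fun s hs h => hEn.conj_mem s hs h)
  have hFle : F ≤ P₁ := by rw [hFdef]; exact inf_le_left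
  by_cases hFP : F = P₁
  swap
  · -- case A
    have hFE := hprop F hFn hFle hFP
    have hcP : (x * g)⁻¹ * (g * x) ∈ P₁ := by
      have : (x * g)⁻¹ * (g * x) = (g⁻¹ * x⁻¹ * g⁻¹⁻¹) * x := by group
      rw [this]
      exact P₁.mul_mem (hP₁n.conj_mem _ (P₁.inv_mem hx) _) hx
    have hcF : (x * g)⁻¹ * (g * x) ∈ F := by
      rw [hFdef, mem_inf]
      refine ⟨hcP, ?_⟩
      rw [mem_centralizer_iff]
      intro e' he'
      have h1 := ((hEmem e').mp he').2 g hg
      have h2 := ((hEmem _).mp (hEn.conj_mem e' he' x)).2 g hg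
      have h1' : e' * g⁻¹ = g⁻¹ * e' := by
        calc e' * g⁻¹ = g⁻¹ * (g * e') * g⁻¹ := by group
          _ = g⁻¹ * (e' * g) * g⁻¹ := by rw [h1]
          _ = g⁻¹ * e' := by group
      calc e' * ((x * g)⁻¹ * (g * x)) = (e' * g⁻¹) * x⁻¹ * g * x := by group
        _ = (g⁻¹ * e') * x⁻¹ * g * x := by rw [h1']
        _ = g⁻¹ * x⁻¹ * ((x * e' * x⁻¹) * g) * x := by group
        _ = g⁻¹ * x⁻¹ * (g * (x * e' * x⁻¹)) * x := by rw [← h2]
        _ = (x * g)⁻¹ * (g * x) * e' := by group
    have hcE := hFE hcF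
    have hcomm : Commute ((x * g)⁻¹ * (g * x)) g :=
      (commute_iff_eq _ _).mpr (((hEmem _).mp hcE).2 g hg).symm
    exact twist g x _ hcomm (by group) (coprime_of_mem P₁ hP₁ _ g hcP hg)
  · -- case B
    have hEcent : ∀ z ∈ E, ∀ w ∈ P₁, z * w = w * z := by
      intro z hz w hw
      rw [← hFP, hFdef, mem_inf, mem_centralizer_iff] at hw
      exact hw.2 z hz
    have hne : P₁ ≠ ⊥ := by
      intro hbot
      apply hEP
      rw [hbot] at hEle ⊢
      exact le_bot_iff.mp hEle
    have hder : ⁅P₁, P₁⁆ ≤ E := by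
      apply hprop _ (by infer_instance) (Subgroup.commutator_le_left P₁ P₁)
      intro heq
      haveI : Group.IsNilpotent P₁ := hP₁.isNilpotent
      haveI : Nontrivial P₁ := (Subgroup.nontrivial_iff_ne_bot P₁).mpr hne
      have hlt := IsSolvable.commutator_lt_top_of_nontrivial (G := P₁)
      have hmap : (commutator P₁).map P₁.subtype = P₁ := by
        rw [Subgroup.map_subtype_commutator]; exact heq
      apply hlt.ne
      rw [eq_top_iff]
      intro z _
      have hz : (z : G) ∈ (commutator P₁).map P₁.subtype := by rw [hmap]; exact z.2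
      obtain ⟨z', hz', hzz'⟩ := hz
      have : z' = z := Subtype.ext hzz'
      rw [← this]; exact hz'
    have hcE : ∀ a ∈ P₁, ∀ b ∈ P₁, ⁅b, a⁆ ∈ E :=
      fun a ha b hb => hder (Subgroup.commutator_mem_commutator hb ha)
    have hpow : ∀ a ∈ P₁, ∀ b ∈ P₁, ∀ m : ℕ,
        (a * b) ^ m = ⁅b, a⁆ ^ (m.choose 2) * a ^ m * b ^ m := by
      intro a ha b hb m
      have hc := hcE a ha b hb
      exact mul_pow_c2 a b ⁅b, a⁆ (by rw [commutatorElement_def]; group)
        ((commute_iff_eq _ _).mpr (hEcent _ hc a ha)) ((commute_iff_eq _ _).mpr (hEcent _ hc b hb)) m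
    let U : Subgroup G :=
      { carrier := {z | z ∈ P₁ ∧ z ^ p ∈ E}
        one_mem' := ⟨P₁.one_mem, by rw [one_pow]; exact E.one_mem⟩
        mul_mem' := by
          rintro a b ⟨ha, ha'⟩ ⟨hb, hb'⟩
          refine ⟨P₁.mul_mem ha hb, ?_⟩
          rw [hpow a ha b hb p]
          exact E.mul_mem (E.mul_mem (E.pow_mem (hcE a ha b hb) _) ha') hb'
        inv_mem' := by
          rintro a ⟨ha, ha'⟩
          refine ⟨P₁.inv_mem ha, ?_⟩
          rw [inv_pow]; exact E.inv_mem ha' }
    have hUmem : ∀ z, z ∈ U ↔ z ∈ P₁ ∧ z ^ p ∈ E := fun z => Iff.rfl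
    have hUn : U.Normal := by
      constructor
      intro z hz h
      rw [hUmem] at hz ⊢
      refine ⟨hP₁n.conj_mem z hz.1 h, ?_⟩
      rw [conj_pow]
      exact hEn.conj_mem _ hz.2 h
    have hUP : ∀ z ∈ P₁, z ∈ U := by
      by_contra hne'
      have hUne : U ≠ P₁ := by
        intro hU
        apply hne'
        intro z hz
        rw [hU]; exact hz
      have hUE := hprop U hUn (fun z hz => hz.1) hUne
      have : ∃ x₀ ∈ P₁, x₀ ∉ E := by
        by_contra hcon
        push_neg at hcon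
        exact hEP (le_antisymm hEle hcon)
      obtain ⟨x₀, hx₀, hx₀E⟩ := this
      obtain ⟨k₀, hk₀⟩ := hP₁ ⟨x₀, hx₀⟩
      have hk₀' : x₀ ^ p ^ k₀ = 1 := by
        have := congrArg Subtype.val hk₀
        simpa using this
      have hex : ∃ k : ℕ, x₀ ^ p ^ k ∈ E := ⟨k₀, by rw [hk₀']; exact E.one_mem⟩
      have hmin := @Nat.find_min _ _ hex
      have hspec := Nat.find_spec hex
      have hpos : Nat.find hex ≠ 0 := by
        intro h0
        rw [h0, pow_zero, pow_one] at hspec
        exact hx₀E hspec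
      obtain ⟨j, hj⟩ := Nat.exists_eq_succ_of_ne_zero hpos
      have hjU : x₀ ^ p ^ j ∈ U := by
        rw [hUmem]
        refine ⟨P₁.pow_mem hx₀ _, ?_⟩
        have : (x₀ ^ p ^ j) ^ p = x₀ ^ p ^ (Nat.find hex) := by
          rw [hj, ← pow_mul, ← pow_succ]
        rw [this]
        exact hspec
      exact hmin (by rw [hj]; exact Nat.lt_succ_self j) (hUE hjU)
    have hpE : ∀ z ∈ P₁, z ^ p ∈ E := fun z hz => ((hUmem z).mp (hUP z hz)).2
    have hcp : ∀ a ∈ P₁, ∀ b ∈ P₁, ⁅b, a⁆ ^ p = 1 := by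
      intro a ha b hb
      have hc := hcE a ha b hb
      have h1 := pow_mul_c2 a b ⁅b, a⁆ (by rw [commutatorElement_def]; group)
        ((commute_iff_eq _ _).mpr (hEcent _ hc b hb)) p
      have h2 := hEcent _ (hpE b hb) a ha
      rw [h2] at h1
      have h3 : 1 * (a * b ^ p) = ⁅b, a⁆ ^ p * (a * b ^ p) := by
        rw [one_mul, ← mul_assoc]; exact h1
      exact (mul_right_cancel h3).symm
    have hdvd : p ∣ e.choose 2 := by
      rcases he with ⟨hp2, he'⟩ | ⟨hp2, he'⟩
      · rw [he']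
        exact hp.dvd_choose_self (by norm_num) (by have := hp.two_le; omega)
      · rw [he', hp2]; decide
    have hepow : ∀ a ∈ P₁, ∀ b ∈ P₁, (a * b) ^ e = a ^ e * b ^ e := by
      intro a ha b hb
      rw [hpow a ha b hb e]
      obtain ⟨t, ht⟩ := hdvd
      rw [ht, pow_mul, hcp a ha b hb, one_pow, one_mul]
    let W : Subgroup G :=
      { carrier := {z | z ∈ P₁ ∧ z ^ e = 1}
        one_mem' := ⟨P₁.one_mem, one_pow _⟩
        mul_mem' := by
          rintro a b ⟨ha, ha'⟩ ⟨hb, hb'⟩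
          exact ⟨P₁.mul_mem ha hb, by rw [hepow a ha b hb, ha', hb', one_mul]⟩
        inv_mem' := by
          rintro a ⟨ha, ha'⟩
          exact ⟨P₁.inv_mem ha, by rw [inv_pow, ha', inv_one]⟩ }
    have hWn : W.Normal := by
      constructor
      intro z hz h
      exact ⟨hP₁n.conj_mem z hz.1 h, by rw [conj_pow, hz.2]; group⟩
    have hWc := hW W hWn (fun z hz => hz.2) g hg
    have hxe : x ^ e ∈ E := by
      rcases he with ⟨_, he'⟩ | ⟨hp2, he'⟩
      · rw [he']; exact hpE x hx
      · have : x ^ e = (x ^ p) ^ 2 := by rw [he', hp2, ← pow_mul]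
        rw [this]; exact E.pow_mem (hpE x hx) 2
    have hyP : g * x * g⁻¹ ∈ P₁ := hP₁n.conj_mem x hx g
    have hcP : x⁻¹ * (g * x * g⁻¹) ∈ P₁ := P₁.mul_mem (P₁.inv_mem hx) hyP
    have hye : (g * x * g⁻¹) ^ e = x ^ e := by
      rw [conj_pow]
      have := ((hEmem _).mp hxe).2 g hg
      rw [this]; group
    have hce : (x⁻¹ * (g * x * g⁻¹)) ^ e = 1 := by
      have h1 := hepow x hx _ hcP
      have h2 : x * (x⁻¹ * (g * x * g⁻¹)) = g * x * g⁻¹ := by group
      rw [h2, hye] at h1
      have : x ^ e * 1 = x ^ e * (x⁻¹ * (g * x * g⁻¹)) ^ e := by rw [mul_one]; exact h1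
      exact (mul_left_cancel this).symm
    have hcW : x⁻¹ * (g * x * g⁻¹) ∈ W := ⟨hcP, hce⟩
    have hgc := hWc _ hcW
    have h3 : g * x = x * g * (x⁻¹ * (g * x * g⁻¹)) := by
      calc g * x = x * ((x⁻¹ * (g * x * g⁻¹)) * g) := by group
        _ = x * (g * (x⁻¹ * (g * x * g⁻¹))) := by rw [← hgc]
        _ = x * g * (x⁻¹ * (g * x * g⁻¹)) := by group
    exact twist g x (x⁻¹ * (g * x * g⁻¹)) ((commute_iff_eq _ _).mpr hgc.symm) h3
      (coprime_of_mem P₁ hP₁ _ g hcP hg)

end

theorem result {G : Type*} [Group G] [Finite G] (p : ℕ) [Fact p.Prime]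
    (h : ∀ x : G, (orderOf x = p ∨ (p = 2 ∧ orderOf x = 4)) → ∃ a : ℕ, (Subgroup.centralizer ({x} : Set G)).index = p ^ a) :
    Cfsg.HasNormalPComplement p G := by
  classical
  have hp : p.Prime := Fact.out
  obtain ⟨e, he⟩ : ∃ e : ℕ, (p ≠ 2 ∧ e = p) ∨ (p = 2 ∧ e = 4) := by
    by_cases h2 : p = 2
    · exact ⟨4, Or.inr ⟨h2, rfl⟩⟩
    · exact ⟨p, Or.inl ⟨h2, rfl⟩⟩
  have hcls : ∀ x : G, x ^ e = 1 → ∃ a : ℕ, (Subgroup.centralizer ({x} : Set G)).index = p ^ a := by
    intro x hx
    by_cases hx1 : x = 1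
    · refine ⟨0, ?_⟩
      rw [hx1, pow_zero, Subgroup.index_eq_one, eq_top_iff]
      intro g _
      rw [Subgroup.mem_centralizer_iff]
      intro h' hh
      rw [Set.mem_singleton_iff.mp hh]; simp
    · have hd : orderOf x ∣ e := orderOf_dvd_of_pow_eq_one hx
      rcases he with ⟨hp2, he'⟩ | ⟨hp2, he'⟩
      · rw [he'] at hd
        rcases (Nat.dvd_prime hp).mp hd with h1 | h1
        · exact absurd (orderOf_eq_one_iff.mp h1) hx1
        · exact h x (Or.inl h1)
      · rw [he'] at hd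
        have hd' : orderOf x ∣ 2 ^ 2 := by norm_num; exact hd
        obtain ⟨j, hj, hj'⟩ := (Nat.dvd_prime_pow Nat.prime_two).mp hd'
        interval_cases j
        · exact absurd (orderOf_eq_one_iff.mp (by simpa using hj')) hx1
        · exact h x (Or.inl (by rw [hj', hp2]; norm_num))
        · exact h x (Or.inr ⟨hp2, by rw [hj']; norm_num⟩)
  have hpel : ∀ x : G, x ^ e = 1 → x ^ p ^ 2 = 1 := by
    intro x hx
    rcases he with ⟨hp2, he'⟩ | ⟨hp2, he'⟩
    · rw [he'] at hx
      rw [pow_two, pow_mul, hx, one_pow]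
    · have : p ^ 2 = e := by rw [hp2, he']; norm_num
      rw [this]; exact hx
  have hK : ∀ x : G, x ^ e = 1 → ∀ g : G, (orderOf g).Coprime p → g * x = x * g := by
    intro x hx g hg
    have hzp : IsPGroup p (Subgroup.zpowers x) := by
      intro y
      refine ⟨2, ?_⟩
      obtain ⟨k, hk⟩ := y.2
      apply Subtype.ext
      rw [Subgroup.coe_pow]
      show (y : G) ^ p ^ 2 = 1
      rw [← hk]
      show (x ^ k) ^ p ^ 2 = 1
      rw [← zpow_natCast, ← zpow_mul, mul_comm, zpow_mul, zpow_natCast, hpel x hx, one_zpow]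
    obtain ⟨P, hP⟩ := hzp.exists_le_sylow
    have hxP : x ∈ (P : Subgroup G) := hP (Subgroup.mem_zpowers x)
    obtain ⟨a, ha⟩ := hcls x hx
    have hxN : x ∈ (P : Subgroup G).normalCore := fun b => conj_mem_sylow P x hxP a ha b
    refine T2 e he ?_ _ (P : Subgroup G).normalCore inferInstance rfl
      (P.2.to_le (Subgroup.normalCore_le _)) g hg x hxN
    intro W hWn hWe g' hg' w hw
    haveI := hWn
    have hWp : IsPGroup p W := by
      intro w'
      refine ⟨2, ?_⟩
      apply Subtype.ext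
      rw [Subgroup.coe_pow]
      exact hpel _ (hWe _ w'.2)
    exact T1 _ G rfl W hWp (fun z hz => hcls z (hWe z hz)) g' hg' w hw
  obtain ⟨P⟩ : Nonempty (Sylow p G) := inferInstance
  obtain ⟨N, hN, hc⟩ := (Cfsg.Agent.Lib.Helper1.Frob.frobenius_iff P).mpr (by
    intro Q hQ g hg hgo
    haveI : (Q.subgroupOf (Subgroup.normalizer (Q : Set G))).Normal := Subgroup.normal_in_normalizer
    have hQp : IsPGroup p (Q.subgroupOf (Subgroup.normalizer (Q : Set G))) :=
      (P.2.to_le hQ).comap_subtype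
    have hcop' : (orderOf (⟨g, hg⟩ : Subgroup.normalizer (Q : Set G))).Coprime p := by
      rw [← Subgroup.orderOf_coe]; exact hgo
    have key := T2 (G := Subgroup.normalizer (Q : Set G)) e he (by
      intro W hWn hWe g' hg' w hw
      apply Subtype.ext
      rw [Subgroup.coe_mul, Subgroup.coe_mul]
      apply hK
      · have := hWe w hw
        have h2 := congrArg Subtype.val this
        rw [Subgroup.coe_pow] at h2
        exact h2
      · rw [Subgroup.orderOf_coe]; exact hg') _ (Q.subgroupOf (Subgroup.normalizer (Q : Set G)))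
      inferInstance rfl hQp ⟨g, hg⟩ hcop'
    rw [Subgroup.mem_centralizer_iff]
    intro q hq
    have hqn : q ∈ Subgroup.normalizer (Q : Set G) := Subgroup.le_normalizer hq
    have := key ⟨q, hqn⟩ (Subgroup.mem_subgroupOf.mpr hq)
    have h2 := congrArg Subtype.val this
    exact h2.symm)
  exact ⟨P, N, hN, hc⟩

end Cfsg.Agent.S4126
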