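import Cfsg.Statements.S4143

import Mathlib
import Cfsg.Agent.S0112

set_option autoImplicit false
open Cfsg
open scoped Pointwise

namespace Cfsg.Agent.S4143

open scoped commutatorElement

theorem comm_of_card_le {p : ℕ} [Fact p.Prime] {K : Type*} [Group K] [Finite K] {k : ℕ} (hk : k ≤ 2)
    (hK : Nat.card K = p ^ k) (a b : K) : a * b = b * a := by
  have hpp : p.Prime := Fact.out
  interval_cases k
  · rw [pow_zero] at hK
    haveI : Subsingleton K := (Nat.card_eq_one_iff_unique.mp hK).1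
    rw [Subsingleton.elim a 1, Subsingleton.elim b 1]
  · rw [pow_one] at hK
    haveI : IsCyclic K := isCyclic_of_prime_card hK
    obtain ⟨g, hg⟩ := IsCyclic.exists_generator (α := K)
    obtain ⟨i, rfl⟩ := Subgroup.mem_zpowers_iff.mp (hg a)
    obtain ⟨j, rfl⟩ := Subgroup.mem_zpowers_iff.mp (hg b)
    exact zpow_mul_comm g i j
  · exact IsPGroup.commutative_of_card_eq_prime_sq hK a b

theorem eq_of_noncomm {X : Type*} [Group X] [Finite X] {p : ℕ} [Fact p.Prime] (B : Subgroup X)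
    (hB : Nat.card B = p ^ 3) (K : Subgroup X) (hKB : K ≤ B) (b₁ b₂ : X) (h1 : b₁ ∈ K) (h2 : b₂ ∈ K)
    (hne : b₁ * b₂ ≠ b₂ * b₁) : K = B := by
  have hpp : p.Prime := Fact.out
  have hdvd : Nat.card K ∣ p ^ 3 := hB ▸ Subgroup.card_dvd_of_le hKB
  obtain ⟨k, hk, hKc⟩ := (Nat.dvd_prime_pow hpp).mp hdvd
  by_cases hk2 : k ≤ 2
  · exfalso
    have := comm_of_card_le hk2 hKc (⟨b₁, h1⟩ : K) ⟨b₂, h2⟩
    exact hne (congrArg Subtype.val this)
  · have hk3 : k = 3 := by omega
    apply Subgroup.eq_of_le_of_card_ge hKB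
    rw [hB, hKc, hk3]

theorem result {X : Type*} [Group X] [Finite X] {p : ℕ} [Fact p.Prime] (n : ℕ) (hX : Nat.card X = p ^ n)
    (B : Subgroup X) (hB : Nat.card B = p ^ 3) (hBna : ¬ IsMulCommutative B) (hC : Subgroup.centralizer (B : Set X) ≤ B) :
    Group.nilpotencyClass X = n - 1 := by
  classical
  have hpp : p.Prime := Fact.out
  have hXp : IsPGroup p X := IsPGroup.of_card hX
  haveI : Group.IsNilpotent X := hXp.isNilpotent
  have hn3 : 3 ≤ n := by
    have h1 : p ^ 3 ∣ p ^ n := hB ▸ hX ▸ Subgroup.card_subgroup_dvd_card B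
    exact (Nat.pow_dvd_pow_iff_le_right hpp.one_lt).mp h1
  obtain ⟨b₁, hb₁, b₂, hb₂, hne⟩ : ∃ b₁ ∈ B, ∃ b₂ ∈ B, b₁ * b₂ ≠ b₂ * b₁ := by
    by_contra hcon
    push_neg at hcon
    apply hBna
    exact ⟨⟨fun a b => Subtype.ext (hcon a a.2 b b.2)⟩⟩
  have hZB : Subgroup.center X ≤ B := (Subgroup.center_le_centralizer _).trans hC
  obtain ⟨ZB, hZBdef⟩ : ∃ ZB : Subgroup X, ZB = B ⊓ Subgroup.centralizer (B : Set X) := ⟨_, rfl⟩
  have hZcZB : Subgroup.center X ≤ ZB := by
    rw [hZBdef]; exact le_inf hZB (Subgroup.center_le_centralizer _)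
  obtain ⟨K₁, hK₁def⟩ : ∃ K₁ : Subgroup X, K₁ = B ⊓ Subgroup.centralizer ({b₁} : Set X) :=
    ⟨_, rfl⟩
  have hb₁K₁ : b₁ ∈ K₁ := by
    rw [hK₁def]; refine Subgroup.mem_inf.2 ⟨hb₁, ?_⟩
    rw [Subgroup.mem_centralizer_iff]; intro y hy; rw [Set.mem_singleton_iff] at hy; rw [hy]
  have hK₁B : K₁ ≤ B := hK₁def ▸ inf_le_left
  have hb₂K₁ : b₂ ∉ K₁ := by
    intro h
    rw [hK₁def] at h
    have := (Subgroup.mem_inf.1 h).2
    rw [Subgroup.mem_centralizer_iff] at this
    exact hne (this b₁ rfl)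
  have hZBK₁ : ZB ≤ K₁ := by
    rw [hZBdef, hK₁def]
    exact inf_le_inf_left _ (Subgroup.centralizer_le (Set.singleton_subset_iff.2 hb₁))
  have hb₁ZB : b₁ ∉ ZB := by
    intro h
    rw [hZBdef] at h
    have := (Subgroup.mem_inf.1 h).2
    rw [Subgroup.mem_centralizer_iff] at this
    exact hne (this b₂ hb₂).symm
  have hK₁dvd : Nat.card K₁ ∣ p ^ 3 := hB ▸ Subgroup.card_dvd_of_le hK₁B
  obtain ⟨k, hk, hK₁c⟩ := (Nat.dvd_prime_pow hpp).mp hK₁dvd
  have hk2 : k ≤ 2 := by
    by_contra hcon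
    have hk3 : k = 3 := by omega
    have : K₁ = B := Subgroup.eq_of_le_of_card_ge hK₁B (by rw [hB, hK₁c, hk3])
    exact hb₂K₁ (this ▸ hb₂)
  have hZBdvd : Nat.card ZB ∣ p ^ k := hK₁c ▸ Subgroup.card_dvd_of_le hZBK₁
  obtain ⟨j, hj, hZBc⟩ := (Nat.dvd_prime_pow hpp).mp hZBdvd
  have hjk : j < k := by
    by_contra hcon
    have hjk' : j = k := by omega
    have : ZB = K₁ := Subgroup.eq_of_le_of_card_ge hZBK₁ (by rw [hZBc, hK₁c, hjk'])
    exact hb₁ZB (this ▸ hb₁K₁)
  haveI : Nontrivial X := by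
    rw [← Finite.one_lt_card_iff_nontrivial, hX]
    exact Nat.one_lt_pow (by omega) hpp.one_lt
  obtain ⟨i, hi, hZcc⟩ := IsPGroup.card_center_eq_prime_pow hX (by omega)
  have hij : i ≤ j := by
    have h1 : p ^ i ∣ p ^ j := hZcc ▸ hZBc ▸ Subgroup.card_dvd_of_le hZcZB
    exact (Nat.pow_dvd_pow_iff_le_right hpp.one_lt).mp h1
  have hi1 : i = 1 := by omega
  have hj1 : j = 1 := by omega
  have hZcard : Nat.card (Subgroup.center X) = p := by rw [hZcc, hi1, pow_one]
  have hZcEq : Subgroup.center X = ZB :=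
    Subgroup.eq_of_le_of_card_ge hZcZB (by rw [hZBc, hZcc, hi1, hj1])
  obtain ⟨Bq, hBqdef⟩ : ∃ Bq : Subgroup (X ⧸ Subgroup.center X),
      Bq = B.map (QuotientGroup.mk' (Subgroup.center X)) := ⟨_, rfl⟩
  have hcomap : Bq.comap (QuotientGroup.mk' (Subgroup.center X)) = B := by
    rw [hBqdef, QuotientGroup.comap_map_mk']; exact sup_eq_right.mpr hZB
  have hXq : Nat.card (X ⧸ Subgroup.center X) = p ^ (n - 1) := by
    have h := Subgroup.card_eq_card_quotient_mul_card_subgroup (Subgroup.center X)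
    rw [hX, hZcard] at h
    have e : p ^ n = p ^ (n - 1) * p := by rw [← pow_succ]; congr 1; omega
    rw [e] at h
    exact (Nat.eq_of_mul_eq_mul_right hpp.pos h).symm
  have hBqc : Nat.card Bq = p ^ 2 := by
    have h1 : Bq.index = B.index := by
      rw [← hcomap]
      exact (Subgroup.index_comap_of_surjective Bq
        (QuotientGroup.mk'_surjective (Subgroup.center X))).symm
    have h2 := Subgroup.card_mul_index Bq
    have h3 := Subgroup.card_mul_index B
    rw [h1, hXq] at h2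
    rw [hB, hX] at h3
    have h4 : Nat.card Bq * B.index * p = p ^ 2 * B.index * p := by
      rw [h2]
      have e1 : p ^ 2 * B.index * p = p ^ 3 * B.index := by ring
      rw [e1, h3, ← pow_succ]; congr 1; omega
    have hidx : 0 < B.index := Nat.pos_of_ne_zero Subgroup.index_ne_zero_of_finite
    have h5 := Nat.eq_of_mul_eq_mul_right hpp.pos h4
    exact Nat.eq_of_mul_eq_mul_right hidx h5
  have hBqcomm : ∀ a ∈ Bq, ∀ b ∈ Bq, a * b = b * a := by
    intro a ha b hb
    have := IsPGroup.commutative_of_card_eq_prime_sq hBqc (⟨a, ha⟩ : Bq) ⟨b, hb⟩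
    exact congrArg Subtype.val this
  have hcent : Subgroup.centralizer (Bq : Set (X ⧸ Subgroup.center X)) ≤ Bq := by
    obtain ⟨T, hTdef⟩ : ∃ T : Subgroup X,
        T = (Subgroup.centralizer (Bq : Set (X ⧸ Subgroup.center X))).comap
          (QuotientGroup.mk' (Subgroup.center X)) := ⟨_, rfl⟩
    have hTmem : ∀ g ∈ T, ∀ b ∈ B, ⁅g, b⁆ ∈ Subgroup.center X := by
      intro g hg b hb
      rw [hTdef, Subgroup.mem_comap, Subgroup.mem_centralizer_iff] at hg
      have hbq : (QuotientGroup.mk' (Subgroup.center X)) b ∈ Bq :=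
        hBqdef ▸ Subgroup.mem_map_of_mem _ hb
      have h := hg _ hbq
      rw [← QuotientGroup.eq_one_iff, commutatorElement_def]
      have e : ((g * b * g⁻¹ * b⁻¹ : X) : X ⧸ Subgroup.center X)
          = (QuotientGroup.mk' (Subgroup.center X) g) * (QuotientGroup.mk' (Subgroup.center X) b)
            * (QuotientGroup.mk' (Subgroup.center X) g)⁻¹
            * (QuotientGroup.mk' (Subgroup.center X) b)⁻¹ := rfl
      rw [e, ← h]; group
    have hBT : B ≤ T := by
      intro b hb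
      rw [hTdef, Subgroup.mem_comap, Subgroup.mem_centralizer_iff]
      intro q hq
      exact hBqcomm q hq _ (hBqdef ▸ Subgroup.mem_map_of_mem _ hb)
    have hT1 := Cfsg.Agent.S0112.card_le_of_comm_mem T (Subgroup.center X) b₁
      (fun g hg => hTmem g hg b₁ hb₁)
    have hT2 := Cfsg.Agent.S0112.card_le_of_comm_mem
      (T ⊓ Subgroup.centralizer ({b₁} : Set X)) (Subgroup.center X) b₂
      (fun g hg => hTmem g (Subgroup.mem_inf.1 hg).1 b₂ hb₂)
    have hT3 : (T ⊓ Subgroup.centralizer ({b₁} : Set X)) ⊓ Subgroup.centralizer ({b₂} : Set X)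
        ≤ Subgroup.center X := by
      intro g hg
      obtain ⟨hg1, hg2⟩ := Subgroup.mem_inf.1 hg
      obtain ⟨hgT, hg1⟩ := Subgroup.mem_inf.1 hg1
      rw [Subgroup.mem_centralizer_iff] at hg1 hg2
      have e1 : b₁ * g = g * b₁ := hg1 b₁ rfl
      have e2 : b₂ * g = g * b₂ := hg2 b₂ rfl
      have hK : B ⊓ Subgroup.centralizer ({g} : Set X) = B := by
        apply eq_of_noncomm B hB _ inf_le_left b₁ b₂ _ _ hne
        · refine Subgroup.mem_inf.2 ⟨hb₁, ?_⟩
          rw [Subgroup.mem_centralizer_iff]; intro y hy; rw [Set.mem_singleton_iff] at hy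
          rw [hy]; exact e1.symm
        · refine Subgroup.mem_inf.2 ⟨hb₂, ?_⟩
          rw [Subgroup.mem_centralizer_iff]; intro y hy; rw [Set.mem_singleton_iff] at hy
          rw [hy]; exact e2.symm
      have hgc : g ∈ Subgroup.centralizer (B : Set X) := by
        rw [Subgroup.mem_centralizer_iff]
        intro b hb
        have hb' : b ∈ B ⊓ Subgroup.centralizer ({g} : Set X) := by rw [hK]; exact hb
        have := (Subgroup.mem_inf.1 hb').2
        rw [Subgroup.mem_centralizer_iff] at this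
        exact (this g rfl).symm
      have : g ∈ ZB := by rw [hZBdef]; exact Subgroup.mem_inf.2 ⟨hC hgc, hgc⟩
      exact hZcEq ▸ this
    have hT4 : Nat.card T ≤ p ^ 3 := by
      calc Nat.card T ≤ Nat.card (Subgroup.center X)
            * Nat.card (T ⊓ Subgroup.centralizer ({b₁} : Set X) : Subgroup X) := hT1
        _ ≤ Nat.card (Subgroup.center X) * (Nat.card (Subgroup.center X)
            * Nat.card ((T ⊓ Subgroup.centralizer ({b₁} : Set X))
              ⊓ Subgroup.centralizer ({b₂} : Set X) : Subgroup X)) :=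
          Nat.mul_le_mul_left _ hT2
        _ ≤ Nat.card (Subgroup.center X) * (Nat.card (Subgroup.center X)
            * Nat.card (Subgroup.center X)) :=
          Nat.mul_le_mul_left _ (Nat.mul_le_mul_left _ (Subgroup.card_le_of_le hT3))
        _ = p ^ 3 := by rw [hZcard]; ring
    have hTB : B = T := Subgroup.eq_of_le_of_card_ge hBT (by rw [hB]; exact hT4)
    intro q hq
    obtain ⟨x, rfl⟩ := QuotientGroup.mk'_surjective (Subgroup.center X) q
    have hxT : x ∈ T := by rw [hTdef]; exact hq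
    rw [hBqdef]
    exact Subgroup.mem_map_of_mem _ (hTB ▸ hxT)
  have hcl := Cfsg.Agent.S0112.aux (p := p) (n - 1) (X ⧸ Subgroup.center X) hXq Bq hBqc hcent
  have h1 := Group.nilpotencyClass_eq_quotient_center_plus_one (G := X)
  rw [h1, hcl]; omega

end Cfsg.Agent.S4143
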