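import Cfsg.Statements.S4152

import Mathlib
import Cfsg.Agent.S4106

set_option autoImplicit false
open Cfsg
open scoped Pointwise

namespace Cfsg.Agent.S4152

universe u

def PiElt (π : Set ℕ) {X : Type u} [Monoid X] (y : X) : Prop :=
  ∀ q : ℕ, q.Prime → q ∣ orderOf y → q ∈ π

theorem burn (π : Set ℕ) (X : Type u) [Group X] [Finite X] :
    Nat.card {p : X × X // Commute p.1 p.2 ∧ PiElt π p.2} =
      Nat.card {C : ConjClasses X // S4106.PiClass π C} * Nat.card X := by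
  classical
  haveI : Fintype {C : ConjClasses X // S4106.PiClass π C} := Fintype.ofFinite _
  let cls : {p : X × X // Commute p.1 p.2 ∧ PiElt π p.2} →
      {C : ConjClasses X // S4106.PiClass π C} :=
    fun p => ⟨ConjClasses.mk p.1.2, (S4106.piClass_mk π p.1.2).mpr p.2.2⟩
  rw [Nat.card_congr (Equiv.sigmaFiberEquiv cls).symm, Nat.card_sigma]
  have hfib : ∀ C : {C : ConjClasses X // S4106.PiClass π C},
      Nat.card {p // cls p = C} = Nat.card X := by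
    rintro ⟨C, hC⟩
    obtain ⟨g, rfl⟩ := ConjClasses.mk_surjective C
    have hτ : ∀ y : X, ∃ t : X, ConjClasses.mk y = ConjClasses.mk g → t * g * t⁻¹ = y := by
      intro y
      by_cases h : ConjClasses.mk y = ConjClasses.mk g
      · rw [ConjClasses.mk_eq_mk_iff_isConj, isConj_comm, isConj_iff] at h
        obtain ⟨t, ht⟩ := h
        exact ⟨t, fun _ => ht⟩
      · exact ⟨1, fun h' => absurd h' h⟩
    choose τ hτ using hτ
    symm
    have hg' := (S4106.piClass_mk π g).mp hC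
    have hcl : ∀ t : X, ConjClasses.mk (t * g * t⁻¹) = ConjClasses.mk g := by
      intro t
      rw [ConjClasses.mk_eq_mk_iff_isConj, isConj_comm, isConj_iff]
      exact ⟨t, rfl⟩
    have hcomm : ∀ t : X, Commute (t * (τ (t * g * t⁻¹))⁻¹) (t * g * t⁻¹) := by
      intro t
      have h1 := hτ (t * g * t⁻¹) (hcl t)
      obtain ⟨s, hs⟩ : ∃ s, s = τ (t * g * t⁻¹) := ⟨_, rfl⟩
      rw [← hs] at h1 ⊢
      show (t * s⁻¹) * (t * g * t⁻¹) = (t * g * t⁻¹) * (t * s⁻¹)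
      calc (t * s⁻¹) * (t * g * t⁻¹) = (t * s⁻¹) * (s * g * s⁻¹) := by rw [h1]
        _ = (t * g * t⁻¹) * (t * s⁻¹) := by group
    have hpi : ∀ t : X, PiElt π (t * g * t⁻¹) := by
      intro t q hq hqd
      rw [S4106.orderOf_conj'] at hqd
      exact hg' q hq hqd
    refine Nat.card_congr (Equiv.ofBijective
      (fun t => (⟨⟨(t * (τ (t * g * t⁻¹))⁻¹, t * g * t⁻¹), hcomm t, hpi t⟩,
        Subtype.ext (hcl t)⟩ : {p // cls p = ⟨ConjClasses.mk g, hC⟩})) ⟨?_, ?_⟩)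
    · intro t t' h
      have h1 := congrArg (fun z : {p // cls p = ⟨ConjClasses.mk g, hC⟩} => (z.1.1 : X × X)) h
      simp only [Prod.mk.injEq] at h1
      obtain ⟨h2, h3⟩ := h1
      rw [h3] at h2
      exact mul_right_cancel h2
    · rintro ⟨⟨⟨x, y⟩, hxy, hy⟩, hcls⟩
      have hy' : ConjClasses.mk y = ConjClasses.mk g := congrArg Subtype.val hcls
      have h1 := hτ y hy'
      have h2 : x * τ y * g * (x * τ y)⁻¹ = y := by
        calc x * τ y * g * (x * τ y)⁻¹ = x * (τ y * g * (τ y)⁻¹) * x⁻¹ := by group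
          _ = x * y * x⁻¹ := by rw [h1]
          _ = y := by rw [hxy.eq, mul_inv_cancel_right]
      refine ⟨x * τ y, ?_⟩
      apply Subtype.ext
      apply Subtype.ext
      show (x * τ y * (τ (x * τ y * g * (x * τ y)⁻¹))⁻¹, x * τ y * g * (x * τ y)⁻¹) = (x, y)
      rw [h2, mul_inv_cancel_right]
  rw [Finset.sum_congr rfl (fun C _ => hfib C), Finset.sum_const, Finset.card_univ, smul_eq_mul,
    Nat.card_eq_fintype_card (α := {C : ConjClasses X // S4106.PiClass π C})]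

theorem coset_le {G : Type u} [Group G] [Finite G] (N : Subgroup G) (u : G) (B : Set G) :
    Nat.card {p : G × G // u⁻¹ * p.1 ∈ N ∧ p.2 ∈ B ∧ Commute p.1 p.2} ≤
      Nat.card {p : G × G // p.1 ∈ N ∧ p.2 ∈ B ∧ Commute p.1 p.2} := by
  have hσ : ∀ y : G, ∃ x' : G, (∃ x : G, u⁻¹ * x ∈ N ∧ Commute x y) →
      (u⁻¹ * x' ∈ N ∧ Commute x' y) := by
    intro y
    by_cases h : ∃ x : G, u⁻¹ * x ∈ N ∧ Commute x y
    · obtain ⟨x, hx⟩ := h
      exact ⟨x, fun _ => hx⟩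
    · exact ⟨1, fun h' => absurd h' h⟩
  choose σ hσ using hσ
  have hmem : ∀ p : {p : G × G // u⁻¹ * p.1 ∈ N ∧ p.2 ∈ B ∧ Commute p.1 p.2},
      ((σ p.1.2)⁻¹ * p.1.1) ∈ N ∧ p.1.2 ∈ B ∧ Commute ((σ p.1.2)⁻¹ * p.1.1) p.1.2 := by
    rintro ⟨⟨x, y⟩, hx, hy, hxy⟩
    obtain ⟨h1, h2⟩ := hσ y ⟨x, hx, hxy⟩
    refine ⟨?_, hy, ?_⟩
    · have e : (σ y)⁻¹ * x = (u⁻¹ * σ y)⁻¹ * (u⁻¹ * x) := by group
      show (σ y)⁻¹ * x ∈ N
      rw [e]
      exact N.mul_mem (N.inv_mem h1) hx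
    · exact (h2.inv_left).mul_left hxy
  apply Nat.card_le_card_of_injective (fun p => (⟨((σ p.1.2)⁻¹ * p.1.1, p.1.2), hmem p⟩ :
    {p : G × G // p.1 ∈ N ∧ p.2 ∈ B ∧ Commute p.1 p.2}))
  rintro ⟨⟨x, y⟩, hp⟩ ⟨⟨x', y'⟩, hp'⟩ h
  have h1 := congrArg
    (fun z : {p : G × G // p.1 ∈ N ∧ p.2 ∈ B ∧ Commute p.1 p.2} => (z.1 : G × G)) h
  simp only [Prod.mk.injEq] at h1
  obtain ⟨h2, h3⟩ := h1
  subst h3
  have h4 := mul_left_cancel h2
  subst h4
  rfl

theorem split_nat (π : Set ℕ) : ∀ d : ℕ, 0 < d → ∃ m₁ m₂ : ℕ, d = m₁ * m₂ ∧ Nat.Coprime m₁ m₂ ∧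
    (∀ q : ℕ, q.Prime → q ∣ m₁ → q ∈ π) ∧ (∀ q : ℕ, q.Prime → q ∣ m₂ → q ∉ π) := by
  intro d
  induction d using Nat.strong_induction_on with
  | _ d ih =>
    intro hd
    by_cases h1 : d = 1
    · exact ⟨1, 1, by rw [h1], Nat.coprime_one_left 1,
        fun q hq h => absurd (Nat.dvd_one.mp h) hq.ne_one,
        fun q hq h => absurd (Nat.dvd_one.mp h) hq.ne_one⟩
    · obtain ⟨p, hp, hpd⟩ := Nat.exists_prime_and_dvd h1
      obtain ⟨k, r, hr, hkr⟩ := Nat.exists_eq_pow_mul_and_not_dvd hd.ne' p hp.ne_one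
      have hk : k ≠ 0 := by
        rintro rfl
        rw [pow_zero, one_mul] at hkr
        exact hr (hkr ▸ hpd)
      have hr0 : 0 < r := by
        rcases Nat.eq_zero_or_pos r with h | h
        · rw [h, mul_zero] at hkr
          omega
        · exact h
      have hrd : r < d := by
        have h2 : 2 ≤ p ^ k := by
          calc 2 ≤ p := hp.two_le
            _ = p ^ 1 := (pow_one p).symm
            _ ≤ p ^ k := Nat.pow_le_pow_right hp.pos (Nat.one_le_iff_ne_zero.mpr hk)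
        rw [hkr]
        nlinarith
      obtain ⟨m₁, m₂, hm, hcop, hπ1, hπ2⟩ := ih r hrd hr0
      have hcopr : Nat.Coprime (p ^ k) r :=
        Nat.Coprime.pow_left k ((Nat.Prime.coprime_iff_not_dvd hp).mpr hr)
      have hc1 : Nat.Coprime (p ^ k) m₁ :=
        Nat.Coprime.coprime_dvd_right (Dvd.intro _ hm.symm) hcopr
      have hc2 : Nat.Coprime (p ^ k) m₂ :=
        Nat.Coprime.coprime_dvd_right (Dvd.intro_left _ hm.symm) hcopr
      by_cases hpπ : p ∈ π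
      · refine ⟨p ^ k * m₁, m₂, by rw [hkr, hm, mul_assoc], Nat.Coprime.mul_left hc2 hcop, ?_, hπ2⟩
        intro q hq hqd
        rcases (Nat.Prime.dvd_mul hq).mp hqd with h | h
        · have h3 := (Nat.prime_dvd_prime_iff_eq hq hp).mp (hq.dvd_of_dvd_pow h)
          rw [h3]
          exact hpπ
        · exact hπ1 q hq h
      · refine ⟨m₁, p ^ k * m₂, by rw [hkr, hm]; ring, Nat.Coprime.mul_right hc1.symm hcop, hπ1, ?_⟩
        intro q hq hqd
        rcases (Nat.Prime.dvd_mul hq).mp hqd with h | h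
        · have h3 := (Nat.prime_dvd_prime_iff_eq hq hp).mp (hq.dvd_of_dvd_pow h)
          rw [h3]
          exact hpπ
        · exact hπ2 q hq h

theorem elt_decomp (π : Set ℕ) {G : Type u} [Group G] [Finite G] (g : G) :
    ∃ a b : G, a ∈ Subgroup.zpowers g ∧ b ∈ Subgroup.zpowers g ∧ a * b = g ∧
      PiElt π a ∧ PiElt πᶜ b := by
  obtain ⟨m₁, m₂, hm, hcop, h1, h2⟩ := split_nat π (orderOf g) (orderOf_pos g)
  obtain ⟨a, ha1, ha2⟩ := Nat.chineseRemainder hcop 1 0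
  obtain ⟨b, hb1, hb2⟩ := Nat.chineseRemainder hcop 0 1
  have hoa : orderOf (g ^ a) ∣ m₁ := by
    apply orderOf_dvd_of_pow_eq_one
    rw [← pow_mul]
    apply orderOf_dvd_iff_pow_eq_one.mp
    rw [hm, mul_comm a]
    exact mul_dvd_mul_left _ ((Nat.modEq_zero_iff_dvd).mp ha2)
  have hob : orderOf (g ^ b) ∣ m₂ := by
    apply orderOf_dvd_of_pow_eq_one
    rw [← pow_mul]
    apply orderOf_dvd_iff_pow_eq_one.mp
    rw [hm]
    exact mul_dvd_mul ((Nat.modEq_zero_iff_dvd).mp hb1) dvd_rfl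
  refine ⟨g ^ a, g ^ b, Subgroup.pow_mem _ (Subgroup.mem_zpowers g) a,
    Subgroup.pow_mem _ (Subgroup.mem_zpowers g) b, ?_, ?_, ?_⟩
  · rw [← pow_add]
    have h3 : a + b ≡ 1 [MOD orderOf g] := by
      rw [hm, ← Nat.modEq_and_modEq_iff_modEq_mul hcop]
      constructor
      · simpa using ha1.add hb1
      · simpa using ha2.add hb2
    have h4 := (pow_eq_pow_iff_modEq (x := g)).mpr h3
    rw [h4, pow_one]
  · intro q hq hqd
    exact h1 q hq (hqd.trans hoa)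
  · intro q hq hqd
    exact h2 q hq (hqd.trans hob)

theorem cop_of (π : Set ℕ) {G : Type u} [Group G] (y b : G) (hy : PiElt π y) (hb : PiElt πᶜ b) :
    Nat.Coprime (orderOf b) (orderOf y) := by
  by_contra hcon
  obtain ⟨q, hq, h1, h2⟩ := Nat.Prime.not_coprime_iff_dvd.mp hcon
  exact hb q hq h1 (hy q hq h2)

theorem decomp_unique (π : Set ℕ) {G : Type u} [Group G] [Finite G] (y y' b b' : G)
    (hy : PiElt π y) (hy' : PiElt π y') (hb : PiElt πᶜ b) (hb' : PiElt πᶜ b')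
    (hc : Commute y b) (hc' : Commute y' b') (h : y * b = y' * b') : y = y' := by
  obtain ⟨m, hm⟩ : ∃ m, m = orderOf b * orderOf b' := ⟨_, rfl⟩
  have h1 : (y * b) ^ m = y ^ m := by
    rw [hc.mul_pow]
    have h0 : b ^ m = 1 := by rw [hm, pow_mul, pow_orderOf_eq_one, one_pow]
    rw [h0, mul_one]
  have h2 : (y' * b') ^ m = y' ^ m := by
    rw [hc'.mul_pow]
    have h0 : b' ^ m = 1 := by rw [hm, mul_comm, pow_mul, pow_orderOf_eq_one, one_pow]
    rw [h0, mul_one]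
  have h3 : y ^ m = y' ^ m := by rw [← h1, ← h2, h]
  have hcop : Nat.Coprime m (orderOf ((y, y') : G × G)) := by
    rw [Prod.orderOf, hm]
    apply Nat.Coprime.coprime_dvd_right (Nat.lcm_dvd_mul _ _)
    apply Nat.Coprime.mul_right
    · exact Nat.Coprime.mul_left (cop_of π y b hy hb) (cop_of π y b' hy hb')
    · exact Nat.Coprime.mul_left (cop_of π y' b hy' hb) (cop_of π y' b' hy' hb')
  obtain ⟨j, hj⟩ := exists_pow_eq_self_of_coprime hcop
  have hj1 : (y ^ m) ^ j = y := congrArg Prod.fst hj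
  have hj2 : (y' ^ m) ^ j = y' := congrArg Prod.snd hj
  calc y = (y ^ m) ^ j := hj1.symm
    _ = (y' ^ m) ^ j := by rw [h3]
    _ = y' := hj2

theorem swap_le (π : Set ℕ) {G : Type u} [Group G] [Finite G] (N : Subgroup G) (v : G) :
    Nat.card {p : G × G // p.1 ∈ N ∧ p.2 ∈ {y : G | v⁻¹ * y ∈ N ∧ PiElt π y} ∧
        Commute p.1 p.2} ≤
      Nat.card {p : G × G // v⁻¹ * p.1 ∈ N ∧ p.2 ∈ {a : G | a ∈ N ∧ PiElt π a} ∧
        Commute p.1 p.2} := by
  choose A B hA hB hAB hπA hπB using (fun g : G => elt_decomp π g)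
  have hmem : ∀ p : {p : G × G // p.1 ∈ N ∧ p.2 ∈ {y : G | v⁻¹ * y ∈ N ∧ PiElt π y} ∧
      Commute p.1 p.2},
      v⁻¹ * (p.1.2 * B p.1.1) ∈ N ∧ A p.1.1 ∈ {a : G | a ∈ N ∧ PiElt π a} ∧
        Commute (p.1.2 * B p.1.1) (A p.1.1) := by
    rintro ⟨⟨n, y⟩, hn, ⟨hy1, hy2⟩, hny⟩
    have hzN : Subgroup.zpowers n ≤ N := Subgroup.zpowers_le.mpr hn
    refine ⟨?_, ⟨hzN (hA n), hπA n⟩, ?_⟩
    · show v⁻¹ * (y * B n) ∈ N
      rw [← mul_assoc]
      exact N.mul_mem hy1 (hzN (hB n))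
    · show Commute (y * B n) (A n)
      have h1 : Commute y (A n) := by
        obtain ⟨k, hk⟩ := Subgroup.mem_zpowers_iff.mp (hA n)
        rw [← hk]
        exact (hny.symm).zpow_right k
      have h2 : Commute (B n) (A n) := by
        obtain ⟨k, hk⟩ := Subgroup.mem_zpowers_iff.mp (hA n)
        obtain ⟨l, hl⟩ := Subgroup.mem_zpowers_iff.mp (hB n)
        rw [← hk, ← hl]
        exact (Commute.refl n).zpow_zpow l k
      exact h1.mul_left h2
  apply Nat.card_le_card_of_injective (fun p => (⟨(p.1.2 * B p.1.1, A p.1.1), hmem p⟩ :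
    {p : G × G // v⁻¹ * p.1 ∈ N ∧ p.2 ∈ {a : G | a ∈ N ∧ PiElt π a} ∧ Commute p.1 p.2}))
  rintro ⟨⟨n, y⟩, hn, ⟨hy1, hy2⟩, hny⟩ ⟨⟨n', y'⟩, hn', ⟨hy1', hy2'⟩, hny'⟩ h
  have h1 := congrArg (fun z : {p : G × G // v⁻¹ * p.1 ∈ N ∧
    p.2 ∈ {a : G | a ∈ N ∧ PiElt π a} ∧ Commute p.1 p.2} => (z.1 : G × G)) h
  simp only [Prod.mk.injEq] at h1
  obtain ⟨h2, h3⟩ := h1
  have hyB : Commute y (B n) := by
    obtain ⟨l, hl⟩ := Subgroup.mem_zpowers_iff.mp (hB n)
    rw [← hl]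
    exact (hny.symm).zpow_right l
  have hyB' : Commute y' (B n') := by
    obtain ⟨l, hl⟩ := Subgroup.mem_zpowers_iff.mp (hB n')
    rw [← hl]
    exact (hny'.symm).zpow_right l
  have h4 : y = y' := decomp_unique π y y' (B n) (B n') hy2 hy2' (hπB n) (hπB n') hyB hyB' h2
  subst h4
  have h5 : B n = B n' := mul_left_cancel h2
  have h6 : n = n' := by
    calc n = A n * B n := (hAB n).symm
      _ = A n' * B n' := by rw [h3, h5]
      _ = n' := hAB n'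
  subst h6
  rfl

theorem fiber_le (π : Set ℕ) {G : Type u} [Group G] [Finite G] (N : Subgroup G) (u v : G) :
    Nat.card {p : G × G // u⁻¹ * p.1 ∈ N ∧ p.2 ∈ {y : G | v⁻¹ * y ∈ N ∧ PiElt π y} ∧
        Commute p.1 p.2} ≤
      Nat.card {p : N × N // Commute p.1 p.2 ∧ PiElt π p.2} := by
  refine (coset_le N u _).trans ((swap_le π N v).trans ((coset_le N v _).trans ?_))
  have hmem : ∀ p : {p : G × G // p.1 ∈ N ∧ p.2 ∈ {a : G | a ∈ N ∧ PiElt π a} ∧
      Commute p.1 p.2},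
      Commute (⟨p.1.1, p.2.1⟩ : N) (⟨p.1.2, p.2.2.1.1⟩ : N) ∧
        PiElt π (⟨p.1.2, p.2.2.1.1⟩ : N) := by
    rintro ⟨⟨n, a⟩, hn, ⟨ha1, ha2⟩, hna⟩
    refine ⟨Subtype.ext hna.eq, ?_⟩
    intro q hq hqd
    rw [Subgroup.orderOf_mk] at hqd
    exact ha2 q hq hqd
  apply Nat.card_le_card_of_injective (fun p => (⟨(⟨p.1.1, p.2.1⟩, ⟨p.1.2, p.2.2.1.1⟩), hmem p⟩ :
    {p : N × N // Commute p.1 p.2 ∧ PiElt π p.2}))
  rintro ⟨⟨n, a⟩, hp⟩ ⟨⟨n', a'⟩, hp'⟩ h
  have h1 := congrArg (fun z : {p : N × N // Commute p.1 p.2 ∧ PiElt π p.2} =>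
    (((z.1.1 : N) : G), ((z.1.2 : N) : G))) h
  simp only [Prod.mk.injEq] at h1
  obtain ⟨h2, h3⟩ := h1
  subst h2
  subst h3
  rfl

theorem main_le (π : Set ℕ) {G : Type u} [Group G] [Finite G] (N : Subgroup G) [N.Normal] :
    Nat.card {p : G × G // Commute p.1 p.2 ∧ PiElt π p.2} ≤
      Nat.card {p : (G ⧸ N) × (G ⧸ N) // Commute p.1 p.2 ∧ PiElt π p.2} *
        Nat.card {p : N × N // Commute p.1 p.2 ∧ PiElt π p.2} := by
  classical
  haveI : Fintype {p : (G ⧸ N) × (G ⧸ N) // Commute p.1 p.2 ∧ PiElt π p.2} := Fintype.ofFinite _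
  let Φ : {p : G × G // Commute p.1 p.2 ∧ PiElt π p.2} →
      {p : (G ⧸ N) × (G ⧸ N) // Commute p.1 p.2 ∧ PiElt π p.2} :=
    fun p => ⟨((p.1.1 : G ⧸ N), (p.1.2 : G ⧸ N)), p.2.1.map (QuotientGroup.mk' N),
      fun q hq hqd => p.2.2 q hq (hqd.trans (orderOf_map_dvd (QuotientGroup.mk' N) p.1.2))⟩
  rw [Nat.card_congr (Equiv.sigmaFiberEquiv Φ).symm, Nat.card_sigma]
  have hfib : ∀ c, Nat.card {p // Φ p = c} ≤
      Nat.card {p : N × N // Commute p.1 p.2 ∧ PiElt π p.2} := by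
    rintro ⟨⟨X, Y⟩, hXY, hY⟩
    obtain ⟨u, rfl⟩ := QuotientGroup.mk_surjective X
    obtain ⟨v, rfl⟩ := QuotientGroup.mk_surjective Y
    refine le_trans ?_ (fiber_le π N u v)
    have hm : ∀ s : {p // Φ p = ⟨((u : G ⧸ N), (v : G ⧸ N)), hXY, hY⟩},
        u⁻¹ * s.1.1.1 ∈ N ∧ s.1.1.2 ∈ {y : G | v⁻¹ * y ∈ N ∧ PiElt π y} ∧
          Commute s.1.1.1 s.1.1.2 := by
      rintro ⟨⟨⟨x, y⟩, hxy, hy⟩, hs⟩
      have h1 : ((x : G ⧸ N), (y : G ⧸ N)) = ((u : G ⧸ N), (v : G ⧸ N)) :=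
        congrArg Subtype.val hs
      simp only [Prod.mk.injEq] at h1
      obtain ⟨h2, h3⟩ := h1
      exact ⟨QuotientGroup.eq.mp h2.symm, ⟨QuotientGroup.eq.mp h3.symm, hy⟩, hxy⟩
    apply Nat.card_le_card_of_injective (fun s => (⟨s.1.1, hm s⟩ :
      {p : G × G // u⁻¹ * p.1 ∈ N ∧ p.2 ∈ {y : G | v⁻¹ * y ∈ N ∧ PiElt π y} ∧
        Commute p.1 p.2}))
    intro s s' h
    have h1 := congrArg (fun z : {p : G × G // u⁻¹ * p.1 ∈ N ∧
      p.2 ∈ {y : G | v⁻¹ * y ∈ N ∧ PiElt π y} ∧ Commute p.1 p.2} => (z.1 : G × G)) h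
    exact Subtype.ext (Subtype.ext h1)
  calc ∑ c, Nat.card {p // Φ p = c}
      ≤ ∑ _c : {p : (G ⧸ N) × (G ⧸ N) // Commute p.1 p.2 ∧ PiElt π p.2},
        Nat.card {p : N × N // Commute p.1 p.2 ∧ PiElt π p.2} :=
        Finset.sum_le_sum (fun c _ => hfib c)
    _ = Nat.card {p : (G ⧸ N) × (G ⧸ N) // Commute p.1 p.2 ∧ PiElt π p.2} *
        Nat.card {p : N × N // Commute p.1 p.2 ∧ PiElt π p.2} := by
        rw [Finset.sum_const, Finset.card_univ, smul_eq_mul, Nat.card_eq_fintype_card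
          (α := {p : (G ⧸ N) × (G ⧸ N) // Commute p.1 p.2 ∧ PiElt π p.2})]

theorem result {G : Type*} [Group G] [Finite G] (N : Subgroup G) [N.Normal] (π : Set ℕ) :
    Nat.card {C : ConjClasses G // ∀ q : ℕ, q.Prime → (∃ g : G, ConjClasses.mk g = C ∧ q ∣ orderOf g) → q ∈ π} ≤ Nat.card {C : ConjClasses N // ∀ q : ℕ, q.Prime → (∃ g : N, ConjClasses.mk g = C ∧ q ∣ orderOf g) → q ∈ π} * Nat.card {C : ConjClasses (G ⧸ N) // ∀ q : ℕ, q.Prime → (∃ g : (G ⧸ N), ConjClasses.mk g = C ∧ q ∣ orderOf g) → q ∈ π} := by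
  have hG := burn π G
  have hN := burn π N
  have hQ := burn π (G ⧸ N)
  have hmain := main_le π N
  rw [hG, hN, hQ] at hmain
  have hcard : Nat.card G = Nat.card (G ⧸ N) * Nat.card N :=
    Subgroup.card_eq_card_quotient_mul_card_subgroup N
  have hpos : 0 < Nat.card G := Nat.card_pos
  show Nat.card {C : ConjClasses G // S4106.PiClass π C} ≤
    Nat.card {C : ConjClasses N // S4106.PiClass π C} *
      Nat.card {C : ConjClasses (G ⧸ N) // S4106.PiClass π C}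
  apply Nat.le_of_mul_le_mul_right _ hpos
  calc Nat.card {C : ConjClasses G // S4106.PiClass π C} * Nat.card G
      ≤ Nat.card {C : ConjClasses (G ⧸ N) // S4106.PiClass π C} * Nat.card (G ⧸ N) *
        (Nat.card {C : ConjClasses N // S4106.PiClass π C} * Nat.card N) := hmain
    _ = Nat.card {C : ConjClasses N // S4106.PiClass π C} *
      Nat.card {C : ConjClasses (G ⧸ N) // S4106.PiClass π C} * Nat.card G := by
        rw [hcard]
        ring

end Cfsg.Agent.S4152
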