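import Cfsg.Statements.S4154

import Mathlib

set_option autoImplicit false
open Cfsg
open scoped Pointwise

namespace Cfsg.Agent.S4154

/-- the fixed-point subgroup of an automorphism -/
def fixedSub {H : Type*} [Group H] (β : MulAut H) : Subgroup H where
  carrier := {c | β c = c}
  mul_mem' := by
    intro a b ha hb
    show β (a * b) = a * b
    rw [map_mul, ha, hb]
  one_mem' := map_one β
  inv_mem' := by
    intro a ha
    show β a⁻¹ = a⁻¹
    rw [map_inv, ha]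

theorem lemmaL {H : Type*} [Group H] [Finite H] (β : MulAut H)
    (hyp : ∀ x : H, ∃ c g : H, β c = c ∧ x = c * (g⁻¹ * β g)) :
    ∀ g : H, β (g⁻¹ * β g) = g⁻¹ * β g → g⁻¹ * β g = 1 := by
  intro g hg
  -- K = range φ
  have hKcard : Nat.card (Set.range (fun g : H => g⁻¹ * β g)) ≤ (fixedSub β).index := by
    rw [Subgroup.index_eq_card]
    let f : H ⧸ fixedSub β → Set.range (fun g : H => g⁻¹ * β g) :=
      Quotient.lift (fun a : H => (⟨a * (β a)⁻¹, ⟨a⁻¹, by simp⟩⟩ :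
        Set.range (fun g : H => g⁻¹ * β g))) (by
        intro a b hab
        apply Subtype.ext
        have h1 : a⁻¹ * b ∈ fixedSub β := QuotientGroup.leftRel_apply.mp hab
        have h2 : β (a⁻¹ * b) = a⁻¹ * b := h1
        rw [map_mul, map_inv] at h2
        show a * (β a)⁻¹ = b * (β b)⁻¹
        have h3 : β b = β a * (a⁻¹ * b) := by rw [← h2]; group
        rw [h3]; group)
    apply Nat.card_le_card_of_surjective f
    rintro ⟨k, a, rfl⟩
    refine ⟨QuotientGroup.mk a⁻¹, ?_⟩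
    apply Subtype.ext
    show a⁻¹ * (β a⁻¹)⁻¹ = a⁻¹ * β a
    rw [map_inv, inv_inv]
  let μ : (fixedSub β) × (Set.range (fun g : H => g⁻¹ * β g)) → H := fun x => (x.1 : H) * (x.2 : H)
  have hsurj : Function.Surjective μ := by
    intro x
    obtain ⟨c, a, hc, hx⟩ := hyp x
    exact ⟨⟨⟨c, hc⟩, ⟨a⁻¹ * β a, a, rfl⟩⟩, hx.symm⟩
  have hcard : Nat.card ((fixedSub β) × (Set.range (fun g : H => g⁻¹ * β g))) ≤ Nat.card H := by
    rw [Nat.card_prod, ← Subgroup.card_mul_index (fixedSub β)]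
    exact Nat.mul_le_mul_left _ hKcard
  have hbij := hsurj.bijective_of_nat_card_le hcard
  have h1 : μ (⟨g⁻¹ * β g, hg⟩, ⟨1, 1, by simp⟩) = μ (⟨1, map_one β⟩, ⟨g⁻¹ * β g, g, rfl⟩) := by
    show (g⁻¹ * β g) * 1 = 1 * (g⁻¹ * β g)
    rw [mul_one, one_mul]
  have h2 := hbij.1 h1
  have h3 := congrArg (fun x => (x.1 : H)) h2
  exact h3

theorem result {G : Type*} [Group G] [Finite G] (α : MulAut G)
    (hccp : ∀ x : G, ∃ c g : G, α c = c ∧ x = c * (g⁻¹ * α g))
    (N : Subgroup G) [N.Normal] (hN : ∀ n ∈ N, α n ∈ N) :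
    (∀ x : G, ∃ c g : G, c⁻¹ * α c ∈ N ∧ x⁻¹ * (c * (g⁻¹ * α g)) ∈ N) ∧
    (∀ x : G, x⁻¹ * α x ∈ N → ∃ c : G, α c = c ∧ c⁻¹ * x ∈ N) := by
  constructor
  · intro x
    obtain ⟨c, g, hc, hx⟩ := hccp x
    refine ⟨c, g, ?_, ?_⟩
    · rw [hc, inv_mul_cancel]; exact N.one_mem
    · rw [← hx, inv_mul_cancel]; exact N.one_mem
  · intro x hx
    have hmap : N.map (α : G →* G) = N := by
      apply Subgroup.eq_of_le_of_card_ge
      · rintro y ⟨n, hn, rfl⟩
        exact hN n hn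
      · rw [Subgroup.card_map_of_injective α.injective]
    have hyp : ∀ y : G ⧸ N, ∃ c g : G ⧸ N, QuotientGroup.congr N N α hmap c = c ∧
        y = c * (g⁻¹ * QuotientGroup.congr N N α hmap g) := by
      intro y
      obtain ⟨y', rfl⟩ := QuotientGroup.mk_surjective y
      obtain ⟨c, g, hc, hy⟩ := hccp y'
      refine ⟨QuotientGroup.mk c, QuotientGroup.mk g, ?_, ?_⟩
      · rw [QuotientGroup.congr_mk, hc]
      · rw [QuotientGroup.congr_mk, hy]; rfl
    obtain ⟨c, g, hc, hxe⟩ := hccp x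
    have hL := lemmaL (QuotientGroup.congr N N α hmap) hyp (QuotientGroup.mk g)
    rw [QuotientGroup.congr_mk] at hL
    have hk : (QuotientGroup.mk (g⁻¹ * α g) : G ⧸ N) = 1 := by
      apply hL
      show QuotientGroup.congr N N α hmap (QuotientGroup.mk (g⁻¹ * α g)) = QuotientGroup.mk (g⁻¹ * α g)
      rw [QuotientGroup.congr_mk]
      -- α (g⁻¹ α g) ≡ g⁻¹ α g mod N
      rw [QuotientGroup.eq]
      -- (α (g⁻¹ * α g))⁻¹ * (g⁻¹ * α g) ∈ N
      have h1 : g⁻¹ * α g = c⁻¹ * x := by rw [hxe]; group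
      rw [h1, map_mul, map_inv, hc]
      have h2 : (c⁻¹ * α x)⁻¹ * (c⁻¹ * x) = (x⁻¹ * α x)⁻¹ := by group
      rw [h2]
      exact N.inv_mem hx
    refine ⟨c, hc, ?_⟩
    have h1 : c⁻¹ * x = g⁻¹ * α g := by rw [hxe]; group
    rw [h1]
    exact (QuotientGroup.eq_one_iff _).mp hk

end Cfsg.Agent.S4154
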