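import Cfsg.Statements.S4156

import Mathlib

set_option autoImplicit false
open Cfsg
open scoped Pointwise

namespace Cfsg.Agent.S4156

universe u

noncomputable section

variable (n : ℕ) (F : Type u) [Field F]

def sumMap : (Fin (n + 1) → F) →ₗ[F] F := ∑ i : Fin (n + 1), LinearMap.proj i

lemma sumMap_apply (v : Fin (n + 1) → F) : sumMap n F v = ∑ i, v i := by
  simp [sumMap, LinearMap.sum_apply]

abbrev Hyp : Submodule F (Fin (n + 1) → F) := LinearMap.ker (sumMap n F)

def permLin (σ : Equiv.Perm (Fin (n + 1))) : (Fin (n + 1) → F) →ₗ[F] (Fin (n + 1) → F) :=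
  LinearMap.funLeft F F σ.symm

lemma permLin_apply (σ : Equiv.Perm (Fin (n + 1))) (v : Fin (n + 1) → F) (k : Fin (n + 1)) :
    permLin n F σ v k = v (σ.symm k) := rfl

lemma permLin_mem (σ : Equiv.Perm (Fin (n + 1))) (v : Fin (n + 1) → F) (hv : v ∈ Hyp n F) :
    permLin n F σ v ∈ Hyp n F := by
  rw [LinearMap.mem_ker, sumMap_apply] at hv ⊢
  rw [← hv]
  exact Equiv.sum_comp σ.symm v

def permHyp (σ : Equiv.Perm (Fin (n + 1))) : Hyp n F →ₗ[F] Hyp n F :=
  (permLin n F σ).restrict (fun v hv => permLin_mem n F σ v hv)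

lemma permHyp_apply (σ : Equiv.Perm (Fin (n + 1))) (v : Hyp n F) (k : Fin (n + 1)) :
    (permHyp n F σ v : Fin (n + 1) → F) k = (v : Fin (n + 1) → F) (σ.symm k) := rfl

def permHom : Equiv.Perm (Fin (n + 1)) →* (Hyp n F →ₗ[F] Hyp n F) where
  toFun := permHyp n F
  map_one' := by
    apply LinearMap.ext; intro v; apply Subtype.ext; funext k
    rw [permHyp_apply]; rfl
  map_mul' σ τ := by
    apply LinearMap.ext; intro v; apply Subtype.ext; funext k
    rw [permHyp_apply, Module.End.mul_apply, permHyp_apply, permHyp_apply]; rfl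

lemma finrank_hyp : Module.finrank F (Hyp n F) = n := by
  have h := LinearMap.finrank_range_add_finrank_ker (sumMap n F)
  have hr : LinearMap.range (sumMap n F) = ⊤ := by
    rw [LinearMap.range_eq_top]
    intro c
    refine ⟨Pi.single 0 c, ?_⟩
    rw [sumMap_apply]
    simp
  rw [hr, finrank_top, Module.finrank_self, Module.finrank_fin_fun] at h
  show Module.finrank F ↥(LinearMap.ker (sumMap n F)) = n
  omega

end

theorem result (n : ℕ) (hn : 5 ≤ n) (F : Type*) [Field F] [Finite F] :
    ∃ f : alternatingGroup (Fin (n + 1)) →* Matrix.ProjectiveSpecialLinearGroup (Fin n) F, Function.Injective f := by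
  classical
  let b : Module.Basis (Fin n) F (Hyp n F) := Module.finBasisOfFinrankEq F (Hyp n F) (finrank_hyp n F)
  let T : (Hyp n F →ₗ[F] Hyp n F) ≃ₐ[F] Matrix (Fin n) (Fin n) F := LinearMap.toMatrixAlgEquiv b
  have hcard : 5 ≤ Nat.card (Fin (n + 1)) := by simp; omega
  have hdet : ∀ σ : alternatingGroup (Fin (n + 1)),
      LinearMap.det (permHom n F (σ : Equiv.Perm (Fin (n + 1)))) = 1 := by
    let d : alternatingGroup (Fin (n + 1)) →* Fˣ :=
      (Units.map (LinearMap.det : (Hyp n F →ₗ[F] Hyp n F) →* F)).comp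
        ((permHom n F).toHomUnits.comp (alternatingGroup (Fin (n + 1))).subtype)
    have hk : d.ker = ⊤ := by
      rw [eq_top_iff, ← commutator_alternatingGroup_eq_top hcard]
      exact Abelianization.commutator_subset_ker d
    intro σ
    have h1 : d σ = 1 := by
      have : σ ∈ d.ker := by rw [hk]; trivial
      exact this
    have h2 := congrArg Units.val h1
    exact h2
  let m : alternatingGroup (Fin (n + 1)) →* Matrix.SpecialLinearGroup (Fin n) F :=
    { toFun := fun σ => ⟨T (permHom n F (σ : Equiv.Perm (Fin (n + 1)))), by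
        show Matrix.det (LinearMap.toMatrix b b _) = 1
        rw [LinearMap.det_toMatrix]; exact hdet σ⟩
      map_one' := by
        apply Subtype.ext
        show T (permHom n F ((1 : alternatingGroup (Fin (n + 1))) : Equiv.Perm (Fin (n + 1)))) = 1
        rw [Subgroup.coe_one, map_one, map_one]
      map_mul' := fun σ τ => by
        apply Subtype.ext
        show T (permHom n F ((σ * τ : alternatingGroup (Fin (n + 1))) : Equiv.Perm (Fin (n + 1)))) =
          T (permHom n F σ) * T (permHom n F τ)
        rw [Subgroup.coe_mul, map_mul, map_mul] }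
  let f := (QuotientGroup.mk' (Subgroup.center (Matrix.SpecialLinearGroup (Fin n) F))).comp m
  refine ⟨f, ?_⟩
  haveI := alternatingGroup.isSimpleGroup hcard
  rw [← MonoidHom.ker_eq_bot_iff]
  rcases Subgroup.Normal.eq_bot_or_eq_top (inferInstance : f.ker.Normal) with h | h
  · exact h
  · exfalso
    let i0 : Fin (n + 1) := ⟨0, by omega⟩
    let i1 : Fin (n + 1) := ⟨1, by omega⟩
    let i2 : Fin (n + 1) := ⟨2, by omega⟩
    let i3 : Fin (n + 1) := ⟨3, by omega⟩
    have h01 : i0 ≠ i1 := by intro h; exact absurd (congrArg Fin.val h) (by norm_num [i0, i1])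
    have h12 : i1 ≠ i2 := by intro h; exact absurd (congrArg Fin.val h) (by norm_num [i1, i2])
    have h02 : i0 ≠ i2 := by intro h; exact absurd (congrArg Fin.val h) (by norm_num [i0, i2])
    have h03 : i0 ≠ i3 := by intro h; exact absurd (congrArg Fin.val h) (by norm_num [i0, i3])
    have h13 : i1 ≠ i3 := by intro h; exact absurd (congrArg Fin.val h) (by norm_num [i1, i3])
    have h23 : i2 ≠ i3 := by intro h; exact absurd (congrArg Fin.val h) (by norm_num [i2, i3])
    let c : Equiv.Perm (Fin (n + 1)) := Equiv.swap i0 i1 * Equiv.swap i1 i2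
    have hc : c ∈ alternatingGroup (Fin (n + 1)) := by
      rw [Equiv.Perm.mem_alternatingGroup, Equiv.Perm.sign_mul, Equiv.Perm.sign_swap h01,
        Equiv.Perm.sign_swap h12]
      rfl
    have hc0 : c.symm i0 = i2 := by
      rw [Equiv.symm_apply_eq]
      show i0 = Equiv.swap i0 i1 (Equiv.swap i1 i2 i2)
      rw [Equiv.swap_apply_right, Equiv.swap_apply_right]
    have hc3 : c.symm i3 = i3 := by
      rw [Equiv.symm_apply_eq]
      show i3 = Equiv.swap i0 i1 (Equiv.swap i1 i2 i3)
      rw [Equiv.swap_apply_of_ne_of_ne h13.symm h23.symm, Equiv.swap_apply_of_ne_of_ne h03.symm h13.symm]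
    have hmem : (⟨c, hc⟩ : alternatingGroup (Fin (n + 1))) ∈ f.ker := by rw [h]; trivial
    rw [MonoidHom.mem_ker] at hmem
    have hcen : m ⟨c, hc⟩ ∈ Subgroup.center (Matrix.SpecialLinearGroup (Fin n) F) :=
      (QuotientGroup.eq_one_iff _).mp hmem
    rw [Matrix.SpecialLinearGroup.mem_center_iff] at hcen
    obtain ⟨r, _, hr⟩ := hcen
    have hr' : Matrix.scalar (Fin n) r = T (permHom n F c) := hr
    have hsc : permHom n F c = r • LinearMap.id := by
      have h1 : T.symm (T (permHom n F c)) = permHom n F c := T.symm_apply_apply _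
      rw [← h1, ← hr']
      exact Matrix.toLin_scalar b r
    let v : Hyp n F := ⟨Pi.single i0 1 - Pi.single i3 1, by
      rw [LinearMap.mem_ker, sumMap_apply]
      simp [Finset.sum_sub_distrib]⟩
    have hv : ∀ k : Fin (n + 1), ((permHom n F c v : Hyp n F) : Fin (n + 1) → F) k =
        r * ((Pi.single i0 (1 : F) : Fin (n + 1) → F) k - (Pi.single i3 (1 : F) : Fin (n + 1) → F) k) := by
      intro k
      rw [hsc]
      rfl
    have hv' : ∀ k : Fin (n + 1), ((permHom n F c v : Hyp n F) : Fin (n + 1) → F) k =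
        (Pi.single i0 (1 : F) : Fin (n + 1) → F) (c.symm k) - (Pi.single i3 (1 : F) : Fin (n + 1) → F) (c.symm k) := by
      intro k
      rfl
    have e0 := (hv i0).symm.trans (hv' i0)
    have e3 := (hv i3).symm.trans (hv' i3)
    rw [hc0] at e0
    rw [hc3] at e3
    simp only [Pi.single_eq_same, Pi.single_eq_of_ne h03, Pi.single_eq_of_ne h02.symm,
      Pi.single_eq_of_ne h23, Pi.single_eq_of_ne h03.symm, sub_zero, zero_sub, mul_one, mul_neg] at e0 e3
    have hr0 : r = 0 := e0
    have hr1 : r = 1 := neg_injective e3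
    rw [hr0] at hr1
    exact zero_ne_one hr1

end Cfsg.Agent.S4156
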