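import Cfsg.Statements.S4163

import Mathlib

set_option autoImplicit false
open Cfsg
open scoped Pointwise

namespace Cfsg.Agent.S4163

universe u
open Subgroup

lemma small_comm_central {G : Type u} [Group G] [Finite G] (A : Subgroup G) [hAn : A.Normal]
    (hA : ∀ a ∈ A, ∀ b ∈ A, a * b = b * a) (m : ℕ)
    (hmin : ∀ z : G, 1 < (centralizer ({z} : Set G)).index → m ≤ (centralizer ({z} : Set G)).index)
    (x : G) (hx : (centralizer ({x} : Set G)).index = m) (k : G) (hk : k ∈ A) :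
    k * x * k⁻¹ * x⁻¹ ∈ center G := by
  classical
  obtain ⟨y, hy⟩ : ∃ y : G, y = k * x * k⁻¹ * x⁻¹ := ⟨_, rfl⟩
  rw [← hy]
  by_cases hy1 : y = 1
  · rw [hy1]; exact (center G).one_mem
  obtain ⟨D, hD⟩ : ∃ D : Subgroup G, D = centralizer ({x} : Set G) := ⟨_, rfl⟩
  obtain ⟨Cy, hCy⟩ : ∃ Cy : Subgroup G, Cy = centralizer ({y} : Set G) := ⟨_, rfl⟩
  have hDmem : ∀ g : G, g ∈ D ↔ g * x = x * g := by
    intro g; rw [hD, mem_centralizer_iff]; constructor
    · intro h; exact (h x (Set.mem_singleton x)).symm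
    · intro h z hz; rw [Set.mem_singleton_iff.mp hz]; exact h.symm
  have hCmem : ∀ g : G, g ∈ Cy ↔ g * y = y * g := by
    intro g; rw [hCy, mem_centralizer_iff]; constructor
    · intro h; exact (h y (Set.mem_singleton y)).symm
    · intro h z hz; rw [Set.mem_singleton_iff.mp hz]; exact h.symm
  suffices hlt : Cy.index < m by
    have h1 : ¬ 1 < Cy.index := fun h => by
      have := hmin y (hCy ▸ h); rw [← hCy] at this; omega
    have h2 : Cy.index ≠ 0 := Subgroup.index_ne_zero_of_finite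
    have h3 : Cy.index = 1 := by omega
    rw [Subgroup.index_eq_one] at h3
    rw [mem_center_iff]
    intro g
    have : g ∈ Cy := h3 ▸ mem_top g
    exact (hCmem g).mp this
  have hDidx : D.index = m := by rw [hD]; exact hx
  have hyA : y ∈ A := by
    rw [hy]
    have h1 : x * k⁻¹ * x⁻¹ ∈ A := hAn.conj_mem _ (A.inv_mem hk) x
    have : k * x * k⁻¹ * x⁻¹ = k * (x * k⁻¹ * x⁻¹) := by group
    rw [this]; exact A.mul_mem hk h1
  have hACy : A ≤ Cy := fun a ha => (hCmem a).mpr (hA a ha y hyA)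
  -- conjugates of y by D
  have hconj : ∀ d ∈ D, d * y * d⁻¹ = (d * k * d⁻¹) * x * (d * k * d⁻¹)⁻¹ * x⁻¹ := by
    intro d hd
    have h1 := (hDmem d).mp hd
    have h2 : d⁻¹ * x⁻¹ = x⁻¹ * d⁻¹ := by
      calc d⁻¹ * x⁻¹ = (x * d)⁻¹ := by group
        _ = (d * x)⁻¹ := by rw [h1]
        _ = x⁻¹ * d⁻¹ := by group
    rw [hy]
    calc d * (k * x * k⁻¹ * x⁻¹) * d⁻¹ = d * k * (x * k⁻¹) * (x⁻¹ * d⁻¹) := by group
      _ = d * k * (x * k⁻¹) * (d⁻¹ * x⁻¹) := by rw [h2]
      _ = d * k * d⁻¹ * (d * x) * k⁻¹ * d⁻¹ * x⁻¹ := by group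
      _ = d * k * d⁻¹ * (x * d) * k⁻¹ * d⁻¹ * x⁻¹ := by rw [h1]
      _ = (d * k * d⁻¹) * x * (d * k * d⁻¹)⁻¹ * x⁻¹ := by group
  have hphi : ∀ a b : G, a * x * a⁻¹ * x⁻¹ = b * x * b⁻¹ * x⁻¹ ↔ a⁻¹ * b ∈ D := by
    intro a b
    rw [hDmem]
    constructor
    · intro h
      have h' : a * x * a⁻¹ = b * x * b⁻¹ := by
        calc a * x * a⁻¹ = a * x * a⁻¹ * x⁻¹ * x := by group
          _ = b * x * b⁻¹ * x⁻¹ * x := by rw [h]
          _ = b * x * b⁻¹ := by group
      calc a⁻¹ * b * x = a⁻¹ * (b * x * b⁻¹) * b := by group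
        _ = a⁻¹ * (a * x * a⁻¹) * b := by rw [h']
        _ = x * (a⁻¹ * b) := by group
    · intro h
      calc a * x * a⁻¹ * x⁻¹ = a * (x * (a⁻¹ * b)) * b⁻¹ * x⁻¹ := by group
        _ = a * (a⁻¹ * b * x) * b⁻¹ * x⁻¹ := by rw [h]
        _ = b * x * b⁻¹ * x⁻¹ := by group
  -- the injection
  let F : D ⧸ (Cy.subgroupOf D) → A ⧸ (D.subgroupOf A) :=
    Quotient.map' (fun d : D => (⟨d * k * (d : G)⁻¹, hAn.conj_mem k hk d⟩ : A)) (by
      intro d₁ d₂ h
      rw [QuotientGroup.leftRel_apply] at h ⊢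
      rw [mem_subgroupOf] at h ⊢
      have h1 : (d₁ : G)⁻¹ * d₂ ∈ Cy := h
      show ((d₁ : G) * k * (d₁ : G)⁻¹)⁻¹ * ((d₂ : G) * k * (d₂ : G)⁻¹) ∈ D
      rw [← hphi, ← hconj _ d₁.2, ← hconj _ d₂.2]
      have h2 := (hCmem _).mp h1
      calc (d₁ : G) * y * (d₁ : G)⁻¹ = d₁ * (y * ((d₁ : G)⁻¹ * d₂)) * (d₂ : G)⁻¹ := by group
        _ = d₁ * (((d₁ : G)⁻¹ * d₂) * y) * (d₂ : G)⁻¹ := by rw [h2]
        _ = (d₂ : G) * y * (d₂ : G)⁻¹ := by group)
  have hF : ∀ d : D, F (QuotientGroup.mk d)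
      = ((⟨d * k * (d : G)⁻¹, hAn.conj_mem k hk d⟩ : A) : A ⧸ (D.subgroupOf A)) := fun d => rfl
  let F' : Option (D ⧸ (Cy.subgroupOf D)) → A ⧸ (D.subgroupOf A) := fun o =>
    match o with
    | none => ((1 : A) : A ⧸ (D.subgroupOf A))
    | some q => F q
  have hinj : Function.Injective F' := by
    intro o₁ o₂
    match o₁, o₂ with
    | none, none => intro _; rfl
    | none, some q =>
      intro h
      exfalso
      induction q using QuotientGroup.induction_on with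
      | H d =>
        have h' : ((1 : A) : A ⧸ (D.subgroupOf A)) = F (QuotientGroup.mk d) := h
        rw [hF, QuotientGroup.eq, mem_subgroupOf] at h'
        have h1 : (1 : G)⁻¹ * ((d : G) * k * (d : G)⁻¹) ∈ D := h'
        rw [← hphi, ← hconj _ d.2] at h1
        apply hy1
        have h2 : (d : G) * y * (d : G)⁻¹ = 1 := by rw [← h1]; group
        calc y = (d : G)⁻¹ * ((d : G) * y * (d : G)⁻¹) * d := by group
          _ = 1 := by rw [h2]; group
    | some q, none =>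
      intro h
      exfalso
      induction q using QuotientGroup.induction_on with
      | H d =>
        have h' : F (QuotientGroup.mk d) = ((1 : A) : A ⧸ (D.subgroupOf A)) := h
        rw [hF, eq_comm, QuotientGroup.eq, mem_subgroupOf] at h'
        have h1 : (1 : G)⁻¹ * ((d : G) * k * (d : G)⁻¹) ∈ D := h'
        rw [← hphi, ← hconj _ d.2] at h1
        apply hy1
        have h2 : (d : G) * y * (d : G)⁻¹ = 1 := by rw [← h1]; group
        calc y = (d : G)⁻¹ * ((d : G) * y * (d : G)⁻¹) * d := by group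
          _ = 1 := by rw [h2]; group
    | some q₁, some q₂ =>
      intro h
      congr 1
      induction q₁ using QuotientGroup.induction_on with
      | H d₁ =>
        induction q₂ using QuotientGroup.induction_on with
        | H d₂ =>
          have h' : F (QuotientGroup.mk d₁) = F (QuotientGroup.mk d₂) := h
          rw [hF, hF, QuotientGroup.eq, mem_subgroupOf] at h'
          have h1 : ((d₁ : G) * k * (d₁ : G)⁻¹)⁻¹ * ((d₂ : G) * k * (d₂ : G)⁻¹) ∈ D := h'
          rw [← hphi, ← hconj _ d₁.2, ← hconj _ d₂.2] at h1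
          rw [QuotientGroup.eq, mem_subgroupOf]
          show (d₁ : G)⁻¹ * d₂ ∈ Cy
          rw [hCmem]
          calc (d₁ : G)⁻¹ * d₂ * y = (d₁ : G)⁻¹ * ((d₂ : G) * y * (d₂ : G)⁻¹) * d₂ := by group
            _ = (d₁ : G)⁻¹ * ((d₁ : G) * y * (d₁ : G)⁻¹) * d₂ := by rw [h1]
            _ = y * ((d₁ : G)⁻¹ * d₂) := by group
  have hcard := Nat.card_le_card_of_injective F' hinj
  rw [Finite.card_option] at hcard
  have hr : Cy.relIndex D + 1 ≤ D.relIndex A := hcard
  -- index arithmetic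
  obtain ⟨S', hS'⟩ : ∃ S' : Subgroup G, S' = D ⊓ Cy := ⟨_, rfl⟩
  have hS'D : S' ≤ D := by rw [hS']; exact inf_le_left
  have hS'C : S' ≤ Cy := by rw [hS']; exact inf_le_right
  have hAS' : A ⊓ S' = A ⊓ D := by
    rw [hS', ← inf_assoc]
    exact inf_eq_left.mpr (inf_le_left.trans hACy)
  have e1 : A.relIndex (S' ⊔ A) * (S' ⊔ A).index = A.index := relIndex_mul_index le_sup_right
  have e2 : A.relIndex (S' ⊔ A) = A.relIndex S' := relIndex_sup_right _ _
  have e3 : (A ⊓ D).relIndex S' * S'.index = (A ⊓ D).index := by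
    rw [← hAS']; exact relIndex_mul_index inf_le_right
  have e3' : (A ⊓ D).relIndex S' = A.relIndex S' := by
    rw [← hAS']; exact inf_relIndex_right _ _
  have e4 : S'.relIndex D * D.index = S'.index := relIndex_mul_index hS'D
  have e4' : S'.relIndex D = Cy.relIndex D := by rw [hS']; exact inf_relIndex_left _ _
  have e5 : (A ⊓ D).relIndex A * A.index = (A ⊓ D).index := relIndex_mul_index inf_le_left
  have e5' : (A ⊓ D).relIndex A = D.relIndex A := inf_relIndex_left _ _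
  have hq : 0 < A.relIndex S' := by
    rw [← e2]
    by_contra h0
    have h0' : A.relIndex (S' ⊔ A) = 0 := by omega
    rw [h0', zero_mul] at e1
    exact Subgroup.index_ne_zero_of_finite e1.symm
  have hmpos : 0 < m := by
    rw [← hDidx]; exact Nat.pos_of_ne_zero Subgroup.index_ne_zero_of_finite
  have hle : Cy.index ≤ (S' ⊔ A).index :=
    Nat.le_of_dvd (Nat.pos_of_ne_zero Subgroup.index_ne_zero_of_finite)
      (index_dvd_of_le (sup_le hS'C hACy))
  rw [e2] at e1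
  rw [e3', ← e4, e4', hDidx] at e3
  rw [e5'] at e5
  -- e1 : q * X = A.index ; e3 : q * (r * m) = (A ⊓ D).index ; e5 : t * A.index = (A ⊓ D).index
  have key : D.relIndex A * (S' ⊔ A).index = Cy.relIndex D * m := by
    have h1 : A.relIndex S' * (D.relIndex A * (S' ⊔ A).index)
        = A.relIndex S' * (Cy.relIndex D * m) := by
      rw [e3, ← e5, ← e1]; ring
    exact Nat.eq_of_mul_eq_mul_left hq h1
  by_contra hcon
  push_neg at hcon
  have h1 : m ≤ (S' ⊔ A).index := hcon.trans hle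
  have h2 : D.relIndex A * m ≤ D.relIndex A * (S' ⊔ A).index := Nat.mul_le_mul_left _ h1
  rw [key] at h2
  have h3 : D.relIndex A ≤ Cy.relIndex D := Nat.le_of_mul_le_mul_right h2 hmpos
  omega

theorem result {G : Type*} [Group G] [Finite G]
    (A : Subgroup G) [A.Normal] (hA : IsMulCommutative A) (hCA : Subgroup.centralizer (A : Set G) = A)
    (m : ℕ) (hm1 : 1 < m) (hm : ∃ x : G, (Subgroup.centralizer ({x} : Set G)).index = m) (hmin : ∀ x : G, 1 < (Subgroup.centralizer ({x} : Set G)).index → m ≤ (Subgroup.centralizer ({x} : Set G)).index) :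
    Subgroup.upperCentralSeries ↥(Subgroup.closure {x : G | (Subgroup.centralizer ({x} : Set G)).index = 1 ∨ (Subgroup.centralizer ({x} : Set G)).index = m}) 3 = ⊤ := by
  classical
  have hAc : ∀ a ∈ A, ∀ b ∈ A, a * b = b * a := by
    intro a ha b hb
    exact congrArg Subtype.val (hA.is_comm.comm ⟨a, ha⟩ ⟨b, hb⟩)
  generalize hM : Subgroup.closure {x : G | (Subgroup.centralizer ({x} : Set G)).index = 1 ∨ (Subgroup.centralizer ({x} : Set G)).index = m} = M
  let T : Subgroup G :=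
    { carrier := {g | ∀ a ∈ A, a * g * a⁻¹ * g⁻¹ ∈ Subgroup.center G}
      one_mem' := by
        intro a ha
        have : a * 1 * a⁻¹ * (1 : G)⁻¹ = 1 := by group
        rw [this]; exact one_mem _
      mul_mem' := by
        intro g h hg hh a ha
        have e : a * (g * h) * a⁻¹ * (g * h)⁻¹
            = (a * g * a⁻¹ * g⁻¹) * (g * (a * h * a⁻¹ * h⁻¹) * g⁻¹) := by group
        rw [e]
        have hz := hh a ha
        have e2 : g * (a * h * a⁻¹ * h⁻¹) * g⁻¹ = a * h * a⁻¹ * h⁻¹ := by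
          rw [Subgroup.mem_center_iff.mp hz g]; group
        rw [e2]
        exact mul_mem (hg a ha) hz
      inv_mem' := by
        intro g hg a ha
        have hz := hg a ha
        have e : a * g⁻¹ * a⁻¹ * g⁻¹⁻¹ = g⁻¹ * (a * g * a⁻¹ * g⁻¹)⁻¹ * g := by group
        rw [e]
        have hzi := inv_mem hz
        have e2 : g⁻¹ * (a * g * a⁻¹ * g⁻¹)⁻¹ * g = (a * g * a⁻¹ * g⁻¹)⁻¹ := by
          rw [Subgroup.mem_center_iff.mp hzi g⁻¹]; group
        rw [e2]; exact hzi }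
  have hTmem : ∀ g : G, g ∈ T ↔ ∀ a ∈ A, a * g * a⁻¹ * g⁻¹ ∈ Subgroup.center G := fun g => Iff.rfl
  have hMT : M ≤ T := by
    rw [← hM, Subgroup.closure_le]
    intro x hx a ha
    rcases hx with h1 | h1
    · rw [Subgroup.index_eq_one] at h1
      have hxa : a ∈ Subgroup.centralizer ({x} : Set G) := h1 ▸ Subgroup.mem_top a
      rw [Subgroup.mem_centralizer_iff] at hxa
      have h2 := hxa x (Set.mem_singleton x)
      have : a * x * a⁻¹ * x⁻¹ = 1 := by rw [← h2]; group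
      rw [this]; exact one_mem _
    · exact small_comm_central A hAc m hmin x h1 a ha
  have hconj : ∀ g ∈ T, ∀ a ∈ A, ∃ z ∈ Subgroup.center G, g * a * g⁻¹ = a * z := by
    intro g hg a ha
    refine ⟨a⁻¹ * g * a * g⁻¹, ?_, by group⟩
    have := (hTmem g).mp hg a⁻¹ (A.inv_mem ha)
    simpa using this
  have hcomm_in_A : ∀ g ∈ T, ∀ h ∈ T, g * h * g⁻¹ * h⁻¹ ∈ A := by
    intro g hg h hh
    rw [← hCA, Subgroup.mem_centralizer_iff]
    intro a ha
    have ha0 : a ∈ A := ha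
    obtain ⟨a', ha'def⟩ : ∃ a' : G, a' = (h * g)⁻¹ * a * (h * g) := ⟨_, rfl⟩
    have ha' : a' ∈ A := by
      rw [ha'def]
      have := ‹A.Normal›.conj_mem a ha0 (h * g)⁻¹
      simpa using this
    obtain ⟨z₁, hz₁, e₁⟩ := hconj h hh _ ha'
    obtain ⟨z₂, hz₂, e₂⟩ := hconj g hg _ ha'
    have k1 : g * (h * a' * h⁻¹) * g⁻¹ = a' * z₂ * z₁ := by
      rw [e₁]
      calc g * (a' * z₁) * g⁻¹ = (g * a' * g⁻¹) * (g * z₁) * g⁻¹ := by group
        _ = (a' * z₂) * (z₁ * g) * g⁻¹ := by rw [e₂, Subgroup.mem_center_iff.mp hz₁ g]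
        _ = a' * z₂ * z₁ := by group
    have k2 : h * (g * a' * g⁻¹) * h⁻¹ = a' * z₁ * z₂ := by
      rw [e₂]
      calc h * (a' * z₂) * h⁻¹ = (h * a' * h⁻¹) * (h * z₂) * h⁻¹ := by group
        _ = (a' * z₁) * (z₂ * h) * h⁻¹ := by rw [e₁, Subgroup.mem_center_iff.mp hz₂ h]
        _ = a' * z₁ * z₂ := by group
    have k3 : z₂ * z₁ = z₁ * z₂ := Subgroup.mem_center_iff.mp hz₁ z₂
    have k4 : g * (h * a' * h⁻¹) * g⁻¹ = h * (g * a' * g⁻¹) * h⁻¹ := by
      rw [k1, k2, mul_assoc, k3, ← mul_assoc]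
    rw [ha'def] at k4
    calc a * (g * h * g⁻¹ * h⁻¹)
        = (h * (g * ((h * g)⁻¹ * a * (h * g)) * g⁻¹) * h⁻¹) * (g * h * g⁻¹ * h⁻¹) := by group
      _ = (g * (h * ((h * g)⁻¹ * a * (h * g)) * h⁻¹) * g⁻¹) * (g * h * g⁻¹ * h⁻¹) := by rw [k4]
      _ = (g * h * g⁻¹ * h⁻¹) * a := by group
  have h3 : ∀ u ∈ M, ∀ v ∈ M, ∀ w ∈ M,
      (u * v * u⁻¹ * v⁻¹) * w * (u * v * u⁻¹ * v⁻¹)⁻¹ * w⁻¹ ∈ Subgroup.center G := by
    intro u hu v hv w hw
    exact (hTmem w).mp (hMT hw) _ (hcomm_in_A u (hMT hu) v (hMT hv))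
  rw [eq_top_iff]
  intro u _
  rw [Subgroup.mem_upperCentralSeries_succ_iff]
  intro v
  rw [Subgroup.mem_upperCentralSeries_succ_iff]
  intro w
  rw [Subgroup.upperCentralSeries_one, Subgroup.mem_center_iff]
  intro s
  apply Subtype.ext
  have := h3 u u.2 v v.2 w w.2
  rw [Subgroup.mem_center_iff] at this
  exact this (s : G)

end Cfsg.Agent.S4163
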