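import Cfsg.Statements.S4168

import Mathlib

set_option autoImplicit false
open Cfsg
open scoped Pointwise

namespace Cfsg.Agent.S4168

open scoped IsMulCommutative

theorem result {L : Type*} [Group L] [Finite L] (hL : Cfsg.IsQuasisimple L)
    (p : ℕ) (hp : p.Prime) (hdiv : p ∣ Nat.card (Subgroup.center L)) : p ∣ (Subgroup.center L).index := by
  obtain ⟨hperf, _⟩ := hL
  have : Fact p.Prime := ⟨hp⟩
  obtain ⟨z, hz⟩ := exists_prime_orderOf_dvd_card' p hdiv
  have hker : ∀ g : L, MonoidHom.transferCenterPow L g = 1 := by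
    intro g
    have h1 : g ∈ commutator L := Group.IsPerfect.mem_commutator
    have h2 := Abelianization.commutator_subset_ker (MonoidHom.transferCenterPow L)
    have h3 := h2 h1
    rw [MonoidHom.mem_ker] at h3
    exact h3
  have h1 : (z : L) ^ (Subgroup.center L).index = 1 := by
    rw [← MonoidHom.transferCenterPow_apply, hker]; rfl
  rw [← hz, ← Subgroup.orderOf_coe]
  exact orderOf_dvd_of_pow_eq_one h1

end Cfsg.Agent.S4168
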