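import Cfsg.Statements.S4177

import Mathlib

set_option autoImplicit false
open Cfsg
open scoped Pointwise

namespace Cfsg.Agent.S4177

universe u₁ u₂ u₃

variable {k : Type u₁} {V : Type u₂} {H : Type u₃} [Field k] [AddCommGroup V] [Module k V] [Group H]

lemma sumB (ρ : Representation k H V) (B : Subgroup H) [Fintype B] (β₀ : B) (v : V) :
    ∑ β : B, ρ β (ρ β₀ v) = ∑ β : B, ρ β v := by
  apply Fintype.sum_equiv (Equiv.mulRight β₀)
  intro β
  simp [map_mul]

lemma gen (ρ : Representation k H V) (a : V)
    (hspan : Submodule.span k {u : V | ∃ h : H, ρ h a = u} = ⊤) (B : Subgroup H) [Fintype B]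
    (hB : ∀ h : H, ∃ β : B, ρ β a = ρ h a) (w : V) :
    ∃ c : k, (∑ β : B, ρ β w) = c • (∑ β : B, ρ β a) := by
  classical
  let E : V →ₗ[k] V := ∑ β : B, ρ β
  have hE : ∀ v, E v = ∑ β : B, ρ β v := fun v => by simp [E, LinearMap.sum_apply]
  have h1 : E w ∈ Submodule.map E ⊤ := Submodule.mem_map_of_mem trivial
  rw [← hspan, Submodule.map_span] at h1
  have h2 : E '' {u : V | ∃ h : H, ρ h a = u} ⊆ {E a} := by
    rintro _ ⟨u, ⟨h, rfl⟩, rfl⟩
    obtain ⟨β₀, hβ₀⟩ := hB h
    rw [Set.mem_singleton_iff, hE, hE, ← hβ₀]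
    exact sumB ρ B β₀ a
  have h3 := Submodule.span_mono h2 h1
  rw [Submodule.mem_span_singleton] at h3
  obtain ⟨c, hc⟩ := h3
  exact ⟨c, by rw [← hE, ← hE, hc]⟩

theorem result {k V H : Type*} [Field k] [AddCommGroup V] [Module k V] [Group H] [Finite H]
    (hchar : ¬ ringChar k ∣ Nat.card H) (ρ : Representation k H V) (a : V)
    (hspan : Submodule.span k {u : V | ∃ h : H, ρ h a = u} = ⊤) :
    Module.finrank k ρ.invariants ≤ 1 ∧
    ∀ b : V, (Nat.card {u : V | ∃ h : H, ρ h a = u}).Coprime (Nat.card {u : V | ∃ h : H, ρ h b = u}) → ∀ h : H, ρ h b = b := by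
  classical
  haveI : Fintype H := Fintype.ofFinite H
  have hchar' : ∀ n : ℕ, n ∣ Nat.card H → (n : k) ≠ 0 := by
    intro n hn h0
    exact hchar (((ringChar.spec k n).mp h0).trans hn)
  constructor
  · let B : Subgroup H := ⊤
    haveI : Fintype B := Fintype.ofFinite B
    have hB : ∀ h : H, ∃ β : B, ρ β a = ρ h a := fun h => ⟨⟨h, trivial⟩, rfl⟩
    let ea : V := ∑ β : B, ρ β a
    have hea : ea ∈ ρ.invariants := by
      rw [Representation.mem_invariants]
      intro g
      show ρ g (∑ β : B, ρ β a) = ∑ β : B, ρ β a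
      rw [map_sum]
      apply Fintype.sum_equiv (Equiv.mulLeft (⟨g, trivial⟩ : B))
      intro β
      simp [map_mul]
    apply finrank_le_one (⟨ea, hea⟩ : ρ.invariants)
    rintro ⟨w, hw⟩
    obtain ⟨c, hc⟩ := gen ρ a hspan B hB w
    rw [Representation.mem_invariants] at hw
    have h1 : (∑ β : B, ρ β w) = (Nat.card H : k) • w := by
      rw [Finset.sum_congr rfl (fun (β : B) _ => hw (β : H)), Finset.sum_const, Finset.card_univ,
        ← Nat.card_eq_fintype_card, Subgroup.card_top, Nat.cast_smul_eq_nsmul]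
    refine ⟨(Nat.card H : k)⁻¹ * c, Subtype.ext ?_⟩
    show ((Nat.card H : k)⁻¹ * c) • ea = w
    rw [mul_smul, ← hc, h1, smul_smul, inv_mul_cancel₀ (hchar' _ dvd_rfl), one_smul]
  · intro b hcop h
    letI : MulAction H V := MulAction.compHom V (ρ : H →* (V →ₗ[k] V))
    have hsmul : ∀ (g : H) (v : V), g • v = ρ g v := fun _ _ => rfl
    set A := MulAction.stabilizer H a with hA
    set B := MulAction.stabilizer H b with hB
    have hOa : {u : V | ∃ h : H, ρ h a = u} = MulAction.orbit H a := rfl
    have hOb : {u : V | ∃ h : H, ρ h b = u} = MulAction.orbit H b := rfl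
    rw [hOa, hOb, Nat.card_coe_set_eq, Nat.card_coe_set_eq, ← MulAction.index_stabilizer,
      ← MulAction.index_stabilizer] at hcop
    have h1 : (A ⊓ B).index = A.index * B.index := by
      have hd : A.index * B.index ∣ (A ⊓ B).index :=
        Nat.Coprime.mul_dvd_of_dvd_of_dvd hcop (Subgroup.index_dvd_of_le inf_le_left)
          (Subgroup.index_dvd_of_le inf_le_right)
      have hle : (A ⊓ B).index ≤ A.index * B.index := Subgroup.index_inf_le
      exact le_antisymm hle (Nat.le_of_dvd (Nat.pos_of_ne_zero Subgroup.index_ne_zero_of_finite) hd)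
    have h2 : A.relIndex B = A.index := by
      have := Subgroup.relIndex_mul_index (inf_le_right : A ⊓ B ≤ B)
      rw [h1, Subgroup.inf_relIndex_right] at this
      exact Nat.eq_of_mul_eq_mul_right (Nat.pos_of_ne_zero Subgroup.index_ne_zero_of_finite) this
    have h3 : MulAction.orbit B a = MulAction.orbit H a := by
      apply Set.eq_of_subset_of_ncard_le
      · rintro _ ⟨β, rfl⟩; exact ⟨β, rfl⟩
      · rw [← MulAction.index_stabilizer, ← MulAction.index_stabilizer]
        have : MulAction.stabilizer B a = A.subgroupOf B := by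
          ext x
          rw [MulAction.mem_stabilizer_iff, Subgroup.mem_subgroupOf, MulAction.mem_stabilizer_iff]
          rfl
        rw [this]; exact h2.ge
      · exact Set.finite_range _
    haveI : Fintype B := Fintype.ofFinite B
    have hBa : ∀ g : H, ∃ β : B, ρ β a = ρ g a := by
      intro g
      have : ρ g a ∈ MulAction.orbit H a := ⟨g, rfl⟩
      rw [← h3] at this
      obtain ⟨β, hβ⟩ := this
      exact ⟨β, hβ⟩
    have hBb : ∀ β : B, ρ β b = b := fun β => β.2
    obtain ⟨c, hc⟩ := gen ρ a hspan B hBa b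
    have hb1 : (∑ β : B, ρ β b) = (Nat.card B : k) • b := by
      rw [Finset.sum_congr rfl (fun (β : B) _ => hBb β), Finset.sum_const, Finset.card_univ,
        ← Nat.card_eq_fintype_card, Nat.cast_smul_eq_nsmul]
    set O : Finset V := (Finset.univ : Finset H).image (fun g => ρ g a) with hO
    set s : V := ∑ u ∈ O, u with hs
    have hinv : ∀ g : H, ρ g s = s := by
      intro g
      rw [hs, map_sum]
      have himg : O.image (fun v => ρ g v) = O := by
        rw [hO, Finset.image_image]
        ext u
        simp only [Finset.mem_image, Finset.mem_univ, true_and, Function.comp]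
        constructor
        · rintro ⟨x, rfl⟩; exact ⟨g * x, by simp [map_mul]⟩
        · rintro ⟨x, rfl⟩
          refine ⟨g⁻¹ * x, ?_⟩
          rw [← Module.End.mul_apply, ← map_mul, mul_inv_cancel_left]
      have hinj : Set.InjOn (fun v => ρ g v) (O : Set V) := by
        intro v _ v' _ hvv
        have := congrArg (ρ g⁻¹) hvv
        simp only [← Module.End.mul_apply, ← map_mul, inv_mul_cancel, map_one, Module.End.one_apply] at this
        exact this
      calc ∑ u ∈ O, ρ g u = ∑ u ∈ O.image (fun v => ρ g v), u := (Finset.sum_image (f := fun u => u) hinj).symm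
        _ = ∑ u ∈ O, u := by rw [himg]
    have hs1 : (∑ β : B, ρ β s) = (Nat.card B : k) • s := by
      rw [Finset.sum_congr rfl (fun (β : B) _ => hinv (β : H)), Finset.sum_const, Finset.card_univ,
        ← Nat.card_eq_fintype_card, Nat.cast_smul_eq_nsmul]
    have hs2 : (∑ β : B, ρ β s) = (O.card : k) • (∑ β : B, ρ β a) := by
      have F4 : ∀ u ∈ O, ∑ β : B, ρ β u = ∑ β : B, ρ β a := by
        intro u hu
        rw [hO, Finset.mem_image] at hu
        obtain ⟨g, _, rfl⟩ := hu
        obtain ⟨β₀, hβ₀⟩ := hBa g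
        rw [← hβ₀]
        exact sumB ρ B β₀ a
      rw [hs]
      simp only [map_sum]
      rw [Finset.sum_comm, Finset.sum_congr rfl F4, Finset.sum_const, Nat.cast_smul_eq_nsmul]
    have hnB : (Nat.card B : k) ≠ 0 := hchar' _ (Subgroup.card_subgroup_dvd_card B)
    have hnO : (O.card : k) ≠ 0 := by
      apply hchar'
      have e1 : (O : Set V) = MulAction.orbit H a := by
        rw [hO, Finset.coe_image, Finset.coe_univ, Set.image_univ]
        rfl
      have e2 : O.card = A.index := by
        rw [MulAction.index_stabilizer, ← e1, Set.ncard_coe_finset]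
      rw [e2]
      exact Subgroup.index_dvd_card A
    have hE : (∑ β : B, ρ β a) = ((O.card : k)⁻¹ * (Nat.card B : k)) • s := by
      rw [mul_smul, ← hs1, hs2, smul_smul, inv_mul_cancel₀ hnO, one_smul]
    have hb : b = (c * (O.card : k)⁻¹) • s := by
      have : (Nat.card B : k) • b = (Nat.card B : k) • ((c * (O.card : k)⁻¹) • s) := by
        rw [← hb1, hc, hE, smul_smul, smul_smul]
        congr 1
        ring
      exact smul_right_injective V hnB this
    rw [hb, map_smul, hinv]

end Cfsg.Agent.S4177
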