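import Cfsg.Statements.S4178

import Mathlib

set_option autoImplicit false
open Cfsg
open scoped Pointwise

namespace Cfsg.Agent.S4178

theorem inv_apply_self'' {F V : Type*} [Field F] [AddCommGroup V] [Module F V]
    (e : V ≃ₗ[F] V) (x : V) : (e⁻¹ : V ≃ₗ[F] V) (e x) = x := by
  rw [← LinearEquiv.mul_apply, inv_mul_cancel]; rfl

theorem idx_le {H : Type*} [Group H] [Finite H] {T : Type*} (K : Subgroup H) (φ : H → T)
    (hφ : ∀ h h' : H, φ h = φ h' → h⁻¹ * h' ∈ K) : K.index ≤ Nat.card (Set.range φ) := by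
  have : Finite (Set.range φ) := Set.finite_range φ
  apply Nat.card_le_card_of_surjective
    (fun t : Set.range φ => (QuotientGroup.mk (Classical.choose t.2) : H ⧸ K))
  intro q
  obtain ⟨h, rfl⟩ := QuotientGroup.mk_surjective q
  refine ⟨⟨φ h, h, rfl⟩, ?_⟩
  have hs := Classical.choose_spec (⟨h, rfl⟩ : ∃ y, φ y = φ h)
  exact QuotientGroup.eq.mpr (hφ _ _ hs)

theorem idx_le' {H : Type*} [Group H] [Finite H] {T : Type*} [Finite T] (K : Subgroup H)
    (φ : H → T) (z : T) (hz : ∀ h, φ h ≠ z)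
    (hφ : ∀ h h' : H, φ h = φ h' → h⁻¹ * h' ∈ K) : K.index + 1 ≤ Nat.card T := by
  have h1 := idx_le K φ hφ
  rw [Nat.card_coe_set_eq] at h1
  have h2 : z ∉ Set.range φ := by
    rintro ⟨h, hh⟩
    exact hz h hh
  have h3 := Set.ncard_insert_of_notMem h2 (Set.toFinite _)
  have h4 := Set.ncard_le_card (insert z (Set.range φ))
  omega

theorem fixed_vec {F V : Type*} [Field F] [AddCommGroup V] [Module F V] [FiniteDimensional F V]
    (g : V ≃ₗ[F] V) (W : Submodule F V) (hg : ∀ w ∈ W, g w ∈ W) (v : V) (hv : v ∉ W)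
    (hgv : g v - v ∈ W) : ∃ u : V, u ≠ 0 ∧ g u = u := by
  let U : Submodule F V := W ⊔ Submodule.span F {v}
  have hU : ∀ u ∈ U, g u - u ∈ W := by
    intro u hu
    have hle : U ≤ W.comap ((g : V →ₗ[F] V) - LinearMap.id) := by
      apply sup_le
      · intro w hw
        exact W.sub_mem (hg w hw) hw
      · rw [Submodule.span_singleton_le_iff_mem]
        exact hgv
    exact hle hu
  let f : U →ₗ[F] W := LinearMap.codRestrict W
    (((g : V →ₗ[F] V) - LinearMap.id).comp U.subtype) (fun u => hU u u.2)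
  have hlt : Module.finrank F W < Module.finrank F U := by
    apply Submodule.finrank_lt_finrank_of_lt
    refine lt_of_le_of_ne le_sup_left ?_
    intro hEq
    apply hv
    rw [hEq]
    exact (le_sup_right : Submodule.span F {v} ≤ U) (Submodule.mem_span_singleton_self v)
  have hker := LinearMap.ker_ne_bot_of_finrank_lt (f := f) hlt
  obtain ⟨u, hu, hu0⟩ := Submodule.exists_mem_ne_zero_of_ne_bot hker
  refine ⟨(u : V), fun h => hu0 (Subtype.ext h), ?_⟩
  have h1 : f u = 0 := hu
  have h2 : g (u : V) - (u : V) = 0 := congrArg Subtype.val h1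
  exact sub_eq_zero.mp h2

theorem result {F V : Type*} [Field F] [Fintype F] [AddCommGroup V] [Module F V] [FiniteDimensional F V] [Nontrivial V]
    (H : Subgroup (V ≃ₗ[F] V)) :
    (Subgroup.closure {h : ↥H | ∃ v : V, v ≠ 0 ∧ (h : V ≃ₗ[F] V) v = v}).index ≤ Fintype.card F ^ Module.finrank F V - 1 ∧
    ((∃ W : Submodule F V, W ≠ ⊥ ∧ W ≠ ⊤ ∧ ∀ h ∈ H, ∀ w ∈ W, h w ∈ W) →
      ((Subgroup.closure {h : ↥H | ∃ v : V, v ≠ 0 ∧ (h : V ≃ₗ[F] V) v = v}).index : ℝ) ≤ Real.sqrt ((Fintype.card F : ℝ) ^ Module.finrank F V) - 1) := by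
  have hfinV : Finite V := Module.finite_of_finite F
  have hfinE : Finite (V ≃ₗ[F] V) :=
    Finite.of_injective (fun e : V ≃ₗ[F] V => (e : V → V)) DFunLike.coe_injective
  have hcardV : Nat.card V = Fintype.card F ^ Module.finrank F V := by
    rw [Module.natCard_eq_pow_finrank (K := F), Nat.card_eq_fintype_card]
  have hq1 : 1 ≤ Fintype.card F := Fintype.card_pos
  constructor
  · obtain ⟨v, hv⟩ := exists_ne (0 : V)
    have h1 := idx_le' (Subgroup.closure {h : ↥H | ∃ v : V, v ≠ 0 ∧ (h : V ≃ₗ[F] V) v = v})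
      (fun h : ↥H => (h : V ≃ₗ[F] V) v) 0 ?_ ?_
    · rw [hcardV] at h1
      omega
    · intro h hh
      apply hv
      have h0 := congrArg ((h : V ≃ₗ[F] V)⁻¹ : V ≃ₗ[F] V) hh
      rwa [inv_apply_self'', map_zero] at h0
    · intro h h' hh
      apply Subgroup.subset_closure
      refine ⟨v, hv, ?_⟩
      have h0 : (h : V ≃ₗ[F] V) v = (h' : V ≃ₗ[F] V) v := hh
      change (h : V ≃ₗ[F] V)⁻¹ ((h' : V ≃ₗ[F] V) v) = v
      rw [← h0]
      exact inv_apply_self'' _ _
  · rintro ⟨W, hWbot, hWtop, hW⟩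
    have key : ∃ j : ℕ, 2 * j ≤ Module.finrank F V ∧
        (Subgroup.closure {h : ↥H | ∃ v : V, v ≠ 0 ∧ (h : V ≃ₗ[F] V) v = v}).index + 1 ≤
          Fintype.card F ^ j := by
      by_cases hk : 2 * Module.finrank F W ≤ Module.finrank F V
      · refine ⟨Module.finrank F W, hk, ?_⟩
        obtain ⟨w, hwW, hw0⟩ := Submodule.exists_mem_ne_zero_of_ne_bot hWbot
        have hcardW : Nat.card W = Fintype.card F ^ Module.finrank F W := by
          rw [Module.natCard_eq_pow_finrank (K := F), Nat.card_eq_fintype_card]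
        rw [← hcardW]
        apply idx_le' _ (fun h : ↥H => (⟨(h : V ≃ₗ[F] V) w, hW _ h.2 w hwW⟩ : W)) 0
        · intro h hh
          apply hw0
          have h0 : (h : V ≃ₗ[F] V) w = 0 := congrArg Subtype.val hh
          have h1 := congrArg ((h : V ≃ₗ[F] V)⁻¹ : V ≃ₗ[F] V) h0
          rwa [inv_apply_self'', map_zero] at h1
        · intro h h' hh
          apply Subgroup.subset_closure
          refine ⟨w, hw0, ?_⟩
          have h0 : (h : V ≃ₗ[F] V) w = (h' : V ≃ₗ[F] V) w := congrArg Subtype.val hh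
          change (h : V ≃ₗ[F] V)⁻¹ ((h' : V ≃ₗ[F] V) w) = w
          rw [← h0]
          exact inv_apply_self'' _ _
      · refine ⟨Module.finrank F (V ⧸ W), ?_, ?_⟩
        · have := Submodule.finrank_quotient_add_finrank W
          omega
        · obtain ⟨v, hv⟩ : ∃ v : V, v ∉ W := by
            by_contra hcon
            push Not at hcon
            exact hWtop (eq_top_iff.mpr (fun x _ => hcon x))
          have hcardQ : Nat.card (V ⧸ W) = Fintype.card F ^ Module.finrank F (V ⧸ W) := by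
            rw [Module.natCard_eq_pow_finrank (K := F), Nat.card_eq_fintype_card]
          have hfinQ : Finite (V ⧸ W) := Module.finite_of_finite F
          rw [← hcardQ]
          apply idx_le' _ (fun h : ↥H => (Submodule.Quotient.mk ((h : V ≃ₗ[F] V) v) : V ⧸ W)) 0
          · intro h hh
            apply hv
            rw [Submodule.Quotient.mk_eq_zero] at hh
            have h0 := hW _ (H.inv_mem h.2) _ hh
            rwa [inv_apply_self''] at h0
          · intro h h' hh
            apply Subgroup.subset_closure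
            rw [Submodule.Quotient.eq] at hh
            have hg : ∀ w ∈ W, ((h⁻¹ * h' : ↥H) : V ≃ₗ[F] V) w ∈ W :=
              fun w hw => hW _ (h⁻¹ * h').2 w hw
            have hgv : ((h⁻¹ * h' : ↥H) : V ≃ₗ[F] V) v - v ∈ W := by
              have h1 : (h' : V ≃ₗ[F] V) v - (h : V ≃ₗ[F] V) v ∈ W := by
                have h0 := W.neg_mem hh
                rwa [neg_sub] at h0
              have h2 := hW _ (H.inv_mem h.2) _ h1
              rw [map_sub, inv_apply_self''] at h2
              exact h2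
            exact fixed_vec _ W hg v hv hgv
    obtain ⟨j, hj, hle⟩ := key
    have h1 : (((Subgroup.closure {h : ↥H | ∃ v : V, v ≠ 0 ∧ (h : V ≃ₗ[F] V) v = v}).index : ℝ) + 1)
        ≤ (Fintype.card F : ℝ) ^ j := by exact_mod_cast hle
    have h2 : ((Fintype.card F : ℝ) ^ j) ≤ Real.sqrt ((Fintype.card F : ℝ) ^ Module.finrank F V) := by
      apply Real.le_sqrt_of_sq_le
      rw [← pow_mul]
      apply pow_le_pow_right₀
      · exact_mod_cast hq1
      · omega
    linarith

end Cfsg.Agent.S4178
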