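import Cfsg.Statements.S4182

import Mathlib

set_option autoImplicit false
open Cfsg
open scoped Pointwise

namespace Cfsg.Agent.S4182

universe u v

def PG {G : Type*} [Group G] (p : ℕ) (L : Subgroup G) : Prop :=
  L ≤ Subgroup.closure {g : G | g ∈ L ∧ ∃ k : ℕ, orderOf g = p ^ k}

theorem pg_sup {G : Type*} [Group G] (p : ℕ) (L₁ L₂ : Subgroup G) (h₁ : PG p L₁) (h₂ : PG p L₂) :
    PG p (L₁ ⊔ L₂) := by
  unfold PG at *
  refine sup_le (h₁.trans (Subgroup.closure_mono ?_)) (h₂.trans (Subgroup.closure_mono ?_))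
  · rintro g ⟨hg, hk⟩
    exact ⟨(le_sup_left : L₁ ≤ L₁ ⊔ L₂) hg, hk⟩
  · rintro g ⟨hg, hk⟩
    exact ⟨(le_sup_right : L₂ ≤ L₁ ⊔ L₂) hg, hk⟩

theorem pg_zpowers {G : Type*} [Group G] (p : ℕ) (x : G) (hx : ∃ k : ℕ, orderOf x = p ^ k) :
    PG p (Subgroup.zpowers x) := by
  unfold PG
  rw [Subgroup.zpowers_le]
  exact Subgroup.subset_closure ⟨Subgroup.mem_zpowers x, hx⟩

theorem pg_conj {G : Type*} [Group G] (p : ℕ) (L : Subgroup G) (h : PG p L) (a : G) :
    PG p (L.map (MulAut.conj a).toMonoidHom) := by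
  unfold PG at *
  refine (Subgroup.map_mono h).trans ?_
  rw [MonoidHom.map_closure]
  apply Subgroup.closure_mono
  rintro _ ⟨g, ⟨hgL, k, hk⟩, rfl⟩
  refine ⟨Subgroup.mem_map_of_mem _ hgL, k, ?_⟩
  rw [← hk]
  exact orderOf_injective (MulAut.conj a).toMonoidHom (MulAut.conj a).injective g

theorem pg_top {G : Type*} [Group G] (p : ℕ) (L : Subgroup G) (h : PG p L) :
    Subgroup.closure {g : ↥L | ∃ k : ℕ, orderOf g = p ^ k} = ⊤ := by
  unfold PG at h
  apply Subgroup.map_injective L.subtype_injective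
  rw [MonoidHom.map_closure, ← MonoidHom.range_eq_map, Subgroup.range_subtype]
  apply le_antisymm
  · rw [Subgroup.closure_le]
    rintro _ ⟨g, -, rfl⟩
    exact g.2
  · refine h.trans (Subgroup.closure_mono ?_)
    rintro g ⟨hgL, k, hk⟩
    exact ⟨⟨g, hgL⟩, ⟨k, by rw [Subgroup.orderOf_mk]; exact hk⟩, rfl⟩

theorem mem_of_pow_mem {G : Type*} [Group G] (p : ℕ) [hp : Fact p.Prime] (y : G)
    (hy : ∃ k : ℕ, orderOf y = p ^ k) (H : Subgroup G) (d : ℕ) (hd0 : 0 < d) (hdp : d < p)
    (h : y ^ d ∈ H) : y ∈ H := by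
  obtain ⟨k, hk⟩ := hy
  by_cases h1 : orderOf y = 1
  · rw [orderOf_eq_one_iff.mp h1]
    exact one_mem H
  · have hcop : Nat.Coprime d (orderOf y) := by
      rw [hk]
      exact Nat.Coprime.pow_right k
        ((Nat.Prime.coprime_iff_not_dvd hp.out).mpr (Nat.not_dvd_of_pos_of_lt hd0 hdp)).symm
    have hgt : 1 < orderOf y := by
      have h0 : 0 < orderOf y := by rw [hk]; exact pow_pos hp.out.pos k
      omega
    obtain ⟨m, -, hm⟩ := Nat.exists_mul_mod_eq_one_of_coprime hcop hgt
    have e : y = (y ^ d) ^ m := by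
      rw [← pow_mul, ← pow_mod_orderOf, hm, pow_one]
    rw [e]
    exact pow_mem h m

theorem aux (p : ℕ) [hp : Fact p.Prime] {ι : Type v} [Fintype ι] (hι : Fintype.card ι ≤ p) :
    ∀ n : ℕ, ∀ (G : Type u) [Group G] [Finite G], Nat.card G = n →
      Subgroup.closure {g : G | ∃ k : ℕ, orderOf g = p ^ k} = ⊤ →
      ∀ K : ι → Subgroup G, (∀ i, K i ≠ ⊤) →
        (∀ g : G, (∃ k : ℕ, orderOf g = p ^ k) → ∃ i, g ∈ K i) → False := by
  intro n
  induction n using Nat.strong_induction_on with
  | _ n ih =>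
    intro G _ _ hn hgen K hK hcov
    classical
    have hstar : ∀ L : Subgroup G, L ≠ ⊤ → PG p L → ∃ i, L ≤ K i := by
      intro L hL hPG
      by_contra hcon
      push_neg at hcon
      have hlt : Nat.card L < n := by
        rw [← hn]
        exact lt_of_le_of_ne (Subgroup.card_le_card_group L)
          (fun h => hL ((Subgroup.card_eq_iff_eq_top L).mp h))
      refine ih (Nat.card L) hlt ↥L rfl (pg_top p L hPG) (fun i => (K i).subgroupOf L) ?_ ?_
      · intro i h
        exact hcon i (Subgroup.subgroupOf_eq_top.mp h)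
      · rintro g ⟨k, hk⟩
        obtain ⟨i, hi⟩ := hcov (g : G) ⟨k, by rw [Subgroup.orderOf_coe]; exact hk⟩
        exact ⟨i, Subgroup.mem_subgroupOf.mpr hi⟩
    obtain ⟨i₀', -⟩ := hcov 1 ⟨0, by simp⟩
    have hbot : (⊥ : Subgroup G) ≠ ⊤ := by
      intro h
      apply hK i₀'
      rw [eq_top_iff, ← h]
      exact bot_le
    have hPGbot : PG p (⊥ : Subgroup G) := bot_le
    haveI : Nonempty {L : Subgroup G // L ≠ ⊤ ∧ PG p L} := ⟨⟨⊥, hbot, hPGbot⟩⟩
    obtain ⟨⟨M, hMtop, hMPG⟩, hMmax'⟩ :=
      Finite.exists_max (fun L : {L : Subgroup G // L ≠ ⊤ ∧ PG p L} => Nat.card L.1)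
    have hMmax : ∀ L : Subgroup G, L ≠ ⊤ → PG p L → Nat.card L ≤ Nat.card M :=
      fun L h1 h2 => hMmax' ⟨L, h1, h2⟩
    have hcardconj : ∀ a : G, Nat.card (M.map (MulAut.conj a).toMonoidHom) = Nat.card M :=
      fun a => Subgroup.card_map_of_injective (MulAut.conj a).injective
    have hconjtop : ∀ a : G, M.map (MulAut.conj a).toMonoidHom ≠ ⊤ := by
      intro a h
      apply hMtop
      apply (Subgroup.card_eq_iff_eq_top M).mp
      rw [← hcardconj a, h, Subgroup.card_top]
    have hjoin : ∀ (M' L : Subgroup G) (i : ι), PG p M' → Nat.card M' = Nat.card M → M' ≤ K i →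
        L ≤ K i → PG p L → L ≤ M' := by
      intro M' L i hM' hcard h1 h2 h3
      have hne : M' ⊔ L ≠ ⊤ := by
        intro h
        apply hK i
        rw [eq_top_iff, ← h]
        exact sup_le h1 h2
      have hc := hMmax _ hne (pg_sup p _ _ hM' h3)
      rw [← hcard] at hc
      have heq := Subgroup.eq_of_le_of_card_ge (le_sup_left : M' ≤ M' ⊔ L) hc
      rw [heq]
      exact le_sup_right
    have hcardlt : Fintype.card ι < Fintype.card (Option (Fin p)) := by
      rw [Fintype.card_option, Fintype.card_fin]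
      omega
    have hA : ∀ x : G, (∃ k : ℕ, orderOf x = p ^ k) → x ∈ Subgroup.normalizer (M : Set G) := by
      intro x hx
      have hMj : ∀ j : ℕ, ∃ i, M.map (MulAut.conj (x ^ j)).toMonoidHom ≤ K i := fun j =>
        hstar _ (hconjtop _) (pg_conj p M hMPG _)
      choose iM hiM using hMj
      obtain ⟨ix, hix⟩ := hcov x hx
      have H1 : ∀ j : ℕ, ix = iM j → x ∈ Subgroup.normalizer (M : Set G) := by
        intro j hj
        have h1 : Subgroup.zpowers x ≤ M.map (MulAut.conj (x ^ j)).toMonoidHom :=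
          hjoin _ _ (iM j) (pg_conj p M hMPG _) (hcardconj _) (hiM j)
            (by rw [Subgroup.zpowers_le, ← hj]; exact hix) (pg_zpowers p x hx)
        obtain ⟨m, hm, hmx⟩ := h1 (Subgroup.mem_zpowers x)
        have hmx' : x ^ j * m * (x ^ j)⁻¹ = x := hmx
        have e : m = x := by
          have e1 : m = (x ^ j)⁻¹ * (x ^ j * m * (x ^ j)⁻¹) * x ^ j := by group
          rw [hmx'] at e1
          rw [e1, mul_assoc, ← pow_succ', pow_succ, inv_mul_cancel_left]
        rw [e] at hm
        exact Subgroup.le_normalizer hm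
      have H2 : ∀ j j' : ℕ, j < j' → j' < p → iM j = iM j' →
          x ∈ Subgroup.normalizer (M : Set G) := by
        intro j j' hjj hj'p hij
        have h1 : M.map (MulAut.conj (x ^ j')).toMonoidHom ≤
            M.map (MulAut.conj (x ^ j)).toMonoidHom :=
          hjoin _ _ (iM j) (pg_conj p M hMPG _) (hcardconj _) (hiM j)
            (by rw [hij]; exact hiM j') (pg_conj p M hMPG _)
        have h2 : M.map (MulAut.conj (x ^ j)).toMonoidHom ≤
            M.map (MulAut.conj (x ^ j')).toMonoidHom :=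
          hjoin _ _ (iM j') (pg_conj p M hMPG _) (hcardconj _) (hiM j')
            (by rw [← hij]; exact hiM j) (pg_conj p M hMPG _)
        obtain ⟨c, hc⟩ : ∃ c, c = x ^ (j' - j) := ⟨_, rfl⟩
        have hxc : x ^ j' = x ^ j * c := by
          rw [hc, ← pow_add]
          congr 1
          omega
        have hcN : c ∈ Subgroup.normalizer (M : Set G) := by
          rw [Subgroup.mem_normalizer_iff]
          intro m
          constructor
          · intro hm
            obtain ⟨m', hm', hm'eq⟩ :=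
              h1 (Subgroup.mem_map_of_mem (MulAut.conj (x ^ j')).toMonoidHom hm)
            have e0 : x ^ j * m' * (x ^ j)⁻¹ = x ^ j' * m * (x ^ j')⁻¹ := hm'eq
            have e1 : m' = (x ^ j)⁻¹ * (x ^ j * m' * (x ^ j)⁻¹) * x ^ j := by group
            rw [e0, hxc] at e1
            have e2 : c * m * c⁻¹ = m' := by
              rw [e1]
              group
            rw [e2]
            exact hm'
          · intro hm
            obtain ⟨m', hm', hm'eq⟩ :=
              h2 (Subgroup.mem_map_of_mem (MulAut.conj (x ^ j)).toMonoidHom hm)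
            have e0 : x ^ j' * m' * (x ^ j')⁻¹ = x ^ j * (c * m * c⁻¹) * (x ^ j)⁻¹ := hm'eq
            have e1 : m' = (x ^ j')⁻¹ * (x ^ j' * m' * (x ^ j')⁻¹) * x ^ j' := by group
            rw [e0, hxc] at e1
            have e2 : m = m' := by
              rw [e1]
              group
            rw [e2]
            exact hm'
        rw [hc] at hcN
        exact mem_of_pow_mem p x hx _ (j' - j) (by omega) (by omega) hcN
      obtain ⟨a, b, hab, hfab⟩ := Fintype.exists_ne_map_eq_of_card_lt
        (fun o : Option (Fin p) => o.elim ix (fun j => iM j.1)) hcardlt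
      rcases a with _ | a <;> rcases b with _ | b
      · exact absurd rfl hab
      · exact H1 b.1 hfab
      · exact H1 a.1 hfab.symm
      · have hne : a.1 ≠ b.1 := fun h => hab (by rw [Fin.ext h])
        rcases lt_or_gt_of_ne hne with h | h
        · exact H2 a.1 b.1 h b.2 hfab
        · exact H2 b.1 a.1 h a.2 hfab.symm
    have hN : ∀ g : G, g ∈ Subgroup.normalizer (M : Set G) := by
      intro g
      have h1 : Subgroup.closure {g : G | ∃ k : ℕ, orderOf g = p ^ k} ≤
          Subgroup.normalizer (M : Set G) := by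
        rw [Subgroup.closure_le]
        intro x hx
        exact hA x hx
      rw [hgen] at h1
      exact h1 (Subgroup.mem_top g)
    have hnorm : ∀ g m : G, m ∈ M → g * m * g⁻¹ ∈ M := fun g m hm =>
      (Subgroup.mem_normalizer_iff.mp (hN g) m).mp hm
    have hmax2 : ∀ i, M ≤ K i → ∀ z : G, (∃ k : ℕ, orderOf z = p ^ k) → z ∈ K i → z ∈ M := by
      intro i hMi z hz hzi
      have h1 : Subgroup.zpowers z ≤ M :=
        hjoin M _ i hMPG rfl hMi (by rw [Subgroup.zpowers_le]; exact hzi) (pg_zpowers p z hz)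
      exact h1 (Subgroup.mem_zpowers z)
    obtain ⟨x₀, hx₀, hx₀M⟩ : ∃ x₀ : G, (∃ k : ℕ, orderOf x₀ = p ^ k) ∧ x₀ ∉ M := by
      by_contra hcon
      push_neg at hcon
      apply hMtop
      rw [eq_top_iff, ← hgen, Subgroup.closure_le]
      intro x hx
      exact hcon x hx
    obtain ⟨i₁, hi₁⟩ := hcov x₀ hx₀
    have hi₁M : ¬ M ≤ K i₁ := fun h => hx₀M (hmax2 i₁ h x₀ hx₀ hi₁)
    have hpelS : ∀ (S : Sylow p G) (s : G), s ∈ (S : Subgroup G) →
        ∃ k : ℕ, orderOf s = p ^ k := by
      intro S s hs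
      obtain ⟨k, hk⟩ := (IsPGroup.iff_orderOf.mp S.isPGroup') ⟨s, hs⟩
      exact ⟨k, by rw [← hk, Subgroup.orderOf_mk]⟩
    have hsyl : ∀ z : G, (∃ k : ℕ, orderOf z = p ^ k) →
        ∃ S : Sylow p G, z ∈ (S : Subgroup G) := by
      intro z ⟨k, hk⟩
      have hpg : IsPGroup p (Subgroup.zpowers z) :=
        IsPGroup.of_card (n := k) (by rw [Nat.card_zpowers, hk])
      obtain ⟨S, hS⟩ := hpg.exists_le_sylow
      exact ⟨S, hS (Subgroup.mem_zpowers z)⟩
    have hcovM : ∀ y : G, y ∈ M → (∃ k : ℕ, orderOf y = p ^ k) →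
        ∃ i, ¬ M ≤ K i ∧ y ∈ K i := by
      intro y hyM hy
      by_cases h0 : ∃ i₀, M ≤ K i₀
      · obtain ⟨i₀, hi₀⟩ := h0
        obtain ⟨S, hyS⟩ := hsyl y hy
        obtain ⟨x, hxS, hxM⟩ : ∃ x, x ∈ (S : Subgroup G) ∧ x ∉ M := by
          by_contra hcon
          push_neg at hcon
          obtain ⟨S₀, hS₀⟩ := hsyl x₀ hx₀
          obtain ⟨g, hg⟩ := MulAction.exists_smul_eq G S S₀
          rw [← hg, Sylow.coe_subgroup_smul] at hS₀
          obtain ⟨s, hs, hsx⟩ := hS₀
          have hsx' : g * s * g⁻¹ = x₀ := hsx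
          apply hx₀M
          rw [← hsx']
          exact hnorm g s (hcon s hs)
        have hz : ∀ a : ℕ, ∃ i, x * y ^ a ∈ K i ∧ ¬ M ≤ K i := by
          intro a
          have hzS : x * y ^ a ∈ (S : Subgroup G) := mul_mem hxS (pow_mem hyS a)
          have hzp := hpelS S _ hzS
          obtain ⟨i, hi⟩ := hcov _ hzp
          refine ⟨i, hi, fun h => hxM ?_⟩
          have h1 := hmax2 i h _ hzp hi
          exact (Subgroup.mul_mem_cancel_right M (pow_mem hyM a)).mp h1
        choose iz hiz hizM using hz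
        have key : ∀ a b : ℕ, a < b → b < p → iz a = iz b → ∃ i, ¬ M ≤ K i ∧ y ∈ K i := by
          intro a b hab hbp hiab
          refine ⟨iz a, hizM a, ?_⟩
          have h1 := hiz a
          have h2 := hiz b
          rw [← hiab] at h2
          have hb : b = a + (b - a) := by omega
          rw [hb, pow_add] at h2
          have h3 : y ^ (b - a) ∈ K (iz a) := by
            have e : y ^ (b - a) = (x * y ^ a)⁻¹ * (x * (y ^ a * y ^ (b - a))) := by group
            rw [e]
            exact mul_mem (inv_mem h1) h2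
          exact mem_of_pow_mem p y hy _ (b - a) (by omega) (by omega) h3
        obtain ⟨a, b, hab, hfab⟩ := Fintype.exists_ne_map_eq_of_card_lt
          (fun o : Option (Fin p) => o.elim i₀ (fun j => iz j.1)) hcardlt
        rcases a with _ | a <;> rcases b with _ | b
        · exact absurd rfl hab
        · exact absurd (by rw [← show i₀ = iz b.1 from hfab]; exact hi₀) (hizM b.1)
        · exact absurd (by rw [show iz a.1 = i₀ from hfab]; exact hi₀) (hizM a.1)
        · have hne : a.1 ≠ b.1 := fun h => hab (by rw [Fin.ext h])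
          rcases lt_or_gt_of_ne hne with h | h
          · exact key a.1 b.1 h b.2 hfab
          · exact key b.1 a.1 h a.2 hfab.symm
      · push_neg at h0
        obtain ⟨i, hi⟩ := hcov y hy
        exact ⟨i, h0 i, hi⟩
    have hlt : Nat.card M < n := by
      rw [← hn]
      exact lt_of_le_of_ne (Subgroup.card_le_card_group M)
        (fun h => hMtop ((Subgroup.card_eq_iff_eq_top M).mp h))
    refine ih (Nat.card M) hlt ↥M rfl (pg_top p M hMPG)
      (fun i => if M ≤ K i then (K i₁).subgroupOf M else (K i).subgroupOf M) ?_ ?_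
    · intro i h
      by_cases hi : M ≤ K i
      · simp only [if_pos hi] at h
        exact hi₁M (Subgroup.subgroupOf_eq_top.mp h)
      · simp only [if_neg hi] at h
        exact hi (Subgroup.subgroupOf_eq_top.mp h)
    · rintro y ⟨k, hk⟩
      obtain ⟨i, hi, hyi⟩ := hcovM (y : G) y.2 ⟨k, by rw [Subgroup.orderOf_coe]; exact hk⟩
      refine ⟨i, ?_⟩
      simp only [if_neg hi]
      exact Subgroup.mem_subgroupOf.mpr hyi

theorem result {G : Type*} [Group G] [Finite G] (p : ℕ) [Fact p.Prime] (hgen : Subgroup.closure {g : G | ∃ k : ℕ, orderOf g = p ^ k} = ⊤)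
    {ι : Type*} [Fintype ι] (K : ι → Subgroup G) (hK : ∀ i, K i ≠ ⊤)
    (hcov : ∀ g : G, (∃ k : ℕ, orderOf g = p ^ k) → ∃ i, g ∈ K i) :
    p + 1 ≤ Fintype.card ι := by
  by_contra hcon
  have hle : Fintype.card ι ≤ p := by omega
  exact aux p hle (Nat.card G) G rfl hgen K hK hcov

end Cfsg.Agent.S4182
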