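import Cfsg.Statements.S4186

set_option autoImplicit false
open Cfsg
open scoped Pointwise

namespace Cfsg.Agent.S4186

theorem result {G : Type*} [Group G] (T X : Subgroup G) [Finite ↥T] (hT : IsPGroup 2 ↥T) (hTN : T ≤ Subgroup.normalizer (X : Set G)) (hTC : ¬ T ≤ Subgroup.centralizer (X : Set G)) : ∃ t ∈ T, ∃ x ∈ X, x ≠ 1 ∧ t * x * t⁻¹ = x⁻¹ := by
  classical
  obtain ⟨t, htT, htC⟩ := SetLike.not_le_iff_exists.mp hTC
  obtain ⟨m, hm⟩ := hT ⟨t, htT⟩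
  have hm' : t ^ 2 ^ m = 1 := by simpa using congrArg Subtype.val hm
  have hex : ∃ j, t ^ 2 ^ j ∈ Subgroup.centralizer (X : Set G) :=
    ⟨m, by rw [hm']; exact Subgroup.one_mem _⟩
  have hj : t ^ 2 ^ (Nat.find hex) ∈ Subgroup.centralizer (X : Set G) := Nat.find_spec hex
  have hj0 : Nat.find hex ≠ 0 := by
    intro h0
    rw [h0] at hj
    simp at hj
    exact htC hj
  obtain ⟨i, hi⟩ := Nat.exists_eq_succ_of_ne_zero hj0
  have hs : t ^ 2 ^ i ∉ Subgroup.centralizer (X : Set G) := Nat.find_min hex (by omega)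
  have hsT : t ^ 2 ^ i ∈ T := T.pow_mem htT _
  have hs2 : (t ^ 2 ^ i) ^ 2 ∈ Subgroup.centralizer (X : Set G) := by
    have : (t ^ 2 ^ i) ^ 2 = t ^ 2 ^ (Nat.find hex) := by
      rw [← pow_mul, hi, pow_succ]
    rw [this]; exact hj
  generalize t ^ 2 ^ i = s at hs hsT hs2
  rw [Subgroup.mem_centralizer_iff] at hs
  push Not at hs
  obtain ⟨y, hyX, hy⟩ := hs
  have hsy : s * y * s⁻¹ ∈ X := (Subgroup.mem_normalizer_iff.mp (hTN hsT) y).mp hyX
  refine ⟨s, hsT, y⁻¹ * (s * y * s⁻¹), X.mul_mem (X.inv_mem hyX) hsy, ?_, ?_⟩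
  · intro h
    apply hy
    have h1 : s * y * s⁻¹ = y := by
      have := congrArg (fun z => y * z) h
      simpa using this
    calc y * s = (s * y * s⁻¹) * s := by rw [h1]
      _ = s * y := by group
  · have hc : y * s ^ 2 = s ^ 2 * y := (Subgroup.mem_centralizer_iff.mp hs2) y hyX
    have h2 : s ^ 2 * y * (s ^ 2)⁻¹ = y := by rw [← hc]; group
    calc s * (y⁻¹ * (s * y * s⁻¹)) * s⁻¹ = s * y⁻¹ * s⁻¹ * (s ^ 2 * y * (s ^ 2)⁻¹) := by group
      _ = s * y⁻¹ * s⁻¹ * y := by rw [h2]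
      _ = (y⁻¹ * (s * y * s⁻¹))⁻¹ := by group

end Cfsg.Agent.S4186
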