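import Cfsg.Statements.S4195

set_option autoImplicit false
open Cfsg
open scoped Pointwise

namespace Cfsg.Agent.S4195

theorem aux_inv_mem_sylow {G : Type*} [Group G] [Finite G] (P : Sylow 2 G) (x n : G)
    (hn : n ∈ Subgroup.normalizer ((P : Subgroup G) : Set G)) (hnx : n⁻¹ * x * n = x⁻¹) :
    ∃ y ∈ (P : Subgroup G), y⁻¹ * x * y = x⁻¹ := by
  have h1 : n * x⁻¹ = x * n := by
    rw [← hnx]; group
  have h2 : n * x = x⁻¹ * n := by
    calc n * x = x⁻¹ * (x * n) * x := by group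
      _ = x⁻¹ * (n * x⁻¹) * x := by rw [h1]
      _ = x⁻¹ * n := by group
  have hn2 : Commute (n ^ 2) x := by
    change n ^ 2 * x = x * n ^ 2
    rw [pow_two, mul_assoc, h2, ← mul_assoc, h1, mul_assoc]
  have hord : orderOf n ≠ 0 := (orderOf_pos n).ne'
  obtain ⟨a, m, hm, hnm⟩ := Nat.exists_eq_two_pow_mul_odd hord
  obtain ⟨j, rfl⟩ := hm
  refine ⟨n ^ (2 * j + 1), ?_, ?_⟩
  · have hpg : IsPGroup 2 (Subgroup.zpowers (n ^ (2 * j + 1))) := by
      rintro ⟨z, hz⟩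
      obtain ⟨i, rfl⟩ := Subgroup.mem_zpowers_iff.mp hz
      refine ⟨a, ?_⟩
      apply Subtype.ext
      have e1 : (n ^ (2 * j + 1)) ^ 2 ^ a = 1 := by
        rw [← pow_mul, mul_comm, ← hnm, pow_orderOf_eq_one]
      change ((n ^ (2 * j + 1)) ^ i) ^ 2 ^ a = 1
      rw [← zpow_natCast ((n ^ (2 * j + 1)) ^ i) (2 ^ a), ← zpow_mul, zpow_mul', zpow_natCast, e1,
        one_zpow]
    have h3 := hpg.inf_normalizer_sylow P
    have h4 : n ^ (2 * j + 1) ∈ Subgroup.zpowers (n ^ (2 * j + 1)) ⊓ (P : Subgroup G) :=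
      h3.le ⟨Subgroup.mem_zpowers _, pow_mem hn _⟩
    exact h4.2
  · have hc : Commute ((n ^ 2) ^ j) x := hn2.pow_left j
    have e : n ^ (2 * j + 1) = (n ^ 2) ^ j * n := by rw [pow_succ, pow_mul]
    rw [e, mul_inv_rev, mul_assoc, mul_assoc, ← mul_assoc x, ← hc.eq, mul_assoc, ← mul_assoc _ ((n ^ 2) ^ j),
      inv_mul_cancel, one_mul, ← mul_assoc, hnx]

theorem result {G : Type*} [Group G] [Finite G] (x : G) (hx : x ≠ 1) (P : Sylow 2 G) (hP : (P : Subgroup G) ≤ Subgroup.centralizer ({x} : Set G)) (hreal : IsConj x x⁻¹) : orderOf x = 2 := by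
  obtain ⟨c, hc⟩ := isConj_iff.mp hreal
  have hxc : x ∈ Subgroup.centralizer ((P : Subgroup G) : Set G) := by
    rw [Subgroup.mem_centralizer_iff]
    intro y hy
    have := hP hy
    rw [Subgroup.mem_centralizer_iff] at this
    exact (this x rfl).symm
  have hxc' : (c⁻¹)⁻¹ * x * c⁻¹ ∈ Subgroup.centralizer ((P : Subgroup G) : Set G) := by
    rw [inv_inv, hc]
    exact inv_mem hxc
  obtain ⟨n, hn, hnx⟩ := Sylow.conj_eq_normalizer_conj_of_mem_centralizer P x c⁻¹ hxc hxc'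
  rw [inv_inv, hc] at hnx
  obtain ⟨y, hy, hyx⟩ := aux_inv_mem_sylow P x n hn hnx.symm
  have hcomm := hP hy
  rw [Subgroup.mem_centralizer_iff] at hcomm
  have hcomm' := hcomm x rfl
  have hxx : x = x⁻¹ := by
    rw [← hyx, mul_assoc, hcomm', ← mul_assoc, inv_mul_cancel, one_mul]
  have hx2 : x ^ 2 = 1 := by
    rw [pow_two]
    nth_rewrite 2 [hxx]
    exact mul_inv_cancel x
  exact orderOf_eq_prime hx2 hx

end Cfsg.Agent.S4195
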