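import Cfsg.Statements.S4196

set_option autoImplicit false
open Cfsg
open scoped Pointwise

namespace Cfsg.Agent.S4196

theorem aux_inv_mem_sylow {G : Type*} [Group G] [Finite G] (P : Sylow 2 G) (x n : G)
    (hn : n ∈ Subgroup.normalizer ((P : Subgroup G) : Set G)) (hnx : n⁻¹ * x * n = x⁻¹) :
    ∃ y ∈ (P : Subgroup G), y⁻¹ * x * y = x⁻¹ := by
  have h1 : n * x⁻¹ = x * n := by
    rw [← hnx]; group
  have h2 : n * x = x⁻¹ * n := by
    calc n * x = x⁻¹ * (x * n) * x := by group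
      _ = x⁻¹ * (n * x⁻¹) * x := by rw [h1]
      _ = x⁻¹ * n := by group
  have hn2 : Commute (n ^ 2) x := by
    change n ^ 2 * x = x * n ^ 2
    rw [pow_two, mul_assoc, h2, ← mul_assoc, h1, mul_assoc]
  have hord : orderOf n ≠ 0 := (orderOf_pos n).ne'
  obtain ⟨a, m, hm, hnm⟩ := Nat.exists_eq_two_pow_mul_odd hord
  obtain ⟨j, rfl⟩ := hm
  refine ⟨n ^ (2 * j + 1), ?_, ?_⟩
  · have hpg : IsPGroup 2 (Subgroup.zpowers (n ^ (2 * j + 1))) := by
      rintro ⟨z, hz⟩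
      obtain ⟨i, rfl⟩ := Subgroup.mem_zpowers_iff.mp hz
      refine ⟨a, ?_⟩
      apply Subtype.ext
      have e1 : (n ^ (2 * j + 1)) ^ 2 ^ a = 1 := by
        rw [← pow_mul, mul_comm, ← hnm, pow_orderOf_eq_one]
      change ((n ^ (2 * j + 1)) ^ i) ^ 2 ^ a = 1
      rw [← zpow_natCast ((n ^ (2 * j + 1)) ^ i) (2 ^ a), ← zpow_mul, zpow_mul', zpow_natCast, e1,
        one_zpow]
    have h3 := hpg.inf_normalizer_sylow P
    have h4 : n ^ (2 * j + 1) ∈ Subgroup.zpowers (n ^ (2 * j + 1)) ⊓ (P : Subgroup G) :=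
      h3.le ⟨Subgroup.mem_zpowers _, pow_mem hn _⟩
    exact h4.2
  · have hc : Commute ((n ^ 2) ^ j) x := hn2.pow_left j
    have e : n ^ (2 * j + 1) = (n ^ 2) ^ j * n := by rw [pow_succ, pow_mul]
    rw [e, mul_inv_rev, mul_assoc, mul_assoc, ← mul_assoc x, ← hc.eq, mul_assoc, ← mul_assoc _ ((n ^ 2) ^ j),
      inv_mul_cancel, one_mul, ← mul_assoc, hnx]

theorem aux_order_two {G : Type*} [Group G] [Finite G] (x : G) (hx : x ≠ 1) (P : Sylow 2 G) (hP : (P : Subgroup G) ≤ Subgroup.centralizer ({x} : Set G)) (hreal : IsConj x x⁻¹) : orderOf x = 2 := by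
  obtain ⟨c, hc⟩ := isConj_iff.mp hreal
  have hxc : x ∈ Subgroup.centralizer ((P : Subgroup G) : Set G) := by
    rw [Subgroup.mem_centralizer_iff]
    intro y hy
    have := hP hy
    rw [Subgroup.mem_centralizer_iff] at this
    exact (this x rfl).symm
  have hxc' : (c⁻¹)⁻¹ * x * c⁻¹ ∈ Subgroup.centralizer ((P : Subgroup G) : Set G) := by
    rw [inv_inv, hc]
    exact inv_mem hxc
  obtain ⟨n, hn, hnx⟩ := Sylow.conj_eq_normalizer_conj_of_mem_centralizer P x c⁻¹ hxc hxc'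
  rw [inv_inv, hc] at hnx
  obtain ⟨y, hy, hyx⟩ := aux_inv_mem_sylow P x n hn hnx.symm
  have hcomm := hP hy
  rw [Subgroup.mem_centralizer_iff] at hcomm
  have hcomm' := hcomm x rfl
  have hxx : x = x⁻¹ := by
    rw [← hyx, mul_assoc, hcomm', ← mul_assoc, inv_mul_cancel, one_mul]
  have hx2 : x ^ 2 = 1 := by
    rw [pow_two]
    nth_rewrite 2 [hxx]
    exact mul_inv_cancel x
  exact orderOf_eq_prime hx2 hx

theorem aux_mem_smul {G : Type*} [Group G] {p : ℕ} (P : Sylow p G) (g y : G) :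
    y ∈ g • P ↔ g⁻¹ * y * g ∈ P := by
  change y ∈ ((g • P : Sylow p G) : Subgroup G) ↔ _
  rw [Sylow.coe_subgroup_smul, Subgroup.mem_pointwise_smul_iff_inv_smul_mem]
  have e : (MulAut.conj g)⁻¹ • y = g⁻¹ * y * g := by simp [MulAut.smul_def]
  rw [e]
  rfl

theorem result {G : Type*} [Group G] [Finite G] (P : Sylow 2 G) :
    (IsMulCommutative (P : Subgroup G) ∧ ∀ x ∈ (P : Subgroup G), x ^ 2 = 1) ↔
      ∀ x : G, (∃ k : ℕ, orderOf x = 2 ^ k) → (∃ Q : Sylow 2 G, (Q : Subgroup G) ≤ Subgroup.centralizer ({x} : Set G)) ∧ IsConj x x⁻¹ := by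
  constructor
  · rintro ⟨hcomm, hexp⟩ x ⟨k, hk⟩
    have hpg : IsPGroup 2 (Subgroup.zpowers x) := by
      apply IsPGroup.of_card (n := k)
      rw [Nat.card_zpowers, hk]
    obtain ⟨Q, hQ⟩ := hpg.exists_le_sylow
    have hxQ : x ∈ Q := hQ (Subgroup.mem_zpowers x)
    obtain ⟨g, rfl⟩ := MulAction.exists_smul_eq G P Q
    rw [aux_mem_smul] at hxQ
    have hx2 : x ^ 2 = 1 := by
      have h1 := hexp _ hxQ
      have e : (g⁻¹ * x * g) ^ 2 = g⁻¹ * x ^ 2 * g := by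
        rw [pow_two, pow_two]; group
      rw [e] at h1
      calc x ^ 2 = g * (g⁻¹ * x ^ 2 * g) * g⁻¹ := by group
        _ = 1 := by rw [h1]; group
    have hxinv : x⁻¹ = x := by
      rw [inv_eq_iff_mul_eq_one, ← pow_two, hx2]
    refine ⟨⟨g • P, ?_⟩, ?_⟩
    · intro y hy
      rw [Subgroup.mem_centralizer_iff]
      intro z hz
      rw [Set.mem_singleton_iff] at hz
      subst hz
      have hy' : g⁻¹ * y * g ∈ P := (aux_mem_smul P g y).mp hy
      have h2 := congrArg Subtype.val (mul_comm' (⟨_, hy'⟩ : (P : Subgroup G)) ⟨_, hxQ⟩)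
      simp only [Subgroup.coe_mul] at h2
      calc z * y = g * ((g⁻¹ * z * g) * (g⁻¹ * y * g)) * g⁻¹ := by group
        _ = g * ((g⁻¹ * y * g) * (g⁻¹ * z * g)) * g⁻¹ := by rw [h2]
        _ = y * z := by group
    · rw [hxinv]
  · intro h
    have hexp : ∀ x ∈ (P : Subgroup G), x ^ 2 = 1 := by
      intro x hx
      by_cases hx1 : x = 1
      · rw [hx1, one_pow]
      · have hk : ∃ k : ℕ, orderOf x = 2 ^ k := by
          obtain ⟨k, hk⟩ := (IsPGroup.iff_orderOf.mp P.isPGroup') ⟨x, hx⟩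
          exact ⟨k, by rw [← hk, Subgroup.orderOf_mk]⟩
        obtain ⟨⟨Q, hQ⟩, hconj⟩ := h x hk
        have := aux_order_two x hx1 Q hQ hconj
        rw [← this, pow_orderOf_eq_one]
    refine ⟨?_, hexp⟩
    rw [isMulCommutative_iff]
    rintro ⟨a, ha⟩ ⟨b, hb⟩
    apply Subtype.ext
    change a * b = b * a
    have h1 := hexp a ha
    have h2 := hexp b hb
    have h3 := hexp (a * b) (mul_mem ha hb)
    have ea : a⁻¹ = a := by rw [inv_eq_iff_mul_eq_one, ← pow_two, h1]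
    have eb : b⁻¹ = b := by rw [inv_eq_iff_mul_eq_one, ← pow_two, h2]
    have eab : (a * b)⁻¹ = a * b := by rw [inv_eq_iff_mul_eq_one, ← pow_two, h3]
    rw [← eab, mul_inv_rev, ea, eb]

end Cfsg.Agent.S4196
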