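import Cfsg.Statements.S4200

import Mathlib
import Cfsg.Agent.S4263

set_option autoImplicit false
open Cfsg
open scoped Pointwise

namespace Cfsg.Agent.S4200

theorem relIndex_le_index' {X : Type*} [Group X] [Finite X] (Y D : Subgroup X) :
    Y.relIndex D ≤ Y.index := by
  have h := Subgroup.relIndex_le_of_le_right (H := Y) (le_top : D ≤ ⊤)
    (by rw [Subgroup.relIndex_top_right]; exact Subgroup.index_ne_zero_of_finite)
  rwa [Subgroup.relIndex_top_right] at h

theorem card_le_index_mul {X : Type*} [Group X] [Finite X] (Y D : Subgroup X) :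
    Nat.card D ≤ Y.index * Nat.card (D ⊓ Y : Subgroup X) := by
  have h1 := Cfsg.Agent.S4263.relIndex_mul_card (inf_le_left : D ⊓ Y ≤ D)
  rw [inf_comm, Subgroup.inf_relIndex_right] at h1
  rw [← h1, inf_comm]
  exact Nat.mul_le_mul_right _ (relIndex_le_index' Y D)

theorem card_lt_index_mul {X : Type*} [Group X] [Finite X] (Y D : Subgroup X) (g : X)
    (hg : ∀ d ∈ D, ∀ u ∈ Y, g ≠ d * u) :
    Nat.card D < Y.index * Nat.card (D ⊓ Y : Subgroup X) := by
  have h1 := Cfsg.Agent.S4263.relIndex_mul_card (inf_le_left : D ⊓ Y ≤ D)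
  rw [inf_comm, Subgroup.inf_relIndex_right] at h1
  have h2 : Y.relIndex D < Y.index := by
    classical
    let _ := Fintype.ofFinite (D ⧸ Y.subgroupOf D)
    let _ := Fintype.ofFinite (X ⧸ Y)
    show Nat.card (D ⧸ Y.subgroupOf D) < Nat.card (X ⧸ Y)
    rw [Nat.card_eq_fintype_card, Nat.card_eq_fintype_card]
    let f : D ⧸ Y.subgroupOf D → X ⧸ Y := Quotient.map' (fun d : D => (d : X)) (by
      intro a b hab
      rw [QuotientGroup.leftRel_apply] at hab ⊢
      exact hab)
    apply Fintype.card_lt_of_injective_of_notMem f (b := QuotientGroup.mk g)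
    · intro a b
      refine Quotient.inductionOn₂' a b ?_
      intro a' b' hab
      have h3 : (QuotientGroup.mk (a' : X) : X ⧸ Y) = QuotientGroup.mk (b' : X) := hab
      rw [QuotientGroup.eq] at h3
      apply Quotient.sound'
      rw [QuotientGroup.leftRel_apply]
      exact h3
    · rintro ⟨a, ha⟩
      revert ha
      refine Quotient.inductionOn' a ?_
      intro d hd
      have h3 : (QuotientGroup.mk (d : X) : X ⧸ Y) = QuotientGroup.mk g := hd
      rw [QuotientGroup.eq] at h3
      apply hg d d.2 _ h3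
      group
  rw [← h1, inf_comm]
  exact Nat.mul_lt_mul_of_pos_right h2 Nat.card_pos

theorem result {X : Type*} [Group X] [Finite X] (Y : Subgroup X) : Nat.card (ConjClasses Y) ≤ Y.index * Nat.card (ConjClasses X) ∧ Nat.card (ConjClasses X) ≤ Y.index * Nat.card (ConjClasses Y) ∧ (¬ Y.Normal → Nat.card (ConjClasses X) < Y.index * Nat.card (ConjClasses Y)) := by
  classical
  have := Fintype.ofFinite X
  have : Fintype Y := Fintype.ofFinite Y
  have hA := card_comm_eq_card_conjClasses_mul_card X
  have hB := card_comm_eq_card_conjClasses_mul_card Y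
  have hXY : Y.index * Nat.card Y = Nat.card X := Subgroup.index_mul_card Y
  have hYpos : 0 < Nat.card Y := Nat.card_pos
  have hmpos : 0 < Y.index := Nat.pos_of_ne_zero Subgroup.index_ne_zero_of_finite
  have sA : Nat.card {p : X × X // Commute p.1 p.2} =
      ∑ x : X, Nat.card {x' : X // Commute x x'} := by
    rw [Nat.card_congr (Equiv.subtypeProdEquivSigmaSubtype Commute), Nat.card_sigma]
  have sM1 : Nat.card {p : X × Y // Commute p.1 (p.2 : X)} =
      ∑ x : X, Nat.card {y : Y // Commute x (y : X)} := by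
    rw [Nat.card_congr (Equiv.subtypeProdEquivSigmaSubtype
      (fun (x : X) (y : Y) => Commute x (y : X))), Nat.card_sigma]
  have sM2 : Nat.card {p : X × Y // Commute p.1 (p.2 : X)} =
      ∑ y : Y, Nat.card {x : X // Commute (y : X) x} := by
    have e : {p : X × Y // Commute p.1 (p.2 : X)} ≃ {p : Y × X // Commute (p.1 : X) p.2} :=
      ⟨fun p => ⟨(p.1.2, p.1.1), p.2.symm⟩, fun p => ⟨(p.1.2, p.1.1), p.2.symm⟩,
        fun p => rfl, fun p => rfl⟩
    rw [Nat.card_congr e, Nat.card_congr (Equiv.subtypeProdEquivSigmaSubtype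
      (fun (y : Y) (x : X) => Commute (y : X) x)), Nat.card_sigma]
  have sB : Nat.card {p : Y × Y // Commute p.1 p.2} =
      ∑ y : Y, Nat.card {y' : Y // Commute (y : X) (y' : X)} := by
    rw [Nat.card_congr (Equiv.subtypeProdEquivSigmaSubtype Commute), Nat.card_sigma]
    apply Finset.sum_congr rfl
    intro y _
    apply Nat.card_congr
    apply Equiv.subtypeEquivRight
    intro y'
    constructor
    · intro h; exact congrArg Subtype.val h
    · intro h; exact Subtype.ext h
  have ta : ∀ x : X, Nat.card {x' : X // Commute x x'} =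
      Nat.card (Subgroup.centralizer ({x} : Set X)) := by
    intro x
    apply Nat.card_congr
    apply Equiv.subtypeEquivRight
    intro x'
    rw [Subgroup.mem_centralizer_iff]
    constructor
    · intro h z hz
      rw [Set.mem_singleton_iff] at hz
      subst hz; exact h
    · intro h; exact h x rfl
  have tb : ∀ x : X, Nat.card {y : Y // Commute x (y : X)} =
      Nat.card (Subgroup.centralizer ({x} : Set X) ⊓ Y : Subgroup X) := by
    intro x
    apply Nat.card_congr
    refine ⟨fun y => ⟨(y.1 : X), ?_, y.1.2⟩, fun z => ⟨⟨z.1, z.2.2⟩, ?_⟩,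
      fun y => rfl, fun z => rfl⟩
    · show (y.1 : X) ∈ Subgroup.centralizer ({x} : Set X)
      rw [Subgroup.mem_centralizer_iff]
      intro z hz
      rw [Set.mem_singleton_iff] at hz
      subst hz; exact y.2
    · have h1 : (z.1 : X) ∈ Subgroup.centralizer ({x} : Set X) := z.2.1
      rw [Subgroup.mem_centralizer_iff] at h1
      exact h1 x rfl
  have hle : ∀ x : X, Nat.card {x' : X // Commute x x'} ≤
      Y.index * Nat.card {y : Y // Commute x (y : X)} := by
    intro x; rw [ta, tb]; exact card_le_index_mul Y _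
  have hAM : Nat.card {p : X × X // Commute p.1 p.2} ≤
      Y.index * Nat.card {p : X × Y // Commute p.1 (p.2 : X)} := by
    rw [sA, sM1, Finset.mul_sum]
    exact Finset.sum_le_sum (fun x _ => hle x)
  have hMB : Nat.card {p : X × Y // Commute p.1 (p.2 : X)} ≤
      Y.index * Nat.card {p : Y × Y // Commute p.1 p.2} := by
    rw [sM2, sB, Finset.mul_sum]
    exact Finset.sum_le_sum (fun y _ => hle (y : X))
  have hBA : Nat.card {p : Y × Y // Commute p.1 p.2} ≤
      Nat.card {p : X × X // Commute p.1 p.2} := by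
    apply Nat.card_le_card_of_injective
      (fun p : {p : Y × Y // Commute p.1 p.2} =>
        (⟨((p.1.1 : X), (p.1.2 : X)), congrArg Subtype.val p.2⟩ :
          {p : X × X // Commute p.1 p.2}))
    intro p q hpq
    have h1 := congrArg (fun r : {p : X × X // Commute p.1 p.2} => r.1.1) hpq
    have h2 := congrArg (fun r : {p : X × X // Commute p.1 p.2} => r.1.2) hpq
    apply Subtype.ext
    apply Prod.ext
    · exact Subtype.ext h1
    · exact Subtype.ext h2
  refine ⟨?_, ?_, ?_⟩
  · rw [hA, hB, ← hXY] at hBA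
    have h3 : Nat.card (ConjClasses Y) * Nat.card Y ≤
        (Y.index * Nat.card (ConjClasses X)) * Nat.card Y := by
      calc Nat.card (ConjClasses Y) * Nat.card Y
          ≤ Nat.card (ConjClasses X) * (Y.index * Nat.card Y) := hBA
        _ = (Y.index * Nat.card (ConjClasses X)) * Nat.card Y := by ring
    exact Nat.le_of_mul_le_mul_right h3 hYpos
  · have h3 : Nat.card (ConjClasses X) * (Y.index * Nat.card Y) ≤
        (Y.index * Nat.card (ConjClasses Y)) * (Y.index * Nat.card Y) := by
      calc Nat.card (ConjClasses X) * (Y.index * Nat.card Y)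
          = Nat.card {p : X × X // Commute p.1 p.2} := by rw [hA, hXY]
        _ ≤ Y.index * Nat.card {p : X × Y // Commute p.1 (p.2 : X)} := hAM
        _ ≤ Y.index * (Y.index * Nat.card {p : Y × Y // Commute p.1 p.2}) :=
            Nat.mul_le_mul_left _ hMB
        _ = (Y.index * Nat.card (ConjClasses Y)) * (Y.index * Nat.card Y) := by rw [hB]; ring
    exact Nat.le_of_mul_le_mul_right h3 (Nat.mul_pos hmpos hYpos)
  · intro hnorm
    have hex : ∃ y ∈ Y, ∃ g : X, g * y * g⁻¹ ∉ Y := by
      by_contra hcon
      push Not at hcon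
      exact hnorm ⟨fun y hy g => hcon y hy g⟩
    obtain ⟨y0, hy0, g, hg⟩ := hex
    have hlt : Nat.card {x' : X // Commute y0 x'} <
        Y.index * Nat.card {y : Y // Commute y0 (y : X)} := by
      rw [ta, tb]
      apply card_lt_index_mul Y _ g⁻¹
      intro d hd u hu heq
      apply hg
      have hg' : g = u⁻¹ * d⁻¹ := by
        rw [← inv_inv g, heq]; group
      rw [Subgroup.mem_centralizer_iff] at hd
      have hd' := hd y0 rfl
      have h5 : g * y0 * g⁻¹ = u⁻¹ * y0 * u := by
        rw [hg']
        have h6 : d⁻¹ * y0 * d = y0 := by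
          rw [mul_assoc, hd']; group
        calc u⁻¹ * d⁻¹ * y0 * (u⁻¹ * d⁻¹)⁻¹ = u⁻¹ * (d⁻¹ * y0 * d) * u := by group
          _ = u⁻¹ * y0 * u := by rw [h6]
      rw [h5]
      exact Y.mul_mem (Y.mul_mem (Y.inv_mem hu) hy0) hu
    have hMB' : Nat.card {p : X × Y // Commute p.1 (p.2 : X)} <
        Y.index * Nat.card {p : Y × Y // Commute p.1 p.2} := by
      rw [sM2, sB, Finset.mul_sum]
      exact Finset.sum_lt_sum (fun (y : Y) _ => hle (y : X))
        ⟨⟨y0, hy0⟩, Finset.mem_univ _, hlt⟩
    have h3 : Nat.card (ConjClasses X) * (Y.index * Nat.card Y) <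
        (Y.index * Nat.card (ConjClasses Y)) * (Y.index * Nat.card Y) := by
      calc Nat.card (ConjClasses X) * (Y.index * Nat.card Y)
          = Nat.card {p : X × X // Commute p.1 p.2} := by rw [hA, hXY]
        _ ≤ Y.index * Nat.card {p : X × Y // Commute p.1 (p.2 : X)} := hAM
        _ < Y.index * (Y.index * Nat.card {p : Y × Y // Commute p.1 p.2}) :=
            Nat.mul_lt_mul_of_pos_left hMB' hmpos
        _ = (Y.index * Nat.card (ConjClasses Y)) * (Y.index * Nat.card Y) := by rw [hB]; ring
    exact Nat.lt_of_mul_lt_mul_right h3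

end Cfsg.Agent.S4200
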