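import Cfsg.Statements.S4207

import Mathlib

set_option autoImplicit false
open Cfsg
open scoped Pointwise

namespace Cfsg.Agent.S4207

theorem card_dvd_of_free {G X : Type*} [Group G] [MulAction G X] [Finite G] [Finite X]
    (hfree : ∀ x : X, MulAction.stabilizer G x = ⊥) : Nat.card G ∣ Nat.card X := by
  classical
  have e := MulAction.selfEquivSigmaOrbitsQuotientStabilizer G X
  have : Fintype (Quotient (MulAction.orbitRel G X)) := Fintype.ofFinite _
  rw [Nat.card_congr e, Nat.card_sigma]
  apply Finset.dvd_sum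
  intro ω _
  have h : Nat.card (G ⧸ MulAction.stabilizer G (Quotient.out ω)) = Nat.card G := by
    rw [hfree]
    exact Subgroup.index_bot
  rw [h]

theorem exists_gen {Q : Type*} [Group Q] [Finite Q] {p : ℕ} [Fact p.Prime] (hQ : IsPGroup p Q)
    (j : ℕ) : ∃ f : Fin j → Q, Subgroup.closure (Set.range f) = ⊤ ∨
      p ^ j ≤ Nat.card (Subgroup.closure (Set.range f)) := by
  induction j with
  | zero =>
    refine ⟨fun i => i.elim0, Or.inr ?_⟩
    rw [pow_zero]
    exact Nat.card_pos
  | succ j ih =>
    obtain ⟨f, hf⟩ := ih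
    by_cases htop : Subgroup.closure (Set.range f) = ⊤
    · refine ⟨Fin.cons 1 f, Or.inl ?_⟩
      rw [eq_top_iff, ← htop, Fin.range_cons]
      exact Subgroup.closure_mono (Set.subset_insert _ _)
    · have hf' : p ^ j ≤ Nat.card (Subgroup.closure (Set.range f)) := hf.resolve_left htop
      obtain ⟨x, hx⟩ : ∃ x : Q, x ∉ Subgroup.closure (Set.range f) := by
        by_contra hcon
        push Not at hcon
        exact htop (eq_top_iff.mpr (fun x _ => hcon x))
      refine ⟨Fin.cons x f, Or.inr ?_⟩
      rw [Fin.range_cons]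
      have hle : Subgroup.closure (Set.range f) ≤ Subgroup.closure (insert x (Set.range f)) :=
        Subgroup.closure_mono (Set.subset_insert _ _)
      have hxmem : x ∈ Subgroup.closure (insert x (Set.range f)) :=
        Subgroup.subset_closure (Set.mem_insert _ _)
      obtain ⟨a, ha⟩ := IsPGroup.iff_card.mp (hQ.to_subgroup (Subgroup.closure (insert x (Set.range f))))
      obtain ⟨b, hb⟩ := IsPGroup.iff_card.mp (hQ.to_subgroup (Subgroup.closure (Set.range f)))
      have hdvd := Subgroup.card_dvd_of_le hle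
      have hlt : Nat.card (Subgroup.closure (Set.range f)) <
          Nat.card (Subgroup.closure (insert x (Set.range f))) := by
        by_contra hcon
        push Not at hcon
        have := Subgroup.eq_of_le_of_card_ge hle hcon
        rw [this] at hx
        exact hx hxmem
      rw [ha, hb] at hlt
      rw [hb] at hf'
      have hp := (Fact.out : p.Prime)
      have hba : b < a := (Nat.pow_lt_pow_iff_right hp.one_lt).mp hlt
      rw [ha]
      calc p ^ (j + 1) = p ^ j * p := pow_succ p j
        _ ≤ p ^ b * p := Nat.mul_le_mul_right p hf'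
        _ = p ^ (b + 1) := (pow_succ p b).symm
        _ ≤ p ^ a := Nat.pow_le_pow_right hp.pos hba

theorem exists_gen' {Q : Type*} [Group Q] [Finite Q] {p r : ℕ} [Fact p.Prime]
    (hQ : Nat.card Q = p ^ r) : ∃ f : Fin r → Q, Subgroup.closure (Set.range f) = ⊤ := by
  have hpg : IsPGroup p Q := IsPGroup.of_card hQ
  obtain ⟨f, hf⟩ := exists_gen hpg r
  refine ⟨f, ?_⟩
  rcases hf with h | h
  · exact h
  · rw [← Subgroup.card_eq_iff_eq_top]
    have := Subgroup.card_le_card_group (Subgroup.closure (Set.range f))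
    omega

@[reducible] def tupAct {P : Type*} [Group P] {r : ℕ} (A : Subgroup (MulAut P)) (x : Fin r → P)
    (hA : ∀ α ∈ A, ∀ z : P, α z * z⁻¹ ∈ frattini P) :
    MulAction A {y : Fin r → P // ∀ i, y i * (x i)⁻¹ ∈ frattini P} where
  smul α y := ⟨fun i => (α : MulAut P) (y.1 i), fun i => by
    have h1 := hA α α.2 (y.1 i)
    have h2 := y.2 i
    have h3 := (frattini P).mul_mem h1 h2
    have e : (α : MulAut P) (y.1 i) * (y.1 i)⁻¹ * (y.1 i * (x i)⁻¹) =
        (α : MulAut P) (y.1 i) * (x i)⁻¹ := by group
    rw [e] at h3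
    exact h3⟩
  one_smul y := Subtype.ext (funext fun i => rfl)
  mul_smul α β y := Subtype.ext (funext fun i => rfl)

theorem result {P : Type*} [Group P] [Finite P] {p n r : ℕ} [Fact p.Prime] (hP : Nat.card P = p ^ n) (hr : (frattini P).index = p ^ r) (A : Subgroup (MulAut P)) (hA : ∀ α ∈ A, ∀ x : P, α x * x⁻¹ ∈ frattini P) : Nat.card A ∣ p ^ (r * (n - r)) := by
  have hp := (Fact.out : p.Prime)
  have hQ : Nat.card (P ⧸ frattini P) = p ^ r := hr
  obtain ⟨f, hf⟩ := exists_gen' hQ
  choose x hx using fun i => QuotientGroup.mk_surjective (f i)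
  have hgen : Subgroup.closure (Set.range x) ⊔ frattini P = ⊤ := by
    have h1 : (Subgroup.closure (Set.range x)).map (QuotientGroup.mk' (frattini P)) = ⊤ := by
      rw [MonoidHom.map_closure, ← Set.range_comp]
      have e : (QuotientGroup.mk' (frattini P)) ∘ x = f := funext hx
      rw [e, hf]
    have h2 := Subgroup.comap_map_eq (QuotientGroup.mk' (frattini P))
      (Subgroup.closure (Set.range x))
    rw [h1, Subgroup.comap_top, QuotientGroup.ker_mk'] at h2
    exact h2.symm
  let _ := tupAct A x hA
  have hfinM : Finite (MulAut P) :=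
    Finite.of_injective (fun e : MulAut P => (e : P → P)) DFunLike.coe_injective
  have hfree : ∀ y : {y : Fin r → P // ∀ i, y i * (x i)⁻¹ ∈ frattini P},
      MulAction.stabilizer A y = ⊥ := by
    intro y
    rw [eq_bot_iff]
    intro α hα
    rw [Subgroup.mem_bot]
    have hαy : ∀ i, (α : MulAut P) (y.1 i) = y.1 i := by
      intro i
      have h0 := congrArg (fun w : {y : Fin r → P // ∀ i, y i * (x i)⁻¹ ∈ frattini P} => w.1 i)
        (MulAction.mem_stabilizer_iff.mp hα)
      exact h0
    have hytop : Subgroup.closure (Set.range y.1) = ⊤ := by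
      apply frattini_nongenerating
      rw [eq_top_iff, ← hgen]
      apply sup_le _ le_sup_right
      rw [Subgroup.closure_le]
      rintro _ ⟨i, rfl⟩
      have h1 : y.1 i ∈ Subgroup.closure (Set.range y.1) ⊔ frattini P :=
        (le_sup_left : Subgroup.closure (Set.range y.1) ≤ _) (Subgroup.subset_closure ⟨i, rfl⟩)
      have h2 : y.1 i * (x i)⁻¹ ∈ Subgroup.closure (Set.range y.1) ⊔ frattini P :=
        (le_sup_right : frattini P ≤ _) (y.2 i)
      have h3 := mul_mem (inv_mem h2) h1
      have e : (y.1 i * (x i)⁻¹)⁻¹ * y.1 i = x i := by group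
      rw [e] at h3
      exact h3
    apply Subtype.ext
    apply MulEquiv.ext
    intro z
    have heq : Set.EqOn ((α : MulAut P).toMonoidHom) (MonoidHom.id P)
        (Subgroup.closure (Set.range y.1)) := by
      apply MonoidHom.eqOn_closure
      rintro _ ⟨i, rfl⟩
      exact hαy i
    have hz : z ∈ Subgroup.closure (Set.range y.1) := by rw [hytop]; trivial
    exact heq hz
  have hdvd := card_dvd_of_free hfree
  have hcardΦ : Nat.card (frattini P) = p ^ (n - r) := by
    have h1 := Subgroup.card_mul_index (frattini P)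
    rw [hr, hP] at h1
    have hrn : r ≤ n := by
      have h2 : p ^ r ∣ p ^ n := Dvd.intro_left _ h1
      exact (Nat.pow_dvd_pow_iff_le_right hp.one_lt).mp h2
    have h3 : p ^ n = p ^ (n - r) * p ^ r := by rw [← pow_add, Nat.sub_add_cancel hrn]
    rw [h3] at h1
    exact Nat.eq_of_mul_eq_mul_right (pow_pos hp.pos r) h1
  have hcardX : Nat.card {y : Fin r → P // ∀ i, y i * (x i)⁻¹ ∈ frattini P} =
      p ^ (r * (n - r)) := by
    have e : {y : Fin r → P // ∀ i, y i * (x i)⁻¹ ∈ frattini P} ≃ (Fin r → frattini P) :=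
      { toFun := fun y i => ⟨y.1 i * (x i)⁻¹, y.2 i⟩
        invFun := fun u => ⟨fun i => (u i : P) * x i, fun i => by simp⟩
        left_inv := fun y => by ext i; simp
        right_inv := fun u => by ext i; simp }
    rw [Nat.card_congr e, Nat.card_fun, hcardΦ, Nat.card_eq_fintype_card, Fintype.card_fin,
      ← pow_mul, mul_comm]
  rw [hcardX] at hdvd
  exact hdvd

end Cfsg.Agent.S4207
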