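import Cfsg.Statements.S4214

import Mathlib
import Cfsg.Agent.S0003
import Cfsg.Agent.S0004
import Cfsg.Agent.S4263

set_option autoImplicit false
open Cfsg
open scoped Pointwise

namespace Cfsg.Agent.S4214

open scoped commutatorElement

universe u

def GoodFactor (G : Type u) [Group G] (m x : ℕ) : Prop :=
  (∃ q e : ℕ, q.Prime ∧ x = q ^ e) ∧
  (∃ K L : Subgroup G, K.Normal ∧ L.Normal ∧ K < L ∧
    (∀ M : Subgroup G, M.Normal → K ≤ M → M ≤ L → M = K ∨ M = L) ∧ x ∣ K.relIndex L) ∧
  (∃ q : ℕ, q.Prime ∧ q ∣ m ∧ x ≡ 1 [MOD q])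

def GoodNum (G : Type u) [Group G] (m t : ℕ) : Prop :=
  ∃ l : List ℕ, l.prod = t ∧ ∀ x ∈ l, GoodFactor G m x

theorem good_one (G : Type u) [Group G] (m : ℕ) : GoodNum G m 1 := ⟨[], rfl, by simp⟩

theorem good_mul {G : Type u} [Group G] {m a b : ℕ} (ha : GoodNum G m a) (hb : GoodNum G m b) :
    GoodNum G m (a * b) := by
  obtain ⟨l1, h1, h1'⟩ := ha
  obtain ⟨l2, h2, h2'⟩ := hb
  refine ⟨l1 ++ l2, by rw [List.prod_append, h1, h2], ?_⟩
  intro x hx
  rcases List.mem_append.mp hx with h | h
  · exact h1' x h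
  · exact h2' x h

theorem good_single {G : Type u} [Group G] {m x : ℕ} (h : GoodFactor G m x) : GoodNum G m x :=
  ⟨[x], by simp, by simpa using h⟩

theorem good_lift {G : Type u} [Group G] (M : Subgroup G) [M.Normal] {m' m t : ℕ} (hm : m' ∣ m)
    (h : GoodNum (G ⧸ M) m' t) : GoodNum G m t := by
  obtain ⟨l, hl, hl'⟩ := h
  refine ⟨l, hl, ?_⟩
  intro x hx
  obtain ⟨h1, ⟨K, L, hK, hL, hKL, hmin, hdvd⟩, ⟨q, hq, hqm, hmod⟩⟩ := hl' x hx
  have hsurj := QuotientGroup.mk'_surjective M
  refine ⟨h1, ⟨K.comap (QuotientGroup.mk' M), L.comap (QuotientGroup.mk' M), hK.comap _,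
    hL.comap _, ?_, ?_, ?_⟩, ⟨q, hq, hqm.trans hm, hmod⟩⟩
  · exact (Subgroup.comap_lt_comap_of_surjective hsurj).mpr hKL
  · intro M' hM' h1' h2'
    have hMM' : M ≤ M' := by
      refine le_trans ?_ h1'
      intro x hx
      rw [Subgroup.mem_comap]
      have h3 : (QuotientGroup.mk' M) x = 1 := (QuotientGroup.eq_one_iff x).mpr hx
      rw [h3]
      exact K.one_mem
    have hcm : (M'.map (QuotientGroup.mk' M)).comap (QuotientGroup.mk' M) = M' := by
      rw [Subgroup.comap_map_eq, QuotientGroup.ker_mk', sup_of_le_left hMM']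
    have hn : (M'.map (QuotientGroup.mk' M)).Normal := hM'.map _ hsurj
    have hk : K ≤ M'.map (QuotientGroup.mk' M) := by
      rw [← Subgroup.map_comap_eq_self_of_surjective hsurj K]
      exact Subgroup.map_mono h1'
    have hl2 : M'.map (QuotientGroup.mk' M) ≤ L := by
      rw [← Subgroup.map_comap_eq_self_of_surjective hsurj L]
      exact Subgroup.map_mono h2'
    rcases hmin _ hn hk hl2 with h | h
    · left
      rw [← hcm, h]
    · right
      rw [← hcm, h]
  · rw [Subgroup.relIndex_comap, Subgroup.map_comap_eq_self_of_surjective hsurj]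
    exact hdvd

theorem exists_min_normal (G : Type u) [Group G] [Finite G] [Group.IsSolvable G] [Nontrivial G] :
    ∃ (p : ℕ) (M : Subgroup G), p.Prime ∧ M.Normal ∧ (∀ x ∈ M, ∀ y ∈ M, x * y = y * x) ∧
      M ≠ ⊥ ∧ IsPGroup p M ∧ ∀ K : Subgroup G, K.Normal → K ≤ M → K = ⊥ ∨ K = M := by
  obtain ⟨p, M₀, hp, hM₀n, hM₀c, hM₀ne, hM₀p⟩ := S0003.exists_normal_abelian_pgroup G
  obtain ⟨M, ⟨hMn, hMle, hMne⟩, hmin⟩ := Set.exists_min_image
    {K : Subgroup G | K.Normal ∧ K ≤ M₀ ∧ K ≠ ⊥}
    (fun K => Nat.card K) (Set.toFinite _) ⟨M₀, hM₀n, le_rfl, hM₀ne⟩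
  refine ⟨p, M, hp, hMn, fun x hx y hy => hM₀c x (hMle hx) y (hMle hy), hMne,
    hM₀p.to_le hMle, ?_⟩
  intro K hK hKM
  by_cases hKb : K = ⊥
  · left
    exact hKb
  · right
    exact Subgroup.eq_of_le_of_card_ge hKM (hmin K ⟨hK, hKM.trans hMle, hKb⟩)

theorem mem_conj_smul {G : Type u} [Group G] (H : Subgroup G) (g y : G) :
    y ∈ MulAut.conj g • H ↔ g⁻¹ * y * g ∈ H := by
  rw [Subgroup.mem_pointwise_smul_iff_inv_smul_mem]
  simp [MulAut.smul_def]

theorem conj_smul_eq_iff {G : Type u} [Group G] (H : Subgroup G) (g : G) :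
    MulAut.conj g • H = H ↔ g ∈ Subgroup.normalizer (H : Set G) := by
  rw [Subgroup.mem_normalizer_iff]
  constructor
  · intro h z
    have h1 := mem_conj_smul H g (g * z * g⁻¹)
    rw [h] at h1
    have e : g⁻¹ * (g * z * g⁻¹) * g = z := by group
    rw [e] at h1
    exact h1.symm
  · intro h
    ext y
    rw [mem_conj_smul]
    have h1 := h (g⁻¹ * y * g)
    have e : g * (g⁻¹ * y * g) * g⁻¹ = y := by group
    rw [e] at h1
    exact h1

theorem card_hall_eq_index {X : Type u} [Group X] [Finite X] [Group.IsSolvable X] (m n : ℕ)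
    (hX : Nat.card X = m * n) (hmn : m.Coprime n) (H₀ : Subgroup X) (hH₀ : Nat.card H₀ = m) :
    Nat.card {H : Subgroup X // Nat.card H = m} = (Subgroup.normalizer (H₀ : Set X)).index := by
  letI : MulAction X (Subgroup X) := MulAction.compHom (Subgroup X) (MulAut.conj : X →* MulAut X)
  have hsmul : ∀ (g : X) (H : Subgroup X), g • H = MulAut.conj g • H := fun g H => rfl
  have h1 := MulAction.index_stabilizer X H₀
  have h2 : MulAction.stabilizer X H₀ = Subgroup.normalizer (H₀ : Set X) := by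
    ext g
    rw [MulAction.mem_stabilizer_iff, hsmul, conj_smul_eq_iff]
  have h3 : MulAction.orbit X H₀ = {H : Subgroup X | Nat.card H = m} := by
    ext H
    constructor
    · rintro ⟨g, rfl⟩
      show Nat.card ↥(g • H₀) = m
      rw [hsmul, S0004.card_conj_smul, hH₀]
    · intro hH
      obtain ⟨g, hg⟩ := S0004.result m n hX hmn H₀ H hH₀ hH
      exact ⟨g, hg⟩
  rw [← h2, h1, h3]
  exact Nat.card_coe_set_eq _

theorem caseA_card {G : Type u} [Group G] [Finite G] (M : Subgroup G) [M.Normal] (m m' : ℕ)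
    (hm : m = Nat.card M * m') (hle : ∀ H : Subgroup G, Nat.card H = m → M ≤ H) :
    Nat.card {H : Subgroup G // Nat.card H = m} =
      Nat.card {H : Subgroup (G ⧸ M) // Nat.card H = m'} := by
  have hsurj := QuotientGroup.mk'_surjective M
  have hMpos : 0 < Nat.card M := Nat.card_pos
  have hto : ∀ H : {H : Subgroup G // Nat.card H = m},
      Nat.card (H.1.map (QuotientGroup.mk' M)) = m' := by
    intro H
    have h1 := S0003.card_map_mk H.1 M
    rw [inf_of_le_right (hle H.1 H.2)] at h1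
    have h2 : Nat.card (H.1.map (QuotientGroup.mk' M)) * Nat.card M = Nat.card M * m' :=
      (h1.trans H.2).trans hm
    rw [mul_comm] at h2
    exact Nat.eq_of_mul_eq_mul_left hMpos h2
  have hinv : ∀ K : {H : Subgroup (G ⧸ M) // Nat.card H = m'},
      Nat.card (K.1.comap (QuotientGroup.mk' M)) = m := by
    intro K
    rw [S0003.card_comap_mk', K.2]
    exact hm.symm
  refine Nat.card_congr
    { toFun := fun H => ⟨H.1.map (QuotientGroup.mk' M), hto H⟩
      invFun := fun K => ⟨K.1.comap (QuotientGroup.mk' M), hinv K⟩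
      left_inv := ?_
      right_inv := ?_ }
  · intro H
    apply Subtype.ext
    show (H.1.map (QuotientGroup.mk' M)).comap (QuotientGroup.mk' M) = H.1
    rw [Subgroup.comap_map_eq, QuotientGroup.ker_mk', sup_of_le_left (hle H.1 H.2)]
  · intro K
    apply Subtype.ext
    exact Subgroup.map_comap_eq_self_of_surjective hsurj K.1

theorem exists_normal_prime_index (H : Type u) [Group H] [Finite H] [Group.IsSolvable H]
    [Nontrivial H] : ∃ K : Subgroup H, K.Normal ∧ K.index.Prime := by
  have hlt := Group.IsSolvable.commutator_lt_top_of_nontrivial H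
  obtain ⟨K, hK, hle⟩ := (eq_top_or_exists_le_coatom (commutator H)).resolve_left hlt.ne
  have hKn : K.Normal := by
    constructor
    intro k hk g
    have h1 : ⁅g, k⁆ ∈ commutator H := by
      rw [commutator_def]
      exact Subgroup.commutator_mem_commutator (Subgroup.mem_top g) (Subgroup.mem_top k)
    have e : g * k * g⁻¹ = ⁅g, k⁆ * k := by
      rw [commutatorElement_def]
      group
    rw [e]
    exact K.mul_mem (hle h1) hk
  refine ⟨K, hKn, ?_⟩
  haveI := hKn
  have hne : K.index ≠ 1 := fun h => hK.1 (Subgroup.index_eq_one.mp h)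
  obtain ⟨r, hr, hrd⟩ := Nat.exists_prime_and_dvd hne
  haveI : Fact r.Prime := ⟨hr⟩
  rw [Subgroup.index_eq_card] at hrd
  obtain ⟨a, ha⟩ := exists_prime_orderOf_dvd_card' r hrd
  have hsurj := QuotientGroup.mk'_surjective K
  have hKle : K ≤ (Subgroup.zpowers a).comap (QuotientGroup.mk' K) := by
    intro x hx
    rw [Subgroup.mem_comap]
    have h3 : (QuotientGroup.mk' K) x = 1 := (QuotientGroup.eq_one_iff x).mpr hx
    rw [h3]
    exact Subgroup.one_mem _
  have hKne : K ≠ (Subgroup.zpowers a).comap (QuotientGroup.mk' K) := by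
    intro h
    obtain ⟨b, rfl⟩ := hsurj a
    have h1 : b ∈ (Subgroup.zpowers (QuotientGroup.mk' K b)).comap (QuotientGroup.mk' K) :=
      Subgroup.mem_zpowers _
    rw [← h] at h1
    have h2 : (QuotientGroup.mk' K) b = 1 := (QuotientGroup.eq_one_iff b).mpr h1
    rw [h2, orderOf_one] at ha
    exact hr.one_lt.ne ha
  have htop := hK.2 _ (lt_of_le_of_ne hKle hKne)
  have hz : Subgroup.zpowers a = ⊤ := by
    rw [← Subgroup.map_comap_eq_self_of_surjective hsurj (Subgroup.zpowers a), htop,
      Subgroup.map_top_of_surjective _ hsurj]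
  rw [Subgroup.index_eq_card, ← Subgroup.card_top (G := H ⧸ K), ← hz, Nat.card_zpowers, ha]
  exact hr

theorem fixed_cong {G : Type u} [Group G] [Finite G] (W W₀ : Subgroup G) (hle : W₀ ≤ W) (h : G)
    (r : ℕ) [Fact r.Prime]
    (hnorm : ∀ w ∈ W, h * w * h⁻¹ ∈ W) (hpow : ∀ w ∈ W, h ^ r * w = w * h ^ r)
    (hfix : ∀ w ∈ W, (h * w = w * h ↔ w ∈ W₀)) :
    Nat.card W ≡ Nat.card W₀ [MOD r] := by
  classical
  haveI : Fintype W := Fintype.ofFinite _
  let f : Function.End W := fun w => ⟨h * w * h⁻¹, hnorm w w.2⟩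
  have hiter : ∀ (n : ℕ) (w : W), (((f ^ n) w : W) : G) = h ^ n * w * (h ^ n)⁻¹ := by
    intro n
    induction n with
    | zero =>
      intro w
      rw [pow_zero]
      show ((w : W) : G) = h ^ 0 * w * (h ^ 0)⁻¹
      simp
    | succ n ihn =>
      intro w
      rw [pow_succ]
      show (((f ^ n) (f w) : W) : G) = _
      rw [ihn]
      show h ^ n * (h * w * h⁻¹) * (h ^ n)⁻¹ = h ^ (n + 1) * w * (h ^ (n + 1))⁻¹
      rw [pow_succ]
      group
  have hfr : f ^ r ^ 1 = 1 := by
    rw [pow_one]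
    funext w
    apply Subtype.ext
    rw [hiter]
    show h ^ r * w * (h ^ r)⁻¹ = w
    rw [hpow w w.2, mul_inv_cancel_right]
  have h1 := Equiv.Perm.card_fixedPoints_modEq (f := f) (p := r) (n := 1) hfr
  have h2 : Fintype.card (Function.fixedPoints f) = Nat.card W₀ := by
    rw [← Nat.card_eq_fintype_card]
    have hto : ∀ w : Function.fixedPoints f, ((w.1 : W) : G) ∈ W₀ := by
      intro w
      have hw : f w.1 = w.1 := w.2
      have hw' : h * ((w.1 : W) : G) * h⁻¹ = ((w.1 : W) : G) := congrArg Subtype.val hw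
      rw [← hfix _ w.1.2]
      calc h * ((w.1 : W) : G) = h * ((w.1 : W) : G) * h⁻¹ * h := by group
        _ = ((w.1 : W) : G) * h := by rw [hw']
    have hinv : ∀ u : W₀, (⟨(u : G), hle u.2⟩ : W) ∈ Function.fixedPoints f := by
      intro u
      show f ⟨(u : G), hle u.2⟩ = ⟨(u : G), hle u.2⟩
      apply Subtype.ext
      show h * (u : G) * h⁻¹ = (u : G)
      have h3 := (hfix (u : G) (hle u.2)).mpr u.2
      rw [h3, mul_inv_cancel_right]
    exact Nat.card_congr
      { toFun := fun w => ⟨((w.1 : W) : G), hto w⟩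
        invFun := fun u => ⟨⟨(u : G), hle u.2⟩, hinv u⟩
        left_inv := fun w => rfl
        right_inv := fun u => rfl }
  rw [Nat.card_eq_fintype_card, ← h2]
  exact h1
theorem local_good {G : Type u} [Group G] [Finite G] (M : Subgroup G) [hMn : M.Normal] (p : ℕ)
    (hp : p.Prime) (hMp : IsPGroup p M) (hMne : M ≠ ⊥)
    (hmin : ∀ K : Subgroup G, K.Normal → K ≤ M → K = ⊥ ∨ K = M) (m : ℕ) :
    ∀ (k : ℕ) (H : Subgroup G), Nat.card H = k → Group.IsSolvable H → (Nat.card H).Coprime p →
      (∀ r : ℕ, r.Prime → r ∣ Nat.card H → r ∣ m) →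
      GoodNum G m ((M ⊓ Subgroup.centralizer (H : Set G)).relIndex M) := by
  haveI : Fact p.Prime := ⟨hp⟩
  intro k
  induction k using Nat.strong_induction_on with
  | _ k ih =>
    intro H hHk hsol hcop hprimes
    by_cases hH : H = ⊥
    · subst hH
      have h0 : M ⊓ Subgroup.centralizer (((⊥ : Subgroup G) : Subgroup G) : Set G) = M := by
        apply inf_of_le_left
        intro x _
        rw [Subgroup.mem_centralizer_iff]
        intro y hy
        have hy1 : y = 1 := Subgroup.mem_bot.mp hy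
        rw [hy1, one_mul, mul_one]
      rw [h0, Subgroup.relIndex_self]
      exact good_one G m
    · haveI : Nontrivial H := (Subgroup.nontrivial_iff_ne_bot H).mpr hH
      haveI := hsol
      obtain ⟨H₁', hH₁n, hH₁idx⟩ := exists_normal_prime_index ↥H
      haveI := hH₁n
      obtain ⟨r, hr⟩ : ∃ r, r = H₁'.index := ⟨_, rfl⟩
      rw [← hr] at hH₁idx
      haveI : Fact r.Prime := ⟨hH₁idx⟩
      obtain ⟨H₁, hH₁⟩ : ∃ H₁ : Subgroup G, H₁ = H₁'.map H.subtype := ⟨_, rfl⟩
      have hH₁le : H₁ ≤ H := by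
        rw [hH₁]
        exact Subgroup.map_subtype_le H₁'
      have hcard₁ : Nat.card H₁ = Nat.card H₁' := by
        rw [hH₁]
        exact Subgroup.card_map_of_injective H.subtype_injective
      have hmulidx : Nat.card H₁ * r = Nat.card H := by
        rw [hcard₁, hr]
        exact Subgroup.card_mul_index H₁'
      have hrH : r ∣ Nat.card H := Dvd.intro_left _ hmulidx
      have hlt : Nat.card H₁ < k := by
        rw [← hHk, ← hmulidx]
        have h1 : 0 < Nat.card H₁ := Nat.card_pos
        have h2 := hH₁idx.two_le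
        nlinarith
      have hdvd₁ : Nat.card H₁ ∣ Nat.card H := Dvd.intro _ hmulidx
      have hsol₁ : Group.IsSolvable H₁ :=
        solvable_of_solvable_injective (Subgroup.inclusion_injective hH₁le)
      have ih₁ := ih (Nat.card H₁) hlt H₁ rfl hsol₁ (Nat.Coprime.coprime_dvd_left hdvd₁ hcop)
        (fun q hq hqd => hprimes q hq (hqd.trans hdvd₁))
      obtain ⟨W, hW⟩ : ∃ W, W = M ⊓ Subgroup.centralizer (H₁ : Set G) := ⟨_, rfl⟩
      obtain ⟨W₀, hW₀⟩ : ∃ W₀, W₀ = M ⊓ Subgroup.centralizer (H : Set G) := ⟨_, rfl⟩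
      have hW₀W : W₀ ≤ W := by
        rw [hW, hW₀]
        exact inf_le_inf_left M (Subgroup.centralizer_le hH₁le)
      have hWM : W ≤ M := by
        rw [hW]
        exact inf_le_left
      rw [← hW] at ih₁
      rw [← hW₀, ← Subgroup.relIndex_mul_relIndex W₀ W M hW₀W hWM]
      refine good_mul ?_ ih₁
      by_cases hx1 : W₀.relIndex W = 1
      · rw [hx1]
        exact good_one G m
      · apply good_single
        have hxc := S4263.relIndex_mul_card hW₀W
        obtain ⟨b, hb⟩ := IsPGroup.iff_card.mp (hMp.to_le hWM)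
        obtain ⟨b₀, hb₀⟩ := IsPGroup.iff_card.mp (hMp.to_le (hW₀W.trans hWM))
        refine ⟨?_, ?_, ?_⟩
        · have hdv : W₀.relIndex W ∣ p ^ b := by
            rw [← hb, ← hxc]
            exact dvd_mul_right _ _
          obtain ⟨e, -, he⟩ := (Nat.dvd_prime_pow hp).mp hdv
          exact ⟨p, e, hp, he⟩
        · refine ⟨⊥, M, Subgroup.normal_bot, hMn, bot_lt_iff_ne_bot.mpr hMne, ?_, ?_⟩
          · intro K hK _ hKM
            exact hmin K hK hKM
          · rw [Subgroup.relIndex_bot_left]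
            have h1 : W₀.relIndex W ∣ Nat.card W := by
              rw [← hxc]
              exact dvd_mul_right _ _
            exact h1.trans (Subgroup.card_dvd_of_le hWM)
        · refine ⟨r, hH₁idx, hprimes r hH₁idx hrH, ?_⟩
          -- an element of H outside H₁
          have hne : H₁' ≠ ⊤ := by
            intro h
            rw [h, Subgroup.index_top] at hr
            rw [hr] at hH₁idx
            exact Nat.not_prime_one hH₁idx
          obtain ⟨h', hh'⟩ : ∃ h' : H, h' ∉ H₁' := by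
            by_contra hcon
            push_neg at hcon
            exact hne (eq_top_iff.mpr (fun x _ => hcon x))
          have hmemH₁ : ∀ y : G, y ∈ H₁ ↔ ∃ y' : H, y' ∈ H₁' ∧ (y' : G) = y := by
            intro y
            rw [hH₁]
            exact Subgroup.mem_map
          have hnorm : ∀ w ∈ W, (h' : G) * w * (h' : G)⁻¹ ∈ W := by
            intro w hw
            rw [hW] at hw ⊢
            refine Subgroup.mem_inf.mpr ⟨hMn.conj_mem w hw.1 _, ?_⟩
            rw [Subgroup.mem_centralizer_iff]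
            intro y hy
            obtain ⟨y', hy', rfl⟩ := (hmemH₁ y).mp hy
            have h3 : h'⁻¹ * y' * h'⁻¹⁻¹ ∈ H₁' := hH₁n.conj_mem y' hy' h'⁻¹
            have h4 : ((h'⁻¹ * y' * h'⁻¹⁻¹ : H) : G) ∈ H₁ := (hmemH₁ _).mpr ⟨_, h3, rfl⟩
            have h5 := (Subgroup.mem_centralizer_iff.mp hw.2) _ h4
            have e1 : ((h'⁻¹ * y' * h'⁻¹⁻¹ : H) : G) = (h' : G)⁻¹ * (y' : G) * (h' : G) := by
              simp
            rw [e1] at h5
            calc (y' : G) * ((h' : G) * w * (h' : G)⁻¹)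
                = (h' : G) * ((h' : G)⁻¹ * (y' : G) * (h' : G) * w) * (h' : G)⁻¹ := by group
              _ = (h' : G) * (w * ((h' : G)⁻¹ * (y' : G) * (h' : G))) * (h' : G)⁻¹ := by rw [h5]
              _ = (h' : G) * w * (h' : G)⁻¹ * (y' : G) := by group
          have hpow : ∀ w ∈ W, (h' : G) ^ r * w = w * (h' : G) ^ r := by
            intro w hw
            rw [hW] at hw
            have h3 : h' ^ r ∈ H₁' := by
              rw [hr]
              exact Subgroup.pow_index_mem H₁' h'
            have h4 : ((h' ^ r : H) : G) ∈ H₁ := (hmemH₁ _).mpr ⟨_, h3, rfl⟩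
            have h5 := (Subgroup.mem_centralizer_iff.mp hw.2) _ h4
            simpa using h5
          have hfix : ∀ w ∈ W, ((h' : G) * w = w * (h' : G) ↔ w ∈ W₀) := by
            intro w hw
            rw [hW] at hw
            constructor
            · intro hcomm
              rw [hW₀]
              refine Subgroup.mem_inf.mpr ⟨hw.1, ?_⟩
              rw [Subgroup.mem_centralizer_iff]
              intro g hg
              -- g = h'^i * y with y ∈ H₁
              have hcardQ : Nat.card (H ⧸ H₁') = r := by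
                rw [← Subgroup.index_eq_card, hr]
              have hq1 : (QuotientGroup.mk' H₁' h') ≠ 1 := by
                intro h1
                exact hh' ((QuotientGroup.eq_one_iff h').mp h1)
              have hz := zpowers_eq_top_of_prime_card hcardQ hq1
              have hmem : (QuotientGroup.mk' H₁' ⟨g, hg⟩) ∈
                  Subgroup.zpowers (QuotientGroup.mk' H₁' h') := by
                rw [hz]
                exact Subgroup.mem_top _
              obtain ⟨i, hi⟩ := Subgroup.mem_zpowers_iff.mp hmem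
              have h6 : (h' ^ i)⁻¹ * ⟨g, hg⟩ ∈ H₁' := by
                rw [← QuotientGroup.eq]
                show (QuotientGroup.mk' H₁') (h' ^ i) = (QuotientGroup.mk' H₁') ⟨g, hg⟩
                rw [map_zpow]
                exact hi
              have h7 : (((h' ^ i)⁻¹ * ⟨g, hg⟩ : H) : G) ∈ H₁ := (hmemH₁ _).mpr ⟨_, h6, rfl⟩
              have h8 := (Subgroup.mem_centralizer_iff.mp hw.2) _ h7
              have e1 : (((h' ^ i)⁻¹ * ⟨g, hg⟩ : H) : G) = ((h' : G) ^ i)⁻¹ * g := by
                simp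
              rw [e1] at h8
              have h9 : (h' : G) ^ i * w = w * (h' : G) ^ i :=
                ((show Commute (h' : G) w from hcomm).zpow_left i).eq
              calc g * w = (h' : G) ^ i * (((h' : G) ^ i)⁻¹ * g * w) := by group
                _ = (h' : G) ^ i * (w * (((h' : G) ^ i)⁻¹ * g)) := by rw [h8]
                _ = ((h' : G) ^ i * w) * (((h' : G) ^ i)⁻¹ * g) := by group
                _ = (w * (h' : G) ^ i) * (((h' : G) ^ i)⁻¹ * g) := by rw [h9]
                _ = w * g := by group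
            · intro hw0
              rw [hW₀] at hw0
              exact (Subgroup.mem_centralizer_iff.mp hw0.2) (h' : G) h'.2
          have hcong := fixed_cong W W₀ hW₀W (h' : G) r hnorm hpow hfix
          have hrp : r ≠ p := by
            rintro rfl
            have h1 : r ∣ Nat.gcd (Nat.card H) r := Nat.dvd_gcd hrH dvd_rfl
            rw [hcop.gcd_eq_one] at h1
            exact hH₁idx.one_lt.ne' (Nat.dvd_one.mp h1)
          have hgcd : r.gcd (Nat.card W₀) = 1 := by
            rw [hb₀]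
            exact Nat.Coprime.pow_right b₀ ((Nat.coprime_primes hH₁idx hp).mpr hrp)
          apply Nat.ModEq.cancel_right_of_coprime hgcd
          rw [hxc, one_mul]
          exact hcong

theorem frattini {G : Type u} [Group G] [Finite G] (M : Subgroup G) [hMn : M.Normal]
    (hMc : ∀ x ∈ M, ∀ y ∈ M, x * y = y * x) (p a : ℕ) (hp : p.Prime) (hM : Nat.card M = p ^ a)
    (m : ℕ) (hpm : ¬ p ∣ m) (H₀ : Subgroup G) (hH₀ : Nat.card H₀ = m) :
    Subgroup.normalizer ((H₀ ⊔ M : Subgroup G) : Set G) =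
      Subgroup.normalizer (H₀ : Set G) ⊔ M := by
  have hinf : H₀ ⊓ M = ⊥ := S0004.hall_inf_normal_pgroup M H₀ p a m hp hM hH₀ hpm
  have hMconj : ∀ g : G, MulAut.conj g • M = M := by
    intro g
    rw [conj_smul_eq_iff, Subgroup.normalizer_eq_top_iff.mpr hMn]
    exact Subgroup.mem_top g
  apply le_antisymm
  · intro g hg
    rw [← conj_smul_eq_iff, Subgroup.smul_sup, hMconj] at hg
    have hKinf : (MulAut.conj g • H₀) ⊓ M = ⊥ :=
      S0004.hall_inf_normal_pgroup M (MulAut.conj g • H₀) p a m hp hM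
        ((S0004.card_conj_smul g H₀).trans hH₀) hpm
    have hcop : (Nat.card M).Coprime (Nat.card H₀) := by
      rw [hM, hH₀]
      exact Nat.Coprime.pow_left a ((Nat.Prime.coprime_iff_not_dvd hp).mpr hpm)
    obtain ⟨x, hxM, hx⟩ := S0004.conj_of_complements M hMc H₀ (MulAut.conj g • H₀) hg.symm hinf
      hKinf (S0004.card_conj_smul g H₀).symm hcop
    have hxg : x⁻¹ * g ∈ Subgroup.normalizer (H₀ : Set G) := by
      rw [← conj_smul_eq_iff, map_mul, mul_smul, ← hx, map_inv, inv_smul_smul]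
    have e : g = (x⁻¹ * g) * ((x⁻¹ * g)⁻¹ * x * (x⁻¹ * g)) := by group
    rw [e]
    exact Subgroup.mul_mem _ (Subgroup.mem_sup_left hxg)
      (Subgroup.mem_sup_right (by
        have h1 := hMn.conj_mem x hxM (x⁻¹ * g)⁻¹
        simpa using h1))
  · apply sup_le
    · intro g hg
      rw [← conj_smul_eq_iff] at hg ⊢
      rw [Subgroup.smul_sup, hMconj, hg]
    · exact le_sup_right.trans Subgroup.le_normalizer

theorem caseB_card {G : Type u} [Group G] [Finite G] [Group.IsSolvable G] (M : Subgroup G)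
    [hMn : M.Normal] (hMc : ∀ x ∈ M, ∀ y ∈ M, x * y = y * x) (p a : ℕ) (hp : p.Prime)
    (hM : Nat.card M = p ^ a) (m n' : ℕ) (hG : Nat.card G = m * (p ^ a * n'))
    (hcop : m.Coprime (p ^ a * n')) (hpm : ¬ p ∣ m) (H₀ : Subgroup G) (hH₀ : Nat.card H₀ = m) :
    Nat.card {H : Subgroup G // Nat.card H = m} =
      Nat.card {H : Subgroup (G ⧸ M) // Nat.card H = m} *
        (M ⊓ Subgroup.centralizer (H₀ : Set G)).relIndex M := by
  have hsurj := QuotientGroup.mk'_surjective M
  have hinf : H₀ ⊓ M = ⊥ := S0004.hall_inf_normal_pgroup M H₀ p a m hp hM hH₀ hpm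
  have h1 := card_hall_eq_index m (p ^ a * n') hG hcop H₀ hH₀
  have hQ : Nat.card (G ⧸ M) = m * n' := by
    have h2 := S0003.card_quot M
    rw [hG, hM] at h2
    have h3 : p ^ a * Nat.card (G ⧸ M) = p ^ a * (m * n') := by
      rw [h2]
      ring
    exact Nat.eq_of_mul_eq_mul_left (pow_pos hp.pos a) h3
  have hcop' : m.Coprime n' := Nat.Coprime.coprime_dvd_right (dvd_mul_left n' (p ^ a)) hcop
  have hHbar : Nat.card (H₀.map (QuotientGroup.mk' M)) = m := by
    have h2 := S0003.card_map_mk H₀ M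
    rw [hinf, Subgroup.card_bot, mul_one] at h2
    exact h2.trans hH₀
  have h2 := card_hall_eq_index m n' hQ hcop' (H₀.map (QuotientGroup.mk' M)) hHbar
  have h3 : (Subgroup.normalizer ((H₀.map (QuotientGroup.mk' M) : Subgroup (G ⧸ M)) :
      Set (G ⧸ M))).index =
      (Subgroup.normalizer ((H₀ ⊔ M : Subgroup G) : Set G)).index := by
    rw [← Subgroup.index_comap_of_surjective _ hsurj,
      Subgroup.comap_normalizer_eq_of_surjective _ hsurj, Subgroup.comap_map_eq,
      QuotientGroup.ker_mk']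
  rw [frattini M hMc p a hp hM m hpm H₀ hH₀] at h3
  have hNM : Subgroup.normalizer (H₀ : Set G) ⊓ M = M ⊓ Subgroup.centralizer (H₀ : Set G) := by
    ext x
    constructor
    · rintro ⟨hx1, hx2⟩
      refine Subgroup.mem_inf.mpr ⟨hx2, ?_⟩
      rw [Subgroup.mem_centralizer_iff]
      intro h hh
      have hc1 : x * h * x⁻¹ * h⁻¹ ∈ H₀ :=
        H₀.mul_mem ((Subgroup.mem_normalizer_iff.mp hx1 h).mp hh) (H₀.inv_mem hh)
      have hc2 : x * h * x⁻¹ * h⁻¹ ∈ M := by
        have h4 : h * x⁻¹ * h⁻¹ ∈ M := hMn.conj_mem _ (M.inv_mem hx2) h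
        have e : x * h * x⁻¹ * h⁻¹ = x * (h * x⁻¹ * h⁻¹) := by group
        rw [e]
        exact M.mul_mem hx2 h4
      have hc3 : x * h * x⁻¹ * h⁻¹ ∈ H₀ ⊓ M := ⟨hc1, hc2⟩
      rw [hinf, Subgroup.mem_bot] at hc3
      calc h * x = (x * h * x⁻¹ * h⁻¹)⁻¹ * (x * h) := by group
        _ = x * h := by rw [hc3, inv_one, one_mul]
    · rintro ⟨hx1, hx2⟩
      exact Subgroup.mem_inf.mpr ⟨Subgroup.centralizer_le_normalizer _ hx2, hx1⟩
  have e1 := Subgroup.card_mul_index (Subgroup.normalizer (H₀ : Set G))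
  have e2 := Subgroup.card_mul_index (Subgroup.normalizer (H₀ : Set G) ⊔ M)
  have e3 := S0003.card_sup_mul_card_inf (Subgroup.normalizer (H₀ : Set G)) M
  have e4 := S4263.relIndex_mul_card (inf_le_left :
    M ⊓ Subgroup.centralizer (H₀ : Set G) ≤ M)
  rw [← hNM] at e4
  rw [← h1] at e1
  rw [← h3, ← h2] at e2
  rw [hNM] at e3 e4
  obtain ⟨A, hA⟩ : ∃ A, A = Nat.card {H : Subgroup G // Nat.card H = m} := ⟨_, rfl⟩
  obtain ⟨B, hB⟩ : ∃ B, B = Nat.card {H : Subgroup (G ⧸ M) // Nat.card H = m} := ⟨_, rfl⟩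
  obtain ⟨x, hx⟩ : ∃ x, x = Nat.card (Subgroup.normalizer (H₀ : Set G)) := ⟨_, rfl⟩
  obtain ⟨y, hy⟩ : ∃ y, y = Nat.card ↥(Subgroup.normalizer (H₀ : Set G) ⊔ M) := ⟨_, rfl⟩
  obtain ⟨z, hz⟩ : ∃ z, z = Nat.card ↥(M ⊓ Subgroup.centralizer (H₀ : Set G)) := ⟨_, rfl⟩
  obtain ⟨w, hw⟩ : ∃ w, w = Nat.card M := ⟨_, rfl⟩
  obtain ⟨c, hc⟩ : ∃ c, c = (M ⊓ Subgroup.centralizer (H₀ : Set G)).relIndex M := ⟨_, rfl⟩
  rw [← hA, ← hx] at e1
  rw [← hB, ← hy] at e2
  rw [← hx, ← hy, ← hz, ← hw] at e3
  rw [← hc, ← hz, ← hw] at e4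
  rw [← hA, ← hB, ← hc]
  have hxpos : 0 < x := by
    rw [hx]
    exact Nat.card_pos
  have hzpos : 0 < z := by
    rw [hz]
    exact Nat.card_pos
  have key : (x * z) * A = (x * z) * (B * c) := by
    calc (x * z) * A = (x * A) * z := by ring
      _ = (y * B) * z := by rw [e1, e2]
      _ = (y * z) * B := by ring
      _ = (x * w) * B := by rw [e3]
      _ = (x * (c * z)) * B := by rw [e4]
      _ = (x * z) * (B * c) := by ring
  exact Nat.eq_of_mul_eq_mul_left (Nat.mul_pos hxpos hzpos) key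

theorem main (N : ℕ) : ∀ (G : Type u) [Group G] [Finite G] [Group.IsSolvable G], Nat.card G = N →
    ∀ m n : ℕ, N = m * n → m.Coprime n →
      GoodNum G m (Nat.card {H : Subgroup G // Nat.card H = m}) := by
  induction N using Nat.strong_induction_on with
  | _ N ih =>
    intro G _ _ _ hN m n hmn hcop
    have hGm : Nat.card G = m * n := hN.trans hmn
    by_cases htriv : Nontrivial G
    · obtain ⟨p, M, hp, hMn, hMc, hMne, hMp, hmin⟩ := exists_min_normal G
      haveI := hMn
      haveI : Fact p.Prime := ⟨hp⟩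
      obtain ⟨a, ha⟩ := IsPGroup.iff_card.mp hMp
      have hMgt : 1 < Nat.card M := by
        by_contra hcon
        exact hMne (Subgroup.eq_bot_of_card_le M (not_lt.mp hcon))
      have hQlt : Nat.card (G ⧸ M) < N := by
        have h1 := S0003.card_quot M
        rw [hN] at h1
        have hQpos : 0 < Nat.card (G ⧸ M) := Nat.card_pos
        nlinarith
      obtain ⟨H₀, hH₀⟩ := S0003.result m n hGm hcop
      by_cases hpm : p ∣ m
      · have hle : ∀ H : Subgroup G, Nat.card H = m → M ≤ H := fun H hH =>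
          S0004.normal_pgroup_le_hall M H p a m n hp ha hH hGm hcop hpm
        obtain ⟨m', hm'⟩ : Nat.card M ∣ m := by
          have h1 := Subgroup.card_dvd_of_le (hle H₀ hH₀)
          rwa [hH₀] at h1
        rw [caseA_card M m m' hm' hle]
        have hQ : Nat.card (G ⧸ M) = m' * n := by
          have h1 := S0003.card_quot M
          rw [hGm, hm', mul_assoc] at h1
          exact Nat.eq_of_mul_eq_mul_left Nat.card_pos h1
        have hcop' : m'.Coprime n :=
          Nat.Coprime.coprime_dvd_left (Dvd.intro_left _ hm'.symm) hcop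
        exact good_lift M (Dvd.intro_left _ hm'.symm) (ih _ hQlt (G ⧸ M) rfl m' n hQ hcop')
      · have hdvd : p ^ a ∣ n := by
          have h1 : p ^ a ∣ m * n := by
            rw [← hGm, ← ha]
            exact Subgroup.card_subgroup_dvd_card M
          exact Nat.Coprime.dvd_of_dvd_mul_left
            (Nat.Coprime.pow_left a ((Nat.Prime.coprime_iff_not_dvd hp).mpr hpm)) h1
        obtain ⟨n', hn'⟩ := hdvd
        subst hn'
        rw [caseB_card M hMc p a hp ha m n' hGm hcop hpm H₀ hH₀]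
        have hQ : Nat.card (G ⧸ M) = m * n' := by
          have h2 := S0003.card_quot M
          rw [hGm, ha] at h2
          have h3 : p ^ a * Nat.card (G ⧸ M) = p ^ a * (m * n') := by
            rw [h2]
            ring
          exact Nat.eq_of_mul_eq_mul_left (pow_pos hp.pos a) h3
        have hcop' : m.Coprime n' := Nat.Coprime.coprime_dvd_right (dvd_mul_left n' (p ^ a)) hcop
        refine good_mul (good_lift M dvd_rfl (ih _ hQlt (G ⧸ M) rfl m n' hQ hcop')) ?_
        refine local_good M p hp hMp hMne hmin m (Nat.card H₀) H₀ rfl inferInstance ?_ ?_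
        · rw [hH₀]
          exact ((Nat.Prime.coprime_iff_not_dvd hp).mpr hpm).symm
        · intro r _ hrd
          rwa [hH₀] at hrd
    · rw [not_nontrivial_iff_subsingleton] at htriv
      have h1 : Nat.card G = 1 := Nat.card_of_subsingleton (1 : G)
      have hm1 : m = 1 := by
        rw [h1] at hGm
        exact Nat.eq_one_of_mul_eq_one_right hGm.symm
      subst hm1
      have h2 : Nat.card {H : Subgroup G // Nat.card H = 1} = 1 := by
        rw [Nat.card_eq_one_iff_unique]
        constructor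
        · constructor
          intro A B
          apply Subtype.ext
          rw [Subgroup.eq_bot_of_subsingleton A.1, Subgroup.eq_bot_of_subsingleton B.1]
        · exact ⟨⟨⊥, Subgroup.card_bot⟩⟩
      rw [h2]
      exact good_one G 1

theorem result {G : Type*} [Group G] [Finite G] [Group.IsSolvable G] (m n : ℕ) (hG : Nat.card G = m * n) (hmn : Nat.Coprime m n) : ∃ (k : ℕ) (f : Fin k → ℕ), Nat.card {H : Subgroup G // Nat.card H = m} = ∏ i, f i ∧ ∀ i, (∃ q e : ℕ, q.Prime ∧ f i = q ^ e) ∧ (∃ K L : Subgroup G, K.Normal ∧ L.Normal ∧ K < L ∧ (∀ M : Subgroup G, M.Normal → K ≤ M → M ≤ L → M = K ∨ M = L) ∧ f i ∣ K.relIndex L) ∧ (∃ q : ℕ, q.Prime ∧ q ∣ m ∧ f i ≡ 1 [MOD q]) := by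
  obtain ⟨l, hl, hl'⟩ := main (Nat.card G) G rfl m n hG hmn
  refine ⟨l.length, fun i => l.get i, ?_, ?_⟩
  · rw [← hl, ← List.prod_ofFn, List.ofFn_get]
  · intro i
    exact hl' _ (List.get_mem l i)

end Cfsg.Agent.S4214
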