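import Cfsg.Statements.S4213

import Mathlib
import Cfsg.Agent.S3993
import Cfsg.Agent.S4214

set_option autoImplicit false
open Cfsg
open scoped Pointwise

namespace Cfsg.Agent.S4213

open Cfsg.Agent.S3993 (numSol)

universe u

theorem frob' {G : Type u} [Group G] [Finite G] (n : ℕ) (h : n ∣ Nat.card G) :
    n ∣ numSol G n := by
  have := Cfsg.Agent.S3993.main (Nat.card G) G rfl n
  rwa [Nat.gcd_eq_left h] at this

theorem numSol_pos {G : Type u} [Group G] [Finite G] (n : ℕ) : 0 < numSol G n := by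
  unfold numSol
  haveI : Nonempty {x : G // x ^ n = 1} := ⟨⟨1, one_pow n⟩⟩
  exact Nat.card_pos

theorem le_numSol {G : Type u} [Group G] [Finite G] (n : ℕ) (h : n ∣ Nat.card G) :
    n ≤ numSol G n := Nat.le_of_dvd (numSol_pos n) (frob' n h)

theorem card_preimage {G : Type u} [Group G] [Finite G] (M : Subgroup G) [M.Normal] (n' : ℕ) :
    Nat.card {x : G // (QuotientGroup.mk x : G ⧸ M) ^ n' = 1} =
      Nat.card M * numSol (G ⧸ M) n' := by
  unfold numSol
  rw [← Nat.card_prod]
  exact Nat.card_congr (QuotientGroup.preimageMkEquivSubgroupProdSet M {q : G ⧸ M | q ^ n' = 1})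

theorem min_normal_elementary {G : Type u} [Group G] [Finite G] (p : ℕ) (hp : p.Prime)
    (M : Subgroup G) (hMn : M.Normal)
    (hMc : ∀ x ∈ M, ∀ y ∈ M, x * y = y * x) (hMne : M ≠ ⊥) (hMp : IsPGroup p M)
    (hmin : ∀ K : Subgroup G, K.Normal → K ≤ M → K = ⊥ ∨ K = M) : ∀ x ∈ M, x ^ p = 1 := by
  haveI : Fact p.Prime := ⟨hp⟩
  let T : Subgroup G :=
    { carrier := {x | x ∈ M ∧ x ^ p = 1}
      one_mem' := ⟨M.one_mem, one_pow p⟩
      mul_mem' := by
        rintro a b ⟨ha, ha'⟩ ⟨hb, hb'⟩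
        refine ⟨M.mul_mem ha hb, ?_⟩
        have hc : Commute a b := hMc a ha b hb
        rw [hc.mul_pow, ha', hb', one_mul]
      inv_mem' := by
        rintro a ⟨ha, ha'⟩
        exact ⟨M.inv_mem ha, by rw [inv_pow, ha', inv_one]⟩ }
  have hTn : T.Normal := by
    constructor
    rintro a ⟨ha, ha'⟩ g
    exact ⟨hMn.conj_mem a ha g, by rw [conj_pow, ha']; simp⟩
  have hTle : T ≤ M := fun x hx => hx.1
  have hTne : T ≠ ⊥ := by
    obtain ⟨i, hi⟩ := hMp.exists_card_eq
    have hi0 : i ≠ 0 := by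
      rintro rfl
      rw [pow_zero] at hi
      exact hMne (Subgroup.eq_bot_of_card_eq M hi)
    have hdvd : p ∣ Nat.card M := by rw [hi]; exact dvd_pow_self p hi0
    obtain ⟨x, hx⟩ := exists_prime_orderOf_dvd_card' p hdvd
    intro hbot
    have hxT : (x : G) ∈ T := by
      refine ⟨x.2, ?_⟩
      have := pow_orderOf_eq_one x
      rw [hx] at this
      simpa using congrArg Subtype.val this
    rw [hbot, Subgroup.mem_bot] at hxT
    have hx1 : x = 1 := Subtype.ext hxT
    rw [hx1, orderOf_one] at hx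
    exact hp.one_lt.ne hx
  rcases hmin T hTn hTle with h | h
  · exact absurd h hTne
  · intro x hx
    have : x ∈ T := h ▸ hx
    exact this.2

theorem lift_sol {G : Type u} [Group G] [Finite G] (M : Subgroup G) [M.Normal] (n : ℕ)
    (hco : (Nat.card M).Coprime n) (q : G ⧸ M) (hq : q ^ n = 1) :
    ∃ x : G, x ^ n = 1 ∧ (QuotientGroup.mk x : G ⧸ M) = q := by
  obtain ⟨x₀, rfl⟩ := QuotientGroup.mk_surjective q
  have hxM : x₀ ^ n ∈ M := by
    rw [← QuotientGroup.eq_one_iff, QuotientGroup.mk_pow]; exact hq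
  have h1 : (x₀ ^ n) ^ (Nat.card M) = 1 := by
    have h := pow_card_eq_one' (G := ↥M) (x := ⟨x₀ ^ n, hxM⟩)
    have h' := congrArg Subtype.val h
    rw [Subgroup.coe_pow] at h'
    exact h'
  have hco2 : (Nat.card M).Coprime (orderOf (QuotientGroup.mk x₀ : G ⧸ M)) :=
    Nat.Coprime.coprime_dvd_right (orderOf_dvd_of_pow_eq_one hq) hco
  obtain ⟨u, hu⟩ := exists_pow_eq_self_of_coprime hco2
  refine ⟨(x₀ ^ (Nat.card M)) ^ u, ?_, ?_⟩
  · have e : ((x₀ ^ (Nat.card M)) ^ u) ^ n = ((x₀ ^ n) ^ (Nat.card M)) ^ u := by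
      rw [← pow_mul, ← pow_mul, ← pow_mul, ← pow_mul]; congr 1; ring
    rw [e, h1, one_pow]
  · rw [QuotientGroup.mk_pow, QuotientGroup.mk_pow]; exact hu

set_option maxHeartbeats 1600000 in
theorem main2 (N : ℕ) : ∀ (G : Type u) [Group G] [Finite G] [Group.IsSolvable G],
    Nat.card G = N → ∀ n : ℕ, n ∣ Nat.card G → numSol G n = n →
      ∃ H : Subgroup G, (H : Set G) = {x : G | x ^ n = 1} := by
  induction N using Nat.strong_induction_on with
  | _ N ih =>
  intro G _ _ _ hN n hn hcount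
  by_cases hnG : n = Nat.card G
  · refine ⟨⊤, ?_⟩
    ext x
    simp only [Subgroup.coe_top, Set.mem_univ, Set.mem_setOf_eq, true_iff]
    rw [hnG]; exact pow_card_eq_one'
  have hpos : 0 < Nat.card G := Nat.card_pos
  have hn0 : n ≠ 0 := by rintro rfl; rw [zero_dvd_iff] at hn; omega
  haveI : Nontrivial G := by
    rw [← Finite.one_lt_card_iff_nontrivial]
    by_contra h
    have h1 : Nat.card G = 1 := by omega
    rw [h1, Nat.dvd_one] at hn
    exact hnG (by rw [hn, h1])
  obtain ⟨p, M, hp, hMn, hMc, hMne, hMp, hmin⟩ := Cfsg.Agent.S4214.exists_min_normal G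
  haveI := hMn
  haveI : Fact p.Prime := ⟨hp⟩
  have hMel := min_normal_elementary p hp M hMn hMc hMne hMp hmin
  obtain ⟨i, hi⟩ := hMp.exists_card_eq
  have hi0 : i ≠ 0 := by
    rintro rfl
    rw [pow_zero] at hi
    exact hMne (Subgroup.eq_bot_of_card_eq M hi)
  have hcardG : Nat.card G = Nat.card (G ⧸ M) * p ^ i := by
    rw [← hi]; exact Subgroup.card_eq_card_quotient_mul_card_subgroup M
  have hqpos : 0 < Nat.card (G ⧸ M) := Nat.card_pos
  have hlt : Nat.card (G ⧸ M) < N := by
    rw [← hN, hcardG]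
    have h2 : 2 ≤ p ^ i := by
      calc 2 ≤ p := hp.two_le
        _ = p ^ 1 := (pow_one p).symm
        _ ≤ p ^ i := Nat.pow_le_pow_right hp.pos (by omega)
    nlinarith
  have hMpow : ∀ x ∈ M, x ^ (p ^ i) = 1 := by
    intro x hx
    have := pow_card_eq_one' (G := ↥M) (x := ⟨x, hx⟩)
    rw [hi] at this
    simpa using congrArg Subtype.val this
  have hLcard : ({x : G | x ^ n = 1} : Set G).ncard = n := by
    rw [← Nat.card_coe_set_eq]; exact hcount
  have hpre : ∀ n' : ℕ, ({x : G | (QuotientGroup.mk x : G ⧸ M) ^ n' = 1} : Set G).ncard =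
      p ^ i * numSol (G ⧸ M) n' := by
    intro n'
    rw [← Nat.card_coe_set_eq, ← hi]
    exact card_preimage M n'
  by_cases hpn : p ∣ n
  · obtain ⟨a, m, hpm, hnam⟩ := Nat.exists_eq_pow_mul_and_not_dvd hn0 p hp.ne_one
    have ha0 : a ≠ 0 := by
      rintro rfl
      rw [pow_zero, one_mul] at hnam
      exact hpm (hnam ▸ hpn)
    have hcop : Nat.Coprime (p ^ i) m :=
      Nat.Coprime.pow_left _ ((Nat.Prime.coprime_iff_not_dvd hp).mpr hpm)
    have hmQ : m ∣ Nat.card (G ⧸ M) := by
      have : m ∣ Nat.card (G ⧸ M) * p ^ i := by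
        rw [← hcardG]
        exact Dvd.dvd.trans (hnam ▸ Dvd.intro_left _ rfl) hn
      exact Nat.Coprime.dvd_of_dvd_mul_right hcop.symm this
    by_cases hia : i ≤ a
    · set n₁ := p ^ (a - i) * m with hn₁
      have hnn₁ : n = n₁ * p ^ i := by
        have e : p ^ a = p ^ (a - i) * p ^ i := by
          rw [← pow_add]; congr 1; omega
        calc n = p ^ a * m := hnam
          _ = p ^ (a - i) * p ^ i * m := by rw [e]
          _ = p ^ (a - i) * m * p ^ i := by ring
      have hn₁Q : n₁ ∣ Nat.card (G ⧸ M) := by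
        have : n₁ * p ^ i ∣ Nat.card (G ⧸ M) * p ^ i := by
          rw [← hnn₁, ← hcardG]; exact hn
        exact Nat.dvd_of_mul_dvd_mul_right (pow_pos hp.pos i) this
      have hsub : {x : G | (QuotientGroup.mk x : G ⧸ M) ^ n₁ = 1} ⊆ {x : G | x ^ n = 1} := by
        intro x hx
        have hxM : x ^ n₁ ∈ M := by
          rw [← QuotientGroup.eq_one_iff, QuotientGroup.mk_pow]; exact hx
        show x ^ n = 1
        rw [hnn₁, pow_mul]; exact hMpow _ hxM
      have hle := Set.ncard_le_ncard hsub (Set.toFinite _)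
      rw [hpre, hLcard] at hle
      have h1 : numSol (G ⧸ M) n₁ ≤ n₁ := by
        have : p ^ i * numSol (G ⧸ M) n₁ ≤ p ^ i * n₁ := by
          rw [mul_comm (p ^ i) n₁, ← hnn₁]; exact hle
        exact Nat.le_of_mul_le_mul_left this (pow_pos hp.pos i)
      have h2 : numSol (G ⧸ M) n₁ = n₁ := le_antisymm h1 (le_numSol n₁ hn₁Q)
      obtain ⟨Hbar, hHbar⟩ := ih _ hlt (G ⧸ M) rfl n₁ hn₁Q h2
      have hset : {x : G | (QuotientGroup.mk x : G ⧸ M) ^ n₁ = 1} = {x : G | x ^ n = 1} := by
        apply Set.eq_of_subset_of_ncard_le hsub _ (Set.toFinite _)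
        rw [hpre, hLcard, h2, hnn₁, mul_comm]
      refine ⟨Hbar.comap (QuotientGroup.mk' M), ?_⟩
      rw [← hset]
      ext x
      have : (QuotientGroup.mk' M x) ∈ (Hbar : Set (G ⧸ M)) ↔ (QuotientGroup.mk' M x) ^ n₁ = 1 := by
        rw [hHbar]; rfl
      exact this
    · exfalso
      push Not at hia
      have hsub : {x : G | (QuotientGroup.mk x : G ⧸ M) ^ m = 1} ⊆ {x : G | x ^ n = 1} := by
        intro x hx
        have hxM : x ^ m ∈ M := by
          rw [← QuotientGroup.eq_one_iff, QuotientGroup.mk_pow]; exact hx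
        show x ^ n = 1
        obtain ⟨a', rfl⟩ := Nat.exists_eq_succ_of_ne_zero ha0
        have e : p ^ (a' + 1) * m = m * p * p ^ a' := by ring
        rw [hnam, e, pow_mul, pow_mul, hMel _ hxM, one_pow]
      have hle := Set.ncard_le_ncard hsub (Set.toFinite _)
      rw [hpre, hLcard, hnam] at hle
      have h1 := le_numSol (G := G ⧸ M) m hmQ
      have h2 : p ^ i * m ≤ p ^ a * m := le_trans (Nat.mul_le_mul_left _ h1) hle
      have hm0 : 0 < m := Nat.pos_of_ne_zero (by rintro rfl; exact hpm (dvd_zero p))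
      have h3 : p ^ i ≤ p ^ a := Nat.le_of_mul_le_mul_right h2 hm0
      have h4 : i ≤ a := (Nat.pow_le_pow_iff_right hp.one_lt).mp h3
      omega
  · have hcop : Nat.Coprime (p ^ i) n :=
      Nat.Coprime.pow_left _ ((Nat.Prime.coprime_iff_not_dvd hp).mpr hpn)
    have hnQ : n ∣ Nat.card (G ⧸ M) := by
      have : n ∣ Nat.card (G ⧸ M) * p ^ i := by rw [← hcardG]; exact hn
      exact Nat.Coprime.dvd_of_dvd_mul_right hcop.symm this
    have hsurj : numSol (G ⧸ M) n ≤ numSol G n := by
      unfold numSol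
      apply Nat.card_le_card_of_surjective (fun x : {x : G // x ^ n = 1} =>
        (⟨QuotientGroup.mk x.1, by rw [← QuotientGroup.mk_pow, x.2]; rfl⟩ :
          {q : G ⧸ M // q ^ n = 1}))
      rintro ⟨q, hq⟩
      obtain ⟨x, hx, hxq⟩ := lift_sol M n (by rw [hi]; exact hcop) q hq
      exact ⟨⟨x, hx⟩, Subtype.ext hxq⟩
    have h2 : numSol (G ⧸ M) n = n := le_antisymm (by rw [hcount] at hsurj; exact hsurj) (le_numSol n hnQ)
    obtain ⟨Hbar, hHbar⟩ := ih _ hlt (G ⧸ M) rfl n hnQ h2
    set H : Subgroup G := Hbar.comap (QuotientGroup.mk' M) with hH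
    have hHset : (H : Set G) = {x : G | (QuotientGroup.mk x : G ⧸ M) ^ n = 1} := by
      ext x
      have : (QuotientGroup.mk' M x) ∈ (Hbar : Set (G ⧸ M)) ↔ (QuotientGroup.mk' M x) ^ n = 1 := by
        rw [hHbar]; rfl
      exact this
    have hHcard : Nat.card H = p ^ i * n := by
      have h3 : Nat.card H = ((H : Set G)).ncard := (Nat.card_coe_set_eq (H : Set G))
      rw [h3, hHset, hpre, h2]
    have hMH : M ≤ H := by
      intro x hx
      show QuotientGroup.mk' M x ∈ Hbar
      have : QuotientGroup.mk' M x = 1 := (QuotientGroup.eq_one_iff x).mpr hx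
      rw [this]; exact Hbar.one_mem
    have hMcard' : Nat.card (M.subgroupOf H) = p ^ i := by
      rw [← hi]; exact Nat.card_congr (Subgroup.subgroupOfEquivOfLe hMH).toEquiv
    have hidx : (M.subgroupOf H).index = n := by
      have := (M.subgroupOf H).card_mul_index
      rw [hMcard', hHcard] at this
      exact Nat.eq_of_mul_eq_mul_left (pow_pos hp.pos i) this
    obtain ⟨T', hT'⟩ := Subgroup.exists_right_complement'_of_coprime (N := M.subgroupOf H)
      (by rw [hMcard', hidx]; exact hcop)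
    have hT'card : Nat.card T' = n := by
      have := hT'.card_mul_card
      rw [hMcard', hHcard] at this
      exact Nat.eq_of_mul_eq_mul_left (pow_pos hp.pos i) this
    have hTcard : Nat.card (T'.map H.subtype) = n := by
      rw [Subgroup.card_map_of_injective H.subtype_injective]
      exact hT'card
    refine ⟨T'.map H.subtype, ?_⟩
    apply Set.eq_of_subset_of_ncard_le _ _ (Set.toFinite _)
    · intro x hx
      have := pow_card_eq_one' (G := ↥(T'.map H.subtype)) (x := ⟨x, hx⟩)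
      rw [hTcard] at this
      show x ^ n = 1
      simpa using congrArg Subtype.val this
    · rw [hLcard]
      have h3 : Nat.card (T'.map H.subtype) = ((T'.map H.subtype : Subgroup G) : Set G).ncard :=
        (Nat.card_coe_set_eq _)
      rw [← h3]
      exact hTcard.ge

theorem result {G : Type*} [Group G] [Finite G] [Group.IsSolvable G] (n : ℕ) (hn : n ∣ Nat.card G) (hcount : Nat.card {x : G // x ^ n = 1} = n) : ∃ H : Subgroup G, H.Normal ∧ (H : Set G) = {x : G | x ^ n = 1} := by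
  obtain ⟨H, hH⟩ := main2 (Nat.card G) G rfl n hn hcount
  refine ⟨H, ?_, hH⟩
  constructor
  intro x hx g
  have hx' : x ^ n = 1 := by
    have : x ∈ (H : Set G) := hx
    rw [hH] at this
    exact this
  have : g * x * g⁻¹ ∈ (H : Set G) := by
    rw [hH]
    show (g * x * g⁻¹) ^ n = 1
    rw [conj_pow, hx']; simp
  exact this

end Cfsg.Agent.S4213
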