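import Cfsg.Statements.S4217

import Mathlib
import Cfsg.Agent.S4106

set_option autoImplicit false
open Cfsg
open scoped Pointwise

namespace Cfsg.Agent.S4217

open scoped IsMulCommutative

section gaschutz
variable {G : Type*} [Group G] [Finite G] (A : Subgroup G) [A.Normal] [IsMulCommutative ↥A]

theorem commA (x y : G) (hx : x ∈ A) (hy : y ∈ A) : x * y = y * x := by
  have h := mul_comm' (⟨x, hx⟩ : ↥A) ⟨y, hy⟩
  exact congrArg Subtype.val h

theorem conj_trivial (a : ↥A) (b : ↥A) : MulAut.conjNormal (a : G) b = b := by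
  apply Subtype.ext
  rw [MulAut.conjNormal_apply]
  have h := commA A (a : G) (b : G) a.2 b.2
  rw [h, mul_inv_cancel_right]

theorem lemX (n : ℕ) (d : G → ↥A)
    (hd : ∀ g h : G, d (g * h) = d g * MulAut.conjNormal g (d h))
    (hdA : ∀ a : ↥A, d (a : G) = a ^ n) (p : ℕ) (hp : p.Prime) (hpn : ¬ p ∣ n) :
    ∃ L : Subgroup G, L ⊔ A = ⊤ ∧ ∀ a ∈ A, a ∈ L ↔ (orderOf a).Coprime p := by
  haveI : Fact p.Prime := ⟨hp⟩
  have hd1 : d 1 = 1 := by
    have h := hd 1 1
    rw [mul_one, map_one, MulAut.one_apply] at h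
    exact mul_left_cancel (h.symm.trans (mul_one _).symm)
  have hP1 : ∀ b b' : ↥A, ¬ p ∣ orderOf b → ¬ p ∣ orderOf b' → ¬ p ∣ orderOf (b * b') := by
    intro b b' hb hb' hdiv
    have hcm : Commute b b' := mul_comm' b b'
    have h1 : orderOf (b * b') ∣ Nat.lcm (orderOf b) (orderOf b') := hcm.orderOf_mul_dvd_lcm
    have h2 : p ∣ orderOf b * orderOf b' := (hdiv.trans h1).trans (Nat.lcm_dvd_mul _ _)
    rcases (Nat.Prime.dvd_mul hp).mp h2 with h | h
    · exact hb h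
    · exact hb' h
  have hPinv : ∀ b : ↥A, ¬ p ∣ orderOf b → ¬ p ∣ orderOf b⁻¹ := by
    intro b hb
    rw [orderOf_inv]
    exact hb
  have hPconj : ∀ (g : G) (b : ↥A), ¬ p ∣ orderOf b →
      ¬ p ∣ orderOf (MulAut.conjNormal g b) := by
    intro g b hb
    rw [MulEquiv.orderOf_eq]
    exact hb
  let L : Subgroup G :=
    { carrier := {g | ¬ p ∣ orderOf (d g)}
      one_mem' := by
        show ¬ p ∣ orderOf (d 1)
        rw [hd1, orderOf_one]
        exact Nat.Prime.not_dvd_one hp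
      mul_mem' := by
        intro g h hg hh
        show ¬ p ∣ orderOf (d (g * h))
        rw [hd]
        exact hP1 _ _ hg (hPconj g _ hh)
      inv_mem' := by
        intro g hg
        show ¬ p ∣ orderOf (d g⁻¹)
        have h1 : d g⁻¹ = (MulAut.conjNormal g⁻¹ (d g))⁻¹ := by
          have h2 := hd g⁻¹ g
          rw [inv_mul_cancel, hd1] at h2
          exact eq_inv_of_mul_eq_one_left h2.symm
        rw [h1]
        exact hPinv _ (hPconj _ _ hg) }
  have hLmem : ∀ g, g ∈ L ↔ ¬ p ∣ orderOf (d g) := fun g => Iff.rfl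
  refine ⟨L, ?_, ?_⟩
  · rw [eq_top_iff]
    intro g _
    obtain ⟨i, k, hik, ⟨j, hj⟩, hk⟩ := Cfsg.Agent.S4106.p_decomp p (d g)
    have hcop : n.Coprime (orderOf (d g ^ i)) := by
      rw [hj]
      exact Nat.Coprime.pow_right j ((Nat.Prime.coprime_iff_not_dvd hp).mpr hpn).symm
    obtain ⟨m, hm⟩ := exists_pow_eq_self_of_coprime hcop
    have ha : ((d g ^ i) ^ m) ^ n = d g ^ i := by
      rw [← pow_mul, mul_comm, pow_mul]
      exact hm
    have hmem : (((d g ^ i) ^ m : ↥A) : G)⁻¹ * g ∈ L := by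
      rw [hLmem]
      have h1 : d ((((d g ^ i) ^ m : ↥A) : G)⁻¹ * g) = d g ^ k := by
        have h2 : ((((d g ^ i) ^ m : ↥A) : G)⁻¹) = ((((d g ^ i) ^ m)⁻¹ : ↥A) : G) := rfl
        rw [h2, hd, hdA, conj_trivial, inv_pow, ha, inv_mul_eq_iff_eq_mul]
        exact hik.symm
      rw [h1]
      exact hk
    have h3 : g = (((d g ^ i) ^ m : ↥A) : G) * ((((d g ^ i) ^ m : ↥A) : G)⁻¹ * g) := by group
    rw [h3]
    exact Subgroup.mul_mem _ (Subgroup.mem_sup_right (Subtype.property _))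
      (Subgroup.mem_sup_left hmem)
  · intro a ha
    rw [hLmem]
    have h1 : d a = (⟨a, ha⟩ : ↥A) ^ n := hdA ⟨a, ha⟩
    rw [h1, Nat.coprime_comm, Nat.Prime.coprime_iff_not_dvd hp, ← Subgroup.orderOf_mk a ha]
    constructor
    · intro h hdiv
      apply h
      rw [orderOf_pow]
      have h2 := Nat.div_mul_cancel (Nat.gcd_dvd_left (orderOf (⟨a, ha⟩ : ↥A)) n)
      have hdiv' : p ∣ orderOf (⟨a, ha⟩ : ↥A) / Nat.gcd (orderOf (⟨a, ha⟩ : ↥A)) n *
          Nat.gcd (orderOf (⟨a, ha⟩ : ↥A)) n := by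
        rw [h2]
        exact hdiv
      rcases (Nat.Prime.dvd_mul hp).mp hdiv' with h3 | h3
      · exact h3
      · exact absurd (h3.trans (Nat.gcd_dvd_right _ _)) hpn
    · intro h hdiv
      exact h (hdiv.trans (orderOf_pow_dvd n))

theorem lemY (U W : Subgroup G) (hAU : A ≤ U) (hWA : W ⊓ A = ⊥) (hsup : W ⊔ A = U) :
    ∃ d : G → ↥A, (∀ g h : G, d (g * h) = d g * MulAut.conjNormal g (d h)) ∧
      ∀ a : ↥A, d (a : G) = a ^ U.index := by
  classical
  have hAn : A.Normal := inferInstance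
  have hex : ∀ u : G, u ∈ U → ∃ a : ↥A, (a : G)⁻¹ * u ∈ W := by
    intro u hu
    rw [← hsup, sup_comm] at hu
    have h2 : u ∈ ((A ⊔ W : Subgroup G) : Set G) := hu
    rw [Subgroup.normal_mul] at h2
    obtain ⟨a, ha, w, hw, haw⟩ := Set.mem_mul.mp h2
    refine ⟨⟨a, ha⟩, ?_⟩
    rw [← haw, inv_mul_cancel_left]
    exact hw
  let α : G → ↥A := fun u => if h : u ∈ U then Classical.choose (hex u h) else 1
  have hα : ∀ u ∈ U, ((α u : ↥A) : G)⁻¹ * u ∈ W := by
    intro u hu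
    have h0 : α u = Classical.choose (hex u hu) := dif_pos hu
    rw [h0]
    exact Classical.choose_spec (hex u hu)
  have hdisj : ∀ x : G, x ∈ W → x ∈ A → x = 1 := by
    intro x hxW hxA
    have h0 : x ∈ W ⊓ A := ⟨hxW, hxA⟩
    rw [hWA] at h0
    exact Subgroup.mem_bot.mp h0
  have huniq : ∀ u ∈ U, ∀ a : ↥A, (a : G)⁻¹ * u ∈ W → a = α u := by
    intro u hu a ha
    have h1 := hα u hu
    have h2 : (a : G)⁻¹ * (α u : G) ∈ W := by
      have h3 : (a : G)⁻¹ * (α u : G) = ((a : G)⁻¹ * u) * ((α u : G)⁻¹ * u)⁻¹ := by group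
      rw [h3]
      exact W.mul_mem ha (W.inv_mem h1)
    have h4 : (a : G)⁻¹ * (α u : G) ∈ A := A.mul_mem (A.inv_mem a.2) (α u).2
    have h5 := hdisj _ h2 h4
    apply Subtype.ext
    exact inv_mul_eq_one.mp h5
  have hαA : ∀ a : ↥A, α (a : G) = a := by
    intro a
    symm
    apply huniq _ (hAU a.2)
    rw [inv_mul_cancel]
    exact W.one_mem
  have hαmul : ∀ u ∈ U, ∀ u' ∈ U, α (u * u') = α u * MulAut.conjNormal u (α u') := by
    intro u hu u' hu'
    symm
    apply huniq _ (U.mul_mem hu hu')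
    have h1 := hα u hu
    have h2 := hα u' hu'
    have hmemA : u⁻¹ * (α u : G)⁻¹ * u ∈ A := by
      have h0 := hAn.conj_mem _ (A.inv_mem (α u).2) u⁻¹
      rw [inv_inv] at h0
      exact h0
    have hc := commA A (u⁻¹ * (α u : G)⁻¹ * u) ((α u' : G)⁻¹) hmemA (A.inv_mem (α u').2)
    have h3 : ((α u * MulAut.conjNormal u (α u') : ↥A) : G)⁻¹ * (u * u') =
        ((α u : G)⁻¹ * u) * ((α u' : G)⁻¹ * u') := by
      rw [Subgroup.coe_mul, MulAut.conjNormal_apply]
      calc ((α u : G) * (u * (α u' : G) * u⁻¹))⁻¹ * (u * u')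
          = u * ((α u' : G)⁻¹ * (u⁻¹ * (α u : G)⁻¹ * u)) * u' := by group
        _ = u * ((u⁻¹ * (α u : G)⁻¹ * u) * (α u' : G)⁻¹) * u' := by rw [hc]
        _ = ((α u : G)⁻¹ * u) * ((α u' : G)⁻¹ * u') := by group
    rw [h3]
    exact W.mul_mem h1 h2
  let s : G ⧸ U → G := fun c => c.out
  have hs : ∀ c : G ⧸ U, (QuotientGroup.mk (s c) : G ⧸ U) = c := fun c => QuotientGroup.out_eq' c
  have hu : ∀ (g : G) (c : G ⧸ U), (s c)⁻¹ * g * s (g⁻¹ • c) ∈ U := by
    intro g c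
    have h1 : (QuotientGroup.mk (s c) : G ⧸ U) = QuotientGroup.mk (g * s (g⁻¹ • c)) := by
      rw [hs]
      have h2 : (QuotientGroup.mk (g * s (g⁻¹ • c)) : G ⧸ U) =
          g • (QuotientGroup.mk (s (g⁻¹ • c)) : G ⧸ U) := rfl
      rw [h2, hs, smul_inv_smul]
    have h3 := QuotientGroup.eq.mp h1
    rw [← mul_assoc] at h3
    exact h3
  let term : G → G ⧸ U → ↥A := fun g c =>
    MulAut.conjNormal (s c) (α ((s c)⁻¹ * g * s (g⁻¹ • c)))
  letI : Fintype (G ⧸ U) := Fintype.ofFinite _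
  refine ⟨fun g => ∏ c : G ⧸ U, term g c, ?_, ?_⟩
  · intro g h
    have hterm : ∀ c, term (g * h) c = term g c * MulAut.conjNormal g (term h (g⁻¹ • c)) := by
      intro c
      show MulAut.conjNormal (s c) (α ((s c)⁻¹ * (g * h) * s ((g * h)⁻¹ • c))) =
        MulAut.conjNormal (s c) (α ((s c)⁻¹ * g * s (g⁻¹ • c))) *
        MulAut.conjNormal g (MulAut.conjNormal (s (g⁻¹ • c))
          (α ((s (g⁻¹ • c))⁻¹ * h * s (h⁻¹ • g⁻¹ • c))))
      have e1 : (s c)⁻¹ * (g * h) * s ((g * h)⁻¹ • c) =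
          ((s c)⁻¹ * g * s (g⁻¹ • c)) * ((s (g⁻¹ • c))⁻¹ * h * s (h⁻¹ • g⁻¹ • c)) := by
        rw [mul_inv_rev, mul_smul]
        group
      rw [e1, hαmul _ (hu g c) _ (hu h (g⁻¹ • c)), map_mul]
      congr 1
      rw [← MulAut.mul_apply, ← MulAut.mul_apply, ← map_mul, ← map_mul]
      congr 2
      group
    show ∏ c : G ⧸ U, term (g * h) c =
      (∏ c : G ⧸ U, term g c) * MulAut.conjNormal g (∏ c : G ⧸ U, term h c)
    rw [map_prod, ← Equiv.prod_comp (MulAction.toPerm (g⁻¹ : G))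
      (fun c => MulAut.conjNormal g (term h c)), ← Finset.prod_mul_distrib]
    apply Finset.prod_congr rfl
    intro c _
    exact hterm c
  · intro a
    have hterm : ∀ c, term (a : G) c = a := by
      intro c
      have hc : (a : G)⁻¹ • c = c := by
        refine QuotientGroup.induction_on c (fun x => ?_)
        show (QuotientGroup.mk ((a : G)⁻¹ * x) : G ⧸ U) = QuotientGroup.mk x
        rw [QuotientGroup.eq]
        apply hAU
        have h0 := hAn.conj_mem _ a.2 x⁻¹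
        rw [inv_inv] at h0
        have e0 : ((a : G)⁻¹ * x)⁻¹ * x = x⁻¹ * (a : G) * x := by group
        rw [e0]
        exact h0
      show MulAut.conjNormal (s c) (α ((s c)⁻¹ * (a : G) * s ((a : G)⁻¹ • c))) = a
      rw [hc]
      have h1 : (s c)⁻¹ * (a : G) * s c = ((MulAut.conjNormal (s c)⁻¹ a : ↥A) : G) := by
        rw [MulAut.conjNormal_apply, inv_inv]
      rw [h1, hαA, ← MulAut.mul_apply, ← map_mul, mul_inv_cancel, map_one, MulAut.one_apply]
    show ∏ c : G ⧸ U, term (a : G) c = a ^ U.index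
    rw [Finset.prod_congr rfl (fun c _ => hterm c), Finset.prod_const, Finset.card_univ,
      Subgroup.index_eq_card, Nat.card_eq_fintype_card]

theorem lemZ (L L' : Subgroup G) (hL : L ⊔ A = ⊤) (hL' : L' ⊔ A = ⊤)
    (hdec : ∀ a ∈ A, ∃ b ∈ L ⊓ A, ∃ b' ∈ L' ⊓ A, a = b * b') : (L ⊓ L') ⊔ A = ⊤ := by
  rw [eq_top_iff]
  intro g _
  have h1 : g ∈ ((L ⊔ A : Subgroup G) : Set G) := by
    rw [hL]
    exact Subgroup.mem_top g
  have h2 : g ∈ ((L' ⊔ A : Subgroup G) : Set G) := by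
    rw [hL']
    exact Subgroup.mem_top g
  rw [Subgroup.mul_normal] at h1 h2
  obtain ⟨l, hl, a, ha, hla⟩ := Set.mem_mul.mp h1
  obtain ⟨l', hl', a', ha', hla'⟩ := Set.mem_mul.mp h2
  obtain ⟨b, hb, b', hb', hbb⟩ := hdec (a * a'⁻¹) (A.mul_mem ha (A.inv_mem ha'))
  have hx : l * b ∈ L ⊓ L' := by
    refine ⟨L.mul_mem hl hb.1, ?_⟩
    have e1 : l * b = l' * b'⁻¹ := by
      have e2 : l = l' * a' * a⁻¹ := by
        rw [hla', ← hla]
        group
      have e3 : a' * a⁻¹ = b'⁻¹ * b⁻¹ := by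
        have e5 : a' * a⁻¹ = (a * a'⁻¹)⁻¹ := by group
        rw [e5, hbb]
        group
      rw [e2, mul_assoc l', e3]
      group
    rw [e1]
    exact L'.mul_mem hl' (L'.inv_mem hb'.1)
  have e4 : g = (l * b) * (b⁻¹ * a) := by
    rw [← hla]
    group
  rw [e4]
  exact Subgroup.mul_mem_sup hx (A.mul_mem (A.inv_mem hb.2) ha)

theorem combine
    (hyp : ∀ p : ℕ, p.Prime → ∃ L : Subgroup G, L ⊔ A = ⊤ ∧
      ∀ a ∈ A, a ∈ L ↔ (orderOf a).Coprime p)
    (S : Finset ℕ) (hS : ∀ p ∈ S, p.Prime) :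
    ∃ L : Subgroup G, L ⊔ A = ⊤ ∧ ∀ a ∈ A, a ∈ L ↔ ∀ p ∈ S, (orderOf a).Coprime p := by
  classical
  induction S using Finset.induction_on with
  | empty =>
    exact ⟨⊤, top_sup_eq _, fun a _ => by simp⟩
  | insert q S hq ih =>
    obtain ⟨L, hL1, hL2⟩ := ih (fun p hp => hS p (Finset.mem_insert_of_mem hp))
    have hqp : q.Prime := hS q (Finset.mem_insert_self q S)
    haveI : Fact q.Prime := ⟨hqp⟩
    obtain ⟨L', hL'1, hL'2⟩ := hyp q hqp
    refine ⟨L ⊓ L', lemZ A L L' hL1 hL'1 ?_, ?_⟩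
    · intro a ha
      obtain ⟨i, k, hik, ⟨j, hj⟩, hk⟩ := Cfsg.Agent.S4106.p_decomp q a
      have hai : a ^ i ∈ A := A.pow_mem ha i
      have hak : a ^ k ∈ A := A.pow_mem ha k
      refine ⟨a ^ i, ⟨(hL2 _ hai).mpr ?_, hai⟩, a ^ k, ⟨(hL'2 _ hak).mpr ?_, hak⟩, hik.symm⟩
      · intro p hp
        rw [hj]
        apply Nat.Coprime.pow_left
        rw [Nat.coprime_primes hqp (hS p (Finset.mem_insert_of_mem hp))]
        rintro rfl
        exact hq hp
      · rw [Nat.coprime_comm]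
        exact (Nat.Prime.coprime_iff_not_dvd hqp).mpr hk
    · intro a ha
      rw [Subgroup.mem_inf, hL2 a ha, hL'2 a ha, Finset.forall_mem_insert]
      exact and_comm

end gaschutz

theorem result {G : Type*} [Group G] [Finite G] (A : Subgroup G) [A.Normal] (hA : IsMulCommutative A) : (∃ K : Subgroup G, K.IsComplement' A) ↔ ∀ p : ℕ, p.Prime → p ∣ A.index → ∃ (S : Sylow p (G ⧸ A)) (K : Subgroup G), K ⊓ A = ⊥ ∧ K ⊔ A = (S : Subgroup (G ⧸ A)).comap (QuotientGroup.mk' A) := by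
  classical
  haveI := hA
  constructor
  · rintro ⟨K, hK⟩ p hp _
    haveI : Fact p.Prime := ⟨hp⟩
    have hf : Function.Surjective ((QuotientGroup.mk' A).comp K.subtype) := by
      intro x
      obtain ⟨g, rfl⟩ := QuotientGroup.mk_surjective x
      obtain ⟨⟨k, a⟩, hka⟩ := hK.2 g
      refine ⟨k, ?_⟩
      show (QuotientGroup.mk (k : G) : G ⧸ A) = QuotientGroup.mk g
      rw [QuotientGroup.eq]
      have hka' : (k : G) * (a : G) = g := hka
      rw [← hka', inv_mul_cancel_left]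
      exact a.2
    obtain ⟨S0⟩ : Nonempty (Sylow p ↥K) := inferInstance
    refine ⟨S0.mapSurjective hf, (S0 : Subgroup ↥K).map K.subtype, ?_, ?_⟩
    · rw [eq_bot_iff]
      rintro x ⟨⟨y, _, rfl⟩, hxA⟩
      rw [Subgroup.mem_bot]
      exact Subgroup.disjoint_def.mp hK.disjoint y.2 hxA
    · ext x
      rw [Subgroup.mem_comap]
      constructor
      · intro hx
        have h2 : x ∈ (((S0 : Subgroup ↥K).map K.subtype ⊔ A : Subgroup G) : Set G) := hx
        rw [Subgroup.mul_normal] at h2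
        obtain ⟨y, ⟨k, hk, rfl⟩, a, ha, rfl⟩ := Set.mem_mul.mp h2
        refine ⟨k, hk, ?_⟩
        show (QuotientGroup.mk (k : G) : G ⧸ A) = QuotientGroup.mk ((k : G) * a)
        rw [QuotientGroup.eq, inv_mul_cancel_left]
        exact ha
      · rintro ⟨k, hk, hkx⟩
        have h1 : (QuotientGroup.mk (k : G) : G ⧸ A) = QuotientGroup.mk x := hkx
        rw [QuotientGroup.eq] at h1
        have e : x = (k : G) * ((k : G)⁻¹ * x) := by group
        rw [e]
        exact Subgroup.mul_mem_sup ⟨k, hk, rfl⟩ h1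
  · intro hyp
    have hall : ∀ p : ℕ, p.Prime → ∃ L : Subgroup G, L ⊔ A = ⊤ ∧
        ∀ a ∈ A, a ∈ L ↔ (orderOf a).Coprime p := by
      intro p hp
      haveI : Fact p.Prime := ⟨hp⟩
      by_cases hpi : p ∣ A.index
      · obtain ⟨S, K, hKA, hKsup⟩ := hyp p hp hpi
        have hidx : ¬ p ∣ ((S : Subgroup (G ⧸ A)).comap (QuotientGroup.mk' A)).index := by
          rw [Subgroup.index_comap_of_surjective _ (QuotientGroup.mk'_surjective A)]
          exact S.not_dvd_index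
        obtain ⟨d, hd1, hd2⟩ := lemY A _ K (by rw [← hKsup]; exact le_sup_right) hKA hKsup
        exact lemX A _ d hd1 hd2 p hp hidx
      · obtain ⟨d, hd1, hd2⟩ := lemY A A ⊥ le_rfl (bot_inf_eq A) (bot_sup_eq A)
        exact lemX A _ d hd1 hd2 p hp hpi
    obtain ⟨L, hL1, hL2⟩ := combine A hall (Nat.card G).primeFactors
      (fun p hp => Nat.prime_of_mem_primeFactors hp)
    refine ⟨L, ?_⟩
    apply Subgroup.isComplement'_of_disjoint_and_mul_eq_univ
    · rw [Subgroup.disjoint_def]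
      intro a haL haA
      by_contra ha1
      have ho : orderOf a ≠ 1 := fun h => ha1 (orderOf_eq_one_iff.mp h)
      obtain ⟨p, hp, hpd⟩ := Nat.exists_prime_and_dvd ho
      have hpG : p ∈ (Nat.card G).primeFactors := by
        rw [Nat.mem_primeFactors]
        exact ⟨hp, hpd.trans (orderOf_dvd_natCard a), Nat.card_pos.ne'⟩
      have hc := (hL2 a haA).mp haL p hpG
      have h1 := Nat.Coprime.eq_one_of_dvd hc.symm hpd
      exact hp.one_lt.ne' h1
    · rw [← Subgroup.mul_normal, hL1]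
      rfl

end Cfsg.Agent.S4217
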