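import Cfsg.Statements.S4218

import Mathlib
import Cfsg.Agent.S0634
import Cfsg.Agent.S0629
import Cfsg.Agent.S0586
import Cfsg.Agent.S4207
import Cfsg.Agent.Lib.Helper2.PComp
import Cfsg.Agent.Lib.Helper2.PCons
import Cfsg.Agent.Lib.Helper2.Comp
import Cfsg.Agent.Lib.Helper2.Fit

set_option autoImplicit false
open Cfsg
open scoped Pointwise

namespace Cfsg.Agent.S4218

open Cfsg.Agent.Lib.Helper2
open scoped commutatorElement

/-- automorphisms acting trivially modulo the Frattini subgroup -/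
def A0 (V : Type*) [Group V] : Subgroup (MulAut V) where
  carrier := {α | ∀ v : V, α v * v⁻¹ ∈ frattini V}
  one_mem' := by
    intro v
    simp
  mul_mem' := by
    intro α β hα hβ v
    have h1 := hα (β v)
    have h2 := hβ v
    have e : (α * β) v * v⁻¹ = α (β v) * (β v)⁻¹ * (β v * v⁻¹) := by
      rw [MulAut.mul_apply]
      group
    rw [e]
    exact mul_mem h1 h2
  inv_mem' := by
    intro α hα v
    have h1 := hα (α⁻¹ v)
    rw [MulAut.apply_inv_self] at h1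
    have e : α⁻¹ v * v⁻¹ = (v * (α⁻¹ v)⁻¹)⁻¹ := by group
    rw [e]
    exact inv_mem h1

theorem A0_normal (V : Type*) [Group V] : (A0 V).Normal := by
  constructor
  intro α hα β v
  have h1 := hα (β⁻¹ v)
  have h2 : β (α (β⁻¹ v) * (β⁻¹ v)⁻¹) ∈ frattini V := by
    have hc : (frattini V).Characteristic := inferInstance
    have h3 := Subgroup.characteristic_iff_map_eq.mp hc β
    rw [← h3]
    exact ⟨_, h1, rfl⟩
  have e : (β * α * β⁻¹) v * v⁻¹ = β (α (β⁻¹ v) * (β⁻¹ v)⁻¹) := by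
    rw [map_mul, map_inv, MulAut.mul_apply, MulAut.mul_apply, MulAut.apply_inv_self]
  rw [e]
  exact h2

theorem A0_pgroup (V : Type*) [Group V] [Finite V] (p : ℕ) [Fact p.Prime] (hV : IsPGroup p V) :
    IsPGroup p (A0 V) := by
  have hp : p.Prime := Fact.out
  obtain ⟨n, hn⟩ := IsPGroup.iff_card.mp hV
  have hdvd : (frattini V).index ∣ p ^ n := by
    rw [← hn]
    exact Subgroup.index_dvd_card _
  obtain ⟨r, -, hr⟩ := (Nat.dvd_prime_pow hp).mp hdvd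
  have h1 := Cfsg.Agent.S4207.result hn hr (A0 V) (fun α hα => hα)
  exact IsPGroup.of_card_dvd_pow h1

theorem lemW {Γ : Type*} [Group Γ] [Finite Γ] (p : ℕ) [Fact p.Prime] (V : Subgroup Γ)
    [hVn : V.Normal] (hVp : IsPGroup p V) (hcen : Subgroup.centralizer (V : Set Γ) ≤ V) (h : Γ)
    (hh : ∀ v (hv : v ∈ V), (⟨h * v * h⁻¹ * v⁻¹,
      V.mul_mem (hVn.conj_mem v hv h) (V.inv_mem hv)⟩ : ↥V) ∈ frattini ↥V) :
    h ∈ Cfsg.pCore p Γ := by
  have hBn : ((A0 ↥V).comap (MulAut.conjNormal (H := V))).Normal := (A0_normal ↥V).comap _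
  have hhB : h ∈ (A0 ↥V).comap (MulAut.conjNormal (H := V)) := by
    rw [Subgroup.mem_comap]
    intro v
    have h1 := hh v.1 v.2
    have e : (MulAut.conjNormal h v * v⁻¹ : ↥V) = ⟨h * v * h⁻¹ * (v : Γ)⁻¹,
        V.mul_mem (hVn.conj_mem v v.2 h) (V.inv_mem v.2)⟩ := by
      apply Subtype.ext
      rw [Subgroup.coe_mul, MulAut.conjNormal_apply, Subgroup.coe_inv]
    rw [e]
    exact h1
  have hBp : IsPGroup p ((A0 ↥V).comap (MulAut.conjNormal (H := V))) := by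
    intro b
    have hb : (MulAut.conjNormal (b : Γ) : MulAut ↥V) ∈ A0 ↥V := b.2
    obtain ⟨a, ha⟩ := (A0_pgroup ↥V p hVp) ⟨_, hb⟩
    have ha' : (MulAut.conjNormal ((b : Γ) ^ p ^ a) : MulAut ↥V) = 1 := by
      have h1 := congrArg Subtype.val ha
      rw [Subgroup.coe_pow] at h1
      rw [map_pow]
      exact h1
    have hc : (b : Γ) ^ p ^ a ∈ Subgroup.centralizer (V : Set Γ) := by
      rw [Subgroup.mem_centralizer_iff]
      intro v hv
      have h1 : ((MulAut.conjNormal ((b : Γ) ^ p ^ a) (⟨v, hv⟩ : ↥V) : ↥V) : Γ) = v := by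
        rw [ha']
        rfl
      rw [MulAut.conjNormal_apply] at h1
      calc v * (b : Γ) ^ p ^ a = ((b : Γ) ^ p ^ a * v * ((b : Γ) ^ p ^ a)⁻¹) * (b : Γ) ^ p ^ a := by
            rw [h1]
        _ = (b : Γ) ^ p ^ a * v := by group
    obtain ⟨c, hc'⟩ := hVp ⟨_, hcen hc⟩
    refine ⟨a + c, ?_⟩
    apply Subtype.ext
    rw [Subgroup.coe_pow, pow_add, pow_mul]
    have h2 := congrArg Subtype.val hc'
    rw [Subgroup.coe_pow] at h2
    exact h2
  exact (le_sSup ⟨hBn, hBp⟩ : (A0 ↥V).comap (MulAut.conjNormal (H := V)) ≤ Cfsg.pCore p Γ) hhB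

theorem main {G : Type*} [Group G] [Finite G] (p : ℕ) [Fact p.Prime] (K : Subgroup G) [K.Normal]
    (P1 : Subgroup G) (hP1 : ∀ x, x ∈ P1 ↔ QuotientGroup.mk' K x ∈ Cfsg.pCore p (G ⧸ K))
    (hcen : Subgroup.centralizer (Cfsg.pCore p (G ⧸ K) : Set (G ⧸ K)) ≤ Cfsg.pCore p (G ⧸ K))
    (g : G) :
    (∀ x ∈ P1, g * x * g⁻¹ * x⁻¹ ∈ ((frattini (↥P1 ⧸ K.subgroupOf P1)).comap
      (QuotientGroup.mk' (K.subgroupOf P1))).map P1.subtype) ↔ g ∈ P1 := by
  classical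
  have hp : p.Prime := Fact.out
  haveI hVn : (Cfsg.pCore p (G ⧸ K)).Normal := Fit.pCore_normal p
  have hVp : IsPGroup p (Cfsg.pCore p (G ⧸ K)) := Fit.pCore_isPGroup p
  have hP1n : P1.Normal := by
    constructor
    intro x hx y
    rw [hP1] at hx ⊢
    rw [map_mul, map_mul, map_inv]
    exact hVn.conj_mem _ hx _
  let ψ : ↥P1 →* ↥(Cfsg.pCore p (G ⧸ K)) :=
    ((QuotientGroup.mk' K).comp P1.subtype).codRestrict (Cfsg.pCore p (G ⧸ K))
      (fun x => (hP1 x.1).mp x.2)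
  have hψ : ∀ x : ↥P1, ((ψ x : ↥(Cfsg.pCore p (G ⧸ K))) : G ⧸ K) = QuotientGroup.mk' K (x : G) :=
    fun x => rfl
  have hψsurj : Function.Surjective ψ := by
    rintro ⟨v, hv⟩
    obtain ⟨x, rfl⟩ := QuotientGroup.mk'_surjective K v
    exact ⟨⟨x, (hP1 x).mpr hv⟩, rfl⟩
  have hker : ∀ x ∈ K.subgroupOf P1, ψ x = 1 := by
    intro x hx
    apply Subtype.ext
    rw [hψ]
    exact (QuotientGroup.eq_one_iff _).mpr (Subgroup.mem_subgroupOf.mp hx)
  let θ : (↥P1 ⧸ K.subgroupOf P1) →* ↥(Cfsg.pCore p (G ⧸ K)) :=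
    QuotientGroup.lift (K.subgroupOf P1) ψ hker
  have hθ : ∀ x : ↥P1, θ (QuotientGroup.mk' (K.subgroupOf P1) x) = ψ x := fun x => rfl
  have hθsurj : Function.Surjective θ := by
    intro v
    obtain ⟨x, rfl⟩ := hψsurj v
    exact ⟨QuotientGroup.mk' (K.subgroupOf P1) x, hθ x⟩
  have hfr : ∀ y : ↥P1 ⧸ K.subgroupOf P1, y ∈ frattini (↥P1 ⧸ K.subgroupOf P1) →
      θ y ∈ frattini ↥(Cfsg.pCore p (G ⧸ K)) := by
    intro y hy
    exact frattini_le_comap_frattini_of_surjective hθsurj hy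
  have hF : ∀ z : G, z ∈ ((frattini (↥P1 ⧸ K.subgroupOf P1)).comap
      (QuotientGroup.mk' (K.subgroupOf P1))).map P1.subtype ↔
      ∃ hz : z ∈ P1, QuotientGroup.mk' (K.subgroupOf P1) ⟨z, hz⟩ ∈
        frattini (↥P1 ⧸ K.subgroupOf P1) := by
    intro z
    constructor
    · rintro ⟨y, hy, rfl⟩
      exact ⟨y.2, hy⟩
    · rintro ⟨hz, h⟩
      exact ⟨⟨z, hz⟩, h, rfl⟩
  have hQp : IsPGroup p (↥P1 ⧸ K.subgroupOf P1) := by
    intro y
    obtain ⟨x, rfl⟩ := QuotientGroup.mk'_surjective (K.subgroupOf P1) y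
    obtain ⟨k, hk⟩ := hVp (ψ x)
    refine ⟨k, ?_⟩
    rw [← map_pow]
    have h1 : ((ψ (x ^ p ^ k) : ↥(Cfsg.pCore p (G ⧸ K))) : G ⧸ K) = 1 := by
      rw [map_pow, hk]
      rfl
    rw [hψ] at h1
    have h2 : (x ^ p ^ k : ↥P1) ∈ K.subgroupOf P1 :=
      Subgroup.mem_subgroupOf.mpr ((QuotientGroup.eq_one_iff _).mp h1)
    exact (QuotientGroup.eq_one_iff _).mpr h2
  constructor
  · intro hg
    rw [hP1]
    apply lemW p (Cfsg.pCore p (G ⧸ K)) hVp hcen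
    intro v hv
    obtain ⟨x, rfl⟩ := QuotientGroup.mk'_surjective K v
    have hx : x ∈ P1 := (hP1 x).mpr hv
    obtain ⟨hz, h1⟩ := (hF _).mp (hg x hx)
    have h2 := hfr _ h1
    rw [hθ] at h2
    have e : (⟨QuotientGroup.mk' K g * QuotientGroup.mk' K x * (QuotientGroup.mk' K g)⁻¹ *
        (QuotientGroup.mk' K x)⁻¹, (Cfsg.pCore p (G ⧸ K)).mul_mem (hVn.conj_mem _ hv _)
        ((Cfsg.pCore p (G ⧸ K)).inv_mem hv)⟩ : ↥(Cfsg.pCore p (G ⧸ K))) =
        ψ ⟨g * x * g⁻¹ * x⁻¹, hz⟩ := by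
      apply Subtype.ext
      rw [hψ]
      simp only [map_mul, map_inv]
    rw [e]
    exact h2
  · intro hg x hx
    rw [hF]
    refine ⟨P1.mul_mem (hP1n.conj_mem x hx g) (P1.inv_mem hx), ?_⟩
    haveI : Group.IsNilpotent (↥P1 ⧸ K.subgroupOf P1) := hQp.isNilpotent
    have h1 := Cfsg.Agent.S0586.commutator_le_frattini_of_nilpotent (F := ↥P1 ⧸ K.subgroupOf P1)
    apply h1
    rw [commutator_def]
    have e : QuotientGroup.mk' (K.subgroupOf P1) (⟨g * x * g⁻¹ * x⁻¹,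
        P1.mul_mem (hP1n.conj_mem x hx g) (P1.inv_mem hx)⟩ : ↥P1) =
        ⁅QuotientGroup.mk' (K.subgroupOf P1) ⟨g, hg⟩,
          QuotientGroup.mk' (K.subgroupOf P1) ⟨x, hx⟩⁆ := by
      rw [commutatorElement_def, ← map_inv, ← map_inv, ← map_mul, ← map_mul, ← map_mul]
      rfl
    rw [e]
    exact Subgroup.commutator_mem_commutator (Subgroup.mem_top _) (Subgroup.mem_top _)

theorem result {G : Type*} [Group G] [Finite G] {p : ℕ} [Fact p.Prime] (hG : Cfsg.IsPSolvable p G) (g : G) : (∀ x ∈ Cfsg.pPrimePCore p G, g * x * g⁻¹ * x⁻¹ ∈ ((frattini (↥(Cfsg.pPrimePCore p G) ⧸ (Cfsg.pPrimeCore p G).subgroupOf (Cfsg.pPrimePCore p G))).comap (QuotientGroup.mk' ((Cfsg.pPrimeCore p G).subgroupOf (Cfsg.pPrimePCore p G)))).map (Cfsg.pPrimePCore p G).subtype) ↔ g ∈ Cfsg.pPrimePCore p G := by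
  have hsurj : Function.Surjective (QuotientGroup.mk' (Cfsg.pPrimeCore p G)) :=
    QuotientGroup.mk'_surjective _
  have hR : Cfsg.IsPSolvable p (G ⧸ Cfsg.pPrimeCore p G) :=
    Cfsg.Agent.S0629.psolv_map p _ hsurj hG
  have hO : Cfsg.pPrimeCore p (G ⧸ Cfsg.pPrimeCore p G) = ⊥ :=
    PComp.pPrimeCore_quotient_eq_bot p
  have hF := PCons.genFitting_eq_pCore_of (Cfsg.Agent.S0634.layer_bot_of_psolv p hR hO) hO
  have hcen := Comp.centralizer_genFitting_le (G := G ⧸ Cfsg.pPrimeCore p G)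
  rw [hF] at hcen
  exact main p (Cfsg.pPrimeCore p G) (Cfsg.pPrimePCore p G) (fun x => Iff.rfl) hcen g

end Cfsg.Agent.S4218
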