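import Cfsg.Statements.S4230

import Mathlib

set_option autoImplicit false
open Cfsg
open scoped Pointwise

namespace Cfsg.Agent.S4230

theorem result (p q f : ℕ) (hp : p.Prime) (hp2 : p ≠ 2) (hpq : ¬ p ∣ q) :
    ((p : ℤ) ∣ (Polynomial.cyclotomic f ℤ).eval (q : ℤ)) ↔ ∃ j : ℕ, f = orderOf (q : ZMod p) * p ^ j := by
  have := Fact.mk hp
  have hq0 : (q : ZMod p) ≠ 0 := by rwa [Ne, ZMod.natCast_eq_zero_iff]
  have hL : ((p : ℤ) ∣ (Polynomial.cyclotomic f ℤ).eval (q : ℤ)) ↔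
      (Polynomial.cyclotomic f (ZMod p)).IsRoot (q : ZMod p) := by
    rw [← ZMod.intCast_zmod_eq_zero_iff_dvd, Polynomial.IsRoot.def,
      ← Polynomial.map_cyclotomic_int f (ZMod p)]
    have h1 := Polynomial.eval_intCast_map (Int.castRingHom (ZMod p)) (Polynomial.cyclotomic f ℤ) (q : ℤ)
    rw [Int.cast_natCast] at h1
    rw [h1]
    rfl
  rw [hL]
  have hdp : orderOf (q : ZMod p) ∣ p - 1 := ZMod.orderOf_dvd_card_sub_one hq0
  have hp2' := hp.two_le
  have hd0 : orderOf (q : ZMod p) ≠ 0 := by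
    intro h
    rw [h, zero_dvd_iff] at hdp
    omega
  have hdlt : orderOf (q : ZMod p) < p := by
    have := Nat.le_of_dvd (by omega) hdp
    omega
  have hpd : ¬ p ∣ orderOf (q : ZMod p) := by
    intro h
    have := Nat.le_of_dvd (Nat.pos_of_ne_zero hd0) h
    omega
  constructor
  · intro hroot
    have hf0 : f ≠ 0 := by
      rintro rfl
      rw [Polynomial.cyclotomic_zero, Polynomial.IsRoot.def, Polynomial.eval_one] at hroot
      exact one_ne_zero hroot
    obtain ⟨k, m, hpm, hfm⟩ := Nat.exists_eq_pow_mul_and_not_dvd hf0 p hp.one_lt.ne'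
    subst hfm
    have : NeZero (m : ZMod p) := ⟨by rwa [Ne, ZMod.natCast_eq_zero_iff]⟩
    rw [Polynomial.isRoot_cyclotomic_prime_pow_mul_iff_of_charP] at hroot
    refine ⟨k, ?_⟩
    rw [← hroot.eq_orderOf, mul_comm]
  · rintro ⟨j, rfl⟩
    have : NeZero ((orderOf (q : ZMod p) : ℕ) : ZMod p) := ⟨by rwa [Ne, ZMod.natCast_eq_zero_iff]⟩
    rw [mul_comm, Polynomial.isRoot_cyclotomic_prime_pow_mul_iff_of_charP]
    exact IsPrimitiveRoot.orderOf _

end Cfsg.Agent.S4230
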