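import Cfsg.Statements.S4244

import Mathlib

set_option autoImplicit false
open Cfsg
open scoped Pointwise

namespace Cfsg.Agent.S4244

theorem aux_relIndex {G : Type*} [Group G] [Finite G] (H A : Subgroup G) [A.Normal] :
    H.relIndex A ∣ H.index := by
  have e1 : Nat.card (H ⊓ A : Subgroup G) * H.relIndex A = Nat.card A := by
    have := Subgroup.relIndex_mul_relIndex (⊥ : Subgroup G) (H ⊓ A) A bot_le inf_le_right
    rwa [Subgroup.relIndex_bot_left, Subgroup.relIndex_bot_left, Subgroup.inf_relIndex_right] at this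
  have e2 : Nat.card (H ⊓ A : Subgroup G) * A.relIndex H = Nat.card H := by
    have := Subgroup.relIndex_mul_relIndex (⊥ : Subgroup G) (H ⊓ A) H bot_le inf_le_left
    rwa [Subgroup.relIndex_bot_left, Subgroup.relIndex_bot_left, Subgroup.inf_relIndex_left] at this
  have e3 : Nat.card A * A.relIndex H = Nat.card (H ⊔ A : Subgroup G) := by
    have := Subgroup.relIndex_mul_relIndex (⊥ : Subgroup G) A (H ⊔ A) bot_le le_sup_right
    rwa [Subgroup.relIndex_bot_left, Subgroup.relIndex_bot_left, Subgroup.relIndex_sup_right] at this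
  have e4 : Nat.card H * H.relIndex (H ⊔ A) = Nat.card (H ⊔ A : Subgroup G) := by
    have := Subgroup.relIndex_mul_relIndex (⊥ : Subgroup G) H (H ⊔ A) bot_le le_sup_left
    rwa [Subgroup.relIndex_bot_left, Subgroup.relIndex_bot_left] at this
  have hpos : 0 < Nat.card H := Nat.card_pos
  have e5 : H.relIndex A = H.relIndex (H ⊔ A) := by
    apply Nat.eq_of_mul_eq_mul_left hpos
    rw [e4, ← e3, ← e1, ← e2]
    ring
  rw [e5]
  exact Subgroup.relIndex_dvd_index_of_le le_sup_left

theorem result {G : Type*} [Group G] [Finite G] (H : Subgroup G) (hH : H.IsSubnormal) (K : Subgroup G) :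
    (H ⊓ K).relIndex H ∣ K.index := by
  induction hH generalizing K with
  | top => rw [top_inf_eq, Subgroup.relIndex_top_right]
  | step H M hle hsub hN ih =>
    have e : M ⊓ K ⊓ H = H ⊓ K := by
      rw [inf_comm M K, inf_assoc, inf_eq_right.mpr hle, inf_comm]
    have h1 : (H ⊓ K).relIndex H = (M ⊓ K).relIndex H := by
      rw [← Subgroup.inf_relIndex_right (M ⊓ K) H, e]
    rw [h1]
    have h2 : (M ⊓ K).relIndex H ∣ (M ⊓ K).relIndex M := by
      have h3 := aux_relIndex ((M ⊓ K).subgroupOf M) (H.subgroupOf M)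
      rw [Subgroup.relIndex_subgroupOf hle] at h3
      exact h3
    exact h2.trans (ih K)

end Cfsg.Agent.S4244
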