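import Cfsg.Statements.S4253

set_option autoImplicit false
open Cfsg
open scoped Pointwise

namespace Cfsg.Agent.S4253

theorem result {G : Type*} [Group G] [Finite G] (H : Subgroup G) (hH : Cfsg.IsFrobeniusComplement H)
    (g : G) (hg : g ≠ 1) (a b : G ⧸ H) (ha : g • a = a) (hb : g • b = b) : a = b := by
  induction a using QuotientGroup.induction_on with | _ x => ?_
  induction b using QuotientGroup.induction_on with | _ y => ?_
  have hx : x⁻¹ * g * x ∈ H := by
    have h1 : ((g * x : G) : G ⧸ H) = (x : G ⧸ H) := ha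
    have h2 := QuotientGroup.eq.mp h1
    have h3 := H.inv_mem h2
    simpa [mul_assoc] using h3
  have hy : y⁻¹ * g * y ∈ H := by
    have h1 : ((g * y : G) : G ⧸ H) = (y : G ⧸ H) := hb
    have h2 := QuotientGroup.eq.mp h1
    have h3 := H.inv_mem h2
    simpa [mul_assoc] using h3
  rw [QuotientGroup.eq]
  by_contra hk
  have h := hH.2.2 (x⁻¹ * y) hk
  have hmem : x⁻¹ * g * x ∈ H ⊓ (MulAut.conj (x⁻¹ * y) • H) := by
    refine Subgroup.mem_inf.mpr ⟨hx, ?_⟩
    rw [Subgroup.mem_pointwise_smul_iff_inv_smul_mem]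
    have : (MulAut.conj (x⁻¹ * y))⁻¹ • (x⁻¹ * g * x) = y⁻¹ * g * y := by
      simp [MulAut.smul_def, MulAut.conj_inv_apply, mul_assoc]
    rw [this]
    exact hy
  rw [h, Subgroup.mem_bot] at hmem
  apply hg
  have : g = x * (x⁻¹ * g * x) * x⁻¹ := by group
  rw [this, hmem]
  group

end Cfsg.Agent.S4253
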