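import Cfsg.Statements.S4260

set_option autoImplicit false
open Cfsg
open scoped Pointwise

namespace Cfsg.Agent.S4260

theorem result {G : Type*} [Group G] [Finite G] (H : Subgroup G) (hHall : (Nat.card H).Coprime H.index)
    (hexp : ∀ x : G, x ^ H.index ∈ H) : H.Normal := by
  have key : ∀ h ∈ H, ∃ y : G, y ^ H.index = h := by
    intro h hh
    obtain ⟨y, hy⟩ := (powCoprime hHall).surjective ⟨h, hh⟩
    refine ⟨y, ?_⟩
    have := congrArg Subtype.val hy
    simpa using this
  constructor
  intro n hn g
  obtain ⟨y, rfl⟩ := key n hn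
  have : g * y ^ H.index * g⁻¹ = (g * y * g⁻¹) ^ H.index := by
    rw [conj_pow]
  rw [this]
  exact hexp _

end Cfsg.Agent.S4260
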