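import Cfsg.Statements.S4283

import Mathlib
import Cfsg.Agent.S0034
import Cfsg.Agent.S4620

set_option autoImplicit false
open Cfsg
open scoped Pointwise

namespace Cfsg.Agent.S4283

universe u
variable {G : Type u} [Group G]

lemma mem_map_iff (K : Subgroup G) (hZ : Subgroup.center G ≤ K) (g : G) :
    QuotientGroup.mk' (Subgroup.center G) g ∈ K.map (QuotientGroup.mk' (Subgroup.center G)) ↔ g ∈ K := by
  constructor
  · rintro ⟨k, hk, hkg⟩
    have : k⁻¹ * g ∈ Subgroup.center G := QuotientGroup.eq.mp hkg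
    have := K.mul_mem hk (hZ this)
    rwa [mul_inv_cancel_left] at this
  · intro hg; exact ⟨g, hg, rfl⟩

lemma index_centralizer_conj (u h : G) :
    (Subgroup.centralizer ({u * h * u⁻¹} : Set G)).index = (Subgroup.centralizer ({h} : Set G)).index := by
  have : Subgroup.centralizer ({u * h * u⁻¹} : Set G) =
      (Subgroup.centralizer ({h} : Set G)).map ((MulAut.conj u : G ≃* G) : G →* G) := by
    ext g
    rw [Subgroup.mem_map]
    simp only [Subgroup.mem_centralizer_iff, Set.mem_singleton_iff, forall_eq]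
    constructor
    · intro hg
      refine ⟨u⁻¹ * g * u, ?_, ?_⟩
      · have : u⁻¹ * (u * h * u⁻¹ * g) * u = u⁻¹ * (g * (u * h * u⁻¹)) * u := by rw [hg]
        calc h * (u⁻¹ * g * u) = u⁻¹ * (u * h * u⁻¹ * g) * u := by group
          _ = u⁻¹ * (g * (u * h * u⁻¹)) * u := this
          _ = u⁻¹ * g * u * h := by group
      · show u * (u⁻¹ * g * u) * u⁻¹ = g
        group
    · rintro ⟨c, hc, rfl⟩
      show u * h * u⁻¹ * (u * c * u⁻¹) = u * c * u⁻¹ * (u * h * u⁻¹)
      calc u * h * u⁻¹ * (u * c * u⁻¹) = u * (h * c) * u⁻¹ := by group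
        _ = u * (c * h) * u⁻¹ := by rw [hc]
        _ = u * c * u⁻¹ * (u * h * u⁻¹) := by group
  rw [this, Subgroup.index_map_equiv]

theorem result {G : Type*} [Group G] [Finite G] (K H : Subgroup G) (hZK : Subgroup.center G ≤ K) (hZH : Subgroup.center G ≤ H) (hK : IsMulCommutative K) (hH : IsMulCommutative H) (hFrob : Cfsg.IsFrobeniusComplement (H.map (QuotientGroup.mk' (Subgroup.center G)))) (hker : Cfsg.frobeniusKernel (H.map (QuotientGroup.mk' (Subgroup.center G))) = (K.map (QuotientGroup.mk' (Subgroup.center G)) : Set (G ⧸ Subgroup.center G))) : Set.range (fun x : G => (Subgroup.centralizer ({x} : Set G)).index) = ({1, K.index, H.index} : Set ℕ) ∧ K.index.Coprime H.index := by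
  classical
  set Z := Subgroup.center G with hZ
  set π := QuotientGroup.mk' Z with hπ
  set Hb := H.map π with hHb
  set Kb := K.map π with hKb
  obtain ⟨hH1, hH2, hTI⟩ := hFrob
  have hkerK : ∀ y : G ⧸ Z, y ∈ Kb ↔ (y = 1 ∨ ∀ g : G ⧸ Z, y ∉ MulAut.conj g • Hb) := by
    intro y
    have : y ∈ (Kb : Set (G ⧸ Z)) ↔ y ∈ Cfsg.frobeniusKernel Hb := by rw [hker]
    exact this
  have hπ1 : ∀ g : G, π g = 1 ↔ g ∈ Z := fun g => QuotientGroup.eq_one_iff g
  have hcommK : ∀ a ∈ K, ∀ b ∈ K, a * b = b * a := by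
    intro a ha b hb
    have := mul_comm' (⟨a, ha⟩ : K) ⟨b, hb⟩
    exact congrArg Subtype.val this
  have hcommH : ∀ a ∈ H, ∀ b ∈ H, a * b = b * a := by
    intro a ha b hb
    have := mul_comm' (⟨a, ha⟩ : H) ⟨b, hb⟩
    exact congrArg Subtype.val this
  have hA : ∀ x ∈ K, x ∉ Z → Subgroup.centralizer ({x} : Set G) = K := by
    intro x hxK hxZ
    apply le_antisymm
    · intro g hg
      rw [Subgroup.mem_centralizer_iff] at hg
      have hgx : x * g = g * x := hg x rfl
      by_contra hgK
      have h1 : π g ∉ Kb := fun h => hgK ((mem_map_iff K hZK g).mp h)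
      rw [hkerK] at h1
      push_neg at h1
      obtain ⟨hg1, u, hu⟩ := h1
      rw [Cfsg.Agent.S4620.mem_conj] at hu
      set h := u⁻¹ * π g * u with hh
      have hhne : h ≠ 1 := by
        intro h0
        apply hg1
        have : π g = u * h * u⁻¹ := by rw [hh]; group
        rw [this, h0]; group
      set y := u⁻¹ * π x * u with hy
      have hyh : y⁻¹ * h * y = h := by
        have : π x * π g = π g * π x := by rw [← map_mul, ← map_mul, hgx]
        rw [hy, hh]
        have e : (u⁻¹ * π x * u)⁻¹ * (u⁻¹ * π g * u) * (u⁻¹ * π x * u) =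
            u⁻¹ * ((π x)⁻¹ * (π g * π x)) * u := by group
        rw [e, ← this]; group
      by_cases hyH : y ∈ Hb
      · have hxK' : π x ∈ Kb := (mem_map_iff K hZK x).mpr hxK
        rw [hkerK] at hxK'
        rcases hxK' with h0 | h0
        · exact hxZ ((hπ1 x).mp h0)
        · apply h0 u
          rw [Cfsg.Agent.S4620.mem_conj]; exact hyH
      · have := hTI y hyH
        have hmem : h ∈ Hb ⊓ MulAut.conj y • Hb := by
          refine Subgroup.mem_inf.mpr ⟨hu, ?_⟩
          rw [Cfsg.Agent.S4620.mem_conj, hyh]; exact hu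
        rw [this, Subgroup.mem_bot] at hmem
        exact hhne hmem
    · intro k hk
      rw [Subgroup.mem_centralizer_iff]
      intro y hy
      rw [Set.mem_singleton_iff] at hy
      rw [hy]
      exact hcommK _ hxK _ hk
  have hB : ∀ x : G, x ∉ K → (Subgroup.centralizer ({x} : Set G)).index = H.index := by
    intro x hxK
    have h1 : π x ∉ Kb := fun h => hxK ((mem_map_iff K hZK x).mp h)
    rw [hkerK] at h1
    push_neg at h1
    obtain ⟨hx1, u, hu⟩ := h1
    obtain ⟨u₀, rfl⟩ := QuotientGroup.mk'_surjective Z u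
    rw [Cfsg.Agent.S4620.mem_conj] at hu
    obtain ⟨h, hh⟩ : ∃ h : G, h = u₀⁻¹ * x * u₀ := ⟨_, rfl⟩
    have hhH : h ∈ H := by
      apply (mem_map_iff H hZH h).mp
      have : π h = (π u₀)⁻¹ * π x * π u₀ := by rw [hh]; simp [map_mul]
      rw [this]; exact hu
    have hxe : x = u₀ * h * u₀⁻¹ := by rw [hh]; group
    have hhZ : h ∉ Z := by
      intro hz
      apply hx1
      rw [hπ1, hxe]
      exact (inferInstance : Z.Normal).conj_mem h hz u₀
    have hC : Subgroup.centralizer ({h} : Set G) = H := by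
      apply le_antisymm
      · intro g hg
        rw [Subgroup.mem_centralizer_iff] at hg
        have hgh : h * g = g * h := hg h rfl
        by_contra hgH
        have h2 : π g ∉ Hb := fun hh' => hgH ((mem_map_iff H hZH g).mp hh')
        have := hTI (π g) h2
        have hmem : π h ∈ Hb ⊓ MulAut.conj (π g) • Hb := by
          refine Subgroup.mem_inf.mpr ⟨(mem_map_iff H hZH h).mpr hhH, ?_⟩
          rw [Cfsg.Agent.S4620.mem_conj]
          have : (π g)⁻¹ * π h * π g = π h := by
            rw [← map_inv, ← map_mul, ← map_mul]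
            congr 1
            rw [mul_assoc, hgh, inv_mul_cancel_left]
          rw [this]; exact (mem_map_iff H hZH h).mpr hhH
        rw [this, Subgroup.mem_bot] at hmem
        exact hhZ ((hπ1 h).mp hmem)
      · intro k hk
        rw [Subgroup.mem_centralizer_iff]
        intro y hy
        rw [Set.mem_singleton_iff] at hy
        rw [hy]
        exact hcommH _ hhH _ hk
    rw [hxe, index_centralizer_conj, hC]
  obtain ⟨hS1, hS2⟩ := Cfsg.Agent.S0034.result Hb ⟨hH1, hH2, hTI⟩
  have hKcard : Nat.card Kb = Hb.index := by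
    rw [← hS1, hker]; rfl
  have hKi : Kb.index = K.index :=
    Subgroup.index_map_eq K (QuotientGroup.mk'_surjective Z) (by rw [QuotientGroup.ker_mk']; exact hZK)
  have hHi : Hb.index = H.index :=
    Subgroup.index_map_eq H (QuotientGroup.mk'_surjective Z) (by rw [QuotientGroup.ker_mk']; exact hZH)
  have hKbi : Kb.index = Nat.card Hb := by
    have e1 := Subgroup.card_mul_index Kb
    have e2 := Subgroup.card_mul_index Hb
    rw [hKcard] at e1
    have : Hb.index * Kb.index = Hb.index * Nat.card Hb := by rw [e1, ← e2]; ring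
    exact Nat.eq_of_mul_eq_mul_left (Nat.pos_of_ne_zero Subgroup.index_ne_zero_of_finite) this
  have hcop : K.index.Coprime H.index := by
    rw [← hKi, ← hHi, hKbi]
    have : Nat.gcd Hb.index (Nat.card Hb) = Nat.gcd 1 (Nat.card Hb) := Nat.ModEq.gcd_eq hS2
    rw [Nat.gcd_one_left] at this
    exact (Nat.coprime_comm).mp this
  have hexK : ∃ x ∈ K, x ∉ Z := by
    by_contra hcon
    push_neg at hcon
    apply hH2
    have : Kb = ⊥ := by
      rw [eq_bot_iff]
      rintro _ ⟨k, hk, rfl⟩
      rw [Subgroup.mem_bot]; exact (hπ1 k).mpr (hcon k hk)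
    rw [this, Subgroup.card_bot] at hKcard
    exact Subgroup.index_eq_one.mp hKcard.symm
  have hexH : ∃ x : G, x ∉ K := by
    by_contra hcon
    push_neg at hcon
    apply hH1
    rw [eq_bot_iff]
    intro y hy
    rw [Subgroup.mem_bot]
    obtain ⟨y₀, rfl⟩ := QuotientGroup.mk'_surjective Z y
    have : π y₀ ∈ Kb := (mem_map_iff K hZK y₀).mpr (hcon y₀)
    rw [hkerK] at this
    rcases this with h0 | h0
    · exact h0
    · exfalso; apply h0 1; rw [Cfsg.Agent.S4620.mem_conj, inv_one, one_mul, mul_one]; exact hy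
  refine ⟨?_, hcop⟩
  ext n
  simp only [Set.mem_range, Set.mem_insert_iff, Set.mem_singleton_iff]
  constructor
  · rintro ⟨x, rfl⟩
    by_cases hxZ : x ∈ Z
    · left
      have : Subgroup.centralizer ({x} : Set G) = ⊤ := by
        rw [Subgroup.centralizer_eq_top_iff_subset]
        intro y hy; rw [Set.mem_singleton_iff] at hy; rw [hy]; exact hxZ
      rw [this, Subgroup.index_top]
    · by_cases hxK : x ∈ K
      · right; left; rw [hA x hxK hxZ]
      · right; right; exact hB x hxK
  · rintro (rfl | rfl | rfl)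
    · refine ⟨1, ?_⟩
      have : Subgroup.centralizer ({1} : Set G) = ⊤ := by
        rw [Subgroup.centralizer_eq_top_iff_subset]
        intro y hy; rw [Set.mem_singleton_iff] at hy; rw [hy]; exact Subgroup.one_mem _
      rw [this, Subgroup.index_top]
    · obtain ⟨x, hxK, hxZ⟩ := hexK
      exact ⟨x, by rw [hA x hxK hxZ]⟩
    · obtain ⟨x, hx⟩ := hexH
      exact ⟨x, hB x hx⟩

end Cfsg.Agent.S4283
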