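import Cfsg.Statements.S4296

import Mathlib
import Cfsg.Agent.S0035
import Cfsg.Agent.S0040
import Cfsg.Agent.S4620

set_option autoImplicit false
open Cfsg
open scoped Pointwise

namespace Cfsg.Agent.S4296

universe u

theorem ev_sq {V : Type*} [CommGroup V] [Finite V] (r : ℕ) (hr : r.Prime)
    (hexp : ∀ x : V, x ^ r = 1) (i j : V →* V)
    (hi : ∀ x, i (i x) = x⁻¹) (hj : ∀ x, j (j x) = x⁻¹) (hij : ∀ x, i (j x) = (j (i x))⁻¹)
    (hodd : Odd (Nat.card V)) :
    IsSquare (Nat.card V) := by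
  haveI : Fact r.Prime := ⟨hr⟩
  obtain ⟨a', b', hab'⟩ := ZMod.sq_add_sq r (-1)
  obtain ⟨a, b, hab⟩ : ∃ a b : ℕ, r ∣ a ^ 2 + b ^ 2 + 1 := by
    refine ⟨a'.val, b'.val, ?_⟩
    rw [← ZMod.natCast_eq_zero_iff]
    push_cast
    rw [ZMod.natCast_zmod_val, ZMod.natCast_zmod_val, hab']
    ring
  have hx1 : ∀ x : V, x ^ (a ^ 2 + b ^ 2 + 1) = 1 := by
    intro x
    obtain ⟨c, hc⟩ := hab
    rw [hc, pow_mul, hexp, one_pow]
  let u : V →* V := ((powMonoidHom a).comp i) * ((powMonoidHom b).comp j)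
  have hux : ∀ x, u x = (i x) ^ a * (j x) ^ b := fun x => rfl
  have huu : ∀ x, u (u x) = x := by
    intro x
    have e1 : u (u x) = (x ^ (a ^ 2 + b ^ 2))⁻¹ := by
      rw [hux, hux, map_mul, map_mul, map_pow, map_pow, map_pow, map_pow, hi, hj, hij]
      rw [mul_pow, mul_pow, ← pow_mul, ← pow_mul, ← pow_mul, ← pow_mul, inv_pow, inv_pow,
        inv_pow, pow_add, mul_inv]
      have e2 : a * a = a ^ 2 := by ring
      have e3 : b * b = b ^ 2 := by ring
      have e4 : b * a = a * b := by ring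
      rw [e2, e3, e4]
      calc (x ^ a ^ 2)⁻¹ * (j (i x) ^ (a * b))⁻¹ * (j (i x) ^ (a * b) * (x ^ b ^ 2)⁻¹)
          = (x ^ a ^ 2)⁻¹ * ((j (i x) ^ (a * b))⁻¹ * j (i x) ^ (a * b)) * (x ^ b ^ 2)⁻¹ := by
            simp only [mul_assoc]
        _ = (x ^ a ^ 2)⁻¹ * (x ^ b ^ 2)⁻¹ := by rw [inv_mul_cancel, mul_one]
    rw [e1]
    apply inv_eq_of_mul_eq_one_right
    rw [← pow_succ]
    exact hx1 x
  have hkk : ∀ x, i (j (i (j x))) = x⁻¹ := by
    intro x
    rw [hij x, map_inv, map_inv, hj, map_inv, inv_inv, hi]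
  have hk_inj : Function.Injective (i.comp j) := by
    intro x y hxy
    have h1 : i (j x) = i (j y) := hxy
    have h2 : x⁻¹ = y⁻¹ := by rw [← hkk x, ← hkk y, h1]
    exact inv_injective h2
  have huk : ∀ x, u (i (j x)) = (i (j (u x)))⁻¹ := by
    intro x
    rw [hux, hux, hi, map_mul, map_mul, map_pow, map_pow, map_pow, map_pow, hj]
    have e1 : j (i (j x)) = i x := by
      rw [hij x, map_inv, hj, inv_inv]
    have e2 : i (j (i x)) = j x := by
      rw [hij (i x), hi, map_inv, inv_inv]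
    rw [e1, e2, map_inv, mul_inv, inv_pow, inv_pow, inv_inv]
  let φ : V →* V := (MonoidHom.id V) * u
  have hφx : ∀ x, φ x = x * u x := fun x => rfl
  have hcard : Nat.card φ.ker * Nat.card φ.range = Nat.card V := by
    rw [← Subgroup.index_ker]
    exact Subgroup.card_mul_index φ.ker
  have hker : ∀ x, x ∈ φ.ker ↔ u x = x⁻¹ := by
    intro x
    rw [MonoidHom.mem_ker, hφx]
    constructor
    · intro h
      exact (eq_inv_of_mul_eq_one_right h)
    · intro h
      rw [h, mul_inv_cancel]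
  have hrange1 : ∀ y ∈ φ.range, u y = y := by
    rintro _ ⟨x, rfl⟩
    rw [hφx, map_mul, huu, mul_comm]
  have hrange2 : ∀ t, u t = t → t ∈ φ.range := by
    intro t ht
    obtain ⟨c, hc⟩ := hodd
    have hpow : t ^ Nat.card V = 1 := pow_card_eq_one'
    refine ⟨t ^ (c + 1), ?_⟩
    rw [hφx, map_pow, ht, ← pow_add]
    have e : c + 1 + (c + 1) = Nat.card V + 1 := by omega
    rw [e, pow_succ, hpow, one_mul]
  have h1 : Nat.card φ.range ≤ Nat.card φ.ker := by
    have hle : φ.range.map (i.comp j) ≤ φ.ker := by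
      rintro _ ⟨y, hy, rfl⟩
      rw [hker]
      show u (i (j y)) = (i (j y))⁻¹
      rw [huk, hrange1 y hy]
    have h2 := Subgroup.card_le_of_le hle
    rw [Subgroup.card_map_of_injective hk_inj] at h2
    exact h2
  have h2 : Nat.card φ.ker ≤ Nat.card φ.range := by
    have hle : φ.ker.map (i.comp j) ≤ φ.range := by
      rintro _ ⟨y, hy, rfl⟩
      apply hrange2
      show u (i (j y)) = i (j y)
      rw [huk, (hker y).mp hy, map_inv, map_inv, inv_inv]
    have h2 := Subgroup.card_le_of_le hle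
    rw [Subgroup.card_map_of_injective hk_inj] at h2
    exact h2
  refine ⟨Nat.card φ.ker, ?_⟩
  rw [← hcard, le_antisymm h1 h2]

def res {K : Type*} [CommGroup K] (S : Subgroup K) (f : K →* K) (h : ∀ x ∈ S, f x ∈ S) :
    ↥S →* ↥S :=
  (f.comp S.subtype).codRestrict S (fun x => h x.1 x.2)

theorem res_apply {K : Type*} [CommGroup K] (S : Subgroup K) (f : K →* K)
    (h : ∀ x ∈ S, f x ∈ S) (x : ↥S) : ((res S f h x : ↥S) : K) = f (x : K) := rfl

theorem sq_aux (n : ℕ) : ∀ (K : Type u) [CommGroup K] [Finite K] (i j : K →* K),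
    (∀ x, i (i x) = x⁻¹) → (∀ x, j (j x) = x⁻¹) → (∀ x, i (j x) = (j (i x))⁻¹) →
    Odd (Nat.card K) → Nat.card K = n → IsSquare n := by
  induction n using Nat.strong_induction_on with
  | _ n ih =>
    intro K _ _ i j hi hj hij hodd hcard
    by_cases hn1 : n = 1
    · rw [hn1]
      exact ⟨1, rfl⟩
    obtain ⟨r, hr, hrn⟩ := Nat.exists_prime_and_dvd hn1
    haveI : Fact r.Prime := ⟨hr⟩
    have hiS : ∀ (f : K →* K), ∀ x ∈ (powMonoidHom r : K →* K).range,
        f x ∈ (powMonoidHom r : K →* K).range := by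
      rintro f _ ⟨y, rfl⟩
      refine ⟨f y, ?_⟩
      show (f y) ^ r = f (y ^ r)
      rw [map_pow]
    have hiT : ∀ (f : K →* K), ∀ x ∈ (powMonoidHom r : K →* K).ker,
        f x ∈ (powMonoidHom r : K →* K).ker := by
      intro f x hx
      rw [MonoidHom.mem_ker] at hx ⊢
      show (f x) ^ r = 1
      have hx' : x ^ r = 1 := hx
      rw [← map_pow, hx', map_one]
    have hmul : Nat.card (powMonoidHom r : K →* K).ker *
        Nat.card (powMonoidHom r : K →* K).range = n := by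
      rw [← Subgroup.index_ker, ← hcard]
      exact Subgroup.card_mul_index _
    have hrel : ∀ (S : Subgroup K) (hS : ∀ (f : K →* K), ∀ x ∈ S, f x ∈ S),
        (∀ x, res S i (hS i) (res S i (hS i) x) = x⁻¹) ∧
        (∀ x, res S j (hS j) (res S j (hS j) x) = x⁻¹) ∧
        (∀ x, res S i (hS i) (res S j (hS j) x) = (res S j (hS j) (res S i (hS i) x))⁻¹) := by
      intro S hS
      refine ⟨?_, ?_, ?_⟩
      · intro x
        apply Subtype.ext
        rw [res_apply, res_apply, hi]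
        rfl
      · intro x
        apply Subtype.ext
        rw [res_apply, res_apply, hj]
        rfl
      · intro x
        apply Subtype.ext
        rw [res_apply, res_apply, hij]
        rfl
    have hoddn : Odd n := hcard ▸ hodd
    have hodd1 : Odd (Nat.card (powMonoidHom r : K →* K).ker) :=
      Odd.of_dvd_nat hoddn (Dvd.intro _ hmul)
    have hodd2 : Odd (Nat.card (powMonoidHom r : K →* K).range) :=
      Odd.of_dvd_nat hoddn (Dvd.intro_left _ hmul)
    have hker_sq : IsSquare (Nat.card (powMonoidHom r : K →* K).ker) := by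
      obtain ⟨h1, h2, h3⟩ := hrel _ hiT
      apply ev_sq r hr _ _ _ h1 h2 h3 hodd1
      intro x
      apply Subtype.ext
      have hx : (x : K) ^ r = 1 := x.2
      rw [Subgroup.coe_pow, hx]
      rfl
    have hker_lt : 1 < Nat.card (powMonoidHom r : K →* K).ker := by
      obtain ⟨x, hx⟩ := exists_prime_orderOf_dvd_card' (G := K) r (hcard ▸ hrn)
      rw [Subgroup.one_lt_card_iff_ne_bot]
      intro hbot
      have hxk : x ∈ (powMonoidHom r : K →* K).ker := by
        rw [MonoidHom.mem_ker]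
        show x ^ r = 1
        rw [← hx]
        exact pow_orderOf_eq_one x
      rw [hbot, Subgroup.mem_bot] at hxk
      rw [hxk, orderOf_one] at hx
      exact hr.one_lt.ne hx
    have hrange_lt : Nat.card (powMonoidHom r : K →* K).range < n := by
      have hpos : 0 < Nat.card (powMonoidHom r : K →* K).range := Nat.card_pos
      nlinarith
    have hrange_sq : IsSquare (Nat.card (powMonoidHom r : K →* K).range) := by
      obtain ⟨h1, h2, h3⟩ := hrel _ hiS
      exact ih _ hrange_lt ↥(powMonoidHom r : K →* K).range _ _ h1 h2 h3 hodd2 rfl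
    rw [← hmul]
    exact hker_sq.mul hrange_sq

theorem sq_of_comm {K : Type u} [Group K] [Finite K] (hcomm : ∀ x y : K, x * y = y * x)
    (i j : K →* K)
    (hi : ∀ x, i (i x) = x⁻¹) (hj : ∀ x, j (j x) = x⁻¹) (hij : ∀ x, i (j x) = (j (i x))⁻¹)
    (hodd : Odd (Nat.card K)) : IsSquare (Nat.card K) := by
  letI : CommGroup K := { (inferInstance : Group K) with mul_comm := hcomm }
  exact sq_aux (Nat.card K) K i j hi hj hij hodd rfl

theorem frob_facts {L : Type*} [Group L] [Finite L] (H : Subgroup L)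
    (hF : Cfsg.IsFrobeniusComplement H) :
    ∃ N : Subgroup L, (N : Set L) = Cfsg.frobeniusKernel H ∧ N.Normal ∧ N.IsComplement' H ∧
      N ≠ ⊥ ∧ (∀ h ∈ H, h ≠ 1 → ∀ x ∈ N, h * x = x * h → x = 1) := by
  obtain ⟨N, hN, hNn, hNc⟩ := Cfsg.Agent.S0035.result H hF
  refine ⟨N, hN, hNn, hNc, ?_, ?_⟩
  · intro hbot
    apply hF.2.1
    apply Subgroup.eq_top_of_card_eq
    have h1 := hNc.card_mul_card
    rw [hbot, Subgroup.card_bot, one_mul] at h1
    exact h1
  · intro h hh hh1 x hx hcomm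
    by_contra hx1
    have hxH : x ∉ H := by
      intro hxH
      exact hx1 (Subgroup.disjoint_def.mp hNc.disjoint hx hxH)
    have h3 := hF.2.2 x hxH
    have h4 : h ∈ H ⊓ MulAut.conj x • H := by
      apply Subgroup.mem_inf.mpr
      refine ⟨hh, ?_⟩
      rw [Cfsg.Agent.S4620.mem_conj]
      have e : x⁻¹ * h * x = h := by
        rw [mul_assoc, hcomm, inv_mul_cancel_left]
      rw [e]
      exact hh
    rw [h3, Subgroup.mem_bot] at h4
    exact hh1 h4

theorem inv_of_involution {L : Type*} [Group L] [Finite L] (N : Subgroup L) [N.Normal] (z : L)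
    (hz2 : z * z = 1) (hfpf : ∀ x ∈ N, z * x = x * z → x = 1) :
    ∀ x ∈ N, z * x * z⁻¹ = x⁻¹ := by
  have hNn : N.Normal := inferInstance
  have hzinv : z⁻¹ = z := inv_eq_of_mul_eq_one_right hz2
  let f : ↥N → ↥N := fun x => ⟨(x : L)⁻¹ * (z * x * z⁻¹),
    N.mul_mem (N.inv_mem x.2) (hNn.conj_mem _ x.2 z)⟩
  have hf : Function.Injective f := by
    intro x y hxy
    have h1 : (x : L)⁻¹ * (z * x * z⁻¹) = (y : L)⁻¹ * (z * y * z⁻¹) := congrArg Subtype.val hxy
    have h2 : z * ((x : L) * (y : L)⁻¹) = ((x : L) * (y : L)⁻¹) * z := by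
      have h3 : (x : L)⁻¹ * z * x = (y : L)⁻¹ * z * y := by
        have h4 := congrArg (fun t => t * z) h1
        simp only [mul_assoc, inv_mul_cancel, mul_one] at h4
        simp only [mul_assoc]
        exact h4
      calc z * ((x : L) * (y : L)⁻¹) = x * ((x : L)⁻¹ * z * x) * (y : L)⁻¹ := by group
        _ = x * ((y : L)⁻¹ * z * y) * (y : L)⁻¹ := by rw [h3]
        _ = ((x : L) * (y : L)⁻¹) * z := by group
    have h5 := hfpf _ (N.mul_mem x.2 (N.inv_mem y.2)) h2
    apply Subtype.ext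
    exact mul_inv_eq_one.mp h5
  have hsurj : Function.Surjective f := Finite.injective_iff_surjective.mp hf
  intro x hx
  obtain ⟨y, hy⟩ := hsurj ⟨x, hx⟩
  have hy' : (y : L)⁻¹ * (z * y * z⁻¹) = x := congrArg Subtype.val hy
  rw [← hy', hzinv]
  have e1 : z * ((y : L)⁻¹ * (z * y * z)) * z = z * (y : L)⁻¹ * z * y * (z * z) := by group
  have e2 : ((y : L)⁻¹ * (z * y * z))⁻¹ = z⁻¹ * (y : L)⁻¹ * z⁻¹ * y := by group
  rw [e1, e2, hz2, mul_one, hzinv]

theorem quat_kernel_sq {L : Type u} [Group L] [Finite L] (H : Subgroup L)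
    (hF : Cfsg.IsFrobeniusComplement H)
    (i j : L) (hiH : i ∈ H) (hz1 : i * i ≠ 1) (hz2 : (i * i) * (i * i) = 1)
    (hij : j * j = i * i) (hc : j * i * j⁻¹ = i⁻¹) :
    Odd (Nat.card (Cfsg.frobeniusKernel H)) ∧ IsSquare (Nat.card (Cfsg.frobeniusKernel H)) ∧
      1 < Nat.card (Cfsg.frobeniusKernel H) := by
  obtain ⟨N, hN, hNn, hNc, hNbot, hfpf⟩ := frob_facts H hF
  haveI := hNn
  have hcard : Nat.card (Cfsg.frobeniusKernel H) = Nat.card N := by
    rw [← hN]
    rfl
  rw [hcard]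
  have hzH : i * i ∈ H := H.mul_mem hiH hiH
  have hinv : ∀ x ∈ N, (i * i) * x * (i * i)⁻¹ = x⁻¹ :=
    inv_of_involution N (i * i) hz2 (fun x hx hcm => hfpf (i * i) hzH hz1 x hx hcm)
  have hcomm : ∀ x y : ↥N, x * y = y * x := by
    intro x y
    apply Subtype.ext
    have h1 := hinv _ (N.mul_mem x.2 y.2)
    have h2 := hinv _ x.2
    have h3 := hinv _ y.2
    have h4 : (i * i) * ((x : L) * y) * (i * i)⁻¹ =
        ((i * i) * x * (i * i)⁻¹) * ((i * i) * y * (i * i)⁻¹) := by group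
    rw [h4, h2, h3] at h1
    have h5 : ((x : L)⁻¹ * (y : L)⁻¹)⁻¹ = (((x : L) * y)⁻¹)⁻¹ := by rw [h1]
    rw [mul_inv_rev, inv_inv, inv_inv, inv_inv] at h5
    exact h5.symm
  have hodd : Odd (Nat.card N) := by
    rw [← Nat.not_even_iff_odd, even_iff_two_dvd]
    intro h2
    haveI : Fact (Nat.Prime 2) := ⟨Nat.prime_two⟩
    obtain ⟨x, hx⟩ := exists_prime_orderOf_dvd_card' (G := ↥N) 2 h2
    have hx2 : (x : L) * x = 1 := by
      have h3 : x ^ 2 = 1 := by
        rw [← hx]
        exact pow_orderOf_eq_one x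
      have h4 := congrArg Subtype.val h3
      rw [Subgroup.coe_pow, pow_two] at h4
      exact h4
    have hxinv : (x : L)⁻¹ = x := inv_eq_of_mul_eq_one_right hx2
    have h5 := hinv x x.2
    rw [hxinv] at h5
    have h6 : (i * i) * (x : L) = x * (i * i) := by
      calc (i * i) * (x : L) = ((i * i) * x * (i * i)⁻¹) * (i * i) := by group
        _ = x * (i * i) := by rw [h5]
    have h7 := hfpf (i * i) hzH hz1 x x.2 h6
    have h8 : x = 1 := Subtype.ext h7
    rw [h8, orderOf_one] at hx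
    omega
  refine ⟨hodd, ?_, (Subgroup.one_lt_card_iff_ne_bot N).mpr hNbot⟩
  have hinv' : ∀ y : ↥N, MulAut.conjNormal (i * i) y = y⁻¹ := by
    intro y
    apply Subtype.ext
    rw [MulAut.conjNormal_apply]
    exact hinv y y.2
  have hji : j * i = (i * i) * (i * j) := by
    have h1 : j * i = i⁻¹ * j := by
      calc j * i = (j * i * j⁻¹) * j := by group
        _ = i⁻¹ * j := by rw [hc]
    have h2 : i⁻¹ = i * i * i := by
      apply inv_eq_of_mul_eq_one_right
      calc i * (i * i * i) = (i * i) * (i * i) := by group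
        _ = 1 := hz2
    rw [h1, h2]
    group
  have hci : ∀ y : ↥N, MulAut.conjNormal i (MulAut.conjNormal i y) = y⁻¹ := by
    intro y
    rw [← MulAut.mul_apply, ← map_mul]
    exact hinv' y
  have hcj : ∀ y : ↥N, MulAut.conjNormal j (MulAut.conjNormal j y) = y⁻¹ := by
    intro y
    rw [← MulAut.mul_apply, ← map_mul, hij]
    exact hinv' y
  have hcij : ∀ y : ↥N, MulAut.conjNormal i (MulAut.conjNormal j y) =
      (MulAut.conjNormal j (MulAut.conjNormal i y))⁻¹ := by
    intro y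
    have e3 := congrArg (fun g => (MulAut.conjNormal g : MulAut ↥N) y) hji
    simp only [map_mul, MulAut.mul_apply] at e3
    rw [e3, hci, inv_inv]
  exact sq_of_comm hcomm (MulAut.conjNormal i : MulAut ↥N).toMonoidHom
    (MulAut.conjNormal j : MulAut ↥N).toMonoidHom hci hcj hcij hodd

theorem result {L : Type*} [Group L] [Finite L] (H : Subgroup L) (hF : Cfsg.IsFrobeniusComplement H)
    (hZ : ∃ (p : ℕ) (_ : Fact p.Prime) (P : Sylow p H), ¬ IsCyclic P) :
    Odd (Nat.card (Cfsg.frobeniusKernel H)) ∧ IsSquare (Nat.card (Cfsg.frobeniusKernel H)) := by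
  classical
  obtain ⟨p, hp, P, hP⟩ := hZ
  obtain ⟨N, hN, hNn, hNc, hNbot, hfpf⟩ := frob_facts H hF
  haveI := hNn
  have hfpf' : ∀ h ∈ H, h ≠ 1 → N ⊓ Subgroup.centralizer {h} = ⊥ := by
    intro h hh hh1
    rw [eq_bot_iff]
    rintro x ⟨hxN, hxc⟩
    rw [Subgroup.mem_bot]
    apply hfpf h hh hh1 x hxN
    exact Subgroup.mem_centralizer_iff.mp hxc h rfl
  rcases Cfsg.Agent.S0040.result N H hNc hNbot hfpf' p P with hcyc | ⟨n, ⟨e⟩⟩
  · exact absurd hcyc hP
  · have hn1 : 1 ≤ n := by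
      by_contra h0
      have h0' : n = 0 := by omega
      subst h0'
      apply hP
      have h1 : IsCyclic (QuaternionGroup (2 ^ 0)) := by
        rw [pow_zero]
        exact QuaternionGroup.quaternionGroup_one_isCyclic
      exact e.isCyclic.mpr h1
    obtain ⟨k, rfl⟩ : ∃ k, n = k + 1 := ⟨n - 1, by omega⟩
    haveI : NeZero (2 ^ (k + 1)) := ⟨by positivity⟩
    have hq1 : (QuaternionGroup.a ((2 ^ k : ℕ) : ZMod (2 * 2 ^ (k + 1))) :
          QuaternionGroup (2 ^ (k + 1))) *
        QuaternionGroup.a ((2 ^ k : ℕ) : ZMod (2 * 2 ^ (k + 1))) =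
        QuaternionGroup.a ((2 ^ (k + 1) : ℕ) : ZMod (2 * 2 ^ (k + 1))) := by
      rw [QuaternionGroup.a_mul_a]
      congr 1
      push_cast
      ring
    have hq2 : (QuaternionGroup.a ((2 ^ (k + 1) : ℕ) : ZMod (2 * 2 ^ (k + 1))) :
        QuaternionGroup (2 ^ (k + 1))) ≠ 1 := by
      intro h
      rw [QuaternionGroup.one_def] at h
      have h1 : ((2 ^ (k + 1) : ℕ) : ZMod (2 * 2 ^ (k + 1))) = 0 := QuaternionGroup.a.inj h
      rw [ZMod.natCast_eq_zero_iff] at h1
      have h2 := Nat.le_of_dvd (by positivity) h1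
      have h3 : 0 < 2 ^ (k + 1) := by positivity
      omega
    have hq3 : (QuaternionGroup.a ((2 ^ (k + 1) : ℕ) : ZMod (2 * 2 ^ (k + 1))) :
          QuaternionGroup (2 ^ (k + 1))) *
        QuaternionGroup.a ((2 ^ (k + 1) : ℕ) : ZMod (2 * 2 ^ (k + 1))) = 1 := by
      rw [QuaternionGroup.a_mul_a, QuaternionGroup.one_def]
      congr 1
      have h6 : ((2 * 2 ^ (k + 1) : ℕ) : ZMod (2 * 2 ^ (k + 1))) = 0 := ZMod.natCast_self _
      rw [← h6]
      push_cast
      ring
    have hq4 : (QuaternionGroup.xa 0 : QuaternionGroup (2 ^ (k + 1))) * QuaternionGroup.xa 0 =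
        QuaternionGroup.a ((2 ^ (k + 1) : ℕ) : ZMod (2 * 2 ^ (k + 1))) := by
      rw [QuaternionGroup.xa_mul_xa]
      congr 1
      ring
    have hq5 : (QuaternionGroup.xa 0 : QuaternionGroup (2 ^ (k + 1))) *
        QuaternionGroup.a ((2 ^ k : ℕ) : ZMod (2 * 2 ^ (k + 1))) * (QuaternionGroup.xa 0)⁻¹ =
        (QuaternionGroup.a ((2 ^ k : ℕ) : ZMod (2 * 2 ^ (k + 1))))⁻¹ := by
      have h1 : (QuaternionGroup.a ((2 ^ k : ℕ) : ZMod (2 * 2 ^ (k + 1))) :
            QuaternionGroup (2 ^ (k + 1))) *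
          ((QuaternionGroup.xa 0 : QuaternionGroup (2 ^ (k + 1))) *
            QuaternionGroup.a ((2 ^ k : ℕ) : ZMod (2 * 2 ^ (k + 1)))) = QuaternionGroup.xa 0 := by
        rw [QuaternionGroup.xa_mul_a, QuaternionGroup.a_mul_xa]
        congr 1
        ring
      rw [mul_inv_eq_iff_eq_mul, ← eq_inv_mul_iff_mul_eq.mpr h1]
    let ψ : QuaternionGroup (2 ^ (k + 1)) →* L :=
      H.subtype.comp ((P : Subgroup ↥H).subtype.comp e.symm.toMonoidHom)
    have hψinj : Function.Injective ψ := by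
      intro x y hxy
      apply e.symm.injective
      apply Subtype.ext
      apply Subtype.ext
      exact hxy
    have hψH : ∀ x, ψ x ∈ H := fun x => ((e.symm x : ↥(P : Subgroup ↥H)) : ↥H).2
    have hres := quat_kernel_sq H hF
      (ψ (QuaternionGroup.a ((2 ^ k : ℕ) : ZMod (2 * 2 ^ (k + 1)))))
      (ψ (QuaternionGroup.xa 0)) (hψH _) (by
        rw [← map_mul, hq1]
        intro h
        apply hq2
        apply hψinj
        rw [h, map_one]) (by
        rw [← map_mul, hq1, ← map_mul, hq3, map_one]) (by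
        rw [← map_mul, ← map_mul, hq4, hq1]) (by
        rw [← map_inv, ← map_inv, ← map_mul, ← map_mul, hq5])
    exact ⟨hres.1, hres.2.1⟩

end Cfsg.Agent.S4296
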