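import Cfsg.Statements.S4295

import Mathlib
import Cfsg.Agent.S4296
import Cfsg.Agent.S0034
import Cfsg.Agent.Lib.Helper1.Quat
import Cfsg.Agent.Lib.Helper7.Frob

set_option autoImplicit false
open Cfsg
open scoped Pointwise

namespace Cfsg.Agent.S4295

abbrev RR (n : ℕ) : Type := ∀ t : Fin n.primeFactorsList.length, ZMod (n.primeFactorsList.get t)

def Iaut (n : ℕ) : (RR n × RR n) ≃+ (RR n × RR n) where
  toFun v := (-v.2, v.1)
  invFun v := (v.2, -v.1)
  left_inv v := Prod.ext rfl (neg_neg _)
  right_inv v := Prod.ext (neg_neg _) rfl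
  map_add' v w := Prod.ext (neg_add _ _) rfl

def Xaut (n : ℕ) (a b : RR n) (hab : a * a + b * b = -1) : (RR n × RR n) ≃+ (RR n × RR n) where
  toFun v := (a * v.1 + b * v.2, b * v.1 - a * v.2)
  invFun v := (-(a * v.1 + b * v.2), -(b * v.1 - a * v.2))
  left_inv v := by
    apply Prod.ext
    · show -(a * (a * v.1 + b * v.2) + b * (b * v.1 - a * v.2)) = v.1
      linear_combination (-v.1) * hab
    · show -(b * (a * v.1 + b * v.2) - a * (b * v.1 - a * v.2)) = v.2
      linear_combination (-v.2) * hab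
  right_inv v := by
    apply Prod.ext
    · show a * (-(a * v.1 + b * v.2)) + b * (-(b * v.1 - a * v.2)) = v.1
      linear_combination (-v.1) * hab
    · show b * (-(a * v.1 + b * v.2)) - a * (-(b * v.1 - a * v.2)) = v.2
      linear_combination (-v.2) * hab
  map_add' v w := by
    apply Prod.ext
    · show a * (v.1 + w.1) + b * (v.2 + w.2) = (a * v.1 + b * v.2) + (a * w.1 + b * w.2)
      ring
    · show b * (v.1 + w.1) - a * (v.2 + w.2) = (b * v.1 - a * v.2) + (b * w.1 - a * w.2)
      ring

theorem Iaut_sq (n : ℕ) (v : RR n × RR n) : Iaut n (Iaut n v) = -v := Prod.ext rfl rfl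

theorem Xaut_sq (n : ℕ) (a b : RR n) (hab : a * a + b * b = -1) (v : RR n × RR n) :
    Xaut n a b hab (Xaut n a b hab v) = -v := by
  apply Prod.ext
  · show a * (a * v.1 + b * v.2) + b * (b * v.1 - a * v.2) = -v.1
    linear_combination v.1 * hab
  · show b * (a * v.1 + b * v.2) - a * (b * v.1 - a * v.2) = -v.2
    linear_combination v.2 * hab

theorem IXI (n : ℕ) (a b : RR n) (hab : a * a + b * b = -1) (v : RR n × RR n) :
    Iaut n (Xaut n a b hab (Iaut n v)) = Xaut n a b hab v := by
  apply Prod.ext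
  · show -(b * (-v.2) - a * v.1) = a * v.1 + b * v.2
    ring
  · show a * (-v.2) + b * v.1 = b * v.1 - a * v.2
    ring

def Ia (n : ℕ) : MulAut (Multiplicative (RR n × RR n)) := AddEquiv.toMultiplicative (Iaut n)

def Xa (n : ℕ) (a b : RR n) (hab : a * a + b * b = -1) :
    MulAut (Multiplicative (RR n × RR n)) := AddEquiv.toMultiplicative (Xaut n a b hab)

theorem Ia_apply (n : ℕ) (v : Multiplicative (RR n × RR n)) :
    Ia n v = Multiplicative.ofAdd (Iaut n (Multiplicative.toAdd v)) := rfl

theorem Xa_apply (n : ℕ) (a b : RR n) (hab : a * a + b * b = -1)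
    (v : Multiplicative (RR n × RR n)) :
    Xa n a b hab v = Multiplicative.ofAdd (Xaut n a b hab (Multiplicative.toAdd v)) := rfl

theorem Ia_sq (n : ℕ) (v : Multiplicative (RR n × RR n)) : Ia n (Ia n v) = v⁻¹ := by
  rw [Ia_apply, Ia_apply, toAdd_ofAdd, Iaut_sq]
  rfl

theorem Xa_sq (n : ℕ) (a b : RR n) (hab : a * a + b * b = -1)
    (v : Multiplicative (RR n × RR n)) : Xa n a b hab (Xa n a b hab v) = v⁻¹ := by
  rw [Xa_apply, Xa_apply, toAdd_ofAdd, Xaut_sq]
  rfl

theorem IXI' (n : ℕ) (a b : RR n) (hab : a * a + b * b = -1)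
    (v : Multiplicative (RR n × RR n)) : Ia n (Xa n a b hab (Ia n v)) = Xa n a b hab v := by
  rw [Ia_apply, Ia_apply, Xa_apply, Xa_apply, toAdd_ofAdd, toAdd_ofAdd, IXI]

theorem q8_facts : ∀ q : QuaternionGroup 2, q ≠ 1 →
    q * q = QuaternionGroup.a 1 * QuaternionGroup.a 1 ∨
      q = QuaternionGroup.a 1 * QuaternionGroup.a 1 := by
  decide

theorem construct (n : ℕ) (hn1 : 1 < n) (hodd : Odd n) :
    ∃ (L : Type) (_ : Group L) (_ : Finite L) (H : Subgroup L), Cfsg.IsFrobeniusComplement H ∧
        Nonempty (H ≃* QuaternionGroup 2) ∧ Nat.card (Cfsg.frobeniusKernel H) = n * n := by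
  classical
  have hprime : ∀ t : Fin n.primeFactorsList.length, (n.primeFactorsList.get t).Prime :=
    fun t => Nat.prime_of_mem_primeFactorsList (List.get_mem _ t)
  have hoddp : ∀ t : Fin n.primeFactorsList.length, n.primeFactorsList.get t ≠ 2 := by
    intro t h2
    have hdvd : n.primeFactorsList.get t ∣ n :=
      Nat.dvd_of_mem_primeFactorsList (List.get_mem _ t)
    rw [h2] at hdvd
    exact (Nat.not_even_iff_odd.mpr hodd) (even_iff_two_dvd.mpr hdvd)
  haveI hfact : ∀ t : Fin n.primeFactorsList.length, Fact (n.primeFactorsList.get t).Prime :=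
    fun t => ⟨hprime t⟩
  haveI hne : ∀ t : Fin n.primeFactorsList.length, NeZero (n.primeFactorsList.get t) :=
    fun t => ⟨(hprime t).ne_zero⟩
  haveI hfinR : Finite (RR n) := inferInstance
  have hcardR : Nat.card (RR n) = n := by
    rw [Nat.card_pi]
    have h1 : ∀ t : Fin n.primeFactorsList.length,
        Nat.card (ZMod (n.primeFactorsList.get t)) = n.primeFactorsList.get t :=
      fun t => Nat.card_zmod _
    rw [Finset.prod_congr rfl (fun t _ => h1 t), ← List.prod_ofFn, List.ofFn_get]
    exact Nat.prod_primeFactorsList (by omega)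
  obtain ⟨a, b, hab⟩ : ∃ a b : RR n, a * a + b * b = -1 := by
    have h : ∀ t : Fin n.primeFactorsList.length,
        ∃ a b : ZMod (n.primeFactorsList.get t), a ^ 2 + b ^ 2 = -1 :=
      fun t => ZMod.sq_add_sq _ (-1)
    choose a b hab using h
    refine ⟨a, b, ?_⟩
    funext t
    have h0 := hab t
    show a t * a t + b t * b t = -1
    rw [← h0]
    ring
  have h2tor : ∀ x : RR n, -x = x → x = 0 := by
    intro x hx
    funext t
    have h1 : -(x t) = x t := congrFun hx t
    have h3 : (2 : ZMod (n.primeFactorsList.get t)) * x t = 0 := by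
      have h0 : x t + x t = 0 := by
        nth_rewrite 1 [← h1]
        exact neg_add_cancel _
      rw [two_mul]
      exact h0
    rcases mul_eq_zero.mp h3 with h4 | h4
    · exfalso
      have h5 : ((2 : ℕ) : ZMod (n.primeFactorsList.get t)) = 0 := by exact_mod_cast h4
      rw [ZMod.natCast_eq_zero_iff] at h5
      exact hoddp t ((Nat.prime_dvd_prime_iff_eq (hprime t) Nat.prime_two).mp h5)
    · exact h4
  have h2torV : ∀ v : RR n × RR n, -v = v → v = 0 := by
    intro v hv
    apply Prod.ext
    · exact h2tor v.1 (congrArg Prod.fst hv)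
    · exact h2tor v.2 (congrArg Prod.snd hv)
  have h2torM : ∀ v : Multiplicative (RR n × RR n), v⁻¹ = v → v = 1 := by
    intro v hv
    have h0 := h2torV (Multiplicative.toAdd v) (congrArg Multiplicative.toAdd hv)
    exact congrArg Multiplicative.ofAdd h0
  have h4 : Ia n ^ (2 * 2) = 1 := by
    apply MulEquiv.ext
    intro v
    rw [pow_mul, pow_two, pow_two]
    show Ia n (Ia n (Ia n (Ia n v))) = v
    rw [Ia_sq, Ia_sq, inv_inv]
  have hb : Xa n a b hab * Xa n a b hab = Ia n ^ 2 := by
    apply MulEquiv.ext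
    intro v
    rw [pow_two]
    show Xa n a b hab (Xa n a b hab v) = Ia n (Ia n v)
    rw [Xa_sq, Ia_sq]
  have hc : Xa n a b hab * Ia n * (Xa n a b hab)⁻¹ = (Ia n)⁻¹ := by
    have h1 : Ia n * (Xa n a b hab * Ia n) = Xa n a b hab := by
      apply MulEquiv.ext
      intro v
      exact IXI' n a b hab v
    rw [mul_inv_eq_iff_eq_mul, ← eq_inv_mul_iff_mul_eq.mpr h1]
  have hφa : Cfsg.Agent.Lib.Helper1.Quat.quatHom 2 (Ia n)
      (Xa n a b hab) h4 hb hc (QuaternionGroup.a 1) = Ia n := by
    rw [Cfsg.Agent.Lib.Helper1.Quat.quatHom_a]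
    have h0 := Cfsg.Agent.Lib.Helper1.Quat.qp_natCast (2 * 2) (Ia n) h4 1
    rw [Nat.cast_one, pow_one] at h0
    exact h0
  have hφz : ∀ v : Multiplicative (RR n × RR n), Cfsg.Agent.Lib.Helper1.Quat.quatHom 2
      (Ia n) (Xa n a b hab) h4 hb hc
      (QuaternionGroup.a 1 * QuaternionGroup.a 1) v = v⁻¹ := by
    intro v
    rw [map_mul, hφa]
    exact Ia_sq n v
  haveI hfinV : Finite (Multiplicative (RR n × RR n)) :=
    Finite.of_equiv (RR n × RR n) Multiplicative.ofAdd
  have hcardV : Nat.card (Multiplicative (RR n × RR n)) = n * n := by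
    rw [Nat.card_congr (Multiplicative.toAdd (α := RR n × RR n)), Nat.card_prod, hcardR]
  haveI hntV : Nontrivial (Multiplicative (RR n × RR n)) := by
    rw [← Finite.one_lt_card_iff_nontrivial, hcardV]
    nlinarith
  haveI hntQ : Nontrivial (QuaternionGroup 2) := inferInstance
  let φ : QuaternionGroup 2 →* MulAut (Multiplicative (RR n × RR n)) :=
    Cfsg.Agent.Lib.Helper1.Quat.quatHom 2 (Ia n) (Xa n a b hab) h4 hb hc
  have hφ : ∀ q : QuaternionGroup 2, q ≠ 1 → ∀ v : Multiplicative (RR n × RR n),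
      φ q v = v → v = 1 := by
    intro q hq v hv
    apply h2torM
    rcases q8_facts q hq with h | h
    · rw [← hφz, ← h, map_mul]
      show φ q (φ q v) = v
      rw [hv, hv]
    · rw [← hφz, ← h]
      exact hv
  have hF := Cfsg.Agent.Lib.Helper7.Frob.frob_semidirect φ hφ
  haveI hfinG : Finite (Multiplicative (RR n × RR n) ⋊[φ] QuaternionGroup 2) :=
    Finite.of_equiv (Multiplicative (RR n × RR n) × QuaternionGroup 2)
      SemidirectProduct.equivProd.symm
  refine ⟨Multiplicative (RR n × RR n) ⋊[φ] QuaternionGroup 2, inferInstance, hfinG,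
    (SemidirectProduct.inr : QuaternionGroup 2 →*
      Multiplicative (RR n × RR n) ⋊[φ] QuaternionGroup 2).range, hF,
    ⟨(MonoidHom.ofInjective SemidirectProduct.inr_injective).symm⟩, ?_⟩
  rw [(Cfsg.Agent.S0034.result _ hF).1]
  have hcardH : Nat.card (SemidirectProduct.inr : QuaternionGroup 2 →*
      Multiplicative (RR n × RR n) ⋊[φ] QuaternionGroup 2).range = 8 := by
    rw [← Nat.card_congr (MonoidHom.ofInjective
      (SemidirectProduct.inr_injective (φ := φ))).toEquiv, Nat.card_eq_fintype_card,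
      QuaternionGroup.card]
  have hcardG : Nat.card (Multiplicative (RR n × RR n) ⋊[φ] QuaternionGroup 2) = n * n * 8 := by
    rw [Nat.card_congr (SemidirectProduct.equivProd (φ := φ)), Nat.card_prod, hcardV,
      Nat.card_eq_fintype_card (α := QuaternionGroup 2), QuaternionGroup.card]
  have hmul := Subgroup.card_mul_index (SemidirectProduct.inr : QuaternionGroup 2 →*
      Multiplicative (RR n × RR n) ⋊[φ] QuaternionGroup 2).range
  rw [hcardH, hcardG] at hmul
  omega

theorem result (m : ℕ) :
    (∃ (L : Type) (_ : Group L) (_ : Finite L) (H : Subgroup L), Cfsg.IsFrobeniusComplement H ∧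
        Nonempty (H ≃* QuaternionGroup 2) ∧ Nat.card (Cfsg.frobeniusKernel H) = m) ↔
    (Odd m ∧ IsSquare m ∧ 1 < m) := by
  constructor
  · rintro ⟨L, instG, instF, H, hF, ⟨e⟩, hm⟩
    have hψinj : Function.Injective (H.subtype.comp e.symm.toMonoidHom) := by
      intro x y hxy
      apply e.symm.injective
      apply Subtype.ext
      exact hxy
    have hres := Cfsg.Agent.S4296.quat_kernel_sq H hF
      ((H.subtype.comp e.symm.toMonoidHom) (QuaternionGroup.a 1))
      ((H.subtype.comp e.symm.toMonoidHom) (QuaternionGroup.xa 0)) (e.symm _).2 (by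
        rw [← map_mul]
        intro h
        have h1 : (QuaternionGroup.a 1 * QuaternionGroup.a 1 : QuaternionGroup 2) = 1 := by
          apply hψinj
          rw [h, map_one]
        revert h1
        decide) (by
        rw [← map_mul, ← map_mul]
        have h1 : ((QuaternionGroup.a 1 * QuaternionGroup.a 1) *
            (QuaternionGroup.a 1 * QuaternionGroup.a 1) : QuaternionGroup 2) = 1 := by decide
        rw [h1, map_one]) (by
        rw [← map_mul, ← map_mul]
        have h1 : (QuaternionGroup.xa 0 * QuaternionGroup.xa 0 : QuaternionGroup 2) =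
            QuaternionGroup.a 1 * QuaternionGroup.a 1 := by decide
        rw [h1]) (by
        rw [← map_inv, ← map_inv, ← map_mul, ← map_mul]
        have h1 : (QuaternionGroup.xa 0 * QuaternionGroup.a 1 * (QuaternionGroup.xa 0)⁻¹ :
            QuaternionGroup 2) = (QuaternionGroup.a 1)⁻¹ := by decide
        rw [h1])
    rw [hm] at hres
    exact ⟨hres.1, hres.2.1, hres.2.2⟩
  · rintro ⟨hodd, ⟨n, hn⟩, hm1⟩
    subst hn
    have hoddn : Odd n := (Nat.odd_mul.mp hodd).1
    have hn1 : 1 < n := by
      by_contra h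
      have h' : n ≤ 1 := by omega
      have h2 : n * n ≤ 1 := by nlinarith
      omega
    exact construct n hn1 hoddn

end Cfsg.Agent.S4295
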