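import Cfsg.Statements.S4314

import Mathlib
import Cfsg.Agent.S4584

set_option autoImplicit false
open Cfsg
open scoped Pointwise

namespace Cfsg.Agent.S4314

universe u
open Subgroup
open scoped commutatorElement

lemma self_centralizing {G : Type u} [Group G] [Finite G] (H N : Subgroup G) (hN : N = H.normalCore)
    [N.Normal] (p : ℕ) (hp : p.Prime)
    (hidx : H.index = p) (u c : G) (hup : u ^ p ∈ N) (hu : u ∉ N)
    (hc : (c * u)⁻¹ * (u * c) ∈ N) : ∃ j : ℤ, (u ^ j)⁻¹ * c ∈ N := by
  have hmem : ∀ n : G, n ∈ N ↔ ∀ ω : G ⧸ H, n • ω = ω := by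
    intro n
    rw [hN, Subgroup.normalCore_eq_ker, MonoidHom.mem_ker]
    constructor
    · intro h ω
      have := congrArg (fun σ : Equiv.Perm (G ⧸ H) => σ ω) h
      simpa using this
    · intro h
      ext ω
      simpa using h ω
  obtain ⟨ω₀, hω₀⟩ : ∃ ω₀ : G ⧸ H, u • ω₀ ≠ ω₀ := by
    by_contra hcon
    push_neg at hcon
    exact hu ((hmem u).mpr hcon)
  have hper : Function.minimalPeriod (fun ω : G ⧸ H => u • ω) ω₀ = p := by
    have h1 : Function.IsPeriodicPt (fun ω : G ⧸ H => u • ω) p ω₀ := by
      unfold Function.IsPeriodicPt Function.IsFixedPt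
      rw [smul_iterate]
      exact (hmem _).mp hup ω₀
    have h2 := h1.minimalPeriod_dvd
    rcases (Nat.dvd_prime hp).mp h2 with h3 | h3
    · exfalso
      rw [Function.minimalPeriod_eq_one_iff_isFixedPt] at h3
      exact hω₀ h3
    · exact h3
  have horb : ∀ ω : G ⧸ H, ∃ i : ℤ, u ^ i • ω₀ = ω := by
    have hcard : Nat.card (MulAction.orbit (zpowers u) ω₀) = p := by
      have h1 := Nat.card_congr (MulAction.orbitZPowersEquiv u ω₀)
      rw [Nat.card_zmod, hper] at h1
      exact h1
    have huniv : MulAction.orbit (zpowers u) ω₀ = Set.univ := by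
      apply Set.eq_of_subset_of_ncard_le (Set.subset_univ _)
      rw [Set.ncard_univ, ← Nat.card_coe_set_eq, hcard]
      exact le_of_eq hidx
    intro ω
    have : ω ∈ MulAction.orbit (zpowers u) ω₀ := by rw [huniv]; trivial
    obtain ⟨⟨z, hz⟩, hzω⟩ := this
    obtain ⟨i, rfl⟩ := Subgroup.mem_zpowers_iff.mp hz
    exact ⟨i, hzω⟩
  obtain ⟨j, hj⟩ := horb (c • ω₀)
  refine ⟨j, ?_⟩
  rw [hmem]
  intro ω
  obtain ⟨i, rfl⟩ := horb ω
  have hd0 : ((u ^ j)⁻¹ * c) • ω₀ = ω₀ := by
    rw [mul_smul, ← hj, smul_smul, inv_mul_cancel, one_smul]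
  have hcomm : (u ^ i * ((u ^ j)⁻¹ * c))⁻¹ * (((u ^ j)⁻¹ * c) * u ^ i) ∈ N := by
    have h1 : ((c : G) : G ⧸ N) * (u : G ⧸ N) = (u : G ⧸ N) * (c : G ⧸ N) := by
      rw [← QuotientGroup.mk_mul, ← QuotientGroup.mk_mul]
      exact QuotientGroup.eq.mpr hc
    have h2 : Commute ((c : G) : G ⧸ N) (u : G ⧸ N) := h1
    have h3 : Commute (((u ^ j)⁻¹ * c : G) : G ⧸ N) ((u ^ i : G) : G ⧸ N) := by
      rw [QuotientGroup.mk_mul, QuotientGroup.mk_inv, QuotientGroup.mk_zpow, QuotientGroup.mk_zpow]
      exact (((Commute.refl _).zpow_left j).inv_left.mul_left h2).zpow_right i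
    apply QuotientGroup.eq.mp
    rw [QuotientGroup.mk_mul, QuotientGroup.mk_mul]
    exact h3.eq.symm
  have hn := (hmem _).mp hcomm ω₀
  calc ((u ^ j)⁻¹ * c) • u ^ i • ω₀ = (((u ^ j)⁻¹ * c) * u ^ i) • ω₀ := (mul_smul _ _ _).symm
    _ = (u ^ i * ((u ^ j)⁻¹ * c) * ((u ^ i * ((u ^ j)⁻¹ * c))⁻¹ * (((u ^ j)⁻¹ * c) * u ^ i))) • ω₀ := by
        congr 1; group
    _ = u ^ i • ω₀ := by rw [mul_smul, hn, mul_smul, hd0]

lemma cls_dvd {G : Type u} [Group G] [Finite G] (N : Subgroup G) [N.Normal] (g : G) :
    (centralizer ({(g : G ⧸ N)} : Set (G ⧸ N))).index ∣ (centralizer ({g} : Set G)).index := by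
  have hle : (centralizer ({g} : Set G)).map (QuotientGroup.mk' N)
      ≤ centralizer ({(g : G ⧸ N)} : Set (G ⧸ N)) := by
    rintro _ ⟨c, hc0, rfl⟩
    have hc : c ∈ centralizer ({g} : Set G) := hc0
    rw [mem_centralizer_iff] at hc ⊢
    intro h hh
    rw [Set.mem_singleton_iff] at hh
    rw [hh]
    show (QuotientGroup.mk' N g) * (QuotientGroup.mk' N c) = (QuotientGroup.mk' N c) * (QuotientGroup.mk' N g)
    rw [← map_mul, ← map_mul, hc g (Set.mem_singleton g)]
  exact (index_dvd_of_le hle).trans (index_map_dvd _ (QuotientGroup.mk'_surjective N))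

theorem result {G : Type*} [Group G] [Finite G]
    (h : ∀ x : G, (Subgroup.centralizer ({x} : Set G)).index = 1 ∨ ((Subgroup.centralizer ({x} : Set G)).index).Prime) :
    Subgroup.upperCentralSeries G 2 = ⊤ ∨
      ∃ p q : ℕ, p.Prime ∧ q.Prime ∧ p ≠ q ∧ Nat.card (G ⧸ Subgroup.center G) = p * q ∧ ¬ IsMulCommutative (G ⧸ Subgroup.center G) := by
  classical
  by_cases hall : ∀ x : G, (Subgroup.centralizer ({x} : Set G)).Normal
  · left
    have hcomm : ∀ u v w : G, ⁅u, v⁆ ∈ centralizer ({w} : Set G) := by
      intro u v w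
      haveI := hall w
      have hcyc : IsCyclic (G ⧸ centralizer ({w} : Set G)) := by
        rcases h w with h1 | h1
        · haveI : Subsingleton (G ⧸ centralizer ({w} : Set G)) := by
            rw [index_eq_one] at h1
            rw [h1]
            exact QuotientGroup.subsingleton_quotient_top
          infer_instance
        · haveI : Fact ((centralizer ({w} : Set G)).index.Prime) := ⟨h1⟩
          exact isCyclic_of_prime_card (p := (centralizer ({w} : Set G)).index) rfl
      have hc := (IsCyclic.isMulCommutative (α := G ⧸ centralizer ({w} : Set G))).is_comm.comm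
      apply (QuotientGroup.eq_one_iff _).mp
      rw [commutatorElement_def]
      simp only [QuotientGroup.mk_mul, QuotientGroup.mk_inv]
      rw [hc (u : G ⧸ _) (v : G ⧸ _)]
      group
    rw [eq_top_iff]
    intro x _
    rw [show (2 : ℕ) = 1 + 1 from rfl, Subgroup.mem_upperCentralSeries_succ_iff]
    intro y
    rw [Subgroup.upperCentralSeries_one, mem_center_iff]
    intro w
    have := hcomm x y w
    rw [mem_centralizer_iff] at this
    exact this w (Set.mem_singleton w)
  · right
    push_neg at hall
    obtain ⟨x, hx⟩ := hall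
    obtain ⟨H, hH⟩ : ∃ H, H = centralizer ({x} : Set G) := ⟨_, rfl⟩
    rw [← hH] at hx
    have hHp : H.index.Prime := by
      rcases h x with h1 | h1
      · exfalso
        rw [← hH, index_eq_one] at h1
        rw [h1] at hx
        exact hx inferInstance
      · rw [hH]; exact h1
    obtain ⟨p, hp⟩ : ∃ p, p = H.index := ⟨_, rfl⟩
    obtain ⟨N, hN⟩ : ∃ N, N = H.normalCore := ⟨_, rfl⟩
    haveI hNn : N.Normal := by rw [hN]; infer_instance
    have hNH : N ≤ H := by rw [hN]; exact normalCore_le H
    have hpP : p.Prime := hp ▸ hHp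
    haveI : Fact p.Prime := ⟨hpP⟩
    have hcardΓ : Nat.card (G ⧸ N) = N.relIndex H * p := by
      rw [hp]; exact (relIndex_mul_index hNH).symm
    obtain ⟨ubar, hubar⟩ := exists_prime_orderOf_dvd_card' (G := G ⧸ N) p (hcardΓ ▸ dvd_mul_left p _)
    obtain ⟨u, rfl⟩ := QuotientGroup.mk_surjective ubar
    have hupN : u ^ p ∈ N := by
      apply (QuotientGroup.eq_one_iff _).mp
      rw [QuotientGroup.mk_pow, ← hubar, pow_orderOf_eq_one]
    have huN : u ∉ N := by
      intro hcon
      have h1 : ((u : G) : G ⧸ N) = 1 := (QuotientGroup.eq_one_iff _).mpr hcon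
      rw [h1, orderOf_one] at hubar
      exact hpP.one_lt.ne hubar
    have hcent : centralizer ({(u : G ⧸ N)} : Set (G ⧸ N)) = zpowers (u : G ⧸ N) := by
      apply le_antisymm
      · intro cbar hcbar
        obtain ⟨c, rfl⟩ := QuotientGroup.mk_surjective cbar
        rw [mem_centralizer_iff] at hcbar
        have h1 := hcbar _ (Set.mem_singleton _)
        have h2 : (c * u)⁻¹ * (u * c) ∈ N := by
          apply QuotientGroup.eq.mp
          rw [QuotientGroup.mk_mul, QuotientGroup.mk_mul]
          exact h1.symm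
        obtain ⟨j, hj⟩ := self_centralizing H N hN p hpP hp.symm u c hupN huN h2
        rw [mem_zpowers_iff]
        refine ⟨j, ?_⟩
        rw [← QuotientGroup.mk_zpow]
        exact QuotientGroup.eq.mpr hj
      · rw [zpowers_le, mem_centralizer_iff]
        intro h hh
        rw [Set.mem_singleton_iff.mp hh]
    obtain ⟨k, hk⟩ : ∃ k, k = (centralizer ({(u : G ⧸ N)} : Set (G ⧸ N))).index := ⟨_, rfl⟩
    have hpk : p * k = Nat.card (G ⧸ N) := by
      have h1 := Subgroup.card_mul_index (centralizer ({(u : G ⧸ N)} : Set (G ⧸ N)))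
      rw [← hk, hcent, Nat.card_zpowers, hubar] at h1
      exact h1
    have hk1 : k ≠ 1 := by
      intro hk1
      rw [hk1, mul_one, hcardΓ] at hpk
      have h1 : N.relIndex H = 1 := by
        have : N.relIndex H * p = 1 * p := by rw [one_mul]; exact hpk.symm
        exact Nat.eq_of_mul_eq_mul_right hpP.pos this
      rw [relIndex_eq_one] at h1
      have h2 : H = N := le_antisymm h1 hNH
      rw [h2] at hx
      exact hx hNn
    have hkP : k.Prime := by
      have hd := cls_dvd N u
      rw [← hk] at hd
      rcases h u with h1 | h1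
      · rw [h1] at hd
        exact absurd (Nat.dvd_one.mp hd) hk1
      · rcases (Nat.dvd_prime h1).mp hd with h2 | h2
        · exact absurd h2 hk1
        · rw [h2]; exact h1
    have hnc : ¬ ∀ a b : G ⧸ N, a * b = b * a := by
      intro hcm
      apply hk1
      rw [hk, index_eq_one, eq_top_iff]
      intro c _
      rw [mem_centralizer_iff]
      intro h hh
      exact hcm _ _
    have hkp : k ≠ p := by
      intro hkp
      apply hnc
      apply IsPGroup.commutative_of_card_eq_prime_sq (p := p)
      rw [← hpk, hkp, sq]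
    have hcenter : center (G ⧸ N) = ⊥ := by
      have hle : center (G ⧸ N) ≤ zpowers (u : G ⧸ N) := by
        rw [← hcent]; exact center_le_centralizer _
      have hcz : Nat.card (zpowers (u : G ⧸ N)) = p := by rw [Nat.card_zpowers, hubar]
      haveI : Fact (Nat.card (zpowers (u : G ⧸ N))).Prime := ⟨hcz ▸ hpP⟩
      rcases Subgroup.eq_bot_or_eq_top_of_prime_card ((center (G ⧸ N)).subgroupOf (zpowers (u : G ⧸ N))) with h1 | h1
      · rw [subgroupOf_eq_bot] at h1
        rw [eq_bot_iff]
        intro z hz
        have : z ∈ center (G ⧸ N) ⊓ zpowers (u : G ⧸ N) := mem_inf.mpr ⟨hz, hle hz⟩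
        rw [h1.eq_bot] at this
        exact this
      · exfalso
        rw [subgroupOf_eq_top] at h1
        have hu : (u : G ⧸ N) ∈ center (G ⧸ N) := h1 (mem_zpowers _)
        apply hnc
        intro a b
        exfalso
        apply hk1
        rw [hk, index_eq_one, eq_top_iff]
        intro c _
        rw [mem_centralizer_iff]
        intro h hh
        rw [Set.mem_singleton_iff.mp hh]
        exact (mem_center_iff.mp hu c).symm
    have hZN : center G ≤ N := by
      rw [hN, normal_le_normalCore, hH]
      exact center_le_centralizer _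
    have hout : ∀ g : G, g ∉ N → N ≤ centralizer ({g} : Set G) := by
      intro g hg
      have hgb : (g : G ⧸ N) ∉ center (G ⧸ N) := by
        rw [hcenter, mem_bot]
        intro hcon
        exact hg ((QuotientGroup.eq_one_iff _).mp hcon)
      have hidx1 : (centralizer ({(g : G ⧸ N)} : Set (G ⧸ N))).index ≠ 1 := by
        intro hcon
        rw [index_eq_one] at hcon
        apply hgb
        rw [mem_center_iff]
        intro c
        have : c ∈ centralizer ({(g : G ⧸ N)} : Set (G ⧸ N)) := hcon ▸ mem_top c
        rw [mem_centralizer_iff] at this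
        exact (this _ (Set.mem_singleton _)).symm
      have hd := cls_dvd N g
      have hidx : (centralizer ({(g : G ⧸ N)} : Set (G ⧸ N))).index = (centralizer ({g} : Set G)).index := by
        rcases h g with h1 | h1
        · rw [h1] at hd
          exact absurd (Nat.dvd_one.mp hd) hidx1
        · rcases (Nat.dvd_prime h1).mp hd with h2 | h2
          · exact absurd h2 hidx1
          · exact h2
      have hle : centralizer ({g} : Set G) ≤ (centralizer ({(g : G ⧸ N)} : Set (G ⧸ N))).comap (QuotientGroup.mk' N) := by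
        intro c hc
        rw [mem_comap]
        rw [mem_centralizer_iff] at hc ⊢
        intro h hh
        rw [Set.mem_singleton_iff] at hh
        rw [hh]
        show (QuotientGroup.mk' N g) * (QuotientGroup.mk' N c) = (QuotientGroup.mk' N c) * (QuotientGroup.mk' N g)
        rw [← map_mul, ← map_mul, hc g (Set.mem_singleton g)]
      have heq := Cfsg.Agent.S4584.eq_of_le_of_index_eq hle
        (by rw [Subgroup.index_comap_of_surjective _ (QuotientGroup.mk'_surjective N), hidx])
      rw [heq]
      intro n hn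
      rw [mem_comap]
      have : QuotientGroup.mk' N n = 1 := (QuotientGroup.eq_one_iff _).mpr hn
      rw [this]
      exact one_mem _
    have hNZ : N = center G := by
      apply le_antisymm _ hZN
      intro n hn
      rw [mem_center_iff]
      intro g
      by_cases hg : g ∈ N
      · have h1 := hout u huN hn
        have h2 := hout (g * u) (fun hcon => huN (by simpa using N.mul_mem (N.inv_mem hg) hcon)) hn
        rw [mem_centralizer_iff] at h1 h2
        have h3 := h1 u (Set.mem_singleton u)
        have h4 := h2 (g * u) (Set.mem_singleton _)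
        have h5 : g * n * u = n * g * u := by
          calc g * n * u = g * (n * u) := by group
            _ = g * (u * n) := by rw [h3]
            _ = g * u * n := by group
            _ = n * (g * u) := h4
            _ = n * g * u := by group
        exact mul_right_cancel h5
      · have h1 := hout g hg hn
        rw [mem_centralizer_iff] at h1
        exact h1 g (Set.mem_singleton g)
    subst hNZ
    refine ⟨k, p, hkP, hpP, hkp, ?_, ?_⟩
    · rw [mul_comm]; exact hpk.symm
    · intro hcm
      exact hnc (fun a b => hcm.is_comm.comm a b)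

end Cfsg.Agent.S4314
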