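import Cfsg.Statements.S4331

import Mathlib

set_option autoImplicit false
open Cfsg
open scoped Pointwise

namespace Cfsg.Agent.S4331

/-- Carrier of the group `F₉ ⋊ SD₁₆` of order 144: pairs (translation, (k, e)). -/
def T144 : Type := (ZMod 3 × ZMod 3) × (ZMod 8 × ZMod 2)

instance instDecEqT : DecidableEq T144 :=
  inferInstanceAs (DecidableEq ((ZMod 3 × ZMod 3) × (ZMod 8 × ZMod 2)))

instance instFintypeT : Fintype T144 :=
  inferInstanceAs (Fintype ((ZMod 3 × ZMod 3) × (ZMod 8 × ZMod 2)))

def mz (v : ZMod 3 × ZMod 3) : ZMod 3 × ZMod 3 := (v.1 - v.2, v.1 + v.2)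

def hact (h : ZMod 8 × ZMod 2) (v : ZMod 3 × ZMod 3) : ZMod 3 × ZMod 3 :=
  mz^[h.1.val] (if h.2 = 0 then v else (v.1, -v.2))

def hmul (h g : ZMod 8 × ZMod 2) : ZMod 8 × ZMod 2 :=
  (h.1 + (if h.2 = 0 then g.1 else 3 * g.1), h.2 + g.2)

def hinv (h : ZMod 8 × ZMod 2) : ZMod 8 × ZMod 2 :=
  (if h.2 = 0 then -h.1 else -(3 * h.1), h.2)

def tmul (x y : T144) : T144 := (x.1 + hact x.2 y.1, hmul x.2 y.2)

def tinv (x : T144) : T144 := (-(hact (hinv x.2) x.1), hinv x.2)

def tone : T144 := ((0, 0), (0, 0))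

theorem hmul_assoc : ∀ a b c : ZMod 8 × ZMod 2, hmul (hmul a b) c = hmul a (hmul b c) := by
  decide +kernel

theorem hact_mul : ∀ (a b : ZMod 8 × ZMod 2) (v : ZMod 3 × ZMod 3),
    hact (hmul a b) v = hact a (hact b v) := by
  decide +kernel

theorem hact_add : ∀ (a : ZMod 8 × ZMod 2) (v w : ZMod 3 × ZMod 3),
    hact a (v + w) = hact a v + hact a w := by
  decide +kernel

theorem tone_mul : ∀ x : T144, tmul tone x = x := by decide +kernel

theorem tmul_one : ∀ x : T144, tmul x tone = x := by decide +kernel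

theorem tinv_mul : ∀ x : T144, tmul (tinv x) x = tone := by decide +kernel

theorem tmul_assoc (x y z : T144) : tmul (tmul x y) z = tmul x (tmul y z) := by
  unfold tmul
  simp only [hmul_assoc, hact_mul, hact_add, add_assoc]
  rfl

instance instGroupT : Group T144 where
  mul := tmul
  mul_assoc := tmul_assoc
  one := tone
  one_mul := tone_mul
  mul_one := tmul_one
  inv := tinv
  inv_mul_cancel := tinv_mul

def aEl : T144 := ((0, 0), (0, 1))

set_option maxRecDepth 100000 in
theorem Lc : ∀ c : T144, ∃ x : T144,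
    (x * c * x⁻¹) * aEl = aEl * (x * c * x⁻¹) ∨ (x * c * x⁻¹).1 = (0, 0) := by
  decide +kernel

set_option maxRecDepth 100000 in
theorem Lp : ∀ x : T144, x ≠ 1 → x ^ 16 ≠ 1 ∨ ∃ t : T144, (x * (t * x⁻¹ * t⁻¹)) ^ 16 ≠ 1 := by
  decide +kernel

set_option maxRecDepth 100000 in
theorem LS : ∀ x : T144, x.1 = (0, 0) → x ^ 16 = 1 := by decide +kernel

set_option maxRecDepth 100000 in
theorem LSmul : ∀ x y : T144, x.1 = (0, 0) → y.1 = (0, 0) → (x * y).1 = (0, 0) := by
  decide +kernel

theorem LSinv : ∀ x : T144, x.1 = (0, 0) → (x⁻¹).1 = (0, 0) := by decide +kernel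

set_option maxRecDepth 100000 in
theorem LNnormal : ∀ x n : T144, n.2 = (0, 0) → (x * n * x⁻¹).2 = (0, 0) := by decide +kernel

set_option maxRecDepth 100000 in
theorem LNmul : ∀ x y : T144, x.2 = (0, 0) → y.2 = (0, 0) → (x * y).2 = (0, 0) := by
  decide +kernel

theorem LNinv : ∀ x : T144, x.2 = (0, 0) → (x⁻¹).2 = (0, 0) := by decide +kernel

set_option maxRecDepth 100000 in
theorem LNcomm : ∀ x y : T144, x.2 = (0, 0) → y.2 = (0, 0) → x * y = y * x := by
  decide +kernel

theorem LN16 : ∀ x : T144, (x ^ 16).2 = (0, 0) := by decide +kernel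

theorem a_sq : aEl * aEl = 1 := by decide +kernel

theorem a_ne : aEl ≠ 1 := by decide +kernel

theorem card_T : Fintype.card T144 = 144 := by decide +kernel

def Ssub : Subgroup T144 where
  carrier := {x | x.1 = (0, 0)}
  mul_mem' := fun {x y} hx hy => LSmul x y hx hy
  one_mem' := rfl
  inv_mem' := fun {x} hx => LSinv x hx

def Nsub : Subgroup T144 where
  carrier := {x | x.2 = (0, 0)}
  mul_mem' := fun {x y} hx hy => LNmul x y hx hy
  one_mem' := rfl
  inv_mem' := fun {x} hx => LNinv x hx

theorem Nsub_normal : Nsub.Normal := ⟨fun n hn x => LNnormal x n hn⟩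

theorem subnormal_of_nilpotent {K : Type*} [Group K] [Finite K] [Group.IsNilpotent K]
    (B : Subgroup K) : B.IsSubnormal := by
  induction B using WellFoundedGT.induction with
  | ind B ih =>
    by_cases htop : B = ⊤
    · rw [htop]; exact Subgroup.IsSubnormal.top
    · have hlt : B < Subgroup.normalizer (B : Set K) :=
        Group.normalizerCondition_of_isNilpotent B (lt_top_iff_ne_top.mpr htop)
      exact Subgroup.IsSubnormal.step B (Subgroup.normalizer (B : Set K)) hlt.le (ih _ hlt)
        Subgroup.normal_in_normalizer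

theorem result :
    ∃ (G : Type) (_ : Group G) (_ : Finite G) (A : Subgroup G), Group.IsSolvable G ∧ Nat.card A = 2 ∧
      (∀ c : G, ∃ g : G, IsConj c g ∧ (A.subgroupOf (A ⊔ Subgroup.zpowers g)).IsSubnormal) ∧
      ¬ A ≤ Cfsg.pCore 2 G := by
  have hp2 : Fact (Nat.Prime 2) := ⟨Nat.prime_two⟩
  refine ⟨T144, instGroupT, inferInstance, Subgroup.zpowers aEl, ?_, ?_, ?_, ?_⟩
  · -- solvable
    have hn : Nsub.Normal := Nsub_normal
    rw [Group.isSolvable_iff_subgroup_quotient Nsub]
    constructor
    · apply Group.isSolvable_of_comm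
      intro x y
      apply Subtype.ext
      exact LNcomm x.1 y.1 x.2 y.2
    · have hpg : IsPGroup 2 (T144 ⧸ Nsub) := by
        intro q
        obtain ⟨x, rfl⟩ := QuotientGroup.mk_surjective q
        refine ⟨4, ?_⟩
        rw [← QuotientGroup.mk_pow, QuotientGroup.eq_one_iff]
        exact LN16 x
      have hnil : Group.IsNilpotent (T144 ⧸ Nsub) := hpg.isNilpotent
      infer_instance
  · rw [Nat.card_zpowers]
    exact orderOf_eq_prime (by rw [pow_two]; exact a_sq) a_ne
  · intro c
    obtain ⟨x, hx⟩ := Lc c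
    refine ⟨x * c * x⁻¹, isConj_iff.mpr ⟨x, rfl⟩, ?_⟩
    rcases hx with hx | hx
    · -- commuting case: A is normal in the join
      apply Subgroup.Normal.isSubnormal
      rw [Subgroup.normal_subgroupOf_iff_le_normalizer le_sup_left]
      have hcent : Subgroup.zpowers aEl ⊔ Subgroup.zpowers (x * c * x⁻¹) ≤
          Subgroup.centralizer ((Subgroup.zpowers aEl : Subgroup T144) : Set T144) := by
        apply sup_le
        · rw [Subgroup.zpowers_le]
          rw [Subgroup.mem_centralizer_iff]
          intro h hh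
          obtain ⟨k, rfl⟩ := hh
          exact ((Commute.refl aEl).zpow_left k).eq
        · rw [Subgroup.zpowers_le]
          rw [Subgroup.mem_centralizer_iff]
          intro h hh
          obtain ⟨k, rfl⟩ := hh
          have hcomm : Commute aEl (x * c * x⁻¹) := hx.symm
          exact (hcomm.zpow_left k).eq
      exact hcent.trans (Subgroup.centralizer_le_normalizer _)
    · -- 2-group case
      have hle : Subgroup.zpowers aEl ⊔ Subgroup.zpowers (x * c * x⁻¹) ≤ Ssub := by
        apply sup_le
        · rw [Subgroup.zpowers_le]; rfl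
        · rw [Subgroup.zpowers_le]; exact hx
      have hpg : IsPGroup 2 ↥(Subgroup.zpowers aEl ⊔ Subgroup.zpowers (x * c * x⁻¹)) := by
        intro y
        refine ⟨4, ?_⟩
        apply Subtype.ext
        rw [Subgroup.coe_pow]
        exact LS y.1 (hle y.2)
      have hnil : Group.IsNilpotent ↥(Subgroup.zpowers aEl ⊔ Subgroup.zpowers (x * c * x⁻¹)) :=
        hpg.isNilpotent
      exact subnormal_of_nilpotent _
  · -- pCore is trivial
    intro hle
    have hcore : Cfsg.pCore 2 T144 = ⊥ := by
      unfold Cfsg.pCore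
      rw [sSup_eq_bot]
      rintro N ⟨hN, hNp⟩
      rw [eq_bot_iff]
      intro x hx
      rw [Subgroup.mem_bot]
      by_contra hx1
      have key : ∀ z ∈ N, z ^ 16 = 1 := by
        intro z hz
        obtain ⟨k, hk⟩ := hNp ⟨z, hz⟩
        have hk' : z ^ (2 ^ k) = 1 := by
          have := congrArg Subtype.val hk
          simpa using this
        have h1 : orderOf z ∣ 2 ^ k := orderOf_dvd_of_pow_eq_one hk'
        have h2 : orderOf z ∣ Nat.card T144 := orderOf_dvd_natCard z
        rw [Nat.card_eq_fintype_card, card_T] at h2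
        have h3 : Nat.Coprime (orderOf z) 9 := by
          apply Nat.Coprime.coprime_dvd_left h1
          apply Nat.Coprime.pow_left
          decide
        have h4 : orderOf z ∣ 16 := by
          have h5 : orderOf z ∣ 16 * 9 := h2
          exact (Nat.Coprime.dvd_mul_right h3).mp h5
        exact orderOf_dvd_iff_pow_eq_one.mp h4
      rcases Lp x hx1 with h | ⟨t, ht⟩
      · exact h (key x hx)
      · apply ht
        apply key
        apply N.mul_mem hx
        exact hN.conj_mem _ (N.inv_mem hx) t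
    have ha : aEl ∈ Cfsg.pCore 2 T144 := hle (Subgroup.mem_zpowers aEl)
    rw [hcore, Subgroup.mem_bot] at ha
    exact a_ne ha

end Cfsg.Agent.S4331
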