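import Cfsg.Statements.S4332

import Mathlib

set_option autoImplicit false
open Pointwise
open Cfsg
open scoped Pointwise

namespace Cfsg.Agent.S4332

open Equiv in
theorem conj_rho (c : Equiv.Perm (Fin 8)) (x y z : Fin 8) :
    c * (swap x y * swap y z) * c⁻¹ = swap (c x) (c y) * swap (c y) (c z) := by
  rw [Equiv.swap_apply_apply, Equiv.swap_apply_apply]
  group

open Equiv in
theorem D1 : ∀ x y z : Fin 8, x ≠ y → x ≠ z → y ≠ z →
    (swap y z * swap z x) * (swap x y * swap y z) = (swap x y * swap y z) * (swap y z * swap z x) := by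
  decide +kernel

open Equiv in
theorem D2 : ∀ x y z : Fin 8, x ≠ y → x ≠ z → y ≠ z →
    (swap y x * swap x z) * (swap x y * swap y z) = (swap x y * swap y z) * (swap y x * swap x z) := by
  decide +kernel

open Equiv in
theorem disj_case (c : Equiv.Perm (Fin 8)) (x y z : Fin 8) (hxy : x ≠ y) (hxz : x ≠ z)
    (hyz : y ≠ z) (h1 : c x ≠ x) (h2 : c x ≠ y) (h3 : c x ≠ z) (h4 : c y ≠ x) (h5 : c y ≠ y)
    (h6 : c y ≠ z) (h7 : c z ≠ x) (h8 : c z ≠ y) (h9 : c z ≠ z) :
    Commute (c * (swap x y * swap y z) * c⁻¹) (swap x y * swap y z) := by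
  rw [conj_rho]
  apply Equiv.Perm.Disjoint.commute
  rw [Equiv.Perm.disjoint_iff_disjoint_support]
  have n1 : List.Nodup [c x, c y, c z] := by
    simp only [List.nodup_cons, List.mem_cons, List.not_mem_nil, or_false, not_or, List.nodup_nil,
      and_true, not_false_eq_true]
    exact ⟨⟨fun h => hxy (c.injective h), fun h => hxz (c.injective h)⟩,
      fun h => hyz (c.injective h)⟩
  have n2 : List.Nodup [x, y, z] := by
    simp only [List.nodup_cons, List.mem_cons, List.not_mem_nil, or_false, not_or, List.nodup_nil,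
      and_true, not_false_eq_true]
    exact ⟨⟨hxy, hxz⟩, hyz⟩
  rw [Equiv.Perm.support_swap_mul_swap n1, Equiv.Perm.support_swap_mul_swap n2]
  rw [Finset.disjoint_left]
  intro a ha hb
  simp only [Finset.mem_insert, Finset.mem_singleton] at ha hb
  rcases ha with rfl | rfl | rfl <;> rcases hb with hb | hb | hb <;> simp_all

open Equiv in
theorem exists_triple (c : Equiv.Perm (Fin 8)) : ∃ x y z : Fin 8, x ≠ y ∧ x ≠ z ∧ y ≠ z ∧
    Commute (c * (swap x y * swap y z) * c⁻¹) (swap x y * swap y z) := by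
  by_cases hsupp : 6 ≤ c.support.card
  · obtain ⟨x₁, hx₁⟩ : ∃ x₁, x₁ ∈ c.support := by
      apply Finset.card_pos.mp
      omega
    have hx₁' : c x₁ ≠ x₁ := Equiv.Perm.mem_support.mp hx₁
    by_cases h3 : c (c (c x₁)) = x₁
    · -- a 3-cycle of c
      have hxy : x₁ ≠ c x₁ := hx₁'.symm
      have hyz : c x₁ ≠ c (c x₁) := fun h => hxy (c.injective h)
      have hxz : x₁ ≠ c (c x₁) := by
        intro h
        apply hx₁'
        have h4 : c (c (c x₁)) = c x₁ := by rw [← h]
        rw [h3] at h4
        exact h4.symm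
      refine ⟨x₁, c x₁, c (c x₁), hxy, hxz, hyz, ?_⟩
      rw [conj_rho, h3]
      exact D1 x₁ (c x₁) (c (c x₁)) hxy hxz hyz
    · by_cases h2 : c (c x₁) = x₁
      · by_cases hf : ∃ f, c f = f
        · obtain ⟨f, hf⟩ := hf
          have hxy : x₁ ≠ c x₁ := hx₁'.symm
          have hxf : x₁ ≠ f := by
            intro h
            rw [← h] at hf
            exact hx₁' hf
          have hyf : c x₁ ≠ f := by
            intro h
            rw [← h, h2] at hf
            exact hxy hf
          refine ⟨x₁, c x₁, f, hxy, hxf, hyf, ?_⟩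
          rw [conj_rho, h2, hf]
          exact D2 x₁ (c x₁) f hxy hxf hyf
        · push Not at hf
          obtain ⟨x₂, -, hx₂⟩ : ∃ e ∈ (Finset.univ : Finset (Fin 8)), e ∉ ({x₁, c x₁} : Finset (Fin 8)) := by
            apply Finset.exists_mem_notMem_of_card_lt_card
            have := Finset.card_le_two (a := x₁) (b := c x₁)
            rw [Finset.card_univ, Fintype.card_fin]
            omega
          obtain ⟨x₃, -, hx₃⟩ : ∃ e ∈ (Finset.univ : Finset (Fin 8)),
              e ∉ ({x₁, c x₁, x₂, c x₂, c.symm x₂} : Finset (Fin 8)) := by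
            apply Finset.exists_mem_notMem_of_card_lt_card
            have := Finset.card_le_five (a := x₁) (b := c x₁) (c := x₂) (d := c x₂) (e := c.symm x₂)
            rw [Finset.card_univ, Fintype.card_fin]
            omega
          simp only [Finset.mem_insert, Finset.mem_singleton, not_or] at hx₂ hx₃
          obtain ⟨hx₂a, hx₂b⟩ := hx₂
          obtain ⟨hx₃a, hx₃b, hx₃c, hx₃d, hx₃e⟩ := hx₃
          refine ⟨x₁, x₂, x₃, fun h => hx₂a h.symm, fun h => hx₃a h.symm, fun h => hx₃c h.symm, ?_⟩
          apply disj_case c x₁ x₂ x₃ (fun h => hx₂a h.symm) (fun h => hx₃a h.symm)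
            (fun h => hx₃c h.symm) hx₁' (fun h => hx₂b h.symm) (fun h => hx₃b h.symm)
          · intro h
            apply hx₂b
            apply c.injective
            rw [h, h2]
          · exact hf x₂
          · exact fun h => hx₃d h.symm
          · intro h
            apply hx₃b
            apply c.injective
            rw [h, h2]
          · intro h
            apply hx₃e
            rw [← h, Equiv.symm_apply_apply]
          · exact hf x₃
      · -- greedy: x₁, c² x₁, x₃
        obtain ⟨x₃, hx₃s, hx₃⟩ : ∃ e ∈ c.support,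
            e ∉ ({c.symm x₁, x₁, c x₁, c (c x₁), c (c (c x₁))} : Finset (Fin 8)) := by
          apply Finset.exists_mem_notMem_of_card_lt_card
          have := Finset.card_le_five (a := c.symm x₁) (b := x₁) (c := c x₁) (d := c (c x₁))
            (e := c (c (c x₁)))
          omega
        have hx₃' : c x₃ ≠ x₃ := Equiv.Perm.mem_support.mp hx₃s
        simp only [Finset.mem_insert, Finset.mem_singleton, not_or] at hx₃
        obtain ⟨hx₃a, hx₃b, hx₃c, hx₃d, hx₃e⟩ := hx₃
        refine ⟨x₁, c (c x₁), x₃, fun h => h2 h.symm, fun h => hx₃b h.symm,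
          fun h => hx₃d h.symm, ?_⟩
        apply disj_case c x₁ (c (c x₁)) x₃ (fun h => h2 h.symm) (fun h => hx₃b h.symm)
          (fun h => hx₃d h.symm) hx₁'
        · exact fun h => hx₁' (c.injective h).symm
        · exact fun h => hx₃c h.symm
        · exact h3
        · exact fun h => hx₁' (c.injective (c.injective h))
        · exact fun h => hx₃e h.symm
        · intro h
          apply hx₃a
          rw [← h, Equiv.symm_apply_apply]
        · exact fun h => hx₃c (c.injective h)
        · exact hx₃'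
  · -- at least three fixed points
    have hcard : 2 < c.supportᶜ.card := by
      rw [Finset.card_compl, Fintype.card_fin]
      omega
    obtain ⟨x, y, z, hx, hy, hz, hxy, hxz, hyz⟩ := Finset.two_lt_card_iff.mp hcard
    rw [Finset.mem_compl, Equiv.Perm.notMem_support] at hx hy hz
    refine ⟨x, y, z, hxy, hxz, hyz, ?_⟩
    rw [conj_rho, hx, hy, hz]

theorem result
    (σ : Equiv.Perm (Fin 8)) (hσ : σ.IsThreeCycle) :
    (∀ c : Equiv.Perm (Fin 8), ∃ g : Equiv.Perm (Fin 8), IsConj c g ∧
      ((Subgroup.zpowers σ).subgroupOf (Subgroup.zpowers σ ⊔ MulAut.conj g • Subgroup.zpowers σ)).IsSubnormal) ∧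
    Cfsg.pCore 3 (Equiv.Perm (Fin 8)) = ⊥ := by
  have hp3 : Fact (Nat.Prime 3) := ⟨Nat.prime_three⟩
  constructor
  · intro c
    obtain ⟨x, y, z, hxy, hxz, hyz, hcomm⟩ := exists_triple c
    have hρ : (Equiv.swap x y * Equiv.swap y z).IsThreeCycle := by
      rw [Equiv.swap_comm x y]
      exact Equiv.Perm.isThreeCycle_swap_mul_swap_same (Ne.symm hxy) hyz hxz
    have hconj : IsConj (Equiv.swap x y * Equiv.swap y z) σ :=
      Equiv.Perm.isConj_iff_cycleType_eq.mpr (hρ.cycleType.trans hσ.cycleType.symm)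
    obtain ⟨τ, hτ⟩ := isConj_iff.mp hconj
    refine ⟨τ * c * τ⁻¹, isConj_iff.mpr ⟨τ, rfl⟩, ?_⟩
    have hcomm' : Commute ((τ * c * τ⁻¹) * σ * (τ * c * τ⁻¹)⁻¹) σ := by
      have e1 : (τ * c * τ⁻¹) * σ * (τ * c * τ⁻¹)⁻¹ =
          τ * (c * (Equiv.swap x y * Equiv.swap y z) * c⁻¹) * τ⁻¹ := by
        rw [← hτ]; group
      rw [e1]
      have e2 : τ * (c * (Equiv.swap x y * Equiv.swap y z) * c⁻¹) * τ⁻¹ * σ =
          σ * (τ * (c * (Equiv.swap x y * Equiv.swap y z) * c⁻¹) * τ⁻¹) := by
        have h1 := hcomm.eq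
        calc τ * (c * (Equiv.swap x y * Equiv.swap y z) * c⁻¹) * τ⁻¹ * σ
            = τ * ((c * (Equiv.swap x y * Equiv.swap y z) * c⁻¹) *
                (Equiv.swap x y * Equiv.swap y z)) * τ⁻¹ := by rw [← hτ]; group
          _ = τ * ((Equiv.swap x y * Equiv.swap y z) *
                (c * (Equiv.swap x y * Equiv.swap y z) * c⁻¹)) * τ⁻¹ := by rw [h1]
          _ = σ * (τ * (c * (Equiv.swap x y * Equiv.swap y z) * c⁻¹) * τ⁻¹) := by
            rw [← hτ]; group
      exact e2
    have hsmul : MulAut.conj (τ * c * τ⁻¹) • Subgroup.zpowers σ =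
        Subgroup.zpowers ((τ * c * τ⁻¹) * σ * (τ * c * τ⁻¹)⁻¹) := by
      change Subgroup.map (MulAut.conj (τ * c * τ⁻¹)).toMonoidHom (Subgroup.zpowers σ) = _
      rw [MonoidHom.map_zpowers]
      rfl
    rw [hsmul]
    apply Subgroup.Normal.isSubnormal
    rw [Subgroup.normal_subgroupOf_iff_le_normalizer le_sup_left]
    have hcent : Subgroup.zpowers σ ⊔ Subgroup.zpowers ((τ * c * τ⁻¹) * σ * (τ * c * τ⁻¹)⁻¹) ≤
        Subgroup.centralizer ((Subgroup.zpowers σ : Subgroup (Equiv.Perm (Fin 8))) :
          Set (Equiv.Perm (Fin 8))) := by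
      apply sup_le
      · rw [Subgroup.zpowers_le, Subgroup.mem_centralizer_iff]
        intro h hh
        obtain ⟨k, rfl⟩ := hh
        exact ((Commute.refl σ).zpow_left k).eq
      · rw [Subgroup.zpowers_le, Subgroup.mem_centralizer_iff]
        intro h hh
        obtain ⟨k, rfl⟩ := hh
        exact (hcomm'.symm.zpow_left k).eq
    exact hcent.trans (Subgroup.centralizer_le_normalizer _)
  · unfold Cfsg.pCore
    rw [sSup_eq_bot]
    rintro N ⟨hN, hNp⟩
    rw [eq_bot_iff]
    intro x hx
    rw [Subgroup.mem_bot]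
    by_contra hx1
    -- a point moved by x
    obtain ⟨p, hp⟩ : ∃ p, x p ≠ p := by
      by_contra hcon
      push Not at hcon
      exact hx1 (Equiv.ext hcon)
    obtain ⟨k, hk⟩ := hNp ⟨x, hx⟩
    have hk' : x ^ (3 ^ k) = 1 := by
      have := congrArg Subtype.val hk
      simpa using this
    have hq : x p ≠ x (x p) := fun h => hp (x.injective h).symm
    have hr : p ≠ x (x p) := by
      intro h
      -- x^2 p = p and x^(3^k) p = p force x p = p
      have h2 : (x ^ 2) p = p := by
        rw [pow_two, Equiv.Perm.mul_apply]; exact h.symm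
      have hodd : Odd (3 ^ k) := Odd.pow (by decide)
      obtain ⟨m, hm⟩ := hodd
      have h3 : (x ^ (2 * m)) p = p := by
        rw [pow_mul]
        exact Equiv.Perm.pow_apply_eq_self_of_apply_eq_self h2 m
      have h4 : (x ^ (3 ^ k)) p = x p := by
        rw [hm, pow_succ, Equiv.Perm.mul_apply]
        have h5 : (x ^ (2 * m)) (x p) = x ((x ^ (2 * m)) p) := by
          rw [← Equiv.Perm.mul_apply, ← Equiv.Perm.mul_apply, ← pow_succ, ← pow_succ']
        rw [h5, h3]
      rw [hk'] at h4
      exact hp h4.symm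
    -- the commutator with a transposition is a 3-cycle in N
    have hz1 : x * Equiv.swap p (x p) * x⁻¹ * (Equiv.swap p (x p))⁻¹ ∈ N := by
      have e : x * Equiv.swap p (x p) * x⁻¹ * (Equiv.swap p (x p))⁻¹ =
          x * (Equiv.swap p (x p) * x⁻¹ * (Equiv.swap p (x p))⁻¹) := by group
      rw [e]
      exact N.mul_mem hx (hN.conj_mem _ (N.inv_mem hx) _)
    have hz1' : x * Equiv.swap p (x p) * x⁻¹ * (Equiv.swap p (x p))⁻¹ =
        Equiv.swap (x p) (x (x p)) * Equiv.swap (x p) p := by
      rw [← Equiv.swap_apply_apply, Equiv.swap_inv, Equiv.swap_comm p (x p)]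
    have h3c : (Equiv.swap (x p) (x (x p)) * Equiv.swap (x p) p).IsThreeCycle :=
      Equiv.Perm.isThreeCycle_swap_mul_swap_same hq hp (Ne.symm hr)
    rw [hz1'] at hz1
    -- hence N contains all 3-cycles, hence the alternating group
    have hall : ∀ τ : Equiv.Perm (Fin 8), τ.IsThreeCycle → τ ∈ N := by
      intro τ hτ
      have hc : IsConj (Equiv.swap (x p) (x (x p)) * Equiv.swap (x p) p) τ :=
        Equiv.Perm.isConj_iff_cycleType_eq.mpr (h3c.cycleType.trans hτ.cycleType.symm)
      obtain ⟨u, hu⟩ := isConj_iff.mp hc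
      rw [← hu]
      exact hN.conj_mem _ hz1 u
    have halt : alternatingGroup (Fin 8) ≤ N := by
      rw [← Equiv.Perm.closure_three_cycles_eq_alternating, Subgroup.closure_le]
      intro τ hτ
      exact hall τ hτ
    have hw : Equiv.swap (0 : Fin 8) 1 * Equiv.swap (2 : Fin 8) 3 ∈ N := by
      apply halt
      rw [Equiv.Perm.mem_alternatingGroup]
      decide
    obtain ⟨j, hj⟩ := hNp ⟨_, hw⟩
    have hj' : (Equiv.swap (0 : Fin 8) 1 * Equiv.swap (2 : Fin 8) 3) ^ (3 ^ j) = 1 := by
      have := congrArg Subtype.val hj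
      simpa using this
    have ho : orderOf (Equiv.swap (0 : Fin 8) 1 * Equiv.swap (2 : Fin 8) 3) = 2 := by
      apply orderOf_eq_prime
      · decide
      · decide
    have hdvd : 2 ∣ 3 ^ j := by
      rw [← ho]
      exact orderOf_dvd_of_pow_eq_one hj'
    have h23 : 2 ∣ 3 := Nat.Prime.dvd_of_dvd_pow Nat.prime_two hdvd
    omega

end Cfsg.Agent.S4332
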