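import Cfsg.Statements.S4333

import Mathlib
import Cfsg.Agent.S0066

set_option autoImplicit false
open Pointwise
open Cfsg
open scoped Pointwise

namespace Cfsg.Agent.S4333

open Cfsg.Agent.Lib.Helper2.Sub
open Cfsg.Agent.S0538 Cfsg.Agent.S0539 Cfsg.Agent.S0540

set_option maxHeartbeats 1600000 in
/-- sharpened Wielandt criterion, relative form -/
theorem crit2_aux {G : Type*} [Group G] [Finite G] (n : ℕ) :
    ∀ V B : Subgroup G, Nat.card V = n → B ≤ V →
      (∀ a ∈ B, ∀ v ∈ V, RelSN B (B ⊔ MulAut.conj (v⁻¹ * a * v) • B)) → RelSN B V := by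
  induction n using Nat.strong_induction_on with
  | _ n ih =>
  intro V B hcard hBV hyp
  by_contra hnot
  have I1 : ∀ V' : Subgroup G, V' ≤ V → V' ≠ V → ∀ v ∈ V, MulAut.conj v • B ≤ V' →
      RelSN (MulAut.conj v • B) V' := by
    intro V' hV' hne v hv hle
    apply ih (Nat.card V') (hcard ▸ card_lt_of_ne hV' hne) V' _ rfl hle
    intro a' ha' w hw
    rw [Subgroup.mem_pointwise_smul_iff_inv_smul_mem] at ha'
    have ha : v⁻¹ * a' * v ∈ B := by simpa [MulAut.conj_apply] using ha'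
    have hu : v⁻¹ * w * v ∈ V := V.mul_mem (V.mul_mem (V.inv_mem hv) (hV' hw)) hv
    have h1 := hyp (v⁻¹ * a' * v) ha (v⁻¹ * w * v) hu
    have h2 := relSN_smul h1 v
    rw [Subgroup.smul_sup, ← mul_smul, ← map_mul] at h2
    have e : v * ((v⁻¹ * w * v)⁻¹ * (v⁻¹ * a' * v) * (v⁻¹ * w * v)) = (w⁻¹ * a' * w) * v := by
      group
    rw [e, map_mul, mul_smul] at h2
    exact h2
  by_cases hBeq : B = V
  · subst hBeq; exact hnot (RelSN.refl B)
  let U : Set (Subgroup G) := {X | B ≤ X ∧ X ≤ V ∧ X ≠ V}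
  let S : Subgroup G → Set (Subgroup G) :=
    fun X => {C | (∃ g ∈ V, C = MulAut.conj g • B) ∧ RelSN C X}
  have hBS : ∀ X ∈ U, B ∈ S X := by
    intro X hX
    refine ⟨⟨1, V.one_mem, by simp⟩, ?_⟩
    have := I1 X hX.2.1 hX.2.2 1 V.one_mem (by simpa using hX.1)
    simpa using this
  obtain ⟨M, hM, hmax⟩ := Cfsg.Agent.S0540.rel V B U ⟨B, le_rfl, hBV, hBeq⟩
    (fun X hX => hX.2.1) S (fun X C => Iff.rfl)
    (by
      intro X hX W hW C hC hCX
      obtain ⟨⟨g, hg, rfl⟩, -⟩ := hC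
      exact ⟨⟨g, hg, rfl⟩, I1 X hX.2.1 hX.2.2 g hg hCX⟩)
    (by
      intro X hX W hW
      have hBD : B ≤ sSup (S X ∩ S W) := le_sSup ⟨hBS X hX, hBS W hW⟩
      have hDX : sSup (S X ∩ S W) ≤ X := sSup_le (fun C hC => hC.1.2.1)
      refine ⟨Subgroup.normalizer ((sSup (S X ∩ S W) : Subgroup G) : Set G) ⊓ V,
        ⟨le_inf (hBD.trans Subgroup.le_normalizer) hBV, inf_le_right, ?_⟩, le_rfl⟩
      intro e
      have hVn : V ≤ Subgroup.normalizer ((sSup (S X ∩ S W) : Subgroup G) : Set G) := by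
        rw [← e]; exact inf_le_left
      apply hnot
      exact ((hBS X hX).2.of_le hBD hDX).trans (RelSN.of_normal (hDX.trans hX.2.1) hVn))
  have hBM : B ≤ M := hM.1
  have hMV : M ≤ V := hM.2.1
  have hMne : M ≠ V := hM.2.2
  -- conjugates of B by conjugates of elements of B lie in M
  have hconj : ∀ a ∈ B, ∀ v ∈ V, MulAut.conj (v⁻¹ * a * v) • B ≤ M := by
    intro a ha v hv
    have hx : v⁻¹ * a * v ∈ V := V.mul_mem (V.mul_mem (V.inv_mem hv) (hBV ha)) hv
    have hT : B ⊔ MulAut.conj (v⁻¹ * a * v) • B ∈ U := by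
      refine ⟨le_sup_left, sup_le hBV ?_, ?_⟩
      · have := (Subgroup.pointwise_smul_le_pointwise_smul_iff
          (a := MulAut.conj (v⁻¹ * a * v))).2 hBV
        rwa [Subgroup.conj_smul_eq_self_of_mem hx] at this
      · intro e
        apply hnot
        have := hyp a ha v hv
        rwa [e] at this
    exact le_sup_right.trans (hmax _ hT)
  -- hence such elements normalize M
  have hnorm : ∀ a ∈ B, ∀ v ∈ V, v⁻¹ * a * v ∈ Subgroup.normalizer (M : Set G) := by
    intro a ha v hv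
    have hx : v⁻¹ * a * v ∈ V := V.mul_mem (V.mul_mem (V.inv_mem hv) (hBV ha)) hv
    have h1 := hconj a ha v hv
    -- B ≤ conj x⁻¹ • M
    have h2 : B ≤ MulAut.conj (v⁻¹ * a * v)⁻¹ • M := by
      have := (Subgroup.pointwise_smul_le_pointwise_smul_iff
          (a := MulAut.conj (v⁻¹ * a * v)⁻¹)).2 h1
      rwa [← mul_smul, ← map_mul, inv_mul_cancel, map_one, one_smul] at this
    have h3 : MulAut.conj (v⁻¹ * a * v)⁻¹ • M ≤ V := by
      have := (Subgroup.pointwise_smul_le_pointwise_smul_iff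
          (a := MulAut.conj (v⁻¹ * a * v)⁻¹)).2 hMV
      rwa [Subgroup.conj_smul_eq_self_of_mem (V.inv_mem hx)] at this
    have h4 : MulAut.conj (v⁻¹ * a * v)⁻¹ • M ≠ V := by
      intro e
      apply hMne
      apply Subgroup.eq_of_le_of_card_ge hMV
      rw [← e, card_smul]
    have h5 : MulAut.conj (v⁻¹ * a * v)⁻¹ • M ≤ M := hmax _ ⟨h2, h3, h4⟩
    have h6 : (v⁻¹ * a * v)⁻¹ ∈ Subgroup.normalizer (M : Set G) := by
      rw [mem_normalizer_iff_smul]
      exact smul_eq_of_le _ _ h5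
    have := (Subgroup.normalizer (M : Set G)).inv_mem h6
    simpa using this
  set K : Subgroup G := ⨆ v : V, MulAut.conj (v : G) • B with hK
  have hBK : B ≤ K := by
    have := le_iSup (fun v : V => MulAut.conj (v : G) • B) 1
    simpa using this
  have hKV : K ≤ V := by
    apply iSup_le
    intro v
    have := (Subgroup.pointwise_smul_le_pointwise_smul_iff
          (a := MulAut.conj (v : G))).2 hBV
    rwa [Subgroup.conj_smul_eq_self_of_mem v.2] at this
  have hVK : V ≤ Subgroup.normalizer (K : Set G) := by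
    intro v hv
    rw [mem_normalizer_iff_smul]
    apply smul_eq_of_le
    have e : MulAut.conj v • K = ⨆ w : V, MulAut.conj v • MulAut.conj (w : G) • B := by
      rw [hK]; exact Subgroup.map_iSup _ _
    rw [e]
    apply iSup_le
    intro w
    rw [← mul_smul, ← map_mul]
    exact le_iSup (fun v : V => MulAut.conj (v : G) • B) (⟨v, hv⟩ * w)
  have hKN : K ≤ Subgroup.normalizer (M : Set G) := by
    apply iSup_le
    intro v y hy
    rw [Subgroup.mem_pointwise_smul_iff_inv_smul_mem] at hy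
    have hy' : (v : G)⁻¹ * y * (v : G) ∈ B := by simpa [MulAut.conj_apply] using hy
    have := hnorm _ hy' (v : G)⁻¹ (V.inv_mem v.2)
    have e : ((v : G)⁻¹)⁻¹ * ((v : G)⁻¹ * y * (v : G)) * (v : G)⁻¹ = y := by group
    rwa [e] at this
  by_cases hKeq : K = V
  · -- M is normal in V
    apply hnot
    have h1 := I1 M hMV hMne 1 V.one_mem (by simpa using hBM)
    simp only [map_one, one_smul] at h1
    exact h1.trans (RelSN.of_normal hMV (hKeq ▸ hKN))
  · apply hnot
    have h1 := I1 K hKV hKeq 1 V.one_mem (by simpa using hBK)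
    simp only [map_one, one_smul] at h1
    exact h1.trans (RelSN.of_normal hKV hVK)

theorem result {G : Type*} [Group G] [Finite G]
    (A : Subgroup G)
    (h : ∀ a ∈ A, ∀ g : G, (A.subgroupOf (A ⊔ MulAut.conj (g⁻¹ * a * g) • A)).IsSubnormal) :
    A.IsSubnormal := by
  rw [← relSN_top_iff]
  exact crit2_aux _ ⊤ A rfl le_top (fun a ha v _ => ⟨le_sup_left, h a ha v⟩)

end Cfsg.Agent.S4333
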