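import Cfsg.Statements.S4344

import Mathlib

set_option autoImplicit false
open Cfsg
open scoped Pointwise

namespace Cfsg.Agent.S4344

theorem aux_mem_smul {G : Type*} [Group G] {p : ℕ} (P : Sylow p G) (g y : G) :
    y ∈ g • P ↔ g⁻¹ * y * g ∈ P := by
  change y ∈ ((g • P : Sylow p G) : Subgroup G) ↔ _
  rw [Sylow.coe_subgroup_smul, Subgroup.mem_pointwise_smul_iff_inv_smul_mem]
  have e : (MulAut.conj g)⁻¹ • y = g⁻¹ * y * g := by simp [MulAut.smul_def]
  rw [e]
  rfl

theorem result {S : Type*} [Group S] [Finite S]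
    [IsSimpleGroup S] (hS : ¬ IsMulCommutative S) (p : ℕ) [Fact p.Prime] (hp : p ∣ Nat.card S)
    (M : Subgroup S) (hM : IsCoatom M) (C : Subgroup S) (hCM : C ≤ M) (hCn : (C.subgroupOf M).Normal)
    (hC : IsCyclic C) (P : Sylow p S) (hP : (P : Subgroup S) ≤ C) :
    Nat.card (Sylow p S) = M.index := by
  have hcomm : ∀ a ∈ C, ∀ b ∈ C, a * b = b * a := by
    intro a ha b hb
    have h1 := mul_comm' (⟨a, ha⟩ : C) ⟨b, hb⟩
    exact congrArg Subtype.val h1
  have hMle : M ≤ Subgroup.normalizer ((P : Subgroup S) : Set S) := by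
    intro x hx
    have hQC : ((x • P : Sylow p S) : Subgroup S) ≤ C := by
      intro y hy
      have hy' : x⁻¹ * y * x ∈ P := (aux_mem_smul P x y).mp hy
      have h1 : x⁻¹ * y * x ∈ C := hP hy'
      have h2 := hCn.conj_mem ⟨x⁻¹ * y * x, hCM h1⟩ h1 ⟨x, hx⟩
      have h3 : x * (x⁻¹ * y * x) * x⁻¹ ∈ C := h2
      have e : x * (x⁻¹ * y * x) * x⁻¹ = y := by group
      rw [e] at h3
      exact h3
    have hnorm : (P : Subgroup S) ≤ Subgroup.normalizer (((x • P : Sylow p S) : Subgroup S) : Set S) := by
      intro a ha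
      rw [Subgroup.mem_normalizer_iff]
      intro h
      constructor
      · intro hh
        have e : a * h * a⁻¹ = h := by
          rw [hcomm a (hP ha) h (hQC hh), mul_assoc, mul_inv_cancel, mul_one]
        rw [e]
        exact hh
      · intro hh
        have e : a * h * a⁻¹ = h := by
          have h4 := hcomm a⁻¹ (inv_mem (hP ha)) _ (hQC hh)
          have h5 : h * a⁻¹ = a * h * a⁻¹ * a⁻¹ := by rw [← h4]; group
          exact (mul_right_cancel h5).symm
        rw [e] at hh
        exact hh
    have hpg : IsPGroup p ((P : Subgroup S) ⊔ ((x • P : Sylow p S) : Subgroup S) : Subgroup S) :=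
      IsPGroup.to_sup_of_normal_right' P.2 (x • P : Sylow p S).2 hnorm
    have h5 := (x • P : Sylow p S).3 hpg le_sup_right
    have hle : (P : Subgroup S) ≤ ((x • P : Sylow p S) : Subgroup S) := by
      rw [← h5]; exact le_sup_left
    have h6 : x • P = P := Sylow.ext (P.3 (x • P : Sylow p S).2 hle)
    exact Sylow.smul_eq_iff_mem_normalizer.mp h6
  rw [Sylow.card_eq_index_normalizer P]
  rcases hM.le_iff.mp hMle with h | h
  · exfalso
    have hnormal : (P : Subgroup S).Normal := Subgroup.normalizer_eq_top_iff.mp h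
    rcases hnormal.eq_bot_or_eq_top with hb | ht
    · exact P.ne_bot_of_dvd_card hp hb
    · apply hS
      have hCtop : C = ⊤ := by
        rw [eq_top_iff, ← ht]; exact hP
      rw [isMulCommutative_iff]
      intro a b
      exact hcomm a (by rw [hCtop]; trivial) b (by rw [hCtop]; trivial)
  · exact congrArg Subgroup.index h

end Cfsg.Agent.S4344
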