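import Cfsg.Statements.S4377

import Mathlib

set_option autoImplicit false
open Cfsg
open scoped Pointwise

namespace Cfsg.Agent.S4377

theorem aux_sum {G : Type*} [Group G] [Finite G] (n : ℕ) (hn : n ≠ 0) :
    ∑ m ∈ n.divisors, Nat.card {g : G // orderOf g = m} = Nat.card {g : G // g ^ n = 1} := by
  classical
  let _ : Fintype G := Fintype.ofFinite G
  have h := sum_card_orderOf_eq_card_pow_eq_one (G := G) hn
  rw [Nat.card_eq_fintype_card, Fintype.card_subtype, ← h]
  apply Finset.sum_congr rfl
  intro m _
  rw [Nat.card_eq_fintype_card, Fintype.card_subtype]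

theorem aux_card {G : Type*} [Group G] [Finite G] :
    Nat.card {g : G // g ^ (Nat.card G) = 1} = Nat.card G := by
  apply Nat.card_congr
  exact Equiv.subtypeUnivEquiv (fun g => pow_card_eq_one')

theorem aux_card' {G : Type*} [Group G] [Finite G] (k : ℕ) :
    Nat.card {g : G // g ^ (Nat.card G * k) = 1} = Nat.card G := by
  apply Nat.card_congr
  exact Equiv.subtypeUnivEquiv (fun g => by rw [pow_mul, pow_card_eq_one', one_pow])

theorem aux_zero {G : Type*} [Group G] [Finite G] :
    Nat.card {g : G // orderOf g = 0} = 0 := by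
  have : IsEmpty {g : G // orderOf g = 0} := ⟨fun ⟨g, hg⟩ => (orderOf_pos g).ne' hg⟩
  exact Nat.card_of_isEmpty

theorem result {G H : Type*} [Group G] [Finite G] [Group H] [Finite H] :
    (∀ n : ℕ, Nat.card {g : G // orderOf g = n} = Nat.card {h : H // orderOf h = n}) ↔
      ∀ n : ℕ, Nat.card {g : G // g ^ n = 1} = Nat.card {h : H // h ^ n = 1} := by
  constructor
  · intro h
    have hpos : ∀ n : ℕ, n ≠ 0 →
        Nat.card {g : G // g ^ n = 1} = Nat.card {h : H // h ^ n = 1} := by
      intro n hn
      rw [← aux_sum n hn, ← aux_sum n hn]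
      exact Finset.sum_congr rfl (fun m _ => h m)
    have hcard : Nat.card G = Nat.card H := by
      have hG : Nat.card G ≠ 0 := Nat.card_pos.ne'
      have hH : Nat.card H ≠ 0 := Nat.card_pos.ne'
      have h1 := hpos (Nat.card G * Nat.card H) (mul_ne_zero hG hH)
      rw [aux_card' (G := G) (Nat.card H), mul_comm, aux_card' (G := H) (Nat.card G)] at h1
      exact h1
    intro n
    rcases Nat.eq_zero_or_pos n with rfl | hn
    · have e1 : Nat.card {g : G // g ^ 0 = 1} = Nat.card G :=
        Nat.card_congr (Equiv.subtypeUnivEquiv (fun g => pow_zero g))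
      have e2 : Nat.card {g : H // g ^ 0 = 1} = Nat.card H :=
        Nat.card_congr (Equiv.subtypeUnivEquiv (fun g => pow_zero g))
      rw [e1, e2, hcard]
    · exact hpos n hn.ne'
  · intro h n
    induction n using Nat.strong_induction_on with
    | _ n ih =>
      rcases Nat.eq_zero_or_pos n with rfl | hn
      · rw [aux_zero, aux_zero]
      · have h1 := aux_sum (G := G) n hn.ne'
        have h2 := aux_sum (G := H) n hn.ne'
        rw [← Nat.insert_self_properDivisors hn.ne',
          Finset.sum_insert Nat.self_notMem_properDivisors] at h1 h2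
        have h3 : ∑ m ∈ n.properDivisors, Nat.card {g : G // orderOf g = m} =
            ∑ m ∈ n.properDivisors, Nat.card {g : H // orderOf g = m} := by
          apply Finset.sum_congr rfl
          intro m hm
          exact ih m (Nat.mem_properDivisors.mp hm).2
        have h4 := h n
        omega

end Cfsg.Agent.S4377
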