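import Cfsg.Statements.S4387

import Mathlib

set_option autoImplicit false
open Pointwise
open Cfsg
open scoped Pointwise

namespace Cfsg.Agent.S4387

theorem exists_not_mem_conj {G : Type*} [Group G] [Finite G] (M : Subgroup G) (hM : M ≠ ⊤) :
    ∃ x : G, ∀ g : G, x ∉ MulAut.conj g • M := by
  classical
  by_contra hcon
  push Not at hcon
  let _ : Fintype G := Fintype.ofFinite G
  let _ : Fintype (G ⧸ M) := Fintype.ofFinite _
  let _ : Fintype (MulAction.orbitRel.Quotient G (G ⧸ M)) := Fintype.ofFinite _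
  have hB := MulAction.sum_card_fixedBy_eq_card_orbits_mul_card_group G (G ⧸ M)
  have horb : Fintype.card (MulAction.orbitRel.Quotient G (G ⧸ M)) = 1 := by
    rw [Fintype.card_eq_one_iff]
    refine ⟨Quotient.mk'' (QuotientGroup.mk 1), ?_⟩
    intro y
    induction y using Quotient.inductionOn' with
    | h q =>
      apply Quotient.sound'
      obtain ⟨g, rfl⟩ := QuotientGroup.mk_surjective q
      refine ⟨g, ?_⟩
      change g • (QuotientGroup.mk 1 : G ⧸ M) = QuotientGroup.mk g
      rw [MulAction.Quotient.smul_mk, smul_eq_mul, mul_one]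
  rw [horb, one_mul] at hB
  have h1 : ∀ a : G, 1 ≤ Fintype.card (MulAction.fixedBy (G ⧸ M) a) := by
    intro a
    obtain ⟨g, hg⟩ := hcon a
    rw [Nat.succ_le_iff, Fintype.card_pos_iff]
    refine ⟨⟨QuotientGroup.mk g, ?_⟩⟩
    rw [MulAction.mem_fixedBy, MulAction.Quotient.smul_mk, QuotientGroup.eq]
    rw [Subgroup.mem_pointwise_smul_iff_inv_smul_mem] at hg
    have e : (MulAut.conj g)⁻¹ • a = g⁻¹ * a * g := by simp [MulAut.smul_def]
    rw [e] at hg
    have h3 := M.inv_mem hg
    have e2 : (a • g)⁻¹ * g = (g⁻¹ * a * g)⁻¹ := by rw [smul_eq_mul]; group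
    rw [e2]
    exact h3
  have h2 : 2 ≤ Fintype.card (MulAction.fixedBy (G ⧸ M) (1 : G)) := by
    have e : Fintype.card (MulAction.fixedBy (G ⧸ M) (1 : G)) = Fintype.card (G ⧸ M) :=
      Fintype.card_congr (Equiv.subtypeUnivEquiv (fun q => by simp))
    rw [e, ← Nat.card_eq_fintype_card]
    have hidx1 : M.index ≠ 1 := fun h1 => hM (Subgroup.index_eq_one.mp h1)
    have hidx0 : M.index ≠ 0 := Subgroup.index_ne_zero_of_finite
    have : Nat.card (G ⧸ M) = M.index := rfl
    omega
  have hlt : ∑ _a : G, 1 < ∑ a : G, Fintype.card (MulAction.fixedBy (G ⧸ M) a) :=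
    Finset.sum_lt_sum (fun a _ => h1 a) ⟨1, Finset.mem_univ _, h2⟩
  rw [hB] at hlt
  simp at hlt

theorem result {G : Type*} [Group G] [Finite G] [Nontrivial G]
    (h : ∀ M N : Subgroup G, IsCoatom M → IsCoatom N → ∃ g : G, N = MulAut.conj g • M) :
    IsCyclic G ∧ IsPrimePow (Nat.card G) := by
  obtain ⟨M, hM⟩ : ∃ M : Subgroup G, IsCoatom M := by
    rcases eq_top_or_exists_le_coatom (⊥ : Subgroup G) with h' | ⟨M, hM, _⟩
    · exact absurd h' bot_ne_top
    · exact ⟨M, hM⟩
  obtain ⟨x, hx⟩ := exists_not_mem_conj M hM.1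
  have hxtop : Subgroup.zpowers x = ⊤ := by
    rcases eq_top_or_exists_le_coatom (Subgroup.zpowers x) with h' | ⟨N, hN, hle⟩
    · exact h'
    · exfalso
      obtain ⟨g, rfl⟩ := h M N hM hN
      exact hx g (hle (Subgroup.mem_zpowers x))
  have hcyc : IsCyclic G := isCyclic_iff_exists_zpowers_eq_top.mpr ⟨x, hxtop⟩
  refine ⟨hcyc, ?_⟩
  have hcomm : ∀ a b : G, a * b = b * a := fun a b => mul_comm' a b
  have huniq : ∀ N : Subgroup G, IsCoatom N → N = M := by
    intro N hN
    obtain ⟨g, rfl⟩ := h M N hM hN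
    ext y
    rw [Subgroup.mem_pointwise_smul_iff_inv_smul_mem]
    have e : (MulAut.conj g)⁻¹ • y = y := by
      have e1 : (MulAut.conj g)⁻¹ • y = g⁻¹ * y * g := by simp [MulAut.smul_def]
      rw [e1, hcomm g⁻¹ y, mul_assoc, inv_mul_cancel, mul_one]
    rw [e]
  have hidx : M.index ≠ 1 := fun h1 => hM.1 (Subgroup.index_eq_one.mp h1)
  obtain ⟨p, hp, hpdvd⟩ := Nat.exists_prime_and_dvd hidx
  have := Fact.mk hp
  have P : Sylow p G := default
  have hPtop : (P : Subgroup G) = ⊤ := by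
    rcases eq_top_or_exists_le_coatom (P : Subgroup G) with h' | ⟨N, hN, hle⟩
    · exact h'
    · exfalso
      rw [huniq N hN] at hle
      exact P.not_dvd_index (hpdvd.trans (Subgroup.index_dvd_of_le hle))
  obtain ⟨k, hk⟩ := IsPGroup.iff_card.mp P.2
  have hcard : Nat.card G = p ^ k := by
    rw [← hk, ← Subgroup.card_top (G := G), ← hPtop]
  refine ⟨p, k, hp.prime, ?_, hcard.symm⟩
  rcases Nat.eq_zero_or_pos k with rfl | hk0
  · exfalso
    rw [pow_zero] at hcard
    have := Finite.one_lt_card (α := G)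
    omega
  · exact hk0

end Cfsg.Agent.S4387
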