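import Mathlib
import Cfsg.Statements.S4405
import Cfsg.Agent.S1784

set_option autoImplicit false
open Pointwise
open Cfsg
open scoped commutatorElement

namespace Cfsg.Agent.S4405

open Cfsg.Agent.Lib.Helper8.ThFact Cfsg.Agent.S1784

variable {G : Type*} [Group G]

theorem arith1 (a b i ra rb ri : ℕ) (h1 : a * ra = 32) (h2 : b * rb = 32) (h3 : i * ri = 32)
    (ha : 8 ≤ a) (hb : 8 ≤ b) (hi : i ≤ 2) (hle : ri ≤ ra * rb) : a = 8 := by
  have hra : ra ≤ 4 := by
    by_contra h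
    have h' : 5 ≤ ra := by omega
    have : 8 * 5 ≤ a * ra := Nat.mul_le_mul ha h'
    omega
  have hrb : rb ≤ 4 := by
    by_contra h
    have h' : 5 ≤ rb := by omega
    have : 8 * 5 ≤ b * rb := Nat.mul_le_mul hb h'
    omega
  have hri : 16 ≤ ri := by
    by_contra h
    have h' : ri ≤ 15 := by omega
    have : i * ri ≤ 2 * 15 := Nat.mul_le_mul hi h'
    omega
  have hra4 : ra = 4 := by
    by_contra h
    have h' : ra ≤ 3 := by omega
    have : ra * rb ≤ 3 * 4 := Nat.mul_le_mul h' hrb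
    omega
  rw [hra4] at h1
  omega

theorem arith2 (a b : ℕ) (h : a * b = 2 * 32) (hle : b ≤ a) : 8 ≤ a := by
  by_contra hcon
  have h' : a ≤ 7 := by omega
  have : a * b ≤ 7 * 7 := Nat.mul_le_mul h' (hle.trans h')
  omega

theorem conj_pow_central (y q ζ : G) (hζ : y * ζ = ζ * y) (h : y * q * y⁻¹ = ζ * q) :
    ∀ k : ℕ, y ^ k * q * (y ^ k)⁻¹ = ζ ^ k * q := by
  intro k
  induction k with
  | zero => simp
  | succ k ih =>
    have hc : y * ζ ^ k = ζ ^ k * y := (Commute.pow_right (show Commute y ζ from hζ) k).eq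
    have e1 : ∀ Y : G, (y * Y) * q * (y * Y)⁻¹ = y * (Y * q * Y⁻¹) * y⁻¹ := by intro Y; group
    have e2 : ∀ Z : G, y * (Z * q) * y⁻¹ = (y * Z) * (q * y⁻¹) := by intro Z; group
    have e3 : ∀ Z : G, (Z * y) * (q * y⁻¹) = Z * (y * q * y⁻¹) := by intro Z; group
    rw [pow_succ', e1, ih, e2, hc, e3, h, pow_succ, mul_assoc]

theorem exists_Q0 (H Zz : Subgroup G) (α : G) (hcenG : ∀ k ∈ Zz, ∀ g : G, g * k = k * g) :
    ∃ Q₀ : Subgroup G, ∀ q, q ∈ Q₀ ↔ q ∈ H ∧ α * q * α⁻¹ * q⁻¹ ∈ Zz := by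
  refine ⟨{ carrier := {q | q ∈ H ∧ α * q * α⁻¹ * q⁻¹ ∈ Zz}
            mul_mem' := ?_
            one_mem' := ?_
            inv_mem' := ?_ }, fun q => Iff.rfl⟩
  · rintro a b ⟨ha, ha'⟩ ⟨hb, hb'⟩
    refine ⟨H.mul_mem ha hb, ?_⟩
    have h1 : α * (a * b) * α⁻¹ * (a * b)⁻¹ =
        (α * a * α⁻¹ * a⁻¹) * (a * (α * b * α⁻¹ * b⁻¹)) * a⁻¹ := by group
    rw [h1, hcenG _ hb' a]
    have h2 : α * a * α⁻¹ * a⁻¹ * (α * b * α⁻¹ * b⁻¹ * a) * a⁻¹ =
        (α * a * α⁻¹ * a⁻¹) * (α * b * α⁻¹ * b⁻¹) := by group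
    rw [h2]
    exact Zz.mul_mem ha' hb'
  · refine ⟨H.one_mem, ?_⟩
    have : α * 1 * α⁻¹ * (1 : G)⁻¹ = 1 := by group
    rw [this]
    exact Zz.one_mem
  · rintro a ⟨ha, ha'⟩
    refine ⟨H.inv_mem ha, ?_⟩
    have h1 : α * a⁻¹ * α⁻¹ * a⁻¹⁻¹ = a⁻¹ * ((α * a * α⁻¹ * a⁻¹)⁻¹ * a) := by group
    rw [h1, ← hcenG _ (Zz.inv_mem ha') a, inv_mul_cancel_left]
    exact Zz.inv_mem ha'

theorem solvable_of_prime_card {A : Type*} [Group A] {p : ℕ} [Fact p.Prime]
    (h : Nat.card A = p) : Group.IsSolvable A := by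
  haveI : IsCyclic A := isCyclic_of_prime_card h
  exact Group.isSolvable_of_comm (fun a b => Std.Commutative.comm (op := (· * ·)) a b)

theorem solvable_320 [Finite G] (hG : Nat.card G = 320) (H : Subgroup G) [H.Normal]
    (hH2 : IsPGroup 2 H) (h32 : Nat.card H = 32) : Group.IsSolvable G := by
  haveI : Fact (Nat.Prime 5) := ⟨by norm_num⟩
  haveI : Fact (Nat.Prime 2) := ⟨Nat.prime_two⟩
  have hq : Nat.card (G ⧸ H) = 10 := by
    have := Subgroup.card_eq_card_quotient_mul_card_subgroup H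
    rw [hG, h32] at this
    omega
  obtain ⟨x, hx⟩ := exists_prime_orderOf_dvd_card' (G := G ⧸ H) 5 (by rw [hq]; norm_num)
  have hKc : Nat.card (Subgroup.zpowers x) = 5 := by rw [Nat.card_zpowers, hx]
  have hKi : (Subgroup.zpowers x).index = 2 := by
    have := Subgroup.card_mul_index (Subgroup.zpowers x)
    rw [hKc, hq] at this
    omega
  haveI hKn : (Subgroup.zpowers x).Normal := Subgroup.normal_of_index_eq_two hKi
  haveI : Group.IsSolvable ↥(Subgroup.zpowers x) := solvable_of_prime_card hKc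
  haveI : Group.IsSolvable ((G ⧸ H) ⧸ Subgroup.zpowers x) :=
    solvable_of_prime_card (p := 2) (by rw [← Subgroup.index_eq_card]; exact hKi)
  haveI : Group.IsSolvable (G ⧸ H) :=
    Group.isSolvable_of_ker_le_range (Subgroup.zpowers x).subtype
      (QuotientGroup.mk' (Subgroup.zpowers x))
      (le_of_eq (by rw [QuotientGroup.ker_mk', Subgroup.range_subtype]))
  haveI : Group.IsNilpotent ↥H := hH2.isNilpotent
  exact Group.isSolvable_of_ker_le_range H.subtype (QuotientGroup.mk' H)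
    (le_of_eq (by rw [QuotientGroup.ker_mk', Subgroup.range_subtype]))

theorem card_fixed [Finite G] (H : Subgroup G) [hHn : H.Normal] (y : G) (hy : y ^ 5 = 1) :
    Nat.card H ≡ Nat.card (H ⊓ Subgroup.centralizer ({y} : Set G) : Subgroup G) [MOD 5] := by
  classical
  haveI : Fact (Nat.Prime 5) := ⟨by norm_num⟩
  haveI : Fintype ↥H := Fintype.ofFinite _
  let φ : Function.End ↥H := fun h => ⟨y * h.1 * y⁻¹, hHn.conj_mem h.1 h.2 y⟩
  have hpow : ∀ k : ℕ, ∀ h : ↥H, ((φ ^ k) h).1 = y ^ k * h.1 * (y ^ k)⁻¹ := by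
    intro k
    induction k with
    | zero =>
      intro h
      rw [pow_zero]
      show h.1 = y ^ 0 * h.1 * (y ^ 0)⁻¹
      simp
    | succ k ih =>
      intro h
      rw [pow_succ']
      show y * ((φ ^ k) h).1 * y⁻¹ = _
      rw [ih h, pow_succ']
      group
  have hφ : φ ^ 5 ^ 1 = 1 := by
    funext h
    apply Subtype.ext
    rw [pow_one, hpow 5 h, hy]
    show 1 * h.1 * 1⁻¹ = h.1
    simp
  have h1 := Equiv.Perm.card_fixedPoints_modEq (f := φ) (p := 5) (n := 1) hφ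
  have h2 : Fintype.card ↥H = Nat.card ↥H := (Nat.card_eq_fintype_card).symm
  have h3 : Fintype.card (Function.fixedPoints φ) =
      Nat.card (H ⊓ Subgroup.centralizer ({y} : Set G) : Subgroup G) := by
    rw [← Nat.card_eq_fintype_card]
    apply Nat.card_congr
    refine ⟨fun f => ⟨f.1.1, ?_⟩, fun d => ⟨⟨d.1, (Subgroup.mem_inf.1 d.2).1⟩, ?_⟩, ?_, ?_⟩
    · refine Subgroup.mem_inf.2 ⟨f.1.2, ?_⟩
      rw [Subgroup.mem_centralizer_iff]
      intro w hw
      rw [Set.mem_singleton_iff] at hw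
      rw [hw]
      have hf : φ f.1 = f.1 := f.2
      have hf' : y * f.1.1 * y⁻¹ = f.1.1 := congrArg Subtype.val hf
      calc y * f.1.1 = (y * f.1.1 * y⁻¹) * y := by group
        _ = f.1.1 * y := by rw [hf']
    · show φ _ = _
      apply Subtype.ext
      show y * d.1 * y⁻¹ = d.1
      have hd := Subgroup.mem_centralizer_iff.1 (Subgroup.mem_inf.1 d.2).2 y rfl
      rw [hd]; group
    · intro f; rfl
    · intro d; rfl
  rw [← h2, ← h3]
  exact h1

theorem main' [Finite G] (P Zz : Subgroup G) (z α : G) (hzz : z * z = 1) (hz1 : z ≠ 1)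
    (hZ : ∀ x, x ∈ Zz ↔ x = 1 ∨ x = z) (hZ2 : Nat.card Zz = 2) (hZP : Zz ≤ P)
    (hcen : ∀ k ∈ Zz, ∀ g ∈ P, g * k = k * g)
    (hcenα : ∀ k ∈ Zz, α * k = k * α)
    (hc : ∀ x ∈ P, ∀ y ∈ P, ⁅x, y⁆ ∈ Zz)
    (hd : ∀ x ∈ P, x * x ∈ Zz)
    (hb : ∀ x ∈ P, (∀ y ∈ P, x * y = y * x) → x ∈ Zz)
    (hαα : α * α = 1)
    (hαP : ∀ p ∈ P, α * p * α⁻¹ ∈ P)
    (hf : ∃ q ∈ P, α * q ≠ q * α)
    (hP2 : IsPGroup 2 P)
    (Q₀ : Subgroup G) (hQ₀ : ∀ q, q ∈ Q₀ ↔ q ∈ P ∧ α * q * α⁻¹ * q⁻¹ ∈ Zz) :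
    Subgroup.closure ((fun q : G => α * q * α⁻¹ * q⁻¹) '' (P : Set G)) =
      (Subgroup.center ↥Q₀).map Q₀.subtype ∧
    P ⊓ Subgroup.centralizer ((Subgroup.closure ((fun q : G => α * q * α⁻¹ * q⁻¹) '' (P : Set G)) :
      Subgroup G) : Set G) = Q₀ ∧
    Zz ≤ Subgroup.closure ((fun q : G => α * q * α⁻¹ * q⁻¹) '' (P : Set G)) ∧
    Subgroup.closure ((fun q : G => α * q * α⁻¹ * q⁻¹) '' (P : Set G)) ≤ P := by
  classical
  have hαinv : α⁻¹ = α := inv_eq_of_mul_eq_one_left hαα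
  have hkk : ∀ k ∈ Zz, k * k = 1 := by
    intro k hk
    rcases (hZ k).1 hk with rfl | rfl
    · simp
    · exact hzz
  have hkinv : ∀ k ∈ Zz, k⁻¹ = k := fun k hk => inv_eq_of_mul_eq_one_left (hkk k hk)
  have hconjP : ∀ k ∈ Zz, ∀ g ∈ P, g⁻¹ * k * g = k := by
    intro k hk g hg
    rw [mul_assoc, ← hcen k hk g hg, ← mul_assoc, inv_mul_cancel, one_mul]
  -- the key identity
  have hinvL : ∀ p ∈ P, ∀ q ∈ P, ⁅p⁻¹, q⁆ = ⁅q, p⁆ := by
    intro p hp q hq
    have h1 : ⁅p⁻¹, q⁆ = p⁻¹ * ⁅q, p⁆ * p := by simp only [commutatorElement_def]; group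
    rw [h1, hconjP _ (hc q hq p hp) p hp]
  have hinvR : ∀ p ∈ P, ∀ q ∈ P, ⁅p, q⁻¹⁆ = ⁅q, p⁆ := by
    intro p hp q hq
    have h1 : ⁅p, q⁻¹⁆ = q⁻¹ * ⁅q, p⁆ * q := by simp only [commutatorElement_def]; group
    rw [h1, hconjP _ (hc q hq p hp) q hq]
  have hconjα : ∀ p ∈ P, ∀ q ∈ P, ⁅α * p * α⁻¹, q⁆ = ⁅p, α * q * α⁻¹⁆ := by
    intro p hp q hq
    have h1 : ⁅α * p * α⁻¹, q⁆ = α * ⁅p, α⁻¹ * q * α⁆ * α⁻¹ := by
      simp only [commutatorElement_def]; group
    have h2 : α⁻¹ * q * α = α * q * α⁻¹ := by rw [hαinv]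
    rw [h1, h2, hcenα _ (hc p hp _ (hαP q hq)), mul_assoc, mul_inv_cancel, mul_one]
  have hkey : ∀ p ∈ P, ∀ q ∈ P, ⁅⁅α, p⁆, q⁆ = ⁅p, ⁅α, q⁆⁆ := by
    intro p hp q hq
    have hp' := hαP p hp
    have hq' := hαP q hq
    have hpi := P.inv_mem hp
    have hqi := P.inv_mem hq
    have e1 : ⁅α, p⁆ = (α * p * α⁻¹) * p⁻¹ := rfl
    have e2 : ⁅α, q⁆ = (α * q * α⁻¹) * q⁻¹ := rfl
    rw [e1, e2, comm_mul_left _ _ _ (hcen _ (hc _ hpi q hq) _ hp'),
      comm_mul_right _ _ _ (hcen _ (hc p hp _ hqi) _ hq'), hinvL p hp q hq, hinvR p hp q hq,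
      hconjα p hp q hq]
    exact hcen _ (hc p hp _ hq') _ (hZP (hc q hq p hp))
  have hcP : ∀ q ∈ P, ⁅α, q⁆ ∈ P := fun q hq => P.mul_mem (hαP q hq) (P.inv_mem hq)
  -- commutators are central in Q₀
  have hcQ₀ : ∀ q ∈ P, ⁅α, q⁆ ∈ Q₀ := by
    intro q hq
    rw [hQ₀]
    refine ⟨hcP q hq, ?_⟩
    have e1 : α * ⁅α, q⁆ * α⁻¹ = (α * α) * q * α⁻¹ * q⁻¹ * α⁻¹ := by
      simp only [commutatorElement_def]; group
    have e2 : (⁅α, q⁆)⁻¹ = q * α * q⁻¹ * α⁻¹ := by
      simp only [commutatorElement_def]; group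
    have e3 : α * ⁅α, q⁆ * α⁻¹ = (⁅α, q⁆)⁻¹ := by
      rw [e1, e2, hαα, one_mul, hαinv]
    rw [e3, ← mul_inv_rev]
    exact Zz.inv_mem (hd _ (hcP q hq))
  have hcomm : ∀ q ∈ P, ∀ q₀ ∈ Q₀, ⁅α, q⁆ * q₀ = q₀ * ⁅α, q⁆ := by
    intro q hq q₀ hq₀
    obtain ⟨hq₀P, hq₀z⟩ := (hQ₀ q₀).1 hq₀
    have h1 := hkey q hq q₀ hq₀P
    have h2 : ⁅q, ⁅α, q₀⁆⁆ = 1 := by
      rw [commutatorElement_eq_one_iff_mul_comm]
      exact hcen _ hq₀z q hq
    rw [h2] at h1
    exact commutatorElement_eq_one_iff_mul_comm.1 h1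
  set A := Subgroup.closure ((fun q : G => α * q * α⁻¹ * q⁻¹) '' (P : Set G)) with hA
  have hAle : A ≤ (Subgroup.center ↥Q₀).map Q₀.subtype := by
    rw [hA, Subgroup.closure_le]
    rintro _ ⟨q, hq, rfl⟩
    refine ⟨⟨⁅α, q⁆, hcQ₀ q hq⟩, ?_, rfl⟩
    rw [SetLike.mem_coe, Subgroup.mem_center_iff]
    intro g
    apply Subtype.ext
    exact (hcomm q hq g.1 g.2).symm
  have hAP : A ≤ P := by
    rw [hA, Subgroup.closure_le]
    rintro _ ⟨q, hq, rfl⟩
    exact hcP q hq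
  have hAgen : ∀ q ∈ P, ⁅α, q⁆ ∈ A := fun q hq => Subgroup.subset_closure ⟨q, hq, rfl⟩
  have hAcomm : ∀ a ∈ A, ∀ q₀ ∈ Q₀, a * q₀ = q₀ * a := by
    intro a ha q₀ hq₀
    obtain ⟨y, hy, rfl⟩ := hAle ha
    have := (Subgroup.mem_center_iff.1 hy) ⟨q₀, hq₀⟩
    exact (congrArg Subtype.val this).symm
  -- Q₀ = C_P(A)
  have hQ₀eq : P ⊓ Subgroup.centralizer (A : Set G) = Q₀ := by
    apply le_antisymm
    · intro q hq
      obtain ⟨hqP, hqc⟩ := Subgroup.mem_inf.1 hq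
      rw [Subgroup.mem_centralizer_iff] at hqc
      rw [hQ₀]
      refine ⟨hqP, ?_⟩
      apply hb _ (hcP q hqP)
      intro p hp
      have h1 := hkey p hp q hqP
      have h2 : ⁅⁅α, p⁆, q⁆ = 1 := by
        rw [commutatorElement_eq_one_iff_mul_comm]
        exact hqc _ (hAgen p hp)
      rw [h2] at h1
      exact (commutatorElement_eq_one_iff_mul_comm.1 h1.symm).symm
    · intro q hq
      refine Subgroup.mem_inf.2 ⟨((hQ₀ q).1 hq).1, ?_⟩
      rw [Subgroup.mem_centralizer_iff]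
      intro a ha
      exact hAcomm a ha q hq
  -- z ∈ A
  have hzA : Zz ≤ A := by
    intro k hk
    rcases (hZ k).1 hk with rfl | rfl
    · exact A.one_mem
    · obtain ⟨q, hq, hne⟩ := hf
      have hne1 : ⁅α, q⁆ ≠ 1 := fun h => hne (commutatorElement_eq_one_iff_mul_comm.1 h)
      by_cases hcz : ⁅α, q⁆ ∈ Zz
      · rcases (hZ _).1 hcz with h | h
        · exact absurd h hne1
        · rw [← h]; exact hAgen q hq
      · have h1 : ¬ ∀ y ∈ P, ⁅α, q⁆ * y = y * ⁅α, q⁆ := fun h => hcz (hb _ (hcP q hq) h)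
        push_neg at h1
        obtain ⟨p, hp, hpne⟩ := h1
        have h2 : ⁅p, ⁅α, q⁆⁆ ≠ 1 := fun h =>
          hpne (commutatorElement_eq_one_iff_mul_comm.1 h).symm
        have h3 : ⁅p, ⁅α, q⁆⁆ = k := by
          rcases (hZ _).1 (hc p hp _ (hcP q hq)) with h | h
          · exact absurd h h2
          · exact h
        have h4 : ⁅p, ⁅α, q⁆⁆ = (⁅α, p⁆)⁻¹ * ⁅α, p * q⁆ * (⁅α, q⁆)⁻¹ := by
          simp only [commutatorElement_def]; group
        rw [← h3, h4]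
        exact A.mul_mem (A.mul_mem (A.inv_mem (hAgen p hp)) (hAgen _ (P.mul_mem hp hq)))
          (A.inv_mem (hAgen q hq))
  have hZQ₀ : Zz ≤ Q₀ := by
    intro k hk
    rw [hQ₀]
    refine ⟨hZP hk, ?_⟩
    have : α * k * α⁻¹ * k⁻¹ = 1 := by
      rw [hcenα k hk, mul_assoc k, mul_inv_cancel, mul_one, mul_inv_cancel]
    rw [this]
    exact Zz.one_mem
  have hQ₀P : Q₀ ≤ P := fun q hq => ((hQ₀ q).1 hq).1
  have c1 := cl P Zz z hzz hZ hZ2 hcen hc hb hP2 A hzA hAP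
  have c2 := cl P Zz z hzz hZ hZ2 hcen hc hb hP2 Q₀ hZQ₀ hQ₀P
  rw [hQ₀eq] at c1
  have hQpos : 0 < Nat.card Q₀ := Nat.card_pos
  have hcardeq : Nat.card (P ⊓ Subgroup.centralizer (Q₀ : Set G) : Subgroup G) = Nat.card A := by
    have : Nat.card Q₀ * Nat.card (P ⊓ Subgroup.centralizer (Q₀ : Set G) : Subgroup G) =
        Nat.card Q₀ * Nat.card A := by
      rw [mul_comm, c2, ← c1]
    exact Nat.eq_of_mul_eq_mul_left hQpos this
  have hAle2 : A ≤ P ⊓ Subgroup.centralizer (Q₀ : Set G) := by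
    intro a ha
    refine Subgroup.mem_inf.2 ⟨hAP ha, ?_⟩
    rw [Subgroup.mem_centralizer_iff]
    intro q₀ hq₀
    exact (hAcomm a ha q₀ hq₀).symm
  have hAeq : A = P ⊓ Subgroup.centralizer (Q₀ : Set G) :=
    Subgroup.eq_of_le_of_card_ge hAle2 (le_of_eq hcardeq)
  refine ⟨le_antisymm hAle ?_, hQ₀eq, hzA, hAP⟩
  rintro _ ⟨y, hy, rfl⟩
  rw [hAeq]
  refine Subgroup.mem_inf.2 ⟨hQ₀P y.2, ?_⟩
  rw [Subgroup.mem_centralizer_iff]
  intro q₀ hq₀
  have := (Subgroup.mem_center_iff.1 hy) ⟨q₀, hq₀⟩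
  exact congrArg Subtype.val this

set_option maxHeartbeats 1600000 in
/-- Let G be a finite group of order 320 = 64·5 whose largest normal 2-subgroup H = O₂(G) equals the Fitting subgroup F(G) and is extraspecial of order 32 containing no elementary abelian subgroup of order 8 (so H is the central product of a quaternion group and a dihedral group of order 8). If T is an involution of G outside H whose centralizer in H contains an elementary abelian subgroup of order 4, then C_H(T) itself is elementary abelian of order 4. -/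
theorem result {G : Type*} [Group G] [Finite G]
    (hG : Nat.card G = 320) (hHF : Cfsg.pCore 2 G = Cfsg.fittingSubgroup G)
    (hex : Cfsg.IsExtraspecial 2 ↥(Cfsg.pCore 2 G)) (h32 : Nat.card ↥(Cfsg.pCore 2 G) = 32)
    (hminus : ∀ A : Subgroup G, A ≤ Cfsg.pCore 2 G → Cfsg.IsElementaryAbelian 2 A → Nat.card ↥A ≤ 4)
    (T : G) (hT : orderOf T = 2) (hTH : T ∉ Cfsg.pCore 2 G)
    (V : Subgroup G) (hV : V ≤ Cfsg.pCore 2 G ⊓ Subgroup.centralizer ({T} : Set G)) (hV4 : Nat.card ↥V = 4) (hVe : Cfsg.IsElementaryAbelian 2 V) :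
    Nat.card ↥(Cfsg.pCore 2 G ⊓ Subgroup.centralizer ({T} : Set G)) = 4 ∧
      Cfsg.IsElementaryAbelian 2 (Cfsg.pCore 2 G ⊓ Subgroup.centralizer ({T} : Set G)) := by
  classical
  haveI : Fact (Nat.Prime 2) := ⟨Nat.prime_two⟩
  haveI : Fact (Nat.Prime 5) := ⟨by norm_num⟩
  set H := Cfsg.pCore 2 G with hHdef
  haveI hHn : H.Normal := Cfsg.Agent.Lib.Helper2.Fit.pCore_normal 2
  have hH2 : IsPGroup 2 ↥H := Cfsg.Agent.Lib.Helper2.Fit.pCore_isPGroup 2
  haveI hsol : Group.IsSolvable G := solvable_320 hG H hH2 h32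
  have hCH : Subgroup.centralizer (H : Set G) ≤ H := by
    have h1 := Cfsg.Agent.Lib.Helper2.Comp.centralizer_genFitting_le (G := G)
    have h2 : Cfsg.generalizedFittingSubgroup G = H := by
      show Cfsg.layer G ⊔ Cfsg.fittingSubgroup G = H
      rw [Cfsg.Agent.Lib.Helper2.Comp.layer_eq_bot_of_solvable, bot_sup_eq, ← hHF]
    rw [h2] at h1
    exact h1
  -- the centre of H
  obtain ⟨zc, hzc1, hzcu⟩ := (Nat.card_eq_two_iff' (1 : Subgroup.center ↥H)).1 hex.2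
  set z : G := zc.1.1 with hzdef
  have hzH : z ∈ H := zc.1.2
  have hz1 : z ≠ 1 := by
    intro h
    apply hzc1
    apply Subtype.ext
    apply Subtype.ext
    exact h
  have hzcenH : ∀ g ∈ H, g * z = z * g := by
    intro g hg
    have := Subgroup.mem_center_iff.1 zc.2 ⟨g, hg⟩
    exact congrArg Subtype.val this
  have hcenH' : ∀ w : ↥H, w ∈ Subgroup.center ↥H → w.1 = 1 ∨ w.1 = z := by
    intro w hw
    by_cases hw1 : w = 1
    · left; rw [hw1]; rfl
    · right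
      have := hzcu ⟨w, hw⟩ (by intro h; exact hw1 (congrArg Subtype.val h))
      exact congrArg (fun t : Subgroup.center ↥H => t.1.1) this
  have hzz : z * z = 1 := by
    have h1 := pow_card_eq_one' (G := Subgroup.center ↥H) (x := zc)
    rw [hex.2] at h1
    have h2 := congrArg (fun t : Subgroup.center ↥H => t.1.1) h1
    rw [← pow_two]
    exact h2
  have hzo : orderOf z = 2 := orderOf_eq_prime (by rw [pow_two]; exact hzz) hz1
  have hzinv : z⁻¹ = z := inv_eq_of_mul_eq_one_left hzz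
  have hZ : ∀ x, x ∈ Subgroup.zpowers z ↔ x = 1 ∨ x = z := by
    intro x
    constructor
    · intro hx
      obtain ⟨k, rfl⟩ := Subgroup.mem_zpowers_iff.1 hx
      have h1 := zpow_mod_orderOf z k
      rw [hzo] at h1
      rcases Int.emod_two_eq_zero_or_one k with h | h
      · left
        have h2 : k % ((2 : ℕ) : ℤ) = 0 := by exact_mod_cast h
        rw [h2, zpow_zero] at h1
        exact h1.symm
      · right
        have h2 : k % ((2 : ℕ) : ℤ) = 1 := by exact_mod_cast h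
        rw [h2, zpow_one] at h1
        exact h1.symm
    · rintro (rfl | rfl)
      · exact Subgroup.one_mem _
      · exact Subgroup.mem_zpowers _
  have hZ2 : Nat.card (Subgroup.zpowers z) = 2 := by rw [Nat.card_zpowers, hzo]
  have hZP : Subgroup.zpowers z ≤ H := by
    rw [Subgroup.zpowers_le]; exact hzH
  have hzG : ∀ g : G, g * z = z * g := by
    intro g
    have h1 : g * z * g⁻¹ ∈ H := hHn.conj_mem z hzH g
    have h2 : (⟨g * z * g⁻¹, h1⟩ : ↥H) ∈ Subgroup.center ↥H := by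
      rw [Subgroup.mem_center_iff]
      intro w
      apply Subtype.ext
      show w.1 * (g * z * g⁻¹) = g * z * g⁻¹ * w.1
      have h3 := hzcenH (g⁻¹ * w.1 * g) (by
        have := hHn.conj_mem w.1 w.2 g⁻¹
        simpa using this)
      calc w.1 * (g * z * g⁻¹) = g * ((g⁻¹ * w.1 * g) * z) * g⁻¹ := by group
        _ = g * (z * (g⁻¹ * w.1 * g)) * g⁻¹ := by rw [h3]
        _ = g * z * g⁻¹ * w.1 := by group
    rcases hcenH' _ h2 with h | h
    · exfalso
      apply hz1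
      have h' : g * z * g⁻¹ = 1 := h
      have : z = g⁻¹ * (g * z * g⁻¹) * g := by group
      rw [this, h']; group
    · have h' : g * z * g⁻¹ = z := h
      calc g * z = (g * z * g⁻¹) * g := by group
        _ = z * g := by rw [h']
  have hcenG : ∀ k ∈ Subgroup.zpowers z, ∀ g : G, g * k = k * g := by
    intro k hk g
    rcases (hZ k).1 hk with rfl | rfl
    · simp
    · exact hzG g
  have hcen : ∀ k ∈ Subgroup.zpowers z, ∀ g ∈ H, g * k = k * g := fun k hk g _ => hcenG k hk g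
  have hc : ∀ x ∈ H, ∀ y ∈ H, ⁅x, y⁆ ∈ Subgroup.zpowers z := by
    intro x hx y hy
    have h1 : ⁅(⟨x, hx⟩ : ↥H), ⟨y, hy⟩⁆ ∈ commutator ↥H := by
      rw [commutator_def]
      exact Subgroup.commutator_mem_commutator (Subgroup.mem_top _) (Subgroup.mem_top _)
    rw [hex.1.2.2] at h1
    exact (hZ _).2 (hcenH' _ h1)
  have hd : ∀ x ∈ H, x * x ∈ Subgroup.zpowers z := by
    intro x hx
    have h1 := (Cfsg.Agent.S0012.result 2 hex.1.1).2 (⟨x, hx⟩ : ↥H)
    rw [hex.1.2.1] at h1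
    have h2 := (hZ _).2 (hcenH' _ h1)
    rw [← pow_two]
    exact h2
  have hb : ∀ x ∈ H, (∀ y ∈ H, x * y = y * x) → x ∈ Subgroup.zpowers z := by
    intro x hx hcomm
    have h1 : (⟨x, hx⟩ : ↥H) ∈ Subgroup.center ↥H := by
      rw [Subgroup.mem_center_iff]
      intro g
      apply Subtype.ext
      exact (hcomm g.1 g.2).symm
    exact (hZ _).2 (hcenH' _ h1)
  have hkk : ∀ k ∈ Subgroup.zpowers z, k * k = 1 := by
    intro k hk
    rcases (hZ k).1 hk with rfl | rfl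
    · simp
    · exact hzz
  -- involutions outside H
  have hinv : ∀ α : G, α * α = 1 → α ∉ H →
      (∀ p ∈ H, α * p * α⁻¹ ∈ H) ∧ (∃ q ∈ H, α * q ≠ q * α) := by
    intro α _ hαH
    refine ⟨fun p hp => hHn.conj_mem p hp α, ?_⟩
    by_contra hcon
    push_neg at hcon
    apply hαH
    apply hCH
    rw [Subgroup.mem_centralizer_iff]
    intro h hh
    exact (hcon h hh).symm
  have hTT : T * T = 1 := by
    have := pow_orderOf_eq_one T
    rw [hT, pow_two] at this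
    exact this
  have hTinv : T⁻¹ = T := inv_eq_of_mul_eq_one_left hTT
  -- a conjugate T' of T with 5 ∣ o(T T')
  have hcard2 : ∀ K : Subgroup G, IsPGroup 2 ↥K → Nat.card K ≤ 64 := by
    intro K hK
    obtain ⟨k, hk⟩ := hK.exists_card_eq
    have hdvd := Subgroup.card_subgroup_dvd_card K
    rw [hk, hG] at hdvd
    have hk6 : k ≤ 6 := by
      by_contra hk6
      push_neg at hk6
      have h7 : 2 ^ 7 ∣ 320 := (pow_dvd_pow 2 hk6).trans hdvd
      norm_num at h7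
    rw [hk]
    calc 2 ^ k ≤ 2 ^ 6 := Nat.pow_le_pow_right (by norm_num) hk6
      _ = 64 := by norm_num
  have hex5 : ∃ g : G, 5 ∣ orderOf (T * (g * T * g⁻¹)) := by
    by_contra hcon
    push_neg at hcon
    have hT2 : IsPGroup 2 ↥(Subgroup.zpowers T) :=
      IsPGroup.of_card (n := 1) (by rw [Nat.card_zpowers, hT]; norm_num)
    have hS2 : IsPGroup 2 ↥(H ⊔ Subgroup.zpowers T) := IsPGroup.to_sup_of_normal_left hH2 hT2
    have hS64 : 64 ≤ Nat.card ↥(H ⊔ Subgroup.zpowers T) := by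
      obtain ⟨k, hk⟩ := hS2.exists_card_eq
      have hHS : H ≤ H ⊔ Subgroup.zpowers T := le_sup_left
      have hlt : Nat.card H < Nat.card ↥(H ⊔ Subgroup.zpowers T) := by
        by_contra hle
        push_neg at hle
        have h1 := Subgroup.eq_of_le_of_card_ge hHS hle
        apply hTH
        rw [h1]
        exact (le_sup_right : Subgroup.zpowers T ≤ H ⊔ Subgroup.zpowers T) (Subgroup.mem_zpowers T)
      rw [h32, hk] at hlt
      rw [hk]
      have h6 : 6 ≤ k := by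
        by_contra h6
        push_neg at h6
        have h5 : 2 ^ k ≤ 2 ^ 5 := Nat.pow_le_pow_right (by norm_num) (by omega)
        norm_num at h5
        omega
      calc 64 = 2 ^ 6 := by norm_num
        _ ≤ 2 ^ k := Nat.pow_le_pow_right (by norm_num) h6
    have hall : ∀ g : G, g * T * g⁻¹ ∈ H ⊔ Subgroup.zpowers T := by
      intro g
      have hT'T' : (g * T * g⁻¹) * (g * T * g⁻¹) = 1 := by
        calc (g * T * g⁻¹) * (g * T * g⁻¹) = g * (T * T) * g⁻¹ := by group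
          _ = 1 := by rw [hTT]; group
      have hT'inv : (g * T * g⁻¹)⁻¹ = g * T * g⁻¹ := inv_eq_of_mul_eq_one_left hT'T'
      generalize hT'def : g * T * g⁻¹ = T' at hT'T' hT'inv
      have hyo : ¬ 5 ∣ orderOf (T * T') := by rw [← hT'def]; exact hcon g
      have hy2 : IsPGroup 2 ↥(Subgroup.zpowers (T * T')) := by
        have hdvd : orderOf (T * T') ∣ 320 := by rw [← hG]; exact orderOf_dvd_natCard _
        have h64 : orderOf (T * T') ∣ 2 ^ 6 := by
          have hcop : Nat.Coprime (orderOf (T * T')) 5 := by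
            rw [Nat.coprime_comm]
            exact (Nat.Prime.coprime_iff_not_dvd (by norm_num)).2 hyo
          have h320 : orderOf (T * T') ∣ 2 ^ 6 * 5 := by
            have : (2 : ℕ) ^ 6 * 5 = 320 := by norm_num
            rw [this]; exact hdvd
          exact hcop.dvd_of_dvd_mul_right h320
        obtain ⟨j, _, hj⟩ := (Nat.dvd_prime_pow Nat.prime_two).1 h64
        exact IsPGroup.of_card (n := j) (by rw [Nat.card_zpowers, hj])
      have hconj : T * (T * T') * T⁻¹ = (T * T')⁻¹ := by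
        rw [hTinv]
        calc T * (T * T') * T = (T * T) * T' * T := by group
          _ = T' * T := by rw [hTT, one_mul]
          _ = (T * T')⁻¹ := by rw [mul_inv_rev, hTinv, hT'inv]
      have hstep : ∀ h ∈ Subgroup.zpowers (T * T'), T * h * T⁻¹ ∈ Subgroup.zpowers (T * T') := by
        intro h hh
        obtain ⟨k, rfl⟩ := Subgroup.mem_zpowers_iff.1 hh
        rw [← conj_zpow, hconj]
        exact Subgroup.zpow_mem _ (Subgroup.inv_mem _ (Subgroup.mem_zpowers _)) k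
      have hnorm : Subgroup.zpowers T ≤ Subgroup.normalizer (Subgroup.zpowers (T * T') : Set G) := by
        rw [Subgroup.zpowers_le, Subgroup.mem_normalizer_iff]
        intro h
        constructor
        · exact hstep h
        · intro hh
          have h1 := hstep _ hh
          have e : T * (T * h * T⁻¹) * T⁻¹ = h := by
            rw [hTinv]
            calc T * (T * h * T) * T = (T * T) * h * (T * T) := by group
              _ = h := by rw [hTT]; group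
          rw [e] at h1
          exact h1
      have hD2 : IsPGroup 2 ↥(Subgroup.zpowers T ⊔ Subgroup.zpowers (T * T')) :=
        IsPGroup.to_sup_of_normal_right' hT2 hy2 hnorm
      have hS'2 : IsPGroup 2 ↥(H ⊔ (Subgroup.zpowers T ⊔ Subgroup.zpowers (T * T'))) :=
        IsPGroup.to_sup_of_normal_left hH2 hD2
      have hSS' : H ⊔ Subgroup.zpowers T ≤ H ⊔ (Subgroup.zpowers T ⊔ Subgroup.zpowers (T * T')) :=
        sup_le_sup_left le_sup_left H
      have hSeq := Subgroup.eq_of_le_of_card_ge hSS' ((hcard2 _ hS'2).trans hS64)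
      rw [hSeq]
      have hmem : T⁻¹ * (T * T') ∈ H ⊔ (Subgroup.zpowers T ⊔ Subgroup.zpowers (T * T')) := by
        apply Subgroup.mem_sup_right
        exact Subgroup.mul_mem _ (Subgroup.inv_mem _ (Subgroup.mem_sup_left (Subgroup.mem_zpowers T)))
          (Subgroup.mem_sup_right (Subgroup.mem_zpowers _))
      have e : T⁻¹ * (T * T') = T' := by group
      rw [e] at hmem
      exact hmem
    have hN : Subgroup.normalClosure ({T} : Set G) ≤ H ⊔ Subgroup.zpowers T := by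
      show Subgroup.closure (Group.conjugatesOfSet {T}) ≤ _
      rw [Subgroup.closure_le]
      intro w hw
      obtain ⟨a, ha, hconj⟩ := Group.mem_conjugatesOfSet_iff.1 hw
      rw [Set.mem_singleton_iff] at ha
      obtain ⟨c, hc⟩ := isConj_iff.1 hconj
      rw [← hc, ha]
      exact hall c
    have hNle : Subgroup.normalClosure ({T} : Set G) ≤ H :=
      Cfsg.Agent.Lib.Helper2.Fit.le_pCore _ Subgroup.normalClosure_normal (hS2.to_le hN)
    exact hTH (hNle (Subgroup.subset_normalClosure (Set.mem_singleton T)))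
  obtain ⟨g, hg5⟩ := hex5
  have hT'T' : (g * T * g⁻¹) * (g * T * g⁻¹) = 1 := by
    calc (g * T * g⁻¹) * (g * T * g⁻¹) = g * (T * T) * g⁻¹ := by group
      _ = 1 := by rw [hTT]; group
  have hT'H : g * T * g⁻¹ ∉ H := by
    intro h
    apply hTH
    have h1 := hHn.conj_mem _ h g⁻¹
    have e : g⁻¹ * (g * T * g⁻¹) * g⁻¹⁻¹ = T := by group
    rw [e] at h1
    exact h1
  generalize hT'def : g * T * g⁻¹ = T' at hT'T' hT'H hg5
  have hT'inv : T'⁻¹ = T' := inv_eq_of_mul_eq_one_left hT'T'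
  -- the subgroups Q₀
  obtain ⟨Q₀, hQ₀⟩ := exists_Q0 H (Subgroup.zpowers z) T hcenG
  obtain ⟨Q₁, hQ₁⟩ := exists_Q0 H (Subgroup.zpowers z) T' hcenG
  obtain ⟨hTP, hTf⟩ := hinv T hTT hTH
  obtain ⟨hT'P, hT'f⟩ := hinv T' hT'T' hT'H
  obtain ⟨m1, m2, m3, m4⟩ := main' H (Subgroup.zpowers z) z T hzz hz1 hZ hZ2 hZP hcen
    (fun k hk => hcenG k hk T) hc hd hb hTT hTP hTf hH2 Q₀ hQ₀
  obtain ⟨n1, n2, n3, n4⟩ := main' H (Subgroup.zpowers z) z T' hzz hz1 hZ hZ2 hZP hcen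
    (fun k hk => hcenG k hk T') hc hd hb hT'T' hT'P hT'f hH2 Q₁ hQ₁
  set A := Subgroup.closure ((fun q : G => T * q * T⁻¹ * q⁻¹) '' (H : Set G)) with hA
  set A' := Subgroup.closure ((fun q : G => T' * q * T'⁻¹ * q⁻¹) '' (H : Set G)) with hA'
  have c1 := cl H (Subgroup.zpowers z) z hzz hZ hZ2 hcen hc hb hH2 A m3 m4
  have c2 := cl H (Subgroup.zpowers z) z hzz hZ hZ2 hcen hc hb hH2 A' n3 n4
  rw [m2, h32] at c1
  rw [n2, h32] at c2
  have hAQ : A ≤ Q₀ := by
    rw [m1]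
    rintro _ ⟨y, _, rfl⟩
    exact y.2
  have hA'Q : A' ≤ Q₁ := by
    rw [n1]
    rintro _ ⟨y, _, rfl⟩
    exact y.2
  have hQ₀H : Q₀ ≤ H := fun q hq => ((hQ₀ q).1 hq).1
  have hQ₁H : Q₁ ≤ H := fun q hq => ((hQ₁ q).1 hq).1
  have ha8 : 8 ≤ Nat.card Q₀ := arith2 _ _ c1 (Subgroup.card_le_of_le hAQ)
  have hb8 : 8 ≤ Nat.card Q₁ := arith2 _ _ c2 (Subgroup.card_le_of_le hA'Q)
  -- the intersection
  have hn0 : orderOf (T * T') ≠ 0 := (orderOf_pos _).ne'
  have hy₀ : orderOf ((T * T') ^ (orderOf (T * T') / 5)) = 5 := orderOf_pow_orderOf_div hn0 hg5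
  generalize hk₀ : orderOf (T * T') / 5 = k₀ at hy₀
  have hy₀5 : ((T * T') ^ k₀) ^ 5 = 1 := by rw [← hy₀]; exact pow_orderOf_eq_one _
  have hint : Q₀ ⊓ Q₁ ≤ H ⊓ Subgroup.centralizer ({(T * T') ^ k₀} : Set G) := by
    intro q hq
    obtain ⟨hq0, hq1⟩ := Subgroup.mem_inf.1 hq
    obtain ⟨hqH, hζ₁⟩ := (hQ₀ q).1 hq0
    obtain ⟨_, hζ₂⟩ := (hQ₁ q).1 hq1
    refine Subgroup.mem_inf.2 ⟨hqH, ?_⟩
    have e1 : T * q * T⁻¹ = (T * q * T⁻¹ * q⁻¹) * q := by group
    have e2 : T' * q * T'⁻¹ = (T' * q * T'⁻¹ * q⁻¹) * q := by group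
    generalize T * q * T⁻¹ * q⁻¹ = ζ₁ at hζ₁ e1
    generalize T' * q * T'⁻¹ * q⁻¹ = ζ₂ at hζ₂ e2
    have e3 : (T * T') * q * (T * T')⁻¹ = (ζ₁ * ζ₂) * q := by
      calc (T * T') * q * (T * T')⁻¹ = T * (T' * q * T'⁻¹) * T⁻¹ := by group
        _ = T * (ζ₂ * q) * T⁻¹ := by rw [e2]
        _ = (T * ζ₂) * q * T⁻¹ := by group
        _ = (ζ₂ * T) * q * T⁻¹ := by rw [hcenG ζ₂ hζ₂ T]
        _ = ζ₂ * (T * q * T⁻¹) := by group
        _ = ζ₂ * (ζ₁ * q) := by rw [e1]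
        _ = (ζ₂ * ζ₁) * q := by group
        _ = (ζ₁ * ζ₂) * q := by rw [hcenG ζ₁ hζ₁ ζ₂]
    have hζ : ζ₁ * ζ₂ ∈ Subgroup.zpowers z := Subgroup.mul_mem _ hζ₁ hζ₂
    have e4 := conj_pow_central (T * T') q (ζ₁ * ζ₂) (hcenG _ hζ _) e3 k₀
    have hζ' : (ζ₁ * ζ₂) ^ k₀ ∈ Subgroup.zpowers z := Subgroup.pow_mem _ hζ k₀
    generalize (ζ₁ * ζ₂) ^ k₀ = ζ' at hζ' e4
    have e5 := conj_pow_central ((T * T') ^ k₀) q ζ' (hcenG _ hζ' _) e4 5
    rw [hy₀5] at e5
    have e6 : ζ' ^ 5 = ζ' := by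
      have hz2 : ζ' ^ 2 = 1 := by rw [pow_two]; exact hkk ζ' hζ'
      calc ζ' ^ 5 = (ζ' ^ 2) ^ 2 * ζ' := by rw [← pow_mul, ← pow_succ]
        _ = ζ' := by rw [hz2, one_pow, one_mul]
    rw [e6] at e5
    have e7 : ζ' = 1 := by
      have : ζ' * q = 1 * q := by rw [← e5]; group
      exact mul_right_cancel this
    rw [e7, one_mul] at e4
    rw [Subgroup.mem_centralizer_iff]
    intro w hw
    rw [Set.mem_singleton_iff] at hw
    rw [hw]
    calc (T * T') ^ k₀ * q = ((T * T') ^ k₀ * q * ((T * T') ^ k₀)⁻¹) * (T * T') ^ k₀ := by group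
      _ = q * (T * T') ^ k₀ := by rw [e4]
  have hD2 : Nat.card ↥(H ⊓ Subgroup.centralizer ({(T * T') ^ k₀} : Set G)) = 2 := by
    have h1 := card_fixed H ((T * T') ^ k₀) hy₀5
    rw [h32] at h1
    have hDH : H ⊓ Subgroup.centralizer ({(T * T') ^ k₀} : Set G) ≤ H := inf_le_left
    have hD2' : IsPGroup 2 ↥(H ⊓ Subgroup.centralizer ({(T * T') ^ k₀} : Set G)) := hH2.to_le hDH
    obtain ⟨j, hj⟩ := hD2'.exists_card_eq
    have hle := Subgroup.card_le_of_le hDH
    rw [h32, hj] at hle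
    have hj5 : j ≤ 5 := by
      by_contra hj5
      push_neg at hj5
      have : 2 ^ 6 ≤ 2 ^ j := Nat.pow_le_pow_right (by norm_num) hj5
      norm_num at this
      omega
    rw [hj] at h1 ⊢
    have hne : j ≠ 5 := by
      intro h5
      rw [h5] at hj
      have hDeq : H ⊓ Subgroup.centralizer ({(T * T') ^ k₀} : Set G) = H :=
        Subgroup.eq_of_le_of_card_ge hDH (by rw [hj, h32]; norm_num)
      have hyc : (T * T') ^ k₀ ∈ Subgroup.centralizer (H : Set G) := by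
        rw [Subgroup.mem_centralizer_iff]
        intro h hh
        rw [← hDeq] at hh
        have := Subgroup.mem_centralizer_iff.1 (Subgroup.mem_inf.1 hh).2 _ rfl
        exact this.symm
      have hyH := hCH hyc
      have hdvd : orderOf ((⟨(T * T') ^ k₀, hyH⟩ : ↥H)) ∣ Nat.card ↥H := orderOf_dvd_natCard _
      rw [Subgroup.orderOf_mk, hy₀, h32] at hdvd
      norm_num at hdvd
    have h1' : 32 % 5 = 2 ^ j % 5 := h1
    have hj1 : j = 1 := by
      interval_cases j <;> first | rfl | (exfalso; exact hne rfl) | (exfalso; norm_num at h1')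
    rw [hj1]; norm_num
  have hi2 : Nat.card ↥(Q₀ ⊓ Q₁) ≤ 2 := by
    have := Subgroup.card_le_of_le hint
    rw [hD2] at this
    exact this
  -- indices
  have hrel : ∀ K : Subgroup G, K ≤ H → Nat.card K * K.relIndex H = 32 := by
    intro K hK
    have h1 := Subgroup.card_mul_index (K.subgroupOf H)
    rw [card_subgroupOf_of_le hK, h32] at h1
    exact h1
  have r0 := hrel Q₀ hQ₀H
  have r1 := hrel Q₁ hQ₁H
  have ri := hrel (Q₀ ⊓ Q₁) (inf_le_left.trans hQ₀H)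
  have rle : (Q₀ ⊓ Q₁).relIndex H ≤ Q₀.relIndex H * Q₁.relIndex H := Subgroup.relIndex_inf_le
  have hQ8 : Nat.card Q₀ = 8 := arith1 _ _ _ _ _ _ r0 r1 ri ha8 hb8 hi2 rle
  have hA8 : Nat.card A = 8 := by
    rw [hQ8] at c1
    omega
  have hAQeq : A = Q₀ := Subgroup.eq_of_le_of_card_ge hAQ (by rw [hQ8, hA8])
  -- the centralizer of T in H
  have hCQ : H ⊓ Subgroup.centralizer ({T} : Set G) ≤ Q₀ := by
    intro q hq
    obtain ⟨hqH, hqc⟩ := Subgroup.mem_inf.1 hq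
    rw [hQ₀]
    refine ⟨hqH, ?_⟩
    have h1 : T * q = q * T := Subgroup.mem_centralizer_iff.1 hqc T rfl
    have h2 : T * q * T⁻¹ * q⁻¹ = 1 := by rw [h1]; group
    rw [h2]
    exact Subgroup.one_mem _
  have hCdvd := Subgroup.card_dvd_of_le hCQ
  have hVC := Subgroup.card_le_of_le hV
  rw [hQ8] at hCdvd
  rw [hV4] at hVC
  have hC4 : Nat.card ↥(H ⊓ Subgroup.centralizer ({T} : Set G)) = 4 := by
    by_contra hne
    have hC8 : Nat.card ↥(H ⊓ Subgroup.centralizer ({T} : Set G)) = 8 := by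
      have hle := Nat.le_of_dvd (by norm_num) hCdvd
      generalize Nat.card ↥(H ⊓ Subgroup.centralizer ({T} : Set G)) = c at hCdvd hVC hne hle
      interval_cases c <;> omega
    have hCeq : H ⊓ Subgroup.centralizer ({T} : Set G) = Q₀ :=
      Subgroup.eq_of_le_of_card_ge hCQ (by rw [hQ8, hC8])
    -- A is elementary abelian
    have hAcomm : ∀ a ∈ A, ∀ b ∈ A, a * b = b * a := by
      intro a ha b hb
      have ha' := ha
      rw [m1] at ha'
      obtain ⟨y, hy, rfl⟩ := ha'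
      have := (Subgroup.mem_center_iff.1 hy) ⟨b, hAQ hb⟩
      exact (congrArg Subtype.val this).symm
    have hAsq : ∀ a ∈ A, a ^ 2 = 1 := by
      intro a ha
      induction ha using Subgroup.closure_induction with
      | mem x hx =>
        obtain ⟨q, hq, rfl⟩ := hx
        have hxA : T * q * T⁻¹ * q⁻¹ ∈ A := Subgroup.subset_closure ⟨q, hq, rfl⟩
        have hxC : T * q * T⁻¹ * q⁻¹ ∈ H ⊓ Subgroup.centralizer ({T} : Set G) := by
          rw [hCeq]; exact hAQ hxA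
        have h1 : T * (T * q * T⁻¹ * q⁻¹) = (T * q * T⁻¹ * q⁻¹) * T :=
          Subgroup.mem_centralizer_iff.1 (Subgroup.mem_inf.1 hxC).2 T rfl
        have h2 : T * (T * q * T⁻¹ * q⁻¹) * T⁻¹ = (T * q * T⁻¹ * q⁻¹)⁻¹ := by
          rw [hTinv]
          calc T * (T * q * T * q⁻¹) * T = (T * T) * q * T * q⁻¹ * T := by group
            _ = q * T * q⁻¹ * T := by rw [hTT, one_mul]
            _ = (T * q * T * q⁻¹)⁻¹ := by
              simp only [mul_inv_rev, inv_inv, hTinv, mul_assoc]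
        show (T * q * T⁻¹ * q⁻¹) ^ 2 = 1
        rw [h1, mul_assoc, mul_inv_cancel, mul_one] at h2
        rw [pow_two]
        nth_rewrite 1 [h2]
        exact inv_mul_cancel _
      | one => exact one_pow 2
      | mul x y hx hy ihx ihy =>
        have hcomm : Commute x y := hAcomm x hx y hy
        rw [hcomm.mul_pow, ihx, ihy, one_mul]
      | inv x hx ih => rw [inv_pow, ih, inv_one]
    have hAel : Cfsg.IsElementaryAbelian 2 A :=
      ⟨⟨⟨fun a b => Subtype.ext (hAcomm a.1 a.2 b.1 b.2)⟩⟩, hAsq⟩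
    have := hminus A m4 hAel
    omega
  have hCV : V = H ⊓ Subgroup.centralizer ({T} : Set G) :=
    Subgroup.eq_of_le_of_card_ge hV (by rw [hC4, hV4])
  refine ⟨hC4, ?_⟩
  rw [← hCV]
  exact hVe

end Cfsg.Agent.S4405
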