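import Cfsg.Statements.S4420

import Mathlib

set_option autoImplicit false
open Cfsg
open scoped Pointwise

namespace Cfsg.Agent.S4420

theorem result {H : Type*} [Group H] [Finite H] (A : Subgroup H) (hA : A ≠ ⊤) (hD : ∀ x : H, x ∉ A → x ^ 2 = 1) :
    ∃ B : Subgroup H, B.Normal ∧ IsMulCommutative ↥B ∧ B.index = 2 ∧
      (∀ x : H, x ∉ B → x ^ 2 = 1 ∧ ∀ b ∈ B, x * b * x⁻¹ = b⁻¹) ∧
      (¬ (IsMulCommutative H ∧ ∀ x : H, x ^ 2 = 1) →
        ∀ B' : Subgroup H, B'.Normal → IsMulCommutative ↥B' → B'.index = 2 →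
          (∀ x : H, x ∉ B' → x ^ 2 = 1 ∧ ∀ b ∈ B', x * b * x⁻¹ = b⁻¹) → B' = B) := by
  have hinv : ∀ x : H, x ∉ A → ∀ a ∈ A, x * a * x⁻¹ = a⁻¹ := by
    intro x hx a ha
    have hxa : x * a ∉ A := by
      intro h
      apply hx
      have h0 := A.mul_mem h (A.inv_mem ha)
      rwa [mul_assoc, mul_inv_cancel, mul_one] at h0
    have h1 := hD x hx
    have h2 := hD (x * a) hxa
    have hxinv : x⁻¹ = x := by rw [inv_eq_iff_mul_eq_one, ← pow_two, h1]
    rw [hxinv, eq_inv_iff_mul_eq_one]
    rw [pow_two] at h2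
    calc x * a * x * a = (x * a) * (x * a) := by group
      _ = 1 := h2
  obtain ⟨x₀, hx₀⟩ : ∃ x : H, x ∉ A := by
    by_contra hcon
    push Not at hcon
    exact hA (eq_top_iff.mpr (fun x _ => hcon x))
  have hAcomm : ∀ a ∈ A, ∀ b ∈ A, a * b = b * a := by
    intro a ha b hb
    have h1 := hinv x₀ hx₀ (a * b) (A.mul_mem ha hb)
    have h2 := hinv x₀ hx₀ a ha
    have h3 := hinv x₀ hx₀ b hb
    have h4 : x₀ * (a * b) * x₀⁻¹ = (x₀ * a * x₀⁻¹) * (x₀ * b * x₀⁻¹) := by group
    rw [h1, h2, h3, mul_inv_rev] at h4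
    have h5 := congrArg Inv.inv h4
    rw [mul_inv_rev, mul_inv_rev, inv_inv, inv_inv] at h5
    exact h5
  by_cases hE : ∀ x : H, x ^ 2 = 1
  · have hinvE : ∀ a : H, a⁻¹ = a := by
      intro a
      rw [inv_eq_iff_mul_eq_one, ← pow_two, hE]
    have hcomm : ∀ a b : H, a * b = b * a := by
      intro a b
      rw [← hinvE (a * b), mul_inv_rev, hinvE a, hinvE b]
    obtain ⟨M, hM⟩ : ∃ M : Subgroup H, IsCoatom M := by
      rcases eq_top_or_exists_le_coatom A with h' | ⟨M, hM, _⟩
      · exact absurd h' hA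
      · exact ⟨M, hM⟩
    obtain ⟨x, hx⟩ : ∃ x : H, x ∉ M := by
      by_contra hcon
      push Not at hcon
      exact hM.1 (eq_top_iff.mpr (fun x _ => hcon x))
    have hxx : x * x = 1 := by rw [← pow_two, hE]
    let K : Subgroup H :=
      { carrier := {y | y ∈ M ∨ x * y ∈ M}
        one_mem' := Or.inl M.one_mem
        mul_mem' := by
          rintro a b (ha | ha) (hb | hb)
          · exact Or.inl (M.mul_mem ha hb)
          · right
            have h0 := M.mul_mem ha hb
            have e : x * (a * b) = a * (x * b) := by rw [← mul_assoc, hcomm x a, mul_assoc]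
            rw [e]; exact h0
          · right
            have h0 := M.mul_mem ha hb
            rw [← mul_assoc]; exact h0
          · left
            have h0 := M.mul_mem ha hb
            have e : x * a * (x * b) = a * b := by
              rw [hcomm x a, mul_assoc, ← mul_assoc x x b, hxx, one_mul]
            rw [e] at h0; exact h0
        inv_mem' := by
          rintro a (ha | ha)
          · exact Or.inl (M.inv_mem ha)
          · right
            have h0 := M.inv_mem ha
            have e : (x * a)⁻¹ = x * a⁻¹ := by rw [mul_inv_rev, hinvE x, hcomm]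
            rw [e] at h0; exact h0 }
    have hMK : M < K := by
      refine lt_of_le_of_ne (fun y hy => Or.inl hy) ?_
      intro hEq
      apply hx
      rw [hEq]
      exact Or.inr (by rw [hxx]; exact M.one_mem)
    have hK : K = ⊤ := hM.2 K hMK
    have hall : ∀ y : H, y ∈ M ∨ x * y ∈ M := by
      intro y
      have hy : y ∈ K := by rw [hK]; trivial
      exact hy
    have hidx : M.index = 2 := by
      rw [Subgroup.index_eq_two_iff]
      refine ⟨x, fun b => ?_⟩
      by_cases hb : b ∈ M
      · refine Or.inr ⟨hb, fun h => hx ?_⟩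
        have h0 := M.mul_mem (M.inv_mem hb) h
        rwa [← mul_assoc, inv_mul_cancel, one_mul] at h0
      · refine Or.inl ⟨?_, hb⟩
        rcases hall b with h | h
        · exact absurd h hb
        · rw [hcomm]; exact h
    refine ⟨M, ⟨fun n hn g => ?_⟩, isMulCommutative_iff.mpr (fun a b => Subtype.ext (hcomm a b)),
      hidx, fun y _ => ⟨hE y, fun b _ => ?_⟩, fun hne => ?_⟩
    · rw [hcomm g n, mul_assoc, mul_inv_cancel, mul_one]; exact hn
    · rw [hcomm y b, mul_assoc, mul_inv_cancel, mul_one, hinvE]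
    · exact absurd ⟨isMulCommutative_iff.mpr hcomm, hE⟩ hne
  · push Not at hE
    obtain ⟨z, hz⟩ := hE
    have hzA : z ∈ A := by
      by_contra h
      exact hz (hD z h)
    have hprod : ∀ x y : H, x ∉ A → y ∉ A → x * y ∈ A := by
      intro x y hx hy
      by_contra hxy
      have h1 := hinv (x * y) hxy z hzA
      have h2 := hinv y hy z hzA
      have h3 := hinv x hx z⁻¹ (A.inv_mem hzA)
      have h4 : x * y * z * (x * y)⁻¹ = x * (y * z * y⁻¹) * x⁻¹ := by group
      rw [h1, h2, h3, inv_inv] at h4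
      apply hz
      rw [pow_two]
      nth_rewrite 1 [← h4]
      exact inv_mul_cancel z
    have hidx : A.index = 2 := by
      rw [Subgroup.index_eq_two_iff]
      refine ⟨x₀, fun b => ?_⟩
      by_cases hb : b ∈ A
      · refine Or.inr ⟨hb, fun h => hx₀ ?_⟩
        have h0 := A.mul_mem (A.inv_mem hb) h
        rwa [← mul_assoc, inv_mul_cancel, one_mul] at h0
      · exact Or.inl ⟨hprod b x₀ hb hx₀, hb⟩
    refine ⟨A, Subgroup.normal_of_index_eq_two hidx,
      isMulCommutative_iff.mpr (fun a b => Subtype.ext (hAcomm a a.2 b b.2)), hidx,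
      fun x hx => ⟨hD x hx, hinv x hx⟩, ?_⟩
    intro _ B' _ _ hB'i hB'
    have hzB' : z ∈ B' := by
      by_contra h
      exact hz (hB' z h).1
    by_contra hne
    have hnle : ¬ A ≤ B' := by
      intro hle
      apply hne
      symm
      apply Subgroup.eq_of_le_of_card_ge hle
      have h1 := Subgroup.card_mul_index A
      have h2 := Subgroup.card_mul_index B'
      rw [hidx] at h1
      rw [hB'i] at h2
      omega
    obtain ⟨x, hxA, hxB'⟩ := SetLike.not_le_iff_exists.mp hnle
    have h1 := (hB' x hxB').2 z hzB'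
    have h2 := hAcomm x hxA z hzA
    have h3 : x * z * x⁻¹ = z := by rw [h2, mul_assoc, mul_inv_cancel, mul_one]
    rw [h3] at h1
    apply hz
    rw [pow_two]
    nth_rewrite 1 [h1]
    exact inv_mul_cancel z

end Cfsg.Agent.S4420
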