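import Cfsg.Statements.S4496

import Mathlib
import Cfsg.Agent.S4620

set_option autoImplicit false
open Cfsg
open scoped Pointwise

namespace Cfsg.Agent.S4496

universe u

lemma sylow_eq {G : Type u} [Group G] [Finite G] (p : ℕ) [Fact p.Prime] (x : G) (hx : orderOf x = p)
    (hC : Subgroup.centralizer ({x} : Set G) = Subgroup.zpowers x) :
    ∃ P : Sylow p G, (P : Subgroup G) = Subgroup.zpowers x := by
  have hp : p.Prime := Fact.out
  have hpg : IsPGroup p ↥(Subgroup.zpowers x) :=
    IsPGroup.of_card (n := 1) (by rw [Nat.card_zpowers, hx, pow_one])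
  obtain ⟨P, hP⟩ := hpg.exists_le_sylow
  refine ⟨P, le_antisymm ?_ hP⟩
  have hxP : x ∈ (P : Subgroup G) := hP (Subgroup.mem_zpowers x)
  haveI : Nontrivial ↥(P : Subgroup G) := ⟨⟨⟨x, hxP⟩, 1, by
    intro h
    have : x = 1 := congrArg Subtype.val h
    rw [this, orderOf_one] at hx
    exact hp.one_lt.ne hx⟩⟩
  haveI := P.isPGroup'.center_nontrivial
  obtain ⟨z, hz⟩ := exists_ne (1 : Subgroup.center ↥(P : Subgroup G))
  obtain ⟨zz, hzz⟩ : ∃ zz : G, zz = ((z : ↥(P : Subgroup G)) : G) := ⟨_, rfl⟩
  have hz1 : zz ≠ 1 := by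
    intro h; apply hz
    apply Subtype.ext; apply Subtype.ext
    rw [← hzz]; exact h
  have hzc : ∀ g : ↥(P : Subgroup G), g * z = z * g := fun g => (Subgroup.mem_center_iff.mp z.2 g)
  have hzx : zz ∈ Subgroup.zpowers x := by
    rw [← hC, Subgroup.mem_centralizer_iff]
    intro y hy
    rw [Set.mem_singleton_iff] at hy
    rw [hy, hzz]
    have := hzc ⟨x, hxP⟩
    exact congrArg Subtype.val this
  have hcard : Nat.card ↥(Subgroup.zpowers x) = p := by rw [Nat.card_zpowers, hx]
  have hxz : (⟨x, Subgroup.mem_zpowers x⟩ : ↥(Subgroup.zpowers x)) ∈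
      Subgroup.zpowers (⟨zz, hzx⟩ : ↥(Subgroup.zpowers x)) :=
    mem_zpowers_of_prime_card hcard (by intro h; exact hz1 (congrArg Subtype.val h))
  obtain ⟨k, hk⟩ := Subgroup.mem_zpowers_iff.mp hxz
  have hk' : zz ^ k = x := by
    have := congrArg Subtype.val hk
    simpa using this
  intro g hg
  rw [← hC, Subgroup.mem_centralizer_iff]
  intro y hy
  rw [Set.mem_singleton_iff] at hy
  rw [hy, ← hk']
  have h1 := hzc ⟨g, hg⟩
  have h2 : g * zz = zz * g := by rw [hzz]; exact congrArg Subtype.val h1
  exact ((Commute.zpow_right (show Commute g zz from h2) k).eq).symm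

theorem result {G : Type*} [Group G] [Finite G] (p : ℕ) (hp : p.Prime) (x : G) (hx : orderOf x = p) (hC : Subgroup.centralizer ({x} : Set G) = Subgroup.zpowers x) (S : Subgroup G) [S.Normal] : (p ∣ Nat.card S → commutator G ≤ S) ∧ (¬ p ∣ Nat.card S → Nat.card S ∣ Nat.card {H : Subgroup G // Nat.card H = p} ∧ Nat.card S % p = 1 ∧ orderOf (QuotientGroup.mk x : G ⧸ S) = p ∧ Subgroup.centralizer ({(QuotientGroup.mk x : G ⧸ S)} : Set (G ⧸ S)) = Subgroup.zpowers (QuotientGroup.mk x : G ⧸ S)) := by
  classical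
  haveI : Fact p.Prime := ⟨hp⟩
  obtain ⟨P, hPx⟩ := sylow_eq p x hx hC
  have hcardx : Nat.card ↥(Subgroup.zpowers x) = p := by rw [Nat.card_zpowers, hx]
  constructor
  · intro hpS
    have hxS : Subgroup.zpowers x ≤ S := by
      obtain ⟨y, hy⟩ := exists_prime_orderOf_dvd_card' p hpS
      have hpgy : IsPGroup p ↥(Subgroup.zpowers (y : G)) :=
        IsPGroup.of_card (n := 1) (by rw [Nat.card_zpowers, Subgroup.orderOf_coe, hy, pow_one])
      obtain ⟨Q, hQ⟩ := hpgy.exists_le_sylow
      obtain ⟨g, hg⟩ := MulAction.exists_smul_eq G Q P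
      have h1 : g * (y : G) * g⁻¹ ∈ (P : Subgroup G) := by
        rw [← hg, Sylow.smul_def, Sylow.pointwise_smul_def, Cfsg.Agent.S4620.mem_conj]
        have : g⁻¹ * (g * (y:G) * g⁻¹) * g = y := by group
        rw [this]; exact hQ (Subgroup.mem_zpowers _)
      rw [hPx] at h1
      have hwS : g * (y : G) * g⁻¹ ∈ S := ‹S.Normal›.conj_mem _ y.2 g
      have hw1 : g * (y : G) * g⁻¹ ≠ 1 := by
        intro h
        have hy0 : (y : G) = 1 := by
          have : (y : G) = g⁻¹ * (g * (y:G) * g⁻¹) * g := by group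
          rw [this, h]; group
        have hy1 : orderOf (y : G) = 1 := by rw [hy0, orderOf_one]
        rw [Subgroup.orderOf_coe, hy] at hy1
        exact hp.one_lt.ne' hy1
      have hxw : (⟨x, Subgroup.mem_zpowers x⟩ : ↥(Subgroup.zpowers x)) ∈
          Subgroup.zpowers (⟨g * (y : G) * g⁻¹, h1⟩ : ↥(Subgroup.zpowers x)) :=
        mem_zpowers_of_prime_card hcardx (by intro h; exact hw1 (congrArg Subtype.val h))
      obtain ⟨k, hk⟩ := Subgroup.mem_zpowers_iff.mp hxw
      have hk' : (g * (y : G) * g⁻¹) ^ k = x := by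
        have := congrArg Subtype.val hk
        simpa using this
      rw [Subgroup.zpowers_le, ← hk']
      exact S.zpow_mem hwS k
    have hPS : (P : Subgroup G) ≤ S := by rw [hPx]; exact hxS
    have hfr : Subgroup.normalizer ((P : Subgroup G) : Set G) ⊔ S = ⊤ :=
      Sylow.normalizer_sup_eq_top' P hPS
    have hN : ∀ n ∈ Subgroup.normalizer ((P : Subgroup G) : Set G), ∃ a : ℤ, n * x * n⁻¹ = x ^ a := by
      intro n hn
      have : n * x * n⁻¹ ∈ (P : Subgroup G) :=
        (Subgroup.mem_normalizer_iff.mp hn x).mp (by rw [hPx]; exact Subgroup.mem_zpowers x)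
      rw [hPx] at this
      obtain ⟨a, ha⟩ := Subgroup.mem_zpowers_iff.mp this
      exact ⟨a, ha.symm⟩
    have hconjpow : ∀ (n : G) (b : ℤ), n * x ^ b * n⁻¹ = (n * x * n⁻¹) ^ b := by
      intro n b
      rw [← MulAut.conj_apply, ← MulAut.conj_apply, map_zpow]
    have hcommN : ∀ n ∈ Subgroup.normalizer ((P : Subgroup G) : Set G),
        ∀ n' ∈ Subgroup.normalizer ((P : Subgroup G) : Set G), (n' * n)⁻¹ * (n * n') ∈ S := by
      intro n hn n' hn'
      obtain ⟨a, ha⟩ := hN n hn
      obtain ⟨b, hb⟩ := hN n' hn'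
      apply hxS
      rw [← hC, Subgroup.mem_centralizer_iff]
      intro y hy
      rw [Set.mem_singleton_iff] at hy
      rw [hy]
      have e1 : (n * n') * x * (n * n')⁻¹ = x ^ (b * a) := by
        have : (n * n') * x * (n * n')⁻¹ = n * (n' * x * n'⁻¹) * n⁻¹ := by group
        rw [this, hb, hconjpow, ha, ← zpow_mul, mul_comm]
      have e2 : (n' * n) * x * (n' * n)⁻¹ = x ^ (b * a) := by
        have : (n' * n) * x * (n' * n)⁻¹ = n' * (n * x * n⁻¹) * n'⁻¹ := by group
        rw [this, ha, hconjpow, hb, ← zpow_mul]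
      have e3 : (n * n') * x * (n * n')⁻¹ = (n' * n) * x * (n' * n)⁻¹ := by rw [e1, e2]
      have : x * ((n' * n)⁻¹ * (n * n')) = (n' * n)⁻¹ * ((n' * n) * x * (n' * n)⁻¹) * (n * n') := by
        group
      rw [this, ← e3]; group
    have hcomm : ∀ a b : G ⧸ S, a * b = b * a := by
      intro a b
      obtain ⟨g, rfl⟩ := QuotientGroup.mk_surjective a
      obtain ⟨h, rfl⟩ := QuotientGroup.mk_surjective b
      have hg : g ∈ Subgroup.normalizer ((P : Subgroup G) : Set G) ⊔ S := by rw [hfr]; trivial
      have hh : h ∈ Subgroup.normalizer ((P : Subgroup G) : Set G) ⊔ S := by rw [hfr]; trivial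
      obtain ⟨n, hn, s, hs, rfl⟩ := Subgroup.mem_sup_of_normal_right.mp hg
      obtain ⟨n', hn', s', hs', rfl⟩ := Subgroup.mem_sup_of_normal_right.mp hh
      have e1 : ((n * s : G) : G ⧸ S) = (n : G ⧸ S) := by
        rw [QuotientGroup.mk_mul, (QuotientGroup.eq_one_iff s).mpr hs, mul_one]
      have e2 : ((n' * s' : G) : G ⧸ S) = (n' : G ⧸ S) := by
        rw [QuotientGroup.mk_mul, (QuotientGroup.eq_one_iff s').mpr hs', mul_one]
      rw [e1, e2, ← QuotientGroup.mk_mul, ← QuotientGroup.mk_mul]
      exact (QuotientGroup.eq.mpr (hcommN n hn n' hn')).symm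
    rw [commutator_def, Subgroup.commutator_le]
    intro g _ h _
    rw [← QuotientGroup.eq_one_iff, commutatorElement_def]
    simp only [QuotientGroup.mk_mul, QuotientGroup.mk_inv]
    rw [hcomm (g : G ⧸ S) (h : G ⧸ S)]
    group
  · intro hpS
    have hcop : Nat.Coprime (Nat.card S) (Nat.card ↥(Subgroup.zpowers x)) := by
      rw [hcardx]; exact ((Nat.Prime.coprime_iff_not_dvd hp).mpr hpS).symm
    have hinf : S ⊓ Subgroup.zpowers x = ⊥ := Subgroup.inf_eq_bot_of_coprime hcop
    have hSC : ∀ s ∈ S, x * s = s * x → s = 1 := by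
      intro s hs hsx
      have : s ∈ S ⊓ Subgroup.zpowers x := by
        refine Subgroup.mem_inf.mpr ⟨hs, ?_⟩
        rw [← hC, Subgroup.mem_centralizer_iff]
        intro y hy; rw [Set.mem_singleton_iff] at hy; rw [hy]; exact hsx
      rw [hinf, Subgroup.mem_bot] at this
      exact this
    refine ⟨?_, ?_, ?_, ?_⟩
    · set N := Subgroup.normalizer ((P : Subgroup G) : Set G) with hN
      have hSN : S ⊓ N = ⊥ := by
        rw [eq_bot_iff]
        rintro s ⟨hs, hsN⟩
        rw [Subgroup.mem_bot]
        apply hSC s hs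
        have h1 : s * x * s⁻¹ ∈ Subgroup.zpowers x := by
          have := (Subgroup.mem_normalizer_iff.mp hsN x).mp (by rw [hPx]; exact Subgroup.mem_zpowers x)
          rwa [hPx] at this
        have h2 : s * x * s⁻¹ * x⁻¹ ∈ S ⊓ Subgroup.zpowers x := by
          refine Subgroup.mem_inf.mpr
            ⟨?_, (Subgroup.zpowers x).mul_mem h1 (inv_mem (Subgroup.mem_zpowers x))⟩
          have : s * x * s⁻¹ * x⁻¹ = s * (x * s⁻¹ * x⁻¹) := by group
          rw [this]
          exact S.mul_mem hs (‹S.Normal›.conj_mem _ (S.inv_mem hs) x)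
        rw [hinf, Subgroup.mem_bot] at h2
        have : x * s = (s * x * s⁻¹ * x⁻¹)⁻¹ * (s * x) := by group
        rw [this, h2]; group
      have h1 : S.relIndex (S ⊔ N) = Nat.card N := by
        rw [Subgroup.relIndex_sup_left, ← Subgroup.inf_relIndex_right, hSN, Subgroup.relIndex_bot_left]
      have h2 := Subgroup.relIndex_mul_index (le_sup_left : S ≤ S ⊔ N)
      rw [h1] at h2
      have h3 := Subgroup.card_mul_index S
      have h4 := Subgroup.card_mul_index N
      have h5 : Nat.card N * (Nat.card S * (S ⊔ N).index) = Nat.card N * N.index := by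
        rw [h4, ← h3, ← h2]; ring
      have h6 : Nat.card S * (S ⊔ N).index = N.index := Nat.eq_of_mul_eq_mul_left Nat.card_pos h5
      have h7 : Nat.card (Sylow p G) = N.index := Sylow.card_eq_index_normalizer P
      have h8 : Nat.card {H : Subgroup G // Nat.card H = p} = Nat.card (Sylow p G) := by
        have hfac : p ^ (Nat.card G).factorization p = p := by
          rw [← Sylow.card_eq_multiplicity P, hPx, hcardx]
        apply Nat.card_congr
        exact {
          toFun := fun H => Sylow.ofCard H.1 (by rw [hfac]; exact H.2)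
          invFun := fun Q => ⟨Q, by rw [Sylow.card_eq_multiplicity Q, hfac]⟩
          left_inv := fun H => Subtype.ext rfl
          right_inv := fun Q => Sylow.ext rfl }
      rw [h8, h7, ← h6]
      exact dvd_mul_right _ _
    · letI : MulAction ↥(Subgroup.zpowers x) ↥S :=
        MulAction.compHom ↥S ((MulAut.conjNormal (H := S)).comp (Subgroup.zpowers x).subtype)
      have hpg : IsPGroup p ↥(Subgroup.zpowers x) :=
        IsPGroup.of_card (n := 1) (by rw [hcardx, pow_one])
      have hmod := hpg.card_modEq_card_fixedPoints ↥S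
      have hfix : MulAction.fixedPoints ↥(Subgroup.zpowers x) ↥S = {1} := by
        ext s
        rw [MulAction.mem_fixedPoints, Set.mem_singleton_iff]
        constructor
        · intro h
          have h1 := h ⟨x, Subgroup.mem_zpowers x⟩
          have h2 : x * (s : G) * x⁻¹ = s := by
            have : ((MulAut.conjNormal x : MulAut ↥S) s : G) = s := congrArg Subtype.val h1
            rwa [MulAut.conjNormal_apply] at this
          have h3 : (s : G) = 1 := by
            apply hSC s s.2
            have : x * (s : G) = x * s * x⁻¹ * x := by group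
            rw [this, h2]
          exact Subtype.ext h3
        · rintro rfl g
          show (MulAut.conjNormal (g : G) : MulAut ↥S) 1 = 1
          exact map_one _
      rw [hfix] at hmod
      have h1 : Nat.card ({1} : Set ↥S) = 1 := by simp
      rw [h1] at hmod
      have := hmod
      unfold Nat.ModEq at this
      rw [this, Nat.mod_eq_of_lt hp.one_lt]
    · have hdvd : orderOf (QuotientGroup.mk x : G ⧸ S) ∣ p := by
        apply orderOf_dvd_of_pow_eq_one
        rw [← QuotientGroup.mk_pow, ← hx, pow_orderOf_eq_one]; rfl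
      rcases (Nat.dvd_prime hp).mp hdvd with h | h
      · exfalso
        rw [orderOf_eq_one_iff, QuotientGroup.eq_one_iff] at h
        have : x ∈ S ⊓ Subgroup.zpowers x := Subgroup.mem_inf.mpr ⟨h, Subgroup.mem_zpowers x⟩
        rw [hinf, Subgroup.mem_bot] at this
        rw [this, orderOf_one] at hx
        exact hp.one_lt.ne hx
      · exact h
    · apply le_antisymm
      · intro gb hgb
        obtain ⟨g, rfl⟩ := QuotientGroup.mk_surjective gb
        rw [Subgroup.mem_centralizer_iff] at hgb
        have h1 : (QuotientGroup.mk x : G ⧸ S) * (g : G ⧸ S) = (g : G ⧸ S) * (QuotientGroup.mk x : G ⧸ S) :=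
          hgb _ rfl
        have h2 : g * x * g⁻¹ * x⁻¹ ∈ S := by
          rw [← QuotientGroup.eq_one_iff]
          simp only [QuotientGroup.mk_mul, QuotientGroup.mk_inv]
          rw [← h1]; group
        let f : ↥S → ↥S := fun s => ⟨(s : G) * x * (s : G)⁻¹ * x⁻¹, by
          have : (s : G) * x * (s : G)⁻¹ * x⁻¹ = s * (x * (s:G)⁻¹ * x⁻¹) := by group
          rw [this]
          exact S.mul_mem s.2 (‹S.Normal›.conj_mem _ (S.inv_mem s.2) x)⟩
        have hf : Function.Injective f := by
          intro s t hst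
          have h3 : (s : G) * x * (s : G)⁻¹ * x⁻¹ = (t : G) * x * (t : G)⁻¹ * x⁻¹ :=
            congrArg Subtype.val hst
          have h4 : (s : G) * x * (s : G)⁻¹ = (t : G) * x * (t : G)⁻¹ := mul_right_cancel h3
          have h5 : ((t : G)⁻¹ * s) = 1 := by
            apply hSC _ (S.mul_mem (S.inv_mem t.2) s.2)
            have : x * ((t : G)⁻¹ * s) = (t:G)⁻¹ * ((t : G) * x * (t : G)⁻¹) * s := by group
            rw [this, ← h4]; group
          apply Subtype.ext
          have : (s : G) = t * ((t : G)⁻¹ * s) := by group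
          rw [this, h5, mul_one]
        have hsurj : Function.Surjective f := Finite.surjective_of_injective hf
        obtain ⟨s, hs⟩ := hsurj ⟨_, h2⟩
        have h6 : (s : G) * x * (s : G)⁻¹ * x⁻¹ = g * x * g⁻¹ * x⁻¹ := congrArg Subtype.val hs
        have h7 : (s : G) * x * (s : G)⁻¹ = g * x * g⁻¹ := mul_right_cancel h6
        have h8 : (s : G)⁻¹ * g ∈ Subgroup.zpowers x := by
          rw [← hC, Subgroup.mem_centralizer_iff]
          intro y hy; rw [Set.mem_singleton_iff] at hy; rw [hy]
          have : x * ((s : G)⁻¹ * g) = (s:G)⁻¹ * ((s : G) * x * (s : G)⁻¹) * g := by group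
          rw [this, h7]; group
        obtain ⟨k, hk⟩ := Subgroup.mem_zpowers_iff.mp h8
        rw [Subgroup.mem_zpowers_iff]
        refine ⟨k, ?_⟩
        rw [← QuotientGroup.mk_zpow, hk, QuotientGroup.mk_mul, QuotientGroup.mk_inv,
          (QuotientGroup.eq_one_iff (s : G)).mpr s.2, inv_one, one_mul]
      · rw [Subgroup.zpowers_le, Subgroup.mem_centralizer_iff]
        intro y hy; rw [Set.mem_singleton_iff] at hy; rw [hy]

end Cfsg.Agent.S4496
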