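import Cfsg.Statements.S4497

import Mathlib
import Cfsg.Agent.S4495
import Cfsg.Agent.S4496
import Cfsg.Agent.S0018

set_option autoImplicit false
open Cfsg
open scoped Pointwise

namespace Cfsg.Agent.S4497

open Subgroup

theorem le_comm_of_disj {G : Type*} [Group G] [Finite G] (x : G)
    (hC : Subgroup.centralizer ({x} : Set G) = Subgroup.zpowers x) (K : Subgroup G) [hKn : K.Normal]
    (hdisj : ∀ a, a ∈ K → a ∈ zpowers x → a = 1) : K ≤ commutator G := by
  have hψ : ∀ k : K, (k : G) * x * (k : G)⁻¹ * x⁻¹ ∈ K := by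
    intro k
    have h3 : (k : G) * x * (k : G)⁻¹ * x⁻¹ = (k : G) * (x * (k : G)⁻¹ * x⁻¹) := by group
    rw [h3]
    exact K.mul_mem k.2 (hKn.conj_mem _ (K.inv_mem k.2) x)
  have hinj : Function.Injective (fun k : K => (⟨_, hψ k⟩ : K)) := by
    intro k k' hkk'
    have h3 : (k : G) * x * (k : G)⁻¹ * x⁻¹ = (k' : G) * x * (k' : G)⁻¹ * x⁻¹ :=
      congrArg Subtype.val hkk'
    have h4 : (k' : G)⁻¹ * (k : G) ∈ zpowers x := by
      rw [← hC, mem_centralizer_iff]
      intro z hz
      rw [Set.mem_singleton_iff.mp hz]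
      have h5 : (k : G) * x * (k : G)⁻¹ = (k' : G) * x * (k' : G)⁻¹ := mul_right_cancel h3
      calc x * ((k' : G)⁻¹ * (k : G))
          = (k' : G)⁻¹ * ((k' : G) * x * (k' : G)⁻¹) * (k : G) := by group
        _ = (k' : G)⁻¹ * (k : G) * x := by rw [← h5]; group
    have h6 := hdisj _ (K.mul_mem (K.inv_mem k'.2) k.2) h4
    apply Subtype.ext
    rw [inv_mul_eq_one] at h6
    exact h6.symm
  have hsurj := Finite.surjective_of_injective hinj
  intro k hk
  obtain ⟨k₀, hk₀⟩ := hsurj ⟨k, hk⟩
  have h7 : (k₀ : G) * x * (k₀ : G)⁻¹ * x⁻¹ = k := congrArg Subtype.val hk₀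
  rw [← h7, _root_.commutator_def]
  have h8 := Subgroup.commutator_mem_commutator (Subgroup.mem_top (k₀ : G)) (Subgroup.mem_top x)
  rwa [commutatorElement_def] at h8

theorem frat {G : Type*} [Group G] [Finite G] (p : ℕ) (hp : p.Prime) (x : G) (hx : orderOf x = p)
    (hC : Subgroup.centralizer ({x} : Set G) = Subgroup.zpowers x)
    (hne : normalizer ((zpowers x : Subgroup G) : Set G) ≠ zpowers x) :
    zpowers x ≤ commutator G ∧
      normalizer ((zpowers x : Subgroup G) : Set G) ⊔ commutator G = ⊤ := by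
  haveI : Fact p.Prime := ⟨hp⟩
  obtain ⟨S, hS⟩ := S4495.sylow_eq p hp x hx hC
  have hPN : zpowers x ≤ normalizer ((zpowers x : Subgroup G) : Set G) := le_normalizer
  obtain ⟨n, hnN, hnP⟩ : ∃ n, n ∈ normalizer ((zpowers x : Subgroup G) : Set G) ∧ n ∉ zpowers x := by
    by_contra hcon
    push_neg at hcon
    exact hne (le_antisymm hcon hPN)
  have h1 : n * x * n⁻¹ ∈ zpowers x := (mem_normalizer_iff.mp hnN x).mp (mem_zpowers x)
  have h2 : n * x * n⁻¹ * x⁻¹ ∈ zpowers x :=
    (zpowers x).mul_mem h1 ((zpowers x).inv_mem (mem_zpowers x))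
  have h3 : n * x * n⁻¹ * x⁻¹ ≠ 1 := by
    intro h
    apply hnP
    rw [← hC, mem_centralizer_iff]
    intro z hz
    rw [Set.mem_singleton_iff.mp hz]
    have h4 : n * x * n⁻¹ = x := by rw [← mul_inv_eq_one]; exact h
    calc x * n = (n * x * n⁻¹) * n := by rw [h4]
      _ = n * x := by group
  have h4 : n * x * n⁻¹ * x⁻¹ ∈ commutator G := by
    have h5 := Subgroup.commutator_mem_commutator (Subgroup.mem_top n) (Subgroup.mem_top x)
    rw [commutatorElement_def] at h5
    rw [_root_.commutator_def]; exact h5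
  have hPle : zpowers x ≤ commutator G := by
    rw [← S4495.gen_of_mem p hp x hx _ h2 h3, zpowers_le]; exact h4
  refine ⟨hPle, ?_⟩
  have h6 := Sylow.normalizer_sup_eq_top' S (N := commutator G) (by rw [hS]; exact hPle)
  have h7 : normalizer ((S : Subgroup G) : Set G) ⊔ commutator G = ⊤ := h6
  rw [hS] at h7
  exact h7

theorem big_normal {G : Type*} [Group G] [Finite G] (p : ℕ) (hp : p.Prime) (x : G)
    (hx : orderOf x = p)
    (hC : Subgroup.centralizer ({x} : Set G) = Subgroup.zpowers x)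
    (hne : normalizer ((zpowers x : Subgroup G) : Set G) ≠ zpowers x)
    (M : Subgroup (commutator G)) [hMn : M.Normal] (hpM : p ∣ Nat.card M) : M = ⊤ := by
  haveI : Fact p.Prime := ⟨hp⟩
  obtain ⟨hPle, hfr⟩ := frat p hp x hx hC hne
  obtain ⟨m, hm⟩ := exists_prime_orderOf_dvd_card' p hpM
  have hm' : orderOf ((m : commutator G) : G) = p := by
    rw [Subgroup.orderOf_coe, Subgroup.orderOf_coe]; exact hm
  obtain ⟨c, hc⟩ := S4495.conj_into p hp x hx hC _ hm'
  have hcmem : c ∈ normalizer ((zpowers x : Subgroup G) : Set G) ⊔ commutator G := by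
    rw [hfr]; trivial
  obtain ⟨n, hn, d, hd, rfl⟩ := Subgroup.mem_sup_of_normal_right.mp hcmem
  have h1 : d * ((m : commutator G) : G) * d⁻¹ ∈ zpowers x := by
    apply (mem_normalizer_iff.mp hn _).mpr
    have h0 : n * (d * ((m : commutator G) : G) * d⁻¹) * n⁻¹
        = n * d * ((m : commutator G) : G) * (n * d)⁻¹ := by group
    rw [h0]; exact hc
  have h2 : d * ((m : commutator G) : G) * d⁻¹ ≠ 1 := by
    intro h
    have h3 : ((m : commutator G) : G) = 1 := by
      have h4 : ((m : commutator G) : G) = d⁻¹ * (d * ((m : commutator G) : G) * d⁻¹) * d := by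
        group
      rw [h4, h]; group
    exact S4495.x_ne_one p hp _ hm' h3
  have h3 : (⟨d, hd⟩ : commutator G) * (m : commutator G) * (⟨d, hd⟩ : commutator G)⁻¹ ∈ M :=
    hMn.conj_mem _ m.2 _
  have hxM : ∀ z (hz : z ∈ zpowers x), (⟨z, hPle hz⟩ : commutator G) ∈ M := by
    intro z hz
    have hz' := hz
    rw [← S4495.gen_of_mem p hp x hx _ h1 h2] at hz'
    obtain ⟨k, hk⟩ := mem_zpowers_iff.mp hz'
    have h4 := M.zpow_mem h3 k
    have h5 : (⟨z, hPle hz⟩ : commutator G)
        = ((⟨d, hd⟩ : commutator G) * (m : commutator G) * (⟨d, hd⟩ : commutator G)⁻¹) ^ k := by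
      apply Subtype.ext
      rw [Subgroup.coe_zpow]
      exact hk.symm
    rw [h5]; exact h4
  have hconj : ∀ g : G, ∃ h : g * x * g⁻¹ ∈ commutator G,
      (⟨g * x * g⁻¹, h⟩ : commutator G) ∈ M := by
    intro g
    have hgmem : g⁻¹ ∈ normalizer ((zpowers x : Subgroup G) : Set G) ⊔ commutator G := by
      rw [hfr]; trivial
    obtain ⟨n', hn', d', hd', hnd⟩ := Subgroup.mem_sup_of_normal_right.mp hgmem
    have hg : g = d'⁻¹ * n'⁻¹ := by rw [← mul_inv_rev, hnd, inv_inv]
    have h5 : n'⁻¹ * x * n'⁻¹⁻¹ ∈ zpowers x :=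
      (mem_normalizer_iff.mp (inv_mem hn') x).mp (mem_zpowers x)
    have h6 := hxM _ h5
    have h7 := hMn.conj_mem _ h6 (⟨d'⁻¹, inv_mem hd'⟩ : commutator G)
    have h8 : g * x * g⁻¹ = d'⁻¹ * (n'⁻¹ * x * n'⁻¹⁻¹) * d'⁻¹⁻¹ := by rw [hg]; group
    have h9 : g * x * g⁻¹ ∈ commutator G := by
      rw [h8]
      exact (commutator G).mul_mem ((commutator G).mul_mem (inv_mem hd') (hPle h5))
        (inv_mem (inv_mem hd'))
    refine ⟨h9, ?_⟩
    have h10 : (⟨g * x * g⁻¹, h9⟩ : commutator G)
        = (⟨d'⁻¹, inv_mem hd'⟩ : commutator G) * ⟨n'⁻¹ * x * n'⁻¹⁻¹, hPle h5⟩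
          * (⟨d'⁻¹, inv_mem hd'⟩ : commutator G)⁻¹ := by
      apply Subtype.ext
      exact h8
    rw [h10]; exact h7
  have hT : normalClosure ({x} : Set G) ≤ M.map (commutator G).subtype := by
    rw [normalClosure, closure_le]
    intro y hy
    rw [Group.mem_conjugatesOfSet_iff] at hy
    obtain ⟨a, ha, hay⟩ := hy
    rw [Set.mem_singleton_iff.mp ha, isConj_iff] at hay
    obtain ⟨g, rfl⟩ := hay
    obtain ⟨h, hM⟩ := hconj g
    exact ⟨⟨_, h⟩, hM, rfl⟩
  have hpT : p ∣ Nat.card (normalClosure ({x} : Set G)) := by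
    rw [← hx]
    exact Subgroup.orderOf_dvd_natCard _ (subset_normalClosure (Set.mem_singleton x))
  have hGT := (Cfsg.Agent.S4496.result p hp x hx hC (normalClosure ({x} : Set G))).1 hpT
  rw [eq_top_iff]
  intro a _
  obtain ⟨b, hb, hba⟩ := hT (hGT a.2)
  have hab : b = a := Subtype.ext hba
  rwa [← hab]

theorem small_normal {G : Type*} [Group G] [Finite G] (p : ℕ) (hp : p.Prime)
    (M : Subgroup (commutator G)) [hMn : M.Normal] (hpM : ¬ p ∣ Nat.card M) :
    M.map (commutator G).subtype ≤ Cfsg.pPrimeCore p G := by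
  have hfin : {L : Subgroup (commutator G) | L.Normal ∧ ¬ p ∣ Nat.card L}.Finite := Set.toFinite _
  have hne : {L : Subgroup (commutator G) | L.Normal ∧ ¬ p ∣ Nat.card L}.Nonempty :=
    ⟨M, hMn, hpM⟩
  obtain ⟨L, hL⟩ := hfin.exists_maximal hne
  have hbig : ∀ A : Subgroup (commutator G), A.Normal → ¬ p ∣ Nat.card A → A ≤ L := by
    intro A hA hpA
    haveI := hA
    haveI := hL.1.1
    have hmem : A ⊔ L ∈ {L : Subgroup (commutator G) | L.Normal ∧ ¬ p ∣ Nat.card L} := by
      refine ⟨inferInstance, ?_⟩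
      have h1 := Cfsg.Agent.S0003.card_sup_mul_card_inf A L
      intro hdvd
      have h2 : p ∣ Nat.card A * Nat.card L := by rw [← h1]; exact Dvd.dvd.mul_right hdvd _
      rcases (Nat.Prime.dvd_mul hp).mp h2 with h | h
      · exact hpA h
      · exact hL.1.2 h
    exact le_sup_left.trans (hL.2 hmem le_sup_right)
  have hLn : (L.map (commutator G).subtype).Normal := by
    constructor
    intro a ha g
    obtain ⟨l, hl, rfl⟩ := ha
    have hA := hbig (L.map (MulAut.conjNormal g : MulAut (commutator G)).toMonoidHom)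
      (Subgroup.Normal.map hL.1.1 _ (MulEquiv.surjective _))
      (by rw [Subgroup.card_map_of_injective (MulEquiv.injective _)]; exact hL.1.2)
    exact ⟨_, hA ⟨l, hl, rfl⟩, by simp⟩
  have hLc : (Nat.card (L.map (commutator G).subtype)).Coprime p := by
    rw [Subgroup.card_map_of_injective (Subgroup.subtype_injective _)]
    exact (Nat.Coprime.symm ((Nat.Prime.coprime_iff_not_dvd hp).mpr hL.1.2))
  have hfinal := Cfsg.Agent.Lib.Helper3.Core.le_pPrimeCore _ hLn hLc
  exact (Subgroup.map_mono (hbig M hMn hpM)).trans hfinal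

theorem result {G : Type*} [Group G] [Finite G] (p : ℕ) (hp : p.Prime) (x : G) (hx : orderOf x = p) (hC : Subgroup.centralizer ({x} : Set G) = Subgroup.zpowers x) (t : ℕ) (ht : Nat.card {C : ConjClasses G // ∃ g ∈ C.carrier, orderOf g = p} = t) : Cfsg.pPrimeCore p G ≤ commutator G ∧ (t ≠ p - 1 → ∀ h : ((Cfsg.pPrimeCore p G).subgroupOf (commutator G)).Normal, IsSimpleGroup (↥(commutator G) ⧸ (Cfsg.pPrimeCore p G).subgroupOf (commutator G))) ∧ (t = p - 1 → commutator G = Cfsg.pPrimeCore p G) := by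
  have hx1 := S4495.x_ne_one p hp x hx
  have hSdisj : ∀ a, a ∈ Cfsg.pPrimeCore p G → a ∈ Subgroup.zpowers x → a = 1 := by
    intro a ha haP
    by_contra ha1
    have h1 := S4495.ord_of_mem p hp x hx a haP ha1
    have h2 := Subgroup.orderOf_dvd_natCard _ ha
    rw [h1] at h2
    have h3 := Cfsg.Agent.S0018.pPrimeCore_coprime (G := G) p
    exact hp.ne_one (h3.symm.eq_one_of_dvd h2)
  have hSle : Cfsg.pPrimeCore p G ≤ commutator G := le_comm_of_disj x hC _ hSdisj
  obtain ⟨hI, hII⟩ := S4495.count_le p hp x hx hC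
  rw [ht] at hI hII
  refine ⟨hSle, ?_, ?_⟩
  · intro htne hnorm
    have hne : Subgroup.normalizer ((Subgroup.zpowers x : Subgroup G) : Set G) ≠ Subgroup.zpowers x :=
      fun h => htne (hII h)
    obtain ⟨hPle, hfr⟩ := frat p hp x hx hC hne
    haveI := hnorm
    have hnt : Nontrivial (↥(commutator G) ⧸ (Cfsg.pPrimeCore p G).subgroupOf (commutator G)) := by
      refine ⟨⟨(QuotientGroup.mk (⟨x, hPle (Subgroup.mem_zpowers x)⟩ : commutator G)), 1, ?_⟩⟩
      intro h
      rw [QuotientGroup.eq_one_iff, Subgroup.mem_subgroupOf] at h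
      exact hx1 (hSdisj x h (Subgroup.mem_zpowers x))
    refine { toNontrivial := hnt, eq_bot_or_eq_top_of_normal := ?_ }
    intro Mbar hMbar
    haveI := hMbar
    have hMmap : Mbar = (Mbar.comap (QuotientGroup.mk'
        ((Cfsg.pPrimeCore p G).subgroupOf (commutator G)))).map (QuotientGroup.mk' _) := by
      rw [Subgroup.map_comap_eq_self_of_surjective (QuotientGroup.mk'_surjective _)]
    haveI hMn : (Mbar.comap (QuotientGroup.mk'
        ((Cfsg.pPrimeCore p G).subgroupOf (commutator G)))).Normal := hMbar.comap _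
    by_cases hpM : p ∣ Nat.card (Mbar.comap (QuotientGroup.mk'
        ((Cfsg.pPrimeCore p G).subgroupOf (commutator G))))
    · right
      rw [hMmap, big_normal p hp x hx hC hne _ hpM]
      exact Subgroup.map_top_of_surjective _ (QuotientGroup.mk'_surjective _)
    · left
      have h1 := small_normal p hp _ hpM
      have h2 : (Mbar.comap (QuotientGroup.mk'
          ((Cfsg.pPrimeCore p G).subgroupOf (commutator G))))
          ≤ (Cfsg.pPrimeCore p G).subgroupOf (commutator G) := by
        intro m hm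
        rw [Subgroup.mem_subgroupOf]
        exact h1 ⟨m, hm, rfl⟩
      rw [hMmap, eq_bot_iff]
      calc (Mbar.comap (QuotientGroup.mk'
            ((Cfsg.pPrimeCore p G).subgroupOf (commutator G)))).map (QuotientGroup.mk' _)
          ≤ ((Cfsg.pPrimeCore p G).subgroupOf (commutator G)).map (QuotientGroup.mk' _) :=
            Subgroup.map_mono h2
        _ = ⊥ := QuotientGroup.map_mk'_self _
  · intro hte
    rw [hte] at hI
    have hp1 : 0 < p - 1 := Nat.sub_pos_of_lt hp.one_lt
    have he0 : (Subgroup.zpowers x).relIndex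
        (Subgroup.normalizer ((Subgroup.zpowers x : Subgroup G) : Set G)) ≠ 0 := by
      show ((Subgroup.zpowers x).subgroupOf _).index ≠ 0
      exact Subgroup.index_ne_zero_of_finite
    have he1 : (Subgroup.zpowers x).relIndex
        (Subgroup.normalizer ((Subgroup.zpowers x : Subgroup G) : Set G)) ≤ 1 := by
      by_contra h; push_neg at h; nlinarith
    have he : (Subgroup.zpowers x).relIndex
        (Subgroup.normalizer ((Subgroup.zpowers x : Subgroup G) : Set G)) = 1 := by omega
    have hN : Subgroup.normalizer ((Subgroup.zpowers x : Subgroup G) : Set G) = Subgroup.zpowers x :=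
      le_antisymm (Subgroup.relIndex_eq_one.mp he) Subgroup.le_normalizer
    have hidx := S4495.idx_eq p hp x hx hC hN
    haveI : Fact p.Prime := ⟨hp⟩
    obtain ⟨S, hS⟩ := S4495.sylow_eq p hp x hx hC
    have h1 : ¬ p ∣ (S : Subgroup G).index := S.not_dvd_index
    have h2 := Subgroup.card_mul_index (S : Subgroup G)
    rw [hS] at h1 h2
    rw [Nat.card_zpowers, hx] at h2
    have h3 := Subgroup.card_mul_index (commutator G)
    rw [hidx] at h3
    have h4 : Nat.card (commutator G) = (Subgroup.zpowers x).index := by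
      apply Nat.eq_of_mul_eq_mul_left hp.pos
      rw [h2, mul_comm, h3]
    have h5 : (Nat.card (commutator G)).Coprime p := by
      rw [h4]
      exact (Nat.Coprime.symm ((Nat.Prime.coprime_iff_not_dvd hp).mpr h1))
    exact le_antisymm (Cfsg.Agent.Lib.Helper3.Core.le_pPrimeCore _ inferInstance h5) hSle

end Cfsg.Agent.S4497
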