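import Cfsg.Statements.S4509

import Mathlib
import Cfsg.Agent.S4495
import Cfsg.Agent.S4496
import Cfsg.Agent.S4497
import Cfsg.Agent.S0018

set_option autoImplicit false
open Cfsg
open scoped Pointwise

namespace Cfsg.Agent.S4509

open Subgroup
open scoped commutatorElement

theorem surj_of_disj {G : Type*} [Group G] [Finite G] (x : G)
    (hC : Subgroup.centralizer ({x} : Set G) = Subgroup.zpowers x) (K : Subgroup G) [hKn : K.Normal]
    (hdisj : ∀ a, a ∈ K → a ∈ zpowers x → a = 1) :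
    ∀ k ∈ K, ∃ k₀ ∈ K, k₀ * x * k₀⁻¹ * x⁻¹ = k := by
  have hψ : ∀ k : K, (k : G) * x * (k : G)⁻¹ * x⁻¹ ∈ K := by
    intro k
    have h3 : (k : G) * x * (k : G)⁻¹ * x⁻¹ = (k : G) * (x * (k : G)⁻¹ * x⁻¹) := by group
    rw [h3]
    exact K.mul_mem k.2 (hKn.conj_mem _ (K.inv_mem k.2) x)
  have hinj : Function.Injective (fun k : K => (⟨_, hψ k⟩ : K)) := by
    intro k k' hkk'
    have h3 : (k : G) * x * (k : G)⁻¹ * x⁻¹ = (k' : G) * x * (k' : G)⁻¹ * x⁻¹ :=
      congrArg Subtype.val hkk'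
    have h4 : (k' : G)⁻¹ * (k : G) ∈ zpowers x := by
      rw [← hC, mem_centralizer_iff]
      intro z hz
      rw [Set.mem_singleton_iff.mp hz]
      have h5 : (k : G) * x * (k : G)⁻¹ = (k' : G) * x * (k' : G)⁻¹ := mul_right_cancel h3
      calc x * ((k' : G)⁻¹ * (k : G))
          = (k' : G)⁻¹ * ((k' : G) * x * (k' : G)⁻¹) * (k : G) := by group
        _ = (k' : G)⁻¹ * (k : G) * x := by rw [← h5]; group
    have h6 := hdisj _ (K.mul_mem (K.inv_mem k'.2) k.2) h4
    apply Subtype.ext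
    rw [inv_mul_eq_one] at h6
    exact h6.symm
  have hsurj := Finite.surjective_of_injective hinj
  intro k hk
  obtain ⟨k₀, hk₀⟩ := hsurj ⟨k, hk⟩
  exact ⟨k₀, k₀.2, congrArg Subtype.val hk₀⟩

theorem num_syl {G : Type*} [Group G] [Finite G] (p : ℕ) (hp : p.Prime) (x : G)
    (hx : orderOf x = p)
    (hC : Subgroup.centralizer ({x} : Set G) = Subgroup.zpowers x) :
    Nat.card {H : Subgroup G // Nat.card H = p}
      = (normalizer ((zpowers x : Subgroup G) : Set G)).index := by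
  haveI : Fact p.Prime := ⟨hp⟩
  obtain ⟨S, hS⟩ := S4495.sylow_eq p hp x hx hC
  have hfact : p ^ (Nat.card G).factorization p = p := by
    rw [← S.card_eq_multiplicity, hS, Nat.card_zpowers, hx]
  have h1 : Nat.card (Sylow p G) = (normalizer ((S : Subgroup G) : Set G)).index :=
    S.card_eq_index_normalizer
  rw [hS] at h1
  rw [← h1]
  apply Nat.card_congr
  exact {
    toFun := fun H => Sylow.ofCard H.1 (by rw [H.2, hfact])
    invFun := fun Q => ⟨Q, by rw [Q.card_eq_multiplicity, hfact]⟩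
    left_inv := fun H => by apply Subtype.ext; rfl
    right_inv := fun Q => by apply Sylow.ext; rfl }

theorem comm_N {G : Type*} [Group G] [Finite G] (x : G)
    (hC : Subgroup.centralizer ({x} : Set G) = Subgroup.zpowers x) (a b : G)
    (ha : a ∈ normalizer ((zpowers x : Subgroup G) : Set G))
    (hb : b ∈ normalizer ((zpowers x : Subgroup G) : Set G)) :
    a * b * a⁻¹ * b⁻¹ ∈ zpowers x := by
  have ha' := (mem_normalizer_iff.mp (inv_mem ha) x).mp (mem_zpowers x)
  have hb' := (mem_normalizer_iff.mp (inv_mem hb) x).mp (mem_zpowers x)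
  obtain ⟨i, hi⟩ := mem_zpowers_iff.mp ha'
  obtain ⟨j, hj⟩ := mem_zpowers_iff.mp hb'
  have e1 : b⁻¹ * (a⁻¹ * x * a⁻¹⁻¹) * b⁻¹⁻¹ = x ^ (j * i) := by
    rw [← hi, ← conj_zpow, ← hj, ← zpow_mul]
  have e2 : a⁻¹ * (b⁻¹ * x * b⁻¹⁻¹) * a⁻¹⁻¹ = x ^ (i * j) := by
    rw [← hj, ← conj_zpow, ← hi, ← zpow_mul]
  have e3 : b⁻¹ * (a⁻¹ * x * a⁻¹⁻¹) * b⁻¹⁻¹ = a⁻¹ * (b⁻¹ * x * b⁻¹⁻¹) * a⁻¹⁻¹ := by
    rw [e1, e2, mul_comm]
  rw [← hC, mem_centralizer_iff]
  intro z hz
  rw [Set.mem_singleton_iff.mp hz]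
  calc x * (a * b * a⁻¹ * b⁻¹)
      = (a * b) * (b⁻¹ * (a⁻¹ * x * a⁻¹⁻¹) * b⁻¹⁻¹) * (a⁻¹ * b⁻¹) := by group
    _ = (a * b) * (a⁻¹ * (b⁻¹ * x * b⁻¹⁻¹) * a⁻¹⁻¹) * (a⁻¹ * b⁻¹) := by rw [e3]
    _ = a * b * a⁻¹ * b⁻¹ * x := by group

theorem core_facts {G : Type*} [Group G] [Finite G] (p : ℕ) (hp : p.Prime) (x : G)
    (hx : orderOf x = p)
    (hC : Subgroup.centralizer ({x} : Set G) = Subgroup.zpowers x) :
    (∀ a, a ∈ Cfsg.pPrimeCore p G → a ∈ zpowers x → a = 1) ∧
    Nat.card (normalizer ((zpowers x : Subgroup G) : Set G) ⊔ Cfsg.pPrimeCore p G : Subgroup G)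
      = Nat.card (normalizer ((zpowers x : Subgroup G) : Set G)) * Nat.card (Cfsg.pPrimeCore p G) ∧
    Nat.card (zpowers x ⊔ Cfsg.pPrimeCore p G : Subgroup G)
      = p * Nat.card (Cfsg.pPrimeCore p G) := by
  have hSdisj : ∀ a, a ∈ Cfsg.pPrimeCore p G → a ∈ Subgroup.zpowers x → a = 1 := by
    intro a ha haP
    by_contra ha1
    have h1 := S4495.ord_of_mem p hp x hx a haP ha1
    have h2 := Subgroup.orderOf_dvd_natCard _ ha
    rw [h1] at h2
    have h3 := Cfsg.Agent.S0018.pPrimeCore_coprime (G := G) p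
    exact hp.ne_one (h3.symm.eq_one_of_dvd h2)
  have hNdisj : normalizer ((zpowers x : Subgroup G) : Set G) ⊓ Cfsg.pPrimeCore p G = ⊥ := by
    rw [eq_bot_iff]
    rintro s ⟨hsN, hsS⟩
    have hsN' : s ∈ normalizer ((zpowers x : Subgroup G) : Set G) := hsN
    have hsS' : s ∈ Cfsg.pPrimeCore p G := hsS
    have h1 : s * x * s⁻¹ ∈ zpowers x := (mem_normalizer_iff.mp hsN' x).mp (mem_zpowers x)
    have h2 : s * x * s⁻¹ * x⁻¹ ∈ zpowers x := mul_mem h1 (inv_mem (mem_zpowers x))
    have h3 : s * x * s⁻¹ * x⁻¹ ∈ Cfsg.pPrimeCore p G := by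
      have h0 : s * x * s⁻¹ * x⁻¹ = s * (x * s⁻¹ * x⁻¹) := by group
      rw [h0]
      exact mul_mem hsS' ((Cfsg.pPrimeCore_normal p G).conj_mem _ (inv_mem hsS') x)
    have h4 := hSdisj _ h3 h2
    have h5 : s ∈ zpowers x := by
      rw [← hC, mem_centralizer_iff]
      intro z hz
      rw [Set.mem_singleton_iff.mp hz]
      have h6 : s * x * s⁻¹ = x := by rw [← mul_inv_eq_one]; exact h4
      calc x * s = (s * x * s⁻¹) * s := by rw [h6]
        _ = s * x := by group
    rw [Subgroup.mem_bot]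
    exact hSdisj s hsS' h5
  have hPdisj : zpowers x ⊓ Cfsg.pPrimeCore p G = ⊥ := by
    rw [eq_bot_iff]
    rintro s ⟨hsN, hsS⟩
    rw [Subgroup.mem_bot]
    exact hSdisj s hsS hsN
  refine ⟨hSdisj, ?_, ?_⟩
  · have h1 := Cfsg.Agent.S0003.card_sup_mul_card_inf
      (normalizer ((zpowers x : Subgroup G) : Set G)) (Cfsg.pPrimeCore p G)
    rw [hNdisj, Subgroup.card_bot, mul_one] at h1
    exact h1
  · have h1 := Cfsg.Agent.S0003.card_sup_mul_card_inf (zpowers x) (Cfsg.pPrimeCore p G)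
    rw [hPdisj, Subgroup.card_bot, mul_one, Nat.card_zpowers, hx] at h1
    exact h1

theorem result {G : Type*} [Group G] [Finite G] (p : ℕ) (hp : p.Prime) (x : G) (hx : orderOf x = p) (hC : Subgroup.centralizer ({x} : Set G) = Subgroup.zpowers x) (t : ℕ) (ht : Nat.card {C : ConjClasses G // ∃ g ∈ C.carrier, orderOf g = p} = t) (n : ℕ) (hn : Nat.card {H : Subgroup G // Nat.card H = p} = 1 + n * p) : ((∃ S : Subgroup G, S.Normal ∧ Nat.card S = 1 + n * p) ↔ (t = p - 1 ∨ (t < p - 1 ∧ derivedSeries G 2 ≠ derivedSeries G 1))) ∧ (t = p - 1 → Nat.card (commutator G) = 1 + n * p ∧ IsCyclic (G ⧸ commutator G) ∧ (commutator G).index = p) ∧ (t < p - 1 → derivedSeries G 2 ≠ derivedSeries G 1 → Nat.card (derivedSeries G 2) = 1 + n * p ∧ Nat.card (commutator G) = p * (1 + n * p)) := by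
  haveI : Fact p.Prime := ⟨hp⟩
  have hx1 := S4495.x_ne_one p hp x hx
  obtain ⟨hSdisj, hcardNS, hcardPS⟩ := core_facts p hp x hx hC
  obtain ⟨hI, hII⟩ := S4495.count_le p hp x hx hC
  rw [ht] at hI hII
  have hidxN := num_syl p hp x hx hC
  rw [hn] at hidxN
  have hcardG := Subgroup.card_mul_index
    (Subgroup.normalizer ((Subgroup.zpowers x : Subgroup G) : Set G))
  rw [← hidxN] at hcardG
  have he0 : (Subgroup.zpowers x).relIndex
      (Subgroup.normalizer ((Subgroup.zpowers x : Subgroup G) : Set G)) ≠ 0 := by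
    show ((Subgroup.zpowers x).subgroupOf _).index ≠ 0
    exact Subgroup.index_ne_zero_of_finite
  have hNpos : 0 < Nat.card (Subgroup.normalizer ((Subgroup.zpowers x : Subgroup G) : Set G)) :=
    Nat.card_pos
  have hp1 : 0 < p - 1 := Nat.sub_pos_of_lt hp.one_lt
  have hB : t = p - 1 → Nat.card (commutator G) = 1 + n * p ∧ IsCyclic (G ⧸ commutator G) ∧
      (commutator G).index = p := by
    intro hte
    rw [hte] at hI
    have he1 : (Subgroup.zpowers x).relIndex
        (Subgroup.normalizer ((Subgroup.zpowers x : Subgroup G) : Set G)) ≤ 1 := by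
      by_contra h; push_neg at h; nlinarith
    have he : (Subgroup.zpowers x).relIndex
        (Subgroup.normalizer ((Subgroup.zpowers x : Subgroup G) : Set G)) = 1 := by omega
    have hN : Subgroup.normalizer ((Subgroup.zpowers x : Subgroup G) : Set G) = Subgroup.zpowers x :=
      le_antisymm (Subgroup.relIndex_eq_one.mp he) Subgroup.le_normalizer
    have hidx := S4495.idx_eq p hp x hx hC hN
    refine ⟨?_, ?_, hidx⟩
    · have h3 := Subgroup.card_mul_index (commutator G)
      rw [hidx] at h3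
      have hcardG' := hcardG
      rw [hN, Nat.card_zpowers, hx] at hcardG'
      apply Nat.eq_of_mul_eq_mul_left hp.pos
      rw [hcardG', mul_comm, h3]
    · apply isCyclic_of_prime_card (p := p)
      rw [← Subgroup.index_eq_card, hidx]
  have hC' : t ≠ p - 1 → derivedSeries G 2 ≠ derivedSeries G 1 →
      Nat.card (derivedSeries G 2) = 1 + n * p ∧ Nat.card (commutator G) = p * (1 + n * p) := by
    intro htne hder
    have hne : Subgroup.normalizer ((Subgroup.zpowers x : Subgroup G) : Set G) ≠ Subgroup.zpowers x :=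
      fun h => htne (hII h)
    obtain ⟨hPle, hfr⟩ := S4497.frat p hp x hx hC hne
    have hG2 : derivedSeries G 2 = ⁅commutator G, commutator G⁆ := rfl
    have hG2le : derivedSeries G 2 ≤ commutator G := by
      rw [hG2]; exact Subgroup.commutator_le_self _
    haveI hG2n : (derivedSeries G 2).Normal := derivedSeries_normal G 2
    have hpG2 : ¬ p ∣ Nat.card (derivedSeries G 2) := by
      intro hdvd
      have h0 := (Cfsg.Agent.S4496.result p hp x hx hC (derivedSeries G 2)).1 hdvd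
      exact hder (le_antisymm hG2le h0)
    have hG2S : derivedSeries G 2 ≤ Cfsg.pPrimeCore p G :=
      Cfsg.Agent.Lib.Helper3.Core.le_pPrimeCore _ hG2n
        ((Nat.Coprime.symm ((Nat.Prime.coprime_iff_not_dvd hp).mpr hpG2)))
    have hSle : Cfsg.pPrimeCore p G ≤ commutator G := S4497.le_comm_of_disj x hC _ hSdisj
    have hSG2 : Cfsg.pPrimeCore p G ≤ derivedSeries G 2 := by
      intro s hs
      obtain ⟨k₀, hk₀, hk⟩ := surj_of_disj x hC _ hSdisj s hs
      rw [← hk, hG2]
      have h8 := Subgroup.commutator_mem_commutator (hSle hk₀) (hPle (Subgroup.mem_zpowers x))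
      rwa [commutatorElement_def] at h8
    have hG2eq : derivedSeries G 2 = Cfsg.pPrimeCore p G := le_antisymm hG2S hSG2
    haveI hMn : ((Subgroup.zpowers x ⊔ Cfsg.pPrimeCore p G).subgroupOf (commutator G)).Normal := by
      constructor
      intro m hm c
      rw [Subgroup.mem_subgroupOf] at hm ⊢
      have h1 : ((c * m * c⁻¹ : commutator G) : G)
          = ((c : G) * (m : G) * (c : G)⁻¹ * (m : G)⁻¹) * (m : G) := by
        simp only [Subgroup.coe_mul, Subgroup.coe_inv]; group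
      rw [h1]
      apply Subgroup.mul_mem _ _ hm
      apply le_sup_right (a := Subgroup.zpowers x)
      rw [← hG2eq, hG2]
      have h8 := Subgroup.commutator_mem_commutator c.2 m.2
      rwa [commutatorElement_def] at h8
    have hpM : p ∣ Nat.card ((Subgroup.zpowers x ⊔ Cfsg.pPrimeCore p G).subgroupOf (commutator G)) := by
      have hxm : (⟨x, hPle (Subgroup.mem_zpowers x)⟩ : commutator G) ∈
          (Subgroup.zpowers x ⊔ Cfsg.pPrimeCore p G).subgroupOf (commutator G) := by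
        rw [Subgroup.mem_subgroupOf]; exact le_sup_left (b := Cfsg.pPrimeCore p G) (Subgroup.mem_zpowers x)
      have h0 := Subgroup.orderOf_dvd_natCard _ hxm
      rwa [← Subgroup.orderOf_coe, hx] at h0
    have hMtop := S4497.big_normal p hp x hx hC hne _ hpM
    have hG'le : commutator G ≤ Subgroup.zpowers x ⊔ Cfsg.pPrimeCore p G := by
      intro a ha
      have h0 : (⟨a, ha⟩ : commutator G) ∈
          (Subgroup.zpowers x ⊔ Cfsg.pPrimeCore p G).subgroupOf (commutator G) := by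
        rw [hMtop]; trivial
      exact Subgroup.mem_subgroupOf.mp h0
    have hG'eq : commutator G = Subgroup.zpowers x ⊔ Cfsg.pPrimeCore p G :=
      le_antisymm hG'le (sup_le hPle hSle)
    have hNS : Subgroup.normalizer ((Subgroup.zpowers x : Subgroup G) : Set G) ⊔ Cfsg.pPrimeCore p G
        = ⊤ := by
      rw [eq_top_iff, ← hfr, hG'eq]
      exact sup_le le_sup_left (sup_le (le_trans Subgroup.le_normalizer le_sup_left) le_sup_right)
    have hcS : Nat.card (Cfsg.pPrimeCore p G) = 1 + n * p := by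
      have hcardNS' := hcardNS
      rw [hNS, Subgroup.card_top] at hcardNS'
      apply Nat.eq_of_mul_eq_mul_left hNpos
      rw [← hcardNS', hcardG]
    refine ⟨by rw [hG2eq, hcS], by rw [hG'eq, hcardPS, hcS]⟩
  refine ⟨⟨?_, ?_⟩, hB, ?_⟩
  · rintro ⟨S, hSn, hScard⟩
    by_cases hte : t = p - 1
    · left; exact hte
    · right
      have htlt : t < p - 1 := by
        have h0 : t ≤ p - 1 := le_trans (Nat.le_mul_of_pos_left t (Nat.pos_of_ne_zero he0)) hI
        omega
      refine ⟨htlt, ?_⟩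
      have hne : Subgroup.normalizer ((Subgroup.zpowers x : Subgroup G) : Set G) ≠ Subgroup.zpowers x :=
        fun h => hte (hII h)
      obtain ⟨hPle, hfr⟩ := S4497.frat p hp x hx hC hne
      have hScop : (Nat.card S).Coprime p := by
        rw [hScard, Nat.coprime_add_mul_right_left]
        exact Nat.coprime_one_left p
      have hSle := Cfsg.Agent.Lib.Helper3.Core.le_pPrimeCore _ hSn hScop
      have hcard_ge : 1 + n * p ≤ Nat.card (Cfsg.pPrimeCore p G) := by
        rw [← hScard]; exact Subgroup.card_le_of_le hSle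
      have hNS : Subgroup.normalizer ((Subgroup.zpowers x : Subgroup G) : Set G) ⊔ Cfsg.pPrimeCore p G
          = ⊤ := by
        apply Subgroup.eq_top_of_le_card
        rw [hcardNS, ← hcardG]
        exact Nat.mul_le_mul_left _ hcard_ge
      have hG'le : commutator G ≤ Subgroup.zpowers x ⊔ Cfsg.pPrimeCore p G := by
        rw [_root_.commutator_def, Subgroup.commutator_le]
        intro a _ b _
        have ha : a ∈ Subgroup.normalizer ((Subgroup.zpowers x : Subgroup G) : Set G)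
            ⊔ Cfsg.pPrimeCore p G := by rw [hNS]; trivial
        have hb : b ∈ Subgroup.normalizer ((Subgroup.zpowers x : Subgroup G) : Set G)
            ⊔ Cfsg.pPrimeCore p G := by rw [hNS]; trivial
        obtain ⟨n₁, hn₁, s₁, hs₁, rfl⟩ := Subgroup.mem_sup_of_normal_right.mp ha
        obtain ⟨n₂, hn₂, s₂, hs₂, rfl⟩ := Subgroup.mem_sup_of_normal_right.mp hb
        have hcomm := comm_N x hC n₁ n₂ hn₁ hn₂
        have hker : (n₁ * n₂ * n₁⁻¹ * n₂⁻¹)⁻¹ * ⁅n₁ * s₁, n₂ * s₂⁆ ∈ Cfsg.pPrimeCore p G := by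
          rw [← QuotientGroup.eq (s := Cfsg.pPrimeCore p G)]
          have e1 : (QuotientGroup.mk s₁ : G ⧸ Cfsg.pPrimeCore p G) = 1 :=
            (QuotientGroup.eq_one_iff _).mpr hs₁
          have e2 : (QuotientGroup.mk s₂ : G ⧸ Cfsg.pPrimeCore p G) = 1 :=
            (QuotientGroup.eq_one_iff _).mpr hs₂
          rw [commutatorElement_def]
          simp only [QuotientGroup.mk_mul, QuotientGroup.mk_inv, e1, e2, mul_one]
        have h0 : ⁅n₁ * s₁, n₂ * s₂⁆ = (n₁ * n₂ * n₁⁻¹ * n₂⁻¹)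
            * ((n₁ * n₂ * n₁⁻¹ * n₂⁻¹)⁻¹ * ⁅n₁ * s₁, n₂ * s₂⁆) := by group
        rw [h0]
        exact Subgroup.mul_mem _ (le_sup_left (b := Cfsg.pPrimeCore p G) hcomm)
          (le_sup_right (a := Subgroup.zpowers x) hker)
      have hG2le : derivedSeries G 2 ≤ Cfsg.pPrimeCore p G := by
        have hG2 : derivedSeries G 2 = ⁅commutator G, commutator G⁆ := rfl
        rw [hG2]
        refine le_trans (Subgroup.commutator_mono hG'le hG'le) ?_
        rw [Subgroup.commutator_le]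
        intro a ha b hb
        obtain ⟨y₁, hy₁, s₁, hs₁, rfl⟩ := Subgroup.mem_sup_of_normal_right.mp ha
        obtain ⟨y₂, hy₂, s₂, hs₂, rfl⟩ := Subgroup.mem_sup_of_normal_right.mp hb
        rw [← QuotientGroup.eq_one_iff, commutatorElement_def]
        have e1 : (QuotientGroup.mk s₁ : G ⧸ Cfsg.pPrimeCore p G) = 1 :=
          (QuotientGroup.eq_one_iff _).mpr hs₁
        have e2 : (QuotientGroup.mk s₂ : G ⧸ Cfsg.pPrimeCore p G) = 1 :=
          (QuotientGroup.eq_one_iff _).mpr hs₂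
        simp only [QuotientGroup.mk_mul, QuotientGroup.mk_inv, e1, e2, mul_one]
        obtain ⟨i, rfl⟩ := Subgroup.mem_zpowers_iff.mp hy₁
        obtain ⟨j, rfl⟩ := Subgroup.mem_zpowers_iff.mp hy₂
        rw [← QuotientGroup.mk_mul, ← QuotientGroup.mk_inv, ← QuotientGroup.mk_inv,
          ← QuotientGroup.mk_mul, ← QuotientGroup.mk_mul]
        have h0 : x ^ i * x ^ j * (x ^ i)⁻¹ * (x ^ j)⁻¹ = 1 := by
          rw [← zpow_add, ← zpow_neg, ← zpow_add, ← zpow_neg, ← zpow_add]; simp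
        rw [h0]; rfl
      intro heq
      have hxG2 : x ∈ derivedSeries G 2 := by
        rw [heq]; exact hPle (Subgroup.mem_zpowers x)
      exact hx1 (hSdisj x (hG2le hxG2) (Subgroup.mem_zpowers x))
  · rintro (hte | ⟨htlt, hder⟩)
    · exact ⟨commutator G, inferInstance, (hB hte).1⟩
    · exact ⟨derivedSeries G 2, derivedSeries_normal G 2, (hC' (by omega) hder).1⟩
  · intro htlt hder
    exact hC' (by omega) hder

end Cfsg.Agent.S4509
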