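import Mathlib
import Cfsg.Statements.S4518
import Cfsg.Agent.Lib.Helper3.Char
import Cfsg.Agent.Lib.Helper3.CharCore
import Cfsg.Agent.Lib.Helper3.CharArith
import Cfsg.Agent.Lib.Helper3.CharInd
import Cfsg.Agent.Lib.Helper3.CharNormal
import Cfsg.Agent.Lib.Helper3.CharGalConj
import Cfsg.Agent.S0148

set_option autoImplicit false
open Cfsg
open Cfsg.Agent.Lib.Helper3.Char Cfsg.Agent.Lib.Helper3.CharCore Cfsg.Agent.Lib.Helper3.CharArith Cfsg.Agent.Lib.Helper3.CharInd Cfsg.Agent.Lib.Helper3.CharNormal Cfsg.Agent.Lib.Helper3.CharGalConj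
open scoped ComplexConjugate

namespace Cfsg.Agent.S4518

theorem result {G : Type*} [Group G] [Fintype G] (p : ℕ) [Fact p.Prime] (N : Subgroup G) [N.Normal] [Fintype N] (hidx : ¬ p ∣ N.index) (k e : ℕ) (hk : Nat.Coprime k (Nat.card G)) (hke : k ^ (p ^ e) ≡ 1 [MOD Nat.card G]) (χ : Cfsg.IrrCharacter G) (hχ : ∀ g : G, (χ : G → ℂ) (g ^ k) = (χ : G → ℂ) g) (θ : Cfsg.IrrCharacter N) (hθ : Cfsg.classInner (fun n : N => (χ : G → ℂ) n) (θ : N → ℂ) ≠ 0) : ∀ n : N, (θ : N → ℂ) (n ^ k) = (θ : N → ℂ) n := by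
  classical
  have hN : N.Normal := inferInstance
  have hp := (Fact.out : p.Prime)
  have hχi := χ.2
  have hχc := isCharacter_of_irr hχi
  have hθi := θ.2
  have hkN : k.Coprime (Nat.card N) :=
    Nat.Coprime.coprime_dvd_right (Subgroup.card_subgroup_dvd_card N) hk
  have hθ'i : Cfsg.IsIrrCharacter N (fun n => (θ : N → ℂ) (n ^ k)) := pow_isIrr k hkN hθi
  have hθ' : Cfsg.classInner (fun n : N => (χ : G → ℂ) n) (fun n => (θ : N → ℂ) (n ^ k)) ≠ 0 := by
    have h1 := pow_inner k hkN (fun n : N => (χ : G → ℂ) n) (θ : N → ℂ)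
    have h2 : (fun g : N => (fun n : N => (χ : G → ℂ) n) (g ^ k)) =
        fun n : N => (χ : G → ℂ) n := by
      funext g
      show (χ : G → ℂ) ((g ^ k : N) : G) = _
      rw [Subgroup.coe_pow, hχ]
    rw [h2] at h1
    rw [h1]
    exact hθ
  have hcl : ∃ g : G, (fun n => (θ : N → ℂ) (n ^ k)) = cj N hN (θ : N → ℂ) g := by
    have hI1 : Cfsg.IsCharacter G (Cfsg.indFun N (θ : N → ℂ)) :=
      Cfsg.Agent.S0148.result N _ (isCharacter_of_irr hθi)
    have hI2 : Cfsg.IsCharacter G (Cfsg.indFun N (fun n => (θ : N → ℂ) (n ^ k))) :=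
      Cfsg.Agent.S0148.result N _ (isCharacter_of_irr hθ'i)
    have h1 : Cfsg.classInner (Cfsg.indFun N (fun n => (θ : N → ℂ) (n ^ k)))
        (Cfsg.indFun N (θ : N → ℂ)) ≠ 0 := by
      intro h0
      rcases inner_eq_zero_of_char hI2 hI1 hχi h0 with h | h
      · rw [frobenius N _ _ (char_classFun hχc)] at h
        apply hθ'
        rw [classInner_conj_symm, h, map_zero]
      · rw [frobenius' N _ _ (char_classFun hχc)] at h
        exact hθ h
    rw [inner_ind_ind N hN] at h1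
    have h2 : ∑ x : G, Cfsg.classInner (fun n => (θ : N → ℂ) (n ^ k))
        (cj N hN (θ : N → ℂ) x) ≠ 0 := by
      intro h
      apply h1
      rw [h, mul_zero]
    obtain ⟨x, -, hx⟩ := Finset.exists_ne_zero_of_sum_ne_zero h2
    refine ⟨x, ?_⟩
    have h3 := irr_orthonormal hθ'i (cj_isIrr N hN hθi x)
    by_contra hne
    rw [if_neg hne] at h3
    exact hx h3
  obtain ⟨g, hg⟩ := hcl
  have hpow : ∀ j : ℕ, (fun n : N => (θ : N → ℂ) (n ^ (k ^ j))) =
      cj N hN (θ : N → ℂ) (g ^ j) := by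
    intro j
    induction j with
    | zero =>
      simp only [pow_zero, pow_one, cj_one]
    | succ j ih =>
      funext n
      have h1 : (θ : N → ℂ) (n ^ (k ^ (j + 1))) = cj N hN (θ : N → ℂ) (g ^ j) (n ^ k) := by
        rw [← ih]
        show (θ : N → ℂ) (n ^ (k ^ (j + 1))) = (θ : N → ℂ) ((n ^ k) ^ (k ^ j))
        rw [← pow_mul, pow_succ, mul_comm]
      rw [h1, cj_apply]
      have h2 : (⟨g ^ j * ((n ^ k : N) : G) * (g ^ j)⁻¹, hN.conj_mem _ (n ^ k).2 (g ^ j)⟩ : N) =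
          (⟨g ^ j * (n : G) * (g ^ j)⁻¹, hN.conj_mem _ n.2 (g ^ j)⟩ : N) ^ k := by
        apply Subtype.ext
        simp only [Subgroup.coe_pow]
        rw [conj_pow]
      rw [h2]
      have h3 := congrFun hg ⟨g ^ j * (n : G) * (g ^ j)⁻¹, hN.conj_mem _ n.2 (g ^ j)⟩
      have h4 : (θ : N → ℂ) ((⟨g ^ j * (n : G) * (g ^ j)⁻¹, hN.conj_mem _ n.2 (g ^ j)⟩ : N) ^ k) =
          cj N hN (θ : N → ℂ) g ⟨g ^ j * (n : G) * (g ^ j)⁻¹, hN.conj_mem _ n.2 (g ^ j)⟩ := h3
      rw [h4, pow_succ', ← cj_mul]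
      rfl
  have hfix1 : cj N hN (θ : N → ℂ) (g ^ (p ^ e)) = θ := by
    rw [← hpow]
    funext n
    have h1 : (n : N) ^ (k ^ (p ^ e)) = n ^ 1 := by
      rw [pow_eq_pow_iff_modEq]
      exact Nat.ModEq.of_dvd ((orderOf_dvd_natCard n).trans (Subgroup.card_subgroup_dvd_card N)) hke
    show (θ : N → ℂ) (n ^ (k ^ (p ^ e))) = (θ : N → ℂ) n
    rw [h1, pow_one]
  have hfixN : ∀ x : G, x ∈ N → cj N hN (θ : N → ℂ) x = θ := by
    intro x hx
    funext n
    rw [cj_apply]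
    exact char_classFun (isCharacter_of_irr hθi) n ⟨x, hx⟩
  have hfix2 : cj N hN (θ : N → ℂ) (g ^ N.index) = θ := hfixN _ (Subgroup.pow_index_mem N g)
  have hzpow : ∀ (x : G), cj N hN (θ : N → ℂ) x = θ → ∀ z : ℤ, cj N hN (θ : N → ℂ) (x ^ z) = θ := by
    intro x hx
    have hnat : ∀ m : ℕ, cj N hN (θ : N → ℂ) (x ^ m) = θ := by
      intro m
      induction m with
      | zero => rw [pow_zero, cj_one]
      | succ m ih => rw [pow_succ, ← cj_mul, ih, hx]
    have hinv : ∀ y : G, cj N hN (θ : N → ℂ) y = θ → cj N hN (θ : N → ℂ) y⁻¹ = θ := by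
      intro y hy
      have h1 : cj N hN (cj N hN (θ : N → ℂ) y) y⁻¹ = θ := by
        rw [cj_mul, mul_inv_cancel, cj_one]
      rw [hy] at h1
      exact h1
    intro z
    cases z with
    | ofNat m => 
      rw [Int.ofNat_eq_natCast, zpow_natCast]
      exact hnat m
    | negSucc m =>
      rw [zpow_negSucc]
      exact hinv _ (hnat (m + 1))
  have hcop : Nat.Coprime (p ^ e) N.index :=
    Nat.Coprime.pow_left e ((Nat.Prime.coprime_iff_not_dvd hp).mpr hidx)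
  have hbez := Nat.gcd_eq_gcd_ab (p ^ e) N.index
  rw [hcop.gcd_eq_one] at hbez
  have hgfix : cj N hN (θ : N → ℂ) g = θ := by
    have h1 : g = (g ^ (p ^ e)) ^ (Nat.gcdA (p ^ e) N.index) *
        (g ^ N.index) ^ (Nat.gcdB (p ^ e) N.index) := by
      rw [← zpow_natCast g (p ^ e), ← zpow_natCast g N.index, ← zpow_mul, ← zpow_mul, ← zpow_add,
        ← hbez]
      simp
    rw [h1, ← cj_mul, hzpow _ hfix1, hzpow _ hfix2]
  intro n
  have h1 := congrFun hg n
  rw [hgfix] at h1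
  exact h1

end Cfsg.Agent.S4518
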