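import Mathlib
import Cfsg.Statements.S4550
import Cfsg.Agent.Lib.Helper3.Char
import Cfsg.Agent.Lib.Helper3.CharCore
import Cfsg.Agent.Lib.Helper3.CharArith
import Cfsg.Agent.Lib.Helper3.CharInd
import Cfsg.Agent.Lib.Helper3.CharGalConj
import Cfsg.Agent.Lib.Helper3.BlkLocal
import Cfsg.Agent.Lib.Helper3.BlkCong
import Cfsg.Agent.Lib.Helper3.BlkOrth
import Cfsg.Agent.Lib.Helper3.BlkOrth2
import Cfsg.Agent.Lib.Helper3.BlkOrth3
import Cfsg.Agent.Lib.Helper3.BlkOrth4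

set_option autoImplicit false
open Cfsg
open Cfsg.Agent.Lib.Helper3.Char Cfsg.Agent.Lib.Helper3.CharCore Cfsg.Agent.Lib.Helper3.CharArith Cfsg.Agent.Lib.Helper3.CharInd Cfsg.Agent.Lib.Helper3.CharGalConj Cfsg.Agent.Lib.Helper3.BlkLocal Cfsg.Agent.Lib.Helper3.BlkCong Cfsg.Agent.Lib.Helper3.BlkOrth Cfsg.Agent.Lib.Helper3.BlkOrth2 Cfsg.Agent.Lib.Helper3.BlkOrth3 Cfsg.Agent.Lib.Helper3.BlkOrth4
open scoped ComplexConjugate

namespace Cfsg.Agent.S4550

universe u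

theorem three_pow (A : ℕ) : (3 : ℕ) ^ (2 ^ A) ≡ 1 [MOD 2 ^ (A + 1)] := by
  have h : ∀ A : ℕ, ((2 : ℤ) ^ (A + 1)) ∣ (3 : ℤ) ^ (2 ^ A) - 1 := by
    intro A
    induction A with
    | zero => norm_num
    | succ A ih =>
      have h1 : (3 : ℤ) ^ (2 ^ (A + 1)) - 1 =
          ((3 : ℤ) ^ (2 ^ A) - 1) * ((3 : ℤ) ^ (2 ^ A) + 1) := by
        rw [pow_succ 2 A, pow_mul]
        ring
      rw [h1, pow_succ (2 : ℤ) (A + 1)]
      apply mul_dvd_mul ih
      have h2 : (2 : ℤ) ∣ (3 : ℤ) ^ (2 ^ A) - 1 :=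
        dvd_trans (dvd_pow_self 2 (by omega)) ih
      have h3 : (3 : ℤ) ^ (2 ^ A) + 1 = ((3 : ℤ) ^ (2 ^ A) - 1) + 2 := by ring
      rw [h3]
      exact dvd_add h2 (dvd_refl 2)
  apply Nat.ModEq.symm
  rw [Nat.modEq_iff_dvd]
  have h1 := h A
  push_cast
  exact h1

theorem pow_fix {G : Type u} [Group G] [Finite G] (k : ℕ)
    (hk₁ : ∀ g : G, (∃ j : ℕ, orderOf g = 2 ^ j) → g ^ k = g ^ 3)
    (hk₂ : ∀ g : G, Odd (orderOf g) → g ^ k = g) (g : G) :
    g ^ (k ^ (2 ^ Nat.card G)) = g := by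
  have hn : orderOf g ≠ 0 := (orderOf_pos g).ne'
  obtain ⟨j, r, hrodd, hdec⟩ := Nat.exists_eq_two_pow_mul_odd hn
  have hcop : Nat.Coprime (2 ^ j) r := Nat.Coprime.pow_left j (Nat.coprime_two_left.mpr hrodd)
  have hr0 : r ≠ 0 := by
    rintro rfl
    exact absurd hrodd (by decide)
  have hx : (g ^ r) ^ k = (g ^ r) ^ 3 := by
    apply hk₁
    have h1 : (g ^ r) ^ (2 ^ j) = 1 := by
      rw [← pow_mul, mul_comm, ← hdec, pow_orderOf_eq_one]
    obtain ⟨i, _, hi⟩ := (Nat.dvd_prime_pow Nat.prime_two).mp (orderOf_dvd_of_pow_eq_one h1)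
    exact ⟨i, hi⟩
  have hk3 : k ≡ 3 [MOD 2 ^ j] := by
    rw [← pow_mul, ← pow_mul, pow_eq_pow_iff_modEq, hdec, mul_comm (2 ^ j) r] at hx
    exact Nat.ModEq.mul_left_cancel' hr0 hx
  have hy : (g ^ 2 ^ j) ^ k = g ^ 2 ^ j := by
    apply hk₂
    have h1 : (g ^ 2 ^ j) ^ r = 1 := by
      rw [← pow_mul, ← hdec, pow_orderOf_eq_one]
    exact Odd.of_dvd_nat hrodd (orderOf_dvd_of_pow_eq_one h1)
  have hk1 : k ≡ 1 [MOD r] := by
    have hy' : g ^ (2 ^ j * k) = g ^ (2 ^ j * 1) := by rw [pow_mul, hy, mul_one]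
    rw [pow_eq_pow_iff_modEq, hdec] at hy'
    exact Nat.ModEq.mul_left_cancel' (pow_ne_zero j two_ne_zero) hy'
  have hjA : j ≤ Nat.card G + 1 := by
    have h1 : 2 ^ j ∣ orderOf g := ⟨r, hdec⟩
    have h2 : 2 ^ j ≤ orderOf g := Nat.le_of_dvd (orderOf_pos g) h1
    have h3 : orderOf g ≤ Nat.card G := Nat.le_of_dvd Nat.card_pos (orderOf_dvd_natCard g)
    have h4 : j < 2 ^ j := Nat.lt_two_pow_self
    omega
  have hA : k ^ (2 ^ Nat.card G) ≡ 1 [MOD 2 ^ j] :=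
    (hk3.pow (2 ^ Nat.card G)).trans
      (Nat.ModEq.of_dvd (pow_dvd_pow 2 hjA) (three_pow (Nat.card G)))
  have hB : k ^ (2 ^ Nat.card G) ≡ 1 [MOD r] := by
    have h1 := hk1.pow (2 ^ Nat.card G)
    rw [one_pow] at h1
    exact h1
  have hAB : k ^ (2 ^ Nat.card G) ≡ 1 [MOD 2 ^ j * r] :=
    (Nat.modEq_and_modEq_iff_modEq_mul hcop).mp ⟨hA, hB⟩
  rw [← hdec] at hAB
  have h5 := pow_eq_pow_iff_modEq.mpr hAB
  rw [pow_one] at h5
  exact h5

theorem result {G : Type*} [Group G] [Finite G] (M : Ideal Cfsg.AlgInt) (hM : Cfsg.IsPModular 2 M) (hev : Even (Nat.card G)) (k : ℕ) (hk₁ : ∀ g : G, (∃ j : ℕ, orderOf g = 2 ^ j) → g ^ k = g ^ 3) (hk₂ : ∀ g : G, Odd (orderOf g) → g ^ k = g) : Even (Nat.card {χ : Cfsg.IrrCharacter G // χ ∈ Cfsg.principalBlock M G ∧ Odd (Cfsg.charDegree (χ : G → ℂ)) ∧ ∀ g : G, (χ : G → ℂ) (g ^ k) = (χ : G → ℂ) g}) := by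
  classical
  have _fg : Fintype G := Fintype.ofFinite G
  have _fi : Fintype (Cfsg.IrrCharacter G) := Fintype.ofFinite _
  have hMp := hM.2.1.isPrime
  have _h2 : Fact (Nat.Prime 2) := ⟨Nat.prime_two⟩
  have hfix := pow_fix k hk₁ hk₂
  have hcop : k.Coprime (Nat.card G) := by
    by_contra hnc
    obtain ⟨q, hq, hqk, hqG⟩ := Nat.Prime.not_coprime_iff_dvd.mp hnc
    have _hq : Fact q.Prime := ⟨hq⟩
    obtain ⟨z, hz⟩ := exists_prime_orderOf_dvd_card' q hqG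
    have h1 : z ^ (k ^ (2 ^ Nat.card G)) = 1 := by
      apply orderOf_dvd_iff_pow_eq_one.mp
      rw [hz]
      exact dvd_trans hqk (dvd_pow_self k (pow_ne_zero _ two_ne_zero))
    rw [hfix z] at h1
    rw [h1, orderOf_one] at hz
    exact hq.one_lt.ne hz
  have hcent : ∀ g : G, Subgroup.centralizer ({g ^ k} : Set G) =
      Subgroup.centralizer ({g} : Set G) := by
    intro g
    ext c
    rw [Subgroup.mem_centralizer_iff, Subgroup.mem_centralizer_iff]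
    constructor
    · intro h y hy
      rw [Set.mem_singleton_iff] at hy
      have h2 : Commute (g ^ k) c := h (g ^ k) (Set.mem_singleton _)
      have h3 := h2.pow_left (k ^ (2 ^ Nat.card G - 1))
      rw [← pow_mul, ← pow_succ', Nat.sub_add_cancel Nat.one_le_two_pow, hfix g] at h3
      rw [hy]
      exact h3
    · intro h y hy
      rw [Set.mem_singleton_iff] at hy
      have h2 : Commute g c := h g (Set.mem_singleton _)
      rw [hy]
      exact h2.pow_left k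
  have hstab : ∀ χ : Cfsg.IrrCharacter G, χ ∈ Cfsg.principalBlock M G →
      (⟨fun g => (χ : G → ℂ) (g ^ k), pow_isIrr k hcop χ.2⟩ : Cfsg.IrrCharacter G) ∈
        Cfsg.principalBlock M G := by
    intro χ hχ
    show Cfsg.SameBlock M (fun _ : G => (1 : ℂ)) (fun g => (χ : G → ℂ) (g ^ k))
    intro g
    have h1 : Cfsg.MemLocalIdeal M (Cfsg.centralChar (fun _ : G => (1 : ℂ)) (g ^ k) -
        Cfsg.centralChar (χ : G → ℂ) (g ^ k)) := hχ (g ^ k)
    unfold Cfsg.centralChar at h1 ⊢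
    rw [hcent g] at h1
    beta_reduce at h1 ⊢
    rw [one_pow]
    exact h1
  obtain ⟨t, ht⟩ := exists_prime_orderOf_dvd_card' 2 (even_iff_two_dvd.mp hev)
  have ht2 : t ^ 2 = 1 := by
    rw [← ht]
    exact pow_orderOf_eq_one t
  have htinv : t⁻¹ = t := by
    rw [pow_two] at ht2
    exact inv_eq_of_mul_eq_one_left ht2
  have hB : Cfsg.IsPBlock M (Cfsg.principalBlock M G) := ⟨⟨fun _ => 1, isIrr_one G⟩, rfl⟩
  have hw := weak_orth hM (Cfsg.principalBlock M G) hB 1 t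
    (by rw [orderOf_one]; norm_num) (by rw [ht])
  have hdeg : ∀ χ : Cfsg.IrrCharacter G,
      (χ : G → ℂ) 1 = (Cfsg.charDegree (χ : G → ℂ) : ℂ) := by
    intro χ
    obtain ⟨n, _, h1⟩ := irr_one_pos χ.2
    rw [charDegree_eq h1]
    exact h1
  have hterm : ∀ χ : Cfsg.IrrCharacter G, Cfsg.MemLocalIdeal M
      ((χ : G → ℂ) 1 * conj ((χ : G → ℂ) t) -
        ((Cfsg.charDegree (χ : G → ℂ) ^ 2 : ℕ) : ℂ)) := by
    intro χ
    have h1 := char_inv (isCharacter_of_irr χ.2) t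
    rw [htinv] at h1
    rw [← h1]
    have h2 := char_cong hM (isCharacter_of_irr χ.2) t 1 (by rw [mul_one, one_mul]) 1
      (by rw [pow_one]; exact ht2)
    rw [mul_one] at h2
    have h3 : (χ : G → ℂ) 1 * (χ : G → ℂ) t - ((Cfsg.charDegree (χ : G → ℂ) ^ 2 : ℕ) : ℂ) =
        (Cfsg.charDegree (χ : G → ℂ) : ℂ) * ((χ : G → ℂ) t - (χ : G → ℂ) 1) := by
      rw [hdeg χ]
      push_cast
      ring
    rw [h3]
    refine li_mul_left hMp ?_ h2
    exact lr_of_isIntegral hMp (isIntegral_algebraMap (R := ℤ) (A := ℂ)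
      (x := (Cfsg.charDegree (χ : G → ℂ) : ℤ)) |> fun h => by simpa using h)
  have hsum : Cfsg.MemLocalIdeal M ((∑ χ : Cfsg.IrrCharacter G,
      (if χ ∈ Cfsg.principalBlock M G then Cfsg.charDegree (χ : G → ℂ) ^ 2 else 0) : ℕ) : ℂ) := by
    have h1 := li_sum hMp Finset.univ (fun χ : Cfsg.IrrCharacter G =>
      if χ ∈ Cfsg.principalBlock M G then ((χ : G → ℂ) 1 * conj ((χ : G → ℂ) t) -
        ((Cfsg.charDegree (χ : G → ℂ) ^ 2 : ℕ) : ℂ)) else 0) (by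
        intro χ _
        beta_reduce
        split_ifs
        · exact hterm χ
        · exact li_zero hMp)
    have h2 : ∑ χ : Cfsg.IrrCharacter G,
        (if χ ∈ Cfsg.principalBlock M G then ((χ : G → ℂ) 1 * conj ((χ : G → ℂ) t) -
          ((Cfsg.charDegree (χ : G → ℂ) ^ 2 : ℕ) : ℂ)) else 0) =
        ∑ χ : Cfsg.IrrCharacter G,
          (if χ ∈ Cfsg.principalBlock M G then (χ : G → ℂ) 1 * conj ((χ : G → ℂ) t) else 0) -
        ∑ χ : Cfsg.IrrCharacter G,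
          (if χ ∈ Cfsg.principalBlock M G then
            ((Cfsg.charDegree (χ : G → ℂ) ^ 2 : ℕ) : ℂ) else 0) := by
      rw [← Finset.sum_sub_distrib]
      apply Finset.sum_congr rfl
      intro χ _
      split_ifs
      · rfl
      · rw [sub_zero]
    rw [h2, hw, zero_sub] at h1
    have h3 := li_neg h1
    rw [neg_neg] at h3
    have h4 : ((∑ χ : Cfsg.IrrCharacter G,
        (if χ ∈ Cfsg.principalBlock M G then Cfsg.charDegree (χ : G → ℂ) ^ 2 else 0) : ℕ) : ℂ) =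
        ∑ χ : Cfsg.IrrCharacter G, (if χ ∈ Cfsg.principalBlock M G then
            ((Cfsg.charDegree (χ : G → ℂ) ^ 2 : ℕ) : ℂ) else 0) := by
      rw [Nat.cast_sum]
      apply Finset.sum_congr rfl
      intro χ _
      split_ifs
      · rfl
      · exact Nat.cast_zero
    rw [h4]
    exact h3
  have hdvd := (li_nat_iff hM _).mp hsum
  have hpar : (∑ χ : Cfsg.IrrCharacter G,
      (if χ ∈ Cfsg.principalBlock M G then Cfsg.charDegree (χ : G → ℂ) ^ 2 else 0)) % 2 =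
      (Finset.univ.filter (fun χ : Cfsg.IrrCharacter G =>
        χ ∈ Cfsg.principalBlock M G ∧ Odd (Cfsg.charDegree (χ : G → ℂ)))).card % 2 := by
    rw [Finset.card_filter, Finset.sum_nat_mod]
    congr 1
    apply Finset.sum_congr rfl
    intro χ _
    by_cases h1 : χ ∈ Cfsg.principalBlock M G
    · by_cases h2 : Odd (Cfsg.charDegree (χ : G → ℂ))
      · rw [if_pos h1, if_pos ⟨h1, h2⟩]
        exact Nat.odd_iff.mp h2.pow
      · rw [if_pos h1, if_neg (fun h => h2 h.2)]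
        have h3 : Even (Cfsg.charDegree (χ : G → ℂ)) := Nat.not_odd_iff_even.mp h2
        exact Nat.even_iff.mp (h3.pow_of_ne_zero two_ne_zero)
    · rw [if_neg h1, if_neg (fun h => h1 h.1)]
  have hTcard : Fintype.card {χ : Cfsg.IrrCharacter G //
      χ ∈ Cfsg.principalBlock M G ∧ Odd (Cfsg.charDegree (χ : G → ℂ))} % 2 = 0 := by
    rw [Fintype.card_subtype, ← hpar]
    exact Nat.mod_eq_zero_of_dvd hdvd
  let F : Function.End {χ : Cfsg.IrrCharacter G //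
      χ ∈ Cfsg.principalBlock M G ∧ Odd (Cfsg.charDegree (χ : G → ℂ))} :=
    fun χ => ⟨⟨fun g => (χ.1 : G → ℂ) (g ^ k), pow_isIrr k hcop χ.1.2⟩, hstab χ.1 χ.2.1, by
      show Odd ⌊((χ.1 : G → ℂ) (1 ^ k)).re⌋₊
      rw [one_pow]
      exact χ.2.2⟩
  have hFpow : ∀ (m : ℕ) (χ : {χ : Cfsg.IrrCharacter G //
      χ ∈ Cfsg.principalBlock M G ∧ Odd (Cfsg.charDegree (χ : G → ℂ))}) (g : G),
      ((((F ^ m) χ).1 : Cfsg.IrrCharacter G) : G → ℂ) g = (χ.1 : G → ℂ) (g ^ (k ^ m)) := by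
    intro m
    induction m with
    | zero =>
      intro χ g
      rw [pow_zero, pow_zero, pow_one]
      rfl
    | succ m ih =>
      intro χ g
      rw [pow_succ' F m]
      have h1 : ((((F * F ^ m) χ).1 : Cfsg.IrrCharacter G) : G → ℂ) g =
          ((((F ^ m) χ).1 : Cfsg.IrrCharacter G) : G → ℂ) (g ^ k) := rfl
      rw [h1, ih χ (g ^ k), ← pow_mul, ← pow_succ']
  have hF1 : F ^ 2 ^ (Nat.card G) = 1 := by
    funext χ
    apply Subtype.ext
    apply Subtype.ext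
    funext g
    rw [hFpow, hfix]
    rfl
  have hmod := Equiv.Perm.card_fixedPoints_modEq (f := F) (p := 2) (n := Nat.card G) hF1
  have hfp : Fintype.card (Function.fixedPoints F) % 2 = 0 := by
    rw [← hmod]
    exact hTcard
  rw [Fintype.card_eq_nat_card] at hfp
  have hcongr : Nat.card (Function.fixedPoints F) = Nat.card {χ : Cfsg.IrrCharacter G //
      χ ∈ Cfsg.principalBlock M G ∧ Odd (Cfsg.charDegree (χ : G → ℂ)) ∧
        ∀ g : G, (χ : G → ℂ) (g ^ k) = (χ : G → ℂ) g} := by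
    apply Nat.card_congr
    refine ⟨fun χ => ⟨χ.1.1, χ.1.2.1, χ.1.2.2, fun g =>
        congrFun (congrArg (fun t : {χ : Cfsg.IrrCharacter G //
          χ ∈ Cfsg.principalBlock M G ∧ Odd (Cfsg.charDegree (χ : G → ℂ))} =>
            ((t.1 : Cfsg.IrrCharacter G) : G → ℂ)) χ.2) g⟩,
      fun χ => ⟨⟨χ.1, χ.2.1, χ.2.2.1⟩, Subtype.ext (Subtype.ext (funext χ.2.2.2))⟩, ?_, ?_⟩
    · intro χ
      rfl
    · intro χ
      rfl
  rw [← hcongr]
  exact Nat.even_iff.mpr hfp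

end Cfsg.Agent.S4550
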