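import Mathlib
import Cfsg.Statements.S4558
import Cfsg.Agent.Lib.Helper3.Char
import Cfsg.Agent.Lib.Helper3.BlkLocal
import Cfsg.Agent.Lib.Helper3.BlkFrob
import Cfsg.Agent.Lib.Helper3.BlkCong
import Cfsg.Agent.Lib.Helper3.BlkOrth4

set_option autoImplicit false
open Cfsg
open Cfsg.Agent.Lib.Helper3.Char Cfsg.Agent.Lib.Helper3.BlkLocal Cfsg.Agent.Lib.Helper3.BlkFrob Cfsg.Agent.Lib.Helper3.BlkCong Cfsg.Agent.Lib.Helper3.BlkOrth4

namespace Cfsg.Agent.S4558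

theorem result {G : Type*} [Group G] [Finite G] (p : ℕ) [Fact p.Prime] (χ : G → ℂ) (hχ : Cfsg.IsCharacter G χ) (g : G) (hg : ∃ j : ℕ, orderOf g = p ^ j) (h0 : χ g = 0) : p ∣ Cfsg.charDegree χ := by
  classical
  have hp : p.Prime := Fact.out
  obtain ⟨M, hM⟩ := exists_pmodular hp
  have hMp := hM.2.1.isPrime
  obtain ⟨j, hj⟩ := hg
  have h1 := char_cong hM hχ g 1 (by simp) j (by
    rw [← hj]
    exact pow_orderOf_eq_one g)
  rw [mul_one, h0, zero_sub] at h1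
  have h2 := li_neg h1
  rw [neg_neg] at h2
  obtain ⟨n, hn⟩ : ∃ n : ℕ, χ 1 = (n : ℂ) := by
    obtain ⟨n, ρ, rfl⟩ := hχ
    exact ⟨n, by rw [Representation.char_one, Module.finrank_fin_fun]⟩
  rw [charDegree_eq hn]
  rw [hn] at h2
  exact (li_nat_iff hM n).mp h2

end Cfsg.Agent.S4558
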