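import Mathlib
import Cfsg.Statements.S4566
import Cfsg.Agent.Lib.Helper3.Char
import Cfsg.Agent.Lib.Helper3.CharAb
import Cfsg.Agent.Lib.Helper3.CharLinear
import Cfsg.Agent.Lib.Helper3.CharProj

set_option autoImplicit false
open Cfsg
open Cfsg.Agent.Lib.Helper3.Char Cfsg.Agent.Lib.Helper3.CharAb Cfsg.Agent.Lib.Helper3.CharLinear Cfsg.Agent.Lib.Helper3.CharProj
open scoped ComplexConjugate

namespace Cfsg.Agent.S4566

theorem result {G : Type*} [Group G] [Fintype G] (N : Subgroup G) [Fintype N] (hN : N ≤ Subgroup.center G) (ψ : Cfsg.IrrCharacter ↥N) (hfaith : ∀ n : ↥N, (ψ : ↥N → ℂ) n = (ψ : ↥N → ℂ) 1 → n = 1) (χ : Cfsg.IrrCharacter G) (hover : Cfsg.classInner (fun n : ↥N => (χ : G → ℂ) n) (ψ : ↥N → ℂ) ≠ 0) (g x : G) (hcomm : x⁻¹ * g⁻¹ * x * g ∈ N) (hne : x⁻¹ * g⁻¹ * x * g ≠ 1) : (χ : G → ℂ) g = 0 := by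
  classical
  obtain ⟨z, hz⟩ : ∃ z : G, z = x⁻¹ * g⁻¹ * x * g := ⟨_, rfl⟩
  rw [← hz] at hcomm hne
  have hcf := char_classFun (isCharacter_of_irr χ.2)
  have hscal : ∃ a : ℂ, ∀ h : G, (χ : G → ℂ) (h * z) = a * (χ : G → ℂ) h := by
    obtain ⟨χ, hχ⟩ := χ
    obtain ⟨k, ρ, hirr, rfl⟩ := hχ
    have _i : ρ.IsIrreducible := hirr
    obtain ⟨a, ha⟩ := central_scalar ρ z (hN hcomm)
    refine ⟨a, fun h => ?_⟩
    show ρ.character (h * z) = a * ρ.character h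
    unfold Representation.character
    rw [map_mul, ha]
    have e : ρ h * (a • LinearMap.id) = a • ρ h := by
      ext v
      simp
    rw [e, map_smul, smul_eq_mul]
  obtain ⟨a, ha⟩ := hscal
  have hg : (χ : G → ℂ) g = a * (χ : G → ℂ) g := by
    have e : g = (x⁻¹ * g * x⁻¹⁻¹) * z := by
      rw [hz]
      group
    have h1 := ha (x⁻¹ * g * x⁻¹⁻¹)
    rw [← e, hcf g x⁻¹] at h1
    exact h1
  by_contra hχg
  have ha1 : a = 1 := by
    have h1 : (a - 1) * (χ : G → ℂ) g = 0 := by linear_combination -hg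
    rcases mul_eq_zero.mp h1 with h2 | h2
    · exact sub_eq_zero.mp h2
    · exact absurd h2 hχg
  have hab : ∀ u v : N, u * v = v * u := by
    intro u v
    apply Subtype.ext
    exact ((Subgroup.mem_center_iff.mp (hN u.2)) v).symm
  have hψ1 := abelian_linear hab ψ.2
  obtain ⟨lam, hlam⟩ := hom_of_deg_one (isCharacter_of_irr ψ.2) hψ1
  have hS : ∑ n : N, (χ : G → ℂ) n * (starRingEnd ℂ) ((ψ : N → ℂ) n) ≠ 0 := by
    intro h0
    apply hover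
    unfold Cfsg.classInner
    rw [h0, mul_zero]
  have hS2 : ∑ n : N, (χ : G → ℂ) n * (starRingEnd ℂ) ((ψ : N → ℂ) n) =
      (starRingEnd ℂ) ((ψ : N → ℂ) ⟨z, hcomm⟩) *
        ∑ n : N, (χ : G → ℂ) n * (starRingEnd ℂ) ((ψ : N → ℂ) n) := by
    conv_lhs => rw [← Equiv.sum_comp (Equiv.mulRight (⟨z, hcomm⟩ : N))
      (fun n : N => (χ : G → ℂ) n * (starRingEnd ℂ) ((ψ : N → ℂ) n))]
    rw [Finset.mul_sum]
    refine Finset.sum_congr rfl (fun n _ => ?_)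
    have e1 : (((Equiv.mulRight (⟨z, hcomm⟩ : N)) n : N) : G) = (n : G) * z := rfl
    have e2 : (ψ : N → ℂ) ((Equiv.mulRight (⟨z, hcomm⟩ : N)) n) =
        (ψ : N → ℂ) n * (ψ : N → ℂ) ⟨z, hcomm⟩ := by
      rw [hlam]
      show ((lam (n * ⟨z, hcomm⟩) : ℂˣ) : ℂ) = _
      rw [map_mul, Units.val_mul]
    rw [e1, e2, ha, ha1, one_mul, map_mul]
    ring
  have hψz : (starRingEnd ℂ) ((ψ : N → ℂ) ⟨z, hcomm⟩) = 1 := by
    have h1 : ((starRingEnd ℂ) ((ψ : N → ℂ) ⟨z, hcomm⟩) - 1) *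
        ∑ n : N, (χ : G → ℂ) n * (starRingEnd ℂ) ((ψ : N → ℂ) n) = 0 := by
      linear_combination -hS2
    rcases mul_eq_zero.mp h1 with h2 | h2
    · exact sub_eq_zero.mp h2
    · exact absurd h2 hS
  have hψz2 : (ψ : N → ℂ) ⟨z, hcomm⟩ = 1 := by
    have h1 := congrArg (starRingEnd ℂ) hψz
    rw [Complex.conj_conj, map_one] at h1
    exact h1
  have h3 := hfaith ⟨z, hcomm⟩ (by rw [hψz2, hψ1])
  apply hne
  exact congrArg Subtype.val h3

end Cfsg.Agent.S4566
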