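import Cfsg.Statements.S4582

import Mathlib

set_option autoImplicit false
open Cfsg
open scoped Pointwise

namespace Cfsg.Agent.S4582

universe u
open scoped commutatorElement

open MonoidHom in
/-- Transfer formula modulo a normal subgroup `N` with `N ⊔ H = ⊤`. -/
theorem transfer_mem {G : Type*} [Group G] {A : Type*} [CommGroup A] (H N : Subgroup G)
    [N.Normal] [H.FiniteIndex] (hNH : N ⊔ H = ⊤) (ϕ : H →* A) (B : Subgroup A)
    (hB : ∀ q : H, (q : G) ∈ N → ϕ q ∈ B) (y : H) :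
    MonoidHom.transfer ϕ (y : G) * (ϕ y ^ H.index)⁻¹ ∈ B := by
  classical
  letI := H.fintypeQuotientOfFiniteIndex
  have key : ∀ (g : G) (n : ℕ) (h : g⁻¹ * (y : G) ^ n * g ∈ H),
      ϕ ⟨g⁻¹ * (y : G) ^ n * g, h⟩ * (ϕ y ^ n)⁻¹ ∈ B := by
    intro g n h
    have hg : g ∈ ((N ⊔ H : Subgroup G) : Set G) := by rw [hNH]; trivial
    rw [Subgroup.normal_mul] at hg
    obtain ⟨n', hn', u, hu, rfl⟩ := Set.mem_mul.mp hg
    have hw : n'⁻¹ * (y : G) ^ n * n' ∈ H := by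
      have : n'⁻¹ * (y : G) ^ n * n' = u * ((n' * u)⁻¹ * (y : G) ^ n * (n' * u)) * u⁻¹ := by group
      rw [this]
      exact H.mul_mem (H.mul_mem hu h) (H.inv_mem hu)
    have hyn : (y : G) ^ n ∈ H := H.pow_mem y.2 n
    have hqH : ((y : G) ^ n)⁻¹ * (n'⁻¹ * (y : G) ^ n * n') ∈ H := H.mul_mem (H.inv_mem hyn) hw
    have hqN : ((y : G) ^ n)⁻¹ * (n'⁻¹ * (y : G) ^ n * n') ∈ N := by
      have h1 : ((y : G) ^ n)⁻¹ * n'⁻¹ * (((y : G) ^ n)⁻¹)⁻¹ ∈ N :=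
        ‹N.Normal›.conj_mem _ (N.inv_mem hn') _
      have : ((y : G) ^ n)⁻¹ * (n'⁻¹ * (y : G) ^ n * n')
          = (((y : G) ^ n)⁻¹ * n'⁻¹ * (((y : G) ^ n)⁻¹)⁻¹) * n' := by group
      rw [this]
      exact N.mul_mem h1 hn'
    have e : (⟨(n' * u)⁻¹ * (y : G) ^ n * (n' * u), h⟩ : H)
        = (⟨u, hu⟩ : H)⁻¹ * (y ^ n * ⟨_, hqH⟩) * ⟨u, hu⟩ := by
      apply Subtype.ext
      show (n' * u)⁻¹ * (y : G) ^ n * (n' * u)
        = u⁻¹ * ((y : G) ^ n * (((y : G) ^ n)⁻¹ * (n'⁻¹ * (y : G) ^ n * n'))) * u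
      group
    rw [e, map_mul, map_mul, map_mul, map_inv, map_pow]
    have := hB ⟨_, hqH⟩ hqN
    have e2 : (ϕ ⟨u, hu⟩)⁻¹ * (ϕ y ^ n * ϕ ⟨_, hqH⟩) * ϕ ⟨u, hu⟩ * (ϕ y ^ n)⁻¹ = ϕ ⟨_, hqH⟩ := by
      rw [mul_comm ((ϕ ⟨u, hu⟩)⁻¹) _, mul_assoc (ϕ y ^ n * ϕ ⟨_, hqH⟩), inv_mul_cancel, mul_one,
        mul_comm (ϕ y ^ n) _, mul_assoc, mul_inv_cancel, mul_one]
    rw [e2]
    exact this
  rw [transfer_eq_prod_quotient_orbitRel_zpowers_quot, Subgroup.index_eq_sum_minimalPeriod H (y : G),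
    ← Finset.prod_pow_eq_pow_sum, ← Finset.prod_inv_distrib, ← Finset.prod_mul_distrib]
  apply Subgroup.prod_mem
  intro q _
  exact key _ _ _

lemma eq_one_of_odd_pow {A : Type*} [Group A] (hA : IsPGroup 2 A) (a : A) (m : ℕ) (hm : Odd m)
    (h : a ^ m = 1) : a = 1 := by
  obtain ⟨k, hk⟩ := hA a
  have h1 : orderOf a ∣ Nat.gcd m (2 ^ k) :=
    Nat.dvd_gcd (orderOf_dvd_of_pow_eq_one h) (orderOf_dvd_of_pow_eq_one hk)
  have hcop : Nat.Coprime m (2 ^ k) := Nat.Coprime.pow_right k (Nat.coprime_two_right.mpr hm)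
  rw [hcop] at h1
  exact orderOf_eq_one_iff.mp (Nat.dvd_one.mp h1)

lemma of_eq_one_iff {G : Type*} [Group G] (P : Subgroup G) (z : P) :
    Abelianization.of z = 1 ↔ (z : G) ∈ ⁅P, P⁆ := by
  rw [← MonoidHom.mem_ker, Abelianization.ker_of, ← Subgroup.map_subtype_commutator]
  constructor
  · intro h
    exact ⟨z, h, rfl⟩
  · rintro ⟨z', hz', hzz'⟩
    have : z' = z := Subtype.ext hzz'
    rw [← this]; exact hz'

theorem result {G : Type*} [Group G] [Finite G] (N : Subgroup G) [N.Normal] (P : Sylow 2 G)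
    (hP : ∀ x ∈ (P : Subgroup G), x ^ 2 ∈ ((P : Subgroup G) ⊓ N) ⊔ ⁅(P : Subgroup G), (P : Subgroup G)⁆)
    (hQ : ∀ x ∈ (P : Subgroup G) ⊓ N, x ^ 2 ∈ ⁅(P : Subgroup G) ⊓ N, (P : Subgroup G) ⊓ N⁆)
    (hodd : Odd (Nat.card (Abelianization N))) :
    ∀ x ∈ (P : Subgroup G), x ^ 2 ∈ ⁅(P : Subgroup G), (P : Subgroup G)⁆ := by
  classical
  intro x hx
  haveI : Fact (Nat.Prime 2) := ⟨Nat.prime_two⟩
  obtain ⟨G₁, hG₁⟩ : ∃ G₁ : Subgroup G, G₁ = N ⊔ (P : Subgroup G) := ⟨_, rfl⟩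
  have hP_le : (P : Subgroup G) ≤ G₁ := hG₁ ▸ le_sup_right
  have hN_le : N ≤ G₁ := hG₁ ▸ le_sup_left
  haveI : (N.subgroupOf G₁).Normal := Subgroup.normal_subgroupOf
  have hsup : N.subgroupOf G₁ ⊔ (P : Subgroup G).subgroupOf G₁ = ⊤ := by
    rw [← Subgroup.subgroupOf_sup hN_le hP_le, ← hG₁, Subgroup.subgroupOf_self]
  let e : (P : Subgroup G).subgroupOf G₁ ≃* (P : Subgroup G) := Subgroup.subgroupOfEquivOfLe hP_le
  let ϕ : (P : Subgroup G).subgroupOf G₁ →* Abelianization (P : Subgroup G) :=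
    (Abelianization.of).comp e.toMonoidHom
  have hA : IsPGroup 2 (Abelianization (P : Subgroup G)) :=
    (P.2 : IsPGroup 2 (P : Subgroup G)).to_quotient (commutator (P : Subgroup G))
  let B : Subgroup (Abelianization (P : Subgroup G)) := (powMonoidHom 2).ker
  have hBmem : ∀ a : Abelianization (P : Subgroup G), a ∈ B ↔ a ^ 2 = 1 := fun a => Iff.rfl
  have hϕ : ∀ q : (P : Subgroup G).subgroupOf G₁, ϕ q = 1 ↔ ((q : G₁) : G) ∈ ⁅(P : Subgroup G), (P : Subgroup G)⁆ := by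
    intro q
    show Abelianization.of (e q) = 1 ↔ _
    rw [of_eq_one_iff]
    rfl
  have hB' : ∀ q : (P : Subgroup G).subgroupOf G₁, (q : G₁) ∈ N.subgroupOf G₁ → ϕ q ∈ B := by
    intro q hq
    rw [hBmem, ← map_pow, hϕ]
    have hqP : ((q : G₁) : G) ∈ (P : Subgroup G) := q.2
    have hqN : ((q : G₁) : G) ∈ N := hq
    have h1 := hQ _ (Subgroup.mem_inf.mpr ⟨hqP, hqN⟩)
    have h2 : ⁅(P : Subgroup G) ⊓ N, (P : Subgroup G) ⊓ N⁆ ≤ ⁅(P : Subgroup G), (P : Subgroup G)⁆ :=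
      Subgroup.commutator_mono inf_le_left inf_le_left
    exact h2 h1
  let V : G₁ →* Abelianization (P : Subgroup G) := MonoidHom.transfer ϕ
  -- V kills N
  have hVN : ∀ n : G₁, (n : G) ∈ N → V n = 1 := by
    intro n hn
    let ψ : N →* Abelianization (P : Subgroup G) := V.comp (Subgroup.inclusion hN_le)
    have h1 : ψ ⟨n, hn⟩ = Abelianization.lift ψ (Abelianization.of ⟨n, hn⟩) :=
      (Abelianization.lift_apply_of ψ _).symm
    have h2 : ψ ⟨n, hn⟩ ^ Nat.card (Abelianization N) = 1 := by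
      rw [h1, ← map_pow, pow_card_eq_one', map_one]
    have h3 := eq_one_of_odd_pow hA _ _ hodd h2
    exact h3
  -- V kills (P ⊓ N) ⊔ ⁅P, P⁆
  have hT : (((P : Subgroup G) ⊓ N) ⊔ ⁅(P : Subgroup G), (P : Subgroup G)⁆) ≤ V.ker.map G₁.subtype := by
    apply sup_le
    · intro z hz
      exact ⟨⟨z, hN_le (Subgroup.mem_inf.mp hz).2⟩, MonoidHom.mem_ker.mpr (hVN _ (Subgroup.mem_inf.mp hz).2), rfl⟩
    · rw [Subgroup.commutator_le]
      intro g₁ hg₁ g₂ hg₂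
      refine ⟨⁅(⟨g₁, hP_le hg₁⟩ : G₁), ⟨g₂, hP_le hg₂⟩⁆, ?_, rfl⟩
      show _ ∈ V.ker
      rw [MonoidHom.mem_ker, map_commutatorElement]
      exact commutatorElement_eq_one_iff_commute.mpr (Commute.all _ _)
  have hx2 := hT (hP x hx)
  obtain ⟨w, hw, hwx⟩ := hx2
  let y₁ : (P : Subgroup G).subgroupOf G₁ := ⟨⟨x, hP_le hx⟩, hx⟩
  have hVy2 : V ((y₁ : G₁) ^ 2) = 1 := by
    have : (y₁ : G₁) ^ 2 = w := by
      apply Subtype.ext
      rw [Subgroup.coe_pow]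
      exact hwx.symm
    rw [this]
    exact MonoidHom.mem_ker.mp hw
  have hmem := transfer_mem ((P : Subgroup G).subgroupOf G₁) (N.subgroupOf G₁) hsup ϕ B hB' y₁
  rw [hBmem, mul_pow, inv_pow, mul_inv_eq_one, ← map_pow] at hmem
  have hk : (ϕ y₁ ^ 2) ^ ((P : Subgroup G).subgroupOf G₁).index = 1 := by
    rw [← pow_mul, mul_comm, pow_mul, ← hmem]
    exact hVy2
  have hodd' : Odd ((P : Subgroup G).subgroupOf G₁).index := by
    have h1 : ((P : Subgroup G).subgroupOf G₁).index ∣ (P : Subgroup G).index :=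
      Subgroup.relIndex_dvd_index_of_le hP_le
    have h2 : ¬ 2 ∣ (P : Subgroup G).index := P.not_dvd_index
    rw [← Nat.not_even_iff_odd, even_iff_two_dvd]
    exact fun h => h2 (h.trans h1)
  have h5 := eq_one_of_odd_pow hA _ _ hodd' hk
  rw [← map_pow, hϕ] at h5
  exact h5

end Cfsg.Agent.S4582
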