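import Cfsg.Statements.S4585

import Mathlib
import Cfsg.Agent.S4584

set_option autoImplicit false
open Cfsg
open scoped Pointwise

namespace Cfsg.Agent.S4585

universe u
open scoped commutatorElement
variable {P : Type u} [Group P]

lemma lcs_stable [Group.IsNilpotent P] (n : ℕ)
    (h : (⊤ : Subgroup P).lowerCentralSeries (n + 1) = (⊤ : Subgroup P).lowerCentralSeries n) :
    (⊤ : Subgroup P).lowerCentralSeries n = ⊥ := by
  have hk : ∀ k : ℕ, (⊤ : Subgroup P).lowerCentralSeries (n + k) =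
      (⊤ : Subgroup P).lowerCentralSeries n := by
    intro k
    induction k with
    | zero => rfl
    | succ k ih =>
      rw [← add_assoc, Subgroup.lowerCentralSeries_succ, ih, ← Subgroup.lowerCentralSeries_succ, h]
  have h1 := hk (Group.nilpotencyClass P)
  have h2 : (⊤ : Subgroup P).lowerCentralSeries (n + Group.nilpotencyClass P) ≤
      (⊤ : Subgroup P).lowerCentralSeries (Group.nilpotencyClass P) :=
    Subgroup.lowerCentralSeries_antitone _ (Nat.le_add_left _ _)
  rw [Subgroup.lowerCentralSeries_nilpotencyClass, h1] at h2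
  exact le_bot_iff.mp h2

lemma card_lt_of_lt [Finite P] {H K : Subgroup P} (h : H < K) : Nat.card H < Nat.card K := by
  by_contra hcon
  push_neg at hcon
  exact h.ne (Subgroup.eq_of_le_of_card_ge h.le hcon)

theorem result {P : Type*} [Group P] [Finite P] (p : ℕ) [Fact p.Prime] (hP : Nat.card P = p ^ 4) :
    (commutator P).index = p ^ 2 ↔ Group.nilpotencyClass P = 3 := by
  classical
  have hp : p.Prime := Fact.out
  have hPG : IsPGroup p P := IsPGroup.of_card hP
  haveI : Group.IsNilpotent P := hPG.isNilpotent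
  haveI : Nontrivial P := by
    rw [← Finite.one_lt_card_iff_nontrivial, hP]
    exact Nat.one_lt_pow (by norm_num) hp.one_lt
  obtain ⟨γ₂, hγ₂⟩ : ∃ γ₂ : Subgroup P, γ₂ = commutator P := ⟨_, rfl⟩
  obtain ⟨γ₃, hγ₃⟩ : ∃ γ₃ : Subgroup P, γ₃ = (⊤ : Subgroup P).lowerCentralSeries 2 := ⟨_, rfl⟩
  obtain ⟨γ₄, hγ₄⟩ : ∃ γ₄ : Subgroup P, γ₄ = (⊤ : Subgroup P).lowerCentralSeries 3 := ⟨_, rfl⟩
  have e1 : (⊤ : Subgroup P).lowerCentralSeries 1 = γ₂ := by
    rw [hγ₂]; exact Subgroup.top_lowerCentralSeries_one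
  have e2 : γ₃ = ⁅γ₂, (⊤ : Subgroup P)⁆ := by rw [hγ₃, Subgroup.lowerCentralSeries_succ, e1]
  have e3 : γ₄ = ⁅γ₃, (⊤ : Subgroup P)⁆ := by rw [hγ₄, Subgroup.lowerCentralSeries_succ, hγ₃]
  have hle32 : γ₃ ≤ γ₂ := by
    rw [hγ₃, ← e1]
    exact Subgroup.lowerCentralSeries_antitone _ (by norm_num : 1 ≤ 2)
  have hle43 : γ₄ ≤ γ₃ := by
    rw [hγ₃, hγ₄]
    exact Subgroup.lowerCentralSeries_antitone _ (by norm_num : 2 ≤ 3)
  haveI h2n : γ₂.Normal := by rw [hγ₂]; infer_instance
  haveI h3n : γ₃.Normal := by rw [hγ₃]; infer_instance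
  have hclass : Group.nilpotencyClass P = 3 ↔ (γ₄ = ⊥ ∧ γ₃ ≠ ⊥) := by
    rw [hγ₄, hγ₃, Subgroup.lowerCentralSeries_eq_bot_iff_nilpotencyClass_le, Ne,
      Subgroup.lowerCentralSeries_eq_bot_iff_nilpotencyClass_le]
    omega
  have hpowcard : ∀ H : Subgroup P, ∃ j ≤ 4, Nat.card H = p ^ j := by
    intro H
    have : Nat.card H ∣ p ^ 4 := hP ▸ Subgroup.card_subgroup_dvd_card H
    exact (Nat.dvd_prime_pow hp).mp this
  have hst1 : γ₂ ≠ ⊥ → γ₃ ≠ γ₂ := by
    intro h h'
    apply h
    have := lcs_stable (P := P) 1 (by rw [e1, ← hγ₃]; exact h')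
    rw [e1] at this; exact this
  have hst2 : γ₃ ≠ ⊥ → γ₄ ≠ γ₃ := by
    intro h h'
    apply h
    have := lcs_stable (P := P) 2 (by rw [← hγ₃, ← hγ₄]; exact h')
    rw [← hγ₃] at this; exact this
  have hmemc : ∀ g h : P, ⁅g, h⁆ ∈ γ₂ := by
    intro g h
    rw [hγ₂, commutator_def]
    exact Subgroup.commutator_mem_commutator (Subgroup.mem_top g) (Subgroup.mem_top h)
  rw [hclass, ← hγ₂]
  constructor
  · intro hidx
    have hc2 : Nat.card γ₂ = p ^ 2 := by
      have := Subgroup.card_mul_index γ₂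
      rw [hidx, hP] at this
      have h' : Nat.card γ₂ * p ^ 2 = p ^ 2 * p ^ 2 := by rw [this]; ring
      exact Nat.eq_of_mul_eq_mul_right (pow_pos hp.pos 2) h'
    have hp2 : p < p ^ 2 := by nlinarith [hp.one_lt]
    have hγ₂ne : γ₂ ≠ ⊥ := by
      intro h; rw [h, Subgroup.card_bot] at hc2
      have := hp.one_lt
      omega
    have hγ₃ne : γ₃ ≠ ⊥ := by
      intro h
      have hγZ : γ₂ ≤ Subgroup.center P := by
        rw [e2, Subgroup.commutator_eq_bot_iff_le_centralizer] at h
        intro a ha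
        have := h ha
        rw [Subgroup.mem_centralizer_iff] at this
        rw [Subgroup.mem_center_iff]
        intro g
        exact this g (Subgroup.mem_top g)
      have hd : (Subgroup.center P).index ∣ p ^ 2 := hidx ▸ Subgroup.index_dvd_of_le hγZ
      obtain ⟨j, hj, hj'⟩ := (Nat.dvd_prime_pow hp).mp hd
      have hZtop : Subgroup.center P ≠ ⊤ := by
        intro ht
        apply hγ₂ne
        rw [hγ₂]
        exact (_root_.commutator_eq_bot_iff_center_eq_top (G := P)).mpr ht
      interval_cases j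
      · rw [pow_zero] at hj'; exact hZtop (Subgroup.index_eq_one.mp hj')
      · rw [pow_one] at hj'
        have hc : Nat.card (P ⧸ Subgroup.center P) = p := hj'
        haveI : IsCyclic (P ⧸ Subgroup.center P) := isCyclic_of_prime_card hc
        apply hZtop
        rw [eq_top_iff]
        intro g _
        rw [Subgroup.mem_center_iff]
        intro k
        exact commutative_of_cyclic_center_quotient (QuotientGroup.mk' (Subgroup.center P))
          (by rw [QuotientGroup.ker_mk']) k g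
      · have := Cfsg.Agent.S4584.card_comm_of_index_center p hj'
        rw [← hγ₂, hc2] at this
        omega
    refine ⟨?_, hγ₃ne⟩
    by_contra h4
    have hlt3 : γ₃ < γ₂ := lt_of_le_of_ne hle32 (hst1 hγ₂ne)
    have hlt4 : γ₄ < γ₃ := lt_of_le_of_ne hle43 (hst2 hγ₃ne)
    obtain ⟨a, _, ha⟩ := hpowcard γ₄
    obtain ⟨b, _, hb⟩ := hpowcard γ₃
    have h1 := card_lt_of_lt hlt4
    have h2 := card_lt_of_lt hlt3
    rw [ha, hb] at h1
    rw [hb, hc2] at h2
    have h1' : a < b := (Nat.pow_lt_pow_iff_right hp.one_lt).mp h1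
    have h2' : b < 2 := (Nat.pow_lt_pow_iff_right hp.one_lt).mp h2
    have ha0 : a ≠ 0 := by
      intro h0
      rw [h0, pow_zero] at ha
      exact h4 (Subgroup.card_eq_one.mp ha)
    omega
  · rintro ⟨h4, h3⟩
    have hγ₂ne : γ₂ ≠ ⊥ := fun h => h3 (le_bot_iff.mp (h ▸ hle32))
    have hlt3 : γ₃ < γ₂ := lt_of_le_of_ne hle32 (hst1 hγ₂ne)
    obtain ⟨b, _, hb⟩ := hpowcard γ₃
    obtain ⟨c, hc4, hc⟩ := hpowcard γ₂
    have hb0 : b ≠ 0 := by
      intro h0
      rw [h0, pow_zero] at hb
      exact h3 (Subgroup.card_eq_one.mp hb)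
    have h2 := card_lt_of_lt hlt3
    rw [hb, hc] at h2
    have hbc : b < c := (Nat.pow_lt_pow_iff_right hp.one_lt).mp h2
    have hidx : γ₂.index = p ^ (4 - c) := by
      have := Subgroup.card_mul_index γ₂
      rw [hc, hP] at this
      have h' : p ^ c * γ₂.index = p ^ c * p ^ (4 - c) := by
        rw [this, ← pow_add]; congr 1; omega
      exact Nat.eq_of_mul_eq_mul_left (pow_pos hp.pos c) h'
    have hc4' : c ≠ 4 := by
      intro h
      rw [h] at hidx
      have htop : γ₂ = ⊤ := Subgroup.index_eq_one.mp (by rw [hidx]; norm_num)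
      apply hst1 hγ₂ne
      rw [e2, htop, ← commutator_def, ← hγ₂, htop]
    have hc3 : c ≠ 3 := by
      intro h
      rw [h] at hidx
      have hidx' : γ₂.index = p := by rw [hidx]; norm_num
      have hcq : Nat.card (P ⧸ γ₂) = p := hidx'
      haveI : IsCyclic (P ⧸ γ₂) := isCyclic_of_prime_card hcq
      let f : P ⧸ γ₃ →* P ⧸ γ₂ := QuotientGroup.map γ₃ γ₂ (MonoidHom.id P) (by
        intro a ha
        exact hle32 ha)
      have hker : f.ker ≤ Subgroup.center (P ⧸ γ₃) := by
        intro q hq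
        obtain ⟨a, rfl⟩ := QuotientGroup.mk_surjective q
        rw [MonoidHom.mem_ker] at hq
        have ha : a ∈ γ₂ := by
          have : ((a : P) : P ⧸ γ₂) = 1 := hq
          exact (QuotientGroup.eq_one_iff a).mp this
        rw [Subgroup.mem_center_iff]
        intro r
        obtain ⟨b', rfl⟩ := QuotientGroup.mk_surjective r
        rw [← QuotientGroup.mk_mul, ← QuotientGroup.mk_mul]
        apply QuotientGroup.eq.mpr
        have e : (b' * a)⁻¹ * (a * b') = ⁅a⁻¹, b'⁻¹⁆ := by
          simp only [commutatorElement_def]; group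
        rw [e, e2]
        exact Subgroup.commutator_mem_commutator (γ₂.inv_mem ha) (Subgroup.mem_top _)
      have hcomm : ∀ a b : P ⧸ γ₃, a * b = b * a :=
        commutative_of_cyclic_center_quotient f hker
      apply hst1 hγ₂ne
      apply le_antisymm hle32
      rw [hγ₂, commutator_def, Subgroup.commutator_le]
      intro g _ h _
      rw [← QuotientGroup.eq_one_iff, commutatorElement_def]
      simp only [QuotientGroup.mk_mul, QuotientGroup.mk_inv]
      rw [hcomm (g : P ⧸ γ₃) (h : P ⧸ γ₃)]; group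
    have hc2 : c = 2 := by omega
    rw [hidx, hc2]

end Cfsg.Agent.S4585
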