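import Cfsg.Statements.S4586

import Mathlib

set_option autoImplicit false
open Cfsg
open scoped Pointwise

namespace Cfsg.Agent.S4586

universe u

open scoped commutatorElement

variable {P : Type u} [Group P]

def cm (N : Subgroup P) [hN : N.Normal] (x : P) (n : N) : N :=
  ⟨x * n * x⁻¹ * (n : P)⁻¹, N.mul_mem (hN.conj_mem n n.2 x) (N.inv_mem n.2)⟩

lemma cm_mul (N : Subgroup P) [N.Normal] (x : P) (n m : N) :
    cm N x (n * m) = cm N x n * n * cm N x m * n⁻¹ := by
  apply Subtype.ext
  simp only [cm, Subgroup.coe_mul, Subgroup.coe_inv]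
  group

noncomputable def phi (N : Subgroup P) [N.Normal] (x : P) : N →* Abelianization N where
  toFun n := Abelianization.of (cm N x n)
  map_one' := by
    have : cm N x 1 = 1 := by apply Subtype.ext; simp [cm]
    rw [this, map_one]
  map_mul' n m := by
    rw [cm_mul, map_mul, map_mul, map_mul, map_inv,
      mul_right_comm (Abelianization.of (cm N x n)), mul_inv_cancel_right]

lemma normal_of_gens (L : Subgroup P) (S : Set P) (hS : Subgroup.closure S = ⊤)
    (h : ∀ s ∈ S, ∀ m ∈ L, s * m * s⁻¹ ∈ L ∧ s⁻¹ * m * s ∈ L) : L.Normal := by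
  let T : Subgroup P :=
    { carrier := {g | ∀ m ∈ L, g * m * g⁻¹ ∈ L ∧ g⁻¹ * m * g ∈ L}
      mul_mem' := by
        intro a b ha hb m hm
        constructor
        · have := (ha _ (hb m hm).1).1
          have e : a * b * m * (a * b)⁻¹ = a * (b * m * b⁻¹) * a⁻¹ := by group
          rw [e]; exact this
        · have := (hb _ (ha m hm).2).2
          have e : (a * b)⁻¹ * m * (a * b) = b⁻¹ * (a⁻¹ * m * a) * b := by group
          rw [e]; exact this
      one_mem' := by
        intro m hm
        simpa using hm
      inv_mem' := by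
        intro a ha m hm
        have := ha m hm
        constructor
        · simpa using this.2
        · simpa using this.1 }
  have hT : T = ⊤ := by
    rw [eq_top_iff, ← hS, Subgroup.closure_le]
    intro s hs
    exact h s hs
  constructor
  intro m hm g
  have : g ∈ T := by rw [hT]; trivial
  exact (this m hm).1

theorem key [Finite P] (p : ℕ) [Fact p.Prime] (N : Subgroup P) [N.Normal] (hN : N.index = p)
    (x : P) (hx : x ∉ N) :
    (commutator P).index * Nat.card (commutator N) =
      p * Nat.card {n : N // x * n * x⁻¹ * (n : P)⁻¹ ∈ (commutator N).map N.subtype} := by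
  classical
  have hp : p.Prime := Fact.out
  set M : Subgroup P := (commutator N).map N.subtype with hM
  have hMeq : M = ⁅N, N⁆ := Subgroup.map_subtype_commutator N
  haveI hMn : M.Normal := by rw [hMeq]; infer_instance
  have hMN : M ≤ N := Subgroup.map_subtype_le _
  set φ := phi N x with hφ
  set K : Subgroup N := φ.range.comap (Abelianization.of) with hK
  set L : Subgroup P := K.map N.subtype with hL
  have memL : ∀ m : P, m ∈ L ↔ ∃ n ∈ N, ⁅x, n⁆⁻¹ * m ∈ M := by
    intro m
    constructor
    · rintro ⟨m', hm', rfl⟩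
      obtain ⟨n, hn⟩ := hm'
      refine ⟨n, n.2, ?_⟩
      have h1 : (cm N x n)⁻¹ * m' ∈ commutator N := by
        have : (Abelianization.of (cm N x n)) = Abelianization.of m' := hn
        exact QuotientGroup.eq.mp this
      exact ⟨_, h1, rfl⟩
    · rintro ⟨n, hn, h⟩
      have hmN : m ∈ N := by
        have h1 : ⁅x, n⁆ ∈ N := (cm N x ⟨n, hn⟩).2
        have h2 := N.mul_mem h1 (hMN h)
        rwa [mul_inv_cancel_left] at h2
      refine ⟨⟨m, hmN⟩, ?_, rfl⟩
      show Abelianization.of ⟨m, hmN⟩ ∈ φ.range
      refine ⟨⟨n, hn⟩, ?_⟩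
      show Abelianization.of (cm N x ⟨n,hn⟩) = Abelianization.of ⟨m, hmN⟩
      apply QuotientGroup.eq.mpr
      obtain ⟨k, hk, hk'⟩ := h
      have : (cm N x ⟨n, hn⟩)⁻¹ * ⟨m, hmN⟩ = k := by
        apply Subtype.ext
        exact hk'.symm
      rw [this]; exact hk
  have hML : M ≤ L := by
    intro m hm
    rw [memL]
    exact ⟨1, N.one_mem, by simpa using hm⟩
  -- generation
  have hgen : Subgroup.closure ((N : Set P) ∪ {x}) = ⊤ := by
    set J := Subgroup.closure ((N : Set P) ∪ {x}) with hJ
    have hNJ : N ≤ J := fun n hn => Subgroup.subset_closure (Or.inl hn)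
    have hxJ : x ∈ J := Subgroup.subset_closure (Or.inr rfl)
    have h1 : J.index ∣ p := by rw [← hN]; exact Subgroup.index_dvd_of_le hNJ
    rcases (Nat.dvd_prime hp).mp h1 with h | h
    · exact Subgroup.index_eq_one.mp h
    · exfalso
      have h2 : Nat.card J = Nat.card N := by
        have e1 := Subgroup.card_mul_index J
        have e2 := Subgroup.card_mul_index N
        rw [h] at e1; rw [hN] at e2
        have : Nat.card J * p = Nat.card N * p := by rw [e1, e2]
        exact Nat.eq_of_mul_eq_mul_right hp.pos this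
      have h3 : N = J := Subgroup.eq_of_le_of_card_ge hNJ h2.le
      exact hx (h3 ▸ hxJ)
  -- normality of L
  have hconjN : ∀ g ∈ N, ∀ m ∈ L, g * m * g⁻¹ ∈ L := by
    intro g hg m hm
    rw [memL] at hm ⊢
    obtain ⟨n, hn, h⟩ := hm
    refine ⟨n, hn, ?_⟩
    have hmN : m ∈ N := by
      have h1 : ⁅x, n⁆ ∈ N := (cm N x ⟨n, hn⟩).2
      have h2 := N.mul_mem h1 (hMN h)
      rwa [mul_inv_cancel_left] at h2
    have e : ⁅x, n⁆⁻¹ * (g * m * g⁻¹) = (⁅x, n⁆⁻¹ * m) * ⁅m⁻¹, g⁆ := by
      simp only [commutatorElement_def]; group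
    rw [e]
    refine M.mul_mem h ?_
    rw [hMeq]
    exact Subgroup.commutator_mem_commutator (N.inv_mem hmN) hg
  have hconjx : ∀ m ∈ L, x * m * x⁻¹ ∈ L ∧ x⁻¹ * m * x ∈ L := by
    intro m hm
    rw [memL] at hm
    obtain ⟨n, hn, h⟩ := hm
    constructor
    · rw [memL]
      refine ⟨x * n * x⁻¹, ‹N.Normal›.conj_mem n hn x, ?_⟩
      have e : ⁅x, x * n * x⁻¹⁆⁻¹ * (x * m * x⁻¹) = x * (⁅x, n⁆⁻¹ * m) * x⁻¹ := by
        simp only [commutatorElement_def]; group
      rw [e]
      exact hMn.conj_mem _ h x
    · rw [memL]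
      refine ⟨x⁻¹ * n * x, by simpa using ‹N.Normal›.conj_mem n hn x⁻¹, ?_⟩
      have e : ⁅x, x⁻¹ * n * x⁆⁻¹ * (x⁻¹ * m * x) = x⁻¹ * (⁅x, n⁆⁻¹ * m) * x⁻¹⁻¹ := by
        simp only [commutatorElement_def]; group
      rw [e]
      exact hMn.conj_mem _ h x⁻¹
  haveI hLn : L.Normal := by
    apply normal_of_gens L _ hgen
    rintro s (hs | hs) m hm
    · refine ⟨hconjN s hs m hm, ?_⟩
      have := hconjN s⁻¹ (N.inv_mem hs) m hm
      simpa using this
    · rw [Set.mem_singleton_iff] at hs
      subst hs
      exact hconjx m hm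
  -- commutativity of the quotient
  have hcomm : ∀ a b : P ⧸ L, a * b = b * a := by
    set Sg : Set (P ⧸ L) := (QuotientGroup.mk' L) '' ((N : Set P) ∪ {x}) with hSg
    have hclos : Subgroup.closure Sg = ⊤ := by
      rw [hSg, ← MonoidHom.map_closure, hgen, ← MonoidHom.range_eq_map]
      exact MonoidHom.range_eq_top.mpr (QuotientGroup.mk'_surjective L)
    have hxt : ∀ t ∈ N, t⁻¹ * x⁻¹ * t * x ∈ L := by
      intro t ht
      have h1 : ⁅x, t⁻¹⁆ ∈ L := by
        rw [memL]
        exact ⟨t⁻¹, N.inv_mem ht, by rw [inv_mul_cancel]; exact M.one_mem⟩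
      have h2 := hLn.conj_mem _ h1 x⁻¹
      have e : x⁻¹ * ⁅x, t⁻¹⁆ * x⁻¹⁻¹ = t⁻¹ * x⁻¹ * t * x := by
        simp only [commutatorElement_def]; group
      rwa [e] at h2
    have hpair : ∀ s ∈ (N : Set P) ∪ {x}, ∀ t ∈ (N : Set P) ∪ {x},
        (QuotientGroup.mk' L s) * (QuotientGroup.mk' L t) = (QuotientGroup.mk' L t) * (QuotientGroup.mk' L s) := by
      intro s hs t ht
      rw [← map_mul, ← map_mul]
      apply QuotientGroup.eq.mpr
      have e : (s * t)⁻¹ * (t * s) = t⁻¹ * s⁻¹ * t * s := by group
      rw [e]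
      rcases hs with hs | hs <;> rcases ht with ht | ht
      · apply hML
        rw [hMeq]
        have := Subgroup.commutator_mem_commutator (N.inv_mem ht) (N.inv_mem hs)
        simpa [commutatorElement_def] using this
      · rw [Set.mem_singleton_iff] at ht
        subst ht
        have := L.inv_mem (hxt s hs)
        have e2 : (s⁻¹ * t⁻¹ * s * t)⁻¹ = t⁻¹ * s⁻¹ * t * s := by group
        rwa [e2] at this
      · rw [Set.mem_singleton_iff] at hs
        subst hs
        exact hxt t ht
      · rw [Set.mem_singleton_iff] at hs ht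
        subst hs; subst ht
        simp
    have hSgcomm : ∀ a ∈ Sg, ∀ b ∈ Sg, a * b = b * a := by
      rintro a ⟨s, hs, rfl⟩ b ⟨t, ht, rfl⟩
      exact hpair s hs t ht
    have h1 : Subgroup.closure Sg ≤ Subgroup.centralizer Sg := by
      rw [Subgroup.closure_le]
      intro a ha
      rw [SetLike.mem_coe, Subgroup.mem_centralizer_iff]
      intro b hb
      exact hSgcomm b hb a ha
    have h2 : Sg ⊆ Subgroup.center (P ⧸ L) := by
      intro a ha
      rw [SetLike.mem_coe, Subgroup.mem_center_iff]
      intro g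
      have hg : g ∈ Subgroup.centralizer Sg := h1 (by rw [hclos]; trivial)
      rw [Subgroup.mem_centralizer_iff] at hg
      exact (hg a ha).symm
    have h3 : Subgroup.closure Sg ≤ Subgroup.center (P ⧸ L) := (Subgroup.closure_le _).mpr h2
    intro a b
    have hb : b ∈ Subgroup.center (P ⧸ L) := h3 (by rw [hclos]; trivial)
    rw [Subgroup.mem_center_iff] at hb
    exact hb a
  have hPL : commutator P = L := by
    apply le_antisymm
    · rw [commutator_def, Subgroup.commutator_le]
      intro g _ h _
      rw [← QuotientGroup.eq_one_iff, commutatorElement_def]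
      simp only [QuotientGroup.mk_mul, QuotientGroup.mk_inv]
      rw [hcomm (g : P ⧸ L) (h : P ⧸ L)]
      group
    · intro m hm
      rw [memL] at hm
      obtain ⟨n, hn, h⟩ := hm
      have h1 : ⁅x, n⁆ ∈ commutator P := by
        rw [commutator_def]
        exact Subgroup.commutator_mem_commutator (Subgroup.mem_top x) (Subgroup.mem_top n)
      have h2 : ⁅x, n⁆⁻¹ * m ∈ commutator P := by
        rw [hMeq] at h
        rw [commutator_def]
        exact Subgroup.commutator_mono le_top le_top h
      have := (commutator P).mul_mem h1 h2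
      rwa [mul_inv_cancel_left] at this
  -- cardinalities
  have hLK : Nat.card L = Nat.card K := Subgroup.card_map_of_injective N.subtype_injective
  have hKcard : Nat.card K = Nat.card φ.range * Nat.card (commutator N) := by
    have hsurj : Function.Surjective (Abelianization.of : N →* Abelianization N) :=
      QuotientGroup.mk'_surjective (commutator N)
    have h1 : K.index = φ.range.index := Subgroup.index_comap_of_surjective φ.range hsurj
    have h2 := Subgroup.card_mul_index K
    have h3 := Subgroup.card_mul_index φ.range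
    have h4 : Nat.card N = Nat.card (Abelianization N) * Nat.card (commutator N) :=
      Subgroup.card_eq_card_quotient_mul_card_subgroup (commutator N)
    have hpos : 0 < φ.range.index := Nat.pos_of_ne_zero (Subgroup.index_ne_zero_of_finite)
    have : Nat.card K * φ.range.index = (Nat.card φ.range * Nat.card (commutator N)) * φ.range.index := by
      rw [← h1, h2, h4, ← h3, h1]; ring
    exact Nat.eq_of_mul_eq_mul_right hpos this
  have hker : Nat.card {n : N // x * n * x⁻¹ * (n : P)⁻¹ ∈ M} = Nat.card φ.ker := by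
    apply Nat.card_congr
    apply Equiv.subtypeEquivRight
    intro n
    rw [MonoidHom.mem_ker]
    show _ ↔ Abelianization.of (cm N x n) = 1
    have : Abelianization.of (cm N x n) = 1 ↔ cm N x n ∈ commutator N :=
      QuotientGroup.eq_one_iff _
    rw [this]
    constructor
    · rintro ⟨k, hk, hk'⟩
      have : cm N x n = k := Subtype.ext hk'.symm
      rw [this]; exact hk
    · intro h
      exact ⟨_, h, rfl⟩
  have hrange : Nat.card φ.range * Nat.card φ.ker = Nat.card N := by
    have h1 := Subgroup.card_mul_index φ.ker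
    rw [Subgroup.index_ker] at h1
    rw [mul_comm]; exact h1
  have hPN : Nat.card P = Nat.card N * p := by
    have := Subgroup.card_mul_index N
    rw [hN] at this; exact this.symm
  have hidx := Subgroup.card_mul_index (commutator P)
  rw [hker]
  have hposr : 0 < Nat.card φ.range := Nat.card_pos
  have e1 : Nat.card (commutator P) = Nat.card φ.range * Nat.card (commutator N) := by
    rw [hPL, hLK, hKcard]
  have : ((commutator P).index * Nat.card (commutator N)) * Nat.card φ.range =
      (p * Nat.card φ.ker) * Nat.card φ.range := by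
    calc ((commutator P).index * Nat.card (commutator N)) * Nat.card φ.range
        = Nat.card (commutator P) * (commutator P).index := by rw [e1]; ring
      _ = Nat.card P := hidx
      _ = (p * Nat.card φ.ker) * Nat.card φ.range := by rw [hPN, ← hrange]; ring
  exact Nat.eq_of_mul_eq_mul_right hposr this

theorem result {P : Type*} [Group P] [Finite P] (p : ℕ) [Fact p.Prime] (hP : IsPGroup p P) (N : Subgroup P) [N.Normal] (hN : N.index = p) :
    ((commutator P).index = p ^ 2 ↔ ∀ x : P, x ∉ N →
        Nat.card {n : N // x * n * x⁻¹ * (n : P)⁻¹ ∈ (commutator N).map N.subtype} = p * Nat.card (commutator N)) ∧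
    ((commutator P).index = p ^ 2 ↔ ∃ x : P, x ∉ N ∧
        Nat.card {n : N // x * n * x⁻¹ * (n : P)⁻¹ ∈ (commutator N).map N.subtype} = p * Nat.card (commutator N)) := by
  have hp : p.Prime := Fact.out
  have hpos : 0 < Nat.card (commutator N) := Nat.card_pos
  have hiff : ∀ x : P, x ∉ N → ((commutator P).index = p ^ 2 ↔
      Nat.card {n : N // x * n * x⁻¹ * (n : P)⁻¹ ∈ (commutator N).map N.subtype} = p * Nat.card (commutator N)) := by
    intro x hx
    have hk := key p N hN x hx
    constructor
    · intro h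
      rw [h] at hk
      have : p * (p * Nat.card (commutator N)) = p * Nat.card {n : N // x * n * x⁻¹ * (n : P)⁻¹ ∈ (commutator N).map N.subtype} := by
        rw [← hk]; ring
      exact (Nat.eq_of_mul_eq_mul_left hp.pos this).symm
    · intro h
      rw [h] at hk
      have : (commutator P).index * Nat.card (commutator N) = p ^ 2 * Nat.card (commutator N) := by
        rw [hk]; ring
      exact Nat.eq_of_mul_eq_mul_right hpos this
  have hex : ∃ x : P, x ∉ N := by
    by_contra h
    push_neg at h
    have : N = ⊤ := eq_top_iff.mpr (fun x _ => h x)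
    rw [this, Subgroup.index_top] at hN
    exact hp.one_lt.ne hN
  obtain ⟨x₀, hx₀⟩ := hex
  refine ⟨⟨fun h x hx => (hiff x hx).mp h, fun h => (hiff x₀ hx₀).mpr (h x₀ hx₀)⟩,
    ⟨fun h => ⟨x₀, hx₀, (hiff x₀ hx₀).mp h⟩, fun ⟨x, hx, h⟩ => (hiff x hx).mpr h⟩⟩

end Cfsg.Agent.S4586
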