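import Mathlib
import Cfsg.Statements.S4604
import Cfsg.Agent.Lib.Helper3.Char
import Cfsg.Agent.Lib.Helper3.BlkLocal
import Cfsg.Agent.Lib.Helper3.BlkFrob
import Cfsg.Agent.S0876

set_option autoImplicit false
open Cfsg
open Cfsg.Agent.Lib.Helper3.Char Cfsg.Agent.Lib.Helper3.BlkLocal Cfsg.Agent.Lib.Helper3.BlkFrob

namespace Cfsg.Agent.S4604

theorem result {G : Type*} [Group G] [Finite G] (p : ℕ) [Fact p.Prime] (x y x' y' : G)
    (hx : (∃ k : ℕ, orderOf (x * x'⁻¹) = p ^ k) ∧ Commute (x * x'⁻¹) x' ∧ ¬ p ∣ orderOf x')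
    (hy : (∃ k : ℕ, orderOf (y * y'⁻¹) = p ^ k) ∧ Commute (y * y'⁻¹) y' ∧ ¬ p ∣ orderOf y') :
    IsConj x' y' ↔ ∀ χ : Cfsg.IrrCharacter G, ∃ γ : Cfsg.AlgInt,
      (χ : G → ℂ) x ^ (p ^ (Nat.card G).factorization p) - (χ : G → ℂ) y ^ (p ^ (Nat.card G).factorization p) = (p : ℂ) * (γ : ℂ) := by
  classical
  have hp : p.Prime := Fact.out
  obtain ⟨M, hM⟩ := exists_pmodular hp
  obtain ⟨N, hN⟩ : ∃ N : ℕ, N = (Nat.card G).factorization p := ⟨_, rfl⟩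
  rw [← hN]
  obtain ⟨⟨kx, hkx⟩, hcx, hrx⟩ := hx
  obtain ⟨⟨ky, hky⟩, hcy, hry⟩ := hy
  have hpow : ∀ t : G, ∀ k, orderOf t = p ^ k → t ^ (p ^ N) = 1 := by
    intro t k hk
    have h1 : p ^ k ∣ Nat.card G := hk ▸ orderOf_dvd_natCard t
    have h2 : k ≤ N := by
      rw [hN]
      exact (hp.pow_dvd_iff_le_factorization Nat.card_pos.ne').mp h1
    rw [← orderOf_dvd_iff_pow_eq_one, hk]
    exact pow_dvd_pow p h2
  have ex : x * x'⁻¹ * x' = x := by group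
  have ey : y * y'⁻¹ * y' = y := by group
  have hX : ∀ χ : Cfsg.IrrCharacter G, ∃ γ : Cfsg.AlgInt,
      (χ : G → ℂ) x ^ (p ^ N) - (χ : G → ℂ) x' ^ (p ^ N) = (p : ℂ) * (γ : ℂ) := by
    intro χ
    have := char_pow_cong hp (isCharacter_of_irr χ.2) (x * x'⁻¹) x' hcx.eq N (hpow _ kx hkx)
    rwa [ex] at this
  have hY : ∀ χ : Cfsg.IrrCharacter G, ∃ γ : Cfsg.AlgInt,
      (χ : G → ℂ) y ^ (p ^ N) - (χ : G → ℂ) y' ^ (p ^ N) = (p : ℂ) * (γ : ℂ) := by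
    intro χ
    have := char_pow_cong hp (isCharacter_of_irr χ.2) (y * y'⁻¹) y' hcy.eq N (hpow _ ky hky)
    rwa [ey] at this
  have hPx : Cfsg.IsPPart p x (x * x'⁻¹) := ⟨x', ex, hcx, ⟨kx, hkx⟩, hrx⟩
  have hPy : Cfsg.IsPPart p y (y * y'⁻¹) := ⟨y', ey, hcy, ⟨ky, hky⟩, hry⟩
  have key := Cfsg.Agent.S0876.result p M hM x y (x * x'⁻¹) (y * y'⁻¹) hPx hPy
  have e1 : (x * x'⁻¹)⁻¹ * x = x' := by group
  have e2 : (y * y'⁻¹)⁻¹ * y = y' := by group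
  rw [e1, e2] at key
  constructor
  · intro hconj χ
    obtain ⟨γ1, h1⟩ := hX χ
    obtain ⟨γ2, h2⟩ := hY χ
    have h3 : (χ : G → ℂ) x' = (χ : G → ℂ) y' := by
      obtain ⟨t, ht⟩ := isConj_iff.mp hconj
      rw [← ht]
      exact (char_classFun (isCharacter_of_irr χ.2) x' t).symm
    refine ⟨γ1 - γ2, ?_⟩
    push_cast
    rw [h3] at h1
    linear_combination h1 - h2
  · intro hall
    rw [key]
    intro χ
    have h1 := hall χ
    have h4 := li_of_pow_sub hM N (char_isIntegral (isCharacter_of_irr χ.2) x)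
      (char_isIntegral (isCharacter_of_irr χ.2) y) h1
    exact h4

end Cfsg.Agent.S4604
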