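import Cfsg.Statements.S4619

set_option autoImplicit false
open scoped Pointwise
open Cfsg
open scoped Pointwise

namespace Cfsg.Agent.S4619

theorem result {G : Type*} [Group G] [Finite G] (p : ℕ) [Fact p.Prime] (P : Sylow p G) (hTI : (∀ g : G, g ∉ Subgroup.normalizer ((P : Subgroup G) : Set G) → (P : Subgroup G) ⊓ (MulAut.conj g • (P : Subgroup G)) = ⊥)) (Q : Subgroup G) (hQ : Q ≤ (P : Subgroup G)) (hQ1 : Q ≠ ⊥) :
    Subgroup.normalizer (Q : Set G) ≤ Subgroup.normalizer ((P : Subgroup G) : Set G) ∧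
      ∀ g : G, MulAut.conj g • Q ≤ (P : Subgroup G) → g ∈ Subgroup.normalizer ((P : Subgroup G) : Set G) := by
  have key : ∀ g : G, MulAut.conj g • Q ≤ (P : Subgroup G) →
      g ∈ Subgroup.normalizer ((P : Subgroup G) : Set G) := by
    intro g hg
    by_contra hn
    have h := hTI g hn
    have h2 : MulAut.conj g • Q ≤ (P : Subgroup G) ⊓ (MulAut.conj g • (P : Subgroup G)) :=
      le_inf hg (Subgroup.pointwise_smul_le_pointwise_smul_iff.mpr hQ)
    rw [h] at h2
    apply hQ1
    have h3 : MulAut.conj g • Q ≤ MulAut.conj g • (⊥ : Subgroup G) := by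
      rw [Subgroup.smul_bot]; exact h2
    exact le_bot_iff.mp (Subgroup.pointwise_smul_le_pointwise_smul_iff.mp h3)
  refine ⟨?_, key⟩
  intro n hn
  apply key
  intro x hx
  rw [Subgroup.mem_pointwise_smul_iff_inv_smul_mem] at hx
  have hx' : n⁻¹ * x * n ∈ Q := by
    simpa [MulAut.smul_def, mul_assoc] using hx
  exact hQ ((Subgroup.mem_normalizer_iff''.mp hn x).mpr hx')

end Cfsg.Agent.S4619
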