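import Mathlib
import Cfsg.Statements.S4742
import Cfsg.Agent.Lib.Helper3.Char
import Cfsg.Agent.Lib.Helper3.CharCore
import Cfsg.Agent.Lib.Helper3.CharArith
import Cfsg.Agent.Lib.Helper3.CharInd
import Cfsg.Agent.Lib.Helper3.CharInt
import Cfsg.Agent.Lib.Helper3.CharTable
import Cfsg.Agent.Lib.Helper3.CharKer
import Cfsg.Agent.Lib.Helper3.BlkOrth2
import Cfsg.Agent.Lib.Helper3.BlkOrth4
import Cfsg.Agent.Lib.Helper3.BlkClif
import Cfsg.Agent.Lib.Helper3.StructConst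

set_option autoImplicit false
open Cfsg
open Cfsg.Agent.Lib.Helper3.Char Cfsg.Agent.Lib.Helper3.CharCore Cfsg.Agent.Lib.Helper3.CharArith Cfsg.Agent.Lib.Helper3.CharInd Cfsg.Agent.Lib.Helper3.CharInt Cfsg.Agent.Lib.Helper3.CharTable Cfsg.Agent.Lib.Helper3.CharKer Cfsg.Agent.Lib.Helper3.BlkOrth2 Cfsg.Agent.Lib.Helper3.BlkOrth4 Cfsg.Agent.Lib.Helper3.BlkClif Cfsg.Agent.Lib.Helper3.StructConst
open scoped ComplexConjugate

namespace Cfsg.Agent.S4742

theorem result {G : Type*} [Group G] [Finite G] (p q : ℕ) [Fact p.Prime] [Fact q.Prime] (hppq : p ≠ q) (hpG : p ∣ Nat.card G) (hqG : q ∣ Nat.card G) (hC : ∀ g : G, g ≠ 1 → (∃ k : ℕ, orderOf g = p ^ k) → ¬ q ∣ Nat.card ↥(Subgroup.centralizer ({g} : Set G))) : (∃ χ : Cfsg.IrrCharacter G, (Cfsg.charDegree (χ : G → ℂ)).factorization p = (Nat.card G).factorization p) ∨ ∀ z : G, z ≠ 1 → (∃ k : ℕ, orderOf z = q ^ k) → ∃ g h : G, IsConj z g ∧ IsConj z h ∧ g * h⁻¹ ≠ 1 ∧ ∃ k : ℕ,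 orderOf (g * h⁻¹) = p ^ k := by
  classical
  have _fg : Fintype G := Fintype.ofFinite G
  have _fi : Fintype (Cfsg.IrrCharacter G) := Fintype.ofFinite _
  have hp := (Fact.out : p.Prime)
  have hq := (Fact.out : q.Prime)
  by_contra hcon
  rw [not_or] at hcon
  obtain ⟨hno, hzz⟩ := hcon
  simp only [not_exists] at hno
  obtain ⟨z, hz1, hzq, hzno⟩ : ∃ z : G, z ≠ 1 ∧ (∃ k : ℕ, orderOf z = q ^ k) ∧
      ∀ g h : G, IsConj z g → IsConj z h → g * h⁻¹ ≠ 1 →
        ¬ ∃ k : ℕ, orderOf (g * h⁻¹) = p ^ k := by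
    by_contra h
    apply hzz
    intro z hz1 hzq
    by_contra h2
    apply h
    exact ⟨z, hz1, hzq, fun g h' hg hh hne hk => h2 ⟨g, h', hg, hh, hne, hk⟩⟩
  obtain ⟨P⟩ : Nonempty (Sylow p G) := inferInstance
  have _fP : Fintype (P : Subgroup G) := Fintype.ofFinite _
  obtain ⟨n, hn⟩ : ∃ n : ℕ, n = (Nat.card G).factorization p := ⟨_, rfl⟩
  have hPcard : Nat.card (P : Subgroup G) = p ^ n := by
    rw [hn]
    exact Sylow.card_eq_multiplicity P
  have hn0 : 0 < n := by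
    rw [hn]
    exact hp.factorization_pos_of_dvd Nat.card_pos.ne' hpG
  obtain ⟨f, hf⟩ : ∃ f : G → ℂ, f = fun g => if IsConj z g then 1 else 0 := ⟨_, rfl⟩
  have hfcf : Cfsg.IsClassFunction G f := by
    intro g h
    rw [hf]
    show (if IsConj z (h * g * h⁻¹) then (1 : ℂ) else 0) = if IsConj z g then 1 else 0
    have h0 : IsConj z (h * g * h⁻¹) ↔ IsConj z g := by
      constructor
      · intro h1
        exact h1.trans (isConj_iff.mpr ⟨h⁻¹, by group⟩)
      · intro h1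
        exact h1.trans (isConj_iff.mpr ⟨h, rfl⟩)
    rw [if_congr h0 rfl rfl]
  obtain ⟨f', hf'⟩ : ∃ f' : G → ℂ, f' = fun g => f g⁻¹ := ⟨_, rfl⟩
  have hfcf' : Cfsg.IsClassFunction G f' := by
    intro g h
    rw [hf']
    show f (h * g * h⁻¹)⁻¹ = f g⁻¹
    have e : (h * g * h⁻¹)⁻¹ = h * g⁻¹ * h⁻¹ := by group
    rw [e]
    exact hfcf g⁻¹ h
  obtain ⟨κ, hκ⟩ : ∃ κ : ℕ, κ = (Finset.univ.filter (fun g : G => IsConj z g)).card := ⟨_, rfl⟩
  have hκsum : ∑ g : G, f g = (κ : ℂ) := by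
    rw [hf, hκ, Finset.sum_boole]
  have hκpos : 0 < κ := by
    rw [hκ]
    exact Finset.card_pos.mpr ⟨z, Finset.mem_filter.mpr ⟨Finset.mem_univ _, IsConj.refl z⟩⟩
  have hclass : (Nat.card G : ℂ) =
      (Nat.card (Subgroup.centralizer ({z} : Set G)) : ℂ) * κ := by
    have h1 := sum_conj_eq (fun _ : G => (1 : ℂ)) z
    simp only [Finset.sum_const, Finset.card_univ, nsmul_eq_mul, mul_one] at h1
    rw [← hκsum, hf, Nat.card_eq_fintype_card]
    exact h1
  have hzero : ∀ y ∈ (P : Subgroup G), y ≠ 1 →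
      ∑ g : G, ∑ h : G, (if h * g * y = 1 then f g * f' h else 0) = 0 := by
    intro y hy hy1
    refine Finset.sum_eq_zero (fun g _ => Finset.sum_eq_zero (fun h _ => ?_))
    split_ifs with hgh
    · rw [hf', hf]
      show (if IsConj z g then (1 : ℂ) else 0) * (if IsConj z h⁻¹ then (1 : ℂ) else 0) = 0
      split_ifs with hg hh
      · exfalso
        have hy' : y = (h * g)⁻¹ := eq_inv_of_mul_eq_one_right hgh
        have hv : h⁻¹ * g⁻¹ = h⁻¹ * y * h := by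
          rw [hy']
          group
        have hne : h⁻¹ * g⁻¹ ≠ 1 := by
          rw [hv]
          intro h0
          apply hy1
          have e : y = h * (h⁻¹ * y * h) * h⁻¹ := by group
          rw [e, h0]
          group
        apply hzno h⁻¹ g hh hg hne
        obtain ⟨k, hk⟩ := (IsPGroup.iff_orderOf.mp P.isPGroup') ⟨y, hy⟩
        refine ⟨k, ?_⟩
        rw [hv]
        have h3 : orderOf (h⁻¹ * y * h) = orderOf y := by
          have h4 := orderOf_injective (MulAut.conj h⁻¹).toMonoidHom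
            (MulAut.conj h⁻¹).injective y
          simpa using h4
        rw [h3, ← hk, Subgroup.orderOf_mk]
      · simp
      · simp
      · simp
    · rfl
  obtain ⟨mm, hmm⟩ := sc_main (P : Subgroup G) f f' hfcf hfcf' hzero
  have hS1 : ∀ χ : Cfsg.IrrCharacter G, ∑ g : G, f g * (χ : G → ℂ) g =
      (κ : ℂ) * (χ : G → ℂ) z := by
    intro χ
    rw [← hκsum, Finset.sum_mul]
    refine Finset.sum_congr rfl (fun g _ => ?_)
    rw [hf]
    show (if IsConj z g then (1 : ℂ) else 0) * _ = (if IsConj z g then (1 : ℂ) else 0) * _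
    split_ifs with hg
    · obtain ⟨u, rfl⟩ := isConj_iff.mp hg
      rw [char_classFun (isCharacter_of_irr χ.2) z u]
    · simp
  have hS2 : ∀ χ : Cfsg.IrrCharacter G, ∑ g : G, f' g * (χ : G → ℂ) g =
      (κ : ℂ) * (χ : G → ℂ) z⁻¹ := by
    intro χ
    rw [hf']
    show ∑ g : G, f g⁻¹ * (χ : G → ℂ) g = _
    rw [← Equiv.sum_comp (Equiv.inv G) (fun g => f g⁻¹ * (χ : G → ℂ) g)]
    simp only [Equiv.inv_apply, inv_inv]
    rw [← hκsum, Finset.sum_mul]
    refine Finset.sum_congr rfl (fun g _ => ?_)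
    rw [hf]
    show (if IsConj z g then (1 : ℂ) else 0) * _ = (if IsConj z g then (1 : ℂ) else 0) * _
    split_ifs with hg
    · obtain ⟨u, rfl⟩ := isConj_iff.mp hg
      have e : (u * z * u⁻¹)⁻¹ = u * z⁻¹ * u⁻¹ := by group
      rw [e, char_classFun (isCharacter_of_irr χ.2) z⁻¹ u]
    · simp
  have hff : ∑ g : G, f g * f' g⁻¹ = (κ : ℂ) := by
    rw [← hκsum, hf']
    refine Finset.sum_congr rfl (fun g _ => ?_)
    show f g * f g⁻¹⁻¹ = f g
    rw [inv_inv, hf]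
    show (if IsConj z g then (1 : ℂ) else 0) * (if IsConj z g then (1 : ℂ) else 0) =
      if IsConj z g then (1 : ℂ) else 0
    by_cases hg : IsConj z g
    · rw [if_pos hg, mul_one]
    · rw [if_neg hg, mul_zero]
  have hpC : ¬ p ∣ Nat.card (Subgroup.centralizer ({z} : Set G)) := by
    intro hdvd
    obtain ⟨y, hy⟩ := exists_prime_orderOf_dvd_card' p hdvd
    have hyG : orderOf (y : G) = p := by
      rw [Subgroup.orderOf_coe]
      exact hy
    have hy1 : (y : G) ≠ 1 := by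
      intro h
      rw [h, orderOf_one] at hyG
      exact hp.one_lt.ne hyG
    have h1 := hC (y : G) hy1 ⟨1, by rw [hyG, pow_one]⟩
    apply h1
    obtain ⟨k, hk⟩ := hzq
    have hk0 : k ≠ 0 := by
      rintro rfl
      rw [pow_zero, orderOf_eq_one_iff] at hk
      exact hz1 hk
    have hzmem : z ∈ Subgroup.centralizer ({(y : G)} : Set G) := by
      rw [Subgroup.mem_centralizer_singleton_iff]
      have h2 := Subgroup.mem_centralizer_singleton_iff.mp y.2
      exact h2.symm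
    have h2 : orderOf z ∣ Nat.card (Subgroup.centralizer ({(y : G)} : Set G)) := by
      have h3 := orderOf_dvd_natCard (⟨z, hzmem⟩ : Subgroup.centralizer ({(y : G)} : Set G))
      rwa [Subgroup.orderOf_mk] at h3
    rw [hk] at h2
    exact (dvd_pow_self q hk0).trans h2
  have hκ0 : (κ : ℂ) ≠ 0 := by exact_mod_cast hκpos.ne'
  have hsum : ∑ χ : Cfsg.IrrCharacter G,
      ((χ : G → ℂ) z * (χ : G → ℂ) z⁻¹ * (mm χ : ℂ)) / (χ : G → ℂ) 1 =
      (Nat.card (Subgroup.centralizer ({z} : Set G)) : ℂ) / ((p ^ n : ℕ) : ℂ) := by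
    rw [hff, hclass, hPcard] at hmm
    have h1 : ∀ χ : Cfsg.IrrCharacter G, (∑ g : G, f g * (χ : G → ℂ) g) *
        (∑ g : G, f' g * (χ : G → ℂ) g) * (mm χ : ℂ) / (χ : G → ℂ) 1 =
        (κ : ℂ) ^ 2 * (((χ : G → ℂ) z * (χ : G → ℂ) z⁻¹ * (mm χ : ℂ)) / (χ : G → ℂ) 1) := by
      intro χ
      rw [hS1, hS2]
      ring
    rw [Finset.sum_congr rfl (fun χ _ => h1 χ), ← Finset.mul_sum] at hmm
    have h2 : (κ : ℂ) ^ 2 * (∑ χ : Cfsg.IrrCharacter G,
        ((χ : G → ℂ) z * (χ : G → ℂ) z⁻¹ * (mm χ : ℂ)) / (χ : G → ℂ) 1) =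
        (κ : ℂ) ^ 2 * ((Nat.card (Subgroup.centralizer ({z} : Set G)) : ℂ) /
          ((p ^ n : ℕ) : ℂ)) := by
      rw [hmm]
      ring
    exact mul_left_cancel₀ (pow_ne_zero 2 hκ0) h2
  obtain ⟨χ, hχ⟩ := sc_contra p hp n 0 hn0
    (fun χ => (χ : G → ℂ) z * (χ : G → ℂ) z⁻¹ * (mm χ : ℂ))
    (fun χ => ((char_isIntegral (isCharacter_of_irr χ.2) z).mul
      (char_isIntegral (isCharacter_of_irr χ.2) z⁻¹)).mul (isIntegral_natCast _))
    (Nat.card (Subgroup.centralizer ({z} : Set G))) Nat.card_pos.ne'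
    (Nat.factorization_eq_zero_of_not_dvd hpC) hsum
  rw [Nat.sub_zero] at hχ
  apply hno χ
  obtain ⟨d, hd0, hd1, hddvd⟩ := irr_degree_dvd_card χ.2
  rw [charDegree_eq hd1] at hχ ⊢
  rw [← hn]
  apply le_antisymm
  · rw [hn]
    exact (Nat.factorization_le_iff_dvd hd0.ne' Nat.card_pos.ne').mpr hddvd p
  · exact (hp.pow_dvd_iff_le_factorization hd0.ne').mp hχ

end Cfsg.Agent.S4742
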