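import Mathlib
import Cfsg.Statements.S4744
import Cfsg.Agent.S4742

set_option autoImplicit false
open Cfsg
open scoped Pointwise

namespace Cfsg.Agent.S4744

universe u

theorem inv_of_fpf {G : Type u} [Group G] (Q : Subgroup G) [Finite Q] (t : G) (ht : t * t = 1)
    (hQ : ∀ x ∈ Q, t * x * t⁻¹ ∈ Q) (hfix : ∀ x ∈ Q, t * x * t⁻¹ = x → x = 1) :
    ∀ x ∈ Q, t * x * t⁻¹ = x⁻¹ := by
  have hinj : Function.Injective (fun x : Q =>
      (⟨(x : G)⁻¹ * (t * x * t⁻¹), Q.mul_mem (Q.inv_mem x.2) (hQ x x.2)⟩ : Q)) := by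
    intro a b hab
    have h1 : (a : G)⁻¹ * (t * a * t⁻¹) = (b : G)⁻¹ * (t * b * t⁻¹) := congrArg Subtype.val hab
    have h2 : t * ((b : G) * (a : G)⁻¹) * t⁻¹ = (b : G) * (a : G)⁻¹ := by
      calc t * ((b : G) * (a : G)⁻¹) * t⁻¹
          = (b : G) * ((b : G)⁻¹ * (t * b * t⁻¹)) * ((a : G)⁻¹ * (t * a * t⁻¹))⁻¹ * (a : G)⁻¹ := by
            group
        _ = (b : G) * ((a : G)⁻¹ * (t * a * t⁻¹)) * ((a : G)⁻¹ * (t * a * t⁻¹))⁻¹ * (a : G)⁻¹ := by
            rw [h1]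
        _ = (b : G) * (a : G)⁻¹ := by group
    have h3 := hfix _ (Q.mul_mem b.2 (Q.inv_mem a.2)) h2
    exact Subtype.ext (mul_inv_eq_one.mp h3).symm
  have hsurj := Finite.surjective_of_injective hinj
  intro x hx
  obtain ⟨u, hu⟩ := hsurj ⟨x, hx⟩
  have h1 : x = (u : G)⁻¹ * (t * u * t⁻¹) := (congrArg Subtype.val hu).symm
  rw [h1]
  calc t * ((u : G)⁻¹ * (t * u * t⁻¹)) * t⁻¹
      = t * (u : G)⁻¹ * t⁻¹ * ((t * t) * u * (t * t)⁻¹) := by group
    _ = t * (u : G)⁻¹ * t⁻¹ * u := by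
        rw [ht]
        group
    _ = ((u : G)⁻¹ * (t * u * t⁻¹))⁻¹ := by group

theorem lemA {G : Type u} [Group G] [Finite G] (p : ℕ) [Fact p.Prime]
    (hC : ∀ g : G, g ≠ 1 → (∃ k : ℕ, orderOf g = p ^ k) →
      Odd (Nat.card ↥(Subgroup.centralizer ({g} : Set G))))
    (t y : G) (ht : t * t = 1) (ht1 : t ≠ 1) (hy1 : y ≠ 1) (hyp : ∃ k : ℕ, orderOf y = p ^ k)
    (hinv : t * y * t⁻¹ = y⁻¹) :
    ∃ Q : Sylow p ↥(Subgroup.centralizer ({y} : Set G)),
      ∀ x ∈ (Q : Subgroup ↥(Subgroup.centralizer ({y} : Set G))),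
        t * (x : G) * t⁻¹ = (x : G)⁻¹ := by
  classical
  have hnorm : ∀ c ∈ Subgroup.centralizer ({y} : Set G),
      t * c * t⁻¹ ∈ Subgroup.centralizer ({y} : Set G) := by
    intro c hc
    rw [Subgroup.mem_centralizer_singleton_iff] at hc ⊢
    have hy' : t * y⁻¹ * t⁻¹ = y := by
      have h1 : (t * y * t⁻¹)⁻¹ = y := by rw [hinv, inv_inv]
      calc t * y⁻¹ * t⁻¹ = (t * y * t⁻¹)⁻¹ := by group
        _ = y := h1
    have hc' : c * y⁻¹ = y⁻¹ * c := by
      calc c * y⁻¹ = y⁻¹ * (y * c) * y⁻¹ := by group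
        _ = y⁻¹ * (c * y) * y⁻¹ := by rw [hc]
        _ = y⁻¹ * c := by group
    calc t * c * t⁻¹ * y = t * c * t⁻¹ * (t * y⁻¹ * t⁻¹) := by rw [hy']
      _ = t * (c * y⁻¹) * t⁻¹ := by group
      _ = t * (y⁻¹ * c) * t⁻¹ := by rw [hc']
      _ = (t * y⁻¹ * t⁻¹) * (t * c * t⁻¹) := by group
      _ = y * (t * c * t⁻¹) := by rw [hy']
  obtain ⟨φ, hφ⟩ : ∃ φ : MulAut ↥(Subgroup.centralizer ({y} : Set G)),
      ∀ c, ((φ c : ↥(Subgroup.centralizer ({y} : Set G))) : G) = t * c * t⁻¹ := by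
    refine ⟨{ toFun := fun c => ⟨t * c * t⁻¹, hnorm c c.2⟩
              invFun := fun c => ⟨t * c * t⁻¹, hnorm c c.2⟩
              left_inv := fun c => Subtype.ext ?_
              right_inv := fun c => Subtype.ext ?_
              map_mul' := fun a b => Subtype.ext ?_ }, fun c => rfl⟩
    · show t * (t * (c : G) * t⁻¹) * t⁻¹ = c
      calc t * (t * (c : G) * t⁻¹) * t⁻¹ = (t * t) * c * (t * t)⁻¹ := by group
        _ = c := by
          rw [ht]
          group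
    · show t * (t * (c : G) * t⁻¹) * t⁻¹ = c
      calc t * (t * (c : G) * t⁻¹) * t⁻¹ = (t * t) * c * (t * t)⁻¹ := by group
        _ = c := by
          rw [ht]
          group
    · show t * ((a : G) * b) * t⁻¹ = (t * a * t⁻¹) * (t * b * t⁻¹)
      group
  have hφ2 : φ * φ = 1 := by
    ext c
    rw [MulAut.mul_apply, hφ, hφ]
    calc t * (t * (c : G) * t⁻¹) * t⁻¹ = (t * t) * c * (t * t)⁻¹ := by group
      _ = c := by
        rw [ht]
        group
  have _fs : Fintype (Sylow p ↥(Subgroup.centralizer ({y} : Set G))) := Fintype.ofFinite _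
  have hodd : ¬ 2 ∣ Fintype.card (Sylow p ↥(Subgroup.centralizer ({y} : Set G))) := by
    obtain ⟨Q0⟩ : Nonempty (Sylow p ↥(Subgroup.centralizer ({y} : Set G))) := inferInstance
    have h1 := Q0.card_dvd_index
    have h2 : (Q0 : Subgroup ↥(Subgroup.centralizer ({y} : Set G))).index ∣
        Nat.card ↥(Subgroup.centralizer ({y} : Set G)) := Subgroup.index_dvd_card _
    have h3 := hC y hy1 hyp
    intro h4
    rw [← Nat.card_eq_fintype_card] at h4
    have h5 : 2 ∣ Nat.card ↥(Subgroup.centralizer ({y} : Set G)) := (h4.trans h1).trans h2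
    obtain ⟨m, hm⟩ := h3
    omega
  have _f2 : Fact (Nat.Prime 2) := ⟨Nat.prime_two⟩
  obtain ⟨Q, hQ⟩ := Equiv.Perm.exists_fixed_point_of_prime (p := 2) (n := 1) hodd
    (σ := MulAction.toPerm φ) (by
      rw [pow_one, ← MulAction.toPermHom_apply, ← map_pow, sq, hφ2, map_one])
  have hQ' : φ • Q = Q := hQ
  have hmem : ∀ x ∈ (Q : Subgroup ↥(Subgroup.centralizer ({y} : Set G))),
      φ x ∈ (Q : Subgroup ↥(Subgroup.centralizer ({y} : Set G))) := by
    intro x hx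
    have h1 : φ • x ∈ φ • (Q : Subgroup ↥(Subgroup.centralizer ({y} : Set G))) :=
      Subgroup.smul_mem_pointwise_smul x φ _ hx
    rw [← Sylow.pointwise_smul_def, hQ'] at h1
    exact h1
  refine ⟨Q, ?_⟩
  have key := inv_of_fpf ((Q : Subgroup ↥(Subgroup.centralizer ({y} : Set G))).map
    (Subgroup.subtype _)) t ht ?_ ?_
  · intro x hx
    exact key x (Subgroup.mem_map_of_mem _ hx)
  · rintro _ ⟨x, hx, rfl⟩
    exact ⟨φ x, hmem x hx, hφ x⟩
  · rintro _ ⟨x, hx, rfl⟩ hfix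
    by_contra hne
    have hxp : ∃ k, orderOf (x : G) = p ^ k := by
      obtain ⟨k, hk⟩ := (IsPGroup.iff_orderOf.mp Q.2) ⟨x, hx⟩
      refine ⟨k, ?_⟩
      rw [← hk, Subgroup.orderOf_coe]
      exact Subgroup.orderOf_coe (⟨x, hx⟩ : ↥(Q : Subgroup _))
    have hodd2 := hC (x : G) hne hxp
    have hfix' : t * (x : G) * t⁻¹ = x := hfix
    have htc : t ∈ Subgroup.centralizer ({(x : G)} : Set G) := by
      rw [Subgroup.mem_centralizer_singleton_iff]
      calc t * (x : G) = (t * x * t⁻¹) * t := by group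
        _ = x * t := by rw [hfix']
    have ht2 : orderOf t = 2 := orderOf_eq_prime (by rw [sq]; exact ht) ht1
    have hdvd : 2 ∣ Nat.card ↥(Subgroup.centralizer ({(x : G)} : Set G)) := by
      rw [← ht2]
      exact Subgroup.orderOf_dvd_natCard _ htc
    obtain ⟨m, hm⟩ := hodd2
    omega

theorem mem_of_comm {G : Type u} [Group G] [Finite G] (p : ℕ) [Fact p.Prime] (y : G)
    (Q : Sylow p ↥(Subgroup.centralizer ({y} : Set G))) (z : G)
    (hzC : z ∈ Subgroup.centralizer ({y} : Set G)) (hzp : ∃ k : ℕ, orderOf z = p ^ k)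
    (hcomm : ∀ x ∈ (Q : Subgroup ↥(Subgroup.centralizer ({y} : Set G))),
      (x : G) * z = z * (x : G)) :
    (⟨z, hzC⟩ : ↥(Subgroup.centralizer ({y} : Set G))) ∈
      (Q : Subgroup ↥(Subgroup.centralizer ({y} : Set G))) := by
  have hZp : IsPGroup p (Subgroup.zpowers (⟨z, hzC⟩ : ↥(Subgroup.centralizer ({y} : Set G)))) := by
    obtain ⟨k, hk⟩ := hzp
    apply IsPGroup.of_card (n := k)
    rw [Nat.card_zpowers, ← hk]
    exact (Subgroup.orderOf_coe (⟨z, hzC⟩ : ↥(Subgroup.centralizer ({y} : Set G)))).symm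
  have hfixZ : ∀ c : ↥(Subgroup.centralizer ({y} : Set G)), Commute c ⟨z, hzC⟩ →
      ∀ w ∈ Subgroup.zpowers (⟨z, hzC⟩ : ↥(Subgroup.centralizer ({y} : Set G))),
        c * w * c⁻¹ = w := by
    intro c hc w hw
    obtain ⟨k, rfl⟩ := Subgroup.mem_zpowers_iff.mp hw
    have hc' : Commute c ((⟨z, hzC⟩ : ↥(Subgroup.centralizer ({y} : Set G))) ^ k) :=
      Commute.zpow_right hc k
    rw [hc'.eq, mul_inv_cancel_right]
  have hnorm : (Q : Subgroup ↥(Subgroup.centralizer ({y} : Set G))) ≤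
      Subgroup.normalizer ((Subgroup.zpowers
        (⟨z, hzC⟩ : ↥(Subgroup.centralizer ({y} : Set G))) : Subgroup _) : Set _) := by
    intro x hx
    rw [Subgroup.mem_normalizer_iff]
    intro w
    have hxz : Commute x ⟨z, hzC⟩ := Subtype.ext (hcomm x hx)
    constructor
    · intro hw
      rw [hfixZ x hxz w hw]
      exact hw
    · intro hw
      have h1 := hfixZ x⁻¹ hxz.inv_left (x * w * x⁻¹) hw
      have e : x⁻¹ * (x * w * x⁻¹) * x⁻¹⁻¹ = w := by group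
      rw [e] at h1
      rw [h1]
      exact hw
  have hsup := IsPGroup.to_sup_of_normal_right' Q.2 hZp hnorm
  have heq := Q.is_maximal' hsup le_sup_left
  have h2 : (⟨z, hzC⟩ : ↥(Subgroup.centralizer ({y} : Set G))) ∈
      (Q : Subgroup ↥(Subgroup.centralizer ({y} : Set G))) ⊔ Subgroup.zpowers ⟨z, hzC⟩ :=
    (le_sup_right : Subgroup.zpowers _ ≤ _) (Subgroup.mem_zpowers _)
  rw [heq] at h2
  exact h2
theorem result {G : Type*} [Group G] [Finite G] (p : ℕ) [Fact p.Prime] (hp2 : p ≠ 2) (hpG : p ∣ Nat.card G) (h2G : 2 ∣ Nat.card G) (hC : ∀ g : G, g ≠ 1 → (∃ k : ℕ, orderOf g = p ^ k) → Odd (Nat.card ↥(Subgroup.centralizer ({g} : Set G)))) : (∃ χ : Cfsg.IrrCharacter G, (Cfsg.charDegree (χ : G → ℂ)).factorization p = (Nat.card G).factorization p) ∨ ∀ P : Sylow p G, Even (Nat.card ↥(Subgroup.normalizer ((P : Subgroup G) : Set G))) ∧ IsMulCommutative ↥(P : Subgroup G) := by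
  classical
  have hp : p.Prime := Fact.out
  have hC' : ∀ g : G, g ≠ 1 → (∃ k : ℕ, orderOf g = p ^ k) →
      ¬ 2 ∣ Nat.card ↥(Subgroup.centralizer ({g} : Set G)) := by
    intro g hg hk h2
    obtain ⟨m, hm⟩ := hC g hg hk
    omega
  have _f2 : Fact (Nat.Prime 2) := ⟨Nat.prime_two⟩
  rcases Cfsg.Agent.S4742.result p 2 hp2 hpG h2G hC' with hdef | hconj
  · exact Or.inl hdef
  right
  obtain ⟨z, hz⟩ := exists_prime_orderOf_dvd_card' 2 h2G
  have hz1 : z ≠ 1 := by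
    rintro rfl
    rw [orderOf_one] at hz
    omega
  obtain ⟨g, h, hzg, hzh, hne, k, hk⟩ := hconj z hz1 ⟨1, by rw [hz, pow_one]⟩
  have hg2 : orderOf g = 2 := by
    obtain ⟨c, hc⟩ := isConj_iff.mp hzg
    rw [← hc, ← hz]
    exact (MulAut.conj c).orderOf_eq z
  have hh2 : orderOf h = 2 := by
    obtain ⟨c, hc⟩ := isConj_iff.mp hzh
    rw [← hc, ← hz]
    exact (MulAut.conj c).orderOf_eq z
  have hgg : g * g = 1 := by
    rw [← sq, ← hg2]
    exact pow_orderOf_eq_one g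
  have hhh : h * h = 1 := by
    rw [← sq, ← hh2]
    exact pow_orderOf_eq_one h
  have hg1 : g ≠ 1 := by
    rintro rfl
    rw [orderOf_one] at hg2
    omega
  have hhi : h⁻¹ = h := inv_eq_of_mul_eq_one_left hhh
  have hinv : g * (g * h⁻¹) * g⁻¹ = (g * h⁻¹)⁻¹ := by
    calc g * (g * h⁻¹) * g⁻¹ = (g * g) * h⁻¹ * g⁻¹ := by group
      _ = h * g⁻¹ := by rw [hgg, one_mul, hhi]
      _ = (g * h⁻¹)⁻¹ := by group
  obtain ⟨Q₁, hQ₁⟩ := lemA p hC g (g * h⁻¹) hgg hg1 hne ⟨k, hk⟩ hinv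
  obtain ⟨P₁, hP₁⟩ := IsPGroup.exists_le_sylow (Q₁.2.map (Subgroup.subtype _))
  have hyC : g * h⁻¹ ∈ Subgroup.centralizer ({g * h⁻¹} : Set G) := by
    rw [Subgroup.mem_centralizer_singleton_iff]
  have hyQ := mem_of_comm p (g * h⁻¹) Q₁ (g * h⁻¹) hyC ⟨k, hk⟩
    (fun x _ => (Subgroup.mem_centralizer_singleton_iff.mp x.2))
  have hyP : g * h⁻¹ ∈ (P₁ : Subgroup G) :=
    hP₁ (Subgroup.mem_map.mpr ⟨⟨g * h⁻¹, hyC⟩, hyQ, rfl⟩)
  have hPnt : Nontrivial ↥(P₁ : Subgroup G) :=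
    ⟨⟨⟨g * h⁻¹, hyP⟩, 1, fun h' => hne (congrArg Subtype.val h')⟩⟩
  have hcnt := (P₁.2).center_nontrivial
  obtain ⟨⟨z₁, hz₁c⟩, hz₁ne⟩ := exists_ne (1 : ↥(Subgroup.center ↥(P₁ : Subgroup G)))
  have hz₁1 : (z₁ : G) ≠ 1 := fun h' => hz₁ne (Subtype.ext (Subtype.ext h'))
  have hz₁comm : ∀ x ∈ (P₁ : Subgroup G), x * (z₁ : G) = (z₁ : G) * x := by
    intro x hx
    have h1 := (Subgroup.mem_center_iff.mp hz₁c) ⟨x, hx⟩
    exact congrArg Subtype.val h1
  have hz₁p : ∃ k : ℕ, orderOf (z₁ : G) = p ^ k := by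
    obtain ⟨k', hk'⟩ := (IsPGroup.iff_orderOf.mp P₁.2) z₁
    exact ⟨k', by rw [Subgroup.orderOf_coe]; exact hk'⟩
  have hz₁C : (z₁ : G) ∈ Subgroup.centralizer ({g * h⁻¹} : Set G) := by
    rw [Subgroup.mem_centralizer_singleton_iff]
    exact (hz₁comm _ hyP).symm
  have hz₁Q := mem_of_comm p (g * h⁻¹) Q₁ (z₁ : G) hz₁C hz₁p
    (fun x hx => hz₁comm _ (hP₁ (Subgroup.mem_map_of_mem _ hx)))
  have hz₁inv : g * (z₁ : G) * g⁻¹ = (z₁ : G)⁻¹ := hQ₁ ⟨z₁, hz₁C⟩ hz₁Q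
  obtain ⟨Q₂, hQ₂⟩ := lemA p hC g (z₁ : G) hgg hg1 hz₁1 hz₁p hz₁inv
  have hP₁C : (P₁ : Subgroup G) ≤ Subgroup.centralizer ({(z₁ : G)} : Set G) := by
    intro x hx
    rw [Subgroup.mem_centralizer_singleton_iff]
    exact hz₁comm x hx
  have hcard : Nat.card ↥((Q₂ : Subgroup _).map
      (Subgroup.subtype (Subgroup.centralizer ({(z₁ : G)} : Set G)))) =
      p ^ (Nat.card G).factorization p := by
    rw [Subgroup.card_map_of_injective (Subgroup.subtype_injective _), Q₂.card_eq_multiplicity]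
    congr 1
    apply le_antisymm
    · have hd : Nat.card ↥(Subgroup.centralizer ({(z₁ : G)} : Set G)) ∣ Nat.card G :=
        Subgroup.card_subgroup_dvd_card _
      exact (Nat.factorization_le_iff_dvd Nat.card_pos.ne' Nat.card_pos.ne').mpr hd p
    · have hd : Nat.card ↥(P₁ : Subgroup G) ∣
          Nat.card ↥(Subgroup.centralizer ({(z₁ : G)} : Set G)) := Subgroup.card_dvd_of_le hP₁C
      rw [P₁.card_eq_multiplicity] at hd
      exact (hp.pow_dvd_iff_le_factorization Nat.card_pos.ne').mp hd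
  intro P
  obtain ⟨c, hc⟩ := MulAction.exists_smul_eq G (Sylow.ofCard _ hcard) P
  have hPinv : ∀ x ∈ (P : Subgroup G), (c * g * c⁻¹) * x * (c * g * c⁻¹)⁻¹ = x⁻¹ := by
    intro x hx
    have hx0 : x ∈ ((c • Sylow.ofCard _ hcard : Sylow p G) : Subgroup G) := by
      rw [hc]
      exact hx
    rw [Sylow.coe_subgroup_smul, Subgroup.mem_pointwise_smul_iff_inv_smul_mem,
      Sylow.coe_ofCard] at hx0
    have e : (MulAut.conj c)⁻¹ • x = c⁻¹ * x * c := by
      rw [← map_inv, MulAut.smul_def, MulAut.conj_apply, inv_inv]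
    rw [e] at hx0
    obtain ⟨w, hw, hwe⟩ := Subgroup.mem_map.mp hx0
    have h1 := hQ₂ w hw
    have hwe' : (w : G) = c⁻¹ * x * c := hwe
    rw [hwe'] at h1
    calc (c * g * c⁻¹) * x * (c * g * c⁻¹)⁻¹ = c * (g * (c⁻¹ * x * c) * g⁻¹) * c⁻¹ := by group
      _ = c * (c⁻¹ * x * c)⁻¹ * c⁻¹ := by rw [h1]
      _ = x⁻¹ := by group
  constructor
  · have hmemN : c * g * c⁻¹ ∈ Subgroup.normalizer ((P : Subgroup G) : Set G) := by
      rw [Subgroup.mem_normalizer_iff]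
      intro x
      constructor
      · intro hx
        rw [hPinv x hx]
        exact inv_mem hx
      · intro hx
        have h1 := hPinv _ hx
        have htt : (c * g * c⁻¹) * (c * g * c⁻¹) = 1 := by
          calc (c * g * c⁻¹) * (c * g * c⁻¹) = c * (g * g) * c⁻¹ := by group
            _ = 1 := by
              rw [hgg]
              group
        have h2 : (c * g * c⁻¹) * ((c * g * c⁻¹) * x * (c * g * c⁻¹)⁻¹) * (c * g * c⁻¹)⁻¹ = x := by
          calc (c * g * c⁻¹) * ((c * g * c⁻¹) * x * (c * g * c⁻¹)⁻¹) * (c * g * c⁻¹)⁻¹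
              = ((c * g * c⁻¹) * (c * g * c⁻¹)) * x * ((c * g * c⁻¹) * (c * g * c⁻¹))⁻¹ := by
                group
            _ = x := by
              rw [htt]
              group
        rw [h2] at h1
        rw [h1]
        exact inv_mem hx
    have hord : orderOf (c * g * c⁻¹) = 2 := by
      rw [← hg2]
      exact (MulAut.conj c).orderOf_eq g
    rw [even_iff_two_dvd, ← hord]
    exact Subgroup.orderOf_dvd_natCard _ hmemN
  · refine ⟨⟨fun a b => Subtype.ext ?_⟩⟩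
    have ha := hPinv a a.2
    have hb := hPinv b b.2
    have hab := hPinv ((a : G) * b) (mul_mem a.2 b.2)
    have h1 : (a : G)⁻¹ * (b : G)⁻¹ = ((a : G) * b)⁻¹ := by
      rw [← ha, ← hb, ← hab]
      group
    have h2 : (a : G) * b = b * a := by
      have h3 := congrArg (fun w => w⁻¹) h1
      simp only [mul_inv_rev, inv_inv] at h3
      exact h3.symm
    exact h2

end Cfsg.Agent.S4744
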