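import Mathlib
import Cfsg.Statements.S4746
import Cfsg.Agent.Lib.Helper3.Char
import Cfsg.Agent.Lib.Helper3.CharCore
import Cfsg.Agent.Lib.Helper3.CharArith
import Cfsg.Agent.Lib.Helper3.CharInd
import Cfsg.Agent.Lib.Helper3.CharInt
import Cfsg.Agent.Lib.Helper3.CharTable
import Cfsg.Agent.Lib.Helper3.CharKer
import Cfsg.Agent.Lib.Helper3.BlkOrth4
import Cfsg.Agent.S4742

set_option autoImplicit false
open Cfsg
open Cfsg.Agent.Lib.Helper3.Char Cfsg.Agent.Lib.Helper3.CharCore Cfsg.Agent.Lib.Helper3.CharArith Cfsg.Agent.Lib.Helper3.CharInd Cfsg.Agent.Lib.Helper3.CharInt Cfsg.Agent.Lib.Helper3.CharTable Cfsg.Agent.Lib.Helper3.CharKer Cfsg.Agent.Lib.Helper3.BlkOrth4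
open scoped ComplexConjugate

namespace Cfsg.Agent.S4746

theorem sq_sum {ι : Type*} (s : Finset ι) (a : ι → ℂ) (ha : ∀ i ∈ s, IsIntegral ℤ (a i)) :
    ∃ γ : ℂ, IsIntegral ℤ γ ∧ (∑ i ∈ s, a i) ^ 2 = ∑ i ∈ s, (a i) ^ 2 + 2 * γ := by
  classical
  induction s using Finset.induction_on with
  | empty => exact ⟨0, isIntegral_zero, by simp⟩
  | insert i s hi ih =>
    obtain ⟨γ, hγ, hγe⟩ := ih (fun j hj => ha j (Finset.mem_insert_of_mem hj))
    refine ⟨γ + a i * ∑ j ∈ s, a j, hγ.add ((ha i (Finset.mem_insert_self i s)).mul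
      (IsIntegral.sum _ (fun j hj => ha j (Finset.mem_insert_of_mem hj)))), ?_⟩
    rw [Finset.sum_insert hi, Finset.sum_insert hi]
    linear_combination hγe

theorem result {G : Type*} [Group G] [Finite G] (p : ℕ) [Fact p.Prime] (hp2 : p ≠ 2) (hpG : p ∣ Nat.card G) (h2G : 2 ∣ Nat.card G) (hC : ∀ g : G, g ≠ 1 → (∃ k : ℕ, orderOf g = p ^ k) → Odd (Nat.card ↥(Subgroup.centralizer ({g} : Set G)))) : (∃ χ : Cfsg.IrrCharacter G, (Cfsg.charDegree (χ : G → ℂ)).factorization p = (Nat.card G).factorization p) ∨ ∃ χ : Cfsg.IrrCharacter G, Even (Cfsg.charDegree (χ : G → ℂ)) := by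
  classical
  have _fg : Fintype G := Fintype.ofFinite G
  have _fi : Fintype (Cfsg.IrrCharacter G) := Fintype.ofFinite _
  have hp := (Fact.out : p.Prime)
  have _f2 : Fact (Nat.Prime 2) := ⟨Nat.prime_two⟩
  have h4742 := Cfsg.Agent.S4742.result (G := G) p 2 hp2 hpG h2G (fun g hg1 hgp h2 => by
    have h1 := hC g hg1 hgp
    exact (Nat.not_even_iff_odd.mpr h1) (even_iff_two_dvd.mpr h2))
  rcases h4742 with h | hz
  · exact Or.inl h
  right
  by_contra hno
  simp only [not_exists] at hno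
  obtain ⟨x, hx⟩ := exists_prime_orderOf_dvd_card' 2 h2G
  have hx1 : x ≠ 1 := by
    intro h
    rw [h, orderOf_one] at hx
    omega
  obtain ⟨g, h, hg, hh, hne, k, hk⟩ := hz x hx1 ⟨1, by rw [hx, pow_one]⟩
  have hK2 : ∀ g : G, IsConj x g → g * g = 1 := by
    intro g hg
    obtain ⟨u, rfl⟩ := isConj_iff.mp hg
    have hx2 : x * x = 1 := by
      rw [← pow_two, ← hx]
      exact pow_orderOf_eq_one x
    calc u * x * u⁻¹ * (u * x * u⁻¹) = u * (x * x) * u⁻¹ := by group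
      _ = 1 := by rw [hx2]; group
  obtain ⟨y, hy⟩ : ∃ y : G, y = g * h⁻¹ := ⟨_, rfl⟩
  rw [← hy] at hne hk
  have hinvy : g * y * g⁻¹ = y⁻¹ := by
    have hg2 := hK2 g hg
    have hh2 := hK2 h hh
    have hhinv : h⁻¹ = h := inv_eq_of_mul_eq_one_right hh2
    rw [hy, mul_inv_rev, inv_inv, ← mul_assoc, hg2, one_mul, hhinv]
  have hCodd := hC y hne ⟨k, hk⟩
  have hcol := column_orth y y⁻¹
  have hcard : Nat.card {u : G // u * y * u⁻¹ = y⁻¹} =
      Nat.card (Subgroup.centralizer ({y} : Set G)) := by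
    apply Nat.card_congr
    refine ⟨fun u => ⟨g⁻¹ * u.1, ?_⟩, fun c => ⟨g * c.1, ?_⟩, ?_, ?_⟩
    · rw [Subgroup.mem_centralizer_singleton_iff]
      have h1 := u.2
      have h2 : u.1 * y = y⁻¹ * u.1 := by
        calc u.1 * y = (u.1 * y * u.1⁻¹) * u.1 := by group
          _ = y⁻¹ * u.1 := by rw [h1]
      have h3 : g⁻¹ * y⁻¹ = y * g⁻¹ := by
        rw [← hinvy]
        group
      calc g⁻¹ * u.1 * y = g⁻¹ * (u.1 * y) := by group
        _ = g⁻¹ * (y⁻¹ * u.1) := by rw [h2]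
        _ = (g⁻¹ * y⁻¹) * u.1 := by group
        _ = y * (g⁻¹ * u.1) := by rw [h3]; group
    · have h1 := Subgroup.mem_centralizer_singleton_iff.mp c.2
      calc g * c.1 * y * (g * c.1)⁻¹ = g * (c.1 * y) * c.1⁻¹ * g⁻¹ := by group
        _ = g * (y * c.1) * c.1⁻¹ * g⁻¹ := by rw [h1]
        _ = g * y * g⁻¹ := by group
        _ = y⁻¹ := hinvy
    · intro u
      apply Subtype.ext
      simp
    · intro c
      apply Subtype.ext
      simp
  have hsq : ∑ χ : Cfsg.IrrCharacter G, ((χ : G → ℂ) y) ^ 2 =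
      (Nat.card (Subgroup.centralizer ({y} : Set G)) : ℂ) := by
    rw [← hcard, ← hcol]
    refine Finset.sum_congr rfl (fun χ _ => ?_)
    rw [char_inv (isCharacter_of_irr χ.2), Complex.conj_conj, pow_two]
  have hdelta := delta_one y
  rw [if_neg hne] at hdelta
  have hdeg : ∀ χ : Cfsg.IrrCharacter G, ∃ e : ℕ, (χ : G → ℂ) 1 = 2 * (e : ℂ) + 1 := by
    intro χ
    obtain ⟨d, hd0, hd⟩ := irr_one_pos χ.2
    have h1 := hno χ
    rw [charDegree_eq hd, Nat.not_even_iff_odd] at h1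
    obtain ⟨e, he⟩ := h1
    exact ⟨e, by rw [hd, he]; push_cast; ring⟩
  choose e he using hdeg
  obtain ⟨β, hβ⟩ : ∃ β : ℂ, β = ∑ χ : Cfsg.IrrCharacter G, (e χ : ℂ) * (χ : G → ℂ) y :=
    ⟨_, rfl⟩
  have hβint : IsIntegral ℤ β := by
    rw [hβ]
    exact IsIntegral.sum _ (fun χ _ => (isIntegral_natCast _).mul
      (char_isIntegral (isCharacter_of_irr χ.2) y))
  have hS : ∑ χ : Cfsg.IrrCharacter G, (χ : G → ℂ) y = -2 * β := by
    have h1 : ∑ χ : Cfsg.IrrCharacter G, (χ : G → ℂ) y * (χ : G → ℂ) 1 =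
        2 * β + ∑ χ : Cfsg.IrrCharacter G, (χ : G → ℂ) y := by
      rw [hβ, Finset.mul_sum, ← Finset.sum_add_distrib]
      refine Finset.sum_congr rfl (fun χ _ => ?_)
      rw [he χ]
      ring
    rw [hdelta] at h1
    linear_combination -h1
  obtain ⟨γ, hγ, hγe⟩ := sq_sum Finset.univ (fun χ : Cfsg.IrrCharacter G => (χ : G → ℂ) y)
    (fun χ _ => char_isIntegral (isCharacter_of_irr χ.2) y)
  rw [hS, hsq] at hγe
  have hint : IsIntegral ℤ ((Nat.card (Subgroup.centralizer ({y} : Set G)) : ℂ) /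
      ((2 : ℕ) : ℂ)) := by
    have h1 : (Nat.card (Subgroup.centralizer ({y} : Set G)) : ℂ) / ((2 : ℕ) : ℂ) =
        β ^ 2 + β ^ 2 - γ := by
      push_cast
      rw [div_eq_iff (by norm_num)]
      linear_combination -hγe
    rw [h1]
    exact ((hβint.pow 2).add (hβint.pow 2)).sub hγ
  have hdvd := nat_dvd_of_isIntegral_div _ 2 (by norm_num) hint
  exact (Nat.not_even_iff_odd.mpr hCodd) (even_iff_two_dvd.mpr hdvd)

end Cfsg.Agent.S4746
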