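import Mathlib
import Cfsg.Statements.S4754
import Cfsg.Agent.Lib.Helper3.Char
import Cfsg.Agent.Lib.Helper3.CharSep
import Cfsg.Agent.Lib.Helper3.BlkOrth2

set_option autoImplicit false
open Cfsg
open Cfsg.Agent.Lib.Helper3.Char Cfsg.Agent.Lib.Helper3.CharSep Cfsg.Agent.Lib.Helper3.BlkOrth2

namespace Cfsg.Agent.S4754

theorem result {G : Type*} [Group G] [Finite G] (x y : G) : (∀ z : G, IsConj (x * y) z ↔ ∃ a b : G, z = a * x * a⁻¹ * (b * y * b⁻¹)) ↔ ∀ (a b : G) (χ : Cfsg.IrrCharacter G), (χ : G → ℂ) 1 * (χ : G → ℂ) (a * x * a⁻¹ * (b * y * b⁻¹)) = (χ : G → ℂ) x * (χ : G → ℂ) y := by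
  classical
  have _fg : Fintype G := Fintype.ofFinite G
  have hG : (Nat.card G : ℂ) ≠ 0 := by exact_mod_cast Nat.card_pos.ne'
  constructor
  · intro H a b χ
    have hχ1 := irr_one_ne_zero χ.2
    have hz : (χ : G → ℂ) (a * x * a⁻¹ * (b * y * b⁻¹)) = (χ : G → ℂ) (x * y) :=
      (char_eq_of_isConj _ _ ((H _).mpr ⟨a, b, rfl⟩) χ).symm
    have h1 := sum_conj_char (χ : G → ℂ) χ.2 y x
    have h2 : ∀ h : G, (χ : G → ℂ) (h⁻¹ * x * h * y) = (χ : G → ℂ) (x * y) := by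
      intro h
      have h3 : IsConj (x * y) (h⁻¹ * x * h * y) := (H _).mpr ⟨h⁻¹, 1, by group⟩
      exact (char_eq_of_isConj _ _ h3 χ).symm
    rw [Finset.sum_congr rfl (fun h _ => h2 h), Finset.sum_const, Finset.card_univ,
      ← Nat.card_eq_fintype_card, nsmul_eq_mul] at h1
    rw [hz]
    have h4 : (Nat.card G : ℂ) * ((χ : G → ℂ) 1 * (χ : G → ℂ) (x * y)) =
        (Nat.card G : ℂ) * ((χ : G → ℂ) x * (χ : G → ℂ) y) := by
      have h5 : (Nat.card G : ℂ) * (χ : G → ℂ) (x * y) * (χ : G → ℂ) 1 =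
          (Nat.card G : ℂ) * (χ : G → ℂ) x / (χ : G → ℂ) 1 * (χ : G → ℂ) y * (χ : G → ℂ) 1 := by
        rw [h1]
      rw [div_mul_eq_mul_div, div_mul_cancel₀ _ hχ1] at h5
      linear_combination h5
    exact mul_left_cancel₀ hG h4
  · intro K z
    constructor
    · intro hc
      obtain ⟨c, hc⟩ := isConj_iff.mp hc
      exact ⟨c, c, by rw [← hc]; group⟩
    · rintro ⟨a, b, rfl⟩
      apply isConj_of_char_eq
      intro χ
      have hχ1 := irr_one_ne_zero χ.2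
      have h1 := K a b χ
      have h2 := K 1 1 χ
      have e : (1 : G) * x * 1⁻¹ * (1 * y * 1⁻¹) = x * y := by group
      rw [e] at h2
      exact mul_left_cancel₀ hχ1 (h2.trans h1.symm)

end Cfsg.Agent.S4754
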