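import Mathlib
import Cfsg.Statements.S4755
import Cfsg.Agent.Lib.Helper3.Char
import Cfsg.Agent.Lib.Helper3.CharArith
import Cfsg.Agent.Lib.Helper3.CharLinear
import Cfsg.Agent.Lib.Helper3.CharTable
import Cfsg.Agent.Lib.Helper3.CharSep
import Cfsg.Agent.S4754

set_option autoImplicit false
open Cfsg
open Cfsg.Agent.Lib.Helper3.Char Cfsg.Agent.Lib.Helper3.CharArith Cfsg.Agent.Lib.Helper3.CharLinear Cfsg.Agent.Lib.Helper3.CharTable Cfsg.Agent.Lib.Helper3.CharSep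
open scoped ComplexConjugate

namespace Cfsg.Agent.S4755

theorem result {G : Type*} [Group G] [Finite G] (x y : G) (hx : x ≠ 1) (hy : y ≠ 1) (h : ∀ (a b : G) (χ : Cfsg.IrrCharacter G), (χ : G → ℂ) (a * x * a⁻¹ * (b * y * b⁻¹)) = (χ : G → ℂ) (a * x * a⁻¹) * (χ : G → ℂ) (b * y * b⁻¹)) : (∀ z : G, IsConj (x * y) z ↔ ∃ a b : G, z = a * x * a⁻¹ * (b * y * b⁻¹)) ∧ (∀ χ : Cfsg.IrrCharacter G, (χ : G → ℂ) 1 ≠ 1 → (χ : G → ℂ) (x * y) = 0) ∧ (∀ z : G, IsConj (x * y) z ↔ (x * y)⁻¹ * z ∈ commutator G) := by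
  classical
  have _fg : Fintype G := Fintype.ofFinite G
  have _fi : Fintype (Cfsg.IrrCharacter G) := Fintype.ofFinite _
  have _hx := hx
  have _hy := hy
  have hcl : ∀ (χ : Cfsg.IrrCharacter G) (a u : G), (χ : G → ℂ) (a * u * a⁻¹) = (χ : G → ℂ) u :=
    fun χ a u => char_classFun (isCharacter_of_irr χ.2) u a
  have h11 : ∀ χ : Cfsg.IrrCharacter G, (χ : G → ℂ) (x * y) = (χ : G → ℂ) x * (χ : G → ℂ) y := by
    intro χ
    have h1 := h 1 1 χ
    have e : (1 : G) * x * 1⁻¹ * (1 * y * 1⁻¹) = x * y := by group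
    rw [e, hcl, hcl] at h1
    exact h1
  have part1 : ∀ z : G, IsConj (x * y) z ↔ ∃ a b : G, z = a * x * a⁻¹ * (b * y * b⁻¹) := by
    intro z
    constructor
    · intro hc
      obtain ⟨c, hc⟩ := isConj_iff.mp hc
      exact ⟨c, c, by rw [← hc]; group⟩
    · rintro ⟨a, b, rfl⟩
      apply isConj_of_char_eq
      intro χ
      rw [h a b χ, hcl, hcl, h11]
  have part2 : ∀ χ : Cfsg.IrrCharacter G, (χ : G → ℂ) 1 ≠ 1 → (χ : G → ℂ) (x * y) = 0 := by
    intro χ hχ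
    have h1 := (Cfsg.Agent.S4754.result x y).mp part1 1 1 χ
    have e : (1 : G) * x * 1⁻¹ * (1 * y * 1⁻¹) = x * y := by group
    rw [e, ← h11] at h1
    have h2 : ((χ : G → ℂ) 1 - 1) * (χ : G → ℂ) (x * y) = 0 := by linear_combination h1
    rcases mul_eq_zero.mp h2 with h3 | h3
    · exact absurd (sub_eq_zero.mp h3) hχ
    · exact h3
  refine ⟨part1, part2, ?_⟩
  intro z
  constructor
  · intro hc
    obtain ⟨c, hc⟩ := isConj_iff.mp hc
    rw [← hc]
    have h1 : (x * y)⁻¹ * c * ((x * y)⁻¹)⁻¹ * c⁻¹ ∈ commutator G :=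
      Subgroup.commutator_mem_commutator (Subgroup.mem_top _) (Subgroup.mem_top _)
    have e : (x * y)⁻¹ * c * ((x * y)⁻¹)⁻¹ * c⁻¹ = (x * y)⁻¹ * (c * (x * y) * c⁻¹) := by
      group
    rw [e] at h1
    exact h1
  · intro hz
    have key : ∀ χ : Cfsg.IrrCharacter G,
        (χ : G → ℂ) (x * y) * (starRingEnd ℂ) ((χ : G → ℂ) z) =
          if (χ : G → ℂ) 1 = 1 then 1 else 0 := by
      intro χ
      split_ifs with h1
      · obtain ⟨lam, hlam⟩ := hom_of_deg_one (isCharacter_of_irr χ.2) h1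
        have h2 : lam ((x * y)⁻¹ * z) = 1 :=
          MonoidHom.mem_ker.mp (Abelianization.commutator_subset_ker lam hz)
        have h3 : lam z = lam (x * y) := by
          have e : z = (x * y) * ((x * y)⁻¹ * z) := by group
          rw [e, map_mul, h2, mul_one]
        rw [← char_inv (isCharacter_of_irr χ.2), hlam]
        show ((lam (x * y) : ℂˣ) : ℂ) * ((lam z⁻¹ : ℂˣ) : ℂ) = 1
        rw [← Units.val_mul, map_inv, h3, mul_inv_cancel, Units.val_one]
      · rw [part2 χ h1, zero_mul]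
    have h1 := column_orth (x * y) z
    rw [Finset.sum_congr rfl (fun χ _ => key χ)] at h1
    have h2 : (1 : ℝ) ≤ ∑ χ : Cfsg.IrrCharacter G,
        (if (χ : G → ℂ) 1 = 1 then (1 : ℝ) else 0) := by
      have h3 : (if ((⟨fun _ => 1, isIrr_one G⟩ : Cfsg.IrrCharacter G) : G → ℂ) 1 = 1
          then (1 : ℝ) else 0) ≤ ∑ χ : Cfsg.IrrCharacter G,
          (if (χ : G → ℂ) 1 = 1 then (1 : ℝ) else 0) :=
        Finset.single_le_sum (f := fun χ : Cfsg.IrrCharacter G =>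
          (if (χ : G → ℂ) 1 = 1 then (1 : ℝ) else 0))
          (fun χ _ => by split_ifs <;> norm_num) (Finset.mem_univ _)
      rw [if_pos rfl] at h3
      exact h3
    have h4 : (Nat.card {w : G // w * (x * y) * w⁻¹ = z} : ℂ) ≠ 0 := by
      rw [← h1]
      have e : ∑ χ : Cfsg.IrrCharacter G, (if (χ : G → ℂ) 1 = 1 then (1 : ℂ) else 0) =
          ((∑ χ : Cfsg.IrrCharacter G, (if (χ : G → ℂ) 1 = 1 then (1 : ℝ) else 0) : ℝ) : ℂ) := by
        push_cast
        refine Finset.sum_congr rfl (fun χ _ => ?_)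
        split_ifs <;> simp
      rw [e]
      intro h5
      have h6 := Complex.ofReal_eq_zero.mp h5
      linarith
    have h5 : Nat.card {w : G // w * (x * y) * w⁻¹ = z} ≠ 0 := by
      intro h6
      apply h4
      rw [h6]
      simp
    obtain ⟨⟨w, hw⟩⟩ := (Nat.card_ne_zero.mp h5).1
    exact isConj_iff.mpr ⟨w, hw⟩

end Cfsg.Agent.S4755
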