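import Mathlib
import Cfsg.Statements.S4796
import Cfsg.Agent.Lib.Helper3.Char
import Cfsg.Agent.Lib.Helper3.CharCore
import Cfsg.Agent.Lib.Helper3.CharArith
import Cfsg.Agent.Lib.Helper3.CharInd
import Cfsg.Agent.Lib.Helper3.CharAb
import Cfsg.Agent.Lib.Helper3.CharCliff
import Cfsg.Agent.Lib.Helper3.CharStab
import Cfsg.Agent.Lib.Helper3.BlkOrth4
import Cfsg.Agent.S0148

set_option autoImplicit false
open Cfsg
open Cfsg.Agent.Lib.Helper3.Char Cfsg.Agent.Lib.Helper3.CharCore Cfsg.Agent.Lib.Helper3.CharArith Cfsg.Agent.Lib.Helper3.CharInd Cfsg.Agent.Lib.Helper3.CharAb Cfsg.Agent.Lib.Helper3.CharCliff Cfsg.Agent.Lib.Helper3.CharStab Cfsg.Agent.Lib.Helper3.BlkOrth4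
open scoped ComplexConjugate Pointwise

namespace Cfsg.Agent.S4796

theorem deg_le_index_abelian {G : Type*} [Group G] [Fintype G] {χ : G → ℂ}
    (hχ : Cfsg.IsIrrCharacter G χ) (B : Subgroup G) [Fintype B] (hab : ∀ a b : B, a * b = b * a)
    (d : ℕ) (hd : χ 1 = (d : ℂ)) : d ≤ B.index := by
  classical
  have hχc := isCharacter_of_irr hχ
  have hres : Cfsg.IsCharacter B (χ ∘ B.subtype) := comp_isCharacter B.subtype hχc
  obtain ⟨l, hl, hsum⟩ := isCharacter_decomp hres
  have hne : l ≠ [] := by
    intro h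
    rw [h, List.sum_nil] at hsum
    have h1 := congrFun hsum 1
    simp only [Function.comp_apply, Pi.zero_apply] at h1
    rw [map_one] at h1
    exact irr_one_ne_zero hχ h1
  obtain ⟨lam, hlam⟩ := List.exists_mem_of_ne_nil l hne
  have hlami := hl lam hlam
  obtain ⟨m, hm, hm0⟩ := inner_list_sum hlami l hl
  have hcon : Cfsg.classInner lam (fun b : B => χ b) ≠ 0 := by
    have e : (fun b : B => χ b) = l.sum := hsum
    rw [e, hm]
    exact_mod_cast (hm0 hlam).ne'
  have hfr := frobenius B lam χ (char_classFun hχc)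
  have hI : Cfsg.IsCharacter G (Cfsg.indFun B lam) :=
    Cfsg.Agent.S0148.result B lam (isCharacter_of_irr hlami)
  have hsub := sub_isCharacter hI hχ (by rw [hfr]; exact hcon)
  obtain ⟨k, hk, -⟩ := char_one hsub
  rw [Pi.sub_apply, indFun_one, abelian_linear hab hlami, mul_one, hd] at hk
  have h1 : (B.index : ℂ) = ((d + k : ℕ) : ℂ) := by
    push_cast
    linear_combination hk
  have h2 : B.index = d + k := by exact_mod_cast h1
  omega

theorem result {G : Type*} [Group G] [Finite G] (χ : Cfsg.IrrCharacter G) (hfaith : ∀ g : G, (χ : G → ℂ) g = (χ : G → ℂ) 1 → g = 1) (p : ℕ) (hp : p.Prime) (hcod : Nat.card G = p * Cfsg.charDegree (χ : G → ℂ)) : (IsCyclic G ∧ Nat.card G = p) ∨ ∃ H : Subgroup G, Cfsg.IsFrobeniusComplement H ∧ Nat.card ↥(Cfsg.frobeniusKernel H) = p := by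
  classical
  have _fg : Fintype G := Fintype.ofFinite G
  have _fp : Fact p.Prime := ⟨hp⟩
  have hχi := χ.2
  obtain ⟨d, hd0, hd⟩ := irr_one_pos hχi
  have hdeg : Cfsg.charDegree (χ : G → ℂ) = d := charDegree_eq hd
  rw [hdeg] at hcod
  have hsq : ∑ g : G, ‖(χ : G → ℂ) g‖ ^ 2 = (Nat.card G : ℝ) := by
    have h1 := irr_orthonormal (G := G) hχi hχi
    rw [if_pos rfl] at h1
    unfold Cfsg.classInner at h1
    have h2 : ∀ g : G, (χ : G → ℂ) g * conj ((χ : G → ℂ) g) =
        ((‖(χ : G → ℂ) g‖ ^ 2 : ℝ) : ℂ) := fun g => by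
      rw [Complex.mul_conj']
      push_cast
      rfl
    rw [Finset.sum_congr rfl (fun g _ => h2 g), ← Complex.ofReal_sum] at h1
    have hG0 : (Nat.card G : ℂ) ≠ 0 := by exact_mod_cast Nat.card_pos.ne'
    rw [inv_mul_eq_iff_eq_mul₀ hG0, mul_one] at h1
    exact_mod_cast h1
  have hdle : d ≤ p := by
    have h1 : ‖(χ : G → ℂ) 1‖ ^ 2 ≤ ∑ g : G, ‖(χ : G → ℂ) g‖ ^ 2 :=
      Finset.single_le_sum (f := fun g : G => ‖(χ : G → ℂ) g‖ ^ 2) (fun g _ => by positivity)
        (Finset.mem_univ 1)
    rw [hsq, hd, hcod, Complex.norm_natCast] at h1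
    have h3 : d * d ≤ p * d := by
      have h2 : (d : ℝ) * d ≤ ((p * d : ℕ) : ℝ) := by nlinarith
      exact_mod_cast h2
    exact Nat.le_of_mul_le_mul_right h3 hd0
  have hdne : d ≠ p := by
    intro h
    rw [h] at hcod
    have hab : ∀ a b : G, a * b = b * a :=
      (IsPGroup.isMulCommutative_of_card_eq_prime_sq (p := p) (by rw [hcod, sq])).is_comm.comm
    have h1 := abelian_linear hab hχi
    rw [hd] at h1
    have h2 : d = 1 := by exact_mod_cast h1
    have := hp.one_lt
    omega
  have hdp : d < p := lt_of_le_of_ne hdle hdne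
  have hpd : ¬ p ∣ d := Nat.not_dvd_of_pos_of_lt hd0 hdp
  obtain ⟨P⟩ : Nonempty (Sylow p G) := inferInstance
  have hPcard : Nat.card (P : Subgroup G) = p := by
    have h0 := Sylow.card_eq_multiplicity P
    rw [hcod] at h0
    have h1 : (p * d).factorization p = 1 := by
      rw [Nat.factorization_mul hp.ne_zero hd0.ne']
      simp [hp.factorization_self, Nat.factorization_eq_zero_of_not_dvd hpd]
    rw [h1, pow_one] at h0
    exact h0
  have hPidx : (P : Subgroup G).index = d := by
    have h1 := (P : Subgroup G).card_mul_index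
    rw [hPcard, hcod] at h1
    exact Nat.eq_of_mul_eq_mul_left hp.pos h1
  have hsyl1 : Nat.card (Sylow p G) = 1 := by
    have h1 : Nat.card (Sylow p G) ≡ 1 [MOD p] := card_sylow_modEq_one p G
    have h2 := Sylow.card_dvd_index P
    rw [hPidx] at h2
    have h3 : Nat.card (Sylow p G) ≤ d := Nat.le_of_dvd hd0 h2
    have h4 : Nat.card (Sylow p G) < p := lt_of_le_of_lt h3 hdp
    have h5 : Nat.card (Sylow p G) % p = 1 % p := h1
    rw [Nat.mod_eq_of_lt h4, Nat.mod_eq_of_lt hp.one_lt] at h5
    exact h5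
  have hsub : Subsingleton (Sylow p G) := (Nat.card_eq_one_iff_unique.mp hsyl1).1
  have hPn : (P : Subgroup G).Normal := Sylow.normal_of_subsingleton P
  by_cases hd1 : d = 1
  · left
    rw [hd1, mul_one] at hcod
    exact ⟨isCyclic_of_prime_card hcod, hcod⟩
  right
  have hcop : Nat.Coprime (Nat.card (P : Subgroup G)) (P : Subgroup G).index := by
    rw [hPcard, hPidx]
    exact (Nat.Prime.coprime_iff_not_dvd hp).mpr hpd
  obtain ⟨H, hH⟩ := Subgroup.exists_right_complement'_of_coprime hcop
  have hHcard : Nat.card H = d := by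
    have h1 := hH.card_mul_card
    rw [hPcard, hcod] at h1
    exact Nat.eq_of_mul_eq_mul_left hp.pos h1
  have hdisj : ∀ x : G, x ∈ (P : Subgroup G) → x ∈ H → x = 1 := by
    intro x hxP hxH
    exact (Subgroup.disjoint_def.mp hH.disjoint) hxP hxH
  have hprod : ∀ g : G, ∃ u ∈ (P : Subgroup G), ∃ h ∈ H, g = u * h := by
    intro g
    obtain ⟨⟨u, h⟩, huh, -⟩ := Subgroup.IsComplement.existsUnique hH g
    exact ⟨u, u.2, h, h.2, huh.symm⟩
  have hfree : ∀ u ∈ (P : Subgroup G), u ≠ 1 → ∀ h ∈ H, u * h = h * u → h = 1 := by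
    intro u hu hu1 h hh hcomm
    have hou : orderOf u = p := by
      have h1 : orderOf u ∣ p := by
        rw [← hPcard]
        have := orderOf_dvd_natCard (⟨u, hu⟩ : (P : Subgroup G))
        rwa [Subgroup.orderOf_mk] at this
      rcases (Nat.dvd_prime hp).mp h1 with h2 | h2
      · exact absurd (orderOf_eq_one_iff.mp h2) hu1
      · exact h2
    have hoh : orderOf h ∣ d := by
      rw [← hHcard]
      have := orderOf_dvd_natCard (⟨h, hh⟩ : H)
      rwa [Subgroup.orderOf_mk] at this
    have hcop2 : Nat.Coprime (orderOf u) (orderOf h) := by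
      rw [hou]
      exact Nat.Coprime.coprime_dvd_right hoh ((Nat.Prime.coprime_iff_not_dvd hp).mpr hpd)
    have hord : orderOf (u * h) = p * orderOf h := by
      rw [Commute.orderOf_mul_eq_mul_orderOf_of_coprime hcomm hcop2, hou]
    have hB := deg_le_index_abelian hχi (Subgroup.zpowers (u * h))
      (fun a b => by
        obtain ⟨i, hi⟩ := Subgroup.mem_zpowers_iff.mp a.2
        obtain ⟨j, hj⟩ := Subgroup.mem_zpowers_iff.mp b.2
        apply Subtype.ext
        rw [Subgroup.coe_mul, Subgroup.coe_mul, ← hi, ← hj, ← zpow_add, ← zpow_add, add_comm]) d hd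
    have hBcard : Nat.card (Subgroup.zpowers (u * h)) = p * orderOf h := by
      rw [Nat.card_zpowers, hord]
    have h1 := (Subgroup.zpowers (u * h)).card_mul_index
    rw [hBcard, hcod] at h1
    have h2 : orderOf h * (Subgroup.zpowers (u * h)).index = d := by
      have h3 : p * (orderOf h * (Subgroup.zpowers (u * h)).index) = p * d := by
        rw [← mul_assoc]
        exact h1
      exact Nat.eq_of_mul_eq_mul_left hp.pos h3
    have h3 : orderOf h = 1 := by
      by_contra hne
      have h4 : 2 ≤ orderOf h := by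
        have := orderOf_pos h
        omega
      nlinarith
    exact orderOf_eq_one_iff.mp h3
  refine ⟨H, ⟨?_, ?_, ?_⟩, ?_⟩
  · intro h
    rw [h, Subgroup.card_bot] at hHcard
    exact hd1 hHcard.symm
  · intro h
    rw [h, Subgroup.card_top, hcod] at hHcard
    have h1 : p * d = 1 * d := by
      rw [one_mul]
      exact hHcard
    have h2 := Nat.eq_of_mul_eq_mul_right hd0 h1
    have := hp.one_lt
    omega
  · intro g hg
    rw [eq_bot_iff]
    intro y hy
    rw [Subgroup.mem_inf] at hy
    obtain ⟨hy1, hy2⟩ := hy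
    obtain ⟨h', hh', rfl⟩ := (Subgroup.mem_smul_pointwise_iff_exists _ _ _).mp hy2
    rw [MulAut.smul_def, MulAut.conj_apply] at hy1 ⊢
    obtain ⟨u, hu, h₀, hh₀, rfl⟩ := hprod g
    have hu1 : u ≠ 1 := by
      intro h
      apply hg
      rw [h, one_mul]
      exact hh₀
    obtain ⟨h'', hh''⟩ : ∃ h'' : G, h'' = h₀ * h' * h₀⁻¹ := ⟨_, rfl⟩
    have hh''H : h'' ∈ H := by
      rw [hh'']
      exact H.mul_mem (H.mul_mem hh₀ hh') (H.inv_mem hh₀)
    have e1 : u * h₀ * h' * (u * h₀)⁻¹ = u * h'' * u⁻¹ := by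
      rw [hh'']
      group
    rw [e1] at hy1 ⊢
    have h1 : u * h'' * u⁻¹ * h''⁻¹ = 1 := by
      apply hdisj
      · have e2 : u * h'' * u⁻¹ * h''⁻¹ = u * (h'' * u⁻¹ * h''⁻¹) := by group
        rw [e2]
        exact (P : Subgroup G).mul_mem hu (hPn.conj_mem _ ((P : Subgroup G).inv_mem hu) h'')
      · exact H.mul_mem hy1 (H.inv_mem hh''H)
    have h2 : u * h'' = h'' * u := by
      have h3 : u * h'' * u⁻¹ = h'' := mul_inv_eq_one.mp h1
      calc u * h'' = (u * h'' * u⁻¹) * u := by group
        _ = h'' * u := by rw [h3]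
    have h3 := hfree u hu hu1 h'' hh''H h2
    rw [h3]
    simp
  · have hker : Cfsg.frobeniusKernel H = ((P : Subgroup G) : Set G) := by
      ext x
      show (x = 1 ∨ ∀ g : G, x ∉ MulAut.conj g • H) ↔ x ∈ (P : Subgroup G)
      constructor
      · rintro (rfl | hx)
        · exact one_mem _
        · by_contra hxP
          obtain ⟨u, hu, h, hh, rfl⟩ := hprod x
          have hh1 : h ≠ 1 := by
            intro e
            apply hxP
            rw [e, mul_one]
            exact hu
          have hmem : ∀ g : (P : Subgroup G), (g : G) * h * (g : G)⁻¹ * h⁻¹ ∈ (P : Subgroup G) := by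
            intro g
            have e2 : (g : G) * h * (g : G)⁻¹ * h⁻¹ = (g : G) * (h * (g : G)⁻¹ * h⁻¹) := by group
            rw [e2]
            exact (P : Subgroup G).mul_mem g.2 (hPn.conj_mem _ ((P : Subgroup G).inv_mem g.2) h)
          have hinj : Function.Injective (fun g : (P : Subgroup G) =>
              (⟨(g : G) * h * (g : G)⁻¹ * h⁻¹, hmem g⟩ : (P : Subgroup G))) := by
            intro g g' hgg
            have h1 : (g : G) * h * (g : G)⁻¹ * h⁻¹ = (g' : G) * h * (g' : G)⁻¹ * h⁻¹ :=
              congrArg Subtype.val hgg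
            have h3 : (g : G) * h * (g : G)⁻¹ = (g' : G) * h * (g' : G)⁻¹ := mul_right_cancel h1
            have h2 : ((g' : G)⁻¹ * g) * h = h * ((g' : G)⁻¹ * g) := by
              calc ((g' : G)⁻¹ * g) * h = (g' : G)⁻¹ * ((g : G) * h * (g : G)⁻¹) * g := by group
                _ = (g' : G)⁻¹ * ((g' : G) * h * (g' : G)⁻¹) * g := by rw [h3]
                _ = h * ((g' : G)⁻¹ * g) := by group
            by_contra hne
            have h4 : (g' : G)⁻¹ * g ≠ 1 := by
              intro e
              apply hne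
              apply Subtype.ext
              exact (inv_mul_eq_one.mp e).symm
            exact hh1 (hfree _ ((P : Subgroup G).mul_mem ((P : Subgroup G).inv_mem g'.2) g.2) h4
              h hh h2)
          have hsurj := Finite.surjective_of_injective hinj
          obtain ⟨g, hg⟩ := hsurj ⟨u, hu⟩
          have h5 : (g : G) * h * (g : G)⁻¹ * h⁻¹ = u := congrArg Subtype.val hg
          apply hx g
          rw [Subgroup.mem_smul_pointwise_iff_exists]
          refine ⟨h, hh, ?_⟩
          rw [MulAut.smul_def, MulAut.conj_apply, ← h5]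
          group
      · intro hx
        by_cases hx1 : x = 1
        · exact Or.inl hx1
        · right
          intro g hxg
          obtain ⟨h', hh', e⟩ := (Subgroup.mem_smul_pointwise_iff_exists _ _ _).mp hxg
          rw [MulAut.smul_def, MulAut.conj_apply] at e
          have h1 : h' = g⁻¹ * x * g := by
            rw [← e]
            group
          have h2 : h' ∈ (P : Subgroup G) := by
            rw [h1]
            have := hPn.conj_mem x hx g⁻¹
            rwa [inv_inv] at this
          have h3 := hdisj h' h2 hh'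
          apply hx1
          rw [← e, h3]
          group
    rw [hker]
    exact hPcard

end Cfsg.Agent.S4796
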