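import Mathlib
import Cfsg.Statements.S4797
import Cfsg.Agent.Lib.Helper3.CharKer
import Cfsg.Agent.Lib.Helper3.CharMono
import Cfsg.Agent.Lib.Helper3.CharCent
import Cfsg.Agent.Lib.Helper3.BlkOrth4
import Cfsg.Agent.Lib.Helper3.Char
import Cfsg.Agent.Lib.Helper3.CharArith

set_option autoImplicit false
open Cfsg
open Cfsg.Agent.Lib.Helper3.CharKer Cfsg.Agent.Lib.Helper3.CharMono Cfsg.Agent.Lib.Helper3.CharCent Cfsg.Agent.Lib.Helper3.BlkOrth4 Cfsg.Agent.Lib.Helper3.Char Cfsg.Agent.Lib.Helper3.CharArith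
open scoped commutatorElement

namespace Cfsg.Agent.S4797

theorem no_perfect {Q : Type*} [Group Q] [Finite Q] (p d : ℕ) (hp : p.Prime) (hd0 : 0 < d)
    (hdp : d < p) (hcard : Nat.card Q = p * d) (hperf : commutator Q = ⊤) : False := by
  classical
  have _fp : Fact p.Prime := ⟨hp⟩
  obtain ⟨P⟩ : Nonempty (Sylow p Q) := inferInstance
  have hpd : ¬ p ∣ d := fun h => absurd (Nat.le_of_dvd hd0 h) (not_le.mpr hdp)
  have hPcard : Nat.card P = p := by
    rw [Sylow.card_eq_multiplicity, hcard, Nat.factorization_mul hp.ne_zero hd0.ne']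
    simp [hp.factorization_self, Nat.factorization_eq_zero_of_not_dvd hpd]
  have hPidx : (P : Subgroup Q).index = d := by
    have h1 := (P : Subgroup Q).card_mul_index
    rw [hPcard, hcard] at h1
    exact Nat.eq_of_mul_eq_mul_left hp.pos h1
  have hn : Nat.card (Sylow p Q) = 1 := by
    have h1 := card_sylow_modEq_one p Q
    have h2 : Nat.card (Sylow p Q) ∣ d := hPidx ▸ P.card_dvd_index
    have h3 : Nat.card (Sylow p Q) ≤ d := Nat.le_of_dvd hd0 h2
    have h4 : Nat.card (Sylow p Q) % p = 1 % p := h1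
    rw [Nat.mod_eq_of_lt (lt_of_le_of_lt h3 hdp), Nat.mod_eq_of_lt hp.one_lt] at h4
    exact h4
  have hss : Subsingleton (Sylow p Q) := (Nat.card_eq_one_iff_unique.mp hn).1
  have hPn : (P : Subgroup Q).Normal := Sylow.normal_of_subsingleton P
  have hcyc : IsCyclic (P : Subgroup Q) := isCyclic_of_prime_card hPcard
  have hcomm : ∀ a b : Q, Commute (MulAut.conjNormal a : MulAut (P : Subgroup Q))
      (MulAut.conjNormal b) := by
    intro a b
    obtain ⟨m, hm⟩ := MonoidHom.map_cyclic
      ((MulAut.conjNormal a : MulAut (P : Subgroup Q)).toMonoidHom)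
    obtain ⟨n, hn⟩ := MonoidHom.map_cyclic
      ((MulAut.conjNormal b : MulAut (P : Subgroup Q)).toMonoidHom)
    apply MulEquiv.ext
    intro w
    have h1 : ∀ w : (P : Subgroup Q), (MulAut.conjNormal a : MulAut (P : Subgroup Q)) w = w ^ m :=
      hm
    have h2 : ∀ w : (P : Subgroup Q), (MulAut.conjNormal b : MulAut (P : Subgroup Q)) w = w ^ n :=
      hn
    rw [MulAut.mul_apply, MulAut.mul_apply, h1, h2, h2, h1, ← zpow_mul, ← zpow_mul, mul_comm]
  have hcent : Subgroup.centralizer ((P : Subgroup Q) : Set Q) = ⊤ := by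
    rw [eq_top_iff, ← hperf, commutator_def, Subgroup.commutator_le]
    intro a _ b _
    rw [Subgroup.mem_centralizer_iff]
    intro w hw
    have h1 : (MulAut.conjNormal ⁅a, b⁆ : MulAut (P : Subgroup Q)) = 1 := by
      rw [map_commutatorElement, commutatorElement_eq_one_iff_commute]
      exact hcomm a b
    have h2 := congrArg (fun f : MulAut (P : Subgroup Q) => ((f ⟨w, hw⟩ : (P : Subgroup Q)) : Q)) h1
    simp only [MulAut.conjNormal_apply, MulAut.one_apply] at h2
    have h3 : w * ⁅a, b⁆ = ⁅a, b⁆ * w * ⁅a, b⁆⁻¹ * ⁅a, b⁆ := by rw [h2]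
    rw [h3, inv_mul_cancel_right]
  have hP : Subgroup.normalizer ((P : Subgroup Q) : Set Q) ≤
      Subgroup.centralizer ((P : Subgroup Q) : Set Q) := by
    rw [hcent]
    exact le_top
  have hcompl := MonoidHom.ker_transferSylow_isComplement' P hP
  have hker : (MonoidHom.transferSylow P hP).ker = ⊤ := by
    rw [eq_top_iff, ← hperf, commutator_def, Subgroup.commutator_le]
    intro a _ b _
    rw [MonoidHom.mem_ker, map_commutatorElement, commutatorElement_eq_one_iff_commute]
    apply Subtype.ext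
    have h1 : ((MonoidHom.transferSylow P hP b : (P : Subgroup Q)) : Q) ∈
        Subgroup.centralizer ((P : Subgroup Q) : Set Q) := by
      rw [hcent]
      exact Subgroup.mem_top _
    rw [Subgroup.mem_centralizer_iff] at h1
    exact h1 _ (MonoidHom.transferSylow P hP a).2
  rw [hker, Subgroup.isComplement'_top_left] at hcompl
  rw [hcompl, Subgroup.card_bot] at hPcard
  exact hp.ne_one hPcard.symm

theorem exists_prime_index {G : Type*} [Group G] [Finite G] (h : commutator G ≠ ⊤) :
    ∃ H : Subgroup G, H.Normal ∧ H.index.Prime := by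
  classical
  obtain ⟨H, hH, hle⟩ := (eq_top_or_exists_le_coatom (commutator G)).resolve_left h
  have hHn : H.Normal := by
    refine ⟨fun x hx g => ?_⟩
    have h1 : g * x * g⁻¹ = ⁅g, x⁆ * x := by
      rw [commutatorElement_def]
      group
    rw [h1]
    refine H.mul_mem (hle ?_) hx
    rw [commutator_def]
    exact Subgroup.commutator_mem_commutator (Subgroup.mem_top g) (Subgroup.mem_top x)
  refine ⟨H, hHn, ?_⟩
  have hne1 : Nat.card (G ⧸ H) ≠ 1 := by
    rw [← Subgroup.index_eq_card]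
    intro h1
    exact hH.1 (Subgroup.index_eq_one.mp h1)
  obtain ⟨q, hq, hqd⟩ := Nat.exists_prime_and_dvd hne1
  have _fq : Fact q.Prime := ⟨hq⟩
  obtain ⟨x, hx⟩ := exists_prime_orderOf_dvd_card' q hqd
  have hx1 : x ≠ 1 := by
    intro h1
    rw [h1, orderOf_one] at hx
    exact hq.ne_one hx.symm
  have hL : H < (Subgroup.zpowers x).comap (QuotientGroup.mk' H) := by
    refine lt_of_le_of_ne ?_ ?_
    · intro y hy
      rw [Subgroup.mem_comap]
      have h1 : (QuotientGroup.mk' H) y = 1 := (QuotientGroup.eq_one_iff y).mpr hy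
      rw [h1]
      exact Subgroup.one_mem _
    · intro h1
      obtain ⟨y, rfl⟩ := QuotientGroup.mk'_surjective H x
      have h2 : y ∈ (Subgroup.zpowers (QuotientGroup.mk' H y)).comap (QuotientGroup.mk' H) := by
        rw [Subgroup.mem_comap]
        exact Subgroup.mem_zpowers _
      rw [← h1] at h2
      exact hx1 ((QuotientGroup.eq_one_iff y).mpr h2)
  have htop := hH.2 _ hL
  have hz : Subgroup.zpowers x = ⊤ := by
    rw [eq_top_iff]
    intro y _
    obtain ⟨y', rfl⟩ := QuotientGroup.mk'_surjective H y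
    have h2 : y' ∈ (Subgroup.zpowers x).comap (QuotientGroup.mk' H) := by
      rw [htop]
      exact Subgroup.mem_top _
    exact h2
  rw [Subgroup.index_eq_card, ← Subgroup.card_top (G := G ⧸ H), ← hz, Nat.card_zpowers, hx]
  exact hq

theorem perfect_quot {G : Type*} [Group G] (K : Subgroup G) [K.Normal]
    (h : commutator G = ⊤) : commutator (G ⧸ K) = ⊤ := by
  rw [commutator_def, ← Subgroup.map_top_of_surjective (QuotientGroup.mk' K)
    (QuotientGroup.mk'_surjective K), ← Subgroup.map_commutator, ← commutator_def, h]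
theorem result {G : Type*} [Group G] [Finite G] [Nontrivial G] : commutator G = ⊤ ↔ ∀ χ : Cfsg.IrrCharacter G, ¬ ((Nat.card G / (Nat.card {g : G // (χ : G → ℂ) g = (χ : G → ℂ) 1} * Cfsg.charDegree (χ : G → ℂ)))).Prime := by
  classical
  have _fg : Fintype G := Fintype.ofFinite G
  have _fi : Fintype (Cfsg.IrrCharacter G) := Fintype.ofFinite _
  have hker : ∀ χ : Cfsg.IrrCharacter G, ∃ K : Subgroup G, K.Normal ∧
      ∀ g, g ∈ K ↔ (χ : G → ℂ) g = (χ : G → ℂ) 1 :=
    fun χ => Cfsg.Agent.Lib.Helper3.CharMono.exists_ker (isCharacter_of_irr χ.2)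
  choose K hKn hK using hker
  choose d hd0 hd using fun χ : Cfsg.IrrCharacter G => irr_one_pos χ.2
  have hdeg : ∀ χ : Cfsg.IrrCharacter G, Cfsg.charDegree (χ : G → ℂ) = d χ :=
    fun χ => charDegree_eq (hd χ)
  have hcardK : ∀ χ : Cfsg.IrrCharacter G,
      Nat.card {g : G // (χ : G → ℂ) g = (χ : G → ℂ) 1} = Nat.card (K χ) :=
    fun χ => Nat.card_congr (Equiv.subtypeEquivRight (fun g => (hK χ g).symm))
  have hddvd : ∀ χ : Cfsg.IrrCharacter G, d χ ∣ (K χ).index :=
    fun χ => irr_degree_dvd_index χ.2 (K χ) (fun h hh => (hK χ h).mp hh) (d χ) (hd χ)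
  have hcod : ∀ χ : Cfsg.IrrCharacter G,
      Nat.card G / (Nat.card {g : G // (χ : G → ℂ) g = (χ : G → ℂ) 1} *
        Cfsg.charDegree (χ : G → ℂ)) = (K χ).index / d χ := by
    intro χ
    rw [hcardK, hdeg, ← (K χ).card_mul_index, Nat.mul_div_mul_left _ _ Nat.card_pos]
  simp only [hcod]
  obtain ⟨χ₀, hχ₀⟩ : ∃ χ₀ : Cfsg.IrrCharacter G, (χ₀ : G → ℂ) = fun _ => 1 :=
    ⟨⟨_, isIrr_one G⟩, rfl⟩
  have hd1 : d χ₀ = 1 := by
    have h1 : (1 : ℂ) = (d χ₀ : ℂ) := by
      have h2 := hd χ₀
      rw [hχ₀] at h2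
      exact h2
    exact_mod_cast h1.symm
  have hsum : ∀ (N : Subgroup G), N.Normal → N.index = ∑ χ : Cfsg.IrrCharacter G,
      (if (∀ u ∈ N, (χ : G → ℂ) u = (χ : G → ℂ) 1) then d χ ^ 2 else 0) := by
    intro N hN
    have h1 := sum_sq_ker N
    have h2 : ((Nat.card N * N.index : ℕ) : ℂ) = ((Nat.card N * ∑ χ : Cfsg.IrrCharacter G,
        (if (∀ u ∈ N, (χ : G → ℂ) u = (χ : G → ℂ) 1) then d χ ^ 2 else 0) : ℕ) : ℂ) := by
      rw [N.card_mul_index, h1]
      push_cast
      congr 1
      refine Finset.sum_congr rfl (fun χ _ => ?_)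
      split_ifs
      · rw [hd]
      · rfl
    exact Nat.eq_of_mul_eq_mul_left Nat.card_pos (by exact_mod_cast h2)
  have hpair : ∀ (N : Subgroup G), N.Normal → ∀ χ : Cfsg.IrrCharacter G, χ ≠ χ₀ →
      (∀ u ∈ N, (χ : G → ℂ) u = (χ : G → ℂ) 1) → 1 + d χ ^ 2 ≤ N.index := by
    intro N hN χ hne hχN
    rw [hsum N hN]
    have h1 := Finset.sum_le_sum_of_subset (f := fun χ' : Cfsg.IrrCharacter G =>
      if (∀ u ∈ N, (χ' : G → ℂ) u = (χ' : G → ℂ) 1) then d χ' ^ 2 else 0)
      (Finset.subset_univ {χ₀, χ})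
    rw [Finset.sum_pair hne.symm, if_pos hχN, if_pos (fun u _ => by rw [hχ₀]), hd1, one_pow] at h1
    exact h1
  constructor
  · intro hperf χ hprime
    have hidx : (K χ).index = (K χ).index / d χ * d χ := (Nat.div_mul_cancel (hddvd χ)).symm
    have hKn' := hKn χ
    have hne : χ ≠ χ₀ := by
      intro h
      have h1 : K χ = ⊤ := by
        rw [eq_top_iff]
        intro g _
        rw [hK, h, hχ₀]
      rw [h1, Subgroup.index_top] at hprime
      have h2 : 1 / d χ ≤ 1 := Nat.div_le_self 1 (d χ)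
      have h3 := hprime.two_le
      omega
    have hlt : d χ < (K χ).index / d χ := by
      have h1 := hpair (K χ) (hKn χ) χ hne (fun u hu => (hK χ u).mp hu)
      by_contra hcon
      push Not at hcon
      have h2 : (K χ).index / d χ * d χ ≤ d χ * d χ := Nat.mul_le_mul_right _ hcon
      rw [← hidx] at h2
      nlinarith
    exact no_perfect (Q := G ⧸ K χ) ((K χ).index / d χ) (d χ) hprime (hd0 χ) hlt
      (by rw [← Subgroup.index_eq_card]; exact hidx) (perfect_quot (K χ) hperf)
  · intro hall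
    by_contra hnp
    obtain ⟨H, hHn, hHp⟩ := exists_prime_index hnp
    have h1 := hsum H hHn
    have hex : ∃ χ : Cfsg.IrrCharacter G, χ ≠ χ₀ ∧
        (∀ u ∈ H, (χ : G → ℂ) u = (χ : G → ℂ) 1) := by
      by_contra hcon
      push Not at hcon
      have h2 : ∑ χ : Cfsg.IrrCharacter G,
          (if (∀ u ∈ H, (χ : G → ℂ) u = (χ : G → ℂ) 1) then d χ ^ 2 else 0) = 1 := by
        rw [Finset.sum_eq_single χ₀]
        · rw [if_pos (fun u _ => by rw [hχ₀]), hd1, one_pow]
        · intro χ _ hne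
          rw [if_neg]
          intro h3
          obtain ⟨u, hu, hu2⟩ := hcon χ hne
          exact hu2 (h3 u hu)
        · intro h3
          exact absurd (Finset.mem_univ _) h3
      rw [h2] at h1
      exact hHp.ne_one h1
    obtain ⟨χ, hne, hχH⟩ := hex
    have h2 := hpair H hHn χ hne hχH
    have hHK : H ≤ K χ := fun u hu => (hK χ u).mpr (hχH u hu)
    have h3 : (K χ).index ∣ H.index := Subgroup.index_dvd_of_le hHK
    have h4 : d χ ∣ H.index := (hddvd χ).trans h3
    have h5 : d χ = 1 := by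
      rcases (Nat.dvd_prime hHp).mp h4 with h6 | h6
      · exact h6
      · rw [h6] at h2
        nlinarith [hHp.two_le]
    rcases (Nat.dvd_prime hHp).mp h3 with h6 | h6
    · apply hne
      apply Subtype.ext
      rw [hχ₀]
      funext g
      have h7 : g ∈ K χ := by
        rw [Subgroup.index_eq_one.mp h6]
        exact Subgroup.mem_top g
      rw [(hK χ g).mp h7, hd, h5, Nat.cast_one]
    · apply hall χ
      rw [h6, h5, Nat.div_one]
      exact hHp

end Cfsg.Agent.S4797
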