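import Mathlib
import Cfsg.Statements.S4798
import Cfsg.Agent.Lib.Helper3.Char
import Cfsg.Agent.Lib.Helper3.CharCore
import Cfsg.Agent.Lib.Helper3.CharArith
import Cfsg.Agent.Lib.Helper3.CharInd
import Cfsg.Agent.Lib.Helper3.CharInt
import Cfsg.Agent.Lib.Helper3.CharProj
import Cfsg.Agent.Lib.Helper3.CharCliff
import Cfsg.Agent.Lib.Helper3.CharStab
import Cfsg.Agent.Lib.Helper3.CharDeg
import Cfsg.Agent.S0148

set_option autoImplicit false
open Cfsg
open Cfsg.Agent.Lib.Helper3.Char Cfsg.Agent.Lib.Helper3.CharCore Cfsg.Agent.Lib.Helper3.CharArith Cfsg.Agent.Lib.Helper3.CharInd Cfsg.Agent.Lib.Helper3.CharInt Cfsg.Agent.Lib.Helper3.CharProj Cfsg.Agent.Lib.Helper3.CharCliff Cfsg.Agent.Lib.Helper3.CharStab Cfsg.Agent.Lib.Helper3.CharDeg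
open scoped ComplexConjugate

namespace Cfsg.Agent.S4798

universe u

theorem exists_mem_inner_ne {H : Type u} [Group H] [Fintype H] (l : List (H → ℂ)) (Ψ : H → ℂ)
    (h : Cfsg.classInner l.sum Ψ ≠ 0) : ∃ ψ ∈ l, Cfsg.classInner ψ Ψ ≠ 0 := by
  induction l with
  | nil => exact absurd (by rw [List.sum_nil, classInner_zero_left]) h
  | cons a l ih =>
    rw [List.sum_cons, classInner_add_left] at h
    by_cases ha : Cfsg.classInner a Ψ = 0
    · rw [ha, zero_add] at h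
      obtain ⟨ψ, hψ, hne⟩ := ih h
      exact ⟨ψ, List.mem_cons_of_mem _ hψ, hne⟩
    · exact ⟨a, List.mem_cons_self, ha⟩

theorem list_dvd {H : Type u} (l : List (H → ℂ)) (x : H) (D : ℕ)
    (h : ∀ ψ ∈ l, ∃ n : ℕ, ψ x = (n : ℂ) ∧ D ∣ n) : ∃ N : ℕ, l.sum x = (N : ℂ) ∧ D ∣ N := by
  induction l with
  | nil => exact ⟨0, by simp, dvd_zero _⟩
  | cons a l ih =>
    obtain ⟨N, hN, hD⟩ := ih (fun ψ hψ => h ψ (List.mem_cons_of_mem _ hψ))
    obtain ⟨n, hn, hDn⟩ := h a List.mem_cons_self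
    refine ⟨n + N, ?_, dvd_add hDn hD⟩
    rw [List.sum_cons, Pi.add_apply, hN, hn]
    push_cast
    rfl
theorem result {G : Type*} [Group G] [Fintype G] (p : ℕ) [Fact p.Prime] (χ : Cfsg.IrrCharacter G) (hfaith : ∀ g : G, (χ : G → ℂ) g = (χ : G → ℂ) 1 → g = 1) : (∃ k : ℕ, Nat.card G = p ^ k * Cfsg.charDegree (χ : G → ℂ)) ↔ ∃ (P : Sylow p G) (θ : ↥(P : Subgroup G) → ℂ), Cfsg.IsCharacter ↥(P : Subgroup G) θ ∧ (χ : G → ℂ) = Cfsg.indFun (P : Subgroup G) θ := by
  classical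
  have hp : p.Prime := Fact.out
  obtain ⟨b, hbpos, hb⟩ := irr_one_pos χ.2
  have hcd : Cfsg.charDegree (χ : G → ℂ) = b := by
    unfold Cfsg.charDegree
    rw [hb]
    simp
  rw [hcd]
  have hχc := isCharacter_of_irr χ.2
  constructor
  · rintro ⟨k, hk⟩
    obtain ⟨P⟩ : Nonempty (Sylow p G) := inferInstance
    have _fP : Fintype ↥(P : Subgroup G) := Fintype.ofFinite _
    have hPcard := P.card_eq_multiplicity
    have hidx := Subgroup.card_mul_index (P : Subgroup G)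
    have hnd := P.not_dvd_index
    generalize (Nat.card G).factorization p = a at hPcard
    generalize hm : (P : Subgroup G).index = m at hidx hnd
    rw [hPcard, hk] at hidx
    have hka : k ≤ a := by
      have h1 : p ^ k ∣ p ^ a * m := ⟨b, hidx⟩
      have h2 : Nat.Coprime (p ^ k) m :=
        Nat.Coprime.pow_left k ((Nat.Prime.coprime_iff_not_dvd hp).mpr hnd)
      have h3 : p ^ k ∣ p ^ a := h2.dvd_of_dvd_mul_right h1
      exact (Nat.pow_dvd_pow_iff_le_right hp.one_lt).mp h3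
    have hb' : b = p ^ (a - k) * m := by
      have e : p ^ a = p ^ k * p ^ (a - k) := by
        rw [← pow_add]
        congr 1
        omega
      rw [e, mul_assoc] at hidx
      exact (Nat.eq_of_mul_eq_mul_left (pow_pos hp.pos k) hidx).symm
    have hΨ : Cfsg.IsCharacter ↥(P : Subgroup G)
        (fun x : ↥(P : Subgroup G) => (χ : G → ℂ) x) :=
      comp_isCharacter (P : Subgroup G).subtype hχc
    obtain ⟨l, hl, hsum⟩ := isCharacter_decomp hΨ
    have hex : ∃ θ₀ ∈ l, ∃ c : ℕ, c ≤ a - k ∧ θ₀ 1 = ((p ^ c : ℕ) : ℂ) := by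
      by_contra hcon
      have h1 : ∀ ψ ∈ l, ∃ n : ℕ, ψ 1 = (n : ℂ) ∧ p ^ (a - k + 1) ∣ n := by
        intro ψ hψ
        obtain ⟨n, hnpos, hn, hndvd⟩ := irr_degree_dvd_card (hl ψ hψ)
        rw [hPcard] at hndvd
        obtain ⟨c, hc, rfl⟩ := (Nat.dvd_prime_pow hp).mp hndvd
        refine ⟨p ^ c, hn, ?_⟩
        apply pow_dvd_pow
        by_contra hlt
        exact hcon ⟨ψ, hψ, c, by omega, hn⟩
      obtain ⟨N, hN, hD⟩ := list_dvd l 1 (p ^ (a - k + 1)) h1
      have hNb : N = b := by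
        have h2 : l.sum 1 = (b : ℂ) := by
          rw [← hsum]
          exact hb
        rw [hN] at h2
        exact_mod_cast h2
      rw [hNb, hb'] at hD
      apply hnd
      rw [pow_succ] at hD
      exact (Nat.mul_dvd_mul_iff_left (pow_pos hp.pos _)).mp hD
    obtain ⟨θ₀, hθ₀l, c, hc, hθ₀1⟩ := hex
    have hθ₀ := hl θ₀ hθ₀l
    obtain ⟨m', hm', hpos⟩ := inner_list_sum hθ₀ l hl
    have hin : Cfsg.classInner θ₀ (fun x : ↥(P : Subgroup G) => (χ : G → ℂ) x) ≠ 0 := by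
      rw [hsum, hm']
      exact_mod_cast (hpos hθ₀l).ne'
    have hin2 : Cfsg.classInner (Cfsg.indFun (P : Subgroup G) θ₀) (χ : G → ℂ) ≠ 0 := by
      rw [frobenius (P : Subgroup G) θ₀ (χ : G → ℂ) (char_classFun hχc)]
      exact hin
    have hind : Cfsg.IsCharacter G (Cfsg.indFun (P : Subgroup G) θ₀) :=
      Cfsg.Agent.S0148.result _ θ₀ (isCharacter_of_irr hθ₀)
    have hsub := sub_isCharacter hind χ.2 hin2
    obtain ⟨n, hn, _⟩ := char_one hsub
    have hn2 := hn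
    rw [Pi.sub_apply, indFun_one, hm, hθ₀1, hb, hb'] at hn2
    have hn0 : n = 0 := by
      have h1 : ((m * p ^ c : ℕ) : ℤ) - ((p ^ (a - k) * m : ℕ) : ℤ) = (n : ℤ) := by
        exact_mod_cast hn2
      have h2 : m * p ^ c ≤ p ^ (a - k) * m := by
        rw [mul_comm]
        exact Nat.mul_le_mul_right m (Nat.pow_le_pow_right hp.pos hc)
      generalize m * p ^ c = X at h1 h2
      generalize p ^ (a - k) * m = Y at h1 h2
      omega
    rw [hn0] at hn
    have hz := eq_zero_of_deg_zero hsub (by rw [hn]; simp)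
    exact ⟨P, θ₀, isCharacter_of_irr hθ₀, (sub_eq_zero.mp hz).symm⟩
  · rintro ⟨P, θ, hθ, hχθ⟩
    have _fP : Fintype ↥(P : Subgroup G) := Fintype.ofFinite _
    have hPcard := P.card_eq_multiplicity
    generalize (Nat.card G).factorization p = a at hPcard
    obtain ⟨l, hl, hsum⟩ := isCharacter_decomp hθ
    have h1 : Cfsg.classInner θ (fun x : ↥(P : Subgroup G) => (χ : G → ℂ) x) = 1 := by
      rw [← frobenius (P : Subgroup G) θ (χ : G → ℂ) (char_classFun hχc), ← hχθ]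
      exact irr_inner_self χ.2
    have h2 : Cfsg.classInner l.sum (fun x : ↥(P : Subgroup G) => (χ : G → ℂ) x) ≠ 0 := by
      rw [← hsum, h1]
      exact one_ne_zero
    obtain ⟨θ₀, hθ₀l, hne⟩ := exists_mem_inner_ne l _ h2
    have hθ₀ := hl θ₀ hθ₀l
    have hin2 : Cfsg.classInner (Cfsg.indFun (P : Subgroup G) θ₀) (χ : G → ℂ) ≠ 0 := by
      rw [frobenius (P : Subgroup G) θ₀ (χ : G → ℂ) (char_classFun hχc)]
      exact hne
    have hind : Cfsg.IsCharacter G (Cfsg.indFun (P : Subgroup G) θ₀) :=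
      Cfsg.Agent.S0148.result _ θ₀ (isCharacter_of_irr hθ₀)
    have hsub := sub_isCharacter hind χ.2 hin2
    obtain ⟨n, hn, _⟩ := char_one hsub
    obtain ⟨N, hN, hle⟩ := list_degree_le l hl
    obtain ⟨m₀, hm₀, hm₀N⟩ := hle θ₀ hθ₀l
    have hχ1 : (b : ℂ) = ((P : Subgroup G).index : ℂ) * (N : ℂ) := by
      rw [← hb, hχθ, indFun_one, hsum, hN]
    have hbN : b = (P : Subgroup G).index * N := by exact_mod_cast hχ1
    rw [Pi.sub_apply, indFun_one, hm₀, hb, hbN] at hn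
    have hidxpos : 0 < (P : Subgroup G).index :=
      Nat.pos_of_ne_zero Subgroup.index_ne_zero_of_finite
    have hm₀eq : m₀ = N := by
      have h3 : (((P : Subgroup G).index * m₀ : ℕ) : ℤ) -
          (((P : Subgroup G).index * N : ℕ) : ℤ) = (n : ℤ) := by exact_mod_cast hn
      have h4 : (P : Subgroup G).index * N ≤ (P : Subgroup G).index * m₀ := by
        have h5 := Int.natCast_nonneg n
        generalize (P : Subgroup G).index * m₀ = X at h3
        generalize (P : Subgroup G).index * N = Y at h3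
        omega
      have h6 : N ≤ m₀ := Nat.le_of_mul_le_mul_left h4 hidxpos
      omega
    obtain ⟨n₀, hn₀pos, hn₀, hn₀dvd⟩ := irr_degree_dvd_card hθ₀
    have hn₀m : n₀ = m₀ := by
      rw [hm₀] at hn₀
      exact_mod_cast hn₀.symm
    rw [hPcard] at hn₀dvd
    obtain ⟨c, hc, hc'⟩ := (Nat.dvd_prime_pow hp).mp hn₀dvd
    refine ⟨a - c, ?_⟩
    rw [← Subgroup.card_mul_index (P : Subgroup G), hPcard, hbN, ← hm₀eq, ← hn₀m, hc']
    have e : p ^ a = p ^ (a - c) * p ^ c := by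
      rw [← pow_add]
      congr 1
      omega
    rw [e]
    ring

end Cfsg.Agent.S4798
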