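import Mathlib
import Cfsg.Statements.S4801
import Cfsg.Agent.Lib.Helper3.CharCod

set_option autoImplicit false
open Cfsg
open Cfsg.Agent.Lib.Helper3.CharCod

namespace Cfsg.Agent.S4801

theorem result {S : Type*} [Group S] [Finite S] (hS : IsSimpleGroup S) {G : Type*} [Group G] [Finite G] (hsub : ∀ χ : Cfsg.IrrCharacter S, ∃ ψ : Cfsg.IrrCharacter G, (Nat.card S / (Nat.card {g : S // (χ : S → ℂ) g = (χ : S → ℂ) 1} * Cfsg.charDegree (χ : S → ℂ))) = (Nat.card G / (Nat.card {g : G // (ψ : G → ℂ) g = (ψ : G → ℂ) 1} * Cfsg.charDegree (ψ : G → ℂ)))) : Nat.card S ∣ Nat.card G := by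
  classical
  have _fS : Fintype S := Fintype.ofFinite S
  have _fiS : Fintype (Cfsg.IrrCharacter S) := Fintype.ofFinite _
  obtain ⟨KS, dS, hKSn, hKS, hdS0, hdS, hddvdS, -, hcodS⟩ := cod_data S
  obtain ⟨KG, dG, hKGn, hKG, hdG0, hdG, hddvdG, -, hcodG⟩ := cod_data G
  simp only [hcodS, hcodG] at hsub
  have hS0 : Nat.card S ≠ 0 := Nat.card_pos.ne'
  have hG0 : Nat.card G ≠ 0 := Nat.card_pos.ne'
  rw [← Nat.factorization_prime_le_iff_dvd hS0 hG0]
  intro p hp
  by_cases hpS : p ∣ Nat.card S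
  · obtain ⟨χ₀, hχ₀⟩ := exists_triv S
    have hd1 : dS χ₀ = 1 := by
      have h1 : (1 : ℂ) = (dS χ₀ : ℂ) := by
        have h2 := hdS χ₀
        rw [hχ₀] at h2
        exact h2
      exact_mod_cast h1.symm
    have hex : ∃ χ : Cfsg.IrrCharacter S, χ ≠ χ₀ ∧ ¬ p ∣ dS χ := by
      by_contra hcon
      push Not at hcon
      have hT := card_eq_sum_sq S dS hdS
      have h1 : p ∣ ∑ χ ∈ Finset.univ.erase χ₀, dS χ ^ 2 :=
        Finset.dvd_sum (fun χ hχ => (hcon χ (Finset.ne_of_mem_erase hχ)).trans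
          (dvd_pow_self _ two_ne_zero))
      rw [← Finset.add_sum_erase _ _ (Finset.mem_univ χ₀), hd1, one_pow] at hT
      rw [hT] at hpS
      have h2 := (Nat.dvd_add_left h1).mp hpS
      exact hp.one_lt.ne' (Nat.dvd_one.mp h2)
    obtain ⟨χ, hne, hpd⟩ := hex
    have hKbot : KS χ = ⊥ := by
      rcases hS.eq_bot_or_eq_top_of_normal (KS χ) (hKSn χ) with h | h
      · exact h
      · exfalso
        apply hne
        have h5 : dS χ = 1 := by
          have h6 := hddvdS χ
          rw [h, Subgroup.index_top] at h6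
          exact Nat.dvd_one.mp h6
        apply Subtype.ext
        rw [hχ₀]
        funext g
        have h7 : g ∈ KS χ := by
          rw [h]
          exact Subgroup.mem_top g
        rw [(hKS χ g).mp h7, hdS, h5, Nat.cast_one]
    obtain ⟨ψ, hψ⟩ := hsub χ
    have hdvd : dS χ ∣ Nat.card S := by
      have h1 := hddvdS χ
      rwa [hKbot, Subgroup.index_bot] at h1
    rw [hKbot, Subgroup.index_bot] at hψ
    have hq0 : Nat.card S / dS χ ≠ 0 := by
      intro h0
      have h1 := Nat.div_mul_cancel hdvd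
      rw [h0, zero_mul] at h1
      exact hS0 h1.symm
    have h1 : (Nat.card S).factorization p = (Nat.card S / dS χ).factorization p := by
      conv_lhs => rw [← Nat.div_mul_cancel hdvd]
      rw [Nat.factorization_mul hq0 (hdS0 χ).ne']
      simp [Nat.factorization_eq_zero_of_not_dvd hpd]
    rw [h1, hψ]
    have h2 : (KG ψ).index / dG ψ ∣ Nat.card G :=
      (Nat.div_dvd_of_dvd (hddvdG ψ)).trans (Subgroup.index_dvd_card _)
    rw [hψ] at hq0
    exact (Nat.factorization_le_iff_dvd hq0 hG0).mpr h2 p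
  · rw [Nat.factorization_eq_zero_of_not_dvd hpS]
    exact Nat.zero_le _

end Cfsg.Agent.S4801
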