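import Mathlib
import Cfsg.Statements.S4802
import Cfsg.Agent.Lib.Helper3.Char
import Cfsg.Agent.Lib.Helper3.CharTable
import Cfsg.Agent.Lib.Helper3.CharSep
import Cfsg.Agent.Lib.Helper3.BlkOrth2

set_option autoImplicit false
open Cfsg
open Cfsg.Agent.Lib.Helper3.Char Cfsg.Agent.Lib.Helper3.CharTable Cfsg.Agent.Lib.Helper3.CharSep Cfsg.Agent.Lib.Helper3.BlkOrth2
open scoped ComplexConjugate

namespace Cfsg.Agent.S4802

theorem result {G : Type*} [Group G] [Finite G] (N M : Subgroup G) [N.Normal] [M.Normal] (hNM : N < M) (g : G) (hgM : g ∈ M) (hgN : g ∉ N) : {h : G | IsConj g h} = (M : Set G) \ (N : Set G) ↔ ((∀ χ : Cfsg.IrrCharacter G, (∀ x ∈ N, (χ : G → ℂ) x = (χ : G → ℂ) 1) → ∀ x ∈ M, x ∉ N → ∀ y ∈ M, y ∉ N → (χ : G → ℂ) x = (χ : G → ℂ) y) ∧ (∀ χ : Cfsg.IrrCharacter G, (∃ x ∈ N, (χ : G → ℂ) x ≠ (χ : G → ℂ) 1) → (χ : G → ℂ) g = 0)) := by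
  classical
  have _fg : Fintype G := Fintype.ofFinite G
  have _fi : Fintype (Cfsg.IrrCharacter G) := Fintype.ofFinite _
  have hNn : N.Normal := inferInstance
  have hMn : M.Normal := inferInstance
  have hcl : ∀ (χ : Cfsg.IrrCharacter G) (u v : G), IsConj u v → (χ : G → ℂ) u = (χ : G → ℂ) v :=
    fun χ u v h => char_eq_of_isConj u v h χ
  have hsub : {h : G | IsConj g h} ⊆ (M : Set G) \ (N : Set G) := by
    intro h hh
    obtain ⟨c, rfl⟩ := isConj_iff.mp hh
    refine ⟨hMn.conj_mem g hgM c, fun hn => hgN ?_⟩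
    have h1 := hNn.conj_mem _ hn c⁻¹
    have e : c⁻¹ * (c * g * c⁻¹) * c⁻¹⁻¹ = g := by group
    rw [e] at h1
    exact h1
  constructor
  · intro hK
    have hmem : ∀ x ∈ M, x ∉ N → IsConj g x := by
      intro x hx hxN
      have h1 : x ∈ (M : Set G) \ (N : Set G) := ⟨hx, hxN⟩
      rw [← hK] at h1
      exact h1
    constructor
    · intro χ _ x hx hxN y hy hyN
      rw [← hcl χ g x (hmem x hx hxN), ← hcl χ g y (hmem y hy hyN)]
    · rintro χ ⟨x₀, hx₀, hne⟩
      have hχ1 := irr_one_ne_zero χ.2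
      have hf : Cfsg.IsClassFunction G (fun u : G => if u ∈ N then (1 : ℂ) else 0) := by
        intro u k
        have e : k * u * k⁻¹ ∈ N ↔ u ∈ N := by
          constructor
          · intro h1
            have h2 := hNn.conj_mem _ h1 k⁻¹
            have e : k⁻¹ * (k * u * k⁻¹) * k⁻¹⁻¹ = u := by group
            rw [e] at h2
            exact h2
          · intro h1
            exact hNn.conj_mem u h1 k
        show (if k * u * k⁻¹ ∈ N then (1 : ℂ) else 0) = if u ∈ N then (1 : ℂ) else 0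
        simp only [e]
      have hS : ∑ u : G, (if u ∈ N then (1 : ℂ) else 0) * (χ : G → ℂ) u = 0 := by
        have h1 := conv_char _ hf (χ : G → ℂ) χ.2 x₀
        have h2 : ∑ u : G, (if u ∈ N then (1 : ℂ) else 0) * (χ : G → ℂ) (u * x₀) =
            ∑ u : G, (if u ∈ N then (1 : ℂ) else 0) * (χ : G → ℂ) u := by
          rw [← Equiv.sum_comp (Equiv.mulRight x₀)
            (fun u : G => (if u ∈ N then (1 : ℂ) else 0) * (χ : G → ℂ) u)]
          refine Finset.sum_congr rfl (fun u _ => ?_)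
          have e : (Equiv.mulRight x₀) u ∈ N ↔ u ∈ N := by
            show u * x₀ ∈ N ↔ u ∈ N
            exact N.mul_mem_cancel_right hx₀
          simp only [e]
          rfl
        rw [h2] at h1
        have h3 : (∑ u : G, (if u ∈ N then (1 : ℂ) else 0) * (χ : G → ℂ) u) *
            ((χ : G → ℂ) 1 - (χ : G → ℂ) x₀) = 0 := by
          have h4 : (∑ u : G, (if u ∈ N then (1 : ℂ) else 0) * (χ : G → ℂ) u) * (χ : G → ℂ) 1 =
              (∑ u : G, (if u ∈ N then (1 : ℂ) else 0) * (χ : G → ℂ) u) * (χ : G → ℂ) x₀ := by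
            nth_rewrite 1 [h1]
            field_simp
          linear_combination h4
        rcases mul_eq_zero.mp h3 with h5 | h5
        · exact h5
        · exact absurd (sub_eq_zero.mp h5).symm hne
      have h1 := conv_char _ hf (χ : G → ℂ) χ.2 g
      rw [hS, zero_div, zero_mul] at h1
      have h2 : ∑ u : G, (if u ∈ N then (1 : ℂ) else 0) * (χ : G → ℂ) (u * g) =
          (∑ u : G, (if u ∈ N then (1 : ℂ) else 0)) * (χ : G → ℂ) g := by
        rw [Finset.sum_mul]
        refine Finset.sum_congr rfl (fun u _ => ?_)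
        split_ifs with hu
        · have h3 : IsConj g (u * g) := hmem (u * g) (M.mul_mem (hNM.le hu) hgM)
            (fun h4 => hgN ((N.mul_mem_cancel_left hu).mp h4))
          rw [hcl χ g (u * g) h3]
        · rw [zero_mul, zero_mul]
      rw [h2] at h1
      rcases mul_eq_zero.mp h1 with h3 | h3
      · exfalso
        rw [Finset.sum_boole] at h3
        have h4 : (Finset.univ.filter (fun u : G => u ∈ N)).card ≠ 0 := by
          apply Finset.card_ne_zero.mpr
          exact ⟨1, by simp [N.one_mem]⟩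
        exact h4 (by exact_mod_cast h3)
      · exact h3
  · rintro ⟨h1, h2⟩
    apply Set.Subset.antisymm hsub
    rintro h ⟨hhM, hhN⟩
    have key : ∀ χ : Cfsg.IrrCharacter G,
        (χ : G → ℂ) g * (starRingEnd ℂ) ((χ : G → ℂ) h) =
        (χ : G → ℂ) g * (starRingEnd ℂ) ((χ : G → ℂ) g) := by
      intro χ
      by_cases hker : ∀ x ∈ N, (χ : G → ℂ) x = (χ : G → ℂ) 1
      · rw [h1 χ hker h hhM hhN g hgM hgN]
      · push Not at hker
        rw [h2 χ hker, zero_mul, zero_mul]
    have h3 := column_orth g h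
    have h4 := column_orth g g
    rw [Finset.sum_congr rfl (fun χ _ => key χ), h4] at h3
    have h5 : Nat.card {y : G // y * g * y⁻¹ = g} = Nat.card {y : G // y * g * y⁻¹ = h} := by
      exact_mod_cast h3
    have h6 : 0 < Nat.card {y : G // y * g * y⁻¹ = g} := by
      have : Nonempty {y : G // y * g * y⁻¹ = g} := ⟨⟨1, by simp⟩⟩
      exact Nat.card_pos
    rw [h5] at h6
    obtain ⟨⟨y, hy⟩⟩ := (Nat.card_pos_iff.mp h6).1
    exact isConj_iff.mpr ⟨y, hy⟩

end Cfsg.Agent.S4802
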