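import Mathlib
import Cfsg.Statements.S4808
import Cfsg.Agent.Lib.Helper3.Char
import Cfsg.Agent.Lib.Helper3.CharCent
import Cfsg.Agent.Lib.Helper3.CharKer
import Cfsg.Agent.Lib.Helper3.BlkOrth4
import Cfsg.Agent.Lib.Helper3.CharMono

set_option autoImplicit false
open Cfsg
open Cfsg.Agent.Lib.Helper3.Char Cfsg.Agent.Lib.Helper3.CharCent Cfsg.Agent.Lib.Helper3.CharKer Cfsg.Agent.Lib.Helper3.BlkOrth4 Cfsg.Agent.Lib.Helper3.CharMono

namespace Cfsg.Agent.S4808

theorem result {G : Type*} [Group G] [Finite G] (p : ℕ) (hp : p.Prime) : p ∣ Nat.card G ↔ ∃ χ : Cfsg.IrrCharacter G, p ∣ (Nat.card G / (Nat.card {g : G // (χ : G → ℂ) g = (χ : G → ℂ) 1} * Cfsg.charDegree (χ : G → ℂ))) := by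
  classical
  have _fg : Fintype G := Fintype.ofFinite G
  have _fi : Fintype (Cfsg.IrrCharacter G) := Fintype.ofFinite _
  have _fp : Fact p.Prime := ⟨hp⟩
  have hker : ∀ χ : Cfsg.IrrCharacter G, ∃ K : Subgroup G, K.Normal ∧
      ∀ g, g ∈ K ↔ (χ : G → ℂ) g = (χ : G → ℂ) 1 :=
    fun χ => Cfsg.Agent.Lib.Helper3.CharMono.exists_ker (isCharacter_of_irr χ.2)
  choose K hKn hK using hker
  choose d hd0 hd using fun χ : Cfsg.IrrCharacter G => irr_one_pos χ.2
  have hdeg : ∀ χ : Cfsg.IrrCharacter G, Cfsg.charDegree (χ : G → ℂ) = d χ :=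
    fun χ => charDegree_eq (hd χ)
  have hcardK : ∀ χ : Cfsg.IrrCharacter G,
      Nat.card {g : G // (χ : G → ℂ) g = (χ : G → ℂ) 1} = Nat.card (K χ) :=
    fun χ => Nat.card_congr (Equiv.subtypeEquivRight (fun g => (hK χ g).symm))
  have hddvd : ∀ χ : Cfsg.IrrCharacter G, d χ ∣ (K χ).index :=
    fun χ => irr_degree_dvd_index χ.2 (K χ) (fun h hh => (hK χ h).mp hh) (d χ) (hd χ)
  have hcod : ∀ χ : Cfsg.IrrCharacter G,
      Nat.card G / (Nat.card {g : G // (χ : G → ℂ) g = (χ : G → ℂ) 1} *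
        Cfsg.charDegree (χ : G → ℂ)) = (K χ).index / d χ := by
    intro χ
    rw [hcardK, hdeg, ← (K χ).card_mul_index, Nat.mul_div_mul_left _ _ Nat.card_pos]
  simp only [hcod]
  constructor
  · intro hpG
    by_contra hcon
    push Not at hcon
    obtain ⟨N, hN⟩ : ∃ N : Subgroup G, N = ⨅ χ : {χ : Cfsg.IrrCharacter G // ¬ p ∣ d χ}, K χ.1 :=
      ⟨_, rfl⟩
    have hNn : N.Normal := by
      rw [hN]
      exact Subgroup.normal_iInf_normal (fun χ => hKn χ.1)
    obtain ⟨P⟩ : Nonempty (Sylow p G) := inferInstance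
    have hPK : ∀ χ : Cfsg.IrrCharacter G, ¬ p ∣ d χ → (P : Subgroup G) ≤ K χ := by
      intro χ hχ
      have hKn' := hKn χ
      have hidx : ¬ p ∣ (K χ).index := by
        intro h1
        rw [← Nat.div_mul_cancel (hddvd χ)] at h1
        rcases hp.dvd_mul.mp h1 with h2 | h2
        · exact hcon χ h2
        · exact hχ h2
      have hmapP : IsPGroup p ((P : Subgroup G).map (QuotientGroup.mk' (K χ))) :=
        P.isPGroup'.map _
      obtain ⟨m, hm⟩ := IsPGroup.exists_card_eq hmapP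
      have hdvd : Nat.card ((P : Subgroup G).map (QuotientGroup.mk' (K χ))) ∣ (K χ).index := by
        rw [Subgroup.index_eq_card]
        exact Subgroup.card_subgroup_dvd_card _
      have hm0 : m = 0 := by
        by_contra hm0
        apply hidx
        rw [hm] at hdvd
        exact (dvd_pow_self p hm0).trans hdvd
      rw [hm0, pow_zero] at hm
      have hbot : (P : Subgroup G).map (QuotientGroup.mk' (K χ)) = ⊥ :=
        Subgroup.eq_bot_of_card_eq _ hm
      have h3 := (Subgroup.map_eq_bot_iff _).mp hbot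
      rw [QuotientGroup.ker_mk'] at h3
      exact h3
    have hPN : (P : Subgroup G) ≤ N := by
      rw [hN]
      exact le_iInf (fun χ => hPK χ.1 χ.2)
    have hNidx : ¬ p ∣ N.index := by
      intro h1
      exact P.not_dvd_index (h1.trans (Subgroup.index_dvd_of_le hPN))
    have hiff : ∀ χ : Cfsg.IrrCharacter G,
        (∀ u ∈ N, (χ : G → ℂ) u = (χ : G → ℂ) 1) ↔ ¬ p ∣ d χ := by
      intro χ
      constructor
      · intro h1 h2
        exact hNidx (h2.trans (irr_degree_dvd_index χ.2 N h1 (d χ) (hd χ)))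
      · intro h1 u hu
        have h2 : N ≤ K χ := by
          rw [hN]
          exact iInf_le (fun χ : {χ : Cfsg.IrrCharacter G // ¬ p ∣ d χ} => K χ.1) ⟨χ, h1⟩
        exact (hK χ u).mp (h2 hu)
    have h1 := sum_sq_ker N
    have h2 := sum_sq_ker (⊥ : Subgroup G)
    have hA : Nat.card G = Nat.card N *
        ∑ χ : Cfsg.IrrCharacter G, (if ¬ p ∣ d χ then d χ ^ 2 else 0) := by
      have e : (Nat.card G : ℂ) = ((Nat.card N *
          ∑ χ : Cfsg.IrrCharacter G, (if ¬ p ∣ d χ then d χ ^ 2 else 0) : ℕ) : ℂ) := by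
        rw [h1]
        push_cast
        congr 1
        refine Finset.sum_congr rfl (fun χ _ => ?_)
        by_cases h3 : p ∣ d χ
        · rw [if_neg (fun h => ((hiff χ).mp h) h3), if_neg (not_not.mpr h3)]
        · rw [if_pos ((hiff χ).mpr h3), if_pos h3, hd]
      exact_mod_cast e
    have hT : Nat.card G = ∑ χ : Cfsg.IrrCharacter G, d χ ^ 2 := by
      have e : (Nat.card G : ℂ) = ((∑ χ : Cfsg.IrrCharacter G, d χ ^ 2 : ℕ) : ℂ) := by
        rw [h2, Subgroup.card_bot]
        push_cast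
        rw [one_mul]
        refine Finset.sum_congr rfl (fun χ _ => ?_)
        rw [if_pos, hd]
        intro u hu
        rw [Subgroup.mem_bot] at hu
        rw [hu]
      exact_mod_cast e
    have hAidx : ∑ χ : Cfsg.IrrCharacter G, (if ¬ p ∣ d χ then d χ ^ 2 else 0) = N.index := by
      have h3 := N.card_mul_index
      rw [hA] at h3
      exact (Nat.eq_of_mul_eq_mul_left Nat.card_pos h3).symm
    have hsplit : ∑ χ : Cfsg.IrrCharacter G, d χ ^ 2 =
        ∑ χ : Cfsg.IrrCharacter G, (if ¬ p ∣ d χ then d χ ^ 2 else 0) +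
        ∑ χ : Cfsg.IrrCharacter G, (if p ∣ d χ then d χ ^ 2 else 0) := by
      rw [← Finset.sum_add_distrib]
      refine Finset.sum_congr rfl (fun χ _ => ?_)
      by_cases h3 : p ∣ d χ
      · rw [if_neg (not_not.mpr h3), if_pos h3, zero_add]
      · rw [if_pos h3, if_neg h3, add_zero]
    have hdiv : p ∣ ∑ χ : Cfsg.IrrCharacter G, (if p ∣ d χ then d χ ^ 2 else 0) := by
      apply Finset.dvd_sum
      intro χ _
      split_ifs with h3
      · exact h3.trans (dvd_pow_self _ two_ne_zero)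
      · exact dvd_zero p
    rw [hT, hsplit, hAidx] at hpG
    exact hNidx ((Nat.dvd_add_left hdiv).mp hpG)
  · rintro ⟨χ, hχ⟩
    have h1 : (K χ).index / d χ ∣ (K χ).index := Nat.div_dvd_of_dvd (hddvd χ)
    exact (hχ.trans h1).trans (Subgroup.index_dvd_card _)

end Cfsg.Agent.S4808
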