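import Mathlib
import Cfsg.Statements.S4836
import Cfsg.Agent.Lib.Helper3.Char
import Cfsg.Agent.Lib.Helper3.CharCore
import Cfsg.Agent.Lib.Helper3.CharArith
import Cfsg.Agent.Lib.Helper3.CharTable
import Cfsg.Agent.Lib.Helper3.CharInt

set_option autoImplicit false
open Cfsg
open Cfsg.Agent.Lib.Helper3.Char Cfsg.Agent.Lib.Helper3.CharCore Cfsg.Agent.Lib.Helper3.CharArith Cfsg.Agent.Lib.Helper3.CharTable Cfsg.Agent.Lib.Helper3.CharInt
open scoped ComplexConjugate

namespace Cfsg.Agent.S4836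

universe u

theorem core {G : Type u} [Group G] [Fintype G] (hG : 2 < Nat.card G) (χ : Cfsg.IrrCharacter G)
    (hχ : Nat.card {C : ConjClasses G // ∃ g ∈ C.carrier, (χ : G → ℂ) g ≠ 0} = 2) :
    ∃ c : G, c ≠ 1 ∧ (∀ g : G, (χ : G → ℂ) g ≠ 0 ↔ (g = 1 ∨ IsConj c g)) ∧
      (χ : G → ℂ) c ≠ (χ : G → ℂ) 1 ∧
      (∀ ψ : Cfsg.IrrCharacter G, ψ ≠ χ → (ψ : G → ℂ) c = (ψ : G → ℂ) 1) ∧
      (∀ g : G, (∀ ψ : Cfsg.IrrCharacter G, ψ ≠ χ → (ψ : G → ℂ) g = (ψ : G → ℂ) 1) →
        (g = 1 ∨ IsConj c g)) := by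
  classical
  have _fi : Fintype (Cfsg.IrrCharacter G) := Fintype.ofFinite _
  have hχc := isCharacter_of_irr χ.2
  have hcf := char_classFun hχc
  have hGc : (Nat.card G : ℂ) ≠ 0 := by exact_mod_cast Nat.card_pos.ne'
  obtain ⟨d, hdpos, hd⟩ := irr_one_pos χ.2
  have h1ne : (χ : G → ℂ) 1 ≠ 0 := irr_one_ne_zero χ.2
  have hmem : ∀ g : G, (χ : G → ℂ) g ≠ 0 ↔
      ∃ g' ∈ (ConjClasses.mk g).carrier, (χ : G → ℂ) g' ≠ 0 := by
    intro g
    constructor
    · intro h
      exact ⟨g, ConjClasses.mem_carrier_mk, h⟩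
    · rintro ⟨g', hg', h⟩
      rw [ConjClasses.mem_carrier_iff_mk_eq, ConjClasses.mk_eq_mk_iff_isConj, isConj_iff] at hg'
      obtain ⟨y, hy⟩ := hg'
      rw [← hy, hcf g' y]
      exact h
  obtain ⟨Z, hZ1, hZuniq⟩ := (Nat.card_eq_two_iff'
    (⟨ConjClasses.mk 1, (hmem 1).mp h1ne⟩ :
      {C : ConjClasses G // ∃ g ∈ C.carrier, (χ : G → ℂ) g ≠ 0})).mp hχ
  obtain ⟨c, hc⟩ := ConjClasses.mk_surjective Z.1
  have hc1 : c ≠ 1 := by
    intro h
    apply hZ1
    apply Subtype.ext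
    rw [← hc, h]
  have hχc0 : (χ : G → ℂ) c ≠ 0 := by
    rw [hmem c, hc]
    exact Z.2
  have hsupp : ∀ g : G, (χ : G → ℂ) g ≠ 0 ↔ (g = 1 ∨ IsConj c g) := by
    intro g
    constructor
    · intro h
      by_cases hW : (⟨ConjClasses.mk g, (hmem g).mp h⟩ :
          {C : ConjClasses G // ∃ g ∈ C.carrier, (χ : G → ℂ) g ≠ 0}) =
          ⟨ConjClasses.mk 1, (hmem 1).mp h1ne⟩
      · left
        have h2 : ConjClasses.mk g = ConjClasses.mk 1 := congrArg Subtype.val hW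
        rw [ConjClasses.mk_eq_mk_iff_isConj] at h2
        exact isConj_one_left.mp h2
      · right
        have h2 : ConjClasses.mk g = Z.1 := congrArg Subtype.val (hZuniq _ hW)
        rw [← hc, ConjClasses.mk_eq_mk_iff_isConj] at h2
        exact h2.symm
    · rintro (h | h)
      · rw [h]
        exact h1ne
      · rw [isConj_iff] at h
        obtain ⟨y, hy⟩ := h
        rw [← hy, hcf c y]
        exact hχc0
  obtain ⟨k, hk⟩ : ∃ k : ℕ, k = (Finset.univ.filter (fun x : G => IsConj c x)).card := ⟨_, rfl⟩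
  have hkidx : k = (Subgroup.centralizer ({c} : Set G)).index := by
    rw [hk]
    exact card_conj_class c
  have hkpos : 0 < k := by
    rw [hk]
    apply Finset.card_pos.mpr
    exact ⟨c, Finset.mem_filter.mpr ⟨Finset.mem_univ _, IsConj.refl c⟩⟩
  obtain ⟨a, ha⟩ : ∃ a : ℂ, a = (χ : G → ℂ) c := ⟨_, rfl⟩
  have hsumF : ∀ F : ℂ → ℂ, F 0 = 0 →
      ∑ g : G, F ((χ : G → ℂ) g) = F (d : ℂ) + (k : ℂ) * F a := by
    intro F hF0
    have h1 : ∀ g : G, F ((χ : G → ℂ) g) =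
        (if g = 1 then F (d : ℂ) else 0) + (if IsConj c g then F a else 0) := by
      intro g
      by_cases hg1 : g = 1
      · have hnc : ¬ IsConj c g := by
          rw [hg1]
          intro h
          exact hc1 (isConj_one_left.mp h)
        rw [if_pos hg1, if_neg hnc, add_zero, hg1, hd]
      · by_cases hgc : IsConj c g
        · rw [if_neg hg1, if_pos hgc, zero_add]
          rw [isConj_iff] at hgc
          obtain ⟨y, hy⟩ := hgc
          rw [← hy, hcf c y, ha]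
        · rw [if_neg hg1, if_neg hgc, add_zero]
          have h0 : (χ : G → ℂ) g = 0 := by
            by_contra h
            rcases (hsupp g).mp h with h' | h'
            · exact hg1 h'
            · exact hgc h'
          rw [h0, hF0]
    have e1 : ∑ g : G, (if g = 1 then F (d : ℂ) else 0) = F (d : ℂ) := by simp
    have e2 : ∑ g : G, (if IsConj c g then F a else 0) = (k : ℂ) * F a := by
      rw [← Finset.sum_filter, Finset.sum_const, nsmul_eq_mul, hk]
    rw [Finset.sum_congr rfl (fun g _ => h1 g), Finset.sum_add_distrib, e1, e2]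
  have hne1 : (χ : G → ℂ) ≠ fun _ => 1 := by
    intro htriv
    have h1 := hsumF (fun z => if z = 0 then 0 else 1) (if_pos rfl)
    have h2 : ∑ g : G, (fun z : ℂ => if z = 0 then (0:ℂ) else 1) ((χ : G → ℂ) g) =
        (Nat.card G : ℂ) := by
      rw [htriv]
      simp [Nat.card_eq_fintype_card]
    have hd0 : (d : ℂ) ≠ 0 := by exact_mod_cast hdpos.ne'
    have ha0 : a ≠ 0 := by
      rw [ha]
      exact hχc0
    rw [h2] at h1
    simp only [if_neg hd0, if_neg ha0, mul_one] at h1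
    have h3 : Nat.card G = 1 + k := by exact_mod_cast h1
    have h4 : k ∣ Nat.card G := by
      rw [hkidx]
      exact Subgroup.index_dvd_card _
    rw [h3] at h4
    have h5 : k ∣ 1 := (Nat.dvd_add_left (dvd_refl k)).mp h4
    have h6 : k = 1 := Nat.dvd_one.mp h5
    omega
  have hKc : (k : ℂ) ≠ 0 := by exact_mod_cast hkpos.ne'
  have hDc : (d : ℂ) ≠ 0 := by exact_mod_cast hdpos.ne'
  have r1 : (d : ℂ) + (k : ℂ) * a = 0 := by
    have h1 := irr_inner_ne χ.2 (isIrr_one G) hne1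
    unfold Cfsg.classInner at h1
    have h2 : ∑ g : G, (χ : G → ℂ) g * conj ((fun _ : G => (1 : ℂ)) g) = 0 := by
      rcases mul_eq_zero.mp h1 with h | h
      · exact absurd (inv_eq_zero.mp h) hGc
      · exact h
    have h3 := hsumF (fun z => z) rfl
    rw [← h3, ← h2]
    apply Finset.sum_congr rfl
    intro g _
    simp
  have hareal : conj a = a := by
    have h1 : a = -(d : ℂ) / (k : ℂ) := by
      field_simp
      linear_combination r1
    rw [h1, map_div₀, map_neg, Complex.conj_natCast, Complex.conj_natCast]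
  have r2 : (d : ℂ) * (d : ℂ) + (k : ℂ) * (a * a) = (Nat.card G : ℂ) := by
    have h1 := irr_inner_self χ.2
    unfold Cfsg.classInner at h1
    have h2 : ∑ g : G, (χ : G → ℂ) g * conj ((χ : G → ℂ) g) = (Nat.card G : ℂ) := by
      have h3 := (inv_mul_eq_iff_eq_mul₀ hGc).mp h1
      rw [mul_one] at h3
      exact h3
    have h3 := hsumF (fun z => z * conj z) (by simp)
    beta_reduce at h3
    rw [h2, Complex.conj_natCast, hareal] at h3
    exact h3.symm
  obtain ⟨z, hz⟩ : ∃ z : ℕ, z = Nat.card (Subgroup.centralizer ({c} : Set G)) := ⟨_, rfl⟩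
  have r3 : (z : ℂ) * (k : ℂ) = (Nat.card G : ℂ) := by
    have h1 := Subgroup.card_mul_index (Subgroup.centralizer ({c} : Set G))
    rw [← hz, ← hkidx] at h1
    exact_mod_cast h1
  have occ : ∑ ψ : Cfsg.IrrCharacter G, (ψ : G → ℂ) c * conj ((ψ : G → ℂ) c) = (z : ℂ) := by
    rw [column_orth c c, card_conj_fiber c c (IsConj.refl c), hz]
  have o1c : ∑ ψ : Cfsg.IrrCharacter G, (ψ : G → ℂ) 1 * conj ((ψ : G → ℂ) c) = 0 := by
    rw [column_orth 1 c]
    have hemp : IsEmpty {y : G // y * 1 * y⁻¹ = c} := by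
      constructor
      rintro ⟨y, hy⟩
      apply hc1
      rw [← hy]
      group
    rw [Nat.card_of_isEmpty, Nat.cast_zero]
  have oc1 : ∑ ψ : Cfsg.IrrCharacter G, (ψ : G → ℂ) c * conj ((ψ : G → ℂ) 1) = 0 := by
    rw [column_orth c 1]
    have hemp : IsEmpty {y : G // y * c * y⁻¹ = 1} := by
      constructor
      rintro ⟨y, hy⟩
      apply hc1
      have h1 : c = y⁻¹ * (y * c * y⁻¹) * y := by group
      rw [h1, hy]
      group
    rw [Nat.card_of_isEmpty, Nat.cast_zero]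
  have o11 : ∑ ψ : Cfsg.IrrCharacter G, (ψ : G → ℂ) 1 * conj ((ψ : G → ℂ) 1) =
      (Nat.card G : ℂ) := by
    rw [column_orth 1 1]
    congr 1
    exact Nat.card_congr (Equiv.subtypeUnivEquiv (fun y => by group))
  have hT : ∑ ψ : Cfsg.IrrCharacter G, ((ψ : G → ℂ) 1 - (ψ : G → ℂ) c) *
      conj ((ψ : G → ℂ) 1 - (ψ : G → ℂ) c) = (Nat.card G : ℂ) + (z : ℂ) := by
    have h1 : ∀ ψ : Cfsg.IrrCharacter G, ((ψ : G → ℂ) 1 - (ψ : G → ℂ) c) *
        conj ((ψ : G → ℂ) 1 - (ψ : G → ℂ) c) =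
        ((ψ : G → ℂ) 1 * conj ((ψ : G → ℂ) 1) - (ψ : G → ℂ) 1 * conj ((ψ : G → ℂ) c)) -
        ((ψ : G → ℂ) c * conj ((ψ : G → ℂ) 1) - (ψ : G → ℂ) c * conj ((ψ : G → ℂ) c)) := by
      intro ψ
      rw [map_sub]
      ring
    rw [Finset.sum_congr rfl (fun ψ _ => h1 ψ), Finset.sum_sub_distrib, Finset.sum_sub_distrib,
      Finset.sum_sub_distrib, o11, o1c, oc1, occ]
    ring
  have hχterm : ((χ : G → ℂ) 1 - (χ : G → ℂ) c) * conj ((χ : G → ℂ) 1 - (χ : G → ℂ) c) =
      (Nat.card G : ℂ) + (z : ℂ) := by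
    rw [hd, ← ha, map_sub, Complex.conj_natCast, hareal]
    have h1 : (k : ℂ) * (((d : ℂ) - a) * ((d : ℂ) - a)) =
        (k : ℂ) * ((Nat.card G : ℂ) + (z : ℂ)) := by
      linear_combination (-((d : ℂ) + (k : ℂ) * a)) * r1 + ((k : ℂ) + 1) * r2 - r3
    exact mul_left_cancel₀ hKc h1
  have hrest : ∑ ψ ∈ Finset.univ.erase χ, ((ψ : G → ℂ) 1 - (ψ : G → ℂ) c) *
      conj ((ψ : G → ℂ) 1 - (ψ : G → ℂ) c) = 0 := by
    have h1 := Finset.add_sum_erase Finset.univ (fun ψ : Cfsg.IrrCharacter G =>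
      ((ψ : G → ℂ) 1 - (ψ : G → ℂ) c) * conj ((ψ : G → ℂ) 1 - (ψ : G → ℂ) c))
      (Finset.mem_univ χ)
    rw [hT] at h1
    rw [hχterm] at h1
    exact add_left_cancel (h1.trans (add_zero _).symm)
  have hker : ∀ ψ : Cfsg.IrrCharacter G, ψ ≠ χ → (ψ : G → ℂ) c = (ψ : G → ℂ) 1 := by
    intro ψ hψ
    have h1 : ∑ ψ ∈ Finset.univ.erase χ,
        Complex.normSq ((ψ : G → ℂ) 1 - (ψ : G → ℂ) c) = 0 := by
      have h2 : ((∑ ψ ∈ Finset.univ.erase χ,
          Complex.normSq ((ψ : G → ℂ) 1 - (ψ : G → ℂ) c) : ℝ) : ℂ) = 0 := by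
        rw [Complex.ofReal_sum, ← hrest]
        apply Finset.sum_congr rfl
        intro ψ _
        rw [Complex.mul_conj]
      exact_mod_cast h2
    have h2 := (Finset.sum_eq_zero_iff_of_nonneg (fun ψ _ => Complex.normSq_nonneg _)).mp h1 ψ
      (Finset.mem_erase.mpr ⟨hψ, Finset.mem_univ _⟩)
    have h3 := Complex.normSq_eq_zero.mp h2
    exact (sub_eq_zero.mp h3).symm
  refine ⟨c, hc1, hsupp, ?_, hker, ?_⟩
  · intro h
    rw [← ha, hd] at h
    rw [h] at r1
    have h1 : (d : ℂ) * (1 + (k : ℂ)) = 0 := by linear_combination r1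
    rcases mul_eq_zero.mp h1 with h2 | h2
    · exact hDc h2
    · have h3 : ((1 + k : ℕ) : ℂ) = 0 := by
        push_cast
        exact h2
      have h4 : 1 + k = 0 := by exact_mod_cast h3
      omega
  · intro g hg
    by_cases hg1 : g = 1
    · exact Or.inl hg1
    · apply (hsupp g).mp
      intro hχg
      have og1 : ∑ ψ : Cfsg.IrrCharacter G, (ψ : G → ℂ) g * conj ((ψ : G → ℂ) 1) = 0 := by
        rw [column_orth g 1]
        have hemp : IsEmpty {y : G // y * g * y⁻¹ = 1} := by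
          constructor
          rintro ⟨y, hy⟩
          apply hg1
          have h1 : g = y⁻¹ * (y * g * y⁻¹) * y := by group
          rw [h1, hy]
          group
        rw [Nat.card_of_isEmpty, Nat.cast_zero]
      have h1 := Finset.add_sum_erase Finset.univ (fun ψ : Cfsg.IrrCharacter G =>
        (ψ : G → ℂ) g * conj ((ψ : G → ℂ) 1)) (Finset.mem_univ χ)
      have h2 := Finset.add_sum_erase Finset.univ (fun ψ : Cfsg.IrrCharacter G =>
        (ψ : G → ℂ) 1 * conj ((ψ : G → ℂ) 1)) (Finset.mem_univ χ)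
      have h3 : ∑ ψ ∈ Finset.univ.erase χ, (ψ : G → ℂ) g * conj ((ψ : G → ℂ) 1) =
          ∑ ψ ∈ Finset.univ.erase χ, (ψ : G → ℂ) 1 * conj ((ψ : G → ℂ) 1) := by
        apply Finset.sum_congr rfl
        intro ψ hψ
        rw [hg ψ (Finset.mem_erase.mp hψ).1]
      rw [og1] at h1
      rw [o11] at h2
      rw [hχg, zero_mul, zero_add, h3] at h1
      rw [h1, add_zero, hd, Complex.conj_natCast] at h2
      rw [← h2] at r2
      have h4 : (k : ℂ) * (a * a) = 0 := by linear_combination r2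
      have h5 : a = 0 := by
        rcases mul_eq_zero.mp h4 with h | h
        · exact absurd h hKc
        · exact mul_self_eq_zero.mp h
      rw [h5, mul_zero, add_zero] at r1
      exact hDc r1

theorem result {G : Type*} [Group G] [Finite G] (hG : 2 < Nat.card G) (χ : Cfsg.IrrCharacter G) (hχ : Nat.card {C : ConjClasses G // ∃ g ∈ C.carrier, (χ : G → ℂ) g ≠ 0} = 2) :
    (∀ g : G, (χ : G → ℂ) g = (χ : G → ℂ) 1 → g = 1) ∧
      (∀ ψ : Cfsg.IrrCharacter G, (∀ g : G, (ψ : G → ℂ) g = (ψ : G → ℂ) 1 → g = 1) → ψ = χ) ∧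
      (∀ ψ : Cfsg.IrrCharacter G, Nat.card {C : ConjClasses G // ∃ g ∈ C.carrier, (ψ : G → ℂ) g ≠ 0} = 2 → ψ = χ) := by
  classical
  have _fg : Fintype G := Fintype.ofFinite G
  have hfaith : ∀ (χ : Cfsg.IrrCharacter G),
      Nat.card {C : ConjClasses G // ∃ g ∈ C.carrier, (χ : G → ℂ) g ≠ 0} = 2 →
      ∀ g : G, (χ : G → ℂ) g = (χ : G → ℂ) 1 → g = 1 := by
    intro χ hχ g hg
    obtain ⟨c, hc1, hsupp, hca, _, _⟩ := core hG χ hχ
    have h1 : (χ : G → ℂ) g ≠ 0 := by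
      rw [hg]
      exact irr_one_ne_zero χ.2
    rcases (hsupp g).mp h1 with h | h
    · exact h
    · exfalso
      apply hca
      rw [isConj_iff] at h
      obtain ⟨y, hy⟩ := h
      rw [← hg, ← hy]
      exact (char_classFun (isCharacter_of_irr χ.2) c y).symm
  obtain ⟨c, hc1, hsupp, hca, hker, _⟩ := core hG χ hχ
  have h2 : ∀ ψ : Cfsg.IrrCharacter G,
      (∀ g : G, (ψ : G → ℂ) g = (ψ : G → ℂ) 1 → g = 1) → ψ = χ := by
    intro ψ hψ
    by_contra hne
    exact hc1 (hψ c (hker ψ hne))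
  exact ⟨hfaith χ hχ, h2, fun ψ hψ => h2 ψ (hfaith ψ hψ)⟩

end Cfsg.Agent.S4836
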