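import Mathlib
import Cfsg.Statements.S4835
import Cfsg.Agent.Lib.Helper3.Char
import Cfsg.Agent.Lib.Helper3.CharCore
import Cfsg.Agent.Lib.Helper3.CharArith
import Cfsg.Agent.Lib.Helper3.CharTable
import Cfsg.Agent.Lib.Helper3.CharInt
import Cfsg.Agent.Lib.Helper3.CharKer
import Cfsg.Agent.Lib.Helper3.CharMono
import Cfsg.Agent.S4836

set_option autoImplicit false
open Cfsg
open Cfsg.Agent.Lib.Helper3.Char Cfsg.Agent.Lib.Helper3.CharCore Cfsg.Agent.Lib.Helper3.CharArith Cfsg.Agent.Lib.Helper3.CharTable Cfsg.Agent.Lib.Helper3.CharInt Cfsg.Agent.Lib.Helper3.CharKer Cfsg.Agent.Lib.Helper3.CharMono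
open scoped ComplexConjugate

namespace Cfsg.Agent.S4835

theorem result {G : Type*} [Group G] [Finite G] (hG : 2 < Nat.card G) (χ : Cfsg.IrrCharacter G) (hχ : Nat.card {C : ConjClasses G // ∃ g ∈ C.carrier, (χ : G → ℂ) g ≠ 0} = 2) :
    ∃ N : Subgroup G, N.Normal ∧ N ≠ ⊥ ∧ (∀ K : Subgroup G, K.Normal → K ≠ ⊥ → N ≤ K) ∧
      (∃ p : ℕ, p.Prime ∧ Cfsg.IsElementaryAbelian p N) ∧
      (∀ g : G, (χ : G → ℂ) g ≠ 0 ↔ g ∈ N) ∧
      (∀ x ∈ N, ∀ y ∈ N, x ≠ 1 → y ≠ 1 → ∃ g : G, g * x * g⁻¹ = y) := by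
  classical
  have _fg : Fintype G := Fintype.ofFinite G
  obtain ⟨c, hc1, hsupp, hca, hker, hback⟩ := Cfsg.Agent.S4836.core hG χ hχ
  have hχc := isCharacter_of_irr χ.2
  have hcf := char_classFun hχc
  have hfaith : ∀ g : G, (χ : G → ℂ) g = (χ : G → ℂ) 1 → g = 1 :=
    (Cfsg.Agent.S4836.result hG χ hχ).1
  choose Kψ hKn hKmem using (fun ψ : {ψ : Cfsg.IrrCharacter G // ψ ≠ χ} =>
    exists_ker (isCharacter_of_irr ψ.1.2))
  obtain ⟨N, hNdef⟩ : ∃ N : Subgroup G, N = ⨅ ψ : {ψ : Cfsg.IrrCharacter G // ψ ≠ χ}, Kψ ψ :=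
    ⟨_, rfl⟩
  have hNmem : ∀ g : G, g ∈ N ↔ (g = 1 ∨ IsConj c g) := by
    intro g
    constructor
    · intro hg
      apply hback
      intro ψ hψ
      rw [hNdef] at hg
      have h1 := (Subgroup.mem_iInf.mp hg) ⟨ψ, hψ⟩
      exact (hKmem ⟨ψ, hψ⟩ g).mp h1
    · rintro (h | h)
      · rw [h]
        exact N.one_mem
      · rw [hNdef]
        apply Subgroup.mem_iInf.mpr
        intro ψ
        rw [hKmem ψ g]
        rw [isConj_iff] at h
        obtain ⟨y, hy⟩ := h
        rw [← hy, char_classFun (isCharacter_of_irr ψ.1.2) c y]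
        exact hker ψ.1 ψ.2
  have hNn : N.Normal := by
    constructor
    intro n hn g
    rw [hNdef] at hn ⊢
    apply Subgroup.mem_iInf.mpr
    intro ψ
    exact (hKn ψ).conj_mem n (Subgroup.mem_iInf.mp hn ψ) g
  have hcN : c ∈ N := (hNmem c).mpr (Or.inr (IsConj.refl c))
  have hNbot : N ≠ ⊥ := by
    intro h
    rw [h, Subgroup.mem_bot] at hcN
    exact hc1 hcN
  have hmin : ∀ K : Subgroup G, K.Normal → K ≠ ⊥ → N ≤ K := by
    intro K hKn' hK
    have hcK : c ∈ K := by
      by_contra hcK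
      have hvan : ∀ u ∈ K, u ≠ 1 → (χ : G → ℂ) u = 0 := by
        intro u hu hu1
        by_contra h
        rcases (hsupp u).mp h with h' | h'
        · exact hu1 h'
        · apply hcK
          rw [isConj_comm, isConj_iff] at h'
          obtain ⟨y, hy⟩ := h'
          rw [← hy]
          exact hKn'.conj_mem u hu y
      have hs := sum_normal K χ
      have hsum : ∑ u : G, (if u ∈ K then (χ : G → ℂ) u else 0) = (χ : G → ℂ) 1 := by
        rw [Finset.sum_eq_single (1 : G)]
        · rw [if_pos K.one_mem]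
        · intro u _ hu1
          by_cases hu : u ∈ K
          · rw [if_pos hu, hvan u hu hu1]
          · rw [if_neg hu]
        · intro h
          exact absurd (Finset.mem_univ _) h
      rw [hsum] at hs
      by_cases hker' : ∀ u ∈ K, (χ : G → ℂ) u = (χ : G → ℂ) 1
      · apply hK
        rw [Subgroup.eq_bot_iff_forall]
        intro u hu
        exact hfaith u (hker' u hu)
      · rw [if_neg hker'] at hs
        exact irr_one_ne_zero χ.2 hs
    intro g hg
    rcases (hNmem g).mp hg with h | h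
    · rw [h]
      exact K.one_mem
    · rw [isConj_iff] at h
      obtain ⟨y, hy⟩ := h
      rw [← hy]
      exact hKn'.conj_mem c hcK y
  have hord : ∀ g ∈ N, g ≠ 1 → orderOf g = orderOf c := by
    intro g hg hg1
    rcases (hNmem g).mp hg with h | h
    · exact absurd h hg1
    · rw [isConj_iff] at h
      obtain ⟨y, hy⟩ := h
      rw [← hy]
      exact MulEquiv.orderOf_eq (MulAut.conj y) c
  have hn1 : orderOf c ≠ 1 := by
    intro h
    exact hc1 (orderOf_eq_one_iff.mp h)
  obtain ⟨p, hp, hpn⟩ := Nat.exists_prime_and_dvd hn1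
  have hn0 : orderOf c ≠ 0 := (orderOf_pos c).ne'
  have hxo : orderOf (c ^ (orderOf c / p)) = p := orderOf_pow_orderOf_div hn0 hpn
  have hx1 : c ^ (orderOf c / p) ≠ 1 := by
    intro h
    rw [h, orderOf_one] at hxo
    exact hp.one_lt.ne hxo
  have hcp : orderOf c = p := by
    rw [← hord _ (N.pow_mem hcN _) hx1]
    exact hxo
  have hpow : ∀ g ∈ N, g ^ p = 1 := by
    intro g hg
    by_cases hg1 : g = 1
    · rw [hg1, one_pow]
    · rw [← hcp, ← hord g hg hg1]
      exact pow_orderOf_eq_one g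
  have _hNnt : Nontrivial N := by
    refine ⟨⟨⟨c, hcN⟩, 1, ?_⟩⟩
    intro h
    exact hc1 (congrArg Subtype.val h)
  have hNp : IsPGroup p N := by
    intro g
    refine ⟨1, ?_⟩
    apply Subtype.ext
    rw [pow_one, Subgroup.coe_pow, Subgroup.coe_one]
    exact hpow g g.2
  have _hpf : Fact p.Prime := ⟨hp⟩
  have hcent : Nontrivial (Subgroup.center N) := hNp.center_nontrivial
  obtain ⟨z, hz1⟩ := exists_ne (1 : Subgroup.center N)
  have hzN : ((z : N) : G) ∈ N := (z : N).2
  have hzG1 : ((z : N) : G) ≠ 1 := by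
    intro h
    apply hz1
    apply Subtype.ext
    apply Subtype.ext
    exact h
  have hzc : ∀ b ∈ N, ((z : N) : G) * b = b * ((z : N) : G) := by
    intro b hb
    have h1 := Subgroup.mem_center_iff.mp z.2 ⟨b, hb⟩
    exact (congrArg Subtype.val h1).symm
  have hcomm : ∀ a ∈ N, ∀ b ∈ N, a * b = b * a := by
    intro a ha b hb
    by_cases ha1 : a = 1
    · rw [ha1, one_mul, mul_one]
    · have hca' : IsConj c a := by
        rcases (hNmem a).mp ha with h | h
        · exact absurd h ha1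
        · exact h
      have hcz : IsConj c ((z : N) : G) := by
        rcases (hNmem _).mp hzN with h | h
        · exact absurd h hzG1
        · exact h
      have hza : IsConj ((z : N) : G) a := hcz.symm.trans hca'
      rw [isConj_iff] at hza
      obtain ⟨y, hy⟩ := hza
      have hb' : y⁻¹ * b * y ∈ N := by
        have h1 := hNn.conj_mem b hb y⁻¹
        rw [inv_inv] at h1
        exact h1
      have h2 := hzc _ hb'
      rw [← hy]
      calc y * ((z : N) : G) * y⁻¹ * b = y * (((z : N) : G) * (y⁻¹ * b * y)) * y⁻¹ := by group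
        _ = y * ((y⁻¹ * b * y) * ((z : N) : G)) * y⁻¹ := by rw [h2]
        _ = b * (y * ((z : N) : G) * y⁻¹) := by group
  refine ⟨N, hNn, hNbot, hmin, ⟨p, hp, ⟨⟨⟨?_⟩⟩, hpow⟩⟩, ?_, ?_⟩
  · intro a b
    apply Subtype.ext
    exact hcomm a a.2 b b.2
  · intro g
    exact (hsupp g).trans (hNmem g).symm
  · intro x hx y hy hx1 hy1
    have h1 : IsConj c x := by
      rcases (hNmem x).mp hx with h | h
      · exact absurd h hx1
      · exact h
    have h2 : IsConj c y := by
      rcases (hNmem y).mp hy with h | h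
      · exact absurd h hy1
      · exact h
    exact isConj_iff.mp (h1.symm.trans h2)

end Cfsg.Agent.S4835
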