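import Mathlib
import Cfsg.Statements.S4870
import Cfsg.Agent.Lib.Helper3.Char
import Cfsg.Agent.Lib.Helper3.CharCore
import Cfsg.Agent.Lib.Helper3.CharArith
import Cfsg.Agent.Lib.Helper3.CharInd
import Cfsg.Agent.Lib.Helper3.CharLinear
import Cfsg.Agent.Lib.Helper3.CharProj
import Cfsg.Agent.Lib.Helper3.CharCliff
import Cfsg.Agent.Lib.Helper3.CharNormal
import Cfsg.Agent.S0148

set_option autoImplicit false
open Cfsg
open Cfsg.Agent.Lib.Helper3.Char Cfsg.Agent.Lib.Helper3.CharCore Cfsg.Agent.Lib.Helper3.CharArith Cfsg.Agent.Lib.Helper3.CharInd Cfsg.Agent.Lib.Helper3.CharLinear Cfsg.Agent.Lib.Helper3.CharProj Cfsg.Agent.Lib.Helper3.CharCliff Cfsg.Agent.Lib.Helper3.CharNormal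
open scoped ComplexConjugate
open scoped commutatorElement

namespace Cfsg.Agent.S4870

universe u

theorem lin_norm {G : Type u} [Group G] [Finite G] (lam : G →* ℂˣ) (g : G) :
    ((lam g : ℂˣ) : ℂ) * conj ((lam g : ℂˣ) : ℂ) = 1 := by
  have h1 : ((lam g : ℂˣ) : ℂ) ^ orderOf g = 1 := by
    rw [← Units.val_pow_eq_pow_val, ← map_pow, pow_orderOf_eq_one, map_one, Units.val_one]
  have h2 : ‖((lam g : ℂˣ) : ℂ)‖ = 1 :=
    Complex.norm_eq_one_of_pow_eq_one h1 (orderOf_pos g).ne'
  rw [Complex.mul_conj, Complex.normSq_eq_norm_sq, h2]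
  simp

theorem lin_mul_irr {Γ : Type u} [Group Γ] [Fintype Γ] (lam : Γ →* ℂˣ) {ψ : Γ → ℂ}
    (hψ : Cfsg.IsIrrCharacter Γ ψ) :
    Cfsg.IsIrrCharacter Γ (fun t => ((lam t : ℂˣ) : ℂ) * ψ t) := by
  apply isIrr_of_inner_self
  · exact isCharacter_mul (isCharacter_of_irr (isIrr_of_hom lam)) (isCharacter_of_irr hψ)
  · have h := irr_inner_self hψ
    unfold Cfsg.classInner at h ⊢
    rw [← h]
    congr 1
    apply Finset.sum_congr rfl
    intro t _
    rw [map_mul]
    have := lin_norm lam t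
    linear_combination (ψ t * conj (ψ t)) * this

theorem ext_lin_trivial {Γ : Type u} [Group Γ] [Fintype Γ] (M : Subgroup Γ) [Fintype M]
    {ψ : Γ → ℂ} (hψ : Cfsg.IsIrrCharacter Γ ψ)
    (hres : Cfsg.IsIrrCharacter M (fun m : M => ψ m))
    (β : Γ →* ℂˣ) (hβM : ∀ m ∈ M, β m = 1)
    (h : ∀ t, ((β t : ℂˣ) : ℂ) * ψ t = ψ t) : β = 1 := by
  classical
  let K : Subgroup Γ := β.ker
  have _fk : Fintype K := Fintype.ofFinite K
  have hMK : M ≤ K := fun m hm => MonoidHom.mem_ker.mpr (hβM m hm)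
  have hvan : ∀ t, t ∉ K → ψ t = 0 := by
    intro t ht
    have h1 := h t
    have h2 : (((β t : ℂˣ) : ℂ) - 1) * ψ t = 0 := by linear_combination h1
    rcases mul_eq_zero.mp h2 with h3 | h3
    · exfalso
      apply ht
      rw [MonoidHom.mem_ker]
      apply Units.ext
      rw [Units.val_one]
      linear_combination h3
    · exact h3
  have hψc := isCharacter_of_irr hψ
  have hc : Cfsg.IsCharacter K (fun k : K => ψ k) := comp_isCharacter K.subtype hψc
  have hc1 : (fun k : K => ψ k) 1 ≠ 0 := irr_one_ne_zero hψ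
  obtain ⟨θ, hθ, hne⟩ := exists_constituent hc hc1
  have hne' : Cfsg.classInner (fun k : K => ψ k) θ ≠ 0 := by
    rw [classInner_conj_symm]
    intro h0
    apply hne
    simpa using h0
  have hΔ := sub_isCharacter hc hθ hne'
  have hθc := isCharacter_of_irr hθ
  have hθM : Cfsg.IsCharacter M (θ ∘ (Subgroup.inclusion hMK)) := comp_isCharacter _ hθc
  have hΔM : Cfsg.IsCharacter M (((fun k : K => ψ k) - θ) ∘ (Subgroup.inclusion hMK)) :=
    comp_isCharacter _ hΔ
  have hsum : (fun m : M => ψ m) = θ ∘ (Subgroup.inclusion hMK) +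
      ((fun k : K => ψ k) - θ) ∘ (Subgroup.inclusion hMK) := by
    funext m
    simp only [Pi.add_apply, Function.comp_apply, Pi.sub_apply]
    have : ((Subgroup.inclusion hMK m : K) : Γ) = (m : Γ) := rfl
    rw [this]
    ring
  have h1 := irr_inner_self hres
  obtain ⟨a, ha⟩ := inner_char_nat hθM hθM
  obtain ⟨b, hb⟩ := inner_char_nat hθM hΔM
  obtain ⟨c, hc'⟩ := inner_char_nat hΔM hθM
  obtain ⟨d, hd⟩ := inner_char_nat hΔM hΔM
  have h2 : (a : ℂ) + b + c + d = 1 := by
    rw [← ha, ← hb, ← hc', ← hd, ← h1]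
    conv_rhs => rw [hsum]
    rw [classInner_add_left, classInner_add_right, classInner_add_right]
    ring
  have h3 : a + b + c + d = 1 := by exact_mod_cast h2
  have ha0 : a ≠ 0 := by
    intro ha0
    rw [ha0, Nat.cast_zero] at ha
    have h4 := inner_self_eq_zero ha
    have h5 := congrFun h4 1
    simp only [Function.comp_apply, map_one, Pi.zero_apply] at h5
    exact irr_one_ne_zero hθ h5
  have hd0 : d = 0 := by omega
  rw [hd0, Nat.cast_zero] at hd
  have h6 := inner_self_eq_zero hd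
  have h7 : ((fun k : K => ψ k) - θ) 1 = 0 := by
    have h5 := congrFun h6 1
    simpa using h5
  have h8 := eq_zero_of_deg_zero hΔ h7
  have hKirr : Cfsg.IsIrrCharacter K (fun k : K => ψ k) := by
    have h9 : (fun k : K => ψ k) = θ := sub_eq_zero.mp h8
    rw [h9]
    exact hθ
  have hn1 := irr_inner_self hψ
  have hn2 := irr_inner_self hKirr
  unfold Cfsg.classInner at hn1 hn2
  rw [sum_subgroup K (fun t => ψ t * conj (ψ t)) (fun t ht => by rw [hvan t ht, zero_mul])] at hn1
  have hcK : (Nat.card K : ℂ) ≠ 0 := by exact_mod_cast Nat.card_pos.ne'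
  have hcG : (Nat.card Γ : ℂ) ≠ 0 := by exact_mod_cast Nat.card_pos.ne'
  have hcard : Nat.card K = Nat.card Γ := by
    have h10 : (Nat.card K : ℂ) = (Nat.card Γ : ℂ) :=
      ((inv_mul_eq_one₀ hcK).mp hn2).trans ((inv_mul_eq_one₀ hcG).mp hn1).symm
    exact_mod_cast h10
  have hKtop : K = ⊤ := Subgroup.eq_top_of_card_eq K hcard
  ext t
  have h11 : t ∈ K := by
    rw [hKtop]
    trivial
  have h12 := MonoidHom.mem_ker.mp h11
  rw [h12]
  rfl

theorem result {G : Type*} [Group G] [Finite G] (N : Subgroup G) (hN : N.Normal) (hN1 : N ≠ ⊥) (hmin : ∀ M : Subgroup G, M.Normal → M ≤ N → M = ⊥ ∨ M = N) (hna : ¬ IsMulCommutative ↥N) (φ : Cfsg.IrrCharacter ↥N) (I : Subgroup G) (hI : ∀ g : G, g ∈ I ↔ ∀ n n' : ↥N, (n' : G) = g * (n : G) * g⁻¹ → (φ : ↥N → ℂ) n' = (φ : ↥N → ℂ) n) (hNI : N ≤ I) (hext : ∃ ψ : Cfsg.IrrCharacter ↥I, ∀ n : ↥N, (ψ : ↥I → ℂ) (Subgroup.inclusion hNI n) = (φ : ↥N → ℂ) n) : Nat.card {χ : Cfsg.IrrCharacter G // Cfsg.charDegree (χ : G → ℂ) = 1} ≤ I.index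 * Nat.card {χ : Cfsg.IrrCharacter G // Cfsg.charDegree (χ : G → ℂ) = Cfsg.charDegree (φ : ↥N → ℂ) * I.index} := by
  classical
  have _fg : Fintype G := Fintype.ofFinite G
  have _fN : Fintype N := Fintype.ofFinite N
  have _fI : Fintype I := Fintype.ofFinite I
  have _fi : Fintype (Cfsg.IrrCharacter G) := Fintype.ofFinite _
  obtain ⟨ψ, hψ⟩ := hext
  have hT : ∀ g : G, g ∈ I ↔ ∀ n : N,
      (φ : N → ℂ) ⟨g * n * g⁻¹, hN.conj_mem n n.2 g⟩ = (φ : N → ℂ) n := by
    intro g
    rw [hI g]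
    constructor
    · intro h n
      exact h n ⟨g * n * g⁻¹, hN.conj_mem n n.2 g⟩ rfl
    · intro h n n' hn'
      have h0 : n' = ⟨g * n * g⁻¹, hN.conj_mem n n.2 g⟩ := Subtype.ext hn'
      rw [h0]
      exact h n
  have hperf : ∀ lam : G →* ℂˣ, ∀ n ∈ N, lam n = 1 := by
    intro lam n hn
    have _hNn : N.Normal := hN
    have hMn : (⁅N, N⁆ : Subgroup G).Normal := inferInstance
    have hMle : (⁅N, N⁆ : Subgroup G) ≤ N := Subgroup.commutator_le_right N N
    rcases hmin _ hMn hMle with h0 | h0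
    · exfalso
      apply hna
      refine ⟨⟨fun a b => ?_⟩⟩
      have h1 : ⁅(a : G), (b : G)⁆ ∈ (⁅N, N⁆ : Subgroup G) :=
        Subgroup.commutator_mem_commutator a.2 b.2
      rw [h0, Subgroup.mem_bot, commutatorElement_eq_one_iff_mul_comm] at h1
      exact Subtype.ext h1
    · have h1 : (⁅N, N⁆ : Subgroup G) ≤ lam.ker := by
        rw [Subgroup.commutator_le]
        intro a _ b _
        rw [MonoidHom.mem_ker, map_commutatorElement]
        exact commutatorElement_eq_one_iff_commute.mpr (Commute.all _ _)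
      rw [h0] at h1
      exact MonoidHom.mem_ker.mp (h1 hn)
  let ψl : (G →* ℂˣ) → (I → ℂ) := fun lam t => ((lam (t : G) : ℂˣ) : ℂ) * (ψ : I → ℂ) t
  have hψl : ∀ lam, Cfsg.IsIrrCharacter I (ψl lam) :=
    fun lam => lin_mul_irr (lam.comp I.subtype) ψ.2
  have hresl : ∀ lam, (fun n : N => ψl lam ⟨n, hNI n.2⟩) = (φ : N → ℂ) := by
    intro lam
    funext n
    show ((lam ((⟨n, hNI n.2⟩ : I) : G) : ℂˣ) : ℂ) * (ψ : I → ℂ) ⟨n, hNI n.2⟩ = _
    have h1 : lam (n : G) = 1 := hperf lam n n.2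
    have h2 := hψ n
    have h3 : (Subgroup.inclusion hNI n : I) = ⟨n, hNI n.2⟩ := rfl
    rw [h3] at h2
    rw [h2]
    simp [h1]
  have hφ1 := irr_inner_self φ.2
  have hind : ∀ lam, Cfsg.IsIrrCharacter G (Cfsg.indFun I (ψl lam)) ∧
      Cfsg.classInner (fun n : N => Cfsg.indFun I (ψl lam) n) (φ : N → ℂ) = 1 := by
    intro lam
    have hch := Cfsg.Agent.S0148.result I (ψl lam) (isCharacter_of_irr (hψl lam))
    have hdeg : Cfsg.indFun I (ψl lam) 1 ≠ 0 := by
      rw [indFun_one]
      apply mul_ne_zero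
      · exact_mod_cast (Subgroup.index_ne_zero_of_finite (H := I))
      · exact irr_one_ne_zero (hψl lam)
    obtain ⟨Χ, hΧ, hne⟩ := exists_constituent hch hdeg
    have hne' : Cfsg.classInner (Cfsg.indFun I (ψl lam)) Χ ≠ 0 := by
      rw [classInner_conj_symm]
      intro h0
      apply hne
      simpa using h0
    have hcon : Cfsg.classInner (fun n : N => ψl lam ⟨n, hNI n.2⟩) (φ : N → ℂ) ≠ 0 := by
      rw [hresl lam, hφ1]
      exact one_ne_zero
    obtain ⟨e1, e2⟩ := cliff_core N hN (φ : N → ℂ) φ.2 I hT hNI (ψl lam) (hψl lam) hcon Χ hΧ hne'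
    rw [e1]
    refine ⟨hΧ, ?_⟩
    rw [e2, hresl lam, hφ1]
  let F : (G →* ℂˣ) → Cfsg.IrrCharacter G := fun lam => ⟨Cfsg.indFun I (ψl lam), (hind lam).1⟩
  obtain ⟨b, hbpos, hb⟩ := irr_one_pos φ.2
  have hcdφ : Cfsg.charDegree (φ : N → ℂ) = b := by
    unfold Cfsg.charDegree
    rw [hb]
    simp
  have hFdeg : ∀ lam, Cfsg.charDegree (F lam : G → ℂ) = Cfsg.charDegree (φ : N → ℂ) * I.index := by
    intro lam
    have h1 : (F lam : G → ℂ) 1 = ((b * I.index : ℕ) : ℂ) := by
      show Cfsg.indFun I (ψl lam) 1 = _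
      rw [indFun_one]
      have h2 : ψl lam 1 = (φ : N → ℂ) 1 := congrFun (hresl lam) 1
      rw [h2, hb]
      push_cast
      ring
    rw [hcdφ]
    unfold Cfsg.charDegree
    rw [h1, Complex.natCast_re, Nat.floor_natCast]
  have hkey : ∀ lam mu : G →* ℂˣ, F lam = F mu → ∀ t ∈ I, lam t = mu t := by
    intro lam mu hF t ht
    have hFe : Cfsg.indFun I (ψl lam) = Cfsg.indFun I (ψl mu) := congrArg Subtype.val hF
    have hχ := (hind mu).1
    have hχN := (hind mu).2
    have hχc := isCharacter_of_irr hχ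
    have hcf := char_classFun hχc
    have hχχ := irr_inner_self hχ
    have hfl : Cfsg.classInner (ψl lam) (fun t : I => Cfsg.indFun I (ψl mu) t) = 1 := by
      rw [← frobenius I (ψl lam) _ hcf, hFe, hχχ]
    have hfm : Cfsg.classInner (ψl mu) (fun t : I => Cfsg.indFun I (ψl mu) t) = 1 := by
      rw [← frobenius I (ψl mu) _ hcf, hχχ]
    have heq : ψl lam = ψl mu := by
      by_contra hne
      have hresI : Cfsg.IsCharacter I (fun t : I => Cfsg.indFun I (ψl mu) t) :=
        comp_isCharacter I.subtype hχc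
      have h1 : Cfsg.classInner (fun t : I => Cfsg.indFun I (ψl mu) t) (ψl lam) ≠ 0 := by
        rw [classInner_conj_symm, hfl]
        simp
      have hΔ1 := sub_isCharacter hresI (hψl lam) h1
      have h2 : Cfsg.classInner ((fun t : I => Cfsg.indFun I (ψl mu) t) - ψl lam) (ψl mu) ≠ 0 := by
        rw [classInner_sub_left, classInner_conj_symm, hfm,
          irr_inner_ne (hψl lam) (hψl mu) hne]
        simp
      have hΔ2 := sub_isCharacter hΔ1 (hψl mu) h2
      have hΔN : Cfsg.IsCharacter N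
          ((((fun t : I => Cfsg.indFun I (ψl mu) t) - ψl lam) - ψl mu) ∘
            (Subgroup.inclusion hNI)) := comp_isCharacter _ hΔ2
      obtain ⟨k, hk⟩ := inner_char_nat hΔN (isCharacter_of_irr φ.2)
      have h3 : (((fun t : I => Cfsg.indFun I (ψl mu) t) - ψl lam) - ψl mu) ∘
          (Subgroup.inclusion hNI) =
          (fun n : N => Cfsg.indFun I (ψl mu) n) - (φ : N → ℂ) - (φ : N → ℂ) := by
        funext n
        simp only [Function.comp_apply, Pi.sub_apply]
        have e1 : ψl lam ⟨n, hNI n.2⟩ = (φ : N → ℂ) n := congrFun (hresl lam) n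
        have e2 : ψl mu ⟨n, hNI n.2⟩ = (φ : N → ℂ) n := congrFun (hresl mu) n
        have e3 : (Subgroup.inclusion hNI n : I) = ⟨n, hNI n.2⟩ := rfl
        rw [e3, e1, e2]
      rw [h3, classInner_sub_left, classInner_sub_left, hχN, hφ1] at hk
      have h4 : ((k : ℂ)) = -1 := by
        rw [← hk]
        ring
      have h5 : ((k : ℤ) : ℂ) = ((-1 : ℤ) : ℂ) := by
        push_cast
        exact h4
      have h6 : (k : ℤ) = -1 := by exact_mod_cast h5
      omega
    let β : I →* ℂˣ := (lam.comp I.subtype) * (mu.comp I.subtype)⁻¹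
    have _fM : Fintype (N.subgroupOf I) := Fintype.ofFinite _
    have hresM : Cfsg.IsIrrCharacter (N.subgroupOf I)
        (fun m : N.subgroupOf I => (ψ : I → ℂ) m) := by
      have h1 := comp_isIrr (Subgroup.subgroupOfEquivOfLe hNI).toMonoidHom
        (Subgroup.subgroupOfEquivOfLe hNI).surjective φ.2
      have h2 : (φ : N → ℂ) ∘ (Subgroup.subgroupOfEquivOfLe hNI).toMonoidHom =
          (fun m : N.subgroupOf I => (ψ : I → ℂ) m) := by
        funext m
        simp only [Function.comp_apply]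
        rw [← hψ]
        congr 1
      rw [← h2]
      exact h1
    have hβ : β = 1 := by
      apply ext_lin_trivial (N.subgroupOf I) ψ.2 hresM β
      · intro m hm
        have hmN : (m : G) ∈ N := Subgroup.mem_subgroupOf.mp hm
        show lam (m : G) * (mu (m : G))⁻¹ = 1
        rw [hperf lam _ hmN, hperf mu _ hmN]
        simp
      · intro s
        have h1 : ((lam (s : G) : ℂˣ) : ℂ) * (ψ : I → ℂ) s =
            ((mu (s : G) : ℂˣ) : ℂ) * (ψ : I → ℂ) s := congrFun heq s
        have h2 : ((β s : ℂˣ) : ℂ) = ((lam (s : G) : ℂˣ) : ℂ) * ((mu (s : G) : ℂˣ) : ℂ)⁻¹ := by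
          show ((lam (s : G) * (mu (s : G))⁻¹ : ℂˣ) : ℂ) = _
          rw [Units.val_mul, Units.val_inv_eq_inv_val]
        rw [h2]
        have h3 : ((mu (s : G) : ℂˣ) : ℂ) ≠ 0 := Units.ne_zero _
        rw [mul_comm _ (((mu (s : G) : ℂˣ) : ℂ)⁻¹), mul_assoc, h1, inv_mul_cancel_left₀ h3]
    have h1 : β ⟨t, ht⟩ = 1 := by
      rw [hβ]
      rfl
    have h2 : lam t * (mu t)⁻¹ = 1 := h1
    exact mul_inv_eq_one.mp h2
  have hfin : Finite (G →* ℂˣ) := by
    apply Nat.finite_of_card_ne_zero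
    rw [card_hom_units]
    exact Subgroup.index_ne_zero_of_finite
  have _fL : Fintype (G →* ℂˣ) := Fintype.ofFinite _
  have hfib : ∀ a ∈ (Finset.univ : Finset (G →* ℂˣ)).image F,
      ((Finset.univ : Finset (G →* ℂˣ)).filter (fun x => F x = a)).card ≤ I.index := by
    intro a ha
    obtain ⟨mu, _, rfl⟩ := Finset.mem_image.mp ha
    have hQn : (Subgroup.normalClosure (I : Set G)).Normal := Subgroup.normalClosure_normal
    have hle : ∀ lam ∈ (Finset.univ.filter (fun x : G →* ℂˣ => F x = F mu)),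
        Subgroup.normalClosure (I : Set G) ≤ (lam * mu⁻¹).ker := by
      intro lam hlam
      have h1 := (Finset.mem_filter.mp hlam).2
      apply Subgroup.normalClosure_le_normal
      intro t ht
      rw [SetLike.mem_coe, MonoidHom.mem_ker, MonoidHom.mul_apply, MonoidHom.inv_apply,
        hkey lam mu h1 t ht, mul_inv_cancel]
    have hfinQ : Finite ((G ⧸ Subgroup.normalClosure (I : Set G)) →* ℂˣ) := by
      apply Nat.finite_of_card_ne_zero
      rw [card_hom_units]
      exact Subgroup.index_ne_zero_of_finite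
    have hc1 : (Finset.univ.filter (fun x : G →* ℂˣ => F x = F mu)).card ≤
        Nat.card ((G ⧸ Subgroup.normalClosure (I : Set G)) →* ℂˣ) := by
      rw [← Fintype.card_coe, ← Nat.card_eq_fintype_card]
      apply Nat.card_le_card_of_injective
        (fun lam : {x // x ∈ Finset.univ.filter (fun x : G →* ℂˣ => F x = F mu)} =>
          QuotientGroup.lift (Subgroup.normalClosure (I : Set G)) (lam.1 * mu⁻¹) (hle lam.1 lam.2))
      intro l1 l2 h12
      apply Subtype.ext
      have h3 : l1.1 * mu⁻¹ = l2.1 * mu⁻¹ := by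
        ext g
        have h4 := DFunLike.congr_fun h12 (QuotientGroup.mk g)
        simp only [QuotientGroup.lift_mk] at h4
        rw [h4]
      exact mul_right_cancel h3
    have hc2 : Nat.card ((G ⧸ Subgroup.normalClosure (I : Set G)) →* ℂˣ) ≤ I.index := by
      rw [card_hom_units]
      have h1 : (commutator (G ⧸ Subgroup.normalClosure (I : Set G))).index ≤
          Nat.card (G ⧸ Subgroup.normalClosure (I : Set G)) :=
        Nat.le_of_dvd Nat.card_pos (Subgroup.index_dvd_card _)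
      have h2 : Nat.card (G ⧸ Subgroup.normalClosure (I : Set G)) =
          (Subgroup.normalClosure (I : Set G)).index := rfl
      have h3 : (Subgroup.normalClosure (I : Set G)).index ≤ I.index :=
        Nat.le_of_dvd (Nat.pos_of_ne_zero Subgroup.index_ne_zero_of_finite)
          (Subgroup.index_dvd_of_le Subgroup.le_normalClosure)
      omega
    exact hc1.trans hc2
  have hcount := Finset.card_le_mul_card_image (Finset.univ : Finset (G →* ℂˣ)) I.index hfib
  have hsrc : Nat.card {χ : Cfsg.IrrCharacter G // Cfsg.charDegree (χ : G → ℂ) = 1} =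
      (Finset.univ : Finset (G →* ℂˣ)).card := by
    rw [Finset.card_univ, ← Nat.card_eq_fintype_card, ← card_linear]
    apply Nat.card_congr
    apply Equiv.subtypeEquivRight
    intro χ
    obtain ⟨c, hcpos, hc⟩ := irr_one_pos χ.2
    have h0 : Cfsg.charDegree (χ : G → ℂ) = c := by
      unfold Cfsg.charDegree
      rw [hc]
      simp
    rw [h0, hc]
    constructor
    · intro h
      rw [h]
      simp
    · intro h
      exact_mod_cast h
  have htgt : ((Finset.univ : Finset (G →* ℂˣ)).image F).card ≤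
      Nat.card {χ : Cfsg.IrrCharacter G //
        Cfsg.charDegree (χ : G → ℂ) = Cfsg.charDegree (φ : N → ℂ) * I.index} := by
    rw [Nat.card_eq_fintype_card, Fintype.card_subtype]
    apply Finset.card_le_card
    intro χ hχ
    obtain ⟨lam, _, rfl⟩ := Finset.mem_image.mp hχ
    rw [Finset.mem_filter]
    exact ⟨Finset.mem_univ _, hFdeg lam⟩
  rw [hsrc]
  exact hcount.trans (Nat.mul_le_mul_left _ htgt)

end Cfsg.Agent.S4870
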