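import Mathlib
import Cfsg.Statements.S4916
import Cfsg.Agent.Lib.Helper3.Char
import Cfsg.Agent.Lib.Helper3.CharArith
import Cfsg.Agent.Lib.Helper3.BlkLocal
import Cfsg.Agent.Lib.Helper3.BlkOsima
import Cfsg.Agent.Lib.Helper3.BlkOrth3
import Cfsg.Agent.Lib.Helper3.BlkOrth4

set_option autoImplicit false
open Cfsg
open Cfsg.Agent.Lib.Helper3.Char Cfsg.Agent.Lib.Helper3.CharArith Cfsg.Agent.Lib.Helper3.BlkLocal Cfsg.Agent.Lib.Helper3.BlkOsima Cfsg.Agent.Lib.Helper3.BlkOrth3 Cfsg.Agent.Lib.Helper3.BlkOrth4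
open scoped ComplexConjugate

namespace Cfsg.Agent.S4916

theorem result {G : Type*} [Group G] [Finite G] (p : ℕ) [Fact p.Prime] (M : Ideal Cfsg.AlgInt) (hM : Cfsg.IsPModular p M) : (∀ χ : Cfsg.IrrCharacter G, χ ∈ Cfsg.principalBlock M G → ¬ p ∣ Cfsg.charDegree (χ : G → ℂ) → (χ : G → ℂ) = fun _ => (1 : ℂ)) ↔ ¬ p ∣ Nat.card G := by
  classical
  have _fg : Fintype G := Fintype.ofFinite G
  have _fi : Fintype (Cfsg.IrrCharacter G) := Fintype.ofFinite _
  have hp : p.Prime := Fact.out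
  have hMp := hM.2.1.isPrime
  have hB : Cfsg.IsPBlock M (Cfsg.principalBlock M G) := ⟨⟨fun _ => 1, isIrr_one G⟩, rfl⟩
  have htB : (⟨fun _ => 1, isIrr_one G⟩ : Cfsg.IrrCharacter G) ∈ Cfsg.principalBlock M G :=
    sb_refl hMp _
  constructor
  · intro hall hdvd
    obtain ⟨y, hy⟩ := exists_prime_orderOf_dvd_card' p hdvd
    have h0 := weak_orth hM (Cfsg.principalBlock M G) hB 1 y (by
      rw [orderOf_one]
      exact hp.one_lt.ne' ∘ Nat.dvd_one.mp) (by rw [hy])
    apply not_li_one hMp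
    have key : ∀ χ : Cfsg.IrrCharacter G, Cfsg.MemLocalIdeal M
        ((if χ = (⟨fun _ => 1, isIrr_one G⟩ : Cfsg.IrrCharacter G) then (1 : ℂ) else 0) -
        (if χ ∈ Cfsg.principalBlock M G then (χ : G → ℂ) 1 * (starRingEnd ℂ) ((χ : G → ℂ) y)
          else 0)) := by
      intro χ
      by_cases h1 : χ = (⟨fun _ => 1, isIrr_one G⟩ : Cfsg.IrrCharacter G)
      · rw [if_pos h1, h1, if_pos htB]
        simp only [map_one, mul_one, sub_self]
        exact li_zero hMp
      · rw [if_neg h1]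
        by_cases h2 : χ ∈ Cfsg.principalBlock M G
        · rw [if_pos h2, zero_sub]
          apply li_neg
          have h3 : p ∣ Cfsg.charDegree (χ : G → ℂ) := by
            by_contra h4
            exact h1 (Subtype.ext (hall χ h2 h4))
          obtain ⟨n, hn0, hn⟩ := irr_one_pos χ.2
          rw [charDegree_eq hn] at h3
          rw [hn, ← char_inv (isCharacter_of_irr χ.2)]
          exact li_mul_right hMp ((li_nat_iff hM n).mpr h3)
            (lr_of_isIntegral hMp (char_isIntegral (isCharacter_of_irr χ.2) _))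
        · rw [if_neg h2, sub_self]
          exact li_zero hMp
    have e : (1 : ℂ) = ∑ χ : Cfsg.IrrCharacter G,
        ((if χ = (⟨fun _ => 1, isIrr_one G⟩ : Cfsg.IrrCharacter G) then (1 : ℂ) else 0) -
        (if χ ∈ Cfsg.principalBlock M G then (χ : G → ℂ) 1 * (starRingEnd ℂ) ((χ : G → ℂ) y)
          else 0)) := by
      rw [Finset.sum_sub_distrib, h0, sub_zero, Finset.sum_ite_eq']
      simp
    rw [e]
    exact li_sum hMp _ _ (fun χ _ => key χ)
  · intro hnd χ hχ _
    have h1 := singleton_of_not_dvd hM (⟨fun _ => 1, isIrr_one G⟩ : Cfsg.IrrCharacter G) (by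
      intro h
      exact hnd (h.trans (Nat.div_dvd_of_dvd (by
        rw [charDegree_eq (n := 1) (by simp)]
        exact one_dvd _))))
    have h2 : χ ∈ ({(⟨fun _ => 1, isIrr_one G⟩ : Cfsg.IrrCharacter G)} : Set _) := by
      rw [← h1]
      exact hχ
    rw [Set.mem_singleton_iff] at h2
    rw [h2]

end Cfsg.Agent.S4916
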