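import Mathlib
import Cfsg.Statements.S4955
import Cfsg.Agent.Lib.Helper3.Char
import Cfsg.Agent.Lib.Helper3.CharCore
import Cfsg.Agent.Lib.Helper3.CharArith
import Cfsg.Agent.Lib.Helper3.CharInd
import Cfsg.Agent.Lib.Helper3.CharInt
import Cfsg.Agent.Lib.Helper3.CharTable
import Cfsg.Agent.Lib.Helper3.CharKer
import Cfsg.Agent.Lib.Helper3.CharMono
import Cfsg.Agent.Lib.Helper3.CharProj
import Cfsg.Agent.Lib.Helper3.CharGalois
import Cfsg.Agent.Lib.Helper3.BlkLocal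
import Cfsg.Agent.Lib.Helper3.BlkDef
import Cfsg.Agent.Lib.Helper3.BlkCong
import Cfsg.Agent.Lib.Helper3.BlkFrob
import Cfsg.Agent.S0169

set_option autoImplicit false
open Cfsg
open Cfsg.Agent.Lib.Helper3.Char Cfsg.Agent.Lib.Helper3.CharCore Cfsg.Agent.Lib.Helper3.CharArith Cfsg.Agent.Lib.Helper3.CharInd Cfsg.Agent.Lib.Helper3.CharInt Cfsg.Agent.Lib.Helper3.CharTable Cfsg.Agent.Lib.Helper3.CharKer Cfsg.Agent.Lib.Helper3.CharMono Cfsg.Agent.Lib.Helper3.CharProj Cfsg.Agent.Lib.Helper3.CharGalois Cfsg.Agent.Lib.Helper3.BlkLocal Cfsg.Agent.Lib.Helper3.BlkDef Cfsg.Agent.Lib.Helper3.BlkCong Cfsg.Agent.Lib.Helper3.BlkFrob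
open scoped ComplexConjugate IntermediateField

namespace Cfsg.Agent.S4955

universe u

theorem nonvan {X : Type u} [Group X] [Finite X] (p : ℕ) [hp : Fact p.Prime] (V : Subgroup X)
    [V.Normal] (hVp : IsPGroup p V) (hidx : ¬ p ∣ V.index)
    (hab : ∀ a ∈ V, ∀ b ∈ V, a * b = b * a)
    (χ : Cfsg.IrrCharacter X) (v : X) (hv : v ∈ V) : (χ : X → ℂ) v ≠ 0 := by
  obtain ⟨n, ρ, hirr, hχeq⟩ := χ.2
  have hd : Module.finrank ℂ (Fin n → ℂ) ∣ V.index := by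
    have _hi := hirr
    exact Cfsg.Agent.S0169.result ρ V hab
  obtain ⟨M, hM⟩ := exists_pmodular hp.out
  obtain ⟨k, hk⟩ := hVp ⟨v, hv⟩
  have hz : v ^ (p ^ k) = 1 := by
    have h1 := congrArg Subtype.val hk
    exact h1
  have hcong := char_cong hM (isCharacter_of_irr χ.2) v 1 (by simp) k hz
  intro h0
  rw [mul_one, h0, zero_sub] at hcong
  have h1 : (χ : X → ℂ) 1 = (Module.finrank ℂ (Fin n → ℂ) : ℂ) := by
    rw [← hχeq]
    exact Representation.char_one ρ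
  rw [h1] at hcong
  have h2 := li_neg hcong
  rw [neg_neg] at h2
  have h3 := (li_nat_iff hM _).mp h2
  exact hidx (h3.trans hd)

theorem cent_card {X : Type u} [Group X] [Finite X] (V : Subgroup X)
    (hab : ∀ a ∈ V, ∀ b ∈ V, a * b = b * a) (G : Subgroup X) (hGV : Subgroup.IsComplement' V G)
    (v : X) (hv : v ∈ V) :
    Nat.card (Subgroup.centralizer ({v} : Set X)) =
      Nat.card ↥(G ⊓ Subgroup.centralizer ({v} : Set X)) * Nat.card V := by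
  rw [← Nat.card_prod]
  symm
  have hVC : V ≤ Subgroup.centralizer ({v} : Set X) := by
    intro u hu
    rw [Subgroup.mem_centralizer_singleton_iff]
    exact hab u hu v hv
  let f : ↥(G ⊓ Subgroup.centralizer ({v} : Set X)) × V → Subgroup.centralizer ({v} : Set X) :=
    fun q => ⟨(q.2 : X) * (q.1 : X), Subgroup.mul_mem _ (hVC q.2.2) q.1.2.2⟩
  apply Nat.card_congr (Equiv.ofBijective f ⟨?_, ?_⟩)
  · rintro ⟨c, u⟩ ⟨c', u'⟩ h
    have h1 : (u : X) * (c : X) = (u' : X) * (c' : X) := congrArg Subtype.val h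
    have h2 : (u' : X)⁻¹ * (u : X) = (c' : X) * (c : X)⁻¹ := by
      rw [inv_mul_eq_iff_eq_mul, ← mul_assoc, ← h1, mul_inv_cancel_right]
    have h3 : (u' : X)⁻¹ * (u : X) ∈ V := V.mul_mem (V.inv_mem u'.2) u.2
    have h4 : (u' : X)⁻¹ * (u : X) ∈ G := by
      rw [h2]
      exact G.mul_mem c'.2.1 (G.inv_mem c.2.1)
    have h5 : (u' : X)⁻¹ * (u : X) = 1 := Subgroup.disjoint_def.mp hGV.disjoint h3 h4
    have h6 : (u : X) = (u' : X) := (inv_mul_eq_one.mp h5).symm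
    have h7 : (c : X) = (c' : X) := by
      rw [h6] at h1
      exact mul_left_cancel h1
    exact Prod.ext (Subtype.ext h7) (Subtype.ext h6)
  · rintro ⟨y, hy⟩
    obtain ⟨⟨u, g⟩, hug⟩ := (Subgroup.isComplement'_def.mp hGV).2 y
    have hug' : (u : X) * (g : X) = y := hug
    have hg : (g : X) ∈ Subgroup.centralizer ({v} : Set X) := by
      have h1 : (g : X) = (u : X)⁻¹ * y := by rw [← hug', inv_mul_cancel_left]
      rw [h1]
      exact Subgroup.mul_mem _ (Subgroup.inv_mem _ (hVC u.2)) hy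
    exact ⟨(⟨(g : X), ⟨g.2, hg⟩⟩, ⟨(u : X), u.2⟩), Subtype.ext hug'⟩

theorem cent_pow {X : Type u} [Group X] [Finite X] (v : X) (e : ℕ)
    (he : e.Coprime (Nat.card X)) :
    Nat.card {y : X // y * v ^ e * y⁻¹ = v ^ e} =
      Nat.card (Subgroup.centralizer ({v} : Set X)) := by
  apply Nat.card_congr
  apply Equiv.subtypeEquivRight
  intro y
  rw [Subgroup.mem_centralizer_singleton_iff]
  have hco : e.Coprime (orderOf v) := Nat.Coprime.coprime_dvd_right (orderOf_dvd_natCard v) he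
  obtain ⟨m, hm⟩ := exists_pow_eq_self_of_coprime hco
  constructor
  · intro h
    have h1 : Commute y (v ^ e) := mul_inv_eq_iff_eq_mul.mp h
    have h2 : Commute y ((v ^ e) ^ m) := h1.pow_right m
    rw [hm] at h2
    exact h2.eq
  · intro h
    have h1 : Commute y v := h
    exact mul_inv_eq_iff_eq_mul.mpr (h1.pow_right e).eq

theorem quot_data {X : Type u} [Group X] [Finite X] (V : Subgroup X) [V.Normal] (G : Subgroup X)
    (hGV : Subgroup.IsComplement' V G) :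
    Nat.card (X ⧸ V) = Nat.card G ∧
      Nat.card (ConjClasses (X ⧸ V)) = Nat.card (ConjClasses G) := by
  let e : X ⧸ V ≃* G := hGV.symm.QuotientMulEquiv
  refine ⟨Nat.card_congr e.toEquiv, ?_⟩
  apply Nat.card_congr
  refine ⟨ConjClasses.map e.toMonoidHom, ConjClasses.map e.symm.toMonoidHom, ?_, ?_⟩
  · intro c
    refine Quotient.inductionOn c (fun a => ?_)
    show ConjClasses.mk (e.symm (e a)) = ConjClasses.mk a
    rw [MulEquiv.symm_apply_apply]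
  · intro c
    refine Quotient.inductionOn c (fun a => ?_)
    show ConjClasses.mk (e (e.symm a)) = ConjClasses.mk a
    rw [MulEquiv.apply_symm_apply]

theorem count_ker {X : Type u} [Group X] [Fintype X] (V : Subgroup X) [hVn : V.Normal] :
    Nat.card {χ : Cfsg.IrrCharacter X // ∀ u ∈ V, (χ : X → ℂ) u = (χ : X → ℂ) 1} =
      Nat.card (ConjClasses (X ⧸ V)) := by
  classical
  have _fq : Fintype (X ⧸ V) := Fintype.ofFinite _
  rw [← card_irr (X ⧸ V)]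
  symm
  have hπ : Function.Surjective (QuotientGroup.mk' V) := QuotientGroup.mk'_surjective V
  have hirr : ∀ ψ : Cfsg.IrrCharacter (X ⧸ V),
      Cfsg.IsIrrCharacter X ((ψ : X ⧸ V → ℂ) ∘ (QuotientGroup.mk' V)) := by
    intro ψ
    apply isIrr_of_inner_self (comp_isCharacter (QuotientGroup.mk' V) (isCharacter_of_irr ψ.2))
    have h1 := irr_inner_self ψ.2
    unfold Cfsg.classInner at h1 ⊢
    have h2 := sum_comp_surj (QuotientGroup.mk' V) hπ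
      (fun q : X ⧸ V => (ψ : X ⧸ V → ℂ) q * conj ((ψ : X ⧸ V → ℂ) q))
    rw [QuotientGroup.ker_mk'] at h2
    have h3 : ∑ g : X, ((ψ : X ⧸ V → ℂ) ∘ (QuotientGroup.mk' V)) g *
        conj (((ψ : X ⧸ V → ℂ) ∘ (QuotientGroup.mk' V)) g) =
        (Nat.card V : ℂ) * ∑ q : X ⧸ V, (ψ : X ⧸ V → ℂ) q * conj ((ψ : X ⧸ V → ℂ) q) := h2
    have h4 : (Nat.card X : ℂ) = (Nat.card V : ℂ) * (Nat.card (X ⧸ V) : ℂ) := by
      have h5 := Subgroup.card_mul_index V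
      have h6 : Nat.card (X ⧸ V) = V.index := rfl
      rw [h6]
      exact_mod_cast h5.symm
    have hV0 : (Nat.card V : ℂ) ≠ 0 := by exact_mod_cast (Nat.card_pos (α := V)).ne'
    have hQ0 : (Nat.card (X ⧸ V) : ℂ) ≠ 0 := by
      exact_mod_cast (Nat.card_pos (α := X ⧸ V)).ne'
    have hS : ∑ q : X ⧸ V, (ψ : X ⧸ V → ℂ) q * conj ((ψ : X ⧸ V → ℂ) q) =
        (Nat.card (X ⧸ V) : ℂ) := by
      field_simp at h1
      exact h1
    rw [h3, hS, h4]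
    field_simp
  let F : Cfsg.IrrCharacter (X ⧸ V) →
      {χ : Cfsg.IrrCharacter X // ∀ u ∈ V, (χ : X → ℂ) u = (χ : X → ℂ) 1} :=
    fun ψ => ⟨⟨(ψ : X ⧸ V → ℂ) ∘ (QuotientGroup.mk' V), hirr ψ⟩, by
      intro u hu
      show (ψ : X ⧸ V → ℂ) (QuotientGroup.mk' V u) = (ψ : X ⧸ V → ℂ) (QuotientGroup.mk' V 1)
      have h1 : QuotientGroup.mk' V u = QuotientGroup.mk' V 1 := by
        rw [map_one]
        exact (QuotientGroup.eq_one_iff u).mpr hu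
      rw [h1]⟩
  apply Nat.card_congr (Equiv.ofBijective F ⟨?_, ?_⟩)
  · intro ψ ψ' h
    have h1 : (ψ : X ⧸ V → ℂ) ∘ (QuotientGroup.mk' V) =
        (ψ' : X ⧸ V → ℂ) ∘ (QuotientGroup.mk' V) :=
      congrArg (fun t : {χ : Cfsg.IrrCharacter X // ∀ u ∈ V, (χ : X → ℂ) u = (χ : X → ℂ) 1} =>
        ((t.1 : Cfsg.IrrCharacter X) : X → ℂ)) h
    apply Subtype.ext
    funext q
    obtain ⟨x, rfl⟩ := hπ q
    exact congrFun h1 x
  · rintro ⟨χ, hχ⟩
    obtain ⟨χ', h1, h2⟩ := descend (QuotientGroup.mk' V) hπ (χ : X → ℂ) χ.2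
      (fun z hz => hχ z ((QuotientGroup.eq_one_iff z).mp hz))
    refine ⟨⟨χ', h1⟩, ?_⟩
    apply Subtype.ext
    apply Subtype.ext
    funext x
    exact h2 x

theorem result {X : Type*} [Group X] [Finite X] (p : ℕ) [Fact p.Prime] (V : Subgroup X) [V.Normal] (hVp : IsPGroup p V) (hidx : ¬ p ∣ V.index) (hab : ∀ a ∈ V, ∀ b ∈ V, a * b = b * a) (G : Subgroup X) (hGV : Subgroup.IsComplement' V G) (v : X) (hv : v ∈ V) : Nat.card (ConjClasses X) + Nat.card G ≤ Nat.card ↥(G ⊓ Subgroup.centralizer ({v} : Set X)) * Nat.card V + Nat.card (ConjClasses G) := by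
  classical
  have _fX : Fintype X := Fintype.ofFinite X
  have _fI : Fintype (Cfsg.IrrCharacter X) := Fintype.ofFinite _
  have hN : Nat.card X ≠ 0 := Nat.card_pos.ne'
  have hfd := cyc_fd (Nat.card X) hN
  have key : ∀ χ : Cfsg.IrrCharacter X, ∃ a : ℚ⟮zeta (Nat.card X)⟯,
      (a : ℂ) = (χ : X → ℂ) v ∧ IsIntegral ℤ a ∧
      ∀ (σ : ℚ⟮zeta (Nat.card X)⟯ →ₐ[ℚ] ℂ) (e : ℕ),
        σ (IntermediateField.AdjoinSimple.gen ℚ (zeta (Nat.card X))) = zeta (Nat.card X) ^ e →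
        σ a = (χ : X → ℂ) (v ^ e) := by
    intro χ
    obtain ⟨n, ρ, _, hχeq⟩ := χ.2
    rw [← hχeq]
    exact char_lift ρ v
  choose a ha1 ha2 ha3 using key
  have ha0 : ∀ χ, a χ ≠ 0 := by
    intro χ h
    apply nonvan p V hVp hidx hab χ v hv
    rw [← ha1 χ, h]
    rfl
  choose e he hσe using fun σ : ℚ⟮zeta (Nat.card X)⟯ →ₐ[ℚ] ℂ => emb_gen (Nat.card X) hN σ
  have hcol : ∀ σ : ℚ⟮zeta (Nat.card X)⟯ →ₐ[ℚ] ℂ,
      ∑ χ : Cfsg.IrrCharacter X, ‖σ (a χ)‖ ^ 2 =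
        ((Nat.card ↥(G ⊓ Subgroup.centralizer ({v} : Set X)) * Nat.card V : ℕ) : ℝ) := by
    intro σ
    have h1 := column_orth (v ^ e σ) (v ^ e σ)
    rw [cent_pow v (e σ) (he σ), cent_card V hab G hGV v hv] at h1
    have h3 : ∀ χ : Cfsg.IrrCharacter X,
        (χ : X → ℂ) (v ^ e σ) * conj ((χ : X → ℂ) (v ^ e σ)) =
        ((‖σ (a χ)‖ ^ 2 : ℝ) : ℂ) := by
      intro χ
      rw [ha3 χ σ (e σ) (hσe σ), Complex.mul_conj']
      push_cast
      rfl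
    rw [Finset.sum_congr rfl (fun χ _ => h3 χ), ← Complex.ofReal_sum] at h1
    exact_mod_cast h1
  have hrow : ∀ χ : Cfsg.IrrCharacter X,
      (Fintype.card (ℚ⟮zeta (Nat.card X)⟯ →ₐ[ℚ] ℂ) : ℝ) *
        (if (∀ u ∈ V, (χ : X → ℂ) u = (χ : X → ℂ) 1) then ‖(χ : X → ℂ) 1‖ ^ 2 else 1) ≤
        ∑ σ : ℚ⟮zeta (Nat.card X)⟯ →ₐ[ℚ] ℂ, ‖σ (a χ)‖ ^ 2 := by
    intro χ
    by_cases hAχ : ∀ u ∈ V, (χ : X → ℂ) u = (χ : X → ℂ) 1
    · rw [if_pos hAχ]
      have h1 : ∀ σ : ℚ⟮zeta (Nat.card X)⟯ →ₐ[ℚ] ℂ,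
          ‖σ (a χ)‖ ^ 2 = ‖(χ : X → ℂ) 1‖ ^ 2 := by
        intro σ
        rw [ha3 χ σ (e σ) (hσe σ), hAχ _ (V.pow_mem hv _)]
      rw [Finset.sum_congr rfl (fun σ _ => h1 σ), Finset.sum_const, Finset.card_univ,
        nsmul_eq_mul]
    · rw [if_neg hAχ, mul_one]
      exact sum_sq_ge_card (Nat.card X) (a χ) (ha2 χ) (ha0 χ)
  have hne : Nonempty (ℚ⟮zeta (Nat.card X)⟯ →ₐ[ℚ] ℂ) := ⟨IntermediateField.val _⟩
  have hcpos : (0 : ℝ) < (Fintype.card (ℚ⟮zeta (Nat.card X)⟯ →ₐ[ℚ] ℂ) : ℝ) := by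
    exact_mod_cast Fintype.card_pos
  have htot : (Fintype.card (ℚ⟮zeta (Nat.card X)⟯ →ₐ[ℚ] ℂ) : ℝ) *
      ∑ χ : Cfsg.IrrCharacter X,
        (if (∀ u ∈ V, (χ : X → ℂ) u = (χ : X → ℂ) 1) then ‖(χ : X → ℂ) 1‖ ^ 2 else 1) ≤
      (Fintype.card (ℚ⟮zeta (Nat.card X)⟯ →ₐ[ℚ] ℂ) : ℝ) *
        ((Nat.card ↥(G ⊓ Subgroup.centralizer ({v} : Set X)) * Nat.card V : ℕ) : ℝ) := by
    rw [Finset.mul_sum]
    have h1 := Finset.sum_le_sum (fun χ (_ : χ ∈ Finset.univ) => hrow χ)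
    rw [Finset.sum_comm, Finset.sum_congr rfl (fun σ _ => hcol σ), Finset.sum_const,
      Finset.card_univ, nsmul_eq_mul] at h1
    exact h1
  have hle : ∑ χ : Cfsg.IrrCharacter X,
      (if (∀ u ∈ V, (χ : X → ℂ) u = (χ : X → ℂ) 1) then ‖(χ : X → ℂ) 1‖ ^ 2 else (1 : ℝ)) ≤
      ((Nat.card ↥(G ⊓ Subgroup.centralizer ({v} : Set X)) * Nat.card V : ℕ) : ℝ) :=
    le_of_mul_le_mul_left htot hcpos
  have hsplit : ∀ χ : Cfsg.IrrCharacter X,
      (if (∀ u ∈ V, (χ : X → ℂ) u = (χ : X → ℂ) 1) then ‖(χ : X → ℂ) 1‖ ^ 2 else (1 : ℝ)) =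
      (if (∀ u ∈ V, (χ : X → ℂ) u = (χ : X → ℂ) 1) then ‖(χ : X → ℂ) 1‖ ^ 2 else (0 : ℝ)) +
        (1 - (if (∀ u ∈ V, (χ : X → ℂ) u = (χ : X → ℂ) 1) then (1 : ℝ) else 0)) := by
    intro χ
    split_ifs <;> ring
  rw [Finset.sum_congr rfl (fun χ _ => hsplit χ), Finset.sum_add_distrib,
    Finset.sum_sub_distrib, Finset.sum_const, Finset.card_univ, nsmul_eq_mul, mul_one,
    Finset.sum_boole] at hle
  have hS1 : ∑ χ : Cfsg.IrrCharacter X,
      (if (∀ u ∈ V, (χ : X → ℂ) u = (χ : X → ℂ) 1) then ‖(χ : X → ℂ) 1‖ ^ 2 else (0 : ℝ)) =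
      (Nat.card (X ⧸ V) : ℝ) := by
    have h1 := sum_sq_ker V
    have h2 : ∀ χ : Cfsg.IrrCharacter X,
        (if (∀ u ∈ V, (χ : X → ℂ) u = (χ : X → ℂ) 1) then (χ : X → ℂ) 1 ^ 2 else (0 : ℂ)) =
        (((if (∀ u ∈ V, (χ : X → ℂ) u = (χ : X → ℂ) 1) then ‖(χ : X → ℂ) 1‖ ^ 2
          else (0 : ℝ)) : ℝ) : ℂ) := by
      intro χ
      obtain ⟨n, _, hn⟩ := irr_one_pos χ.2
      split_ifs
      · rw [hn, Complex.norm_natCast]
        push_cast
        rfl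
      · simp
    rw [Finset.sum_congr rfl (fun χ _ => h2 χ), ← Complex.ofReal_sum] at h1
    have h3 : (Nat.card X : ℝ) = (Nat.card V : ℝ) * ∑ χ : Cfsg.IrrCharacter X,
        (if (∀ u ∈ V, (χ : X → ℂ) u = (χ : X → ℂ) 1) then ‖(χ : X → ℂ) 1‖ ^ 2
          else (0 : ℝ)) := by
      exact_mod_cast h1
    have h4 : (Nat.card X : ℝ) = (Nat.card V : ℝ) * (Nat.card (X ⧸ V) : ℝ) := by
      have h5 := Subgroup.card_mul_index V
      have h6 : Nat.card (X ⧸ V) = V.index := rfl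
      rw [h6]
      exact_mod_cast h5.symm
    have hV0 : (Nat.card V : ℝ) ≠ 0 := by exact_mod_cast (Nat.card_pos (α := V)).ne'
    rw [h4] at h3
    exact (mul_left_cancel₀ hV0 h3).symm
  have hcnt : ((Finset.univ.filter (fun χ : Cfsg.IrrCharacter X =>
      ∀ u ∈ V, (χ : X → ℂ) u = (χ : X → ℂ) 1)).card : ℝ) =
      (Nat.card (ConjClasses G) : ℝ) := by
    rw [← (quot_data V G hGV).2, ← count_ker V, Nat.card_eq_fintype_card, Fintype.card_subtype]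
  have hirrc : (Fintype.card (Cfsg.IrrCharacter X) : ℝ) = (Nat.card (ConjClasses X) : ℝ) := by
    rw [← card_irr X, Nat.card_eq_fintype_card]
  rw [hS1, hcnt, hirrc, (quot_data V G hGV).1] at hle
  have hfin : (Nat.card (ConjClasses X) : ℝ) + (Nat.card G : ℝ) ≤
      ((Nat.card ↥(G ⊓ Subgroup.centralizer ({v} : Set X)) * Nat.card V : ℕ) : ℝ) +
        (Nat.card (ConjClasses G) : ℝ) := by
    linarith
  exact_mod_cast hfin

end Cfsg.Agent.S4955
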