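import Mathlib
import Cfsg.Statements.S4969
import Cfsg.Agent.Lib.Helper3.Char
import Cfsg.Agent.Lib.Helper3.CharTable

set_option autoImplicit false
open Cfsg
open Cfsg.Agent.Lib.Helper3.Char Cfsg.Agent.Lib.Helper3.CharTable
open scoped ComplexConjugate

namespace Cfsg.Agent.S4969

theorem result {G : Type*} [Group G] [Finite G] (g : G) (N : ℝ) (hN : 0 < N) :
    ∑ᶠ χ : Cfsg.IrrCharacter G, (if N ≤ ‖(χ : G → ℂ) 1‖ then ‖(χ : G → ℂ) g‖ / ‖(χ : G → ℂ) 1‖ else 0) ≤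
      Real.sqrt ((Nat.card (ConjClasses G) : ℝ) * (Nat.card ↥(Subgroup.centralizer ({g} : Set G)) : ℝ)) / N := by
  classical
  have _fg : Fintype G := Fintype.ofFinite G
  have _fi : Fintype (Cfsg.IrrCharacter G) := Fintype.ofFinite _
  rw [finsum_eq_sum_of_fintype]
  have h1 : ∀ χ : Cfsg.IrrCharacter G,
      (if N ≤ ‖(χ : G → ℂ) 1‖ then ‖(χ : G → ℂ) g‖ / ‖(χ : G → ℂ) 1‖ else 0) ≤
        ‖(χ : G → ℂ) g‖ / N := by
    intro χ
    split_ifs with h
    · exact div_le_div_of_nonneg_left (norm_nonneg _) hN h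
    · exact div_nonneg (norm_nonneg _) hN.le
  have h2 : ∑ χ : Cfsg.IrrCharacter G,
      (if N ≤ ‖(χ : G → ℂ) 1‖ then ‖(χ : G → ℂ) g‖ / ‖(χ : G → ℂ) 1‖ else 0) ≤
      (∑ χ : Cfsg.IrrCharacter G, ‖(χ : G → ℂ) g‖) / N := by
    rw [Finset.sum_div]
    exact Finset.sum_le_sum (fun χ _ => h1 χ)
  refine h2.trans ?_
  apply div_le_div_of_nonneg_right _ hN.le
  apply Real.le_sqrt_of_sq_le
  have hcs := Finset.sum_mul_sq_le_sq_mul_sq Finset.univ
    (fun χ : Cfsg.IrrCharacter G => ‖(χ : G → ℂ) g‖) (fun _ => (1 : ℝ))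
  have hcol : ∑ χ : Cfsg.IrrCharacter G, ‖(χ : G → ℂ) g‖ ^ 2 =
      (Nat.card ↥(Subgroup.centralizer ({g} : Set G)) : ℝ) := by
    have h3 := column_orth g g
    have h4 : ∀ χ : Cfsg.IrrCharacter G, (χ : G → ℂ) g * (starRingEnd ℂ) ((χ : G → ℂ) g) =
        ((‖(χ : G → ℂ) g‖ ^ 2 : ℝ) : ℂ) := by
      intro χ
      rw [Complex.mul_conj, Complex.normSq_eq_norm_sq]
    rw [Finset.sum_congr rfl (fun χ _ => h4 χ), ← Complex.ofReal_sum] at h3
    have h5 : Nat.card {y : G // y * g * y⁻¹ = g} =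
        Nat.card ↥(Subgroup.centralizer ({g} : Set G)) := by
      apply Nat.card_congr
      apply Equiv.subtypeEquivRight
      intro y
      rw [Subgroup.mem_centralizer_iff]
      constructor
      · intro h z hz
        rw [Set.mem_singleton_iff] at hz
        rw [hz]
        nth_rewrite 1 [← h]
        group
      · intro h
        have h6 := h g rfl
        rw [← h6]
        group
    rw [h5] at h3
    have h7 : ((∑ χ : Cfsg.IrrCharacter G, ‖(χ : G → ℂ) g‖ ^ 2 : ℝ) : ℂ) =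
        (((Nat.card ↥(Subgroup.centralizer ({g} : Set G)) : ℕ) : ℝ) : ℂ) := by
      rw [h3]
      push_cast
      rfl
    exact Complex.ofReal_injective h7
  have hk : ∑ _χ : Cfsg.IrrCharacter G, (1 : ℝ) ^ 2 = (Nat.card (ConjClasses G) : ℝ) := by
    rw [← card_irr G, Nat.card_eq_fintype_card]
    simp
  simp only [mul_one] at hcs
  rw [hcol, hk, mul_comm] at hcs
  exact hcs

end Cfsg.Agent.S4969
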