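import Mathlib
import Cfsg.Statements.S4996
import Cfsg.Agent.Lib.Helper3.Char
import Cfsg.Agent.Lib.Helper3.CharCore
import Cfsg.Agent.Lib.Helper3.CharArith
import Cfsg.Agent.Lib.Helper3.CharGalois
import Cfsg.Agent.Lib.Helper3.CharKer
import Cfsg.Agent.Lib.Helper3.CharInd
import Cfsg.Agent.Lib.Helper3.BlkOrth2

set_option autoImplicit false
open Cfsg
open Cfsg.Agent.Lib.Helper3.Char Cfsg.Agent.Lib.Helper3.CharCore Cfsg.Agent.Lib.Helper3.CharArith Cfsg.Agent.Lib.Helper3.CharGalois Cfsg.Agent.Lib.Helper3.CharKer Cfsg.Agent.Lib.Helper3.CharInd Cfsg.Agent.Lib.Helper3.BlkOrth2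
open scoped ComplexConjugate IntermediateField

namespace Cfsg.Agent.S4996

theorem sum_ge_card1 (N : ℕ) [FiniteDimensional ℚ ℚ⟮zeta N⟯] (a : ℚ⟮zeta N⟯)
    (ha : IsIntegral ℤ a) (ha0 : a ≠ 0) :
    (Fintype.card (ℚ⟮zeta N⟯ →ₐ[ℚ] ℂ) : ℝ) ≤ ∑ σ : ℚ⟮zeta N⟯ →ₐ[ℚ] ℂ, ‖σ a‖ := by
  have hpos : ∀ σ : ℚ⟮zeta N⟯ →ₐ[ℚ] ℂ, 0 < ‖σ a‖ := by
    intro σ
    have h1 : σ a ≠ 0 := by
      intro h
      apply ha0
      have h2 : σ a = σ 0 := by rw [h, map_zero]
      exact σ.toRingHom.injective h2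
    exact norm_pos_iff.mpr h1
  have h1 : ∀ σ : ℚ⟮zeta N⟯ →ₐ[ℚ] ℂ, 1 + Real.log (‖σ a‖) ≤ ‖σ a‖ := by
    intro σ
    have := Real.log_le_sub_one_of_pos (hpos σ)
    linarith
  have h2 : (0 : ℝ) ≤ ∑ σ : ℚ⟮zeta N⟯ →ₐ[ℚ] ℂ, Real.log (‖σ a‖) := by
    rw [← Real.log_prod (fun σ _ => (hpos σ).ne')]
    apply Real.log_nonneg
    exact prod_norm_ge_one N a ha ha0
  calc (Fintype.card (ℚ⟮zeta N⟯ →ₐ[ℚ] ℂ) : ℝ)
      = ∑ _σ : ℚ⟮zeta N⟯ →ₐ[ℚ] ℂ, (1 : ℝ) := by simp
    _ ≤ ∑ σ : ℚ⟮zeta N⟯ →ₐ[ℚ] ℂ, (1 + Real.log (‖σ a‖)) := by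
        rw [Finset.sum_add_distrib]
        linarith
    _ ≤ ∑ σ : ℚ⟮zeta N⟯ →ₐ[ℚ] ℂ, ‖σ a‖ := Finset.sum_le_sum (fun σ _ => h1 σ)

theorem gal_sum_ge1 {G : Type*} [Group G] [Fintype G] {V : Type*} [AddCommGroup V] [Module ℂ V]
    [FiniteDimensional ℂ V] (ρ : Representation ℂ G V) (R : Finset G)
    (hR : ∀ e : ℕ, e.Coprime (Nat.card G) → ∀ g : G, g ∈ R ↔ g ^ e ∈ R)
    (h0 : ∀ g ∈ R, ρ.character g ≠ 0) :
    (R.card : ℝ) ≤ ∑ g ∈ R, ‖ρ.character g‖ := by
  classical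
  have hN : Nat.card G ≠ 0 := Nat.card_pos.ne'
  have hfd := cyc_fd (Nat.card G) hN
  choose a ha1 ha2 ha3 using fun g : G => char_lift ρ g
  have ha0 : ∀ g ∈ R, a g ≠ 0 := by
    intro g hg h
    apply h0 g hg
    rw [← ha1 g, h]
    rfl
  have hσ : ∀ σ : ℚ⟮zeta (Nat.card G)⟯ →ₐ[ℚ] ℂ,
      ∑ g ∈ R, ‖σ (a g)‖ = ∑ g ∈ R, ‖ρ.character g‖ := by
    intro σ
    obtain ⟨e, he, hσe⟩ := emb_gen (Nat.card G) hN σ
    rw [Finset.sum_congr rfl (fun g _ => by rw [ha3 g σ e hσe])]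
    refine Finset.sum_equiv (powCoprime he.symm) (fun g => ?_) (fun g _ => rfl)
    exact hR e he g
  have hge : (Fintype.card (ℚ⟮zeta (Nat.card G)⟯ →ₐ[ℚ] ℂ) : ℝ) * (R.card : ℝ) ≤
      (Fintype.card (ℚ⟮zeta (Nat.card G)⟯ →ₐ[ℚ] ℂ) : ℝ) * ∑ g ∈ R, ‖ρ.character g‖ := by
    have h1 : ∑ σ : ℚ⟮zeta (Nat.card G)⟯ →ₐ[ℚ] ℂ, ∑ g ∈ R, ‖σ (a g)‖ =
        (Fintype.card (ℚ⟮zeta (Nat.card G)⟯ →ₐ[ℚ] ℂ) : ℝ) * ∑ g ∈ R, ‖ρ.character g‖ := by
      rw [Finset.sum_congr rfl (fun σ _ => hσ σ), Finset.sum_const, Finset.card_univ,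
        nsmul_eq_mul]
    rw [← h1, Finset.sum_comm]
    have h2 : ∀ g ∈ R, (Fintype.card (ℚ⟮zeta (Nat.card G)⟯ →ₐ[ℚ] ℂ) : ℝ) ≤
          ∑ σ : ℚ⟮zeta (Nat.card G)⟯ →ₐ[ℚ] ℂ, ‖σ (a g)‖ :=
      fun g hg => sum_ge_card1 (Nat.card G) (a g) (ha2 g) (ha0 g hg)
    have h3 := Finset.sum_le_sum h2
    rw [Finset.sum_const, nsmul_eq_mul] at h3
    linarith
  have hne : Nonempty (ℚ⟮zeta (Nat.card G)⟯ →ₐ[ℚ] ℂ) := ⟨IntermediateField.val _⟩
  have hcpos : (0 : ℝ) < (Fintype.card (ℚ⟮zeta (Nat.card G)⟯ →ₐ[ℚ] ℂ) : ℝ) := by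
    exact_mod_cast Fintype.card_pos
  exact le_of_mul_le_mul_left hge hcpos

theorem coset_avg_irr {G : Type*} [Group G] [Fintype G] (N : Subgroup G) [N.Normal] [Fintype N]
    {ψ : G → ℂ} (hψ : Cfsg.IsIrrCharacter G ψ) :
    Cfsg.IsCharacter G (fun g => (Nat.card N : ℂ)⁻¹ * ∑ n : N, ψ ((n : G) * g)) := by
  classical
  have hcard : (Nat.card N : ℂ) ≠ 0 := by exact_mod_cast Nat.card_pos.ne'
  have hψ1 := irr_one_ne_zero hψ
  have hf : Cfsg.IsClassFunction G (fun u : G => if u ∈ N then (1 : ℂ) else 0) := by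
    intro g h
    have h1 : h * g * h⁻¹ ∈ N ↔ g ∈ N := by
      constructor
      · intro h2
        have h3 := Subgroup.Normal.conj_mem inferInstance _ h2 h⁻¹
        have h4 : h⁻¹ * (h * g * h⁻¹) * h⁻¹⁻¹ = g := by group
        rw [h4] at h3
        exact h3
      · intro h2
        exact Subgroup.Normal.conj_mem inferInstance _ h2 h
    show (if h * g * h⁻¹ ∈ N then (1 : ℂ) else 0) = if g ∈ N then (1 : ℂ) else 0
    rw [if_congr h1 rfl rfl]
  have key : ∀ w : G, ∑ n : N, ψ ((n : G) * w) =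
      ((∑ g : G, (if g ∈ N then ψ g else 0)) / ψ 1) * ψ w := by
    intro w
    have h1 := conv_char _ hf ψ hψ w
    simp only [ite_mul, one_mul, zero_mul] at h1
    rw [← h1, ← Finset.sum_filter]
    exact (Finset.sum_subtype (Finset.univ.filter (fun g : G => g ∈ N)) (by simp)
      (fun g => ψ (g * w))).symm
  have hs := sum_normal N ⟨ψ, hψ⟩
  by_cases hker : ∀ u ∈ N, ψ u = ψ 1
  · have e : (fun g => (Nat.card N : ℂ)⁻¹ * ∑ n : N, ψ ((n : G) * g)) = ψ := by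
      funext g
      rw [key g, hs, if_pos hker]
      field_simp
    rw [e]
    exact isCharacter_of_irr hψ
  · have e : (fun g => (Nat.card N : ℂ)⁻¹ * ∑ n : N, ψ ((n : G) * g)) = 0 := by
      funext g
      rw [key g, hs, if_neg hker]
      simp
    rw [e]
    exact isCharacter_zero G

theorem coset_avg_list {G : Type*} [Group G] [Fintype G] (N : Subgroup G) [N.Normal] [Fintype N]
    (l : List (G → ℂ)) (hl : ∀ ψ ∈ l, Cfsg.IsIrrCharacter G ψ) :
    Cfsg.IsCharacter G (fun g => (Nat.card N : ℂ)⁻¹ * ∑ n : N, l.sum ((n : G) * g)) := by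
  induction l with
  | nil =>
    have e : (fun g => (Nat.card N : ℂ)⁻¹ * ∑ n : N, ([] : List (G → ℂ)).sum ((n : G) * g)) = 0 := by
      funext g
      simp
    rw [e]
    exact isCharacter_zero G
  | cons a l ih =>
    have e : (fun g => (Nat.card N : ℂ)⁻¹ * ∑ n : N, (a :: l).sum ((n : G) * g)) =
        (fun g => (Nat.card N : ℂ)⁻¹ * ∑ n : N, a ((n : G) * g)) +
          (fun g => (Nat.card N : ℂ)⁻¹ * ∑ n : N, l.sum ((n : G) * g)) := by
      funext g
      simp only [List.sum_cons, Pi.add_apply, Finset.sum_add_distrib, mul_add]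
    rw [e]
    exact isCharacter_add (coset_avg_irr N (hl a (by simp)))
      (ih (fun ψ hψ => hl ψ (by simp [hψ])))

theorem coset_avg_char {G : Type*} [Group G] [Fintype G] (N : Subgroup G) [N.Normal] [Fintype N]
    {φ : G → ℂ} (hφ : Cfsg.IsCharacter G φ) :
    Cfsg.IsCharacter G (fun g => (Nat.card N : ℂ)⁻¹ * ∑ n : N, φ ((n : G) * g)) := by
  obtain ⟨l, hl, rfl⟩ := isCharacter_decomp hφ
  exact coset_avg_list N l hl

theorem result {G : Type*} [Group G] [Finite G] (N : Subgroup G) [N.Normal] (χ : Cfsg.IrrCharacter G) : ¬ Cfsg.IsIrrCharacter ↥N (fun n : ↥N => (χ : G → ℂ) n) ↔ ∃ x : G, ∀ n : ↥N, (χ : G → ℂ) ((n : G) * x) = 0 := by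
  classical
  have _fg : Fintype G := Fintype.ofFinite G
  have _fN : Fintype N := Fintype.ofFinite N
  have hχ := χ.2
  have hχc := isCharacter_of_irr hχ
  obtain ⟨c, hc⟩ : ∃ c : G → ℂ, c = (χ : G → ℂ) := ⟨_, rfl⟩
  rw [← hc] at hχ hχc ⊢
  have hφ : Cfsg.IsCharacter G (c * fun g => conj (c g)) :=
    isCharacter_mul hχc (isCharacter_conj hχc)
  obtain ⟨m, ρ, hρ⟩ := coset_avg_char N hφ
  obtain ⟨L, hL⟩ : ∃ L : G → ℝ, L = fun g => (Nat.card N : ℝ)⁻¹ * ∑ n : N, ‖c ((n : G) * g)‖ ^ 2 :=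
    ⟨_, rfl⟩
  have hNpos : (0 : ℝ) < (Nat.card N : ℝ) := by exact_mod_cast Nat.card_pos
  have hGpos : (0 : ℝ) < (Nat.card G : ℝ) := by exact_mod_cast Nat.card_pos
  have hρL : ∀ g, ρ.character g = (L g : ℂ) := by
    intro g
    have h1 := congrFun hρ g
    rw [h1, hL]
    simp only [Pi.mul_apply]
    push_cast
    congr 1
    refine Finset.sum_congr rfl (fun n _ => ?_)
    rw [Complex.mul_conj']
  have hL0 : ∀ g, 0 ≤ L g := by
    intro g
    rw [hL]
    positivity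
  have hLzero : ∀ g, L g = 0 ↔ ∀ n : N, c ((n : G) * g) = 0 := by
    intro g
    constructor
    · intro h n
      rw [hL] at h
      have h1 : ∑ n : N, ‖c ((n : G) * g)‖ ^ 2 = 0 := by
        rcases mul_eq_zero.mp h with h2 | h2
        · exact absurd (inv_eq_zero.mp h2) hNpos.ne'
        · exact h2
      have h2 := (Finset.sum_eq_zero_iff_of_nonneg (fun n _ => by positivity)).mp h1 n
        (Finset.mem_univ n)
      exact norm_eq_zero.mp ((pow_eq_zero_iff (two_ne_zero)).mp h2)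
    · intro h
      rw [hL]
      show (Nat.card N : ℝ)⁻¹ * ∑ n : N, ‖c ((n : G) * g)‖ ^ 2 = 0
      rw [Finset.sum_eq_zero (fun n _ => by rw [h n, norm_zero]; ring), mul_zero]
  have hnorm : ∀ g, ‖ρ.character g‖ = L g := by
    intro g
    rw [hρL, Complex.norm_real, Real.norm_of_nonneg (hL0 g)]
  have hsq : ∑ g : G, ‖c g‖ ^ 2 = (Nat.card G : ℝ) := by
    have h1 := irr_orthonormal (G := G) hχ hχ
    rw [if_pos rfl] at h1
    unfold Cfsg.classInner at h1
    have h2 : ∀ g : G, c g * conj (c g) = ((‖c g‖ ^ 2 : ℝ) : ℂ) := fun g => by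
      rw [Complex.mul_conj']
      push_cast
      rfl
    rw [Finset.sum_congr rfl (fun g _ => h2 g), ← Complex.ofReal_sum] at h1
    have hG0 : (Nat.card G : ℂ) ≠ 0 := by exact_mod_cast Nat.card_pos.ne'
    rw [inv_mul_eq_iff_eq_mul₀ hG0, mul_one] at h1
    exact_mod_cast h1
  have htot : ∑ g : G, L g = (Nat.card G : ℝ) := by
    rw [hL]
    show ∑ g : G, (Nat.card N : ℝ)⁻¹ * ∑ n : N, ‖c ((n : G) * g)‖ ^ 2 = _
    rw [← Finset.mul_sum, Finset.sum_comm]
    have h2 : ∀ n : N, ∑ g : G, ‖c ((n : G) * g)‖ ^ 2 = (Nat.card G : ℝ) := by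
      intro n
      rw [← hsq]
      exact Equiv.sum_comp (Equiv.mulLeft (n : G)) (fun g => ‖c g‖ ^ 2)
    rw [Finset.sum_congr rfl (fun n _ => h2 n), Finset.sum_const, Finset.card_univ, nsmul_eq_mul,
      ← Nat.card_eq_fintype_card]
    field_simp
  have hN : ∑ g : N, L (g : G) = ∑ k : N, ‖c (k : G)‖ ^ 2 := by
    rw [hL]
    show ∑ g : N, (Nat.card N : ℝ)⁻¹ * ∑ n : N, ‖c ((n : G) * (g : G))‖ ^ 2 = _
    rw [← Finset.mul_sum, Finset.sum_comm]
    have h2 : ∀ n : N, ∑ g : N, ‖c ((n : G) * (g : G))‖ ^ 2 = ∑ k : N, ‖c (k : G)‖ ^ 2 := by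
      intro n
      exact Equiv.sum_comp (Equiv.mulLeft n) (fun k : N => ‖c (k : G)‖ ^ 2)
    rw [Finset.sum_congr rfl (fun n _ => h2 n), Finset.sum_const, Finset.card_univ, nsmul_eq_mul,
      ← Nat.card_eq_fintype_card]
    field_simp
  have hres : Cfsg.IsCharacter N (fun n : N => c n) := comp_isCharacter N.subtype hχc
  have hinner : Cfsg.classInner (fun n : N => c n) (fun n : N => c n) =
      (((Nat.card N : ℝ)⁻¹ * ∑ k : N, ‖c (k : G)‖ ^ 2 : ℝ) : ℂ) := by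
    unfold Cfsg.classInner
    push_cast
    congr 1
    refine Finset.sum_congr rfl (fun n _ => ?_)
    rw [Complex.mul_conj']
  have hsplit : ∑ g : N, L (g : G) + ∑ g ∈ Finset.univ.filter (fun g : G => g ∉ N), L g =
      (Nat.card G : ℝ) := by
    rw [← htot, ← Finset.sum_filter_add_sum_filter_not Finset.univ (fun g : G => g ∈ N) L]
    congr 1
    exact (Finset.sum_subtype (Finset.univ.filter (fun g : G => g ∈ N)) (by simp) L).symm
  constructor
  · intro hred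
    by_contra hno
    simp only [not_exists, not_forall] at hno
    have h0 : ∀ g ∈ Finset.univ.filter (fun g : G => g ∉ N), ρ.character g ≠ 0 := by
      intro g _ h
      rw [hρL g] at h
      have h1 : L g = 0 := by exact_mod_cast h
      obtain ⟨n, hn⟩ := hno g
      exact hn ((hLzero g).mp h1 n)
    have hR : ∀ e : ℕ, e.Coprime (Nat.card G) → ∀ g : G,
        g ∈ Finset.univ.filter (fun g : G => g ∉ N) ↔
          g ^ e ∈ Finset.univ.filter (fun g : G => g ∉ N) := by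
      intro e he g
      simp only [Finset.mem_filter, Finset.mem_univ, true_and]
      rw [not_iff_not]
      constructor
      · intro h
        exact pow_mem h e
      · intro h
        have h1 : Nat.Coprime e (orderOf g) :=
          Nat.Coprime.coprime_dvd_right (orderOf_dvd_natCard g) he
        obtain ⟨k, hk⟩ := exists_pow_eq_self_of_coprime h1
        rw [← hk]
        exact pow_mem h k
    have hge := gal_sum_ge1 ρ _ hR h0
    rw [Finset.sum_congr rfl (fun g _ => hnorm g)] at hge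
    have hcardR : ((Finset.univ.filter (fun g : G => g ∉ N)).card : ℝ) =
        (Nat.card G : ℝ) - (Nat.card N : ℝ) := by
      have h1 := Finset.card_filter_add_card_filter_not (s := (Finset.univ : Finset G))
        (fun g : G => g ∈ N)
      have h2 : (Finset.univ.filter (fun g : G => g ∈ N)).card = Nat.card N := by
        rw [Nat.card_eq_fintype_card, Fintype.card_subtype]
      rw [h2, Finset.card_univ, ← Nat.card_eq_fintype_card] at h1
      have h3 : ((Nat.card N : ℕ) : ℝ) + ((Finset.univ.filter (fun g : G => g ∉ N)).card : ℝ) =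
          (Nat.card G : ℝ) := by exact_mod_cast h1
      linarith
    have hS : ∑ k : N, ‖c (k : G)‖ ^ 2 ≤ (Nat.card N : ℝ) := by
      rw [← hN]
      linarith
    obtain ⟨k, hk⟩ := inner_char_nat hres hres
    rw [hinner] at hk
    have hk' : (Nat.card N : ℝ)⁻¹ * ∑ k : N, ‖c (k : G)‖ ^ 2 = (k : ℝ) := by exact_mod_cast hk
    have hSpos : 0 < ∑ k : N, ‖c (k : G)‖ ^ 2 := by
      have h1 : ‖c ((1 : N) : G)‖ ^ 2 ≤ ∑ k : N, ‖c (k : G)‖ ^ 2 :=
        Finset.single_le_sum (f := fun k : N => ‖c (k : G)‖ ^ 2) (fun k _ => by positivity)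
          (Finset.mem_univ (1 : N))
      have h2 : c ((1 : N) : G) ≠ 0 := by
        rw [Subgroup.coe_one]
        exact irr_one_ne_zero hχ
      have h3 : 0 < ‖c ((1 : N) : G)‖ ^ 2 := by positivity
      linarith
    have hk1 : k = 1 := by
      have h1 : (k : ℝ) ≤ 1 := by
        rw [← hk', inv_mul_le_iff₀ hNpos]
        linarith
      have h2 : (0 : ℝ) < (k : ℝ) := by
        rw [← hk']
        positivity
      have h3 : k ≤ 1 := by exact_mod_cast h1
      have h4 : 0 < k := by exact_mod_cast h2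
      omega
    apply hred
    apply isIrr_of_inner_self hres
    rw [hinner, hk', hk1]
    simp
  · rintro ⟨x, hx⟩ hirr
    have h1 := irr_orthonormal hirr hirr
    rw [if_pos rfl, hinner] at h1
    have h2 : (Nat.card N : ℝ)⁻¹ * ∑ k : N, ‖c (k : G)‖ ^ 2 = 1 := by exact_mod_cast h1
    have hL1 : L 1 = 1 := by
      rw [hL]
      show (Nat.card N : ℝ)⁻¹ * ∑ n : N, ‖c ((n : G) * 1)‖ ^ 2 = 1
      simp only [mul_one]
      exact h2
    have hfr : (Module.finrank ℂ (Fin m → ℂ) : ℝ) = 1 := by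
      have h3 : ρ.character 1 = ((1 : ℝ) : ℂ) := by rw [hρL 1, hL1]
      rw [Representation.char_one] at h3
      exact_mod_cast h3
    have hle : ∀ g, L g ≤ 1 := by
      intro g
      rw [← hnorm g, ← hfr]
      exact rep_char_norm_le ρ g
    have hx0 : L x = 0 := (hLzero x).mpr hx
    have h3 : (1 : ℝ) - L x ≤ ∑ g : G, (1 - L g) :=
      Finset.single_le_sum (f := fun g : G => 1 - L g) (fun g _ => by linarith [hle g])
        (Finset.mem_univ x)
    rw [Finset.sum_sub_distrib, htot, Finset.sum_const, Finset.card_univ, nsmul_eq_mul, mul_one,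
      ← Nat.card_eq_fintype_card, hx0] at h3
    linarith

end Cfsg.Agent.S4996
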