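import Cfsg.Statements.S5011
-- import your own Cfsg.Agent.* helpers here

set_option autoImplicit false
open Cfsg

namespace Cfsg.Agent.S5011

/-- Let G be a finite non-abelian simple group and ρ an irreducible complex representation of G on a space of dimension greater than one (irreducible in the sense that the only subspaces invariant under every ρ(x) are 0 and the whole space). Then for every non-identity element g of G, the centralizer of g does not act irreducibly: there is a non-zero proper subspace invariant under ρ(c) for every c commuting with g. -/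
theorem result {G : Type*} [Group G] [Finite G] [IsSimpleGroup G]
    (hG : ¬ IsMulCommutative G) {V : Type*} [AddCommGroup V] [Module ℂ V] [FiniteDimensional ℂ V]
    (ρ : Representation ℂ G V)
    (hirr : ∀ W : Submodule ℂ V, (∀ x : G, ∀ v ∈ W, ρ x v ∈ W) → W = ⊥ ∨ W = ⊤)
    (hdim : 1 < Module.finrank ℂ V) (g : G) (hg : g ≠ 1) :
    ∃ W : Submodule ℂ V, W ≠ ⊥ ∧ W ≠ ⊤ ∧ ∀ c ∈ Subgroup.centralizer ({g} : Set G), ∀ v ∈ W, ρ c v ∈ W := by
  classical
  haveI : Nontrivial V := by
    apply Module.nontrivial_of_finrank_pos (R := ℂ)
    omega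
  obtain ⟨μ, hμ⟩ := Module.End.exists_eigenvalue (ρ g)
  refine ⟨Module.End.eigenspace (ρ g) μ, hμ, ?_, ?_⟩
  · intro htop
    have hscal : ∀ v : V, ρ g v = μ • v := by
      intro v
      have hv : v ∈ Module.End.eigenspace (ρ g) μ := by rw [htop]; trivial
      exact Module.End.mem_eigenspace_iff.mp hv
    let N : Subgroup G :=
      { carrier := {h | ∃ c : ℂ, ∀ v : V, ρ h v = c • v}
        mul_mem' := by
          rintro a b ⟨ca, ha⟩ ⟨cb, hb⟩
          refine ⟨ca * cb, fun v => ?_⟩
          rw [map_mul, Module.End.mul_apply, hb, map_smul, ha, smul_smul, mul_comm]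
        one_mem' := ⟨1, fun v => by simp⟩
        inv_mem' := by
          rintro a ⟨ca, ha⟩
          refine ⟨ca⁻¹, fun v => ?_⟩
          have hca : ca ≠ 0 := by
            rintro rfl
            obtain ⟨w, hw⟩ := exists_ne (0 : V)
            have h1 : ρ a⁻¹ (ρ a w) = w := by
              rw [← Module.End.mul_apply, ← map_mul, inv_mul_cancel, map_one, Module.End.one_apply]
            rw [ha, zero_smul, map_zero] at h1
            exact hw h1.symm
          have h1 : ρ a (ρ a⁻¹ v) = v := by
            rw [← Module.End.mul_apply, ← map_mul, mul_inv_cancel, map_one, Module.End.one_apply]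
          rw [ha] at h1
          calc ρ a⁻¹ v = ca⁻¹ • (ca • ρ a⁻¹ v) := by rw [smul_smul, inv_mul_cancel₀ hca, one_smul]
            _ = ca⁻¹ • v := by rw [h1] }
    have hN : N.Normal := by
      constructor
      rintro n ⟨c, hc⟩ x
      refine ⟨c, fun v => ?_⟩
      rw [map_mul, map_mul, Module.End.mul_apply, Module.End.mul_apply, hc, map_smul,
        ← Module.End.mul_apply, ← map_mul, mul_inv_cancel, map_one, Module.End.one_apply]
    have hgN : g ∈ N := ⟨μ, hscal⟩
    have hNtop : N = ⊤ := by
      rcases hN.eq_bot_or_eq_top with h | h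
      · exfalso
        rw [h, Subgroup.mem_bot] at hgN
        exact hg hgN
      · exact h
    obtain ⟨w, hw⟩ := exists_ne (0 : V)
    have hinv : ∀ x : G, ∀ v ∈ Submodule.span ℂ ({w} : Set V), ρ x v ∈ Submodule.span ℂ ({w} : Set V) := by
      intro x v hv
      have hx : x ∈ N := by rw [hNtop]; trivial
      obtain ⟨c, hc⟩ := hx
      rw [hc]
      exact Submodule.smul_mem _ _ hv
    rcases hirr _ hinv with h | h
    · rw [Submodule.span_singleton_eq_bot] at h
      exact hw h
    · have h1 : Module.finrank ℂ (Submodule.span ℂ ({w} : Set V)) = 1 := finrank_span_singleton hw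
      rw [h, finrank_top] at h1
      omega
  · intro c hc v hv
    rw [Subgroup.mem_centralizer_iff] at hc
    have hcg : g * c = c * g := hc g (Set.mem_singleton g)
    rw [Module.End.mem_eigenspace_iff] at hv ⊢
    rw [← Module.End.mul_apply, ← map_mul, hcg, map_mul, Module.End.mul_apply, hv, map_smul]

end Cfsg.Agent.S5011
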