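import Cfsg.Statements.S5131

set_option autoImplicit false
open Cfsg

namespace Cfsg.Agent.S5131

/-- Let F be a fusion system over a finite p-group S and F' a fusion system over S'. If α : S → S' is a morphism of fusion systems from F to F' (every map of F induces along α a map of F'), then the kernel of α is strongly closed in S with respect to F. -/
theorem result {Ω : Type*} [Group Ω] {S : Subgroup Ω} [Finite S] (p : ℕ) [Fact p.Prime] (hS : IsPGroup p S) (F : Cfsg.FusionSystem S) {Ω' : Type*} [Group Ω'] {S' : Subgroup Ω'} (F' : Cfsg.FusionSystem S') (α : S →* Ω') (hα : F.IsMorphism F' α) : F.StronglyClosed ((α.ker).map S.subtype) := by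
  refine ⟨Subgroup.map_subtype_le _, ?_⟩
  intro R hR φ hφ x
  obtain ⟨φ', -, hP, hφS, hP', hind⟩ := hα.2 R φ hφ
  obtain ⟨s, hs, hsx⟩ := hR x.2
  have h1 : (⟨(x : Ω), hP x.2⟩ : S) = s := Subtype.ext hsx.symm
  have h2 : α ⟨(x : Ω), hP x.2⟩ = 1 := by
    rw [h1]
    exact hs
  have h3 := hind x
  have h4 : (⟨α ⟨(x : Ω), hP x.2⟩, hP' x⟩ : Cfsg.FusionSystem.imageAlong α R) = 1 :=
    Subtype.ext h2
  rw [h4, map_one] at h3
  exact ⟨⟨φ x, hφS x⟩, h3.symm, rfl⟩

end Cfsg.Agent.S5131
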