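import Cfsg.Statements.S5421

set_option autoImplicit false
open Cfsg

namespace Cfsg.Agent.S5421

theorem comm_of_comm_one {G : Type*} [Group G] (z k : G) (h : z * k * z⁻¹ * k⁻¹ = 1) :
    z * k = k * z := by
  calc z * k = (z * k * z⁻¹ * k⁻¹) * k * z := by group
    _ = k * z := by rw [h, one_mul]

theorem pcore_facts {H : Type*} [Group H] [Finite H] :
    (Cfsg.pCore 2 H).Normal ∧ IsPGroup 2 (Cfsg.pCore 2 H) := by
  have hOnormal : (Cfsg.pCore 2 H).Normal := Subgroup.sSup_normal _ (fun H hH => hH.1)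
  refine ⟨hOnormal, ?_⟩
  have : Fact (Nat.Prime 2) := ⟨Nat.prime_two⟩
  obtain ⟨P⟩ := (inferInstance : Nonempty (Sylow 2 H))
  have hle : Cfsg.pCore 2 H ≤ P := sSup_le (fun N hN => by
    have := hN.1
    exact hN.2.le_sylow_of_normal P)
  exact P.isPGroup'.to_le hle

theorem pow_two_of_pgroup {G : Type*} [Group G] (H : Subgroup G) (hH : IsPGroup 2 H) (g : G)
    (hg : g ∈ H) : ∃ n : ℕ, orderOf g = 2 ^ n := by
  obtain ⟨n, hn⟩ := hH ⟨g, hg⟩
  have h1 : g ^ 2 ^ n = 1 := by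
    have := congrArg Subtype.val hn
    simpa using this
  obtain ⟨m, -, hm⟩ := (Nat.dvd_prime_pow Nat.prime_two).mp (orderOf_dvd_of_pow_eq_one h1)
  exact ⟨m, hm⟩

theorem odd_elim {G : Type*} [Group G] [Finite G] (K : Subgroup G) (hKodd : Odd (Nat.card K))
    (k : G) (hk : k ∈ K) (h : ∃ n : ℕ, orderOf k = 2 ^ n) : k = 1 := by
  obtain ⟨n, hn⟩ := h
  have hdvd : orderOf k ∣ Nat.card K := by
    have := orderOf_dvd_natCard (⟨k, hk⟩ : K)
    rwa [Subgroup.orderOf_mk] at this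
  rw [hn] at hdvd
  have hn0 : n = 0 := by
    by_contra h
    have h2 : 2 ∣ Nat.card K := dvd_trans (dvd_pow_self 2 h) hdvd
    exact (Nat.not_even_iff_odd.mpr hKodd) (even_iff_two_dvd.mpr h2)
  rw [hn0, pow_zero, orderOf_eq_one_iff] at hn
  exact hn

theorem sq_elim {G : Type*} [Group G] [Finite G] (K : Subgroup G) (hKodd : Odd (Nat.card K))
    (k : G) (hk : k ∈ K) (h : k * k = 1) : k = 1 := by
  apply odd_elim K hKodd k hk
  have h1 : k ^ 2 ^ 1 = 1 := by rw [pow_one, pow_two, h]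
  obtain ⟨m, -, hm⟩ := (Nat.dvd_prime_pow Nat.prime_two).mp (orderOf_dvd_of_pow_eq_one h1)
  exact ⟨m, hm⟩

theorem result {G : Type*} [Group G] [Finite G] (Q : Subgroup G) (hL1 : Cfsg.IsExtraspecial 2 ↥Q) (hL2 : Subgroup.centralizer (Q : Set G) = ((Subgroup.center ↥Q).map Q.subtype)) (hL3 : Subgroup.centralizer (((Subgroup.center ↥Q).map Q.subtype) : Set G) ≤ Subgroup.normalizer (Q : Set G)) (b : G) (hbQ : b ∈ Q) (hbZ : b ∉ ((Subgroup.center ↥Q).map Q.subtype)) (hb : orderOf b = 2) (hZ : ((Subgroup.center ↥Q).map Q.subtype) ≤ (Cfsg.pCore 2 ↥(Subgroup.centralizer ({b} : Set G))).map (Subgroup.centralizer ({b} : Set G)).subtype) : Cfsg.IsLargeExtraspecial Q := by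
  refine ⟨hL1, hL2, hL3, ?_⟩
  intro K hKodd hQK
  have hK2 := odd_elim K hKodd
  have hKsq := sq_elim K hKodd
  have hQ2 : IsPGroup 2 Q := hL1.1.1
  have hcard : Nat.card (Subgroup.center ↥Q) = 2 := hL1.2
  obtain ⟨z0, hz0ne, huniq⟩ := (Nat.card_eq_two_iff' (1 : Subgroup.center ↥Q)).mp hcard
  have hz0all : ∀ w : Subgroup.center ↥Q, w = 1 ∨ w = z0 := fun w => by
    by_cases h : w = 1
    · exact Or.inl h
    · exact Or.inr (huniq w h)
  obtain ⟨z, hzdef⟩ : ∃ z : G, z = ((z0 : Q) : G) := ⟨_, rfl⟩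
  have hzQ : z ∈ Q := by rw [hzdef]; exact (z0 : Q).2
  have hzZ : z ∈ (Subgroup.center ↥Q).map Q.subtype :=
    Subgroup.mem_map.mpr ⟨(z0 : Q), z0.2, hzdef.symm⟩
  have hzne : z ≠ 1 := by
    intro h
    apply hz0ne
    apply Subtype.ext
    apply Subtype.ext
    rw [← hzdef, h]
    rfl
  have hZz : ∀ w ∈ (Subgroup.center ↥Q).map Q.subtype, w = 1 ∨ w = z := by
    intro w hw
    obtain ⟨w', hw', rfl⟩ := Subgroup.mem_map.mp hw
    rcases hz0all ⟨w', hw'⟩ with h | h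
    · left
      have := congrArg (fun t : Subgroup.center ↥Q => ((t : Q) : G)) h
      simpa using this
    · right
      have := congrArg (fun t : Subgroup.center ↥Q => ((t : Q) : G)) h
      simpa [hzdef] using this
  have hzcomm : ∀ q ∈ Q, q * z = z * q := by
    intro q hq
    have := Subgroup.mem_center_iff.mp z0.2 ⟨q, hq⟩
    have := congrArg Subtype.val this
    simpa [hzdef] using this
  have hz2 : z * z = 1 := by
    rcases hZz (z * z) (Subgroup.mul_mem _ hzZ hzZ) with h | h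
    · exact h
    · exact absurd (mul_eq_left.mp h) hzne
  have hzinv : z⁻¹ = z := inv_eq_of_mul_eq_one_left hz2
  have hCKz : ∀ k ∈ K, z * k = k * z → k = 1 := by
    intro k hk hkz
    have hkC : k ∈ Subgroup.centralizer (((Subgroup.center ↥Q).map Q.subtype : Subgroup G) : Set G) := by
      rw [Subgroup.mem_centralizer_iff]
      intro w hw
      rcases hZz w hw with rfl | rfl
      · simp
      · exact hkz
    have hkN : k ∈ Subgroup.normalizer (Q : Set G) := hL3 hkC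
    have hkCQ : k ∈ Subgroup.centralizer (Q : Set G) := by
      rw [Subgroup.mem_centralizer_iff]
      intro q hq
      have hqN : q ∈ Subgroup.normalizer (K : Set G) := hQK hq
      have hc : q * k * q⁻¹ * k⁻¹ = 1 := by
        apply hK2
        · exact K.mul_mem ((Subgroup.mem_normalizer_iff.mp hqN k).mp hk) (K.inv_mem hk)
        · apply pow_two_of_pgroup _ hQ2
          have : q * k * q⁻¹ * k⁻¹ = q * (k * q⁻¹ * k⁻¹) := by group
          rw [this]
          exact Q.mul_mem hq ((Subgroup.mem_normalizer_iff.mp hkN q⁻¹).mp (Q.inv_mem hq))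
      exact comm_of_comm_one q k hc
    rw [hL2] at hkCQ
    exact hK2 k hk (pow_two_of_pgroup Q hQ2 k (Subgroup.map_subtype_le _ hkCQ))
  have hzN : z ∈ Subgroup.normalizer (K : Set G) := hQK hzQ
  have hinv : ∀ k ∈ K, z * k * z⁻¹ = k⁻¹ := by
    obtain ⟨f, hf⟩ : ∃ f : K → K, ∀ k : K, ((f k : K) : G) = (k : G)⁻¹ * (z * k * z⁻¹) :=
      ⟨fun k => ⟨(k : G)⁻¹ * (z * k * z⁻¹),
        K.mul_mem (K.inv_mem k.2) ((Subgroup.mem_normalizer_iff.mp hzN k).mp k.2)⟩, fun k => rfl⟩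
    have hfinj : Function.Injective f := by
      intro k h hkh
      have e : (k : G)⁻¹ * (z * k * z⁻¹) = (h : G)⁻¹ * (z * h * z⁻¹) := by
        rw [← hf, ← hf, hkh]
      have e3 : (k : G)⁻¹ * z * k = (h : G)⁻¹ * z * h := by
        have := congrArg (· * z) e
        simpa [mul_assoc] using this
      have e2 : z * ((h : G) * (k : G)⁻¹) = ((h : G) * (k : G)⁻¹) * z := by
        calc z * ((h : G) * (k : G)⁻¹) = h * ((h : G)⁻¹ * z * h) * (k : G)⁻¹ := by group
          _ = h * ((k : G)⁻¹ * z * k) * (k : G)⁻¹ := by rw [e3]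
          _ = (h : G) * (k : G)⁻¹ * z := by group
      have := hCKz _ (K.mul_mem h.2 (K.inv_mem k.2)) e2
      rw [mul_inv_eq_one] at this
      exact Subtype.ext this.symm
    have hfsurj := Finite.surjective_of_injective hfinj
    intro k hk
    obtain ⟨h, hh⟩ := hfsurj ⟨k, hk⟩
    have e : (h : G)⁻¹ * (z * h * z⁻¹) = k := by
      rw [← hf, hh]
    rw [← e, hzinv]
    calc z * ((h : G)⁻¹ * (z * h * z)) * z = z * (h : G)⁻¹ * z * h * (z * z) := by group
      _ = z * (h : G)⁻¹ * z * h := by rw [hz2, mul_one]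
      _ = z⁻¹ * (h : G)⁻¹ * z⁻¹ * h := by rw [hzinv]
      _ = ((h : G)⁻¹ * (z * h * z))⁻¹ := by group
  have hab : ∀ k ∈ K, ∀ h ∈ K, k * h = h * k := by
    intro k hk h hh
    have e1 := hinv (k * h) (K.mul_mem hk hh)
    have e2 : z * (k * h) * z⁻¹ = (z * k * z⁻¹) * (z * h * z⁻¹) := by group
    rw [e2, hinv k hk, hinv h hh, ← mul_inv_rev] at e1
    exact (inv_injective e1).symm
  have hCKb : ∀ k ∈ K, b * k = k * b → k = 1 := by
    intro k hk hkb
    obtain ⟨hOn, hOp⟩ := pcore_facts (H := ↥(Subgroup.centralizer ({b} : Set G)))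
    obtain ⟨z', hz', hz'eq⟩ := Subgroup.mem_map.mp (hZ hzZ)
    have hkC : k ∈ Subgroup.centralizer ({b} : Set G) := by
      rw [Subgroup.mem_centralizer_iff]
      intro h hh
      rw [Set.mem_singleton_iff.mp hh]
      exact hkb
    have hc' : z' * (⟨k, hkC⟩ * z'⁻¹ * (⟨k, hkC⟩ : ↥(Subgroup.centralizer ({b} : Set G)))⁻¹) ∈
        Cfsg.pCore 2 ↥(Subgroup.centralizer ({b} : Set G)) :=
      Subgroup.mul_mem _ hz' (hOn.conj_mem _ (Subgroup.inv_mem _ hz') _)
    obtain ⟨n, hn⟩ := pow_two_of_pgroup _ hOp _ hc'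
    rw [← Subgroup.orderOf_coe] at hn
    have hval : ((z' * (⟨k, hkC⟩ * z'⁻¹ * (⟨k, hkC⟩ : ↥(Subgroup.centralizer ({b} : Set G)))⁻¹) :
        ↥(Subgroup.centralizer ({b} : Set G))) : G) = k⁻¹ * k⁻¹ := by
      have hz'' : (z' : G) = z := hz'eq
      push_cast
      rw [hz'']
      calc z * (k * z⁻¹ * k⁻¹) = (z * k * z⁻¹) * k⁻¹ := by group
        _ = k⁻¹ * k⁻¹ := by rw [hinv k hk]
    rw [hval] at hn
    have h1 := hK2 _ (K.mul_mem (K.inv_mem hk) (K.inv_mem hk)) ⟨n, hn⟩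
    apply hKsq k hk
    rw [← mul_inv_rev, inv_eq_one] at h1
    exact h1
  have hb2 : b * b = 1 := by
    have := pow_orderOf_eq_one b
    rwa [hb, pow_two] at this
  have hbinv : b⁻¹ = b := inv_eq_of_mul_eq_one_left hb2
  obtain ⟨y, hyQ, hy⟩ : ∃ y ∈ Q, y * b * y⁻¹ = b * z := by
    have hbc : (⟨b, hbQ⟩ : Q) ∉ Subgroup.center ↥Q := fun h =>
      hbZ (Subgroup.mem_map.mpr ⟨⟨b, hbQ⟩, h, rfl⟩)
    rw [Subgroup.mem_center_iff] at hbc
    push Not at hbc
    obtain ⟨y, hy⟩ := hbc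
    have hmem : y * (⟨b, hbQ⟩ : Q) * y⁻¹ * (⟨b, hbQ⟩ : Q)⁻¹ ∈ Subgroup.center ↥Q := by
      rw [← hL1.1.2.2]
      have := Subgroup.commutator_mem_commutator (Subgroup.mem_top y)
        (Subgroup.mem_top (⟨b, hbQ⟩ : Q))
      rw [commutatorElement_def] at this
      exact this
    have hmem' : (y : G) * b * (y : G)⁻¹ * b⁻¹ ∈ (Subgroup.center ↥Q).map Q.subtype :=
      Subgroup.mem_map.mpr ⟨_, hmem, by simp⟩
    refine ⟨y, y.2, ?_⟩
    rcases hZz _ hmem' with h | h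
    · exfalso
      apply hy
      apply Subtype.ext
      exact comm_of_comm_one _ _ h
    · calc (y : G) * b * (y : G)⁻¹ = ((y : G) * b * (y : G)⁻¹ * b⁻¹) * b := by group
        _ = z * b := by rw [h]
        _ = b * z := (hzcomm b hbQ).symm
  have hCKbz : ∀ k ∈ K, (b * z) * k = k * (b * z) → k = 1 := by
    intro k hk hkc
    have hmem : y⁻¹ * k * y ∈ K := by
      have := (Subgroup.mem_normalizer_iff.mp (hQK (Q.inv_mem hyQ)) k).mp hk
      simpa using this
    have hc : b * (y⁻¹ * k * y) = (y⁻¹ * k * y) * b := by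
      calc b * (y⁻¹ * k * y) = y⁻¹ * ((y * b * y⁻¹) * k) * y := by group
        _ = y⁻¹ * (k * (y * b * y⁻¹)) * y := by rw [hy, hkc]
        _ = (y⁻¹ * k * y) * b := by group
    have h1 := hCKb _ hmem hc
    have : k = y * (y⁻¹ * k * y) * y⁻¹ := by group
    rw [this, h1]
    group
  rw [eq_bot_iff]
  intro k hk
  rw [Subgroup.mem_bot]
  have hbN : b ∈ Subgroup.normalizer (K : Set G) := hQK hbQ
  have hk' : b * k * b ∈ K := by
    have := (Subgroup.mem_normalizer_iff.mp hbN k).mp hk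
    rwa [hbinv] at this
  have hu : k * (b * k * b) = 1 := by
    apply hCKb _ (K.mul_mem hk hk')
    have h1 := hab _ hk' _ hk
    calc b * (k * (b * k * b)) = ((b * k * b) * k) * b := by group
      _ = (k * (b * k * b)) * b := by rw [h1]
  have hv : k * (b * k * b)⁻¹ = 1 := by
    have hvK : k * (b * k * b)⁻¹ ∈ K := K.mul_mem hk (K.inv_mem hk')
    apply hCKbz _ hvK
    have h1 := hinv _ hvK
    have h2 : z * (k * (b * k * b)⁻¹) = (k * (b * k * b)⁻¹)⁻¹ * z := by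
      calc z * (k * (b * k * b)⁻¹) = (z * (k * (b * k * b)⁻¹) * z⁻¹) * z := by group
        _ = (k * (b * k * b)⁻¹)⁻¹ * z := by rw [h1]
    have h3 : b * (k * (b * k * b)⁻¹)⁻¹ = (k * (b * k * b)⁻¹) * b := by
      calc b * (k * (b * k * b)⁻¹)⁻¹ = (b * b) * k * b * k⁻¹ := by group
        _ = k * b * k⁻¹ := by rw [hb2, one_mul]
        _ = k * b⁻¹ * k⁻¹ := by rw [hbinv]
        _ = (k * (b * k * b)⁻¹) * b := by group
    calc b * z * (k * (b * k * b)⁻¹) = b * (z * (k * (b * k * b)⁻¹)) := by group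
      _ = b * ((k * (b * k * b)⁻¹)⁻¹ * z) := by rw [h2]
      _ = (b * (k * (b * k * b)⁻¹)⁻¹) * z := by group
      _ = (k * (b * k * b)⁻¹) * b * z := by rw [h3]
      _ = k * (b * k * b)⁻¹ * (b * z) := by group
  apply hKsq k hk
  have e1 : b * k * b = k := (mul_inv_eq_one.mp hv).symm
  rw [e1] at hu
  exact hu

end Cfsg.Agent.S5421
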