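import Cfsg.Statements.S5598
import Cfsg.Agent.S5421

set_option autoImplicit false
open Cfsg

namespace Cfsg.Agent.S5598

theorem mem_Q_iff {G : Type*} [Group G] [Finite G] (x a : G) :
    a ∈ (Cfsg.pCore 2 ↥(Subgroup.centralizer ({x} : Set G))).map
        (Subgroup.centralizer ({x} : Set G)).subtype ↔
    ∃ N : Subgroup G, IsPGroup 2 N ∧ N ≤ Subgroup.centralizer ({x} : Set G) ∧
      (∀ c ∈ Subgroup.centralizer ({x} : Set G), ∀ n ∈ N, c * n * c⁻¹ ∈ N) ∧ a ∈ N := by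
  obtain ⟨hOn, hOp⟩ := Cfsg.Agent.S5421.pcore_facts (H := ↥(Subgroup.centralizer ({x} : Set G)))
  constructor
  · intro ha
    refine ⟨_, hOp.map _, Subgroup.map_subtype_le _, ?_, ha⟩
    intro c hc n hn
    obtain ⟨n', hn', rfl⟩ := Subgroup.mem_map.mp hn
    exact Subgroup.mem_map.mpr ⟨⟨c, hc⟩ * n' * ⟨c, hc⟩⁻¹, hOn.conj_mem _ hn' _, rfl⟩
  · rintro ⟨N, hN2, hNC, hNn, haN⟩
    have hnorm : (N.subgroupOf (Subgroup.centralizer ({x} : Set G))).Normal := by
      constructor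
      intro n hn c
      rw [Subgroup.mem_subgroupOf] at hn ⊢
      exact hNn c c.2 n hn
    have hp : IsPGroup 2 (N.subgroupOf (Subgroup.centralizer ({x} : Set G))) := hN2.comap_subtype
    have hle : N.subgroupOf (Subgroup.centralizer ({x} : Set G)) ≤
        Cfsg.pCore 2 ↥(Subgroup.centralizer ({x} : Set G)) := le_sSup ⟨hnorm, hp⟩
    exact Subgroup.mem_map.mpr ⟨⟨a, hNC haN⟩, hle (Subgroup.mem_subgroupOf.mpr haN), rfl⟩

theorem conj_Q {G : Type*} [Group G] [Finite G] (Q : G → Subgroup G)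
    (hQ : ∀ x : G, Q x = (Cfsg.pCore 2 ↥(Subgroup.centralizer ({x} : Set G))).map
      (Subgroup.centralizer ({x} : Set G)).subtype)
    (x g a : G) (ha : a ∈ Q x) : g * a * g⁻¹ ∈ Q (g * x * g⁻¹) := by
  rw [hQ, mem_Q_iff] at ha ⊢
  obtain ⟨N, hN2, hNC, hNn, haN⟩ := ha
  refine ⟨N.map (MulAut.conj g).toMonoidHom, hN2.map _, ?_, ?_, ?_⟩
  · rintro _ ⟨n, hn, rfl⟩
    have h1 := Subgroup.mem_centralizer_iff.mp (hNC hn) x rfl
    rw [Subgroup.mem_centralizer_iff]
    intro h hh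
    rw [Set.mem_singleton_iff.mp hh]
    show g * x * g⁻¹ * (g * n * g⁻¹) = g * n * g⁻¹ * (g * x * g⁻¹)
    calc g * x * g⁻¹ * (g * n * g⁻¹) = g * (x * n) * g⁻¹ := by group
      _ = g * (n * x) * g⁻¹ := by rw [h1]
      _ = g * n * g⁻¹ * (g * x * g⁻¹) := by group
  · rintro c hc _ ⟨n, hn, rfl⟩
    have h1 := Subgroup.mem_centralizer_iff.mp hc (g * x * g⁻¹) rfl
    have hc' : g⁻¹ * c * g ∈ Subgroup.centralizer ({x} : Set G) := by
      rw [Subgroup.mem_centralizer_iff]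
      intro h hh
      rw [Set.mem_singleton_iff.mp hh]
      calc x * (g⁻¹ * c * g) = g⁻¹ * ((g * x * g⁻¹) * c) * g := by group
        _ = g⁻¹ * (c * (g * x * g⁻¹)) * g := by rw [h1]
        _ = g⁻¹ * c * g * x := by group
    refine Subgroup.mem_map.mpr ⟨_, hNn _ hc' n hn, ?_⟩
    show g * (g⁻¹ * c * g * n * (g⁻¹ * c * g)⁻¹) * g⁻¹ = c * (g * n * g⁻¹) * c⁻¹
    group
  · exact Subgroup.mem_map.mpr ⟨a, haN, rfl⟩

theorem conj_Q' {G : Type*} [Group G] [Finite G] (Q : G → Subgroup G)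
    (hQ : ∀ x : G, Q x = (Cfsg.pCore 2 ↥(Subgroup.centralizer ({x} : Set G))).map
      (Subgroup.centralizer ({x} : Set G)).subtype)
    (x g a : G) (ha : a ∈ Q (g * x * g⁻¹)) : g⁻¹ * a * g ∈ Q x := by
  have := conj_Q Q hQ (g * x * g⁻¹) g⁻¹ a ha
  have e : g⁻¹ * (g * x * g⁻¹) * g⁻¹⁻¹ = x := by group
  rw [e, inv_inv] at this
  exact this

theorem Q_le_centralizer {G : Type*} [Group G] [Finite G] (Q : G → Subgroup G)
    (hQ : ∀ x : G, Q x = (Cfsg.pCore 2 ↥(Subgroup.centralizer ({x} : Set G))).map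
      (Subgroup.centralizer ({x} : Set G)).subtype)
    (x a : G) (ha : a ∈ Q x) : a * x = x * a := by
  rw [hQ] at ha
  exact (Subgroup.mem_centralizer_iff.mp (Subgroup.map_subtype_le _ ha) x rfl).symm

theorem es_facts {G : Type*} [Group G] [Finite G] (Q : G → Subgroup G)
    (hQ : ∀ x : G, Q x = (Cfsg.pCore 2 ↥(Subgroup.centralizer ({x} : Set G))).map
      (Subgroup.centralizer ({x} : Set G)).subtype)
    (z : G) (hz : orderOf z = 2) (hE : Cfsg.IsExtraspecial 2 ↥(Q z))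
    (hC : Subgroup.centralizer ((Q z : Subgroup G) : Set G) ≤ Q z) :
    z ∈ Q z ∧ (∀ a ∈ Q z, ∀ b ∈ Q z, a * b * a⁻¹ * b⁻¹ = 1 ∨ a * b * a⁻¹ * b⁻¹ = z) ∧
      (∀ a ∈ Q z, (∀ b ∈ Q z, a * b = b * a) → a = 1 ∨ a = z) := by
  have hzQ : z ∈ Q z := by
    apply hC
    rw [Subgroup.mem_centralizer_iff]
    intro q hq
    exact Q_le_centralizer Q hQ z q hq
  have hzne : z ≠ 1 := by
    intro h
    rw [h, orderOf_one] at hz
    omega
  have hzc : (⟨z, hzQ⟩ : Q z) ∈ Subgroup.center ↥(Q z) := by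
    rw [Subgroup.mem_center_iff]
    intro q
    apply Subtype.ext
    exact Q_le_centralizer Q hQ z q q.2
  have hcard : Nat.card (Subgroup.center ↥(Q z)) = 2 := hE.2
  obtain ⟨z0, hz0ne, huniq⟩ := (Nat.card_eq_two_iff' (1 : Subgroup.center ↥(Q z))).mp hcard
  have hz0 : (⟨⟨z, hzQ⟩, hzc⟩ : Subgroup.center ↥(Q z)) = z0 := by
    apply huniq
    intro h
    apply hzne
    have := congrArg (fun t : Subgroup.center ↥(Q z) => ((t : Q z) : G)) h
    simpa using this
  have hall : ∀ w : Q z, w ∈ Subgroup.center ↥(Q z) → (w : G) = 1 ∨ (w : G) = z := by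
    intro w hw
    by_cases h : (⟨w, hw⟩ : Subgroup.center ↥(Q z)) = 1
    · left
      have := congrArg (fun t : Subgroup.center ↥(Q z) => ((t : Q z) : G)) h
      simpa using this
    · right
      have h2 := huniq _ h
      rw [← hz0] at h2
      have := congrArg (fun t : Subgroup.center ↥(Q z) => ((t : Q z) : G)) h2
      simpa using this
  refine ⟨hzQ, ?_, ?_⟩
  · intro a ha b hb
    have hmem : (⟨a, ha⟩ : Q z) * ⟨b, hb⟩ * (⟨a, ha⟩ : Q z)⁻¹ * (⟨b, hb⟩ : Q z)⁻¹ ∈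
        Subgroup.center ↥(Q z) := by
      rw [← hE.1.2.2]
      have := Subgroup.commutator_mem_commutator (Subgroup.mem_top (⟨a, ha⟩ : Q z))
        (Subgroup.mem_top (⟨b, hb⟩ : Q z))
      rw [commutatorElement_def] at this
      exact this
    have := hall _ hmem
    simpa using this
  · intro a ha hcomm
    have hmem : (⟨a, ha⟩ : Q z) ∈ Subgroup.center ↥(Q z) := by
      rw [Subgroup.mem_center_iff]
      intro q
      apply Subtype.ext
      exact (hcomm q q.2).symm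
    exact hall _ hmem

theorem es_facts' {G : Type*} [Group G] [Finite G] (Q : G → Subgroup G)
    (hQ : ∀ x : G, Q x = (Cfsg.pCore 2 ↥(Subgroup.centralizer ({x} : Set G))).map
      (Subgroup.centralizer ({x} : Set G)).subtype)
    (z : G) (hz : orderOf z = 2) (hE : Cfsg.IsExtraspecial 2 ↥(Q z))
    (hC : Subgroup.centralizer ((Q z : Subgroup G) : Set G) ≤ Q z) (u g : G)
    (hu : g * z * g⁻¹ = u) :
    u ∈ Q u ∧ (∀ a ∈ Q u, ∀ b ∈ Q u, a * b * a⁻¹ * b⁻¹ = 1 ∨ a * b * a⁻¹ * b⁻¹ = u) ∧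
      (∀ a ∈ Q u, (∀ b ∈ Q u, a * b = b * a) → a = 1 ∨ a = u) := by
  obtain ⟨h1, h2, h3⟩ := es_facts Q hQ z hz hE hC
  subst hu
  refine ⟨conj_Q Q hQ z g z h1, ?_, ?_⟩
  · intro a ha b hb
    have ha' := conj_Q' Q hQ z g a ha
    have hb' := conj_Q' Q hQ z g b hb
    have e : (g⁻¹ * a * g) * (g⁻¹ * b * g) * (g⁻¹ * a * g)⁻¹ * (g⁻¹ * b * g)⁻¹
        = g⁻¹ * (a * b * a⁻¹ * b⁻¹) * g := by group
    rcases h2 _ ha' _ hb' with h | h
    · left
      rw [e] at h
      calc a * b * a⁻¹ * b⁻¹ = g * (g⁻¹ * (a * b * a⁻¹ * b⁻¹) * g) * g⁻¹ := by group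
        _ = 1 := by rw [h]; group
    · right
      rw [e] at h
      calc a * b * a⁻¹ * b⁻¹ = g * (g⁻¹ * (a * b * a⁻¹ * b⁻¹) * g) * g⁻¹ := by group
        _ = g * z * g⁻¹ := by rw [h]
  · intro a ha hcomm
    have ha' := conj_Q' Q hQ z g a ha
    have hc' : ∀ b ∈ Q z, (g⁻¹ * a * g) * b = b * (g⁻¹ * a * g) := by
      intro b hb
      have := hcomm _ (conj_Q Q hQ z g b hb)
      calc (g⁻¹ * a * g) * b = g⁻¹ * (a * (g * b * g⁻¹)) * g := by group
        _ = g⁻¹ * ((g * b * g⁻¹) * a) * g := by rw [this]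
        _ = b * (g⁻¹ * a * g) := by group
    rcases h3 _ ha' hc' with h | h
    · left
      calc a = g * (g⁻¹ * a * g) * g⁻¹ := by group
        _ = 1 := by rw [h]; group
    · right
      calc a = g * (g⁻¹ * a * g) * g⁻¹ := by group
        _ = g * z * g⁻¹ := by rw [h]

theorem key {G : Type*} [Group G] [Finite G] (Q : G → Subgroup G)
    (hQ : ∀ x : G, Q x = (Cfsg.pCore 2 ↥(Subgroup.centralizer ({x} : Set G))).map
      (Subgroup.centralizer ({x} : Set G)).subtype)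
    (z : G) (hz : orderOf z = 2) (hE : Cfsg.IsExtraspecial 2 ↥(Q z))
    (hC : Subgroup.centralizer ((Q z : Subgroup G) : Set G) ≤ Q z) (u v : G)
    (hu : ∃ g : G, g * z * g⁻¹ = u) (huv : v ≠ u) (hv1 : v ≠ 1) (hvu : v ∈ Q u)
    (huQv : u ∈ Q v) : Q u ⊓ Q v ≤ Q (u * v) := by
  obtain ⟨g, hg⟩ := hu
  obtain ⟨huu, hcomm, hcent⟩ := es_facts' Q hQ z hz hE hC u g hg
  have hex : ∃ h ∈ Q u, ¬ (v * h = h * v) := by
    by_contra hcon
    push Not at hcon
    rcases hcent v hvu hcon with h | h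
    · exact hv1 h
    · exact huv h
  obtain ⟨h, hh, hne⟩ := hex
  have hconj : h * v * h⁻¹ = u * v := by
    rcases hcomm h hh v hvu with e | e
    · exfalso
      apply hne
      exact (Cfsg.Agent.S5421.comm_of_comm_one h v e).symm
    · calc h * v * h⁻¹ = (h * v * h⁻¹ * v⁻¹) * v := by group
        _ = u * v := by rw [e]
  rintro d ⟨hd1, hd2⟩
  have hd1 : d ∈ Q u := hd1
  have hd2 : d ∈ Q v := hd2
  have hd' : h⁻¹ * d * h ∈ Q v := by
    have e : h⁻¹ * d * h = (h⁻¹ * d * h⁻¹⁻¹ * d⁻¹) * d := by group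
    rw [e]
    apply (Q v).mul_mem _ hd2
    rcases hcomm h⁻¹ ((Q u).inv_mem hh) d hd1 with e1 | e1
    · rw [e1]
      exact (Q v).one_mem
    · rw [e1]
      exact huQv
  have := conj_Q Q hQ v h _ hd'
  rw [hconj] at this
  have e : h * (h⁻¹ * d * h) * h⁻¹ = d := by group
  rw [e] at this
  exact this

theorem result {G : Type*} [Group G] [Finite G]
    (Q : G → Subgroup G)
    (hQ : ∀ x : G, Q x = (Cfsg.pCore 2 ↥(Subgroup.centralizer ({x} : Set G))).map (Subgroup.centralizer ({x} : Set G)).subtype)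
    (z : G) (hz : orderOf z = 2) (hE : Cfsg.IsExtraspecial 2 ↥(Q z))
    (hC : Subgroup.centralizer ((Q z : Subgroup G) : Set G) ≤ Q z)
    (U : Subgroup G) (hU2 : ∀ u ∈ U, u * u = 1)
    (hS : ∀ u ∈ U, u ≠ 1 → ∃ g : G, g * z * g⁻¹ = u)
    (hO : ∀ u ∈ U, ∀ v ∈ U, u ≠ 1 → v ≠ 1 → v ∈ Q u)
    (QU LU : Subgroup G) (hQU : QU = ⨅ u ∈ ((U : Set G) \ {1}), Q u) (hLU : LU = ⨆ u ∈ ((U : Set G) \ {1}), Q u)
    (T : Set G) (hT : Subgroup.closure T = U) (hT1 : (1 : G) ∉ T) :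
    QU = ⨅ t ∈ T, Q t := by
  rw [hQU]
  apply le_antisymm
  · apply le_iInf₂
    intro t ht
    have htU : t ∈ U := by
      rw [← hT]
      exact Subgroup.subset_closure ht
    exact iInf₂_le t ⟨htU, fun h => hT1 (by rw [Set.mem_singleton_iff] at h; rwa [h] at ht)⟩
  · apply le_iInf₂
    intro u hu
    have hmain : ∀ w ∈ Subgroup.closure T, w = 1 ∨ (⨅ t ∈ T, Q t) ≤ Q w := by
      intro w hw
      induction hw using Subgroup.closure_induction with
      | mem x hx => exact Or.inr (iInf₂_le x hx)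
      | one => exact Or.inl rfl
      | mul a b ha hb iha ihb =>
        rw [hT] at ha hb
        by_cases ha1 : a = 1
        · rw [ha1, one_mul]
          exact ihb
        by_cases hb1 : b = 1
        · rw [hb1, mul_one]
          exact iha
        by_cases hab : a * b = 1
        · exact Or.inl hab
        right
        have iha' := iha.resolve_left ha1
        have ihb' := ihb.resolve_left hb1
        have hne : b ≠ a := by
          intro h
          apply hab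
          rw [h]
          exact hU2 a ha
        exact (le_inf iha' ihb').trans
          (key Q hQ z hz hE hC a b (hS a ha ha1) hne hb1 (hO a ha b hb ha1 hb1)
            (hO b hb a ha hb1 ha1))
      | inv a ha iha =>
        rw [hT] at ha
        have : a⁻¹ = a := inv_eq_of_mul_eq_one_left (hU2 a ha)
        rw [this]
        exact iha
    have huU : u ∈ Subgroup.closure T := by
      rw [hT]
      exact hu.1
    exact (hmain u huU).resolve_left (fun h => hu.2 (by rw [h]; rfl))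

end Cfsg.Agent.S5598
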