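import Cfsg.Statements.S5597
import Cfsg.Agent.S5598

set_option autoImplicit false
open Cfsg

namespace Cfsg.Agent.S5597

open Classical in
theorem half {G : Type*} [Group G] [Fintype G] (P H : Subgroup G) (u : G)
    (hcomm : ∀ a ∈ P, ∀ b ∈ P, a * b * a⁻¹ * b⁻¹ = 1 ∨ a * b * a⁻¹ * b⁻¹ = u)
    (hHP : H ≤ P) (t : G) (ht : t ∈ P) (h0 : G) (hh0 : h0 ∈ H) (hne : h0 * t ≠ t * h0) :
    2 * ((Finset.univ.filter (· ∈ H)).filter (fun h => h * t = t * h)).card
      = (Finset.univ.filter (· ∈ H)).card := by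
  rw [← Finset.card_filter_add_card_filter_not (s := Finset.univ.filter (· ∈ H))
    (fun h => h * t = t * h), two_mul]
  congr 1
  apply Finset.card_equiv (Equiv.mulLeft h0)
  intro h
  simp only [Finset.mem_filter, Finset.mem_univ, true_and, Equiv.coe_mulLeft]
  constructor
  · rintro ⟨hh, hc⟩
    refine ⟨H.mul_mem hh0 hh, fun e => hne ?_⟩
    calc h0 * t = (h0 * h * t) * h⁻¹ := by rw [mul_assoc h0 h t, hc]; group
      _ = (t * (h0 * h)) * h⁻¹ := by rw [e]
      _ = t * h0 := by group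
  · rintro ⟨hh, hc⟩
    have hhH : h ∈ H := by
      have := H.mul_mem (H.inv_mem hh0) hh
      simpa using this
    refine ⟨hhH, ?_⟩
    by_contra hcon
    apply hc
    have e1 : h0 * t * h0⁻¹ * t⁻¹ = u := by
      rcases hcomm h0 (hHP hh0) t ht with e | e
      · exact absurd (Cfsg.Agent.S5421.comm_of_comm_one _ _ e) hne
      · exact e
    have e2 : h * t * h⁻¹ * t⁻¹ = u := by
      rcases hcomm h (hHP hhH) t ht with e | e
      · exact absurd (Cfsg.Agent.S5421.comm_of_comm_one _ _ e) hcon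
      · exact e
    calc h0 * h * t = h0 * (h * t * h⁻¹ * t⁻¹) * t * h := by group
      _ = h0 * (h0 * t * h0⁻¹ * t⁻¹) * t * h := by rw [e1, e2]
      _ = h0 * h0 * t * h0⁻¹ * h := by group
      _ = t * (h0 * h) := by
        have e3 : h0 * t * h0⁻¹ = u * t := by
          calc h0 * t * h0⁻¹ = (h0 * t * h0⁻¹ * t⁻¹) * t := by group
            _ = u * t := by rw [e1]
        have e4 : h0⁻¹ * t * h0 = u * t := by
          rcases hcomm h0⁻¹ (hHP (H.inv_mem hh0)) t ht with e | e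
          · exfalso
            apply hne
            have := Cfsg.Agent.S5421.comm_of_comm_one _ _ e
            calc h0 * t = h0 * (t * h0⁻¹) * h0 := by group
              _ = h0 * (h0⁻¹ * t) * h0 := by rw [this]
              _ = t * h0 := by group
          · calc h0⁻¹ * t * h0 = (h0⁻¹ * t * h0⁻¹⁻¹ * t⁻¹) * t := by group
              _ = u * t := by rw [e]
        calc h0 * h0 * t * h0⁻¹ * h = h0 * (h0 * t * h0⁻¹) * h := by group
          _ = h0 * (h0⁻¹ * t * h0) * h := by rw [e3, e4]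
          _ = t * (h0 * h) := by group

open Classical in
theorem count {G : Type*} [Group G] [Fintype G] (P A : Subgroup G) (u : G)
    (hu1 : u ≠ 1)
    (hcomm : ∀ a ∈ P, ∀ b ∈ P, a * b * a⁻¹ * b⁻¹ = 1 ∨ a * b * a⁻¹ * b⁻¹ = u)
    (hcent : ∀ a ∈ P, (∀ b ∈ P, a * b = b * a) → a = 1 ∨ a = u)
    (hucent : ∀ b ∈ P, u * b = b * u)
    (hAP : A ≤ P) (huA : u ∈ A) :
    (Finset.univ.filter (· ∈ A)).card *
        (Finset.univ.filter (fun c => c ∈ P ∧ ∀ a ∈ A, c * a = a * c)).card
      = 2 * (Finset.univ.filter (· ∈ P)).card := by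
  have hdc : ∑ a ∈ Finset.univ.filter (· ∈ A),
        2 * ((Finset.univ.filter (· ∈ P)).filter (fun c => c * a = a * c)).card
      = ∑ c ∈ Finset.univ.filter (· ∈ P),
        2 * ((Finset.univ.filter (· ∈ A)).filter (fun a => c * a = a * c)).card := by
    simp only [Finset.card_filter, Finset.mul_sum]
    rw [Finset.sum_comm]
  have h1 : ∀ a ∈ Finset.univ.filter (· ∈ A),
      2 * ((Finset.univ.filter (· ∈ P)).filter (fun c => c * a = a * c)).card
        = (Finset.univ.filter (· ∈ P)).card +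
          (if a = 1 ∨ a = u then (Finset.univ.filter (· ∈ P)).card else 0) := by
    intro a ha
    have haA : a ∈ A := (Finset.mem_filter.mp ha).2
    split_ifs with h
    · have : (Finset.univ.filter (· ∈ P)).filter (fun c => c * a = a * c)
          = Finset.univ.filter (· ∈ P) := by
        apply Finset.filter_true_of_mem
        intro c hc
        have hcP : c ∈ P := (Finset.mem_filter.mp hc).2
        rcases h with rfl | rfl
        · simp
        · exact (hucent c hcP).symm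
      rw [this, two_mul]
    · rw [add_zero]
      have hex : ∃ c0 ∈ P, c0 * a ≠ a * c0 := by
        by_contra hcon
        push Not at hcon
        exact h (hcent a (hAP haA) (fun b hb => (hcon b hb).symm))
      obtain ⟨c0, hc0, hne⟩ := hex
      exact half P P u hcomm le_rfl a (hAP haA) c0 hc0 hne
  have h2 : ∀ c ∈ Finset.univ.filter (· ∈ P),
      2 * ((Finset.univ.filter (· ∈ A)).filter (fun a => c * a = a * c)).card
        = (Finset.univ.filter (· ∈ A)).card +
          (if (∀ a ∈ A, c * a = a * c) then (Finset.univ.filter (· ∈ A)).card else 0) := by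
    intro c hc
    have hcP : c ∈ P := (Finset.mem_filter.mp hc).2
    split_ifs with h
    · have : (Finset.univ.filter (· ∈ A)).filter (fun a => c * a = a * c)
          = Finset.univ.filter (· ∈ A) := by
        apply Finset.filter_true_of_mem
        intro a ha
        exact h a (Finset.mem_filter.mp ha).2
      rw [this, two_mul]
    · rw [add_zero]
      push Not at h
      obtain ⟨a0, ha0, hne⟩ := h
      have := half P A u hcomm hAP c hcP a0 ha0 (fun e => hne e.symm)
      rw [← this]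
      congr 2
      apply Finset.filter_congr
      intro a _
      exact eq_comm
  rw [Finset.sum_congr rfl h1, Finset.sum_congr rfl h2, Finset.sum_add_distrib,
    Finset.sum_add_distrib, Finset.sum_const, Finset.sum_const, ← Finset.sum_filter,
    ← Finset.sum_filter, Finset.sum_const, Finset.sum_const] at hdc
  have e1 : ((Finset.univ.filter (· ∈ A)).filter (fun a => a = 1 ∨ a = u)).card = 2 := by
    have : (Finset.univ.filter (· ∈ A)).filter (fun a => a = 1 ∨ a = u) = {1, u} := by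
      ext a
      simp only [Finset.mem_filter, Finset.mem_insert, Finset.mem_singleton, Finset.mem_univ,
        true_and]
      constructor
      · exact fun h => h.2
      · rintro (rfl | rfl)
        · exact ⟨A.one_mem, Or.inl rfl⟩
        · exact ⟨huA, Or.inr rfl⟩
    rw [this, Finset.card_pair hu1.symm]
  have e2 : (Finset.univ.filter (· ∈ P)).filter (fun c => ∀ a ∈ A, c * a = a * c)
      = Finset.univ.filter (fun c => c ∈ P ∧ ∀ a ∈ A, c * a = a * c) := by
    ext c
    simp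
  rw [e1, e2] at hdc
  simp only [smul_eq_mul] at hdc
  nlinarith [hdc]

theorem exists_centralizing {G : Type*} [Group G] [Finite G] (P A : Subgroup G) (u : G)
    (hu1 : u ≠ 1)
    (hcomm : ∀ a ∈ P, ∀ b ∈ P, a * b * a⁻¹ * b⁻¹ = 1 ∨ a * b * a⁻¹ * b⁻¹ = u)
    (hcent : ∀ a ∈ P, (∀ b ∈ P, a * b = b * a) → a = 1 ∨ a = u)
    (hucent : ∀ b ∈ P, u * b = b * u)
    (hAP : A ≤ P) (huA : u ∈ A) (x : G) (hxP : x ∈ P) (hxA : x ∉ A) :
    ∃ g ∈ P, (∀ a ∈ A, g * a = a * g) ∧ g * x * g⁻¹ = x * u := by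
  classical
  have := Fintype.ofFinite G
  have c1 := count P A u hu1 hcomm hcent hucent hAP huA
  have hA'P : A ⊔ Subgroup.zpowers x ≤ P :=
    sup_le hAP (by rw [Subgroup.zpowers_le]; exact hxP)
  have c2 := count P (A ⊔ Subgroup.zpowers x) u hu1 hcomm hcent hucent hA'P
    ((le_sup_left : A ≤ A ⊔ Subgroup.zpowers x) huA)
  have hxA' : x ∈ A ⊔ Subgroup.zpowers x :=
    (le_sup_right : Subgroup.zpowers x ≤ A ⊔ Subgroup.zpowers x) (Subgroup.mem_zpowers x)
  have hlt : (Finset.univ.filter (· ∈ A)).card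
      < (Finset.univ.filter (· ∈ A ⊔ Subgroup.zpowers x)).card := by
    apply Finset.card_lt_card
    rw [Finset.ssubset_iff_of_subset]
    · exact ⟨x, by simp [hxA'], by simp [hxA]⟩
    · intro a ha
      rw [Finset.mem_filter] at ha ⊢
      exact ⟨ha.1, (le_sup_left : A ≤ A ⊔ Subgroup.zpowers x) ha.2⟩
  have hPpos : 0 < (Finset.univ.filter (· ∈ P)).card :=
    Finset.card_pos.mpr ⟨1, by simp [P.one_mem]⟩
  have hlt2 : (Finset.univ.filter
        (fun c => c ∈ P ∧ ∀ a ∈ A ⊔ Subgroup.zpowers x, c * a = a * c)).card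
      < (Finset.univ.filter (fun c => c ∈ P ∧ ∀ a ∈ A, c * a = a * c)).card := by
    by_contra hle
    push Not at hle
    have hpos : 0 < (Finset.univ.filter
        (fun c => c ∈ P ∧ ∀ a ∈ A ⊔ Subgroup.zpowers x, c * a = a * c)).card := by
      rcases Nat.eq_zero_or_pos (Finset.univ.filter
        (fun c => c ∈ P ∧ ∀ a ∈ A ⊔ Subgroup.zpowers x, c * a = a * c)).card with h | h
      · rw [h, mul_zero] at c2
        omega
      · exact h
    have := Nat.mul_lt_mul_of_lt_of_le hlt hle hpos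
    omega
  obtain ⟨g, hg, hg'⟩ := Finset.exists_mem_notMem_of_card_lt_card hlt2
  simp only [Finset.mem_filter, Finset.mem_univ, true_and] at hg hg'
  obtain ⟨hgP, hgA⟩ := hg
  have hgx : ¬ (g * x = x * g) := by
    intro hcon
    apply hg'
    refine ⟨hgP, ?_⟩
    have hle : A ⊔ Subgroup.zpowers x ≤ Subgroup.centralizer ({g} : Set G) := by
      apply sup_le
      · intro a ha
        rw [Subgroup.mem_centralizer_iff]
        intro h hh
        rw [Set.mem_singleton_iff.mp hh]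
        exact hgA a ha
      · rw [Subgroup.zpowers_le, Subgroup.mem_centralizer_iff]
        intro h hh
        rw [Set.mem_singleton_iff.mp hh]
        exact hcon
    intro a ha
    exact Subgroup.mem_centralizer_iff.mp (hle ha) g rfl
  refine ⟨g, hgP, hgA, ?_⟩
  rcases hcomm g hgP x hxP with e | e
  · exact absurd (Cfsg.Agent.S5421.comm_of_comm_one _ _ e) hgx
  · calc g * x * g⁻¹ = (g * x * g⁻¹ * x⁻¹) * x := by group
      _ = u * x := by rw [e]
      _ = x * u := hucent x hxP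

theorem Q_normalizes {G : Type*} [Group G] [Finite G]
    (Q : G → Subgroup G)
    (hQ : ∀ x : G, Q x = (Cfsg.pCore 2 ↥(Subgroup.centralizer ({x} : Set G))).map (Subgroup.centralizer ({x} : Set G)).subtype)
    (z : G) (hz : orderOf z = 2) (hE : Cfsg.IsExtraspecial 2 ↥(Q z))
    (hC : Subgroup.centralizer ((Q z : Subgroup G) : Set G) ≤ Q z)
    (U : Subgroup G)
    (hS : ∀ u ∈ U, u ≠ 1 → ∃ g : G, g * z * g⁻¹ = u)
    (hO : ∀ u ∈ U, ∀ v ∈ U, u ≠ 1 → v ≠ 1 → v ∈ Q u) (u : G) (hu : u ∈ U) (hu1 : u ≠ 1) :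
    Q u ≤ Subgroup.normalizer (U : Set G) := by
  obtain ⟨g, hg⟩ := hS u hu hu1
  obtain ⟨huu, hcomm, hcent⟩ := Cfsg.Agent.S5598.es_facts' Q hQ z hz hE hC u g hg
  have hF : ∀ q ∈ Q u, ∀ v ∈ U, q * v * q⁻¹ ∈ U := by
    intro q hq v hv
    by_cases hv1 : v = 1
    · rw [hv1]
      simp
    · have hvQ : v ∈ Q u := hO u hu v hv hu1 hv1
      have e : q * v * q⁻¹ = (q * v * q⁻¹ * v⁻¹) * v := by group
      rw [e]
      rcases hcomm q hq v hvQ with e1 | e1
      · rw [e1, one_mul]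
        exact hv
      · rw [e1]
        exact U.mul_mem hu hv
  intro q hq
  rw [Subgroup.mem_normalizer_iff]
  intro v
  constructor
  · exact hF q hq v
  · intro h
    have := hF q⁻¹ ((Q u).inv_mem hq) _ h
    have e : q⁻¹ * (q * v * q⁻¹) * q⁻¹⁻¹ = v := by group
    rwa [e] at this

theorem result {G : Type*} [Group G] [Finite G]
    (Q : G → Subgroup G)
    (hQ : ∀ x : G, Q x = (Cfsg.pCore 2 ↥(Subgroup.centralizer ({x} : Set G))).map (Subgroup.centralizer ({x} : Set G)).subtype)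
    (z : G) (hz : orderOf z = 2) (hE : Cfsg.IsExtraspecial 2 ↥(Q z))
    (hC : Subgroup.centralizer ((Q z : Subgroup G) : Set G) ≤ Q z)
    (U : Subgroup G) (hU2 : ∀ u ∈ U, u * u = 1)
    (hS : ∀ u ∈ U, u ≠ 1 → ∃ g : G, g * z * g⁻¹ = u)
    (hO : ∀ u ∈ U, ∀ v ∈ U, u ≠ 1 → v ≠ 1 → v ∈ Q u)
    (QU LU : Subgroup G) (hQU : QU = ⨅ u ∈ ((U : Set G) \ {1}), Q u) (hLU : LU = ⨆ u ∈ ((U : Set G) \ {1}), Q u)
    (hU : U ≠ ⊥) :
    (∀ g ∈ LU, ∀ x ∈ QU, g * x * g⁻¹ * x⁻¹ ∈ U) ∧
      ∀ x ∈ QU, x ∉ U → ∀ u ∈ U, ∃ g ∈ LU ⊓ Subgroup.centralizer (U : Set G), g * x * g⁻¹ = x * u := by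
  have hQUle : ∀ u ∈ U, u ≠ 1 → QU ≤ Q u := by
    intro u hu hu1
    rw [hQU]
    exact iInf₂_le u ⟨hu, fun h => hu1 (Set.mem_singleton_iff.mp h)⟩
  have hQle : ∀ u ∈ U, u ≠ 1 → Q u ≤ LU := by
    intro u hu hu1
    rw [hLU]
    exact le_iSup₂ (f := fun u (_ : u ∈ ((U : Set G) \ {1})) => Q u) u
      ⟨hu, fun h => hu1 (Set.mem_singleton_iff.mp h)⟩
  constructor
  · obtain ⟨W, hW⟩ : ∃ W : Subgroup G, ∀ g, g ∈ W ↔
        (g ∈ Subgroup.normalizer (U : Set G) ∧ ∀ x ∈ QU, g * x * g⁻¹ * x⁻¹ ∈ U) := by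
      refine ⟨{ carrier := {g | g ∈ Subgroup.normalizer (U : Set G) ∧
                  ∀ x ∈ QU, g * x * g⁻¹ * x⁻¹ ∈ U}
                mul_mem' := ?_
                one_mem' := ?_
                inv_mem' := ?_ }, fun g => Iff.rfl⟩
      · rintro a b ⟨ha1, ha2⟩ ⟨hb1, hb2⟩
        refine ⟨Subgroup.mul_mem _ ha1 hb1, fun x hx => ?_⟩
        have e : a * b * x * (a * b)⁻¹ * x⁻¹ = (a * (b * x * b⁻¹ * x⁻¹) * a⁻¹) * (a * x * a⁻¹ * x⁻¹) := by
          group
        rw [e]
        exact U.mul_mem ((Subgroup.mem_normalizer_iff.mp ha1 _).mp (hb2 x hx)) (ha2 x hx)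
      · refine ⟨Subgroup.one_mem _, fun x hx => ?_⟩
        simp
      · rintro a ⟨ha1, ha2⟩
        refine ⟨Subgroup.inv_mem _ ha1, fun x hx => ?_⟩
        have e : a⁻¹ * x * a⁻¹⁻¹ * x⁻¹ = a⁻¹ * (a * x * a⁻¹ * x⁻¹)⁻¹ * a⁻¹⁻¹ := by group
        rw [e]
        exact (Subgroup.mem_normalizer_iff.mp (Subgroup.inv_mem _ ha1) _).mp
          (U.inv_mem (ha2 x hx))
    have hLW : LU ≤ W := by
      rw [hLU]
      apply iSup₂_le
      rintro u ⟨hu, hu1'⟩
      have hu1 : u ≠ 1 := fun h => hu1' (Set.mem_singleton_iff.mpr h)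
      intro q hq
      rw [hW]
      refine ⟨Q_normalizes Q hQ z hz hE hC U hS hO u hu hu1 hq, fun x hx => ?_⟩
      obtain ⟨g, hg⟩ := hS u hu hu1
      obtain ⟨huu, hcomm, hcent⟩ := Cfsg.Agent.S5598.es_facts' Q hQ z hz hE hC u g hg
      rcases hcomm q hq x (hQUle u hu hu1 hx) with e | e
      · rw [e]
        exact U.one_mem
      · rw [e]
        exact hu
    intro g hg x hx
    exact ((hW g).mp (hLW hg)).2 x hx
  · intro x hx hxU u hu
    by_cases hu1 : u = 1
    · refine ⟨1, Subgroup.one_mem _, ?_⟩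
      rw [hu1]
      group
    · obtain ⟨g0, hg0⟩ := hS u hu hu1
      obtain ⟨huu, hcomm, hcent⟩ := Cfsg.Agent.S5598.es_facts' Q hQ z hz hE hC u g0 hg0
      have hUQ : U ≤ Q u := by
        intro v hv
        by_cases hv1 : v = 1
        · rw [hv1]
          exact (Q u).one_mem
        · exact hO u hu v hv hu1 hv1
      have hucent : ∀ b ∈ Q u, u * b = b * u := fun b hb =>
        (Cfsg.Agent.S5598.Q_le_centralizer Q hQ u b hb).symm
      obtain ⟨g, hgP, hgA, hgx⟩ := exists_centralizing (Q u) U u hu1 hcomm hcent hucent hUQ hu x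
        (hQUle u hu hu1 hx) hxU
      exact ⟨g, ⟨hQle u hu hu1 hgP,
        Subgroup.mem_centralizer_iff.mpr (fun v hv => (hgA v hv).symm)⟩, hgx⟩

end Cfsg.Agent.S5597
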