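import Cfsg.Statements.S5395
import Cfsg.Agent.S5597

set_option autoImplicit false
open Cfsg

namespace Cfsg.Agent.S5395

theorem result {E : Type*} [Group E] [Finite E] (hE : Cfsg.IsExtraspecial 2 E) (φ : E ≃* E) (hφ : ∀ x : E, φ x * x⁻¹ ∈ Subgroup.center E) : ∃ g : E, ∀ x : E, φ x = g * x * g⁻¹ := by
  classical
  have hcard : Nat.card (Subgroup.center E) = 2 := hE.2
  obtain ⟨z0, hz0ne, huniq⟩ := (Nat.card_eq_two_iff' (1 : Subgroup.center E)).mp hcard
  obtain ⟨z, hzdef⟩ : ∃ z : E, z = (z0 : E) := ⟨_, rfl⟩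
  have hzc : z ∈ Subgroup.center E := by rw [hzdef]; exact z0.2
  have hz1 : z ≠ 1 := by
    intro h
    apply hz0ne
    apply Subtype.ext
    rw [← hzdef, h]
    rfl
  have hall : ∀ w ∈ Subgroup.center E, w = 1 ∨ w = z := by
    intro w hw
    by_cases h : (⟨w, hw⟩ : Subgroup.center E) = 1
    · left
      exact congrArg Subtype.val h
    · right
      rw [hzdef]
      exact congrArg Subtype.val (huniq _ h)
  have hzcomm : ∀ b : E, z * b = b * z := fun b => (Subgroup.mem_center_iff.mp hzc b).symm
  have hz2 : z * z = 1 := by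
    rcases hall (z * z) (Subgroup.mul_mem _ hzc hzc) with h | h
    · exact h
    · exact absurd (mul_eq_left.mp h) hz1
  have hcomm : ∀ a ∈ (⊤ : Subgroup E), ∀ b ∈ (⊤ : Subgroup E),
      a * b * a⁻¹ * b⁻¹ = 1 ∨ a * b * a⁻¹ * b⁻¹ = z := by
    intro a _ b _
    apply hall
    rw [← hE.1.2.2]
    have := Subgroup.commutator_mem_commutator (Subgroup.mem_top a) (Subgroup.mem_top b)
    rw [commutatorElement_def] at this
    exact this
  have hcent : ∀ a ∈ (⊤ : Subgroup E), (∀ b ∈ (⊤ : Subgroup E), a * b = b * a) →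
      a = 1 ∨ a = z := by
    intro a _ h
    apply hall
    rw [Subgroup.mem_center_iff]
    intro b
    exact (h b (Subgroup.mem_top b)).symm
  have hucent : ∀ b ∈ (⊤ : Subgroup E), z * b = b * z := fun b _ => hzcomm b
  have hφ' : ∀ x, φ x = x ∨ φ x = z * x := by
    intro x
    rcases hall _ (hφ x) with h | h
    · left
      exact mul_inv_eq_one.mp h
    · right
      exact mul_inv_eq_iff_eq_mul.mp h
  have hφz : φ z = z := by
    rcases hφ' z with h | h
    · exact h
    · exfalso
      rw [hz2] at h
      exact hz1 ((map_eq_one_iff φ φ.injective).mp h)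
  obtain ⟨A, hA⟩ : ∃ A : Subgroup E, ∀ x, x ∈ A ↔ φ x = x := by
    refine ⟨{ carrier := {x | φ x = x}
              mul_mem' := ?_
              one_mem' := map_one φ
              inv_mem' := ?_ }, fun x => Iff.rfl⟩
    · intro a b ha hb
      show φ (a * b) = a * b
      rw [map_mul, ha, hb]
    · intro a ha
      show φ a⁻¹ = a⁻¹
      rw [map_inv, ha]
  by_cases htop : ∀ x, φ x = x
  · exact ⟨1, fun x => by rw [htop x]; group⟩
  push Not at htop
  obtain ⟨x0, hx0⟩ := htop
  have := Fintype.ofFinite E
  have hcount := Cfsg.Agent.S5597.count (⊤ : Subgroup E) A z hz1 hcomm hcent hucent le_top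
    ((hA z).mpr hφz)
  have hlt : (Finset.univ.filter (· ∈ A)).card
      < (Finset.univ.filter (· ∈ (⊤ : Subgroup E))).card := by
    apply Finset.card_lt_card
    rw [Finset.ssubset_iff_of_subset]
    · exact ⟨x0, by simp, by simp [hA, hx0]⟩
    · intro a _
      simp
  have hC : ({1, z} : Finset E).card
      < (Finset.univ.filter (fun c => c ∈ (⊤ : Subgroup E) ∧ ∀ a ∈ A, c * a = a * c)).card := by
    by_contra hle
    push Not at hle
    have h2 : ({1, z} : Finset E).card ≤ 2 := Finset.card_le_two
    have h3 := Nat.mul_le_mul_left (Finset.univ.filter (· ∈ A)).card (hle.trans h2)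
    linarith
  obtain ⟨g, hg, hg'⟩ := Finset.exists_mem_notMem_of_card_lt_card hC
  simp only [Finset.mem_filter, Finset.mem_univ, true_and, Subgroup.mem_top,
    Finset.mem_insert, Finset.mem_singleton, not_or] at hg hg'
  refine ⟨g, fun x => ?_⟩
  rcases hφ' x with hx | hx
  · have := hg x ((hA x).mpr hx)
    rw [hx, this]
    group
  · have hgx : ¬ (g * x = x * g) := by
      intro hcon
      have hcen : ∀ b ∈ (⊤ : Subgroup E), g * b = b * g := by
        intro e _
        rcases hφ' e with he | he
        · exact hg e ((hA e).mpr he)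
        · have hmem : x⁻¹ * e ∈ A := by
            rw [hA, map_mul, map_inv, hx, he]
            calc (z * x)⁻¹ * (z * e) = x⁻¹ * (z⁻¹ * z) * e := by group
              _ = x⁻¹ * e := by rw [inv_mul_cancel, mul_one]
          have h1 := hg _ hmem
          calc g * e = (g * x) * (x⁻¹ * e) := by group
            _ = (x * g) * (x⁻¹ * e) := by rw [hcon]
            _ = x * (g * (x⁻¹ * e)) := by group
            _ = x * ((x⁻¹ * e) * g) := by rw [h1]
            _ = e * g := by group
      rcases hcent g (Subgroup.mem_top g) hcen with h | h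
      · exact hg'.1 h
      · exact hg'.2 h
    rcases hcomm g (Subgroup.mem_top g) x (Subgroup.mem_top x) with h | h
    · exact absurd (Cfsg.Agent.S5421.comm_of_comm_one g x h) hgx
    · rw [hx]
      calc z * x = (g * x * g⁻¹ * x⁻¹) * x := by rw [h]
        _ = g * x * g⁻¹ := by group

end Cfsg.Agent.S5395
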