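import Cfsg.Statements.S5521
import Cfsg.Agent.Lib.Helper9.M24Oct

set_option autoImplicit false
open Cfsg

namespace Cfsg.Agent.S5521

open Cfsg.Agent.Lib.Helper9.Leech

theorem six_mem : (6 : ℕ) ∈ orbL 5 := by decide +kernel

theorem fourteen_mem : (14 : ℕ) ∈ orbL 6 := by decide +kernel

theorem four_mem6 : (4 : ℕ) ∈ baseL.take 6 := by decide

theorem take5_sub6 : ∀ j ∈ baseL.take 5, j ∈ baseL.take 6 := by decide

theorem lemA (q : GolayPt) : ∃ g ∈ M24, g ≠ 1 ∧ FixL g (baseL.take 5) ∧ g q = q := by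
  by_cases hx : idx q ∈ octPts
  · obtain ⟨g, hg, h1, _⟩ := octFix_spec 6 six_mem
    refine ⟨g, hg.1, ?_, ?_, ?_⟩
    · rintro rfl
      have h2 := ptOf_inj 4 6 (by decide) (by decide) h1
      exact absurd h2 (by decide)
    · intro j hj
      exact hg.2 _ (List.mem_map_of_mem (take5_in_oct j hj))
    · have h3 := hg.2 (ptOf (idx q)) (List.mem_map_of_mem hx)
      rw [ptOf_idx] at h3
      exact h3
  · have hb : octO.testBit (idx q) = false := by
      cases hh : octO.testBit (idx q)
      · rfl
      · exact absurd (octO_bits _ (idx_lt q) hh) hx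
    have hmem := orb5_compl _ (idx_lt q) hb
    obtain ⟨u, hu, hfu, hu4⟩ := reach 5 (by decide) _ hmem
    rw [ptOf_idx] at hu4
    obtain ⟨c, hc, hfc, hc5⟩ := reach 6 (by decide) 14 fourteen_mem
    have hu4' : u⁻¹ q = ptOf 4 := by
      rw [← hu4]
      change u.symm (u _) = _
      rw [Equiv.symm_apply_apply]
      rfl
    refine ⟨u * c * u⁻¹, Subgroup.mul_mem _ (Subgroup.mul_mem _ (Gcl_le hu) (Gcl_le hc))
      (inv_mem (Gcl_le hu)), ?_, ?_, ?_⟩
    · intro h1
      have h2 : c = 1 := by
        have : c = u⁻¹ * (u * c * u⁻¹) * u := by group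
        rw [this, h1]
        group
      rw [h2] at hc5
      have h3 := ptOf_inj 5 14 (by decide) (by decide) hc5
      exact absurd h3 (by decide)
    · apply FixL_mul _ _ _ (FixL_mul _ _ _ hfu _) (FixL_inv _ _ hfu)
      intro j hj
      exact hfc j (take5_sub6 j hj)
    · rw [Equiv.Perm.mul_apply, Equiv.Perm.mul_apply, hu4', hfc 4 four_mem6]
      exact hu4

theorem card_pt : Fintype.card GolayPt = 24 := by decide

theorem part1 (B : Finset Cfsg.GolayPt) (hB : B.card ≤ 6) :
    ∃ g ∈ Cfsg.M24, g ≠ 1 ∧ ∀ b ∈ B, g b = b := by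
  obtain ⟨B', hsub, hcard⟩ := Finset.exists_superset_card_eq hB
    (by rw [card_pt]; decide : 6 ≤ Fintype.card GolayPt)
  have hlen : B'.toList.length = 6 := by rw [Finset.length_toList, hcard]
  have hnd : B'.toList.Nodup := Finset.nodup_toList B'
  have hnd5 : (B'.toList.take 5).Nodup := List.Nodup.sublist (List.take_sublist _ _) hnd
  have hlen5 : (B'.toList.take 5).length = 5 := by
    rw [List.length_take, hlen]
    rfl
  have hnd' : ((baseL.take 5).map ptOf).Nodup := by
    rw [List.map_take]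
    exact List.Nodup.sublist (List.take_sublist _ _) base_pts_nodup
  obtain ⟨τ, hτ, hτx⟩ := trans_list (B'.toList.take 5) ((baseL.take 5).map ptOf) hnd5 hnd'
    (by rw [hlen5]; rfl) (by rw [hlen5])
  obtain ⟨g0, hg0, hne, hfix, hq⟩ := lemA (τ (B'.toList[5]'(by rw [hlen]; decide)))
  refine ⟨τ⁻¹ * g0 * τ, Subgroup.mul_mem _ (Subgroup.mul_mem _ (inv_mem hτ) hg0) hτ, ?_, ?_⟩
  · intro h1
    apply hne
    have : g0 = τ * (τ⁻¹ * g0 * τ) * τ⁻¹ := by group
    rw [this, h1]
    group
  · intro b hb
    have hb' : b ∈ B'.toList := Finset.mem_toList.2 (hsub hb)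
    obtain ⟨i, hi, rfl⟩ := List.getElem_of_mem hb'
    have hfixed : g0 (τ (B'.toList[i])) = τ (B'.toList[i]) := by
      rcases Nat.lt_or_ge i 5 with h5 | h5
      · have hi5 : i < (B'.toList.take 5).length := by rw [hlen5]; exact h5
        have h2 := hτx i hi5
        rw [List.getElem_take] at h2
        rw [h2, List.getElem_map]
        exact hfix _ (List.getElem_mem _)
      · have hi5 : i = 5 := by omega
        subst hi5
        exact hq
    rw [Equiv.Perm.mul_apply, Equiv.Perm.mul_apply, hfixed]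
    change τ.symm (τ _) = _
    rw [Equiv.symm_apply_apply]

/-- The Mathieu group M₂₄ in its natural action on the 24 coordinate positions of the binary Golay code has minimal base size exactly 7: every set of at most 6 positions is fixed pointwise by some non-identity element of M₂₄, while some set of 7 positions is fixed pointwise only by the identity. -/
theorem result :
    (∀ B : Finset Cfsg.GolayPt, B.card ≤ 6 → ∃ g ∈ Cfsg.M24, g ≠ 1 ∧ ∀ b ∈ B, g b = b) ∧
    (∃ B : Finset Cfsg.GolayPt, B.card = 7 ∧ ∀ g ∈ Cfsg.M24, (∀ b ∈ B, g b = b) → g = 1) := by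
  refine ⟨part1, (baseL.map ptOf).toFinset, ?_, ?_⟩
  · rw [List.toFinset_card_of_nodup base_pts_nodup]
    rfl
  · intro g hg h
    apply base_prop g hg
    intro j hj
    exact h _ (List.mem_toFinset.2 (List.mem_map_of_mem hj))

end Cfsg.Agent.S5521
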