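import Cfsg.Statements.S5562

set_option autoImplicit false
open Cfsg

namespace Cfsg.Agent.S5562

theorem mem_conj_iff {G : Type*} [Group G] (d a : G) : a ∈ conjugatesOf d ↔ IsConj d a := Iff.rfl

theorem sq_one_of_mem {G : Type*} [Group G] (d : G) (hd : orderOf d = 2) (a : G)
    (ha : a ∈ conjugatesOf d) : a * a = 1 := by
  rw [mem_conj_iff, isConj_iff] at ha
  obtain ⟨c, rfl⟩ := ha
  have h : d * d = 1 := by
    have := pow_orderOf_eq_one d
    rw [hd, pow_two] at this; exact this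
  calc c * d * c⁻¹ * (c * d * c⁻¹) = c * (d * d) * c⁻¹ := by group
    _ = 1 := by rw [h]; group

theorem exist_aux {G : Type*} [Group G] (e x : G) (he : e * e = 1) (hx : x * x = 1) (j : ℕ)
    (hw : ((e * x) ^ 2) ^ (2 * j + 1) = 1) :
    Commute ((e * x) ^ j * e * ((e * x) ^ j)⁻¹) x ∧
      Commute e ((e * x) ^ j * e * ((e * x) ^ j)⁻¹ * x) := by
  have hei : e⁻¹ = e := inv_eq_of_mul_eq_one_left he
  have hxi : x⁻¹ = x := inv_eq_of_mul_eq_one_left hx
  have h1 : ∀ n : ℕ, e * (e * x) ^ n * e⁻¹ = ((e * x) ^ n)⁻¹ := by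
    intro n
    rw [← conj_pow, ← inv_pow]
    congr 1
    rw [mul_inv_rev, hei, hxi, ← mul_assoc, he, one_mul]
  have h2 : ∀ n : ℕ, x * (e * x) ^ n * x⁻¹ = ((e * x) ^ n)⁻¹ := by
    intro n
    rw [← conj_pow, ← inv_pow]
    congr 1
    rw [mul_inv_rev, hei, hxi, mul_assoc, mul_assoc, hx, mul_one]
  have hm : ((e * x) ^ (2 * j + 1))⁻¹ = (e * x) ^ (2 * j + 1) := by
    apply inv_eq_of_mul_eq_one_left
    rw [← pow_add, ← two_mul, pow_mul]
    exact hw
  have hA : (e * x) ^ j * e * ((e * x) ^ j)⁻¹ = (e * x) ^ (2 * j + 1) * x := by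
    have h3 : e * ((e * x) ^ j)⁻¹ = (e * x) ^ j * e := by
      have := h1 j
      rw [hei] at this
      have h4 : ((e * x) ^ j)⁻¹ = e * (e * x) ^ j * e := this.symm
      rw [h4, ← mul_assoc, ← mul_assoc, he, one_mul]
    rw [mul_assoc, h3, ← mul_assoc, ← pow_add, pow_succ, ← two_mul, mul_assoc ((e * x) ^ (2 * j)),
      mul_assoc e, hx, mul_one]
  have hB : (e * x) ^ (2 * j + 1) * x * x = (e * x) ^ (2 * j + 1) := by
    rw [mul_assoc, hx, mul_one]
  rw [hA]
  constructor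
  · show (e * x) ^ (2 * j + 1) * x * x = x * ((e * x) ^ (2 * j + 1) * x)
    rw [hB]
    have := h2 (2 * j + 1)
    rw [hxi, hm] at this
    rw [← mul_assoc, this]
  · show e * ((e * x) ^ (2 * j + 1) * x * x) = (e * x) ^ (2 * j + 1) * x * x * e
    rw [hB]
    have := h1 (2 * j + 1)
    rw [hm] at this
    calc e * (e * x) ^ (2 * j + 1) = e * (e * x) ^ (2 * j + 1) * e⁻¹ * e := by group
      _ = (e * x) ^ (2 * j + 1) * e := by rw [this]

theorem inv_pow_odd {G : Type*} [Group G] (g u : G) (h : g * u * g⁻¹ = u⁻¹) (i : ℕ) :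
    g ^ (2 * i + 1) * u * (g ^ (2 * i + 1))⁻¹ = u⁻¹ := by
  have h2 : g ^ 2 * u * (g ^ 2)⁻¹ = u := by
    calc g ^ 2 * u * (g ^ 2)⁻¹ = g * (g * u * g⁻¹) * g⁻¹ := by rw [pow_two]; group
      _ = g * u⁻¹ * g⁻¹ := by rw [h]
      _ = (g * u * g⁻¹)⁻¹ := by group
      _ = u := by rw [h, inv_inv]
  have h3 : ∀ i : ℕ, g ^ (2 * i) * u * (g ^ (2 * i))⁻¹ = u := by
    intro i
    induction i with
    | zero => simp
    | succ k ih =>
      calc g ^ (2 * (k + 1)) * u * (g ^ (2 * (k + 1)))⁻¹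
          = g ^ 2 * (g ^ (2 * k) * u * (g ^ (2 * k))⁻¹) * (g ^ 2)⁻¹ := by
            rw [mul_add, mul_one, pow_add]; group
        _ = u := by rw [ih, h2]
  calc g ^ (2 * i + 1) * u * (g ^ (2 * i + 1))⁻¹
      = g * (g ^ (2 * i) * u * (g ^ (2 * i))⁻¹) * g⁻¹ := by
        rw [pow_succ']; group
    _ = u⁻¹ := by rw [h3, h]

theorem uniq_aux {G : Type*} [Group G] [Finite G] (d : G) (hd : orderOf d = 2)
    (hodd : ∀ a ∈ conjugatesOf d, ∀ b ∈ conjugatesOf d, Odd (orderOf (a * b)))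
    (x e a a' : G) (he : e ∈ conjugatesOf d) (ha : a ∈ conjugatesOf d) (ha' : a' ∈ conjugatesOf d)
    (h1 : Commute e (a * x)) (h2 : Commute e (a' * x)) : a' = a := by
  have haa := sq_one_of_mem d hd a ha
  have haa' := sq_one_of_mem d hd a' ha'
  have hai : a⁻¹ = a := inv_eq_of_mul_eq_one_left haa
  have hai' : a'⁻¹ = a' := inv_eq_of_mul_eq_one_left haa'
  have hu : Commute e (a * a') := by
    have := h1.mul_right h2.inv_right
    have h3 : a * x * (a' * x)⁻¹ = a * a' := by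
      rw [mul_inv_rev, hai']; group
    rw [h3] at this; exact this
  have hinv : a * (a * a') * a⁻¹ = (a * a')⁻¹ := by
    rw [mul_inv_rev, hai, hai', ← mul_assoc, haa, one_mul]
  have hinv2 : (e * a) * (a * a') * (e * a)⁻¹ = (a * a')⁻¹ := by
    calc (e * a) * (a * a') * (e * a)⁻¹ = e * (a * (a * a') * a⁻¹) * e⁻¹ := by group
      _ = e * (a * a')⁻¹ * e⁻¹ := by rw [hinv]
      _ = (a * a')⁻¹ := by
        have := hu.inv_right
        rw [this.eq]; group
  obtain ⟨i, hi⟩ := hodd e he a ha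
  have h4 := inv_pow_odd (e * a) (a * a') hinv2 i
  rw [← hi, pow_orderOf_eq_one] at h4
  simp only [one_mul, inv_one, mul_one] at h4
  have h5 : (a * a') ^ 2 = 1 := by
    rw [pow_two]
    nth_rewrite 1 [h4]
    exact inv_mul_cancel _
  have h6 : orderOf (a * a') ∣ 2 := orderOf_dvd_of_pow_eq_one h5
  have h7 : Odd (orderOf (a * a')) := hodd a ha a' ha'
  have h8 : orderOf (a * a') = 1 := by
    rcases (Nat.dvd_prime Nat.prime_two).mp h6 with h | h
    · exact h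
    · rw [h] at h7; exact absurd h7 (by decide)
  rw [orderOf_eq_one_iff] at h8
  have : a' = a⁻¹ := (inv_eq_of_mul_eq_one_right h8).symm
  rw [this, hai]

theorem result {G : Type*} [Group G] [Finite G] (d : G) (hd : orderOf d = 2)
    (hodd : ∀ a ∈ conjugatesOf d, ∀ b ∈ conjugatesOf d, Odd (orderOf (a * b)))
    (x : G) (hx : orderOf x = 2) :
    ∀ e ∈ conjugatesOf d,
      ∃! a : G, a ∈ conjugatesOf d ∧ Commute a x ∧ Commute e (a * x) := by
  intro e he
  have hee := sq_one_of_mem d hd e he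
  have hxx : x * x = 1 := by
    have := pow_orderOf_eq_one x
    rw [hx, pow_two] at this; exact this
  have hxi : x⁻¹ = x := inv_eq_of_mul_eq_one_left hxx
  have hconj : x * e * x⁻¹ ∈ conjugatesOf d := by
    rw [mem_conj_iff] at he ⊢
    exact he.trans (isConj_iff.mpr ⟨x, rfl⟩)
  obtain ⟨j, hj⟩ := hodd e he (x * e * x⁻¹) hconj
  have hw : ((e * x) ^ 2) ^ (2 * j + 1) = 1 := by
    have h1 : (e * x) ^ 2 = e * (x * e * x⁻¹) := by
      rw [hxi, pow_two]; group
    rw [h1, ← hj]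
    exact pow_orderOf_eq_one _
  obtain ⟨hc1, hc2⟩ := exist_aux e x hee hxx j hw
  have hmem : (e * x) ^ j * e * ((e * x) ^ j)⁻¹ ∈ conjugatesOf d := by
    rw [mem_conj_iff] at he ⊢
    exact he.trans (isConj_iff.mpr ⟨_, rfl⟩)
  refine ⟨(e * x) ^ j * e * ((e * x) ^ j)⁻¹, ⟨hmem, hc1, hc2⟩, ?_⟩
  rintro a' ⟨ha', -, hc'⟩
  exact uniq_aux d hd hodd x e _ a' he hmem ha' hc2 hc'

end Cfsg.Agent.S5562
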