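import Cfsg.Statements.S5595
import Cfsg.Agent.S5597

set_option autoImplicit false
open Cfsg

namespace Cfsg.Agent.S5595

theorem es_conj {G : Type*} [Group G] (P : Subgroup G) (u : G)
    (hcomm : ∀ a ∈ P, ∀ b ∈ P, a * b * a⁻¹ * b⁻¹ = 1 ∨ a * b * a⁻¹ * b⁻¹ = u)
    (a b : G) (ha : a ∈ P) (hb : b ∈ P) : a * b * a⁻¹ = b ∨ a * b * a⁻¹ = u * b := by
  rcases hcomm a ha b hb with h | h
  · left
    calc a * b * a⁻¹ = (a * b * a⁻¹ * b⁻¹) * b := by group
      _ = b := by rw [h, one_mul]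
  · right
    calc a * b * a⁻¹ = (a * b * a⁻¹ * b⁻¹) * b := by group
      _ = u * b := by rw [h]

theorem comm_of_conj {G : Type*} [Group G] (a b : G) (h : a * b * a⁻¹ = b) : a * b = b * a := by
  calc a * b = (a * b * a⁻¹) * a := by group
    _ = b * a := by rw [h]

theorem conj_of_comm {G : Type*} [Group G] (a b : G) (h : a * b = b * a) : a * b * a⁻¹ = b := by
  rw [h]
  group

theorem es_sq {G : Type*} [Group G] (P : Subgroup G) (u : G) (hu2 : u * u = 1)
    (hcomm : ∀ a ∈ P, ∀ b ∈ P, a * b * a⁻¹ * b⁻¹ = 1 ∨ a * b * a⁻¹ * b⁻¹ = u)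
    (hcent : ∀ a ∈ P, (∀ b ∈ P, a * b = b * a) → a = 1 ∨ a = u)
    (hucent : ∀ b ∈ P, u * b = b * u) (a : G) (ha : a ∈ P) : a * a = 1 ∨ a * a = u := by
  apply hcent _ (P.mul_mem ha ha)
  intro b hb
  rcases es_conj P u hcomm a b ha hb with h | h
  · have h' : a * b = b * a := comm_of_conj a b h
    calc a * a * b = a * (a * b) := by group
      _ = a * (b * a) := by rw [h']
      _ = (a * b) * a := by group
      _ = b * a * a := by rw [h']
      _ = b * (a * a) := by group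
  · have h' : a * b = u * b * a := by
      calc a * b = (a * b * a⁻¹) * a := by group
        _ = u * b * a := by rw [h]
    have hu := hucent a ha
    calc a * a * b = a * (a * b) := by group
      _ = a * (u * b * a) := by rw [h']
      _ = (a * u) * b * a := by group
      _ = (u * a) * b * a := by rw [hu]
      _ = u * (a * b) * a := by group
      _ = u * (u * b * a) * a := by rw [h']
      _ = (u * u) * b * a * a := by group
      _ = b * (a * a) := by rw [hu2]; group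

theorem pow_helper {G : Type*} [Group G] (b : G) (k : ℕ) (h : (b * b) ^ 2 ^ k = 1) :
    b ^ 2 ^ (k + 1) = 1 := by
  rw [pow_succ, mul_comm, pow_mul, pow_two]
  exact h

theorem kernel {G : Type*} [Group G] [Finite G]
    (Q : G → Subgroup G)
    (hQ : ∀ x : G, Q x = (Cfsg.pCore 2 ↥(Subgroup.centralizer ({x} : Set G))).map (Subgroup.centralizer ({x} : Set G)).subtype)
    (x : G) (hx2 : x * x = 1)
    (N1 : ∀ c, c * x = x * c → ∀ q ∈ Q x, c * q * c⁻¹ ∈ Q x)
    (F3 : ∀ c, (∀ q ∈ Q x, c * q = q * c) → c ∈ Q x)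
    (c : G) (hc : c * x = x * c)
    (hcq : ∀ q ∈ Q x, c * q * c⁻¹ * q⁻¹ = 1 ∨ c * q * c⁻¹ * q⁻¹ = x) : c ∈ Q x := by
  have Emul : ∀ e1 e2 : G, (e1 = 1 ∨ e1 = x) → (e2 = 1 ∨ e2 = x) → (e1 * e2 = 1 ∨ e1 * e2 = x) := by
    rintro e1 e2 (rfl | rfl) (rfl | rfl) <;> simp [hx2]
  have Einv : ∀ e : G, (e = 1 ∨ e = x) → (e⁻¹ = 1 ∨ e⁻¹ = x) := by
    rintro e (rfl | rfl)
    · simp
    · right
      exact inv_eq_of_mul_eq_one_left hx2
  have Econj : ∀ e : G, (e = 1 ∨ e = x) → ∀ d, d * x = x * d → d * e * d⁻¹ = e := by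
    rintro e (rfl | rfl) d hd
    · simp
    · exact conj_of_comm d e hd
  have hQ2 : IsPGroup 2 (Q x) := by
    rw [hQ]
    exact (Cfsg.Agent.S5421.pcore_facts).2.map _
  rw [hQ, Cfsg.Agent.S5598.mem_Q_iff]
  refine ⟨{ carrier := {c | c * x = x * c ∧
              ∀ q ∈ Q x, c * q * c⁻¹ * q⁻¹ = 1 ∨ c * q * c⁻¹ * q⁻¹ = x}
            mul_mem' := ?_
            one_mem' := ?_
            inv_mem' := ?_ }, ?_, ?_, ?_, ⟨hc, hcq⟩⟩
  · rintro a b ⟨ha1, ha2⟩ ⟨hb1, hb2⟩
    refine ⟨?_, fun q hq => ?_⟩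
    · calc a * b * x = a * (b * x) := by group
        _ = a * (x * b) := by rw [hb1]
        _ = (a * x) * b := by group
        _ = x * (a * b) := by rw [ha1]; group
    · have e : a * b * q * (a * b)⁻¹ * q⁻¹
          = (a * (b * q * b⁻¹ * q⁻¹) * a⁻¹) * (a * q * a⁻¹ * q⁻¹) := by group
      rw [e, Econj _ (hb2 q hq) a ha1]
      exact Emul _ _ (hb2 q hq) (ha2 q hq)
  · refine ⟨by simp, fun q hq => ?_⟩
    left
    group
  · rintro a ⟨ha1, ha2⟩
    have ha1' : a⁻¹ * x = x * a⁻¹ := by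
      calc a⁻¹ * x = a⁻¹ * (x * a) * a⁻¹ := by group
        _ = a⁻¹ * (a * x) * a⁻¹ := by rw [ha1]
        _ = x * a⁻¹ := by group
    refine ⟨ha1', fun q hq => ?_⟩
    have hq2 : a⁻¹ * q * a⁻¹⁻¹ ∈ Q x := N1 a⁻¹ ha1' q hq
    have h := ha2 _ hq2
    have e : a * (a⁻¹ * q * a⁻¹⁻¹) * a⁻¹ * (a⁻¹ * q * a⁻¹⁻¹)⁻¹ = (a⁻¹ * q * a⁻¹⁻¹ * q⁻¹)⁻¹ := by
      group
    rw [e] at h
    have := Einv _ h
    rwa [inv_inv] at this
  · intro a
    obtain ⟨ha1, ha2⟩ := a.2
    have hsq : (a : G) * a ∈ Q x := by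
      apply F3
      intro q hq
      have hq1 : (a : G) * q * (a : G)⁻¹ ∈ Q x := N1 a ha1 q hq
      have e1 := ha2 q hq
      have e2 := ha2 _ hq1
      have e3 : (a : G) * a * q * ((a : G) * a)⁻¹ * q⁻¹
          = ((a : G) * ((a : G) * q * (a : G)⁻¹) * (a : G)⁻¹ * ((a : G) * q * (a : G)⁻¹)⁻¹)
            * ((a : G) * q * (a : G)⁻¹ * q⁻¹) := by group
      have e4 : (a : G) * ((a : G) * q * (a : G)⁻¹) * (a : G)⁻¹ * ((a : G) * q * (a : G)⁻¹)⁻¹
          = (a : G) * q * (a : G)⁻¹ * q⁻¹ := by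
        have e5 : (a : G) * ((a : G) * q * (a : G)⁻¹) * (a : G)⁻¹ * ((a : G) * q * (a : G)⁻¹)⁻¹
            = (a : G) * ((a : G) * q * (a : G)⁻¹ * q⁻¹) * (a : G)⁻¹ := by group
        rw [e5]
        exact Econj _ e1 a ha1
      rw [e4] at e3
      have e6 : (a : G) * a * q * ((a : G) * a)⁻¹ * q⁻¹ = 1 := by
        rw [e3]
        rcases e1 with h | h
        · rw [h, one_mul]
        · rw [h, hx2]
      exact Cfsg.Agent.S5421.comm_of_comm_one _ _ e6
    obtain ⟨k, hk⟩ := Cfsg.Agent.S5421.pow_two_of_pgroup _ hQ2 _ hsq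
    refine ⟨k + 1, ?_⟩
    apply Subtype.ext
    have h1 : ((a : G) * a) ^ 2 ^ k = 1 := by
      rw [← hk]
      exact pow_orderOf_eq_one _
    show (a : G) ^ 2 ^ (k + 1) = 1
    exact pow_helper (a : G) k h1
  · rintro a ⟨ha1, -⟩
    rw [Subgroup.mem_centralizer_iff]
    intro h hh
    rw [Set.mem_singleton_iff.mp hh]
    exact ha1.symm
  · rintro e he a ⟨ha1, ha2⟩
    have he1 : e * x = x * e := (Subgroup.mem_centralizer_iff.mp he x rfl).symm
    have he1' : e⁻¹ * x = x * e⁻¹ := by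
      calc e⁻¹ * x = e⁻¹ * (x * e) * e⁻¹ := by group
        _ = e⁻¹ * (e * x) * e⁻¹ := by rw [he1]
        _ = x * e⁻¹ := by group
    refine ⟨?_, fun q hq => ?_⟩
    · calc e * a * e⁻¹ * x = e * a * (e⁻¹ * x) := by group
        _ = e * a * (x * e⁻¹) := by rw [he1']
        _ = e * (a * x) * e⁻¹ := by group
        _ = e * (x * a) * e⁻¹ := by rw [ha1]
        _ = (e * x) * a * e⁻¹ := by group
        _ = x * (e * a * e⁻¹) := by rw [he1]; group
    · have hq2 : e⁻¹ * q * e⁻¹⁻¹ ∈ Q x := N1 e⁻¹ he1' q hq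
      have h := ha2 _ hq2
      have e1 : e * a * e⁻¹ * q * (e * a * e⁻¹)⁻¹ * q⁻¹
          = e * (a * (e⁻¹ * q * e⁻¹⁻¹) * a⁻¹ * (e⁻¹ * q * e⁻¹⁻¹)⁻¹) * e⁻¹ := by group
      rw [e1, Econj _ h e he1]
      exact h

theorem result {G : Type*} [Group G] [Finite G]
    (Q : G → Subgroup G)
    (hQ : ∀ x : G, Q x = (Cfsg.pCore 2 ↥(Subgroup.centralizer ({x} : Set G))).map (Subgroup.centralizer ({x} : Set G)).subtype)
    (z : G) (hz : orderOf z = 2) (hE : Cfsg.IsExtraspecial 2 ↥(Q z))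
    (hC : Subgroup.centralizer ((Q z : Subgroup G) : Set G) ≤ Q z)
    (g : G) (hx : g * z * g⁻¹ ∈ Q z) : z ∈ Q (g * z * g⁻¹) := by
  obtain ⟨x, hxdef⟩ : ∃ x : G, x = g * z * g⁻¹ := ⟨_, rfl⟩
  rw [← hxdef] at hx ⊢
  obtain ⟨hzz, hcz, hcentz⟩ := Cfsg.Agent.S5598.es_facts Q hQ z hz hE hC
  obtain ⟨hxx, hcx, hcentx⟩ := Cfsg.Agent.S5598.es_facts' Q hQ z hz hE hC x g hxdef.symm
  have hz1 : z ≠ 1 := by
    intro h
    rw [h, orderOf_one] at hz
    omega
  have hz2 : z * z = 1 := by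
    have := pow_orderOf_eq_one z
    rwa [hz, pow_two] at this
  have hzinv : z⁻¹ = z := inv_eq_of_mul_eq_one_left hz2
  have hx2 : x * x = 1 := by
    rw [hxdef]
    calc g * z * g⁻¹ * (g * z * g⁻¹) = g * (z * z) * g⁻¹ := by group
      _ = 1 := by rw [hz2]; group
  have hxinv : x⁻¹ = x := inv_eq_of_mul_eq_one_left hx2
  have hx1 : x ≠ 1 := by
    intro h
    apply hz1
    calc z = g⁻¹ * (g * z * g⁻¹) * g := by group
      _ = 1 := by rw [← hxdef, h]; group
  by_cases hxz : x = z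
  · rw [hxz]
    exact hzz
  have hzcent : ∀ b ∈ Q z, z * b = b * z := fun b hb =>
    (Cfsg.Agent.S5598.Q_le_centralizer Q hQ z b hb).symm
  have hxcent : ∀ b ∈ Q x, x * b = b * x := fun b hb =>
    (Cfsg.Agent.S5598.Q_le_centralizer Q hQ x b hb).symm
  have hzx : z * x = x * z := hzcent x hx
  have N1 : ∀ c, c * x = x * c → ∀ q ∈ Q x, c * q * c⁻¹ ∈ Q x := by
    intro c hc q hq
    have := Cfsg.Agent.S5598.conj_Q Q hQ x c q hq
    rwa [conj_of_comm c x hc] at this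
  have N2 : ∀ c, c * z = z * c → ∀ q ∈ Q z, c * q * c⁻¹ ∈ Q z := by
    intro c hc q hq
    have := Cfsg.Agent.S5598.conj_Q Q hQ z c q hq
    rwa [conj_of_comm c z hc] at this
  have F3 : ∀ c, (∀ q ∈ Q x, c * q = q * c) → c ∈ Q x := by
    intro c hc
    have h1 : g⁻¹ * c * g ∈ Subgroup.centralizer ((Q z : Subgroup G) : Set G) := by
      rw [Subgroup.mem_centralizer_iff]
      intro q hq
      have hq' : g * q * g⁻¹ ∈ Q x := by
        have := Cfsg.Agent.S5598.conj_Q Q hQ z g q hq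
        rwa [← hxdef] at this
      have := hc _ hq'
      calc q * (g⁻¹ * c * g) = g⁻¹ * ((g * q * g⁻¹) * c) * g := by group
        _ = g⁻¹ * (c * (g * q * g⁻¹)) * g := by rw [this]
        _ = g⁻¹ * c * g * q := by group
    have h2 := Cfsg.Agent.S5598.conj_Q Q hQ z g _ (hC h1)
    rw [← hxdef] at h2
    have e : g * (g⁻¹ * c * g) * g⁻¹ = c := by group
    rwa [e] at h2
  have K := kernel Q hQ x hx2 N1 F3
  have Emul : ∀ e1 e2 : G, (e1 = 1 ∨ e1 = x) → (e2 = 1 ∨ e2 = x) → (e1 * e2 = 1 ∨ e1 * e2 = x) := by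
    rintro e1 e2 (rfl | rfl) (rfl | rfl) <;> simp [hx2]
  have Einv : ∀ e : G, (e = 1 ∨ e = x) → (e⁻¹ = 1 ∨ e⁻¹ = x) := by
    rintro e (rfl | rfl)
    · simp
    · right
      exact hxinv
  have Ecomm : ∀ e : G, (e = 1 ∨ e = x) → ∀ p ∈ Q x, e * p = p * e := by
    rintro e (rfl | rfl) p hp
    · simp
    · exact hxcent p hp
  have toE : ∀ u v : G, (u = v ∨ u = x * v) → ∃ e, (e = 1 ∨ e = x) ∧ u = e * v := by
    rintro u v (h | h)
    · exact ⟨1, Or.inl rfl, by rw [one_mul]; exact h⟩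
    · exact ⟨x, Or.inr rfl, h⟩
  by_contra hzQx
  obtain ⟨y, hyQ, hy⟩ : ∃ y ∈ Q z, y * x * y⁻¹ = z * x := by
    have hex : ∃ y ∈ Q z, ¬ (x * y = y * x) := by
      by_contra hcon
      push Not at hcon
      rcases hcentz x hx hcon with h | h
      · exact hx1 h
      · exact hxz h
    obtain ⟨y, hy, hne⟩ := hex
    refine ⟨y, hy, ?_⟩
    rcases es_conj (Q z) z hcz y x hy hx with h | h
    · exact absurd (comm_of_conj y x h).symm hne
    · exact h
  have hyz : y * z = z * y := (hzcent y hyQ).symm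
  have hA : ∀ w ∈ Q x, w * z * w⁻¹ ≠ z * x := by
    intro w hw hwz
    apply hzQx
    have hwx : w * x = x * w := (hxcent w hw).symm
    have e0 : y⁻¹ * x * y = z * x := by
      have : y * (z * x) * y⁻¹ = x := by
        calc y * (z * x) * y⁻¹ = (y * z) * x * y⁻¹ := by group
          _ = (z * y) * x * y⁻¹ := by rw [hyz]
          _ = z * (y * x * y⁻¹) := by group
          _ = z * (z * x) := by rw [hy]
          _ = (z * z) * x := by group
          _ = x := by rw [hz2, one_mul]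
      calc y⁻¹ * x * y = y⁻¹ * (y * (z * x) * y⁻¹) * y := by rw [this]
        _ = z * x := by group
    have e1 : (y * w * y⁻¹) * x * (y * w * y⁻¹)⁻¹ = z := by
      calc (y * w * y⁻¹) * x * (y * w * y⁻¹)⁻¹ = y * (w * (y⁻¹ * x * y) * w⁻¹) * y⁻¹ := by group
        _ = y * (w * (z * x) * w⁻¹) * y⁻¹ := by rw [e0]
        _ = y * ((w * z * w⁻¹) * (w * x * w⁻¹)) * y⁻¹ := by group
        _ = y * ((z * x) * x) * y⁻¹ := by rw [hwz, conj_of_comm w x hwx]
        _ = y * (z * (x * x)) * y⁻¹ := by group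
        _ = y * z * y⁻¹ := by rw [hx2, mul_one]
        _ = z := conj_of_comm y z hyz
    have e2 : (y * w * y⁻¹) * z * (y * w * y⁻¹)⁻¹ = x := by
      have e3 : y⁻¹ * z * y = z := by
        calc y⁻¹ * z * y = y⁻¹ * (z * y) := by group
          _ = y⁻¹ * (y * z) := by rw [hyz]
          _ = z := by group
      calc (y * w * y⁻¹) * z * (y * w * y⁻¹)⁻¹ = y * (w * (y⁻¹ * z * y) * w⁻¹) * y⁻¹ := by group
        _ = y * (w * z * w⁻¹) * y⁻¹ := by rw [e3]
        _ = y * (z * x) * y⁻¹ := by rw [hwz]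
        _ = (y * z) * x * y⁻¹ := by group
        _ = (z * y) * x * y⁻¹ := by rw [hyz]
        _ = z * (y * x * y⁻¹) := by group
        _ = z * (z * x) := by rw [hy]
        _ = (z * z) * x := by group
        _ = x := by rw [hz2, one_mul]
    have := Cfsg.Agent.S5598.conj_Q Q hQ z (y * w * y⁻¹) x hx
    rwa [e1, e2] at this
  have B3 : ∀ q ∈ Q x, (z * q * z⁻¹ = q ∨ z * q * z⁻¹ = x * q) → z * q = q * z := by
    intro q hq h
    rcases h with h | h
    · exact comm_of_conj z q h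
    · exfalso
      apply hA q hq
      have h1 : z * q = x * q * z := by
        calc z * q = (z * q * z⁻¹) * z := by group
          _ = x * q * z := by rw [h]
      calc q * z * q⁻¹ = (x * x) * q * z * q⁻¹ := by rw [hx2, one_mul]
        _ = x * (x * q * z) * q⁻¹ := by group
        _ = x * (z * q) * q⁻¹ := by rw [← h1]
        _ = x * z := by group
        _ = z * x := hzx.symm
  have B1a : ∀ i ∈ Q z, (∀ r ∈ Q z, r * x = x * r → i * r = r * i) →
      i = 1 ∨ i = z ∨ i = x ∨ i = z * x := by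
    intro i hi hir
    by_cases hic : ∀ q ∈ Q z, i * q = q * i
    · rcases hcentz i hi hic with h | h
      · exact Or.inl h
      · exact Or.inr (Or.inl h)
    · push Not at hic
      obtain ⟨q0, hq0, hq0i⟩ := hic
      have hq0x : ¬ (q0 * x = x * q0) := fun h => hq0i (hir q0 hq0 h)
      have hq0x' : q0 * x * q0⁻¹ = z * x := by
        rcases es_conj (Q z) z hcz q0 x hq0 hx with h | h
        · exact absurd (comm_of_conj q0 x h) hq0x
        · exact h
      have hq0i' : q0 * i * q0⁻¹ = z * i := by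
        rcases es_conj (Q z) z hcz q0 i hq0 hi with h | h
        · exact absurd (comm_of_conj q0 i h).symm hq0i
        · exact h
      have hcen : ∀ q ∈ Q z, (i * x) * q = q * (i * x) := by
        intro q hq
        by_cases hqx : q * x = x * q
        · have := hir q hq hqx
          calc i * x * q = i * (x * q) := by group
            _ = i * (q * x) := by rw [hqx]
            _ = (i * q) * x := by group
            _ = (q * i) * x := by rw [this]
            _ = q * (i * x) := by group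
        · have hqx' : q * x * q⁻¹ = z * x := by
            rcases es_conj (Q z) z hcz q x hq hx with h | h
            · exact absurd (comm_of_conj q x h) hqx
            · exact h
          have h1 : (q0⁻¹ * q) * x = x * (q0⁻¹ * q) := by
            have a1 : q * x = z * x * q := by
              calc q * x = (q * x * q⁻¹) * q := by group
                _ = z * x * q := by rw [hqx']
            have a2 : q0 * x = z * x * q0 := by
              calc q0 * x = (q0 * x * q0⁻¹) * q0 := by group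
                _ = z * x * q0 := by rw [hq0x']
            calc q0⁻¹ * q * x = q0⁻¹ * (q * x) := by group
              _ = q0⁻¹ * (z * x * q) := by rw [a1]
              _ = q0⁻¹ * (z * x * q0) * (q0⁻¹ * q) := by group
              _ = q0⁻¹ * (q0 * x) * (q0⁻¹ * q) := by rw [a2]
              _ = x * (q0⁻¹ * q) := by group
          have h2 := hir _ ((Q z).mul_mem ((Q z).inv_mem hq0) hq) h1
          have h3 : q * i * q⁻¹ = z * i := by
            calc q * i * q⁻¹ = q0 * ((q0⁻¹ * q) * i) * (q0⁻¹ * q)⁻¹ * q0⁻¹ := by group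
              _ = q0 * (i * (q0⁻¹ * q)) * (q0⁻¹ * q)⁻¹ * q0⁻¹ := by rw [h2]
              _ = q0 * i * q0⁻¹ := by group
              _ = z * i := hq0i'
          have h4 : q * (i * x) * q⁻¹ = i * x := by
            calc q * (i * x) * q⁻¹ = (q * i * q⁻¹) * (q * x * q⁻¹) := by group
              _ = (z * i) * (z * x) := by rw [h3, hqx']
              _ = (z * i) * z * x := by group
              _ = (i * z) * z * x := by rw [hzcent i hi]
              _ = i * (z * z) * x := by group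
              _ = i * x := by rw [hz2, mul_one]
          exact (comm_of_conj q (i * x) h4).symm
      rcases hcentz (i * x) ((Q z).mul_mem hi hx) hcen with h | h
      · right; right; left
        calc i = (i * x) * x⁻¹ := by group
          _ = x := by rw [h, one_mul, hxinv]
      · right; right; right
        calc i = (i * x) * x⁻¹ := by group
          _ = z * x := by rw [h, hxinv]
  have B1 : ∀ i ∈ Q x, i ∈ Q z → i = 1 ∨ i = x := by
    intro i hix hiz
    have hir : ∀ r ∈ Q z, r * x = x * r → i * r = r * i := by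
      intro r hr hrx
      rcases hcz i hiz r hr with h | h
      · exact Cfsg.Agent.S5421.comm_of_comm_one i r h
      · exfalso
        apply hzQx
        rw [← h]
        have : i * r * i⁻¹ * r⁻¹ = i * (r * i⁻¹ * r⁻¹) := by group
        rw [this]
        exact (Q x).mul_mem hix (N1 r hrx _ ((Q x).inv_mem hix))
    rcases B1a i hiz hir with h | h | h | h
    · exact Or.inl h
    · exact absurd (h ▸ hix) hzQx
    · exact Or.inr h
    · exfalso
      apply hzQx
      have : z = i * x⁻¹ := by rw [h]; group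
      rw [this]
      exact (Q x).mul_mem hix ((Q x).inv_mem hxx)
  have B2 : ∀ w ∈ Q x, w * z = z * w → ∀ r ∈ Q z, r * x = x * r →
      (r * w * r⁻¹ = w ∨ r * w * r⁻¹ = x * w) := by
    intro w hw hwz r hr hrx
    have h1 : r * w * r⁻¹ * w⁻¹ ∈ Q x := (Q x).mul_mem (N1 r hrx w hw) ((Q x).inv_mem hw)
    have h2 : r * w * r⁻¹ * w⁻¹ ∈ Q z := by
      have : r * w * r⁻¹ * w⁻¹ = r * (w * r⁻¹ * w⁻¹) := by group
      rw [this]
      exact (Q z).mul_mem hr (N2 w hwz _ ((Q z).inv_mem hr))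
    rcases B1 _ h1 h2 with h | h
    · left
      calc r * w * r⁻¹ = (r * w * r⁻¹ * w⁻¹) * w := by group
        _ = w := by rw [h, one_mul]
    · right
      calc r * w * r⁻¹ = (r * w * r⁻¹ * w⁻¹) * w := by group
        _ = x * w := by rw [h]
  have hinvz : ∀ p : G, z * (p⁻¹ * (z * p * z⁻¹)) * z⁻¹ = (p⁻¹ * (z * p * z⁻¹))⁻¹ := by
    intro p
    calc z * (p⁻¹ * (z * p * z⁻¹)) * z⁻¹ = (z * p * z⁻¹)⁻¹ * ((z * z) * p * (z * z)⁻¹) := by group
      _ = (z * p * z⁻¹)⁻¹ * p := by rw [hz2]; group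
      _ = (p⁻¹ * (z * p * z⁻¹))⁻¹ := by group
  have hbz : ∀ p ∈ Q x, (p⁻¹ * (z * p * z⁻¹)) * z = z * (p⁻¹ * (z * p * z⁻¹)) := by
    intro p hp
    have hbQ : p⁻¹ * (z * p * z⁻¹) ∈ Q x := (Q x).mul_mem ((Q x).inv_mem hp) (N1 z hzx p hp)
    apply (B3 _ hbQ _).symm
    rw [hinvz]
    rcases es_sq (Q x) x hx2 hcx hcentx hxcent _ hbQ with h | h
    · left
      exact inv_eq_of_mul_eq_one_left h
    · right
      apply inv_eq_of_mul_eq_one_left
      rw [mul_assoc, h, hx2]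
  have B4 : ∀ t ∈ Q x, (∀ w ∈ Q x, w * z = z * w → t * w = w * t) → t * z = z * t := by
    intro t ht htw
    have key : ∀ p ∈ Q x,
        t * (z * p * z⁻¹) * t⁻¹ * (z * p * z⁻¹)⁻¹ = t * p * t⁻¹ * p⁻¹ := by
      intro p hp
      have hbQ : p⁻¹ * (z * p * z⁻¹) ∈ Q x := (Q x).mul_mem ((Q x).inv_mem hp) (N1 z hzx p hp)
      have h1 := htw _ hbQ (hbz p hp)
      calc t * (z * p * z⁻¹) * t⁻¹ * (z * p * z⁻¹)⁻¹
          = t * p * (t⁻¹ * (t * (p⁻¹ * (z * p * z⁻¹)))) * t⁻¹ * (z * p * z⁻¹)⁻¹ := by group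
        _ = t * p * (t⁻¹ * ((p⁻¹ * (z * p * z⁻¹)) * t)) * t⁻¹ * (z * p * z⁻¹)⁻¹ := by rw [h1]
        _ = t * p * t⁻¹ * p⁻¹ := by group
    have hcen : ∀ p ∈ Q x, (t⁻¹ * (z * t * z⁻¹)) * (z * p * z⁻¹)
        = (z * p * z⁻¹) * (t⁻¹ * (z * t * z⁻¹)) := by
      intro p hp
      have hk := key p hp
      have hε := hcx t ht p hp
      have hεz : z * (t * p * t⁻¹ * p⁻¹) * z⁻¹ = t * p * t⁻¹ * p⁻¹ := by
        rcases hε with h | h
        · rw [h]; group
        · rw [h]; exact conj_of_comm z x hzx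
      have h2 : (z * t * z⁻¹) * (z * p * z⁻¹) * (z * t * z⁻¹)⁻¹ = t * (z * p * z⁻¹) * t⁻¹ := by
        calc (z * t * z⁻¹) * (z * p * z⁻¹) * (z * t * z⁻¹)⁻¹
            = (z * (t * p * t⁻¹ * p⁻¹) * z⁻¹) * (z * p * z⁻¹) := by group
          _ = (t * p * t⁻¹ * p⁻¹) * (z * p * z⁻¹) := by rw [hεz]
          _ = (t * (z * p * z⁻¹) * t⁻¹ * (z * p * z⁻¹)⁻¹) * (z * p * z⁻¹) := by rw [hk]
          _ = t * (z * p * z⁻¹) * t⁻¹ := by group
      calc (t⁻¹ * (z * t * z⁻¹)) * (z * p * z⁻¹)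
          = t⁻¹ * ((z * t * z⁻¹) * (z * p * z⁻¹) * (z * t * z⁻¹)⁻¹) * (z * t * z⁻¹) := by group
        _ = t⁻¹ * (t * (z * p * z⁻¹) * t⁻¹) * (z * t * z⁻¹) := by rw [h2]
        _ = (z * p * z⁻¹) * (t⁻¹ * (z * t * z⁻¹)) := by group
    have hcen' : ∀ p ∈ Q x, (t⁻¹ * (z * t * z⁻¹)) * p = p * (t⁻¹ * (z * t * z⁻¹)) := by
      intro p hp
      have := hcen (z * p * z⁻¹) (N1 z hzx p hp)
      have e : z * (z * p * z⁻¹) * z⁻¹ = p := by
        calc z * (z * p * z⁻¹) * z⁻¹ = (z * z) * p * (z * z)⁻¹ := by group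
          _ = p := by rw [hz2]; group
      rwa [e] at this
    have htQ : t⁻¹ * (z * t * z⁻¹) ∈ Q x := (Q x).mul_mem ((Q x).inv_mem ht) (N1 z hzx t ht)
    apply (B3 t ht _).symm
    rcases hcentx _ htQ hcen' with h | h
    · left
      calc z * t * z⁻¹ = t * (t⁻¹ * (z * t * z⁻¹)) := by group
        _ = t := by rw [h, mul_one]
    · right
      calc z * t * z⁻¹ = t * (t⁻¹ * (z * t * z⁻¹)) := by group
        _ = t * x := by rw [h]
        _ = x * t := (hxcent t ht).symm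
  have B5 : ∀ r ∈ Q z, r * x = x * r → ∀ q ∈ Q x,
      (q⁻¹ * (r * q * r⁻¹)) * z = z * (q⁻¹ * (r * q * r⁻¹)) := by
    intro r hr hrx q hq
    have hrq : r * q * r⁻¹ ∈ Q x := N1 r hrx q hq
    have haQ : q⁻¹ * (r * q * r⁻¹) ∈ Q x := (Q x).mul_mem ((Q x).inv_mem hq) hrq
    apply B4 _ haQ
    intro w hw hwz
    have hδ := hcx q hq w hw
    have hδr : r * (q * w * q⁻¹ * w⁻¹) * r⁻¹ = q * w * q⁻¹ * w⁻¹ := by
      rcases hδ with h | h
      · rw [h]; group
      · rw [h]; exact conj_of_comm r x hrx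
    have h3 : (r * q * r⁻¹) * w * (r * q * r⁻¹)⁻¹ * w⁻¹ = q * w * q⁻¹ * w⁻¹ := by
      rcases B2 w hw hwz r hr hrx with h | h
      · calc (r * q * r⁻¹) * w * (r * q * r⁻¹)⁻¹ * w⁻¹
            = (r * q * r⁻¹) * (r * w * r⁻¹) * (r * q * r⁻¹)⁻¹ * (r * w * r⁻¹)⁻¹ := by rw [h]
          _ = r * (q * w * q⁻¹ * w⁻¹) * r⁻¹ := by group
          _ = q * w * q⁻¹ * w⁻¹ := hδr
      · have hxc : (r * q * r⁻¹) * x = x * (r * q * r⁻¹) := (hxcent _ hrq).symm
        have hmem : (r * q * r⁻¹) * w * (r * q * r⁻¹)⁻¹ * w⁻¹ ∈ Q x :=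
          (Q x).mul_mem ((Q x).mul_mem ((Q x).mul_mem hrq hw) ((Q x).inv_mem hrq))
            ((Q x).inv_mem hw)
        have e1 : (r * q * r⁻¹) * (x * w) * (r * q * r⁻¹)⁻¹ * (x * w)⁻¹
            = x * ((r * q * r⁻¹) * w * (r * q * r⁻¹)⁻¹ * w⁻¹) * x⁻¹ := by
          calc (r * q * r⁻¹) * (x * w) * (r * q * r⁻¹)⁻¹ * (x * w)⁻¹
              = ((r * q * r⁻¹) * x) * w * (r * q * r⁻¹)⁻¹ * w⁻¹ * x⁻¹ := by group
            _ = (x * (r * q * r⁻¹)) * w * (r * q * r⁻¹)⁻¹ * w⁻¹ * x⁻¹ := by rw [hxc]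
            _ = x * ((r * q * r⁻¹) * w * (r * q * r⁻¹)⁻¹ * w⁻¹) * x⁻¹ := by group
        have e2 := conj_of_comm x _ (hxcent _ hmem)
        calc (r * q * r⁻¹) * w * (r * q * r⁻¹)⁻¹ * w⁻¹
            = (r * q * r⁻¹) * (x * w) * (r * q * r⁻¹)⁻¹ * (x * w)⁻¹ := by rw [e1, e2]
          _ = (r * q * r⁻¹) * (r * w * r⁻¹) * (r * q * r⁻¹)⁻¹ * (r * w * r⁻¹)⁻¹ := by rw [h]
          _ = r * (q * w * q⁻¹ * w⁻¹) * r⁻¹ := by group
          _ = q * w * q⁻¹ * w⁻¹ := hδr
    have h4 : (r * q * r⁻¹) * w * (r * q * r⁻¹)⁻¹ = q * w * q⁻¹ := by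
      calc (r * q * r⁻¹) * w * (r * q * r⁻¹)⁻¹
          = ((r * q * r⁻¹) * w * (r * q * r⁻¹)⁻¹ * w⁻¹) * w := by group
        _ = (q * w * q⁻¹ * w⁻¹) * w := by rw [h3]
        _ = q * w * q⁻¹ := by group
    calc (q⁻¹ * (r * q * r⁻¹)) * w
        = q⁻¹ * ((r * q * r⁻¹) * w * (r * q * r⁻¹)⁻¹) * (r * q * r⁻¹) := by group
      _ = q⁻¹ * (q * w * q⁻¹) * (r * q * r⁻¹) := by rw [h4]
      _ = w * (q⁻¹ * (r * q * r⁻¹)) := by group
  by_cases hR : ∃ r ∈ Q z, ∃ s ∈ Q z, r * x = x * r ∧ s * x = x * s ∧ ¬ (r * s = s * r)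
  · obtain ⟨r, hr, s, hs, hrx, hsx, hrs⟩ := hR
    have hrsz : r * s * r⁻¹ * s⁻¹ = z := by
      rcases hcz r hr s hs with h | h
      · exact absurd (Cfsg.Agent.S5421.comm_of_comm_one r s h) hrs
      · exact h
    have hzsr : z * s * r = r * s := by
      calc z * s * r = (r * s * r⁻¹ * s⁻¹) * s * r := by rw [hrsz]
        _ = r * s := by group
    apply hzQx
    apply K z hzx
    intro q0 hq0
    have hsrx : (s * r)⁻¹ * x = x * (s * r)⁻¹ := by
      have : (s * r) * x = x * (s * r) := by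
        calc s * r * x = s * (r * x) := by group
          _ = s * (x * r) := by rw [hrx]
          _ = (s * x) * r := by group
          _ = x * (s * r) := by rw [hsx]; group
      calc (s * r)⁻¹ * x = (s * r)⁻¹ * (x * (s * r)) * (s * r)⁻¹ := by group
        _ = (s * r)⁻¹ * ((s * r) * x) * (s * r)⁻¹ := by rw [this]
        _ = x * (s * r)⁻¹ := by group
    obtain ⟨q, hqdef⟩ : ∃ q, q = (s * r)⁻¹ * q0 * (s * r)⁻¹⁻¹ := ⟨_, rfl⟩
    have hq : q ∈ Q x := by rw [hqdef]; exact N1 _ hsrx q0 hq0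
    have hq0' : q0 = s * r * q * r⁻¹ * s⁻¹ := by rw [hqdef]; group
    obtain ⟨a, hadef⟩ : ∃ a, a = q⁻¹ * (r * q * r⁻¹) := ⟨_, rfl⟩
    obtain ⟨b, hbdef⟩ : ∃ b, b = q⁻¹ * (s * q * s⁻¹) := ⟨_, rfl⟩
    have haQ : a ∈ Q x := by
      rw [hadef]; exact (Q x).mul_mem ((Q x).inv_mem hq) (N1 r hrx q hq)
    have hbQ : b ∈ Q x := by
      rw [hbdef]; exact (Q x).mul_mem ((Q x).inv_mem hq) (N1 s hsx q hq)
    have haz : a * z = z * a := by rw [hadef]; exact B5 r hr hrx q hq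
    have hbz' : b * z = z * b := by rw [hbdef]; exact B5 s hs hsx q hq
    have hra : r * q * r⁻¹ = q * a := by rw [hadef]; group
    have hsb : s * q * s⁻¹ = q * b := by rw [hbdef]; group
    obtain ⟨e1, he1, h1⟩ := toE _ _ (B2 b hbQ hbz' r hr hrx)
    obtain ⟨e2, he2, h2⟩ := toE _ _ (B2 a haQ haz s hs hsx)
    obtain ⟨e3, he3, h3⟩ := toE _ _ (es_conj (Q x) x hcx a b haQ hbQ)
    have hX1 : r * s * q * s⁻¹ * r⁻¹ = (q * a) * (e1 * b) := by
      calc r * s * q * s⁻¹ * r⁻¹ = r * (s * q * s⁻¹) * r⁻¹ := by group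
        _ = r * (q * b) * r⁻¹ := by rw [hsb]
        _ = (r * q * r⁻¹) * (r * b * r⁻¹) := by group
        _ = (q * a) * (e1 * b) := by rw [hra, h1]
    have hX2 : s * r * q * r⁻¹ * s⁻¹ = (q * b) * (e2 * a) := by
      calc s * r * q * r⁻¹ * s⁻¹ = s * (r * q * r⁻¹) * s⁻¹ := by group
        _ = s * (q * a) * s⁻¹ := by rw [hra]
        _ = (s * q * s⁻¹) * (s * a * s⁻¹) := by group
        _ = (q * b) * (e2 * a) := by rw [hsb, h2]
    have hzq0 : z * q0 * z⁻¹ = r * s * q * s⁻¹ * r⁻¹ := by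
      rw [hq0']
      calc z * (s * r * q * r⁻¹ * s⁻¹) * z⁻¹ = (z * s * r) * q * (z * s * r)⁻¹ := by group
        _ = (r * s) * q * (r * s)⁻¹ := by rw [hzsr]
        _ = r * s * q * s⁻¹ * r⁻¹ := by group
    have hfin : z * q0 * z⁻¹ * q0⁻¹ = e1 * e3 * e2⁻¹ := by
      rw [hzq0, hX1]
      rw [hq0', hX2]
      calc (q * a) * (e1 * b) * ((q * b) * (e2 * a))⁻¹
          = ((q * a) * e1) * (a⁻¹ * (a * b * a⁻¹)) * (e2⁻¹ * (q * b)⁻¹) := by group
        _ = (e1 * (q * a)) * (a⁻¹ * (e3 * b)) * (e2⁻¹ * (q * b)⁻¹) := by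
            rw [← Ecomm e1 he1 (q * a) ((Q x).mul_mem hq haQ), h3]
        _ = e1 * (q * e3) * b * (e2⁻¹ * (q * b)⁻¹) := by group
        _ = e1 * (e3 * q) * b * (e2⁻¹ * (q * b)⁻¹) := by rw [Ecomm e3 he3 q hq]
        _ = e1 * e3 * ((q * b) * e2⁻¹) * (q * b)⁻¹ := by group
        _ = e1 * e3 * (e2⁻¹ * (q * b)) * (q * b)⁻¹ := by
            rw [Ecomm e2⁻¹ (Einv e2 he2) (q * b) ((Q x).mul_mem hq hbQ)]
        _ = e1 * e3 * e2⁻¹ := by group
    rw [hfin]
    exact Emul _ _ (Emul _ _ he1 he3) (Einv _ he2)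
  · push Not at hR
    have S1 : ∀ r ∈ Q z, r * x = x * r → r = 1 ∨ r = z ∨ r = x ∨ r = z * x := by
      intro r hr hrx
      exact B1a r hr (fun s hs hsx => hR r hr s hs hrx hsx)
    obtain ⟨x1, hx1def⟩ : ∃ x1, x1 = g * x * g⁻¹ := ⟨_, rfl⟩
    obtain ⟨y1, hy1def⟩ : ∃ y1, y1 = g * y * g⁻¹ := ⟨_, rfl⟩
    have hx1Q : x1 ∈ Q x := by
      have := Cfsg.Agent.S5598.conj_Q Q hQ z g x hx
      rw [← hxdef] at this
      rw [hx1def]
      exact this
    have hy1Q : y1 ∈ Q x := by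
      have := Cfsg.Agent.S5598.conj_Q Q hQ z g y hyQ
      rw [← hxdef] at this
      rw [hy1def]
      exact this
    have hy1 : y1 * x1 * y1⁻¹ = x * x1 := by
      rw [hy1def, hx1def]
      calc g * y * g⁻¹ * (g * x * g⁻¹) * (g * y * g⁻¹)⁻¹ = g * (y * x * y⁻¹) * g⁻¹ := by group
        _ = g * (z * x) * g⁻¹ := by rw [hy]
        _ = (g * z * g⁻¹) * (g * x * g⁻¹) := by group
        _ = x * (g * x * g⁻¹) := by rw [← hxdef]
    have hx1sq : x1 * x1 = 1 := by
      rw [hx1def]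
      calc g * x * g⁻¹ * (g * x * g⁻¹) = g * (x * x) * g⁻¹ := by group
        _ = 1 := by rw [hx2]; group
    have hx1ne1 : x1 ≠ 1 := by
      intro h
      apply hx1
      calc x = g⁻¹ * (g * x * g⁻¹) * g := by group
        _ = 1 := by rw [← hx1def, h]; group
    have hx1nex : x1 ≠ x := by
      intro h
      apply hxz
      have h' : g * x * g⁻¹ = g * z * g⁻¹ := by rw [← hx1def, ← hxdef]; exact h
      calc x = g⁻¹ * (g * x * g⁻¹) * g := by group
        _ = g⁻¹ * (g * z * g⁻¹) * g := by rw [h']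
        _ = z := by group
    have hxx1 : x * x1 = x1 * x := hxcent x1 hx1Q
    have S1' : ∀ r ∈ Q x, r * x1 = x1 * r → r = 1 ∨ r = x ∨ r = x1 ∨ r = x * x1 := by
      intro r hr hrx1
      have hr' : g⁻¹ * r * g ∈ Q z := by
        apply Cfsg.Agent.S5598.conj_Q' Q hQ z g r
        rw [← hxdef]
        exact hr
      have hrx' : (g⁻¹ * r * g) * x = x * (g⁻¹ * r * g) := by
        calc g⁻¹ * r * g * x = g⁻¹ * (r * (g * x * g⁻¹)) * g := by group
          _ = g⁻¹ * ((g * x * g⁻¹) * r) * g := by rw [← hx1def, hrx1]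
          _ = x * (g⁻¹ * r * g) := by group
      have hrr : r = g * (g⁻¹ * r * g) * g⁻¹ := by group
      rcases S1 _ hr' hrx' with h | h | h | h
      · left
        rw [hrr, h]; group
      · right; left
        rw [hrr, h, ← hxdef]
      · right; right; left
        rw [hrr, h, ← hx1def]
      · right; right; right
        rw [hrr, h]
        calc g * (z * x) * g⁻¹ = (g * z * g⁻¹) * (g * x * g⁻¹) := by group
          _ = x * x1 := by rw [← hxdef, ← hx1def]
    have hAq : ∀ q ∈ Q x, (q⁻¹ * (z * q * z⁻¹)) * (q⁻¹ * (z * q * z⁻¹)) = 1 ∧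
        (q⁻¹ * (z * q * z⁻¹)) * q = q * (q⁻¹ * (z * q * z⁻¹)) := by
      intro q hq
      have hc := hbz q hq
      have hi := hinvz q
      rw [conj_of_comm z _ hc.symm] at hi
      have hsq : (q⁻¹ * (z * q * z⁻¹)) * (q⁻¹ * (z * q * z⁻¹)) = 1 := by
        nth_rewrite 1 [hi]
        group
      refine ⟨hsq, ?_⟩
      have hqq : z * (q * q) * z⁻¹ = q * q := by
        rcases es_sq (Q x) x hx2 hcx hcentx hxcent q hq with h | h
        · rw [h]; group
        · rw [h]; exact conj_of_comm z x hzx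
      have e1 : (q * (q⁻¹ * (z * q * z⁻¹))) * (q * (q⁻¹ * (z * q * z⁻¹))) = q * q := by
        calc (q * (q⁻¹ * (z * q * z⁻¹))) * (q * (q⁻¹ * (z * q * z⁻¹)))
            = z * (q * q) * z⁻¹ := by group
          _ = q * q := hqq
      calc (q⁻¹ * (z * q * z⁻¹)) * q
          = q⁻¹ * ((q * (q⁻¹ * (z * q * z⁻¹))) * (q * (q⁻¹ * (z * q * z⁻¹))))
              * (q⁻¹ * (z * q * z⁻¹))⁻¹ := by group
        _ = q⁻¹ * (q * q) * (q⁻¹ * (z * q * z⁻¹))⁻¹ := by rw [e1]
        _ = q * (q⁻¹ * (z * q * z⁻¹))⁻¹ := by group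
        _ = q * (q⁻¹ * (z * q * z⁻¹)) := by rw [← hi]
    have hzx1 : z * x1 = x1 * z := by
      obtain ⟨-, hcomm1⟩ := hAq x1 hx1Q
      have hmem : x1⁻¹ * (z * x1 * z⁻¹) ∈ Q x :=
        (Q x).mul_mem ((Q x).inv_mem hx1Q) (N1 z hzx x1 hx1Q)
      have hform : z * x1 * z⁻¹ = x1 * (x1⁻¹ * (z * x1 * z⁻¹)) := by group
      rcases S1' _ hmem hcomm1 with h | h | h | h
      · rw [h, mul_one] at hform
        exact comm_of_conj z x1 hform
      · rw [h] at hform
        apply B3 x1 hx1Q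
        right
        rw [hform]
        exact hxx1.symm
      · exfalso
        rw [h, hx1sq] at hform
        apply hx1ne1
        calc x1 = z⁻¹ * (z * x1 * z⁻¹) * z := by group
          _ = 1 := by rw [hform]; group
      · exfalso
        rw [h] at hform
        apply hx1nex
        have : z * x1 * z⁻¹ = x := by
          rw [hform, hxx1]
          calc x1 * (x1 * x) = (x1 * x1) * x := by group
            _ = x := by rw [hx1sq, one_mul]
        calc x1 = z⁻¹ * (z * x1 * z⁻¹) * z := by group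
          _ = z⁻¹ * x * z := by rw [this]
          _ = z⁻¹ * (x * z) := by group
          _ = z⁻¹ * (z * x) := by rw [hzx]
          _ = x := by group
    have hy1x1 : ¬ (x1 * y1 = y1 * x1) := by
      intro h
      have : y1 * x1 * y1⁻¹ = x1 := by rw [← h]; group
      rw [hy1] at this
      apply hx1
      calc x = (x * x1) * x1⁻¹ := by group
        _ = 1 := by rw [this]; group
    obtain ⟨ha2sq, ha2y⟩ := hAq y1 hy1Q
    have hmem2 : y1⁻¹ * (z * y1 * z⁻¹) ∈ Q x :=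
      (Q x).mul_mem ((Q x).inv_mem hy1Q) (N1 z hzx y1 hy1Q)
    have hform2 : z * y1 * z⁻¹ = y1 * (y1⁻¹ * (z * y1 * z⁻¹)) := by group
    have ha2x1 : (y1⁻¹ * (z * y1 * z⁻¹)) * x1 = x1 * (y1⁻¹ * (z * y1 * z⁻¹)) := by
      have e1 : (z * y1 * z⁻¹) * x1 * (z * y1 * z⁻¹)⁻¹ = x * x1 := by
        have e2 : z⁻¹ * x1 * z = x1 := by
          calc z⁻¹ * x1 * z = z⁻¹ * (x1 * z) := by group
            _ = z⁻¹ * (z * x1) := by rw [hzx1]
            _ = x1 := by group
        calc (z * y1 * z⁻¹) * x1 * (z * y1 * z⁻¹)⁻¹ = z * (y1 * (z⁻¹ * x1 * z) * y1⁻¹) * z⁻¹ := by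
              group
          _ = z * (y1 * x1 * y1⁻¹) * z⁻¹ := by rw [e2]
          _ = z * (x * x1) * z⁻¹ := by rw [hy1]
          _ = (z * x) * x1 * z⁻¹ := by group
          _ = (x * z) * x1 * z⁻¹ := by rw [hzx]
          _ = x * (z * x1) * z⁻¹ := by group
          _ = x * (x1 * z) * z⁻¹ := by rw [hzx1]
          _ = x * x1 := by group
      calc (y1⁻¹ * (z * y1 * z⁻¹)) * x1
          = y1⁻¹ * ((z * y1 * z⁻¹) * x1 * (z * y1 * z⁻¹)⁻¹) * (z * y1 * z⁻¹) := by group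
        _ = y1⁻¹ * (x * x1) * (z * y1 * z⁻¹) := by rw [e1]
        _ = y1⁻¹ * (y1 * x1 * y1⁻¹) * (z * y1 * z⁻¹) := by rw [hy1]
        _ = x1 * (y1⁻¹ * (z * y1 * z⁻¹)) := by group
    rcases S1' _ hmem2 ha2x1 with h | h | h | h
    · rw [h, mul_one] at hform2
      have hzy1 : z * y1 = y1 * z := comm_of_conj z y1 hform2
      apply hzQx
      apply F3
      intro q hq
      have hfour : ∀ r : G, (r = 1 ∨ r = x ∨ r = x1 ∨ r = x * x1) → z * r = r * z := by
        rintro r (rfl | rfl | rfl | rfl)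
        · simp
        · exact hzx
        · exact hzx1
        · calc z * (x * x1) = (z * x) * x1 := by group
            _ = (x * z) * x1 := by rw [hzx]
            _ = x * (z * x1) := by group
            _ = x * (x1 * z) := by rw [hzx1]
            _ = x * x1 * z := by group
      by_cases hqx1 : q * x1 = x1 * q
      · exact hfour q (S1' q hq hqx1)
      · have hqx1' : q * x1 * q⁻¹ = x * x1 := by
          rcases es_conj (Q x) x hcx q x1 hq hx1Q with h' | h'
          · exact absurd (comm_of_conj q x1 h') hqx1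
          · exact h'
        have hc : (y1⁻¹ * q) * x1 = x1 * (y1⁻¹ * q) := by
          calc y1⁻¹ * q * x1 = y1⁻¹ * (q * x1 * q⁻¹) * q := by group
            _ = y1⁻¹ * (y1 * x1 * y1⁻¹) * q := by rw [hqx1', hy1]
            _ = x1 * (y1⁻¹ * q) := by group
        have h5 := hfour _ (S1' _ ((Q x).mul_mem ((Q x).inv_mem hy1Q) hq) hc)
        calc z * q = (z * y1) * (y1⁻¹ * q) := by group
          _ = (y1 * z) * (y1⁻¹ * q) := by rw [hzy1]
          _ = y1 * (z * (y1⁻¹ * q)) := by group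
          _ = y1 * ((y1⁻¹ * q) * z) := by rw [h5]
          _ = q * z := by group
    · rw [h] at hform2
      have h6 : z * y1 = y1 * z := by
        apply B3 y1 hy1Q
        right
        rw [hform2]
        exact (hxcent y1 hy1Q).symm
      have h7 := conj_of_comm z y1 h6
      rw [h7] at hform2
      apply hx1
      calc x = y1⁻¹ * (y1 * x) := by group
        _ = 1 := by rw [← hform2]; group
    · rw [h] at ha2y
      exact hy1x1 ha2y
    · rw [h] at ha2y
      apply hy1x1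
      have hxy1 := hxcent y1 hy1Q
      calc x1 * y1 = x⁻¹ * (x * x1 * y1) := by group
        _ = x⁻¹ * (y1 * (x * x1)) := by rw [ha2y]
        _ = x⁻¹ * ((y1 * x) * x1) := by group
        _ = x⁻¹ * ((x * y1) * x1) := by rw [hxy1]
        _ = y1 * x1 := by group

end Cfsg.Agent.S5595
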