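import Cfsg.Statements.S5596
import Cfsg.Agent.S5597

set_option autoImplicit false
open Cfsg

namespace Cfsg.Agent.S5596

theorem ea_comm {G : Type*} [Group G] (U : Subgroup G) (hU2 : ∀ u ∈ U, u * u = 1)
    (a b : G) (ha : a ∈ U) (hb : b ∈ U) : a * b = b * a := by
  have h1 := hU2 (a * b) (U.mul_mem ha hb)
  have h2 := hU2 a ha
  have h3 := hU2 b hb
  calc a * b = a * (a * b * (a * b)) * b := by rw [h1, mul_one]
    _ = (a * a) * b * a * (b * b) := by group
    _ = b * a := by rw [h2, h3, one_mul, mul_one]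

theorem ea_inv {G : Type*} [Group G] (U : Subgroup G) (hU2 : ∀ u ∈ U, u * u = 1)
    (a : G) (ha : a ∈ U) : a⁻¹ = a := inv_eq_of_mul_eq_one_left (hU2 a ha)

theorem lemA {G : Type*} [Group G] (U : Subgroup G) (hU2 : ∀ u ∈ U, u * u = 1)
    (F : Subgroup G) (hF : F ≤ U) (d : G) (hd : d ∈ U) :
    ∃ N : Subgroup G, F ≤ N ∧ d ∈ N ∧ N ≤ U ∧ ∀ y ∈ N, y ∈ F ∨ y * d ∈ F := by
  refine ⟨{ carrier := {y | y ∈ U ∧ (y ∈ F ∨ y * d ∈ F)}
            mul_mem' := ?_
            one_mem' := ⟨U.one_mem, Or.inl F.one_mem⟩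
            inv_mem' := ?_ }, ?_, ?_, ?_, ?_⟩
  · rintro a b ⟨haU, ha⟩ ⟨hbU, hb⟩
    refine ⟨U.mul_mem haU hbU, ?_⟩
    rcases ha with ha | ha <;> rcases hb with hb | hb
    · exact Or.inl (F.mul_mem ha hb)
    · right
      rw [mul_assoc]
      exact F.mul_mem ha hb
    · right
      have e : a * b * d = a * d * b := by
        rw [mul_assoc, ea_comm U hU2 b d hbU hd, ← mul_assoc]
      rw [e]
      exact F.mul_mem ha hb
    · left
      have e : a * b = (a * d) * (b * d) := by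
        rw [ea_comm U hU2 b d hbU hd]
        calc a * b = a * (d * d) * b := by rw [hU2 d hd, mul_one]
          _ = a * d * (d * b) := by group
      rw [e]
      exact F.mul_mem ha hb
  · rintro a ⟨haU, ha⟩
    rw [ea_inv U hU2 a haU]
    exact ⟨haU, ha⟩
  · intro y hy
    exact ⟨hF hy, Or.inl hy⟩
  · refine ⟨hd, Or.inr ?_⟩
    rw [hU2 d hd]
    exact F.one_mem
  · intro y hy
    exact hy.1
  · intro y hy
    exact hy.2

theorem exists_conj_equiv {G : Type*} [Group G] (U : Subgroup G) (q : G)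
    (hq : q ∈ Subgroup.normalizer (U : Set G)) :
    ∃ ψ : ↥U ≃* ↥U, ∀ v : ↥U, ((ψ v : ↥U) : G) = q * v * q⁻¹ := by
  have h1 : ∀ v : ↥U, q * (v : G) * q⁻¹ ∈ U := fun v =>
    (Subgroup.mem_normalizer_iff.mp hq v).mp v.2
  have h2 : ∀ v : ↥U, q⁻¹ * (v : G) * q ∈ U := fun v => by
    have := (Subgroup.mem_normalizer_iff.mp (Subgroup.inv_mem _ hq) v).mp v.2
    simpa using this
  refine ⟨{ toFun := fun v => ⟨q * v * q⁻¹, h1 v⟩
            invFun := fun v => ⟨q⁻¹ * v * q, h2 v⟩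
            left_inv := ?_
            right_inv := ?_
            map_mul' := ?_ }, fun v => rfl⟩
  · intro v
    apply Subtype.ext
    show q⁻¹ * (q * (v : G) * q⁻¹) * q = v
    group
  · intro v
    apply Subtype.ext
    show q * (q⁻¹ * (v : G) * q) * q⁻¹ = v
    group
  · intro a b
    apply Subtype.ext
    show q * ((a : G) * (b : G)) * q⁻¹ = (q * a * q⁻¹) * (q * b * q⁻¹)
    group

theorem exists_fix {G : Type*} [Group G] (U : Subgroup G) (φ : ↥U ≃* ↥U) :
    ∃ F : Subgroup G, F ≤ U ∧ ∀ v : ↥U, (v : G) ∈ F ↔ φ v = v := by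
  refine ⟨{ carrier := {g | ∃ h : g ∈ U, φ ⟨g, h⟩ = ⟨g, h⟩}
            mul_mem' := ?_
            one_mem' := ⟨U.one_mem, map_one φ⟩
            inv_mem' := ?_ }, ?_, ?_⟩
  · rintro a b ⟨ha, ha'⟩ ⟨hb, hb'⟩
    refine ⟨U.mul_mem ha hb, ?_⟩
    have : (⟨a * b, U.mul_mem ha hb⟩ : ↥U) = ⟨a, ha⟩ * ⟨b, hb⟩ := rfl
    rw [this, map_mul, ha', hb']
  · rintro a ⟨ha, ha'⟩
    refine ⟨U.inv_mem ha, ?_⟩
    have : (⟨a⁻¹, U.inv_mem ha⟩ : ↥U) = (⟨a, ha⟩ : ↥U)⁻¹ := rfl
    rw [this, map_inv, ha']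
  · rintro g ⟨h, -⟩
    exact h
  · intro v
    constructor
    · rintro ⟨h, h'⟩
      exact h'
    · intro h
      exact ⟨v.2, h⟩

theorem result {G : Type*} [Group G] [Finite G]
    (Q : G → Subgroup G)
    (hQ : ∀ x : G, Q x = (Cfsg.pCore 2 ↥(Subgroup.centralizer ({x} : Set G))).map (Subgroup.centralizer ({x} : Set G)).subtype)
    (z : G) (hz : orderOf z = 2) (hE : Cfsg.IsExtraspecial 2 ↥(Q z))
    (hC : Subgroup.centralizer ((Q z : Subgroup G) : Set G) ≤ Q z)
    (U : Subgroup G) (hU2 : ∀ u ∈ U, u * u = 1)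
    (hS : ∀ u ∈ U, u ≠ 1 → ∃ g : G, g * z * g⁻¹ = u)
    (hO : ∀ u ∈ U, ∀ v ∈ U, u ≠ 1 → v ≠ 1 → v ∈ Q u)
    (QU LU : Subgroup G) (hQU : QU = ⨅ u ∈ ((U : Set G) \ {1}), Q u) (hLU : LU = ⨆ u ∈ ((U : Set G) \ {1}), Q u)
    (n : ℕ) (hn : 2 ≤ n) (hcard : Nat.card ↥U = 2 ^ n) :
    U ≤ QU ∧ QU ≤ LU ∧ LU ≤ Subgroup.normalizer (U : Set G) ∧
      ∀ φ : ↥U ≃* ↥U, ∃ g ∈ LU, ∀ u : ↥U, g * (u : G) * g⁻¹ = ((φ u : ↥U) : G) := by
  have hQUle : ∀ u ∈ U, u ≠ 1 → QU ≤ Q u := by
    intro u hu hu1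
    rw [hQU]
    exact iInf₂_le u ⟨hu, fun h => hu1 (Set.mem_singleton_iff.mp h)⟩
  have hQle : ∀ u ∈ U, u ≠ 1 → Q u ≤ LU := by
    intro u hu hu1
    rw [hLU]
    exact le_iSup₂ (f := fun u (_ : u ∈ ((U : Set G) \ {1})) => Q u) u
      ⟨hu, fun h => hu1 (Set.mem_singleton_iff.mp h)⟩
  have hUQ : ∀ u ∈ U, u ≠ 1 → U ≤ Q u := by
    intro u hu hu1 v hv
    by_cases hv1 : v = 1
    · rw [hv1]
      exact (Q u).one_mem
    · exact hO u hu v hv hu1 hv1
  have hLN : LU ≤ Subgroup.normalizer (U : Set G) := by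
    rw [hLU]
    apply iSup₂_le
    rintro u ⟨hu, hu1'⟩
    exact Cfsg.Agent.S5597.Q_normalizes Q hQ z hz hE hC U hS hO u hu
      (fun h => hu1' (Set.mem_singleton_iff.mpr h))
  obtain ⟨u0, hu0, hu01⟩ : ∃ u0 ∈ U, u0 ≠ 1 := by
    by_contra hcon
    push Not at hcon
    have : Subsingleton ↥U := ⟨fun a b => Subtype.ext ((hcon a a.2).trans (hcon b b.2).symm)⟩
    have h1 : Nat.card ↥U = 1 := Nat.card_unique
    rw [hcard] at h1
    have : 2 ^ 2 ≤ 2 ^ n := Nat.pow_le_pow_right (by norm_num) hn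
    omega
  refine ⟨?_, ?_, hLN, ?_⟩
  · rw [hQU]
    apply le_iInf₂
    rintro u ⟨hu, hu1'⟩
    exact hUQ u hu (fun h => hu1' (Set.mem_singleton_iff.mpr h))
  · exact (hQUle u0 hu0 hu01).trans (hQle u0 hu0 hu01)
  · have key : ∀ k : ℕ, ∀ φ : ↥U ≃* ↥U, {v : ↥U | φ v ≠ v}.ncard = k →
        ∃ g ∈ LU, ∀ u : ↥U, g * (u : G) * g⁻¹ = ((φ u : ↥U) : G) := by
      intro k
      induction k using Nat.strong_induction_on with
      | _ k ih =>
        intro φ hk
        by_cases hall : ∀ v : ↥U, φ v = v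
        · refine ⟨1, LU.one_mem, fun u => ?_⟩
          rw [hall u]
          group
        · push Not at hall
          obtain ⟨w, hw⟩ := hall
          obtain ⟨F, hFU, hF⟩ := exists_fix U φ
          obtain ⟨x, hxdef⟩ : ∃ x : G, x = ((φ w : ↥U) : G) := ⟨_, rfl⟩
          have hxU : x ∈ U := by rw [hxdef]; exact (φ w).2
          have hwU : (w : G) ∈ U := w.2
          have hxw : x ≠ (w : G) := by
            intro h
            apply hw
            apply Subtype.ext
            rw [← hxdef, h]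
          obtain ⟨d, hddef⟩ : ∃ d : G, d = x * (w : G) := ⟨_, rfl⟩
          have hdU : d ∈ U := by rw [hddef]; exact U.mul_mem hxU hwU
          have hd1 : d ≠ 1 := by
            intro h
            apply hxw
            rw [hddef] at h
            rw [← ea_inv U hU2 w hwU]
            exact eq_inv_of_mul_eq_one_left h
          obtain ⟨N, hFN, hdN, hNU, hN⟩ := lemA U hU2 F hFU d hdU
          have hxN : x ∉ N := by
            intro hxN
            rcases hN x hxN with h | h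
            · have h' := (hF ⟨x, hxU⟩).mp h
              have e : (⟨x, hxU⟩ : ↥U) = φ w := Subtype.ext hxdef
              rw [e] at h'
              exact hw (φ.injective h')
            · have e : x * d = (w : G) := by
                rw [hddef, ← mul_assoc, hU2 x hxU, one_mul]
              rw [e] at h
              exact hw ((hF w).mp h)
          obtain ⟨g0, hg0⟩ := hS d hdU hd1
          obtain ⟨hdd, hcomm, hcent⟩ := Cfsg.Agent.S5598.es_facts' Q hQ z hz hE hC d g0 hg0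
          have hucent : ∀ b ∈ Q d, d * b = b * d := fun b hb =>
            (Cfsg.Agent.S5598.Q_le_centralizer Q hQ d b hb).symm
          obtain ⟨q, hqP, hqM, hqx⟩ := Cfsg.Agent.S5597.exists_centralizing (Q d) N d hd1 hcomm
            hcent hucent (hNU.trans (hUQ d hdU hd1)) hdN x (hUQ d hdU hd1 hxU) hxN
          have hqL : q ∈ LU := hQle d hdU hd1 hqP
          have hqN : q ∈ Subgroup.normalizer (U : Set G) := hLN hqL
          obtain ⟨ψ, hψ⟩ := exists_conj_equiv U q hqN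
          have hfix : ∀ v : ↥U, φ v = v → (φ.trans ψ) v = v := by
            intro v hv
            apply Subtype.ext
            show ((ψ (φ v) : ↥U) : G) = v
            rw [hψ, hv]
            have hvM : (v : G) ∈ N := hFN ((hF v).mpr hv)
            rw [hqM _ hvM]
            group
          have hfixw : (φ.trans ψ) w = w := by
            apply Subtype.ext
            show ((ψ (φ w) : ↥U) : G) = w
            rw [hψ, ← hxdef, hqx, hddef, ← mul_assoc, hU2 x hxU, one_mul]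
          have hss : {v : ↥U | (φ.trans ψ) v ≠ v} ⊂ {v : ↥U | φ v ≠ v} := by
            constructor
            · intro v hv hv'
              exact hv (hfix v hv')
            · intro hsub
              exact hsub (show w ∈ {v : ↥U | φ v ≠ v} from hw) hfixw
          have hlt : {v : ↥U | (φ.trans ψ) v ≠ v}.ncard < k := by
            rw [← hk]
            exact Set.ncard_lt_ncard hss (Set.toFinite _)
          obtain ⟨g', hg'L, hg'⟩ := ih _ hlt (φ.trans ψ) rfl
          refine ⟨q⁻¹ * g', LU.mul_mem (LU.inv_mem hqL) hg'L, fun v => ?_⟩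
          have h1 := hg' v
          have h2 : (((φ.trans ψ) v : ↥U) : G) = q * ((φ v : ↥U) : G) * q⁻¹ := hψ (φ v)
          rw [h2] at h1
          calc q⁻¹ * g' * (v : G) * (q⁻¹ * g')⁻¹ = q⁻¹ * (g' * (v : G) * g'⁻¹) * q := by group
            _ = q⁻¹ * (q * ((φ v : ↥U) : G) * q⁻¹) * q := by rw [h1]
            _ = ((φ v : ↥U) : G) := by group
    intro φ
    exact key _ φ rfl

end Cfsg.Agent.S5596
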