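import Cfsg.Statements.S5729

set_option autoImplicit false
open Cfsg

namespace Cfsg.Agent.S5729

open Finset

theorem card_stab_mul_orbit {G Ω : Type*} [Group G] [MulAction G Ω] (H : Subgroup G) (ω : Ω) :
    Nat.card (MulAction.stabilizer H ω) * (MulAction.orbit H ω).ncard = Nat.card H := by
  rw [← MulAction.index_stabilizer]; exact Subgroup.card_mul_index _

open Classical in
theorem sum_fix {G Ω : Type*} [Group G] [Fintype G] [MulAction G Ω] [Fintype Ω] :
    ∑ g : G, (univ.filter (fun ω : Ω => g • ω = ω)).card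
      = ∑ α : Ω, (univ.filter (fun g : G => g • α = α)).card := by
  simp only [Finset.card_filter]
  exact Finset.sum_comm

open Classical in
theorem sum_fix_sq {G Ω : Type*} [Group G] [Fintype G] [MulAction G Ω] [Fintype Ω] :
    ∑ g : G, (univ.filter (fun ω : Ω => g • ω = ω)).card ^ 2
      = ∑ α : Ω, ∑ β : Ω, (univ.filter (fun g : G => g • α = α ∧ g • β = β)).card := by
  simp only [Finset.card_filter, pow_two, Finset.sum_mul_sum]
  rw [Finset.sum_comm]
  apply Finset.sum_congr rfl
  intro α _
  rw [Finset.sum_comm]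
  apply Finset.sum_congr rfl
  intro β _
  apply Finset.sum_congr rfl
  intro g _
  by_cases h1 : g • α = α <;> by_cases h2 : g • β = β <;> simp [h1, h2]

open Classical in
theorem card_stab {G Ω : Type*} [Group G] [Fintype G] [MulAction G Ω] [Fintype Ω]
    [MulAction.IsPretransitive G Ω] (α : Ω) :
    (univ.filter (fun g : G => g • α = α)).card * Fintype.card Ω = Fintype.card G := by
  have h1 : Nat.card (MulAction.stabilizer G α) * Nat.card Ω = Nat.card G := by
    rw [← MulAction.index_stabilizer_of_transitive G α]; exact Subgroup.card_mul_index _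
  have e1 : Nat.card Ω = Fintype.card Ω := Nat.card_eq_fintype_card
  have e2 : Nat.card G = Fintype.card G := Nat.card_eq_fintype_card
  rw [e1, e2] at h1
  rw [← h1]
  congr 1
  rw [← Fintype.card_subtype, ← Nat.card_eq_fintype_card]
  rfl

open Classical in
theorem card_stab_le {G Ω : Type*} [Group G] [Fintype G] [MulAction G Ω] [Fintype Ω]
    (α β : Ω) (hαβ : α ≠ β) :
    (univ.filter (fun g : G => g • α = α)).card
      ≤ (univ.filter (fun g : G => g • α = α ∧ g • β = β)).card * (Fintype.card Ω - 1) := by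
  have h1 := card_stab_mul_orbit (MulAction.stabilizer G α) β
  have h2 : Nat.card (MulAction.stabilizer G α) = (univ.filter (fun g : G => g • α = α)).card := by
    rw [← Fintype.card_subtype, ← Nat.card_eq_fintype_card]; rfl
  have h3 : Nat.card (MulAction.stabilizer (MulAction.stabilizer G α) β)
      = (univ.filter (fun g : G => g • α = α ∧ g • β = β)).card := by
    rw [← Fintype.card_subtype, ← Nat.card_eq_fintype_card]
    apply Nat.card_congr
    exact
      { toFun := fun k => ⟨(k.1 : G), k.1.2, k.2⟩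
        invFun := fun g => ⟨⟨g.1, g.2.1⟩, g.2.2⟩
        left_inv := fun k => rfl
        right_inv := fun g => rfl }
  have h4 : (MulAction.orbit (MulAction.stabilizer G α) β).ncard ≤ Fintype.card Ω - 1 := by
    have hsub : MulAction.orbit (MulAction.stabilizer G α) β ⊆ ((univ.erase α : Finset Ω) : Set Ω) := by
      rintro _ ⟨k, rfl⟩
      simp only [Finset.coe_erase, Finset.coe_univ, Set.mem_sdiff, Set.mem_univ,
        Set.mem_singleton_iff, true_and]
      intro h
      apply hαβ
      have hk : (k : G) • α = α := k.2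
      have h5 : (k : G) • β = (k : G) • α := by rw [hk]; exact h
      exact (MulAction.injective (k : G) h5).symm
    calc (MulAction.orbit (MulAction.stabilizer G α) β).ncard
        ≤ ((univ.erase α : Finset Ω) : Set Ω).ncard :=
          Set.ncard_le_ncard hsub (Finset.finite_toSet _)
      _ = Fintype.card Ω - 1 := by
          rw [Set.ncard_coe_finset, Finset.card_erase_of_mem (Finset.mem_univ _), Finset.card_univ]
  rw [← h2, ← h1, h3]
  exact Nat.mul_le_mul_left _ h4

theorem core {G : Type*} [Fintype G] (f : G → ℕ) (n N X d : ℕ)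
    (hM : Fintype.card G = N)
    (hfle : ∀ g, f g ≤ n) (h1 : ∑ g, f g = N) (h2 : ∑ g, f g ^ 2 = N + X) (hNX : N ≤ X)
    (hd : d = (univ.filter (fun g => f g = 0)).card) :
    N ≤ n * d ∧ (n * d ≤ N → X = N ∧ n * d = N ∧ ∀ g, f g = 0 ∨ f g = 1 ∨ f g = n) := by
  have hterm : ∀ g ∈ (univ : Finset G),
      f g ^ 2 + n ≤ n * (if f g = 0 then 1 else 0) + (n + 1) * f g := by
    intro g _
    have := hfle g
    by_cases h : f g = 0
    · rw [h, if_pos rfl]; simp
    · rw [if_neg h]
      have h1 : 1 ≤ f g := Nat.one_le_iff_ne_zero.mpr h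
      nlinarith
  have hsum := Finset.sum_le_sum hterm
  have hL : ∑ g, (f g ^ 2 + n) = N + X + N * n := by
    rw [Finset.sum_add_distrib, h2, Finset.sum_const, Finset.card_univ, smul_eq_mul, hM]
  have hR : ∑ g, (n * (if f g = 0 then 1 else 0) + (n + 1) * f g) = n * d + (n + 1) * N := by
    rw [Finset.sum_add_distrib, ← Finset.mul_sum, ← Finset.mul_sum, h1, Finset.sum_boole, hd]
    simp
  rw [hL, hR] at hsum
  have hXle : X ≤ n * d := by nlinarith
  refine ⟨hNX.trans hXle, fun hnd => ?_⟩
  have hXN : X = N := le_antisymm (hXle.trans hnd) hNX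
  have hndN : n * d = N := le_antisymm hnd (hNX.trans hXle)
  refine ⟨hXN, hndN, ?_⟩
  have heq : ∑ g, (f g ^ 2 + n) = ∑ g, (n * (if f g = 0 then 1 else 0) + (n + 1) * f g) := by
    rw [hL, hR, hXN, hndN]; ring
  have hall := (Finset.sum_eq_sum_iff_of_le hterm).mp heq
  intro g
  have hg := hall g (Finset.mem_univ g)
  by_cases h : f g = 0
  · exact Or.inl h
  · right
    rw [if_neg h] at hg
    obtain ⟨a, ha⟩ := Nat.exists_eq_succ_of_ne_zero h
    obtain ⟨b, hb⟩ := Nat.exists_eq_add_of_le (hfle g)
    rw [ha] at hg hb ⊢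
    rw [hb] at hg ⊢
    have hab : a * b = 0 := by
      simp only [Nat.succ_eq_add_one] at hg
      nlinarith
    rcases mul_eq_zero.mp hab with h0 | h0
    · left; rw [h0]
    · right; rw [h0]; rfl

theorem result {G Ω : Type*} [Group G] [Finite G] [MulAction G Ω] [FaithfulSMul G Ω] [Fintype Ω] (htr : MulAction.IsPretransitive G Ω) (hn : 3 ≤ Fintype.card Ω) :
    ((MulAction.IsPretransitive G Ω ∧ (∃ g : G, g ≠ 1 ∧ ∃ ω : Ω, g • ω = ω) ∧ ∀ g : G, g ≠ 1 → Nat.card (MulAction.fixedBy Ω g) ≤ 1) ∧ Nat.card G = Fintype.card Ω * (Fintype.card Ω - 1) ∧ Fintype.card Ω * Nat.card {g : G // ∀ ω : Ω, g • ω ≠ ω} = Nat.card G) ∨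
    Nat.card G < Fintype.card Ω * Nat.card {g : G // ∀ ω : Ω, g • ω ≠ ω} := by
  classical
  have hfinG : Fintype G := Fintype.ofFinite G
  have hNcard : Nat.card G = Fintype.card G := Nat.card_eq_fintype_card
  have hd : Nat.card {g : G // ∀ ω : Ω, g • ω ≠ ω}
      = (univ.filter (fun g : G => ∀ ω : Ω, g • ω ≠ ω)).card := by
    rw [Nat.card_eq_fintype_card, Fintype.card_subtype]
  rw [hNcard, hd]
  have hnpos : 0 < Fintype.card Ω := by omega
  obtain ⟨α₀⟩ : Nonempty Ω := Fintype.card_pos_iff.mp hnpos
  have hF1 : ∑ g : G, (univ.filter (fun ω : Ω => g • ω = ω)).card = Fintype.card G := by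
    have h1 : (∑ g : G, (univ.filter (fun ω : Ω => g • ω = ω)).card) * Fintype.card Ω
        = Fintype.card G * Fintype.card Ω := by
      rw [sum_fix, Finset.sum_mul, Finset.sum_congr rfl (fun α _ => card_stab α)]
      simp [mul_comm]
    exact Nat.eq_of_mul_eq_mul_right hnpos h1
  have hF1' : ∑ α : Ω, (univ.filter (fun g : G => g • α = α)).card = Fintype.card G := by
    rw [← sum_fix]; exact hF1
  have hsplit : ∀ α : Ω, ∑ β : Ω, (univ.filter (fun g : G => g • α = α ∧ g • β = β)).card
      = (univ.filter (fun g : G => g • α = α)).card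
        + ∑ β ∈ univ.erase α, (univ.filter (fun g : G => g • α = α ∧ g • β = β)).card := by
    intro α
    rw [← Finset.add_sum_erase univ _ (Finset.mem_univ α)]
    congr 2
    ext g; simp
  have hS2 : ∑ g : G, (univ.filter (fun ω : Ω => g • ω = ω)).card ^ 2
      = Fintype.card G + ∑ α : Ω, ∑ β ∈ univ.erase α,
          (univ.filter (fun g : G => g • α = α ∧ g • β = β)).card := by
    rw [sum_fix_sq, Finset.sum_congr rfl (fun α _ => hsplit α), Finset.sum_add_distrib, hF1']
  have hX : Fintype.card G ≤ ∑ α : Ω, ∑ β ∈ univ.erase α,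
      (univ.filter (fun g : G => g • α = α ∧ g • β = β)).card := by
    have h1 : (Fintype.card Ω - 1) * Fintype.card G
        ≤ (∑ α : Ω, ∑ β ∈ univ.erase α,
            (univ.filter (fun g : G => g • α = α ∧ g • β = β)).card) * (Fintype.card Ω - 1) := by
      rw [← hF1', Finset.mul_sum, Finset.sum_mul]
      apply Finset.sum_le_sum
      intro α _
      rw [Finset.sum_mul]
      have h2 : (Fintype.card Ω - 1) * (univ.filter (fun g : G => g • α = α)).card
          = ∑ β ∈ univ.erase α, (univ.filter (fun g : G => g • α = α)).card := by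
        rw [Finset.sum_const, Finset.card_erase_of_mem (Finset.mem_univ _), Finset.card_univ,
          smul_eq_mul]
      rw [h2]
      apply Finset.sum_le_sum
      intro β hβ
      exact card_stab_le α β (Finset.ne_of_mem_erase hβ).symm
    have h3 : 0 < Fintype.card Ω - 1 := by omega
    rw [mul_comm] at h1
    exact Nat.le_of_mul_le_mul_right h1 h3
  have hdf : (univ.filter (fun g : G => ∀ ω : Ω, g • ω ≠ ω)).card
      = (univ.filter (fun g : G => (univ.filter (fun ω : Ω => g • ω = ω)).card = 0)).card := by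
    congr 1
    apply Finset.filter_congr
    intro g _
    rw [Finset.card_eq_zero, Finset.filter_eq_empty_iff]
    simp
  obtain ⟨hge, hcase⟩ := core (fun g : G => (univ.filter (fun ω : Ω => g • ω = ω)).card)
    (Fintype.card Ω) (Fintype.card G) _ _ rfl (fun g => Finset.card_le_univ _) hF1 hS2 hX hdf
  by_cases hlt : Fintype.card G
      < Fintype.card Ω * (univ.filter (fun g : G => ∀ ω : Ω, g • ω ≠ ω)).card
  · exact Or.inr hlt
  left
  obtain ⟨hXN, hndN, hvals⟩ := hcase (not_lt.mp hlt)
  have hfix1 : ∀ g : G, g ≠ 1 → (univ.filter (fun ω : Ω => g • ω = ω)).card ≤ 1 := by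
    intro g hg
    rcases hvals g with h | h | h
    · exact h.le.trans (by omega)
    · exact h.le
    · exfalso; apply hg
      have huniv : univ.filter (fun ω : Ω => g • ω = ω) = univ :=
        (Finset.card_eq_iff_eq_univ _).mp h
      apply FaithfulSMul.eq_of_smul_eq_smul (α := Ω)
      intro ω
      rw [one_smul]
      have hω : ω ∈ univ.filter (fun ω : Ω => g • ω = ω) := by rw [huniv]; exact Finset.mem_univ _
      exact (Finset.mem_filter.mp hω).2
  have hc1 : ∀ α β : Ω, α ≠ β →
      (univ.filter (fun g : G => g • α = α ∧ g • β = β)).card = 1 := by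
    intro α β hαβ
    rw [Finset.card_eq_one]
    refine ⟨1, ?_⟩
    ext g
    simp only [Finset.mem_filter, Finset.mem_univ, true_and, Finset.mem_singleton]
    constructor
    · rintro ⟨h1, h2⟩
      by_contra hg
      have h3 := hfix1 g hg
      have h4 : ({α, β} : Finset Ω) ⊆ univ.filter (fun ω : Ω => g • ω = ω) := by
        intro x hx
        simp only [Finset.mem_insert, Finset.mem_singleton] at hx
        rcases hx with rfl | rfl <;> simp [h1, h2]
      have h5 := Finset.card_le_card h4
      rw [Finset.card_pair hαβ] at h5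
      omega
    · rintro rfl; simp
  have hXval : ∑ α : Ω, ∑ β ∈ univ.erase α,
      (univ.filter (fun g : G => g • α = α ∧ g • β = β)).card
        = Fintype.card Ω * (Fintype.card Ω - 1) := by
    rw [Finset.sum_congr rfl (fun α _ => Finset.sum_congr rfl
      (fun β hβ => hc1 α β (Finset.ne_of_mem_erase hβ).symm))]
    simp [Finset.card_erase_of_mem]
  have hNval : Fintype.card G = Fintype.card Ω * (Fintype.card Ω - 1) := by
    rw [← hXN, hXval]
  refine ⟨⟨htr, ?_, ?_⟩, hNval, hndN⟩
  · have h1 := card_stab (G := G) α₀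
    have hcs : (univ.filter (fun g : G => g • α₀ = α₀)).card = Fintype.card Ω - 1 := by
      apply Nat.eq_of_mul_eq_mul_right hnpos
      rw [h1, hNval, mul_comm]
    have h2 : 1 < (univ.filter (fun g : G => g • α₀ = α₀)).card := by omega
    obtain ⟨g, hg, hne⟩ := Finset.exists_mem_ne h2 1
    exact ⟨g, hne, α₀, (Finset.mem_filter.mp hg).2⟩
  · intro g hg
    have h1 : Nat.card (MulAction.fixedBy Ω g) = (univ.filter (fun ω : Ω => g • ω = ω)).card := by
      rw [← Fintype.card_subtype, ← Nat.card_eq_fintype_card]; rfl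
    rw [h1]; exact hfix1 g hg

end Cfsg.Agent.S5729
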