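import Cfsg.Statements.S5738

set_option autoImplicit false
open Cfsg

namespace Cfsg.Agent.S5738

section gen

variable {F K : Type*} [Field F] [Field K] [Algebra F K]

def mulU (a : Kˣ) : (Module.End F K)ˣ :=
  Units.map ((Algebra.lmul F K : K →ₐ[F] Module.End F K) : K →* Module.End F K) a

theorem mulU_apply (a : Kˣ) (x : K) :
    ((mulU a : (Module.End F K)ˣ) : Module.End F K) x = a * x := rfl

def autU (σ : K ≃ₐ[F] K) : (Module.End F K)ˣ :=
  LinearMap.GeneralLinearGroup.ofLinearEquiv σ.toLinearEquiv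

theorem autU_apply (σ : K ≃ₐ[F] K) (x : K) :
    ((autU σ : (Module.End F K)ˣ) : Module.End F K) x = σ x := rfl

theorem mul_apply' (g h : (Module.End F K)ˣ) (x : K) :
    ((g * h : (Module.End F K)ˣ) : Module.End F K) x =
      (g : Module.End F K) ((h : Module.End F K) x) := rfl

theorem inv_apply_apply (g : (Module.End F K)ˣ) (x : K) :
    ((g⁻¹ : (Module.End F K)ˣ) : Module.End F K) ((g : Module.End F K) x) = x := by
  rw [← mul_apply', inv_mul_cancel]
  rfl

theorem apply_inv_apply (g : (Module.End F K)ˣ) (x : K) :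
    (g : Module.End F K) (((g⁻¹ : (Module.End F K)ˣ) : Module.End F K) x) = x := by
  rw [← mul_apply', mul_inv_cancel]
  rfl

theorem unit_ext {g h : (Module.End F K)ˣ}
    (H : ∀ x, (g : Module.End F K) x = (h : Module.End F K) x) : g = h :=
  Units.ext (LinearMap.ext H)

theorem aut_mul (σ : K ≃ₐ[F] K) (b : Kˣ) :
    autU σ * mulU b = mulU (Units.map (σ : K →* K) b) * autU σ := by
  apply unit_ext
  intro x
  rw [mul_apply', mul_apply', mulU_apply, mulU_apply, autU_apply, autU_apply, map_mul]
  rfl

theorem mem_singer (g : (Module.End F K)ˣ) :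
    g ∈ (Units.map ((Algebra.lmul F K : K →ₐ[F] Module.End F K) :
      K →* Module.End F K)).range ↔ ∃ a : Kˣ, mulU a = g := MonoidHom.mem_range

theorem mulU_mem_normalizer (a : Kˣ) :
    (mulU a : (Module.End F K)ˣ) ∈ Subgroup.normalizer
      (((Units.map ((Algebra.lmul F K : K →ₐ[F] Module.End F K) :
        K →* Module.End F K)).range : Subgroup (Module.End F K)ˣ) : Set (Module.End F K)ˣ) :=
  Subgroup.le_normalizer ((mem_singer _).mpr ⟨a, rfl⟩)

theorem autU_mem_normalizer (σ : K ≃ₐ[F] K) :
    (autU σ : (Module.End F K)ˣ) ∈ Subgroup.normalizer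
      (((Units.map ((Algebra.lmul F K : K →ₐ[F] Module.End F K) :
        K →* Module.End F K)).range : Subgroup (Module.End F K)ˣ) : Set (Module.End F K)ˣ) := by
  rw [Subgroup.mem_set_normalizer_iff]
  intro h
  rw [SetLike.mem_coe, SetLike.mem_coe, mem_singer, mem_singer]
  constructor
  · rintro ⟨b, rfl⟩
    refine ⟨Units.map (σ : K →* K) b, ?_⟩
    rw [eq_mul_inv_iff_mul_eq, aut_mul]
  · rintro ⟨c, hc⟩
    refine ⟨Units.map (σ.symm : K →* K) c, ?_⟩
    rw [eq_comm, mul_inv_eq_iff_eq_mul] at hc
    have h2 := aut_mul σ (Units.map (σ.symm : K →* K) c)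
    have h3 : Units.map (σ : K →* K) (Units.map (σ.symm : K →* K) c) = c := by
      apply Units.ext
      exact σ.apply_symm_apply _
    rw [h3, ← hc] at h2
    exact mul_left_cancel h2

theorem exists_decomp (g : (Module.End F K)ˣ)
    (hg : g ∈ Subgroup.normalizer
      (((Units.map ((Algebra.lmul F K : K →ₐ[F] Module.End F K) :
        K →* Module.End F K)).range : Subgroup (Module.End F K)ˣ) : Set (Module.End F K)ˣ)) :
    ∃ (a : Kˣ) (σ : K ≃ₐ[F] K), mulU a * autU σ = g := by
  have ha₀ : (g : Module.End F K) 1 ≠ 0 := by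
    intro h0
    have h1 := inv_apply_apply g (1 : K)
    rw [h0, map_zero] at h1
    exact zero_ne_one h1
  obtain ⟨a, ha⟩ : ∃ a : Kˣ, (a : K) = (g : Module.End F K) 1 := ⟨Units.mk0 _ ha₀, rfl⟩
  obtain ⟨h, hh⟩ : ∃ h : (Module.End F K)ˣ, h = (mulU a)⁻¹ * g := ⟨_, rfl⟩
  have hinv : (mulU a : (Module.End F K)ˣ)⁻¹ = mulU a⁻¹ := by
    unfold mulU
    rw [map_inv]
  have hval : ∀ x, (h : Module.End F K) x = (a⁻¹ : Kˣ) * (g : Module.End F K) x := by
    intro x
    rw [hh, hinv, mul_apply', mulU_apply]
  have h1 : (h : Module.End F K) 1 = 1 := by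
    rw [hval, ← ha, Units.inv_mul]
  have hhN : h ∈ Subgroup.normalizer
      (((Units.map ((Algebra.lmul F K : K →ₐ[F] Module.End F K) :
        K →* Module.End F K)).range : Subgroup (Module.End F K)ˣ) : Set (Module.End F K)ˣ) := by
    rw [hh]
    exact Subgroup.mul_mem _ (Subgroup.inv_mem _ (mulU_mem_normalizer a)) hg
  have hmulU : ∀ (b : Kˣ) (x : K),
      (h : Module.End F K) (b * x) = (h : Module.End F K) b * (h : Module.End F K) x := by
    intro b x
    have hb := (Subgroup.mem_set_normalizer_iff.mp hhN (mulU b)).mp ((mem_singer _).mpr ⟨b, rfl⟩)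
    rw [SetLike.mem_coe, mem_singer] at hb
    obtain ⟨c, hc⟩ := hb
    rw [eq_mul_inv_iff_mul_eq] at hc
    have key : ∀ y, (h : Module.End F K) (b * y) = c * (h : Module.End F K) y := by
      intro y
      have := congrArg (fun u : (Module.End F K)ˣ => (u : Module.End F K) y) hc
      simp only [mul_apply', mulU_apply] at this
      exact this.symm
    have hcb : (c : K) = (h : Module.End F K) b := by
      have := key 1
      rw [mul_one, h1, mul_one] at this
      exact this.symm
    rw [key, hcb]
  have hmul : ∀ (b x : K),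
      (h : Module.End F K) (b * x) = (h : Module.End F K) b * (h : Module.End F K) x := by
    intro b x
    by_cases hb : b = 0
    · rw [hb, zero_mul, map_zero, zero_mul]
    · exact hmulU (Units.mk0 b hb) x
  refine ⟨a, AlgEquiv.ofLinearEquiv (LinearMap.GeneralLinearGroup.toLinearEquiv h) h1 hmul, ?_⟩
  apply unit_ext
  intro x
  rw [mul_apply', mulU_apply, autU_apply]
  change (a : K) * (h : Module.End F K) x = _
  rw [hval, ← mul_assoc, Units.mul_inv, one_mul]

theorem decomp_inj (a b : Kˣ) (σ τ : K ≃ₐ[F] K)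
    (h : (mulU a * autU σ : (Module.End F K)ˣ) = mulU b * autU τ) : a = b ∧ σ = τ := by
  have key : ∀ x, (a : K) * σ x = b * τ x := by
    intro x
    have := congrArg (fun u : (Module.End F K)ˣ => (u : Module.End F K) x) h
    simp only [mul_apply', mulU_apply, autU_apply] at this
    exact this
  have hab : a = b := by
    apply Units.ext
    have := key 1
    rw [map_one, map_one, mul_one, mul_one] at this
    exact this
  refine ⟨hab, ?_⟩
  ext x
  have := key x
  rw [hab] at this
  exact mul_left_cancel₀ b.ne_zero this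

end gen

theorem result {F K : Type*} [Field F] [Fintype F] [Field K] [Fintype K] [Algebra F K] (n : ℕ) (hn : 2 ≤ n) (hdim : Module.finrank F K = n) :
    Nat.card (Subgroup.normalizer (((Units.map ((Algebra.lmul F K : K →ₐ[F] Module.End F K) : K →* Module.End F K)).range : Subgroup (Module.End F K)ˣ) : Set (Module.End F K)ˣ)) = n * (Fintype.card K - 1) := by
  have e : Kˣ × (K ≃ₐ[F] K) ≃ Subgroup.normalizer (((Units.map ((Algebra.lmul F K : K →ₐ[F] Module.End F K) : K →* Module.End F K)).range : Subgroup (Module.End F K)ˣ) : Set (Module.End F K)ˣ) :=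
    Equiv.ofBijective
      (fun p => ⟨mulU p.1 * autU p.2,
        Subgroup.mul_mem _ (mulU_mem_normalizer p.1) (autU_mem_normalizer p.2)⟩)
      ⟨fun p q hpq => by
        have := decomp_inj p.1 q.1 p.2 q.2 (congrArg Subtype.val hpq)
        exact Prod.ext this.1 this.2,
       fun g => by
        obtain ⟨a, σ, h⟩ := exists_decomp g.1 g.2
        exact ⟨(a, σ), Subtype.ext h⟩⟩
  rw [← Nat.card_congr e, Nat.card_prod, Nat.card_units, IsGalois.card_aut_eq_finrank, hdim,
    Nat.card_eq_fintype_card, mul_comm]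

end Cfsg.Agent.S5738
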