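import Cfsg.Statements.S5739

set_option autoImplicit false
open Cfsg

namespace Cfsg.Agent.S5739

theorem exists_subalg {F K A : Type*} [Field F] [Field K] [Algebra F K] [Ring A] [Algebra F A]
    (L : K →ₐ[F] A) (g : Aˣ) :
    ∃ E : Subalgebra F K, ∀ k, k ∈ E ↔ ∃ k', L k = g * L k' * ((g⁻¹ : Aˣ) : A) := by
  refine ⟨{ carrier := {k | ∃ k', L k = g * L k' * ((g⁻¹ : Aˣ) : A)}
            mul_mem' := ?_
            add_mem' := ?_
            algebraMap_mem' := ?_ }, fun k => Iff.rfl⟩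
  · rintro a b ⟨a', ha⟩ ⟨b', hb⟩
    refine ⟨a' * b', ?_⟩
    rw [map_mul, map_mul, ha, hb]
    calc (g : A) * L a' * ((g⁻¹ : Aˣ) : A) * (g * L b' * ((g⁻¹ : Aˣ) : A))
        = g * L a' * (((g⁻¹ : Aˣ) : A) * g) * L b' * ((g⁻¹ : Aˣ) : A) := by simp only [mul_assoc]
      _ = g * (L a' * L b') * ((g⁻¹ : Aˣ) : A) := by rw [Units.inv_mul, mul_one, mul_assoc (g : A)]
  · rintro a b ⟨a', ha⟩ ⟨b', hb⟩
    refine ⟨a' + b', ?_⟩
    rw [map_add, map_add, ha, hb, mul_add, add_mul]
  · intro c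
    refine ⟨algebraMap F K c, ?_⟩
    rw [AlgHom.commutes, ← Algebra.commutes, mul_assoc, Units.mul_inv, mul_one]

theorem exists_field {F K A : Type*} [Field F] [Field K] [Algebra F K] [Ring A] [Algebra F A]
    (L : K →ₐ[F] A) (g : Aˣ) (hL : Function.Injective L) :
    ∃ E : IntermediateField F K, ∀ k, k ∈ E ↔ ∃ k', L k = g * L k' * ((g⁻¹ : Aˣ) : A) := by
  obtain ⟨E, hE⟩ := exists_subalg L g
  refine ⟨E.toIntermediateField ?_, fun k => hE k⟩
  intro x hx
  by_cases hx0 : x = 0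
  · rw [hx0, inv_zero]
    exact E.zero_mem
  · obtain ⟨x', hx'⟩ := (hE x).mp hx
    have hx'0 : x' ≠ 0 := by
      rintro rfl
      apply hx0
      apply hL
      rw [hx', map_zero, mul_zero, zero_mul]
    rw [hE]
    refine ⟨x'⁻¹, ?_⟩
    have h1 : L x * L x⁻¹ = 1 := by rw [← map_mul, mul_inv_cancel₀ hx0, map_one]
    have h2 : (g * L x'⁻¹ * ((g⁻¹ : Aˣ) : A)) * L x = 1 := by
      rw [hx']
      calc (g : A) * L x'⁻¹ * ((g⁻¹ : Aˣ) : A) * (g * L x' * ((g⁻¹ : Aˣ) : A))
          = g * L x'⁻¹ * (((g⁻¹ : Aˣ) : A) * g) * L x' * ((g⁻¹ : Aˣ) : A) := by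
            simp only [mul_assoc]
        _ = g * (L x'⁻¹ * L x') * ((g⁻¹ : Aˣ) : A) := by
            rw [Units.inv_mul, mul_one, mul_assoc (g : A)]
        _ = 1 := by rw [← map_mul, inv_mul_cancel₀ hx'0, map_one, mul_one, Units.mul_inv]
    calc L x⁻¹ = ((g * L x'⁻¹ * ((g⁻¹ : Aˣ) : A)) * L x) * L x⁻¹ := by rw [h2, one_mul]
      _ = (g * L x'⁻¹ * ((g⁻¹ : Aˣ) : A)) * (L x * L x⁻¹) := by rw [mul_assoc]
      _ = g * L x'⁻¹ * ((g⁻¹ : Aˣ) : A) := by rw [h1, mul_one]

theorem main_abs {F K A : Type*} [Field F] [Fintype F] [Field K] [Fintype K] [Algebra F K]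
    [Ring A] [Algebra F A] [Finite A] [Nontrivial A] (L : K →ₐ[F] A) (M : K →* A)
    (hM : ∀ k, M k = L k) (n : ℕ) (hn : 2 ≤ n) (hdim : Module.finrank F K = n) (g : Aˣ)
    (hg : (Units.map M).range.map (MulAut.conj g).toMonoidHom ≠ (Units.map M).range) :
    ∃ r : ℕ, 1 ≤ r ∧ r ∣ n ∧ r < n ∧
      Nat.card ↥((Units.map M).range.map (MulAut.conj g).toMonoidHom ⊓ (Units.map M).range) ∣
        Fintype.card F ^ r - 1 := by
  classical
  have hLinj : Function.Injective L := (L : K →+* A).injective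
  obtain ⟨E, hE⟩ := exists_field L g hLinj
  have hdvd : Module.finrank F E ∣ n := Dvd.intro _ ((Module.finrank_mul_finrank F E K).trans hdim)
  have hpos : 1 ≤ Module.finrank F E := Module.finrank_pos
  have hkey : ∀ k : Kˣ, (k : K) ∈ E → ∃ v ∈ (Units.map M).range,
      (MulAut.conj g).toMonoidHom v = Units.map M k := by
    intro k hk
    obtain ⟨k', hk'⟩ := (hE _).mp hk
    have hk'0 : k' ≠ 0 := by
      rintro rfl
      apply k.ne_zero
      apply hLinj
      rw [hk', map_zero, mul_zero, zero_mul]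
    refine ⟨Units.map M (Units.mk0 k' hk'0), ⟨_, rfl⟩, ?_⟩
    apply Units.ext
    simp [hM, hk']
  refine ⟨Module.finrank F E, hpos, hdvd, ?_, ?_⟩
  · have hle : Module.finrank F E ≤ n := Nat.le_of_dvd (by omega) hdvd
    rcases Nat.lt_or_ge (Module.finrank F E) n with h | h
    · exact h
    · exfalso
      have heq : Module.finrank F E = Module.finrank F K := by omega
      have htop : E.toSubalgebra.toSubmodule = ⊤ := Submodule.eq_top_of_finrank_eq heq
      have hall : ∀ k : K, k ∈ E := by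
        intro k
        have : k ∈ E.toSubalgebra.toSubmodule := by rw [htop]; trivial
        exact this
      have hsub : (Units.map M).range ≤ (Units.map M).range.map (MulAut.conj g).toMonoidHom := by
        rintro u ⟨k, rfl⟩
        obtain ⟨v, hv, hvk⟩ := hkey k (hall k)
        exact Subgroup.mem_map.mpr ⟨v, hv, hvk⟩
      apply hg
      symm
      apply Subgroup.eq_of_le_of_card_ge hsub
      rw [Subgroup.card_map_of_injective (MulAut.conj g).injective]
  · obtain ⟨φ, hφ⟩ : ∃ φ : (↥E)ˣ →* Aˣ, ∀ e : (↥E)ˣ, ((φ e : Aˣ) : A) = M ((e : E) : K) :=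
      ⟨(Units.map M).comp (Units.map ((E.val : E →ₐ[F] K) : E →* K)), fun e => rfl⟩
    have hT : (Units.map M).range.map (MulAut.conj g).toMonoidHom ⊓ (Units.map M).range
        ≤ φ.range := by
      rintro u ⟨hu1, ⟨k, hk⟩⟩
      obtain ⟨v, ⟨k', rfl⟩, hv⟩ := Subgroup.mem_map.mp hu1
      have hkE : (k : K) ∈ E := by
        rw [hE]
        refine ⟨k', ?_⟩
        have h1 := congrArg (fun t : Aˣ => (t : A)) hv
        have h2 := congrArg (fun t : Aˣ => (t : A)) hk
        simp only [MulEquiv.coe_toMonoidHom, MulAut.conj_apply, Units.val_mul, Units.coe_map] at h1 h2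
        rw [← hM, ← hM, h2, h1]
      refine ⟨Units.mk0 (⟨k, hkE⟩ : E) (fun h => k.ne_zero (congrArg Subtype.val h)), ?_⟩
      apply Units.ext
      rw [hφ, ← hk]
      rfl
    have h1 := (Subgroup.card_dvd_of_le hT).trans (Subgroup.card_range_dvd φ)
    rw [Nat.card_units, Module.natCard_eq_pow_finrank (K := F) (V := E), Nat.card_eq_fintype_card (α := F)] at h1
    exact h1

theorem result {F K : Type*} [Field F] [Fintype F] [Field K] [Fintype K] [Algebra F K] (n : ℕ) (hn : 2 ≤ n) (hdim : Module.finrank F K = n)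
    (g : (Module.End F K)ˣ) (hg : ((Units.map ((Algebra.lmul F K : K →ₐ[F] Module.End F K) : K →* Module.End F K)).range).map (MulAut.conj g).toMonoidHom ≠ (Units.map ((Algebra.lmul F K : K →ₐ[F] Module.End F K) : K →* Module.End F K)).range) :
    ∃ r : ℕ, 1 ≤ r ∧ r ∣ n ∧ r < n ∧ Nat.card ↥(((Units.map ((Algebra.lmul F K : K →ₐ[F] Module.End F K) : K →* Module.End F K)).range).map (MulAut.conj g).toMonoidHom ⊓ (Units.map ((Algebra.lmul F K : K →ₐ[F] Module.End F K) : K →* Module.End F K)).range) ∣ Fintype.card F ^ r - 1 := by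
  have : Finite (Module.End F K) :=
    Finite.of_injective (fun f : Module.End F K => (f : K → K)) DFunLike.coe_injective
  exact main_abs (Algebra.lmul F K) _ (fun k => rfl) n hn hdim g hg

end Cfsg.Agent.S5739
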