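import Cfsg.Statements.S5747

set_option autoImplicit false
open Cfsg

namespace Cfsg.Agent.S5747

def IsIB (G : Type*) {Ω : Type*} [Group G] [MulAction G Ω] {t : ℕ} (f : Fin t → Ω) : Prop :=
  (∀ g : G, (∀ i : Fin t, g • f i = f i) → g = 1) ∧
    ∀ i : Fin t, ∃ g : G, (∀ j : Fin t, j < i → g • f j = f j) ∧ g • f i ≠ f i

def SBase (G : Type*) {Ω : Type*} [Group G] [MulAction G Ω] (S : Finset Ω) : Prop :=
  ∀ g : G, (∀ y ∈ S, g • y = y) → g = 1

def SMoves (G : Type*) {Ω : Type*} [Group G] [MulAction G Ω] (S : Finset Ω) (x : Ω) : Prop :=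
  ∃ g : G, (∀ y ∈ S, g • y = y) ∧ g • x ≠ x

def SInd (G : Type*) {Ω : Type*} [Group G] [MulAction G Ω] [DecidableEq Ω] (S : Finset Ω) :
    Prop :=
  ∀ x ∈ S, SMoves G (S.erase x) x

def SSeq (G : Type*) {Ω : Type*} [Group G] [MulAction G Ω] (S : Finset Ω) : Prop :=
  ∃ (t : ℕ) (f : Fin t → Ω),
    (∀ i : Fin t, ∃ g : G, (∀ j : Fin t, j < i → g • f j = f j) ∧ g • f i ≠ f i) ∧
      ∀ ω, ω ∈ S ↔ ∃ i, f i = ω

section setlevel

variable {G Ω : Type*} [Group G] [MulAction G Ω]

theorem smoves_mono {S S' : Finset Ω} {x : Ω} (h : S' ⊆ S) (hm : SMoves G S x) :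
    SMoves G S' x := by
  obtain ⟨g, hg, hgx⟩ := hm
  exact ⟨g, fun y hy => hg y (h hy), hgx⟩

theorem sbase_mono {S S' : Finset Ω} (h : S ⊆ S') (hb : SBase G S) : SBase G S' :=
  fun g hg => hb g (fun y hy => hg y (h hy))

theorem sind_mono [DecidableEq Ω] {S S' : Finset Ω} (h : S' ⊆ S) (hi : SInd G S) :
    SInd G S' :=
  fun x hx => smoves_mono (Finset.erase_subset_erase x h) (hi x (h hx))

theorem sseq_empty : SSeq G (∅ : Finset Ω) :=
  ⟨0, Fin.elim0, fun i => i.elim0, fun ω => by
    constructor
    · intro h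
      exact absurd h (Finset.notMem_empty ω)
    · rintro ⟨i, -⟩
      exact i.elim0⟩

theorem sseq_insert [DecidableEq Ω] {S : Finset Ω} {x : Ω} (hS : SSeq G S)
    (hx : SMoves G S x) : SSeq G (insert x S) := by
  obtain ⟨t, f, hirr, hrange⟩ := hS
  obtain ⟨g₀, hg₀, hg₀x⟩ := hx
  refine ⟨t + 1, Fin.snoc (α := fun _ => Ω) f x, ?_, ?_⟩
  · intro i
    induction i using Fin.lastCases with
    | last =>
      refine ⟨g₀, fun j hj => ?_, by rw [Fin.snoc_last]; exact hg₀x⟩
      have hjlt : j.val < t := hj
      have e : j = Fin.castSucc (j.castLT hjlt) := (Fin.castSucc_castLT j hjlt).symm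
      rw [e, Fin.snoc_castSucc]
      exact hg₀ _ ((hrange _).mpr ⟨_, rfl⟩)
    | cast i =>
      obtain ⟨g, hg, hgi⟩ := hirr i
      refine ⟨g, fun j hj => ?_, by rw [Fin.snoc_castSucc]; exact hgi⟩
      have hjlt : j.val < t := lt_trans (show j.val < i.val from hj) i.isLt
      have e : j = Fin.castSucc (j.castLT hjlt) := (Fin.castSucc_castLT j hjlt).symm
      rw [e, Fin.snoc_castSucc]
      apply hg
      exact hj
  · intro ω
    constructor
    · intro h
      rcases Finset.mem_insert.mp h with rfl | h
      · exact ⟨Fin.last t, Fin.snoc_last _ _⟩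
      · obtain ⟨i, hi⟩ := (hrange ω).mp h
        exact ⟨Fin.castSucc i, by rw [Fin.snoc_castSucc]; exact hi⟩
    · rintro ⟨i, rfl⟩
      induction i using Fin.lastCases with
      | last =>
        rw [Fin.snoc_last]
        exact Finset.mem_insert_self _ _
      | cast i =>
        rw [Fin.snoc_castSucc]
        exact Finset.mem_insert_of_mem ((hrange _).mpr ⟨i, rfl⟩)

theorem sseq_of_sind [DecidableEq Ω] {S : Finset Ω} (hi : SInd G S) : SSeq G S := by
  induction S using Finset.induction_on with
  | empty => exact sseq_empty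
  | insert x S hx ih =>
    have h1 : SInd G S := sind_mono (Finset.subset_insert x S) hi
    have h2 := hi x (Finset.mem_insert_self x S)
    rw [Finset.erase_insert hx] at h2
    exact sseq_insert (ih h1) h2

theorem claimP [DecidableEq Ω]
    (hBs : ∀ S : Finset Ω, SBase G S → SSeq G S → SInd G S)
    (Q : Finset Ω) (x : Ω) (C : Finset Ω) (hxQ : x ∉ Q) (hQC : Disjoint Q C)
    (h1 : SBase G (insert x Q)) (h1' : SInd G (insert x Q))
    (h2 : SBase G (Q ∪ C)) (h2' : SInd G (Q ∪ C)) : C.card = 1 := by
  have hCne : C.Nonempty := by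
    by_contra h
    rw [Finset.not_nonempty_iff_eq_empty] at h
    subst h
    rw [Finset.union_empty] at h2
    obtain ⟨g, hg, hgx⟩ := h1' x (Finset.mem_insert_self x Q)
    rw [Finset.erase_insert hxQ] at hg
    exact hgx (by rw [h2 g hg, one_smul])
  by_cases hxC : x ∈ C
  · rw [Finset.card_eq_one]
    refine ⟨x, ?_⟩
    rw [Finset.eq_singleton_iff_unique_mem]
    refine ⟨hxC, fun c hc => ?_⟩
    by_contra hcx
    obtain ⟨g, hg, hgc⟩ := h2' c (Finset.mem_union_right Q hc)
    have : g = 1 := h1 g (fun y hy => by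
      apply hg
      rw [Finset.mem_erase]
      rcases Finset.mem_insert.mp hy with rfl | hyQ
      · exact ⟨fun h => hcx h.symm, Finset.mem_union_right Q hxC⟩
      · exact ⟨fun h => (Finset.disjoint_left.mp hQC hyQ) (h ▸ hc), Finset.mem_union_left C hyQ⟩)
    exact hgc (by rw [this, one_smul])
  · obtain ⟨c₁, hc₁⟩ := hCne
    have hc₁Q : c₁ ∉ Q := fun h => Finset.disjoint_left.mp hQC h hc₁
    have hc₁x : c₁ ≠ x := fun h => hxC (h ▸ hc₁)
    have hInd1 : SInd G (insert c₁ Q) := by
      refine sind_mono ?_ h2'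
      intro y hy
      rcases Finset.mem_insert.mp hy with rfl | hyQ
      · exact Finset.mem_union_right Q hc₁
      · exact Finset.mem_union_left C hyQ
    by_cases hmv : SMoves G (insert c₁ Q) x
    · exfalso
      have hseq : SSeq G (insert x (insert c₁ Q)) := sseq_insert (sseq_of_sind hInd1) hmv
      have hbase : SBase G (insert x (insert c₁ Q)) := by
        refine sbase_mono ?_ h1
        intro y hy
        rcases Finset.mem_insert.mp hy with rfl | hyQ
        · exact Finset.mem_insert_self _ _
        · exact Finset.mem_insert_of_mem (Finset.mem_insert_of_mem hyQ)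
      have hind := hBs _ hbase hseq
      obtain ⟨g, hg, hgc⟩ := hind c₁ (by simp)
      have : g = 1 := h1 g (fun y hy => hg y (by
        rw [Finset.mem_erase]
        rcases Finset.mem_insert.mp hy with rfl | hyQ
        · exact ⟨fun h => hc₁x h.symm, Finset.mem_insert_self _ _⟩
        · exact ⟨fun h => hc₁Q (h ▸ hyQ),
            Finset.mem_insert_of_mem (Finset.mem_insert_of_mem hyQ)⟩))
      exact hgc (by rw [this, one_smul])
    · have hbase : SBase G (insert c₁ Q) := by
        intro g hg
        apply h1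
        intro y hy
        rcases Finset.mem_insert.mp hy with rfl | hyQ
        · by_contra hne
          exact hmv ⟨g, hg, hne⟩
        · exact hg y (Finset.mem_insert_of_mem hyQ)
      rw [Finset.card_eq_one]
      refine ⟨c₁, ?_⟩
      rw [Finset.eq_singleton_iff_unique_mem]
      refine ⟨hc₁, fun c hc => ?_⟩
      by_contra hcc
      obtain ⟨g, hg, hgc⟩ := h2' c (Finset.mem_union_right Q hc)
      have : g = 1 := hbase g (fun y hy => hg y (by
        rw [Finset.mem_erase]
        rcases Finset.mem_insert.mp hy with rfl | hyQ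
        · exact ⟨fun h => hcc h.symm, Finset.mem_union_right Q hc₁⟩
        · exact ⟨fun h => Finset.disjoint_left.mp hQC hyQ (h ▸ hc),
            Finset.mem_union_left C hyQ⟩))
      exact hgc (by rw [this, one_smul])

theorem union_erase [DecidableEq Ω] {P A : Finset Ω} {a : Ω} (ha : a ∈ A) :
    insert a P ∪ A.erase a = P ∪ A := by
  ext y
  simp only [Finset.mem_union, Finset.mem_insert, Finset.mem_erase]
  constructor
  · rintro ((rfl | h) | h)
    · exact Or.inr ha
    · exact Or.inl h
    · exact Or.inr h.2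
  · rintro (h | h)
    · exact Or.inl (Or.inr h)
    · by_cases hy : y = a
      · exact Or.inl (Or.inl hy)
      · exact Or.inr ⟨hy, h⟩

theorem disj_erase [DecidableEq Ω] {P A : Finset Ω} {a : Ω} (h : Disjoint P A) :
    Disjoint (insert a P) (A.erase a) := by
  rw [Finset.disjoint_left]
  intro y hy hy'
  rw [Finset.mem_erase] at hy'
  rcases Finset.mem_insert.mp hy with rfl | hyP
  · exact hy'.1 rfl
  · exact Finset.disjoint_left.mp h hyP hy'.2

theorem mainQ [DecidableEq Ω]
    (hBs : ∀ S : Finset Ω, SBase G S → SSeq G S → SInd G S) :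
    ∀ (n : ℕ) (P A B : Finset Ω), A.card = n → Disjoint P A → Disjoint P B →
      SBase G (P ∪ A) → SInd G (P ∪ A) → SBase G (P ∪ B) → SInd G (P ∪ B) →
      A.card = B.card := by
  intro n
  induction n with
  | zero =>
    intro P A B hA hPA hPB hbA hiA hbB hiB
    rw [Finset.card_eq_zero] at hA
    subst hA
    rw [Finset.union_empty] at hbA
    by_contra hne
    have hBne : B.Nonempty := by
      rw [Finset.nonempty_iff_ne_empty]
      intro h
      apply hne
      rw [h]
    obtain ⟨b, hb⟩ := hBne
    obtain ⟨g, hg, hgb⟩ := hiB b (Finset.mem_union_right P hb)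
    have : g = 1 := hbA g (fun y hy => hg y (by
      rw [Finset.mem_erase]
      exact ⟨fun h => Finset.disjoint_left.mp hPB hy (h ▸ hb), Finset.mem_union_left B hy⟩))
    exact hgb (by rw [this, one_smul])
  | succ n ih =>
    intro P A B hA hPA hPB hbA hiA hbB hiB
    have hAne : A.Nonempty := by
      rw [← Finset.card_pos]; omega
    obtain ⟨a₁, ha₁⟩ := hAne
    have ha₁P : a₁ ∉ P := fun h => Finset.disjoint_left.mp hPA h ha₁
    have hA' : (A.erase a₁).card = n := by
      rw [Finset.card_erase_of_mem ha₁]; omega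
    by_cases ha₁B : a₁ ∈ B
    · have h := ih (insert a₁ P) (A.erase a₁) (B.erase a₁) hA' (disj_erase hPA) (disj_erase hPB)
        (by rw [union_erase ha₁]; exact hbA) (by rw [union_erase ha₁]; exact hiA)
        (by rw [union_erase ha₁B]; exact hbB) (by rw [union_erase ha₁B]; exact hiB)
      rw [Finset.card_erase_of_mem ha₁B] at h
      have hBpos : 0 < B.card := Finset.card_pos.mpr ⟨a₁, ha₁B⟩
      omega
    · have hfin : {B' : Finset Ω | B' ⊆ B ∧ SBase G (insert a₁ P ∪ B')}.Finite :=
        (Finset.finite_toSet B.powerset).subset (fun x hx => Finset.mem_powerset.mpr hx.1)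
      obtain ⟨B', -, hB'min⟩ := hfin.exists_le_minimal (a := B)
        ⟨Finset.Subset.refl B, sbase_mono (by
          intro y hy
          rcases Finset.mem_union.mp hy with h | h
          · exact Finset.mem_union_left B (Finset.mem_insert_of_mem h)
          · exact Finset.mem_union_right _ h) hbB⟩
      have hB'B : B' ⊆ B := hB'min.1.1
      have hB'base : SBase G (insert a₁ P ∪ B') := hB'min.1.2
      have hindP : SInd G (insert a₁ P) := sind_mono (by
          intro y hy
          rcases Finset.mem_insert.mp hy with rfl | h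
          · exact Finset.mem_union_right P ha₁
          · exact Finset.mem_union_left A h) hiA
      have hseq : ∀ B'' : Finset Ω, B'' ⊆ B' → SSeq G (insert a₁ P ∪ B'') := by
        intro B''
        induction B'' using Finset.induction_on with
        | empty =>
          intro _
          rw [Finset.union_empty]
          exact sseq_of_sind hindP
        | insert b B'' hb ih2 =>
          intro hsub
          have hbB' : b ∈ B' := hsub (Finset.mem_insert_self b B'')
          have hsub' : B'' ⊆ B' := fun y hy => hsub (Finset.mem_insert_of_mem hy)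
          rw [Finset.union_insert]
          apply sseq_insert (ih2 hsub')
          by_contra hmv
          have hbase' : SBase G (insert a₁ P ∪ B'.erase b) := by
            intro g hg
            apply hB'base
            have hfix : ∀ y ∈ insert a₁ P ∪ B'', g • y = y := by
              intro y hy
              apply hg
              rcases Finset.mem_union.mp hy with h | h
              · exact Finset.mem_union_left _ h
              · exact Finset.mem_union_right _
                  (Finset.mem_erase.mpr ⟨fun e => hb (e ▸ h), hsub' h⟩)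
            have hgb : g • b = b := by
              by_contra hne
              exact hmv ⟨g, hfix, hne⟩
            intro y hy
            rcases Finset.mem_union.mp hy with h | h
            · exact hg y (Finset.mem_union_left _ h)
            · by_cases hyb : y = b
              · rw [hyb]; exact hgb
              · exact hg y (Finset.mem_union_right _ (Finset.mem_erase.mpr ⟨hyb, h⟩))
          have hle := hB'min.2 (y := B'.erase b)
            ⟨(Finset.erase_subset b B').trans hB'B, hbase'⟩ (Finset.erase_subset b B')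
          exact (Finset.notMem_erase b B') (hle hbB')
      have hind' : SInd G (insert a₁ P ∪ B') :=
        hBs _ hB'base (hseq B' (Finset.Subset.refl B'))
      have hPB' : Disjoint (insert a₁ P) B' := by
        rw [Finset.disjoint_left]
        intro y hy hy'
        rcases Finset.mem_insert.mp hy with rfl | hyP
        · exact ha₁B (hB'B hy')
        · exact Finset.disjoint_left.mp hPB hyP (hB'B hy')
      have h := ih (insert a₁ P) (A.erase a₁) B' hA' (disj_erase hPA) hPB'
        (by rw [union_erase ha₁]; exact hbA) (by rw [union_erase ha₁]; exact hiA) hB'base hind'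
      have hU : P ∪ B' ∪ (B \ B') = P ∪ B := by
        rw [Finset.union_assoc, Finset.union_sdiff_of_subset hB'B]
      have hc := claimP hBs (P ∪ B') a₁ (B \ B')
        (by
          intro hmem
          rcases Finset.mem_union.mp hmem with h' | h'
          · exact ha₁P h'
          · exact ha₁B (hB'B h'))
        (by
          rw [Finset.disjoint_left]
          intro y hy hy'
          rw [Finset.mem_sdiff] at hy'
          rcases Finset.mem_union.mp hy with h' | h'
          · exact Finset.disjoint_left.mp hPB h' hy'.1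
          · exact hy'.2 h')
        (by rw [← Finset.insert_union]; exact hB'base)
        (by rw [← Finset.insert_union]; exact hind')
        (by rw [hU]; exact hbB)
        (by rw [hU]; exact hiB)
      have hcard := Finset.card_sdiff_add_card_eq_card hB'B
      omega

theorem ib_injective {t : ℕ} {f : Fin t → Ω}
    (hirr : ∀ i : Fin t, ∃ g : G, (∀ j : Fin t, j < i → g • f j = f j) ∧ g • f i ≠ f i) :
    Function.Injective f := by
  intro i j hij
  by_contra hne
  rcases lt_or_gt_of_ne hne with h | h
  · obtain ⟨g, hg, hgj⟩ := hirr j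
    exact hgj (by rw [← hij]; exact hg i h)
  · obtain ⟨g, hg, hgi⟩ := hirr i
    exact hgi (by rw [hij]; exact hg j h)

theorem hBs_of_hB [DecidableEq Ω]
    (hB : ∀ (t : ℕ) (f : Fin t → Ω) (σ : Equiv.Perm (Fin t)), IsIB G f → IsIB G (f ∘ σ)) :
    ∀ S : Finset Ω, SBase G S → SSeq G S → SInd G S := by
  intro S hbase ⟨t, f, hirr, hrange⟩ x hx
  obtain ⟨i, rfl⟩ := (hrange x).mp hx
  cases t with
  | zero => exact i.elim0
  | succ n =>
    have hIB : IsIB G f := ⟨fun g hg => hbase g (fun y hy => by
      obtain ⟨k, rfl⟩ := (hrange y).mp hy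
      exact hg k), hirr⟩
    obtain ⟨-, hirr'⟩ := hB _ f (Equiv.swap i (Fin.last n)) hIB
    obtain ⟨g, hg, hgl⟩ := hirr' (Fin.last n)
    refine ⟨g, fun y hy => ?_, ?_⟩
    · rw [Finset.mem_erase] at hy
      obtain ⟨k, rfl⟩ := (hrange y).mp hy.2
      have hki : k ≠ i := fun h => hy.1 (by rw [h])
      have h1 : Equiv.swap i (Fin.last n) k ≠ Fin.last n := by
        intro h
        have h' := congrArg (Equiv.swap i (Fin.last n)) h
        rw [Equiv.swap_apply_self, Equiv.swap_apply_right] at h'
        exact hki h'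
      have h2 := hg (Equiv.swap i (Fin.last n) k) (lt_of_le_of_ne (Fin.le_last _) h1)
      simp only [Function.comp_apply, Equiv.swap_apply_self] at h2
      exact h2
    · simpa [Function.comp_apply, Equiv.swap_apply_right] using hgl

theorem dirBA [DecidableEq Ω]
    (hB : ∀ (t : ℕ) (f : Fin t → Ω) (σ : Equiv.Perm (Fin t)), IsIB G f → IsIB G (f ∘ σ))
    (t t' : ℕ) (f : Fin t → Ω) (f' : Fin t' → Ω) (hf : IsIB G f) (hf' : IsIB G f') :
    t = t' := by
  have hBs := hBs_of_hB hB
  have key : ∀ (s : ℕ) (h : Fin s → Ω), IsIB G h →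
      SBase G (Finset.univ.image h) ∧ SInd G (Finset.univ.image h) ∧
        (Finset.univ.image h).card = s := by
    intro s h hh
    have hb : SBase G (Finset.univ.image h) := fun g hg =>
      hh.1 g (fun i => hg _ (Finset.mem_image_of_mem h (Finset.mem_univ i)))
    have hs : SSeq G (Finset.univ.image h) := ⟨s, h, hh.2, fun ω => by simp⟩
    refine ⟨hb, hBs _ hb hs, ?_⟩
    rw [Finset.card_image_of_injective _ (ib_injective hh.2), Finset.card_univ,
      Fintype.card_fin]
  obtain ⟨b1, i1, c1⟩ := key t f hf
  obtain ⟨b2, i2, c2⟩ := key t' f' hf'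
  have := mainQ hBs t ∅ _ _ c1 (Finset.disjoint_empty_left _) (Finset.disjoint_empty_left _)
    (by rw [Finset.empty_union]; exact b1) (by rw [Finset.empty_union]; exact i1)
    (by rw [Finset.empty_union]; exact b2) (by rw [Finset.empty_union]; exact i2)
  omega

theorem remove : ∀ (t : ℕ) (f : Fin t → Ω),
    (∀ g : G, (∀ i : Fin t, g • f i = f i) → g = 1) →
    ∃ (t' : ℕ) (f' : Fin t' → Ω), IsIB G f' ∧ t' ≤ t ∧
      ((¬ ∀ i : Fin t, ∃ g : G, (∀ j : Fin t, j < i → g • f j = f j) ∧ g • f i ≠ f i) →
        t' < t) := by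
  intro t
  induction t with
  | zero =>
    intro f hf
    exact ⟨0, f, ⟨hf, fun i => i.elim0⟩, le_refl 0, fun h => absurd (fun i => i.elim0) h⟩
  | succ n ih =>
    intro f hf
    by_cases hirr : ∀ i : Fin (n + 1), ∃ g : G,
        (∀ j : Fin (n + 1), j < i → g • f j = f j) ∧ g • f i ≠ f i
    · exact ⟨n + 1, f, ⟨hf, hirr⟩, le_refl _, fun h => absurd hirr h⟩
    · push Not at hirr
      obtain ⟨i, hi⟩ := hirr
      have hbase : ∀ g : G,
          (∀ k : Fin n, g • f (i.succAbove k) = f (i.succAbove k)) → g = 1 := by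
        intro g hg
        apply hf
        have hne : ∀ j : Fin (n + 1), j ≠ i → g • f j = f j := by
          intro j hj
          obtain ⟨k, rfl⟩ := Fin.exists_succAbove_eq hj
          exact hg k
        have hgi : g • f i = f i := hi g (fun j hj => hne j (ne_of_lt hj))
        intro j
        by_cases hj : j = i
        · rw [hj]; exact hgi
        · exact hne j hj
      obtain ⟨t', f', hIB, hle, -⟩ := ih (fun k => f (i.succAbove k)) hbase
      exact ⟨t', f', hIB, by omega, fun _ => by omega⟩

end setlevel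

theorem result {G Ω : Type*} [Group G] [Finite G] [MulAction G Ω] [Fintype Ω] :
    (∀ (t t' : ℕ) (f : Fin t → Ω) (f' : Fin t' → Ω), ((∀ g : G, (∀ i : Fin t, g • f i = f i) → g = 1) ∧ ∀ i : Fin t, ∃ g : G, (∀ j : Fin t, j < i → g • f j = f j) ∧ g • f i ≠ f i) → ((∀ g : G, (∀ i : Fin t', g • f' i = f' i) → g = 1) ∧ ∀ i : Fin t', ∃ g : G, (∀ j : Fin t', j < i → g • f' j = f' j) ∧ g • f' i ≠ f' i) → t = t') ↔
    (∀ (t : ℕ) (f : Fin t → Ω) (σ : Equiv.Perm (Fin t)), ((∀ g : G, (∀ i : Fin t, g • f i = f i) → g = 1) ∧ ∀ i : Fin t, ∃ g : G, (∀ j : Fin t, j < i → g • f j = f j) ∧ g • f i ≠ f i) → ((∀ g : G, (∀ i : Fin t, g • (f ∘ σ) i = (f ∘ σ) i) → g = 1) ∧ ∀ i : Fin t, ∃ g : G, (∀ j : Fin t, j < i → g • (f ∘ σ) j = (f ∘ σ) j) ∧ g • (f ∘ σ) i ≠ (f ∘ σ) i)) := by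
  classical
  constructor
  · intro hA t f σ hf
    have hbase : ∀ g : G, (∀ i : Fin t, g • (f ∘ σ) i = (f ∘ σ) i) → g = 1 := by
      intro g hg
      apply hf.1
      intro i
      have h := hg (σ.symm i)
      simpa using h
    refine ⟨hbase, ?_⟩
    by_contra hirr
    obtain ⟨t', f', hIB, hle, hlt⟩ := remove (G := G) t (f ∘ σ) hbase
    have h1 := hA t t' f f' hf hIB
    have h2 := hlt hirr
    omega
  · intro hB t t' f f' hf hf'
    exact dirBA hB t t' f f' hf hf'

end Cfsg.Agent.S5747
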