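import Cfsg.Statements.S5754

set_option autoImplicit false
open Cfsg

namespace Cfsg.Agent.S5754

open QuadraticMap

theorem q_sub {F V : Type*} [Field F] [AddCommGroup V] [Module F V] (Q : QuadraticForm F V)
    (x y : V) : Q (x - y) = Q x + Q y - polar Q x y := by
  rw [sub_eq_add_neg, QuadraticMap.map_add Q, QuadraticMap.map_neg, polar_neg_right]
  ring

theorem polar_iso {F V : Type*} [Field F] [AddCommGroup V] [Module F V] (Q : QuadraticForm F V)
    (φ : Q.IsometryEquiv Q) (x y : V) : polar Q (φ x) (φ y) = polar Q x y := by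
  unfold polar
  rw [← map_add, φ.map_app, φ.map_app, φ.map_app]

theorem exists_refl {F V : Type*} [Field F] [AddCommGroup V] [Module F V] (Q : QuadraticForm F V)
    (w : V) (hw : Q w ≠ 0) :
    ∃ r : Q.IsometryEquiv Q, ∀ v, r v = v - (polar Q v w / Q w) • w := by
  have inv : ∀ v : V, (v - (polar Q v w / Q w) • w)
      - (polar Q (v - (polar Q v w / Q w) • w) w / Q w) • w = v := by
    intro v
    have h1 : polar Q (v - (polar Q v w / Q w) • w) w / Q w = - (polar Q v w / Q w) := by
      rw [polar_sub_left, polar_smul_left, polar_self, smul_eq_mul, nsmul_eq_mul]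
      field_simp
      ring
    rw [h1]
    module
  refine ⟨{ toFun := fun v => v - (polar Q v w / Q w) • w
            map_add' := ?_
            map_smul' := ?_
            invFun := fun v => v - (polar Q v w / Q w) • w
            left_inv := inv
            right_inv := inv
            map_app' := ?_ }, fun v => rfl⟩
  · intro x y
    simp only [polar_add_left, add_div, add_smul]
    abel
  · intro a x
    simp only [polar_smul_left, smul_eq_mul, mul_div_assoc, mul_smul, smul_sub, RingHom.id_apply]
  · intro v
    show Q (v - (polar Q v w / Q w) • w) = Q v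
    rw [q_sub, QuadraticMap.map_smul, polar_smul_right, smul_eq_mul, smul_eq_mul]
    field_simp
    ring

theorem main {F V : Type*} [Field F] [AddCommGroup V] [Module F V] (Q : QuadraticForm F V)
    (hQ : Q.Anisotropic) {ι : Type*} (x y : ι → V)
    (h : ∀ i j, Q (x i - x j) = Q (y i - y j)) (h0 : ∀ i, Q (x i) = Q (y i)) (S : Finset ι) :
    ∃ φ : Q.IsometryEquiv Q, ∀ i ∈ S, φ (x i) = y i := by
  classical
  induction S using Finset.induction_on with
  | empty => exact ⟨QuadraticMap.IsometryEquiv.refl Q, by simp⟩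
  | insert a S ha ih =>
    obtain ⟨φ, hφ⟩ := ih
    by_cases hx : φ (x a) = y a
    · exact ⟨φ, fun i hi => by
        rcases Finset.mem_insert.mp hi with rfl | hi
        exacts [hx, hφ i hi]⟩
    · have hw : Q (φ (x a) - y a) ≠ 0 := fun h0' => hx (sub_eq_zero.mp (hQ _ h0'))
      obtain ⟨r, hr⟩ := exists_refl Q _ hw
      have hpol : ∀ i, polar Q (φ (x i)) (φ (x a)) = polar Q (y i) (y a) := by
        intro i
        rw [polar_iso]
        have e1 := q_sub Q (x i) (x a)
        have e2 := q_sub Q (y i) (y a)
        rw [h i a] at e1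
        linear_combination e1 - e2 + h0 i + h0 a
      refine ⟨φ.trans r, fun i hi => ?_⟩
      show r (φ (x i)) = y i
      rw [hr]
      rcases Finset.mem_insert.mp hi with rfl | hi
      · have e : polar Q (φ (x i)) (φ (x i) - y i) = Q (φ (x i) - y i) := by
          rw [polar_sub_right, polar_self, q_sub, φ.map_app, ← h0 i, nsmul_eq_mul]
          have := hpol i
          rw [polar_iso, polar_self, nsmul_eq_mul] at this
          have e3 : polar Q (φ (x i)) (y i) = polar Q (φ (x i)) (y i) := rfl
          push_cast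
          ring
        rw [e, div_self hw, one_smul, sub_sub_cancel]
      · have e : polar Q (φ (x i)) (φ (x a) - y a) = 0 := by
          rw [polar_sub_right, hpol i, hφ i hi, sub_self]
        rw [e, zero_div, zero_smul, sub_zero, hφ i hi]

theorem result {F V : Type*} [Field F] [Finite F] [AddCommGroup V] [Module F V] [Module.Finite F V]
    (Q : QuadraticForm F V) (hQ : Q.Anisotropic) (n : ℕ) (hn : 2 ≤ n) (u u' : Fin n → V)
    (h2 : ∀ i j : Fin n, i ≠ j → ∃ (φ : Q.IsometryEquiv Q) (c : V), φ (u i) + c = u' i ∧ φ (u j) + c = u' j) :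
    ∃ (φ : Q.IsometryEquiv Q) (c : V), ∀ i, φ (u i) + c = u' i := by
  have hd : ∀ i j, Q (u i - u j) = Q (u' i - u' j) := by
    intro i j
    by_cases hij : i = j
    · subst hij
      simp
    · obtain ⟨φ, c, h1, h2'⟩ := h2 i j hij
      rw [← h1, ← h2', add_sub_add_right_eq_sub, ← map_sub, φ.map_app]
  obtain ⟨φ, hφ⟩ := main Q hQ (fun i => u i - u ⟨0, by omega⟩) (fun i => u' i - u' ⟨0, by omega⟩)
    (fun i j => by
      show Q (u i - u ⟨0, by omega⟩ - (u j - u ⟨0, by omega⟩))
        = Q (u' i - u' ⟨0, by omega⟩ - (u' j - u' ⟨0, by omega⟩))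
      rw [sub_sub_sub_cancel_right, sub_sub_sub_cancel_right]
      exact hd i j)
    (fun i => hd i _) Finset.univ
  refine ⟨φ, u' ⟨0, by omega⟩ - φ (u ⟨0, by omega⟩), fun i => ?_⟩
  have := hφ i (Finset.mem_univ i)
  simp only [map_sub] at this
  rw [← add_sub_assoc, add_comm, add_sub_assoc, this]
  abel

end Cfsg.Agent.S5754
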