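import Cfsg.Statements.S5895

set_option autoImplicit false
open Cfsg

namespace Cfsg.Agent.S5895

open scoped Pointwise LinearAlgebra.Projectivization

section aff

variable {F V : Type*} [Field F] [AddCommGroup V] [Module F V]

theorem aff_apply (g : V ≃ᵃ[F] V) (x : V) : g x = g.linear x + g 0 := by
  have h := g.map_vadd 0 x
  rw [vadd_eq_add, add_zero, vadd_eq_add] at h
  exact h

@[reducible] def affAct : MulAction (V ≃ᵃ[F] V) V where
  smul g x := g x
  one_smul _ := rfl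
  mul_smul _ _ _ := rfl

theorem lin_surj : Function.Surjective (AffineEquiv.linearHom : (V ≃ᵃ[F] V) →* V ≃ₗ[F] V) :=
  fun L => ⟨L.toAffineEquiv, rfl⟩

theorem exists_lin {v w : V} (hv : v ≠ 0) (hw : w ≠ 0) : ∃ L : V ≃ₗ[F] V, L v = w := by
  have h2 := Projectivization.linearEquiv_is_two_pretransitive F V
  have h1 : MulAction.IsPretransitive (V ≃ₗ[F] V) (ℙ F V) :=
    MulAction.isPretransitive_of_is_two_pretransitive
  obtain ⟨L, hL⟩ := h1.exists_smul_eq (Projectivization.mk F v hv) (Projectivization.mk F w hw)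
  rw [Projectivization.smul_mk, Projectivization.mk_eq_mk_iff] at hL
  obtain ⟨a, ha⟩ := hL
  refine ⟨L.trans (LinearEquiv.smulOfUnit a⁻¹), ?_⟩
  have h3 : L v = a • w := ha.symm
  change (a⁻¹ : Fˣ) • L v = w
  rw [h3, inv_smul_smul]

def M0 : Subgroup (V ≃ᵃ[F] V) where
  carrier := {g | g 0 = 0}
  mul_mem' {g h} hg hh := by
    change g (h 0) = 0
    rw [show h 0 = 0 from hh]
    exact hg
  one_mem' := rfl
  inv_mem' {g} hg := by
    change g.symm 0 = 0
    rw [AffineEquiv.symm_apply_eq]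
    exact (show g 0 = 0 from hg).symm

theorem mem_M0 (g : V ≃ᵃ[F] V) : g ∈ (M0 : Subgroup (V ≃ᵃ[F] V)) ↔ g 0 = 0 := Iff.rfl

theorem toAff_mem_M0 (L : V ≃ₗ[F] V) : L.toAffineEquiv ∈ (M0 : Subgroup (V ≃ᵃ[F] V)) := by
  rw [mem_M0]
  exact L.map_zero

theorem M0_coatom [Nontrivial V] : IsCoatom (M0 : Subgroup (V ≃ᵃ[F] V)) := by
  obtain ⟨v, hv⟩ := exists_ne (0 : V)
  refine ⟨?_, fun X hX => ?_⟩
  · intro htop
    have h : AffineEquiv.constVAdd F V v ∈ (M0 : Subgroup (V ≃ᵃ[F] V)) := by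
      rw [htop]
      exact Subgroup.mem_top _
    rw [mem_M0, AffineEquiv.constVAdd_apply, vadd_eq_add, add_zero] at h
    exact hv h
  · obtain ⟨g, hgX, hgM⟩ := SetLike.exists_of_lt hX
    rw [mem_M0] at hgM
    rw [eq_top_iff]
    intro h _
    by_cases hh : h 0 = 0
    · exact hX.le hh
    · obtain ⟨L, hL⟩ := exists_lin (F := F) hgM hh
      have hk : L.toAffineEquiv * g ∈ X := X.mul_mem (hX.le (toAff_mem_M0 L)) hgX
      have hk0 : (L.toAffineEquiv * g) 0 = h 0 := by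
        change L (g 0) = h 0
        exact hL
      have hkh : (L.toAffineEquiv * g)⁻¹ * h ∈ (M0 : Subgroup (V ≃ᵃ[F] V)) := by
        rw [mem_M0]
        change (L.toAffineEquiv * g).symm (h 0) = 0
        rw [AffineEquiv.symm_apply_eq]
        exact hk0.symm
      have e : h = (L.toAffineEquiv * g) * ((L.toAffineEquiv * g)⁻¹ * h) := by
        rw [mul_inv_cancel_left]
      rw [e]
      exact X.mul_mem hk (hX.le hkh)

theorem M0_index [Finite V] : (M0 : Subgroup (V ≃ᵃ[F] V)).index = Nat.card V := by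
  let _ : MulAction (V ≃ᵃ[F] V) V := affAct
  have ht : MulAction.IsPretransitive (V ≃ᵃ[F] V) V := by
    refine ⟨fun x y => ⟨AffineEquiv.constVAdd F V (y - x), ?_⟩⟩
    change (y - x) +ᵥ x = y
    rw [vadd_eq_add, sub_add_cancel]
  have hs : MulAction.stabilizer (V ≃ᵃ[F] V) (0 : V) = M0 := by
    ext g
    rfl
  rw [← hs]
  exact MulAction.index_stabilizer_of_transitive (V ≃ᵃ[F] V) (0 : V)

def Kv (v : V) (hv : v ≠ 0) : Subgroup (V ≃ᵃ[F] V) :=
  (MulAction.stabilizer (V ≃ₗ[F] V) (Projectivization.mk F v hv)).comap AffineEquiv.linearHom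

theorem mem_Kv (v : V) (hv : v ≠ 0) (g : V ≃ᵃ[F] V) :
    g ∈ Kv (F := F) v hv ↔ ∃ a : Fˣ, a • v = g.linear v := by
  unfold Kv
  rw [Subgroup.mem_comap, MulAction.mem_stabilizer_iff, Projectivization.smul_mk,
    Projectivization.mk_eq_mk_iff]
  rfl

theorem stab_coatom (v w : V) (hv : v ≠ 0) (hw : ∀ c : F, c • v ≠ w) :
    IsCoatom (MulAction.stabilizer (V ≃ₗ[F] V) (Projectivization.mk F v hv)) := by
  have h2 := Projectivization.linearEquiv_is_two_pretransitive F V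
  have hprim : MulAction.IsPreprimitive (V ≃ₗ[F] V) (ℙ F V) :=
    MulAction.isPreprimitive_of_is_two_pretransitive h2
  have hw0 : w ≠ 0 := by
    intro h
    apply hw 0
    rw [zero_smul, h]
  have hnt : Nontrivial (ℙ F V) := by
    refine ⟨⟨Projectivization.mk F v hv, Projectivization.mk F w hw0, ?_⟩⟩
    rw [Ne, Projectivization.mk_eq_mk_iff]
    rintro ⟨a, ha⟩
    apply hw ((a⁻¹ : Fˣ) : F)
    rw [← ha, Units.smul_def, smul_smul, Units.inv_mul, one_smul]
  exact MulAction.IsPreprimitive.isCoatom_stabilizer_of_isPreprimitive (V ≃ₗ[F] V) _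

theorem Kv_coatom (v w : V) (hv : v ≠ 0) (hw : ∀ c : F, c • v ≠ w) :
    IsCoatom (Kv (F := F) v hv) :=
  Subgroup.isCoatom_comap_of_surjective lin_surj (stab_coatom v w hv hw)

theorem HM_coatom (v w : V) (hv : v ≠ 0) (hw : ∀ c : F, c • v ≠ w) :
    IsCoatom (((M0 : Subgroup (V ≃ᵃ[F] V)) ⊓ Kv (F := F) v hv).subgroupOf M0) := by
  rw [Subgroup.inf_subgroupOf_left]
  have hsurj : Function.Surjective
      ((AffineEquiv.linearHom : (V ≃ᵃ[F] V) →* V ≃ₗ[F] V).comp
        (M0 : Subgroup (V ≃ᵃ[F] V)).subtype) :=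
    fun L => ⟨⟨L.toAffineEquiv, toAff_mem_M0 L⟩, rfl⟩
  exact Subgroup.isCoatom_comap_of_surjective hsurj (stab_coatom v w hv hw)

theorem trans_mem_Kv (v : V) (hv : v ≠ 0) (u : V) :
    AffineEquiv.constVAdd F V u ∈ Kv (F := F) v hv := by
  rw [mem_Kv]
  exact ⟨1, by rw [one_smul]; rfl⟩

theorem HK_not_coatom (v w : V) (hv : v ≠ 0) (hw : ∀ c : F, c • v ≠ w) :
    ¬ IsCoatom (((M0 : Subgroup (V ≃ᵃ[F] V)) ⊓ Kv (F := F) v hv).subgroupOf (Kv (F := F) v hv)) := by
  intro hco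
  let _ : MulAction (V ≃ᵃ[F] V) V := affAct
  obtain ⟨S, hS⟩ : ∃ S : Set V, S = ((F ∙ v : Submodule F V) : Set V) := ⟨_, rfl⟩
  have hvS : v ∈ S := by
    rw [hS]
    exact Submodule.mem_span_singleton_self v
  have hwS : w ∉ S := by
    rw [hS]
    intro h
    obtain ⟨c, hc⟩ := Submodule.mem_span_singleton.mp h
    exact hw c hc
  have h0S : (0 : V) ∈ S := by
    rw [hS]
    exact Submodule.zero_mem _
  obtain ⟨J, hJ⟩ : ∃ J : Subgroup (V ≃ᵃ[F] V), J = MulAction.stabilizer (V ≃ᵃ[F] V) S :=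
    ⟨_, rfl⟩
  have hHJ : (M0 : Subgroup (V ≃ᵃ[F] V)) ⊓ Kv (F := F) v hv ≤ J := by
    rintro g ⟨hgM0, hgK0⟩
    rw [hJ, MulAction.mem_stabilizer_iff]
    have hgM : g 0 = 0 := hgM0
    obtain ⟨a, ha⟩ := (mem_Kv v hv g).mp hgK0
    have hgx : ∀ x : V, g x = g.linear x := by
      intro x
      rw [aff_apply, hgM, add_zero]
    ext y
    rw [Set.mem_smul_set]
    constructor
    · rintro ⟨x, hx, rfl⟩
      rw [hS] at hx ⊢
      obtain ⟨c, rfl⟩ := Submodule.mem_span_singleton.mp hx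
      change g (c • v) ∈ _
      rw [hgx, map_smul, ← ha]
      exact Submodule.smul_mem _ _ (Submodule.smul_mem _ _ (Submodule.mem_span_singleton_self v))
    · intro hy
      rw [hS] at hy
      obtain ⟨c, rfl⟩ := Submodule.mem_span_singleton.mp hy
      refine ⟨(c * (a⁻¹ : Fˣ)) • v, ?_, ?_⟩
      · rw [hS]
        exact Submodule.smul_mem _ _ (Submodule.mem_span_singleton_self v)
      · change g ((c * (a⁻¹ : Fˣ)) • v) = c • v
        rw [hgx, map_smul, ← ha, Units.smul_def, smul_smul, mul_assoc, Units.inv_mul, mul_one]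
  have hτv : AffineEquiv.constVAdd F V v ∈ J := by
    rw [hJ, MulAction.mem_stabilizer_iff]
    ext y
    rw [Set.mem_smul_set]
    constructor
    · rintro ⟨x, hx, rfl⟩
      rw [hS] at hx ⊢
      change v +ᵥ x ∈ _
      rw [vadd_eq_add]
      exact Submodule.add_mem _ (Submodule.mem_span_singleton_self v) hx
    · intro hy
      refine ⟨y - v, ?_, ?_⟩
      · rw [hS] at hy ⊢
        exact Submodule.sub_mem _ hy (Submodule.mem_span_singleton_self v)
      · change v +ᵥ (y - v) = y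
        rw [vadd_eq_add, add_sub_cancel]
  have hτw : AffineEquiv.constVAdd F V w ∉ J := by
    rw [hJ, MulAction.mem_stabilizer_iff]
    intro h
    have h1 : w ∈ (AffineEquiv.constVAdd F V w) • S := by
      rw [Set.mem_smul_set]
      refine ⟨0, h0S, ?_⟩
      change w +ᵥ (0 : V) = w
      rw [vadd_eq_add, add_zero]
    rw [h] at h1
    exact hwS h1
  have hlt : ((M0 : Subgroup (V ≃ᵃ[F] V)) ⊓ Kv (F := F) v hv).subgroupOf (Kv (F := F) v hv) <
      J.subgroupOf (Kv (F := F) v hv) := by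
    refine lt_of_le_of_ne (Subgroup.comap_mono hHJ) ?_
    intro heq
    have h1 : (⟨AffineEquiv.constVAdd F V v, trans_mem_Kv v hv v⟩ : Kv (F := F) v hv) ∈
        J.subgroupOf (Kv (F := F) v hv) := by
      rw [Subgroup.mem_subgroupOf]
      exact hτv
    rw [← heq, Subgroup.mem_subgroupOf] at h1
    have h2 : (AffineEquiv.constVAdd F V v) 0 = 0 := h1.1
    rw [AffineEquiv.constVAdd_apply, vadd_eq_add, add_zero] at h2
    exact hv h2
  have htop := hco.2 _ hlt
  have h3 : (⟨AffineEquiv.constVAdd F V w, trans_mem_Kv v hv w⟩ : Kv (F := F) v hv) ∈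
      J.subgroupOf (Kv (F := F) v hv) := by
    rw [htop]
    exact Subgroup.mem_top _
  rw [Subgroup.mem_subgroupOf] at h3
  exact hτw h3

end aff

theorem result (p d : ℕ) (hp : p.Prime)
    (hd : 2 ≤ d) :
    ∃ (G : Type) (_ : Group G) (_ : Finite G) (M H K : Subgroup G), IsCoatom M ∧ M.index = p ^ d ∧ H ≤ M ∧
      IsCoatom (H.subgroupOf M) ∧ IsCoatom K ∧ H ≤ K ∧ ¬ IsCoatom (H.subgroupOf K) := by
  have : Fact p.Prime := ⟨hp⟩
  obtain ⟨d', rfl⟩ : ∃ d', d = d' + 2 := ⟨d - 2, by omega⟩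
  obtain ⟨v, hvdef⟩ : ∃ v : Fin (d' + 2) → ZMod p, v = Pi.single 0 1 := ⟨_, rfl⟩
  obtain ⟨w, hwdef⟩ : ∃ w : Fin (d' + 2) → ZMod p, w = Pi.single 1 1 := ⟨_, rfl⟩
  have hv : v ≠ 0 := by
    intro h
    have h1 := congrFun h 0
    rw [hvdef, Pi.single_eq_same, Pi.zero_apply] at h1
    exact one_ne_zero h1
  have hw : ∀ c : ZMod p, c • v ≠ w := by
    intro c h
    have h1 := congrFun h 1
    rw [hvdef, hwdef, Pi.smul_apply, Pi.single_eq_same,
      Pi.single_eq_of_ne (by simp : (1 : Fin (d' + 2)) ≠ 0), smul_zero] at h1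
    exact zero_ne_one h1
  have hnt : Nontrivial (Fin (d' + 2) → ZMod p) := ⟨⟨v, 0, hv⟩⟩
  have hfin : Finite ((Fin (d' + 2) → ZMod p) ≃ᵃ[ZMod p] (Fin (d' + 2) → ZMod p)) :=
    Finite.of_injective (fun g => (g : (Fin (d' + 2) → ZMod p) → (Fin (d' + 2) → ZMod p)))
      AffineEquiv.coeFn_injective
  refine ⟨(Fin (d' + 2) → ZMod p) ≃ᵃ[ZMod p] (Fin (d' + 2) → ZMod p), inferInstance, hfin,
    M0, M0 ⊓ Kv v hv, Kv v hv, M0_coatom, ?_, inf_le_left, HM_coatom v w hv hw,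
    Kv_coatom v w hv hw, inf_le_right, HK_not_coatom v w hv hw⟩
  rw [M0_index, Nat.card_fun, Nat.card_zmod, Nat.card_fin]

end Cfsg.Agent.S5895
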