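import Cfsg.Statements.S5896

set_option autoImplicit false
open Cfsg
open scoped commutatorElement

namespace Cfsg.Agent.S5896

/-- A finite non-solvable group all of whose proper subgroups are solvable. -/
theorem exists_min_nonsolvable :
    ∃ (P : Type) (_ : Group P) (_ : Finite P), ¬ Group.IsSolvable P ∧
      ∀ K : Subgroup P, K ≠ ⊤ → Group.IsSolvable K := by
  have key : ∀ n : ℕ, ∀ (P : Type) [Group P] [Finite P], Nat.card P = n → ¬ Group.IsSolvable P →
      ∃ (P' : Type) (_ : Group P') (_ : Finite P'), ¬ Group.IsSolvable P' ∧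
        ∀ K : Subgroup P', K ≠ ⊤ → Group.IsSolvable K := by
    intro n
    induction n using Nat.strong_induction_on with
    | _ n ih =>
      intro P _ _ hn hP
      by_cases h : ∀ K : Subgroup P, K ≠ ⊤ → Group.IsSolvable K
      · exact ⟨P, inferInstance, inferInstance, hP, h⟩
      · push Not at h
        obtain ⟨K, hK, hKs⟩ := h
        have hlt : Nat.card K < n := by
          rw [← hn]
          exact lt_of_le_of_ne (Subgroup.card_le_card_group K)
            (fun h => hK (Subgroup.eq_top_of_card_eq K h))
        exact ih _ hlt K rfl hKs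
  exact key _ (Equiv.Perm (Fin 5)) rfl Equiv.Perm.not_isSolvable_fin_5

/-- A finite perfect group with a non-trivial solvable maximal subgroup. -/
theorem exists_perfect_with_solvable_coatom :
    ∃ (P : Type) (_ : Group P) (_ : Finite P) (H0 : Subgroup P), commutator P = ⊤ ∧ IsCoatom H0 ∧
      Group.IsSolvable H0 ∧ H0 ≠ ⊥ := by
  obtain ⟨P, _, _, hP, hK⟩ := exists_min_nonsolvable
  have hperf : commutator P = ⊤ := by
    by_contra hc
    have := hK _ hc
    exact hP (Group.isSolvable_of_ker_le_range (commutator P).subtype (Abelianization.of (G := P))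
      (by rw [Abelianization.ker_of, Subgroup.range_subtype]))
  have hnt : Nontrivial P := by
    by_contra hn
    rw [not_nontrivial_iff_subsingleton] at hn
    exact hP inferInstance
  obtain ⟨H0, hH0⟩ : ∃ H0 : Subgroup P, IsCoatom H0 := by
    obtain ⟨H0, hH0, -⟩ := (eq_top_or_exists_le_coatom (⊥ : Subgroup P)).resolve_left bot_ne_top
    exact ⟨H0, hH0⟩
  refine ⟨P, inferInstance, inferInstance, H0, hperf, hH0, hK _ hH0.1, ?_⟩
  rintro rfl
  obtain ⟨g, hg⟩ := exists_ne (1 : P)
  have hz : Subgroup.zpowers g = ⊤ := by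
    by_contra hne
    have hlt : ⊥ < Subgroup.zpowers g := bot_lt_iff_ne_bot.mpr (by simpa using hg)
    exact hne (hH0.2 _ hlt)
  apply hP
  apply Group.isSolvable_of_comm
  intro a b
  have ha : a ∈ Subgroup.zpowers g := hz ▸ Subgroup.mem_top a
  have hb : b ∈ Subgroup.zpowers g := hz ▸ Subgroup.mem_top b
  obtain ⟨i, rfl⟩ := ha
  obtain ⟨j, rfl⟩ := hb
  rw [← zpow_add, ← zpow_add, add_comm]

/-- The derived series of a subgroup, computed inside the ambient group. -/
def relDS {G0 : Type*} [Group G0] (K : Subgroup G0) : ℕ → Subgroup G0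
  | 0 => K
  | n + 1 => ⁅relDS K n, relDS K n⁆

theorem map_derivedSeries_eq_relDS {H G0 : Type*} [Group H] [Group G0] (f : H →* G0) (n : ℕ) :
    (derivedSeries H n).map f = relDS f.range n := by
  induction n with
  | zero => simp [relDS, MonoidHom.range_eq_map]
  | succ n ih => rw [derivedSeries_succ, Subgroup.map_commutator, ih]; rfl

theorem pi_isSolvable {A S : Type*} [Group S] [Group.IsSolvable S] : Group.IsSolvable (A → S) := by
  obtain ⟨n, hn⟩ := (Group.isSolvable_def S).mp inferInstance
  refine (Group.isSolvable_def _).mpr ⟨n, ?_⟩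
  have key : ∀ k, derivedSeries (A → S) k ≤
      Subgroup.pi Set.univ (fun _ : A => derivedSeries S k) := by
    intro k
    induction k with
    | zero =>
      intro x _
      rw [Subgroup.mem_pi]
      intro i _
      exact Subgroup.mem_top _
    | succ k ih =>
      rw [derivedSeries_succ]
      exact (Subgroup.commutator_mono ih ih).trans (Subgroup.commutator_pi_pi_le _ _)
  rw [eq_bot_iff]
  intro x hx
  have hx' := key n hx
  rw [hn, Subgroup.mem_pi] at hx'
  rw [Subgroup.mem_bot]
  funext a
  exact (Subgroup.mem_bot).mp (hx' a (Set.mem_univ a))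

theorem isCoatom_comap {G G' : Type*} [Group G] [Group G'] (f : G →* G')
    (hf : Function.Surjective f) {K : Subgroup G'} (hK : IsCoatom K) : IsCoatom (K.comap f) := by
  refine ⟨?_, ?_⟩
  · intro h
    apply hK.1
    rw [← Subgroup.map_comap_eq_self_of_surjective hf K, h, Subgroup.map_top_of_surjective f hf]
  · intro L hL
    have h1 : K ≤ L.map f := by
      rw [← Subgroup.map_comap_eq_self_of_surjective hf K]
      exact Subgroup.map_mono hL.le
    have h2 : L.map f = ⊤ := by
      rcases eq_or_lt_of_le h1 with h | h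
      · exfalso
        have h3 : L ≤ K.comap f := by
          rw [h]
          exact Subgroup.le_comap_map f L
        exact absurd h3 (not_le_of_gt hL)
      · exact hK.2 _ h
    rw [eq_top_iff]
    intro x _
    have hx : f x ∈ L.map f := h2 ▸ Subgroup.mem_top _
    obtain ⟨y, hy, hxy⟩ := hx
    have hk : y⁻¹ * x ∈ K.comap f := by
      rw [Subgroup.mem_comap, map_mul, map_inv, hxy, inv_mul_cancel]
      exact K.one_mem
    have h4 := L.mul_mem hy (hL.le hk)
    simpa using h4

section Wreath

variable (P S : Type) [Group P] [Group S]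

/-- The regular wreath product of `S` by `P`. -/
abbrev W : Type := (P → S) ⋊[mulAutArrow (G := P) (A := P) (M := S)] P

variable {P S}

theorem phi_apply (g : P) (f : P → S) (a : P) :
    mulAutArrow (G := P) (A := P) (M := S) g f a = f (g⁻¹ * a) := rfl

theorem comm_inl_inr (m : P → S) (σ : P) :
    ⁅(SemidirectProduct.inl m : W P S), (SemidirectProduct.inr σ : W P S)⁆ =
      SemidirectProduct.inl (m * mulAutArrow (G := P) (A := P) (M := S) σ m⁻¹) := by
  rw [commutatorElement_def, map_mul, SemidirectProduct.inl_aut, map_inv, map_inv]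
  group

variable (P S)

/-- The normal closure of the top group. -/
def GG : Subgroup (W P S) :=
  Subgroup.normalClosure ((SemidirectProduct.inr : P →* W P S).range : Set (W P S))

instance : (GG P S).Normal := Subgroup.normalClosure_normal

variable {P S}

theorem inr_mem_GG (p : P) : (SemidirectProduct.inr p : W P S) ∈ GG P S :=
  Subgroup.subset_normalClosure ⟨p, rfl⟩

theorem GG_perfect (hperf : commutator P = ⊤) : commutator (GG P S) = ⊤ := by
  apply Subgroup.map_injective (GG P S).subtype_injective
  rw [commutator_def, Subgroup.map_commutator, ← MonoidHom.range_eq_map, Subgroup.range_subtype]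
  apply le_antisymm
  · exact Subgroup.commutator_le_right _ _
  · have hr : (SemidirectProduct.inr : P →* W P S).range ≤ GG P S := Subgroup.subset_normalClosure
    have h0 : (SemidirectProduct.inr : P →* W P S).range =
        ⁅(SemidirectProduct.inr : P →* W P S).range,
          (SemidirectProduct.inr : P →* W P S).range⁆ := by
      conv_lhs => rw [MonoidHom.range_eq_map, ← hperf, commutator_def, Subgroup.map_commutator,
        ← MonoidHom.range_eq_map]
    have h1 : ((SemidirectProduct.inr : P →* W P S).range : Set (W P S)) ⊆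
        ((⁅GG P S, GG P S⁆ : Subgroup (W P S)) : Set (W P S)) := by
      intro x hx
      have hx' : x ∈ (SemidirectProduct.inr : P →* W P S).range := hx
      rw [h0] at hx'
      exact Subgroup.commutator_mono hr hr hx'
    exact Subgroup.normalClosure_le_normal h1

variable (S) in
/-- The preimage in `GG` of a subgroup of the top group. -/
def HH (H0 : Subgroup P) : Subgroup (GG P S) :=
  H0.comap ((SemidirectProduct.rightHom : W P S →* P).comp (GG P S).subtype)

variable (S) in
/-- The inclusion of `HH` in the wreath product. -/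
def iota (H0 : Subgroup P) : HH S H0 →* W P S :=
  (GG P S).subtype.comp (HH S H0).subtype

theorem mem_range_iota (H0 : Subgroup P) (x : W P S) (hG : x ∈ GG P S)
    (hH : SemidirectProduct.rightHom x ∈ H0) : x ∈ (iota S H0).range :=
  ⟨⟨⟨x, hG⟩, hH⟩, rfl⟩

theorem HH_isCoatom {H0 : Subgroup P} (hH0 : IsCoatom H0) : IsCoatom (HH S H0) := by
  exact isCoatom_comap ((SemidirectProduct.rightHom : W P S →* P).comp (GG P S).subtype)
    (fun p => ⟨⟨(SemidirectProduct.inr p : W P S), inr_mem_GG p⟩, rfl⟩) hH0

theorem HH_isSolvable [Group.IsSolvable S] {H0 : Subgroup P} [Group.IsSolvable H0] :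
    Group.IsSolvable (HH S H0) := by
  have : Group.IsSolvable (P → S) := pi_isSolvable
  have hL : Group.IsSolvable (H0.comap (SemidirectProduct.rightHom : W P S →* P)) := by
    refine Group.isSolvable_of_ker_le_range
      ((SemidirectProduct.inl : (P → S) →* W P S).codRestrict
        (H0.comap (SemidirectProduct.rightHom : W P S →* P)) (fun n => ?_))
      ((SemidirectProduct.rightHom : W P S →* P).subgroupComap H0) ?_
    · rw [Subgroup.mem_comap, SemidirectProduct.rightHom_inl]
      exact H0.one_mem
    · intro x hx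
      rw [MonoidHom.mem_ker] at hx
      have h1 : SemidirectProduct.rightHom (x : W P S) = 1 := congrArg Subtype.val hx
      refine ⟨(x : W P S).left, Subtype.ext ?_⟩
      show (SemidirectProduct.inl (x : W P S).left : W P S) = x
      ext1
      · rfl
      · exact h1.symm
  refine Group.isSolvable_of_isSolvable_injective
    (f := (iota S H0).codRestrict (H0.comap (SemidirectProduct.rightHom : W P S →* P))
      (fun x => x.2)) ?_
  intro x y hxy
  have h1 : iota S H0 x = iota S H0 y := by
    have h2 := Subtype.ext_iff.mp hxy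
    exact h2
  exact Subtype.ext (Subtype.ext h1)

theorem key_base {H0 : Subgroup P} (hH0 : IsCoatom H0) (hne : H0 ≠ ⊥) (s : S) :
    ∃ f : P → S, (SemidirectProduct.inl f : W P S) ∈ relDS (iota S H0).range 1 ∧ f 1 = s := by
  classical
  obtain ⟨σ, hσ⟩ : ∃ σ, σ ∉ H0 := by
    by_contra h
    push Not at h
    exact hH0.1 (eq_top_iff.mpr fun x _ => h x)
  obtain ⟨⟨τ, hτ⟩, hτ1⟩ := (Subgroup.ne_bot_iff_exists_ne_one).mp hne
  have hτ1' : τ ≠ 1 := fun h => hτ1 (Subtype.ext h)
  have c1 : ¬ (σ⁻¹ = 1) := by
    intro h
    apply hσ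
    have : σ = 1 := by simpa using h
    rw [this]; exact H0.one_mem
  have c2 : ¬ (τ⁻¹ = 1) := by
    intro h
    apply hτ1'
    simpa using h
  have c3 : ¬ (σ⁻¹ * τ⁻¹ = 1) := by
    intro h
    apply hσ
    have h2 : σ⁻¹ = τ := by
      have h3 := eq_inv_of_mul_eq_one_left h
      rw [inv_inv] at h3
      exact h3
    have h4 : σ = τ⁻¹ := by rw [← h2, inv_inv]
    rw [h4]; exact H0.inv_mem hτ
  set m : P → S := Pi.mulSingle (1 : P) s with hm
  set m' : P → S := m * mulAutArrow (G := P) (A := P) (M := S) σ m⁻¹ with hm'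
  have hx1G : (SemidirectProduct.inl m' : W P S) ∈ GG P S := by
    rw [hm', ← comm_inl_inr, commutatorElement_def]
    exact (GG P S).mul_mem
      ((inferInstance : (GG P S).Normal).conj_mem _ (inr_mem_GG σ) _)
      ((GG P S).inv_mem (inr_mem_GG σ))
  have hx1 : (SemidirectProduct.inl m' : W P S) ∈ (iota S H0).range := by
    apply mem_range_iota _ _ hx1G
    rw [SemidirectProduct.rightHom_inl]
    exact H0.one_mem
  have hx2 : (SemidirectProduct.inr τ : W P S) ∈ (iota S H0).range := by
    apply mem_range_iota _ _ (inr_mem_GG τ)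
    rw [SemidirectProduct.rightHom_inr]
    exact hτ
  refine ⟨m' * mulAutArrow (G := P) (A := P) (M := S) τ m'⁻¹, ?_, ?_⟩
  · rw [← comm_inl_inr]
    exact Subgroup.commutator_mem_commutator hx1 hx2
  · simp only [Pi.mul_apply, phi_apply, Pi.inv_apply, hm', hm, Pi.mulSingle_apply, if_true,
      mul_one]
    rw [if_neg c1, if_neg c2, if_neg c3]
    simp

theorem key_step {H0 : Subgroup P} (hH0 : IsCoatom H0) (hne : H0 ≠ ⊥) (k : ℕ) :
    derivedSeries S k ≤ ((relDS (iota S H0).range (k + 1)).comap
      (SemidirectProduct.inl : (P → S) →* W P S)).map (Pi.evalMonoidHom (fun _ : P => S) 1) := by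
  induction k with
  | zero =>
    intro s _
    obtain ⟨f, hf, hfs⟩ := key_base hH0 hne s
    exact ⟨f, hf, hfs⟩
  | succ k ih =>
    rw [derivedSeries_succ]
    refine (Subgroup.commutator_mono ih ih).trans ?_
    rw [← Subgroup.map_commutator]
    apply Subgroup.map_mono
    rw [← Subgroup.map_le_iff_le_comap, Subgroup.map_commutator]
    exact Subgroup.commutator_mono (Subgroup.map_comap_le _ _) (Subgroup.map_comap_le _ _)

theorem HH_derived {H0 : Subgroup P} (hH0 : IsCoatom H0) (hne : H0 ≠ ⊥) (d : ℕ)
    (hd : derivedSeries S d ≠ ⊥) : derivedSeries (HH S H0) (d + 1) ≠ ⊥ := by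
  intro h
  obtain ⟨⟨s, hs⟩, hs1⟩ := (Subgroup.ne_bot_iff_exists_ne_one).mp hd
  have hs1' : s ≠ 1 := fun h => hs1 (Subtype.ext h)
  obtain ⟨f, hf, hfs⟩ := key_step hH0 hne d hs
  have hf' : (SemidirectProduct.inl f : W P S) ∈ relDS (iota S H0).range (d + 1) := hf
  rw [← map_derivedSeries_eq_relDS, h, Subgroup.map_bot, Subgroup.mem_bot] at hf'
  have hf1 : f = 1 := SemidirectProduct.inl_injective (hf'.trans (map_one _).symm)
  apply hs1'
  rw [← hfs, hf1]
  rfl

end Wreath

theorem lemmaX (S : Type) [Group S] [Finite S] [Group.IsSolvable S] (d : ℕ)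
    (hd : derivedSeries S d ≠ ⊥) :
    ∃ (G : Type) (_ : Group G) (_ : Finite G) (H : Subgroup G), commutator G = ⊤ ∧ IsCoatom H ∧
      Group.IsSolvable H ∧ derivedSeries H (d + 1) ≠ ⊥ := by
  obtain ⟨P, _, _, H0, hperf, hH0, hH0s, hH0ne⟩ := exists_perfect_with_solvable_coatom
  have : Finite (W P S) := Finite.of_equiv _ SemidirectProduct.equivProd.symm
  exact ⟨GG P S, inferInstance, inferInstance, HH S H0, GG_perfect hperf, HH_isCoatom hH0,
    HH_isSolvable, HH_derived hH0 hH0ne d hd⟩

theorem exists_solvable (d : ℕ) :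
    ∃ (S : Type) (_ : Group S) (_ : Finite S), Group.IsSolvable S ∧ derivedSeries S d ≠ ⊥ := by
  induction d with
  | zero =>
    refine ⟨Multiplicative (ZMod 2), inferInstance, inferInstance, inferInstance, ?_⟩
    rw [derivedSeries_zero]
    exact top_ne_bot
  | succ d ih =>
    obtain ⟨S, _, _, hS, hd⟩ := ih
    obtain ⟨G, _, _, H, -, -, hHs, hHd⟩ := lemmaX S d hd
    exact ⟨H, inferInstance, inferInstance, hHs, hHd⟩

/-- Finite perfect groups have solvable maximal subgroups of unbounded derived length: for every d there is a finite perfect group G (equal to its commutator subgroup) with a solvable maximal subgroup H whose derived length exceeds d, i.e. the d-th term of the derived series of H is non-trivial. (Take the derived subgroup of a wreath product S ≀ A₅ with S solvable of large derived length, and H the preimage of a maximal subgroup of A₅.) -/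
theorem result (d : ℕ) :
    ∃ (G : Type) (_ : Group G) (_ : Finite G) (H : Subgroup G), commutator G = ⊤ ∧ IsCoatom H ∧ Group.IsSolvable H ∧
      derivedSeries H d ≠ ⊥ := by
  obtain ⟨S, _, _, hS, hd⟩ := exists_solvable d
  obtain ⟨G, iG, iF, H, hperf, hco, hsol, hder⟩ := lemmaX S d hd
  refine ⟨G, iG, iF, H, hperf, hco, hsol, ?_⟩
  intro h
  apply hder
  rw [eq_bot_iff, ← h]
  exact derivedSeries_antitone _ (Nat.le_succ d)

end Cfsg.Agent.S5896
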