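import Cfsg.Statements.S5902
import Cfsg.Agent.S5901

set_option autoImplicit false
open Cfsg

namespace Cfsg.Agent.S5902

theorem relCompl {G : Type*} [Group G] (X : Subgroup G)
    (hK : ComplementedLattice (Subgroup X)) :
    ∀ Y : Subgroup G, (⊥ : Subgroup G) ≤ Y → Y ≤ X →
      ∃ C : Subgroup G, (⊥ : Subgroup G) ≤ C ∧ C ≤ X ∧ Y ⊔ C = X ∧ Y ⊓ C = ⊥ := by
  intro Y _ hYX
  obtain ⟨C', hC'⟩ := hK.exists_isCompl (Y.subgroupOf X)
  refine ⟨C'.map X.subtype, bot_le, ?_, ?_, ?_⟩
  · exact Subgroup.map_subtype_le C'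
  · have h1 : (Y.subgroupOf X).map X.subtype = Y := by
      rw [Subgroup.subgroupOf_map_subtype]; exact inf_eq_left.mpr hYX
    have h2 : (Y.subgroupOf X ⊔ C').map X.subtype = X := by
      rw [hC'.sup_eq_top, ← MonoidHom.range_eq_map, Subgroup.range_subtype]
    rw [Subgroup.map_sup, h1] at h2
    exact h2
  · have h1 : (Y.subgroupOf X).map X.subtype = Y := by
      rw [Subgroup.subgroupOf_map_subtype]; exact inf_eq_left.mpr hYX
    have h2 : (Y.subgroupOf X ⊓ C').map X.subtype = ⊥ := by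
      rw [hC'.inf_eq_bot, Subgroup.map_bot]
    rw [Subgroup.map_inf _ _ _ (Subgroup.subtype_injective X), h1] at h2
    exact h2

theorem part1 {G : Type*} [Group G] [Finite G] (X M : Subgroup G)
    (hK : ComplementedLattice (Subgroup X))
    (hM : IsCoatom M) (hXM : X ≤ M) (huniq : ∀ M' : Subgroup G, IsCoatom M' → X ≤ M' → M' = M) :
    ∀ H : Subgroup G, ¬ H ≤ M.normalCore → ∃ C : Subgroup G, H ⊔ C = ⊤ ∧ H ⊓ C = ⊥ := by
  intro H hH
  have hXtop : X ≠ ⊤ := fun h => hM.1 (top_le_iff.mp (h ▸ hXM))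
  obtain ⟨h, hhH, hhN⟩ := SetLike.not_le_iff_exists.mp hH
  have : ∃ b : G, b * h * b⁻¹ ∉ M := by
    by_contra hcon
    exact hhN (fun b => not_not.mp (fun hb' => hcon ⟨b, hb'⟩))
  obtain ⟨b, hb⟩ := this
  let φ : G →* G := (MulAut.conj b).toMonoidHom
  have hφinj : Function.Injective φ := (MulAut.conj b).injective
  have hφsurj : Function.Surjective φ := (MulAut.conj b).surjective
  have hH' : ¬ H.map φ ≤ M := by
    intro hle
    apply hb
    have : φ h ∈ H.map φ := Subgroup.mem_map_of_mem φ hhH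
    have h3 := hle this
    simpa [φ] using h3
  obtain ⟨C', hC1, hC2⟩ := Cfsg.Agent.S5901.result ⊥ X M bot_le hXtop (relCompl X hK) hM hXM huniq
    (H.map φ) hH' (inf_bot_eq _)
  refine ⟨C'.comap φ, ?_, ?_⟩
  · have h1 : (H.map φ).comap φ = H := Subgroup.comap_map_eq_self_of_injective hφinj H
    have h2 := Subgroup.comap_sup_eq φ (H.map φ) C' hφsurj
    rw [h1, hC1, Subgroup.comap_top] at h2
    exact h2
  · have h1 : (H.map φ).comap φ = H := Subgroup.comap_map_eq_self_of_injective hφinj H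
    have h2 := Subgroup.comap_inf (H.map φ) C' φ
    rw [h1, hC2] at h2
    rw [← h2]
    exact (MonoidHom.ker_eq_bot_iff φ).mpr hφinj

theorem result {G : Type*} [Group G] [Finite G] (X M : Subgroup G)
    (hK : ComplementedLattice (Subgroup X))
    (hM : IsCoatom M) (hXM : X ≤ M) (huniq : ∀ M' : Subgroup G, IsCoatom M' → X ≤ M' → M' = M) :
    (∀ H : Subgroup G, ¬ H ≤ M.normalCore → ∃ C : Subgroup G, H ⊔ C = ⊤ ∧ H ⊓ C = ⊥) ∧
    ComplementedLattice (Subgroup (G ⧸ M.normalCore)) := by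
  have p1 := part1 X M hK hM hXM huniq
  refine ⟨p1, ⟨fun Hbar => ?_⟩⟩
  by_cases hbot : Hbar = ⊥
  · exact ⟨⊤, hbot ▸ isCompl_bot_top⟩
  · let π := QuotientGroup.mk' M.normalCore
    have hπ : Function.Surjective π := QuotientGroup.mk'_surjective _
    have hH : ¬ Hbar.comap π ≤ M.normalCore := by
      intro hle
      apply hbot
      rw [eq_bot_iff]
      intro x hx
      obtain ⟨g, rfl⟩ := hπ x
      have hg : g ∈ M.normalCore := hle hx
      rw [Subgroup.mem_bot]
      exact (QuotientGroup.eq_one_iff g).mpr hg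
    obtain ⟨C, hC1, hC2⟩ := p1 _ hH
    refine ⟨C.map π, ?_⟩
    rw [isCompl_iff]
    constructor
    · rw [disjoint_iff, eq_bot_iff]
      rintro x ⟨hx1, hx2⟩
      obtain ⟨c, hc, rfl⟩ := hx2
      have : c ∈ Hbar.comap π ⊓ C := ⟨hx1, hc⟩
      rw [hC2, Subgroup.mem_bot] at this
      rw [this, map_one]
      exact Subgroup.one_mem _
    · rw [codisjoint_iff]
      have := congrArg (Subgroup.map π) hC1
      rw [Subgroup.map_sup, Subgroup.map_comap_eq_self_of_surjective hπ,
        Subgroup.map_top_of_surjective π hπ] at this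
      exact this

end Cfsg.Agent.S5902
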