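import Cfsg.Statements.S5903
import Cfsg.Agent.S5901

set_option autoImplicit false
open Cfsg

namespace Cfsg.Agent.S5903

theorem relCompl {G : Type*} [Group G] (X N : Subgroup G) (hNX : N ≤ X)
    [(N.subgroupOf X).Normal] (hK : ComplementedLattice (Subgroup (X ⧸ N.subgroupOf X))) :
    ∀ Y : Subgroup G, N ≤ Y → Y ≤ X →
      ∃ C : Subgroup G, N ≤ C ∧ C ≤ X ∧ Y ⊔ C = X ∧ Y ⊓ C = N := by
  intro Y hNY hYX
  let π := QuotientGroup.mk' (N.subgroupOf X)
  have hπ : Function.Surjective π := QuotientGroup.mk'_surjective _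
  have hker : π.ker = N.subgroupOf X := QuotientGroup.ker_mk' _
  obtain ⟨Cbar, hC⟩ := hK.exists_isCompl ((Y.subgroupOf X).map π)
  have hY' : ((Y.subgroupOf X).map π).comap π = Y.subgroupOf X := by
    rw [Subgroup.comap_map_eq, hker]
    exact sup_eq_left.mpr (Subgroup.subgroupOf_mono X hNY)
  have hmapY : (Y.subgroupOf X).map X.subtype = Y := by
    rw [Subgroup.subgroupOf_map_subtype]; exact inf_eq_left.mpr hYX
  have hmapN : (N.subgroupOf X).map X.subtype = N := by
    rw [Subgroup.subgroupOf_map_subtype]; exact inf_eq_left.mpr hNX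
  refine ⟨(Cbar.comap π).map X.subtype, ?_, Subgroup.map_subtype_le _, ?_, ?_⟩
  · have h : N.subgroupOf X ≤ Cbar.comap π := fun x hx => Subgroup.ker_le_comap π Cbar (hker.ge hx)
    exact hmapN.symm.le.trans (Subgroup.map_mono h)
  · have h2 := Subgroup.comap_sup_eq π ((Y.subgroupOf X).map π) Cbar hπ
    rw [hY', hC.sup_eq_top, Subgroup.comap_top] at h2
    have h3 := congrArg (Subgroup.map X.subtype) h2
    rw [Subgroup.map_sup, hmapY, ← MonoidHom.range_eq_map, Subgroup.range_subtype] at h3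
    exact h3
  · have h2 := Subgroup.comap_inf ((Y.subgroupOf X).map π) Cbar π
    rw [hY', hC.inf_eq_bot] at h2
    have h4 : (⊥ : Subgroup (X ⧸ N.subgroupOf X)).comap π = N.subgroupOf X := hker
    rw [h4] at h2
    have h3 := congrArg (Subgroup.map X.subtype) h2
    rw [hmapN, Subgroup.map_inf _ _ _ (Subgroup.subtype_injective X), hmapY] at h3
    exact h3.symm

theorem exists_conj {G : Type*} [Group G] [Finite G] [IsSimpleGroup G] (M N : Subgroup G)
    (hM : IsCoatom M) (hN : (Nat.card N).Prime) (hcen : ∀ n ∈ N, ∀ m ∈ M, m * n = n * m)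
    (H : Subgroup G) (hH0 : H ≠ ⊥) (hH1 : H ≠ ⊤) :
    ∃ g : G, ¬ H ≤ M.map (MulAut.conj g).toMonoidHom ∧ ¬ N.map (MulAut.conj g).toMonoidHom ≤ H := by
  by_contra hcon
  have hall : ∀ g : G, ¬ H ≤ M.map (MulAut.conj g).toMonoidHom → N.map (MulAut.conj g).toMonoidHom ≤ H := by
    intro g hg
    by_contra h
    exact hcon ⟨g, hg, h⟩
  have hNbot : N ≠ ⊥ := by
    intro h
    rw [h] at hN
    simp at hN
    exact Nat.not_prime_one hN
  let K : Subgroup G := ⨆ g : {g : G // ¬ H ≤ M.map (MulAut.conj g).toMonoidHom}, N.map (MulAut.conj g.1).toMonoidHom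
  let L : Subgroup G := ⨆ g : {g : G // H ≤ M.map (MulAut.conj g).toMonoidHom}, N.map (MulAut.conj g.1).toMonoidHom
  have hKH : K ≤ H := iSup_le fun g => hall g.1 g.2
  have hcomm : ∀ (g b : G), H ≤ M.map (MulAut.conj g).toMonoidHom → ¬ H ≤ M.map (MulAut.conj b).toMonoidHom →
      N.map (MulAut.conj b).toMonoidHom ≤ Subgroup.centralizer (N.map (MulAut.conj g).toMonoidHom : Set G) := by
    intro g b hg hb x hx
    have hxM : x ∈ M.map (MulAut.conj g).toMonoidHom := hg (hall b hb hx)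
    obtain ⟨m, hm, rfl⟩ := hxM
    rw [Subgroup.mem_centralizer_iff]
    rintro y ⟨n, hn, rfl⟩
    have := hcen n hn m hm
    simp only [MulEquiv.coe_toMonoidHom, MulAut.conj_apply]
    calc g * n * g⁻¹ * (g * m * g⁻¹) = g * (n * m) * g⁻¹ := by group
      _ = g * (m * n) * g⁻¹ := by rw [this]
      _ = g * m * g⁻¹ * (g * n * g⁻¹) := by group
  have hKL : K ≤ Subgroup.centralizer (L : Set G) := by
    rw [Subgroup.le_centralizer_iff]
    apply iSup_le
    intro g
    rw [Subgroup.le_centralizer_iff]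
    apply iSup_le
    intro b
    exact hcomm g.1 b.1 g.2 b.2
  have hLK : L ≤ Subgroup.centralizer (K : Set G) := Subgroup.le_centralizer_iff.mp hKL
  have hsup : L ⊔ K = ⊤ := by
    have hnc : Subgroup.normalClosure (N : Set G) = ⊤ := by
      rcases (Subgroup.normalClosure_normal (s := (N : Set G))).eq_bot_or_eq_top with h | h
      · exfalso
        apply hNbot
        rw [eq_bot_iff, ← h]
        exact Subgroup.le_normalClosure
      · exact h
    rw [eq_top_iff, ← hnc]
    show Subgroup.closure (Group.conjugatesOfSet (N : Set G)) ≤ L ⊔ K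
    rw [Subgroup.closure_le]
    intro x hx
    rw [Group.mem_conjugatesOfSet_iff] at hx
    obtain ⟨a, ha, hax⟩ := hx
    rw [isConj_iff] at hax
    obtain ⟨c, rfl⟩ := hax
    have hmem : c * a * c⁻¹ ∈ N.map (MulAut.conj c).toMonoidHom := ⟨a, ha, by simp⟩
    by_cases hc : H ≤ M.map (MulAut.conj c).toMonoidHom
    · exact (le_sup_left : L ≤ L ⊔ K) (Subgroup.mem_iSup_of_mem ⟨c, hc⟩ hmem)
    · exact (le_sup_right : K ≤ L ⊔ K) (Subgroup.mem_iSup_of_mem ⟨c, hc⟩ hmem)
  have hKnormal : K.Normal := by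
    rw [← Subgroup.normalizer_eq_top_iff, eq_top_iff, ← hsup]
    exact sup_le (hLK.trans (Subgroup.centralizer_le_normalizer _)) Subgroup.le_normalizer
  have hKbot : K = ⊥ := by
    rcases hKnormal.eq_bot_or_eq_top with h | h
    · exact h
    · exact absurd (top_le_iff.mp (h ▸ hKH)) hH1
  have hallM : ∀ g : G, H ≤ M.map (MulAut.conj g).toMonoidHom := by
    intro g
    by_contra hg
    apply hNbot
    have h1 : N.map (MulAut.conj g).toMonoidHom ≤ K := le_iSup (fun g : {g : G // ¬ H ≤ M.map (MulAut.conj g).toMonoidHom} => N.map (MulAut.conj g.1).toMonoidHom) ⟨g, hg⟩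
    rw [hKbot, le_bot_iff] at h1
    exact (Subgroup.map_eq_bot_iff_of_injective N (MulAut.conj g).injective).mp h1
  have hcore : H ≤ M.normalCore := by
    intro h hh b
    obtain ⟨m, hm, hmh⟩ := hallM b⁻¹ hh
    have : b * h * b⁻¹ = m := by
      rw [← hmh]
      simp only [MulEquiv.coe_toMonoidHom, MulAut.conj_apply]
      group
    rw [this]; exact hm
  have hcorebot : M.normalCore = ⊥ := by
    rcases (Subgroup.normalCore_normal M).eq_bot_or_eq_top with h | h
    · exact h
    · exact absurd (top_le_iff.mp (h ▸ Subgroup.normalCore_le M)) hM.1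
  rw [hcorebot, le_bot_iff] at hcore
  exact hH0 hcore

theorem result {G : Type*} [Group G] [Finite G] [IsSimpleGroup G] (X M N : Subgroup G)
    (hM : IsCoatom M) (hXM : X ≤ M) (huniq : ∀ M' : Subgroup G, IsCoatom M' → X ≤ M' → M' = M)
    (hNX : N ≤ X) (hN : (Nat.card N).Prime) (hcen : ∀ n ∈ N, ∀ m ∈ M, m * n = n * m)
    [(N.subgroupOf X).Normal] (hK : ComplementedLattice (Subgroup (X ⧸ N.subgroupOf X))) :
    ComplementedLattice (Subgroup G) := by
  refine ⟨fun H => ?_⟩
  by_cases hH0 : H = ⊥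
  · exact ⟨⊤, hH0 ▸ isCompl_bot_top⟩
  by_cases hH1 : H = ⊤
  · exact ⟨⊥, hH1 ▸ isCompl_top_bot⟩
  obtain ⟨g, hg1, hg2⟩ := exists_conj M N hM hN hcen H hH0 hH1
  have hXtop : X ≠ ⊤ := fun h => hM.1 (top_le_iff.mp (h ▸ hXM))
  let ψ : G →* G := (MulAut.conj g).toMonoidHom
  have hψinj : Function.Injective ψ := (MulAut.conj g).injective
  have hψsurj : Function.Surjective ψ := (MulAut.conj g).surjective
  have hmc : (H.comap ψ).map ψ = H := Subgroup.map_comap_eq_self_of_surjective hψsurj H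
  have hH' : ¬ H.comap ψ ≤ M := by
    intro hle
    apply hg1
    rw [← hmc]
    exact Subgroup.map_mono hle
  have hHN : H.comap ψ ⊓ N = ⊥ := by
    have : Fact (Nat.card N).Prime := ⟨hN⟩
    rcases Subgroup.eq_bot_or_eq_top_of_prime_card ((H.comap ψ).subgroupOf N) with h | h
    · rw [Subgroup.subgroupOf_eq_bot] at h
      exact disjoint_iff.mp h
    · rw [Subgroup.subgroupOf_eq_top] at h
      exfalso
      apply hg2
      rw [← hmc]
      exact Subgroup.map_mono h
  obtain ⟨C', hC1, hC2⟩ := Cfsg.Agent.S5901.result N X M hNX hXtop (relCompl X N hNX hK) hM hXM huniq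
    (H.comap ψ) hH' hHN
  refine ⟨C'.map ψ, IsCompl.of_eq ?_ ?_⟩
  · have h2 := Subgroup.map_inf (H.comap ψ) C' ψ hψinj
    rw [hmc, hC2, Subgroup.map_bot] at h2
    exact h2.symm
  · have h2 := Subgroup.map_sup (H.comap ψ) C' ψ
    rw [hmc, hC1, Subgroup.map_top_of_surjective ψ hψsurj] at h2
    exact h2.symm

end Cfsg.Agent.S5903
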