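import Cfsg.Statements.S5904

set_option autoImplicit false
open Cfsg

namespace Cfsg.Agent.S5904

open scoped Pointwise

theorem result {Ω : Type*} [Fintype Ω] [DecidableEq Ω] (hΩ : 2 < Fintype.card Ω)
    (O : Set Ω) (hO : Nat.card O = Nat.card ↥Oᶜ) :
    ¬ IsCoatom (MulAction.stabilizer (Equiv.Perm Ω) O) := by
  classical
  intro hco
  have h1 : O.ncard + Oᶜ.ncard = Fintype.card Ω := by
    rw [Set.ncard_add_ncard_compl, Nat.card_eq_fintype_card]
  have hO' : O.ncard = Oᶜ.ncard := by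
    rw [← Nat.card_coe_set_eq, ← Nat.card_coe_set_eq]; exact hO
  have h2 : 1 < O.ncard := by omega
  have h3 : 0 < Oᶜ.ncard := by omega
  obtain ⟨a, a', ha, ha', hne⟩ := (Set.one_lt_ncard_iff).mp h2
  obtain ⟨b, hb⟩ := (Set.ncard_pos).mp h3
  obtain ⟨K, hK⟩ : ∃ K : Subgroup (Equiv.Perm Ω),
      K = MulAction.stabilizer (Equiv.Perm Ω) ({O, Oᶜ} : Set (Set Ω)) := ⟨_, rfl⟩
  have hHK : MulAction.stabilizer (Equiv.Perm Ω) O ≤ K := by
    intro σ hσ
    rw [hK]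
    rw [MulAction.mem_stabilizer_iff] at hσ ⊢
    rw [Set.smul_set_insert, Set.smul_set_singleton, Set.smul_set_compl, hσ]
  obtain ⟨e⟩ : Nonempty (O ≃ ↥Oᶜ) := Finite.card_eq.mp hO
  obtain ⟨σ, hσ⟩ : ∃ σ : Equiv.Perm Ω,
      σ = Equiv.extendSubtype (p := (· ∈ O)) (q := (· ∈ Oᶜ)) e := ⟨_, rfl⟩
  have hσ1 : ∀ x ∈ O, σ x ∈ Oᶜ := fun x hx => hσ ▸ Equiv.extendSubtype_mem e x hx
  have hσ2 : ∀ x, x ∉ O → σ x ∉ Oᶜ := fun x hx => hσ ▸ Equiv.extendSubtype_not_mem e x hx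
  have hσO : σ • O = Oᶜ := by
    ext y
    constructor
    · rintro ⟨x, hx, rfl⟩
      exact hσ1 x hx
    · intro hy
      refine ⟨σ.symm y, ?_, σ.apply_symm_apply y⟩
      by_contra hx
      have h4 := hσ2 _ hx
      rw [σ.apply_symm_apply] at h4
      exact h4 hy
  have hσK : σ ∈ K := by
    rw [hK, MulAction.mem_stabilizer_iff, Set.smul_set_insert, Set.smul_set_singleton,
      Set.smul_set_compl, hσO, compl_compl, Set.pair_comm]
  have hσH : σ ∉ MulAction.stabilizer (Equiv.Perm Ω) O := by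
    rw [MulAction.mem_stabilizer_iff, hσO]
    intro h
    have h5 : a ∈ Oᶜ := by rw [h]; exact ha
    exact h5 ha
  have hKtop : K = ⊤ := by
    have hlt : MulAction.stabilizer (Equiv.Perm Ω) O < K :=
      lt_of_le_of_ne hHK (fun h => hσH (h ▸ hσK))
    exact hco.2 K hlt
  have hτ : Equiv.swap a b ∈ K := hKtop ▸ Subgroup.mem_top _
  rw [hK, MulAction.mem_stabilizer_iff] at hτ
  have hmem : Equiv.swap a b • O ∈ ({O, Oᶜ} : Set (Set Ω)) := by
    rw [← hτ]; exact Set.smul_mem_smul_set (Set.mem_insert _ _)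
  have hbmem : b ∈ Equiv.swap a b • O := ⟨a, ha, Equiv.swap_apply_left a b⟩
  have ha'mem : a' ∈ Equiv.swap a b • O :=
    ⟨a', ha', Equiv.swap_apply_of_ne_of_ne (Ne.symm hne) (fun h => hb (h ▸ ha'))⟩
  rcases hmem with h | h
  · rw [h] at hbmem; exact hb hbmem
  · rw [Set.mem_singleton_iff] at h; rw [h] at ha'mem; exact ha'mem ha'

end Cfsg.Agent.S5904
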