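import Mathlib
import Cfsg.Statements.S5910

set_option autoImplicit false
open Cfsg

namespace Cfsg.Agent.S5910

def xr8 (a b : Fin 8) : Fin 8 := ⟨(a.val ^^^ b.val) % 8, Nat.mod_lt _ (by norm_num)⟩

def tb (v0 v2 v4 v6 : Fin 8) (x : Fin 8) : Fin 8 :=
  if x.val = 0 then v0 else if x.val = 1 then xr8 v0 1 else if x.val = 2 then v2
  else if x.val = 3 then xr8 v2 1 else if x.val = 4 then v4 else if x.val = 5 then xr8 v4 1
  else if x.val = 6 then v6 else xr8 v6 1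

set_option maxRecDepth 1000000 in
set_option synthInstance.maxSize 8192 in
set_option synthInstance.maxHeartbeats 0 in
theorem d2 : ∀ v0 v2 v4 v6 : Fin 8, v0.val / 2 ≠ v2.val / 2 → v0.val / 2 ≠ v4.val / 2 →
    v0.val / 2 ≠ v6.val / 2 → v2.val / 2 ≠ v4.val / 2 → v2.val / 2 ≠ v6.val / 2 →
    v4.val / 2 ≠ v6.val / 2 →
    (∏ j : Fin 8, ∏ i ∈ Finset.Iio j,
      (if tb v0 v2 v4 v6 i < tb v0 v2 v4 v6 j then (1 : ℤˣ) else -1)) = 1 →
    ∀ x y z : Fin 8, tb v0 v2 v4 v6 (xr8 (xr8 x y) z)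
      = xr8 (xr8 (tb v0 v2 v4 v6 x) (tb v0 v2 v4 v6 y)) (tb v0 v2 v4 v6 z) := by
  decide +kernel

/-- the pairs `{2i, 2i+1}` are preserved -/
def PP (g : Equiv.Perm (Fin 8)) : Prop :=
  ∀ x y : Fin 8, x.val / 2 = y.val / 2 ↔ (g x).val / 2 = (g y).val / 2

def Aff (g : Equiv.Perm (Fin 8)) : Prop :=
  ∀ x y z : Fin 8, g (xr8 (xr8 x y) z) = xr8 (xr8 (g x) (g y)) (g z)

theorem pA1 : ∀ x : Fin 8, x.val / 2 = (xr8 x 1).val / 2 ∧ xr8 x 1 ≠ x := by
  decide

theorem pA2 : ∀ u w : Fin 8, u.val / 2 = w.val / 2 → w ≠ u → w = xr8 u 1 := by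
  decide

theorem c8 : ∀ x : Fin 8, x = 0 ∨ x = 1 ∨ x = 2 ∨ x = 3 ∨ x = 4 ∨ x = 5 ∨ x = 6 ∨ x = 7 := by
  decide

theorem tb_eq (h : Fin 8 → Fin 8) (hA : ∀ x, h (xr8 x 1) = xr8 (h x) 1) :
    ∀ x, h x = tb (h 0) (h 2) (h 4) (h 6) x := by
  intro x
  rcases c8 x with rfl | rfl | rfl | rfl | rfl | rfl | rfl | rfl
  · rfl
  · exact hA 0
  · rfl
  · exact hA 2
  · rfl
  · exact hA 4
  · rfl
  · exact hA 6

theorem pp_aff (g : Equiv.Perm (Fin 8)) (hpp : PP g) (hs : Equiv.Perm.sign g = 1) : Aff g := by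
  have hA : ∀ x, g (xr8 x 1) = xr8 (g x) 1 := by
    intro x
    have h1 := pA1 x
    exact pA2 (g x) (g (xr8 x 1)) ((hpp x (xr8 x 1)).1 h1.1)
      (fun h => h1.2 (g.injective h))
  obtain ⟨v0, v2, v4, v6, h02, h04, h06, h24, h26, h46, hT⟩ :
      ∃ v0 v2 v4 v6 : Fin 8, v0.val / 2 ≠ v2.val / 2 ∧ v0.val / 2 ≠ v4.val / 2 ∧
        v0.val / 2 ≠ v6.val / 2 ∧ v2.val / 2 ≠ v4.val / 2 ∧ v2.val / 2 ≠ v6.val / 2 ∧
        v4.val / 2 ≠ v6.val / 2 ∧ ∀ x, g x = tb v0 v2 v4 v6 x :=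
    ⟨g 0, g 2, g 4, g 6,
      fun h => absurd ((hpp 0 2).2 h) (by decide),
      fun h => absurd ((hpp 0 4).2 h) (by decide),
      fun h => absurd ((hpp 0 6).2 h) (by decide),
      fun h => absurd ((hpp 2 4).2 h) (by decide),
      fun h => absurd ((hpp 2 6).2 h) (by decide),
      fun h => absurd ((hpp 4 6).2 h) (by decide),
      tb_eq g hA⟩
  have hprod : (∏ j : Fin 8, ∏ i ∈ Finset.Iio j,
      (if tb v0 v2 v4 v6 i < tb v0 v2 v4 v6 j then (1 : ℤˣ) else -1)) = 1 := by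
    have h0 := Equiv.Perm.sign_eq_prod_prod_Iio g
    rw [hs] at h0
    simp only [hT] at h0
    exact h0.symm
  intro x y z
  rw [hT (xr8 (xr8 x y) z), hT x, hT y, hT z]
  exact d2 v0 v2 v4 v6 h02 h04 h06 h24 h26 h46 hprod x y z

def affG : Subgroup (Equiv.Perm (Fin 8)) where
  carrier := {g | Aff g}
  one_mem' := fun _ _ _ => rfl
  mul_mem' := by
    intro g h hg hh x y z
    show g (h (xr8 (xr8 x y) z)) = xr8 (xr8 (g (h x)) (g (h y))) (g (h z))
    rw [hh x y z, hg (h x) (h y) (h z)]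
  inv_mem' := by
    intro g hg x y z
    apply g.injective
    rw [hg (g⁻¹ x) (g⁻¹ y) (g⁻¹ z)]
    simp

def k8 : Equiv.Perm (Fin 8) := Equiv.swap 1 2 * Equiv.swap 5 6

def a8 : Equiv.Perm (Fin 8) := Equiv.swap 0 1 * Equiv.swap 1 2

theorem k8_aff : Aff k8 := by
  unfold Aff k8
  decide

theorem k8_not_pp : ¬ PP k8 := by
  unfold PP k8
  decide

theorem k8_sign : Equiv.Perm.sign k8 = 1 := by
  unfold k8
  decide

theorem a8_not_aff : ¬ Aff a8 := by
  unfold Aff a8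
  decide

theorem a8_sign : Equiv.Perm.sign a8 = 1 := by
  unfold a8
  decide

theorem exists_equiv {Ω : Type*} [Fintype Ω] (f : Ω → Fin 4)
    (hf : ∀ i : Fin 4, Nat.card {x : Ω // f x = i} = 2) :
    ∃ e : Ω ≃ Fin 8, ∀ x, (e x).val / 2 = (f x).val := by
  let e1 : Ω ≃ (Σ i : Fin 4, {x : Ω // f x = i}) := (Equiv.sigmaFiberEquiv f).symm
  let e2 : (Σ i : Fin 4, {x : Ω // f x = i}) ≃ (Σ _i : Fin 4, Fin 2) :=
    Equiv.sigmaCongrRight (fun i => Finite.equivFinOfCardEq (hf i))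
  let e3 : (Σ _i : Fin 4, Fin 2) ≃ Fin 4 × Fin 2 := Equiv.sigmaEquivProd (Fin 4) (Fin 2)
  let e4 : Fin 4 × Fin 2 ≃ Fin 8 := finProdFinEquiv
  refine ⟨e1.trans (e2.trans (e3.trans e4)), fun x => ?_⟩
  have h1 : (e3 (e2 (e1 x))).1 = f x := rfl
  have h2 : ((e1.trans (e2.trans (e3.trans e4))) x).val
      = (e3 (e2 (e1 x))).2.val + 2 * (e3 (e2 (e1 x))).1.val := rfl
  rw [h2, h1]
  have h3 := (e3 (e2 (e1 x))).2.isLt
  omega

theorem pp_of {Ω : Type*} (f : Ω → Fin 4) (e : Ω ≃ Fin 8)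
    (he : ∀ x, (e x).val / 2 = (f x).val) (g : Equiv.Perm Ω)
    (hg : ∀ x y : Ω, f x = f y ↔ f (g x) = f (g y)) : PP (e.permCongrHom g) := by
  intro a b
  have h := hg (e.symm a) (e.symm b)
  have ha := he (e.symm a)
  have hb := he (e.symm b)
  have ha' := he (g (e.symm a))
  have hb' := he (g (e.symm b))
  rw [Equiv.apply_symm_apply] at ha hb
  have e1 : (e.permCongrHom g) a = e (g (e.symm a)) := rfl
  have e2 : (e.permCongrHom g) b = e (g (e.symm b)) := rfl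
  rw [e1, e2, ha, hb, ha', hb', Fin.val_inj, Fin.val_inj]
  exact h

theorem sign_phi {Ω : Type*} [Fintype Ω] [DecidableEq Ω] (e : Ω ≃ Fin 8) (g : Equiv.Perm Ω) :
    Equiv.Perm.sign (e.permCongrHom g) = Equiv.Perm.sign g :=
  Equiv.Perm.sign_permCongr e g

/-- Let Ω be a set with 8 elements and f : Ω → Fin 4 a labelling whose four fibres all have size 2 (a partition of the 8 points into 4 pairs). Then the group of even permutations preserving this partition, (S₂ ≀ S₄) ∩ A₈, is not a maximal subgroup of the alternating group A₈ (it lies in a subgroup isomorphic to the affine group AGL₃(2)). -/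
theorem result {Ω : Type*} [Fintype Ω] [DecidableEq Ω] (h8 : Fintype.card Ω = 8)
    (f : Ω → Fin 4) (hf : ∀ i : Fin 4, Nat.card {x : Ω // f x = i} = 2) :
    ¬ IsCoatom ((Subgroup.closure {g : Equiv.Perm Ω | ∀ x y : Ω, f x = f y ↔ f (g x) = f (g y)} ⊓ alternatingGroup Ω).subgroupOf (alternatingGroup Ω)) := by
  obtain ⟨e, he⟩ := exists_equiv f hf
  intro hco
  let Psub : Subgroup (Equiv.Perm Ω) :=
    { carrier := {g : Equiv.Perm Ω | ∀ x y : Ω, f x = f y ↔ f (g x) = f (g y)}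
      one_mem' := fun _ _ => Iff.rfl
      mul_mem' := by
        intro a b ha hb x y
        exact (hb x y).trans (ha (b x) (b y))
      inv_mem' := by
        intro a ha x y
        have h := ha (a⁻¹ x) (a⁻¹ y)
        have hx : a (a⁻¹ x) = x := by simp
        have hy : a (a⁻¹ y) = y := by simp
        rw [hx, hy] at h
        exact h.symm }
  have hcl : Subgroup.closure {g : Equiv.Perm Ω | ∀ x y : Ω, f x = f y ↔ f (g x) = f (g y)}
      = Psub :=
    le_antisymm ((Subgroup.closure_le _).2 (fun g hg => hg))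
      (fun g hg => Subgroup.subset_closure hg)
  rw [hcl] at hco
  let K' : Subgroup (Equiv.Perm Ω) := affG.comap (e.permCongrHom).toMonoidHom
  have hK : ∀ g : Equiv.Perm Ω, g ∈ K' ↔ Aff (e.permCongrHom g) := fun g => Iff.rfl
  have hsym : ∀ t : Equiv.Perm (Fin 8), e.permCongrHom ((e.permCongrHom).symm t) = t :=
    fun t => MulEquiv.apply_symm_apply _ t
  have h1 : (Psub ⊓ alternatingGroup Ω).subgroupOf (alternatingGroup Ω)
      ≤ K'.subgroupOf (alternatingGroup Ω) := by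
    intro g hg
    rw [Subgroup.mem_subgroupOf] at hg ⊢
    obtain ⟨hg1, hg2⟩ := hg
    rw [hK]
    exact pp_aff _ (pp_of f e he _ hg1)
      (by rw [sign_phi]; exact Equiv.Perm.mem_alternatingGroup.1 hg2)
  have hk : (e.permCongrHom).symm k8 ∈ alternatingGroup Ω := by
    rw [Equiv.Perm.mem_alternatingGroup, ← sign_phi e, hsym]
    exact k8_sign
  have ha : (e.permCongrHom).symm a8 ∈ alternatingGroup Ω := by
    rw [Equiv.Perm.mem_alternatingGroup, ← sign_phi e, hsym]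
    exact a8_sign
  have h2 : ¬ (K'.subgroupOf (alternatingGroup Ω)
      ≤ (Psub ⊓ alternatingGroup Ω).subgroupOf (alternatingGroup Ω)) := by
    intro hle
    have hmem : (⟨(e.permCongrHom).symm k8, hk⟩ : alternatingGroup Ω)
        ∈ K'.subgroupOf (alternatingGroup Ω) := by
      rw [Subgroup.mem_subgroupOf, hK, hsym]
      exact k8_aff
    have h3 := hle hmem
    rw [Subgroup.mem_subgroupOf] at h3
    have h4 := pp_of f e he _ h3.1
    rw [hsym] at h4
    exact k8_not_pp h4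
  have h3 : K'.subgroupOf (alternatingGroup Ω) ≠ ⊤ := by
    intro htop
    have hmem : (⟨(e.permCongrHom).symm a8, ha⟩ : alternatingGroup Ω)
        ∈ K'.subgroupOf (alternatingGroup Ω) := by
      rw [htop]
      exact Subgroup.mem_top _
    rw [Subgroup.mem_subgroupOf, hK, hsym] at hmem
    exact a8_not_aff hmem
  exact h3 (hco.2 _ (lt_of_le_not_ge h1 h2))

end Cfsg.Agent.S5910
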