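import Cfsg.Statements.S5911

set_option autoImplicit false
open Cfsg

namespace Cfsg.Agent.S5911

theorem num_aux (i : ℕ) : 2 ^ (i + 4) * (i + 4).factorial < (2 * i + 6).factorial * 2 := by
  induction i with
  | zero => decide
  | succ i ih =>
    have e1 : (i + 1 + 4).factorial = (i + 5) * (i + 4).factorial := Nat.factorial_succ (i + 4)
    have e2 : (2 * (i + 1) + 6).factorial =
        (2 * i + 8) * ((2 * i + 7) * (2 * i + 6).factorial) := by
      rw [show 2 * (i + 1) + 6 = (2 * i + 6) + 1 + 1 by ring, Nat.factorial_succ,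
        Nat.factorial_succ]
    have e3 : (2 : ℕ) ^ (i + 1 + 4) = 2 ^ (i + 4) * 2 := by
      rw [show i + 1 + 4 = (i + 4) + 1 by ring, pow_succ]
    rw [e1, e2, e3]
    have h3 : 2 * (i + 5) ≤ (2 * i + 8) * (2 * i + 7) := by nlinarith
    calc 2 ^ (i + 4) * 2 * ((i + 5) * (i + 4).factorial)
        = (2 * (i + 5)) * (2 ^ (i + 4) * (i + 4).factorial) := by ring
      _ < (2 * (i + 5)) * ((2 * i + 6).factorial * 2) :=
          mul_lt_mul_of_pos_left ih (by positivity)
      _ ≤ ((2 * i + 8) * (2 * i + 7)) * ((2 * i + 6).factorial * 2) :=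
          Nat.mul_le_mul_right _ h3
      _ = (2 * i + 8) * ((2 * i + 7) * (2 * i + 6).factorial) * 2 := by ring

theorem num_main (n k : ℕ) (hn6 : n ≠ 6) (hk : 2 * (k + 1) ≤ n)
    (h : (n - 2).factorial * 2 =
      (n - 2 * (k + 1)).factorial * 2 ^ (k + 1) * (k + 1).factorial) : k = 0 := by
  by_contra hk0
  obtain ⟨r, rfl⟩ : ∃ r, n = 2 * (k + 1) + r := ⟨n - 2 * (k + 1), by omega⟩
  have e1 : 2 * (k + 1) + r - 2 = 2 * k + r := by omega
  have e2 : 2 * (k + 1) + r - 2 * (k + 1) = r := by omega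
  rw [e1, e2] at h
  have hf := Nat.factorial_pos r
  rcases Nat.lt_or_ge k 3 with hk3 | hk3
  · interval_cases k
    · exact hk0 rfl
    · -- k = 1
      have e : (2 * 1 + r).factorial = ((r + 2) * (r + 1)) * r.factorial := by
        rw [show 2 * 1 + r = r + 1 + 1 by ring]
        simp only [Nat.factorial_succ]
        ring
      rw [e] at h
      have h' : ((r + 2) * (r + 1)) * r.factorial * 2 = r.factorial * 8 := by
        rw [h]; norm_num [Nat.factorial]; ring
      rcases r with _ | r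
      · norm_num at h'
      · have hP : 3 * 2 ≤ (r + 1 + 2) * (r + 1 + 1) :=
          Nat.mul_le_mul (by omega) (by omega)
        have hP' := Nat.mul_le_mul_right (r + 1).factorial hP
        nlinarith
    · -- k = 2
      have e : (2 * 2 + r).factorial = ((r + 4) * (r + 3) * (r + 2) * (r + 1)) * r.factorial := by
        rw [show 2 * 2 + r = r + 1 + 1 + 1 + 1 by ring]
        simp only [Nat.factorial_succ]
        ring
      rw [e] at h
      have h' : ((r + 4) * (r + 3) * (r + 2) * (r + 1)) * r.factorial * 2 = r.factorial * 48 := by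
        rw [h]; norm_num [Nat.factorial]; ring
      rcases r with _ | r
      · exact hn6 (by norm_num)
      · have hP : 5 * 4 * 3 * 2 ≤ (r + 1 + 4) * (r + 1 + 3) * (r + 1 + 2) * (r + 1 + 1) :=
          Nat.mul_le_mul (Nat.mul_le_mul (Nat.mul_le_mul (by omega) (by omega)) (by omega))
            (by omega)
        have hP' := Nat.mul_le_mul_right (r + 1).factorial hP
        nlinarith
  · obtain ⟨i, rfl⟩ : ∃ i, k = i + 3 := ⟨k - 3, by omega⟩
    have hd := Nat.le_of_dvd (Nat.factorial_pos _)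
      (Nat.factorial_mul_factorial_dvd_factorial_add (2 * i + 6) r)
    have ha := num_aux i
    rw [show 2 * (i + 3) + r = 2 * i + 6 + r by ring, show i + 3 + 1 = i + 4 by ring] at h
    have hb := mul_lt_mul_of_pos_left ha hf
    nlinarith

section Swaps

variable {α : Type*} [DecidableEq α] [Fintype α]

set_option linter.unusedSectionVars false

/-- Two swaps with a common point and distinct other points do not commute. -/
theorem swap_not_comm {p q r : α} (hpq : p ≠ q) (hpr : p ≠ r) (hqr : q ≠ r) :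
    Equiv.swap p q * Equiv.swap p r ≠ Equiv.swap p r * Equiv.swap p q := by
  intro h
  have h1 := congrArg (fun f : Equiv.Perm α => f p) h
  simp only [Equiv.Perm.mul_apply, Equiv.swap_apply_left] at h1
  rw [Equiv.swap_apply_of_ne_of_ne hpr.symm hqr.symm,
    Equiv.swap_apply_of_ne_of_ne hpq.symm hqr] at h1
  exact hqr h1.symm

/-- Non-commuting swaps share a point. -/
theorem swap_share {a b c d : α} (hab : a ≠ b) (hcd : c ≠ d)
    (h : Equiv.swap a b * Equiv.swap c d ≠ Equiv.swap c d * Equiv.swap a b) :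
    a = c ∨ a = d ∨ b = c ∨ b = d := by
  by_contra hne
  push Not at hne
  obtain ⟨h1, h2, h3, h4⟩ := hne
  apply h
  have hd : Equiv.Perm.Disjoint (Equiv.swap a b) (Equiv.swap c d) := by
    rw [Equiv.Perm.disjoint_iff_disjoint_support, Equiv.Perm.support_swap hab,
      Equiv.Perm.support_swap hcd]
    simp [Ne.symm h1, Ne.symm h2, Ne.symm h3, Ne.symm h4]
  exact hd.commute.eq

/-- Non-commuting swaps in normal form. -/
theorem swap_normal_form {s t : Equiv.Perm α} (hs : s.IsSwap) (ht : t.IsSwap)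
    (h : s * t ≠ t * s) :
    ∃ x y₁ y₂ : α, x ≠ y₁ ∧ x ≠ y₂ ∧ y₁ ≠ y₂ ∧ s = Equiv.swap x y₁ ∧ t = Equiv.swap x y₂ := by
  obtain ⟨a, b, hab, rfl⟩ := hs
  obtain ⟨c, d, hcd, rfl⟩ := ht
  have key : ∀ x y₁ y₂ : α, x ≠ y₁ → x ≠ y₂ →
      Equiv.swap x y₁ * Equiv.swap x y₂ ≠ Equiv.swap x y₂ * Equiv.swap x y₁ → y₁ ≠ y₂ := by
    intro x y₁ y₂ _ _ hh he
    subst he
    exact hh rfl
  rcases swap_share hab hcd h with e | e | e | e
  · subst e
    exact ⟨a, b, d, hab, hcd, key a b d hab hcd h, rfl, rfl⟩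
  · subst e
    have h' : Equiv.swap a b * Equiv.swap a c ≠ Equiv.swap a c * Equiv.swap a b := by
      rwa [Equiv.swap_comm a c]
    exact ⟨a, b, c, hab, hcd.symm, key a b c hab hcd.symm h', rfl, Equiv.swap_comm c a⟩
  · subst e
    have h' : Equiv.swap b a * Equiv.swap b d ≠ Equiv.swap b d * Equiv.swap b a := by
      rwa [Equiv.swap_comm b a]
    exact ⟨b, a, d, hab.symm, hcd, key b a d hab.symm hcd h', Equiv.swap_comm a b, rfl⟩
  · subst e
    have h' : Equiv.swap b a * Equiv.swap b c ≠ Equiv.swap b c * Equiv.swap b a := by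
      rwa [Equiv.swap_comm b a, Equiv.swap_comm b c]
    exact ⟨b, a, c, hab.symm, hcd.symm, key b a c hab.symm hcd.symm h', Equiv.swap_comm a b,
      Equiv.swap_comm c b⟩

theorem swap_triple {x y z : α} (_hxy : x ≠ y) (hxz : x ≠ z) (hyz : y ≠ z) :
    Equiv.swap x y * Equiv.swap x z * Equiv.swap x y = Equiv.swap y z := by
  have h := Equiv.swap_mul_swap_mul_swap (x := z) (y := x) (z := y) hxz.symm hyz.symm
  rwa [Equiv.swap_comm z x] at h

end Swaps

/-- An isomorphism between symmetric groups of the same degree `≠ 6` maps swaps to swaps. -/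
theorem swap_of_equiv {Δ Ω : Type*} [Fintype Δ] [DecidableEq Δ] [Fintype Ω] [DecidableEq Ω]
    (hc : Fintype.card Δ = Fintype.card Ω) (h6 : Fintype.card Ω ≠ 6)
    (θ : Equiv.Perm Δ ≃* Equiv.Perm Ω) (s : Equiv.Perm Δ) (hs : s.IsSwap) : (θ s).IsSwap := by
  have h1 := Equiv.Perm.card_isConj_mul_eq s
  have h2 := Equiv.Perm.card_isConj_mul_eq (θ s)
  have hN : Nat.card {h : Equiv.Perm Δ | IsConj s h} =
      Nat.card {h : Equiv.Perm Ω | IsConj (θ s) h} := by
    apply Nat.card_congr
    exact Equiv.subtypeEquiv θ.toEquiv (fun h =>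
      ⟨fun hh => θ.toMonoidHom.map_isConj hh, fun hh => by
        have h3 := θ.symm.toMonoidHom.map_isConj hh
        simpa using h3⟩)
  have hct : s.cycleType = {2} := Equiv.Perm.isSwap_iff_cycleType.mp hs
  have ho : orderOf (θ s) = 2 := by
    have h3 := orderOf_injective θ.toMonoidHom θ.injective s
    rw [hs.orderOf] at h3
    exact h3
  obtain ⟨k, hk⟩ := Equiv.Perm.cycleType_prime_order (σ := θ s) (by rw [ho]; exact Nat.prime_two)
  rw [ho] at hk
  have hsum : 2 * (k + 1) ≤ Fintype.card Ω := by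
    have h3 := Equiv.Perm.sum_cycleType (θ s)
    rw [hk, Multiset.sum_replicate, smul_eq_mul] at h3
    have h4 := Finset.card_le_univ (θ s).support
    omega
  rw [hct] at h1
  rw [hk] at h2
  simp only [Multiset.sum_singleton, Multiset.prod_singleton, Multiset.toFinset_singleton,
    Finset.prod_singleton, Multiset.count_singleton_self, Nat.factorial_one, mul_one] at h1
  have htf : (Multiset.replicate (k + 1) 2).toFinset = ({2} : Finset ℕ) := by
    rw [Multiset.toFinset_replicate, if_neg (Nat.succ_ne_zero k)]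
  simp only [Multiset.sum_replicate, Multiset.prod_replicate, htf, Finset.prod_singleton,
    Multiset.count_replicate_self, smul_eq_mul] at h2
  rw [hc, hN] at h1
  have hNpos : 0 < Nat.card {h : Equiv.Perm Ω | IsConj (θ s) h} := by
    rcases Nat.eq_zero_or_pos (Nat.card {h : Equiv.Perm Ω | IsConj (θ s) h}) with h0 | h0
    · rw [h0, zero_mul] at h2
      exact absurd h2.symm (Nat.factorial_ne_zero _)
    · exact h0
  have heq := Nat.eq_of_mul_eq_mul_left hNpos (h1.trans h2.symm)
  have hk0 : k = 0 := by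
    apply num_main (Fintype.card Ω) k h6 hsum
    rw [heq, mul_comm 2 (k + 1)]
  subst hk0
  rw [Equiv.Perm.isSwap_iff_cycleType, hk]
  rfl

theorem star_fixed {Δ Ω : Type*} [Fintype Δ] [DecidableEq Δ] [Fintype Ω] [DecidableEq Ω]
    (θ : Equiv.Perm Δ ≃* Equiv.Perm Ω) (hsw : ∀ s : Equiv.Perm Δ, s.IsSwap → (θ s).IsSwap)
    (δ₀ ε₁ ε₂ : Δ) (h1 : ε₁ ≠ δ₀) (h2 : ε₂ ≠ δ₀) (h12 : ε₁ ≠ ε₂) :
    ∃ x : Ω, ∀ g : Equiv.Perm Δ, g δ₀ = δ₀ → θ g x = x := by
  have hs1 : (Equiv.swap δ₀ ε₁).IsSwap := ⟨δ₀, ε₁, h1.symm, rfl⟩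
  have hs2 : (Equiv.swap δ₀ ε₂).IsSwap := ⟨δ₀, ε₂, h2.symm, rfl⟩
  have hnc : θ (Equiv.swap δ₀ ε₁) * θ (Equiv.swap δ₀ ε₂) ≠
      θ (Equiv.swap δ₀ ε₂) * θ (Equiv.swap δ₀ ε₁) := by
    rw [← map_mul, ← map_mul]
    intro h
    exact swap_not_comm h1.symm h2.symm h12 (θ.injective h)
  obtain ⟨x, y₁, y₂, hxy1, hxy2, hy12, e1, e2⟩ := swap_normal_form (hsw _ hs1) (hsw _ hs2) hnc
  have hxM : ∀ ε : Δ, ε ≠ δ₀ → θ (Equiv.swap δ₀ ε) x ≠ x := by
    intro ε hε hfix
    by_cases he1 : ε = ε₁
    · subst he1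
      rw [e1, Equiv.swap_apply_left] at hfix
      exact hxy1 hfix.symm
    by_cases he2 : ε = ε₂
    · subst he2
      rw [e2, Equiv.swap_apply_left] at hfix
      exact hxy2 hfix.symm
    obtain ⟨c, d, hcd, ecd⟩ := hsw _ (⟨δ₀, ε, hε.symm, rfl⟩ : (Equiv.swap δ₀ ε).IsSwap)
    have hxc : x ≠ c := by
      intro h
      subst h
      rw [ecd, Equiv.swap_apply_left] at hfix
      exact hcd hfix.symm
    have hxd : x ≠ d := by
      intro h
      subst h
      rw [ecd, Equiv.swap_apply_right] at hfix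
      exact hcd hfix
    have hn1 : Equiv.swap x y₁ * Equiv.swap c d ≠ Equiv.swap c d * Equiv.swap x y₁ := by
      rw [← e1, ← ecd, ← map_mul, ← map_mul]
      intro h
      exact swap_not_comm h1.symm hε.symm (Ne.symm he1) (θ.injective h)
    have hn2 : Equiv.swap x y₂ * Equiv.swap c d ≠ Equiv.swap c d * Equiv.swap x y₂ := by
      rw [← e2, ← ecd, ← map_mul, ← map_mul]
      intro h
      exact swap_not_comm h2.symm hε.symm (Ne.symm he2) (θ.injective h)
    have hy1 : y₁ = c ∨ y₁ = d := by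
      rcases swap_share hxy1 hcd hn1 with h | h | h | h
      · exact absurd h hxc
      · exact absurd h hxd
      · exact Or.inl h
      · exact Or.inr h
    have hy2 : y₂ = c ∨ y₂ = d := by
      rcases swap_share hxy2 hcd hn2 with h | h | h | h
      · exact absurd h hxc
      · exact absurd h hxd
      · exact Or.inl h
      · exact Or.inr h
    have hcd' : Equiv.swap c d = Equiv.swap y₁ y₂ := by
      rcases hy1 with h | h <;> rcases hy2 with h' | h'
      · exact absurd (h.trans h'.symm) hy12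
      · rw [h, h']
      · rw [h, h', Equiv.swap_comm]
      · exact absurd (h.trans h'.symm) hy12
    have h3 : θ (Equiv.swap δ₀ ε) = θ (Equiv.swap ε₁ ε₂) := by
      rw [ecd, hcd', ← swap_triple hxy1 hxy2 hy12, ← e1, ← e2, ← map_mul, ← map_mul,
        swap_triple h1.symm h2.symm h12]
    have h4 := θ.injective h3
    have h5 := congrArg (fun f : Equiv.Perm Δ => f δ₀) h4
    simp only [Equiv.swap_apply_left] at h5
    rw [Equiv.swap_apply_of_ne_of_ne h1.symm h2.symm] at h5
    exact hε h5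
  refine ⟨x, fun g hg => ?_⟩
  have hz : ∀ ε : Δ, ε ≠ δ₀ → θ (Equiv.swap δ₀ ε) (θ g x) ≠ θ g x := by
    intro ε hε hfix
    have hg' : g⁻¹ δ₀ = δ₀ := by rw [Equiv.Perm.inv_eq_iff_eq, hg]
    have hconj : g⁻¹ * Equiv.swap δ₀ ε * g = Equiv.swap δ₀ (g⁻¹ ε) := by
      have h := Equiv.swap_apply_apply g⁻¹ δ₀ ε
      rw [inv_inv] at h
      rw [← h, hg']
    have hgε : g⁻¹ ε ≠ δ₀ := by
      intro h
      rw [Equiv.Perm.inv_eq_iff_eq] at h
      exact hε (h.trans hg)
    apply hxM _ hgε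
    rw [← hconj, map_mul, map_mul, Equiv.Perm.mul_apply, Equiv.Perm.mul_apply, hfix, map_inv]
    simp
  have hz1 := hz ε₁ h1
  have hz2 := hz ε₂ h2
  rw [e1] at hz1
  rw [e2] at hz2
  by_contra hne
  have k1 : θ g x = y₁ := by
    by_contra hk
    exact hz1 (Equiv.swap_apply_of_ne_of_ne hne hk)
  have k2 : θ g x = y₂ := by
    by_contra hk
    exact hz2 (Equiv.swap_apply_of_ne_of_ne hne hk)
  exact hy12 (k1.symm.trans k2)

theorem eq_stabilizer_of_fixes {Ω : Type*} [Fintype Ω] [DecidableEq Ω]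
    (H : Subgroup (Equiv.Perm Ω)) (hH : H.index = Fintype.card Ω) (x : Ω)
    (hx : ∀ h ∈ H, h x = x) : H = MulAction.stabilizer (Equiv.Perm Ω) x := by
  have hle : H ≤ MulAction.stabilizer (Equiv.Perm Ω) x :=
    fun h hh => MulAction.mem_stabilizer_iff.mpr (hx h hh)
  have hidx : (MulAction.stabilizer (Equiv.Perm Ω) x).index = Fintype.card Ω := by
    rw [MulAction.index_stabilizer_of_transitive, Nat.card_eq_fintype_card]
  have h1 := Subgroup.relIndex_mul_index hle
  rw [hidx, hH] at h1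
  have hpos : 0 < Fintype.card Ω := Fintype.card_pos_iff.mpr ⟨x⟩
  have h2 : H.relIndex (MulAction.stabilizer (Equiv.Perm Ω) x) = 1 :=
    Nat.eq_of_mul_eq_mul_right hpos (h1.trans (one_mul _).symm)
  exact le_antisymm hle (Subgroup.relIndex_eq_one.mp h2)

/-- Let Ω be a finite set whose size n is not 6. Then every subgroup of the symmetric group on Ω of index n is the stabilizer of a point. -/
theorem result {Ω : Type*} [Fintype Ω] [DecidableEq Ω] (h6 : Fintype.card Ω ≠ 6)
    (H : Subgroup (Equiv.Perm Ω)) (hH : H.index = Fintype.card Ω) :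
    ∃ x : Ω, H = MulAction.stabilizer (Equiv.Perm Ω) x := by
  classical
  have hn0 : Fintype.card Ω ≠ 0 := by
    rw [← hH]
    exact Subgroup.index_ne_zero_of_finite
  have hne : Nonempty Ω := Fintype.card_pos_iff.mp (Nat.pos_of_ne_zero hn0)
  have hcard : Nat.card H * Fintype.card Ω = (Fintype.card Ω).factorial := by
    rw [← hH, Subgroup.card_mul_index, Nat.card_perm, Nat.card_eq_fintype_card, hH]
  by_cases hsmall : Fintype.card Ω ≤ 2
  · have hH1 : Nat.card H = 1 := by
      have h12 : Fintype.card Ω = 1 ∨ Fintype.card Ω = 2 := by omega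
      rcases h12 with h | h
      · rw [h] at hcard
        simpa using hcard
      · rw [h] at hcard
        have h3 : Nat.card H * 2 = 2 := by simpa using hcard
        omega
    obtain ⟨x⟩ := hne
    refine ⟨x, eq_stabilizer_of_fixes H hH x (fun h hh => ?_)⟩
    have hbot : H = ⊥ := Subgroup.eq_bot_of_card_eq H hH1
    rw [hbot, Subgroup.mem_bot] at hh
    rw [hh]
    rfl
  push Not at hsmall
  have hΔ : Fintype.card (Equiv.Perm Ω ⧸ H) = Fintype.card Ω := by
    rw [← hH, Subgroup.index_eq_card, Nat.card_eq_fintype_card]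
  have hker : (MulAction.toPermHom (Equiv.Perm Ω) (Equiv.Perm Ω ⧸ H)).ker = ⊥ := by
    by_contra hK
    have hKle : (MulAction.toPermHom (Equiv.Perm Ω) (Equiv.Perm Ω ⧸ H)).ker ≤ H := by
      rw [← Subgroup.normalCore_eq_ker]
      exact Subgroup.normalCore_le H
    by_cases h5 : 5 ≤ Fintype.card Ω
    · have hnt : Nontrivial (MulAction.toPermHom (Equiv.Perm Ω) (Equiv.Perm Ω ⧸ H)).ker :=
        (Subgroup.nontrivial_iff_ne_bot _).mpr hK
      have hA := Equiv.Perm.alternatingGroup_le_of_normal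
        (by rw [Nat.card_eq_fintype_card]; exact h5) hnt
      have hd := Subgroup.index_dvd_of_le (hA.trans hKle)
      have hntΩ : Nontrivial Ω := Fintype.one_lt_card_iff_nontrivial.mp (by omega)
      rw [alternatingGroup.index_eq_two, hH] at hd
      have h7 := Nat.le_of_dvd (by norm_num) hd
      omega
    · have hfix : MulAction.fixedPoints (MulAction.toPermHom (Equiv.Perm Ω) (Equiv.Perm Ω ⧸ H)).ker Ω
          ≠ Set.univ := by
        intro hu
        apply hK
        rw [eq_bot_iff]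
        intro k hk
        rw [Subgroup.mem_bot]
        ext a
        have ha : a ∈ MulAction.fixedPoints
            (MulAction.toPermHom (Equiv.Perm Ω) (Equiv.Perm Ω ⧸ H)).ker Ω := hu ▸ Set.mem_univ a
        exact ha ⟨k, hk⟩
      have htr : MulAction.IsPretransitive
          (MulAction.toPermHom (Equiv.Perm Ω) (Equiv.Perm Ω ⧸ H)).ker Ω :=
        MulAction.IsQuasiPreprimitive.isPretransitive_of_normal hfix
      obtain ⟨x⟩ := hne
      have hidx := MulAction.index_stabilizer_of_transitive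
        (G := (MulAction.toPermHom (Equiv.Perm Ω) (Equiv.Perm Ω ⧸ H)).ker) (x := x)
      have hdvd1 : Fintype.card Ω ∣
          Nat.card (MulAction.toPermHom (Equiv.Perm Ω) (Equiv.Perm Ω ⧸ H)).ker := by
        rw [← Nat.card_eq_fintype_card, ← hidx]
        exact Subgroup.index_dvd_card _
      have hdvd := hdvd1.trans (Subgroup.card_dvd_of_le hKle)
      have h34 : Fintype.card Ω = 3 ∨ Fintype.card Ω = 4 := by omega
      rcases h34 with h | h
      · rw [h] at hcard hdvd
        have h8 : Nat.card H = 2 := by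
          have h9 : Nat.card H * 3 = 6 := by simpa [Nat.factorial] using hcard
          omega
        rw [h8] at hdvd
        exact absurd hdvd (by decide)
      · rw [h] at hcard hdvd
        have h8 : Nat.card H = 6 := by
          have h9 : Nat.card H * 4 = 24 := by simpa [Nat.factorial] using hcard
          omega
        rw [h8] at hdvd
        exact absurd hdvd (by decide)
  have hinj : Function.Injective (MulAction.toPermHom (Equiv.Perm Ω) (Equiv.Perm Ω ⧸ H)) :=
    (MonoidHom.ker_eq_bot_iff _).mp hker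
  have hbij : Function.Bijective (MulAction.toPermHom (Equiv.Perm Ω) (Equiv.Perm Ω ⧸ H)) := by
    apply hinj.bijective_of_nat_card_le
    rw [Nat.card_perm, Nat.card_perm, Nat.card_eq_fintype_card, Nat.card_eq_fintype_card, hΔ]
  obtain ⟨ε₁, ε₂, h1, h2, h12⟩ : ∃ ε₁ ε₂ : Equiv.Perm Ω ⧸ H,
      ε₁ ≠ ((1 : Equiv.Perm Ω) : Equiv.Perm Ω ⧸ H) ∧
      ε₂ ≠ ((1 : Equiv.Perm Ω) : Equiv.Perm Ω ⧸ H) ∧ ε₁ ≠ ε₂ := by
    have h3 : 2 < Fintype.card (Equiv.Perm Ω ⧸ H) := by rw [hΔ]; exact hsmall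
    obtain ⟨a, b, c, hab, hac, hbc⟩ := Fintype.two_lt_card_iff.mp h3
    by_cases ha : a = ((1 : Equiv.Perm Ω) : Equiv.Perm Ω ⧸ H)
    · exact ⟨b, c, by rw [← ha]; exact hab.symm, by rw [← ha]; exact hac.symm, hbc⟩
    · by_cases hb : b = ((1 : Equiv.Perm Ω) : Equiv.Perm Ω ⧸ H)
      · exact ⟨a, c, ha, by rw [← hb]; exact hbc.symm, hac⟩
      · exact ⟨a, b, ha, hb, hab⟩
  obtain ⟨x, hx⟩ := star_fixed (MulEquiv.ofBijective _ hbij).symm
    (fun s hs => swap_of_equiv hΔ h6 _ s hs) _ ε₁ ε₂ h1 h2 h12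
  refine ⟨x, eq_stabilizer_of_fixes H hH x (fun h hh => ?_)⟩
  have hfix : MulAction.toPermHom (Equiv.Perm Ω) (Equiv.Perm Ω ⧸ H) h
      ((1 : Equiv.Perm Ω) : Equiv.Perm Ω ⧸ H) = ((1 : Equiv.Perm Ω) : Equiv.Perm Ω ⧸ H) := by
    show ((h * 1 : Equiv.Perm Ω) : Equiv.Perm Ω ⧸ H) = ((1 : Equiv.Perm Ω) : Equiv.Perm Ω ⧸ H)
    rw [QuotientGroup.eq]
    simpa using hh
  have h3 := hx _ hfix
  have e : (MulEquiv.ofBijective _ hbij).symm
      (MulAction.toPermHom (Equiv.Perm Ω) (Equiv.Perm Ω ⧸ H) h) = h :=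
    (MulEquiv.ofBijective _ hbij).symm_apply_apply h
  rwa [e] at h3

end Cfsg.Agent.S5911
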