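import Mathlib
import Cfsg.Statements.S5912

set_option autoImplicit false
open Cfsg

namespace Cfsg.Agent.S5912

abbrev S6 := Equiv.Perm (Fin 6)

def c0 : S6 := Equiv.swap 0 1 * Equiv.swap 1 2 * Equiv.swap 2 3 * Equiv.swap 3 4

def Fpred (g : S6) : Prop :=
  g 5 = 5 ∧ (g * c0 = c0 * g ∨ g * c0 = c0 ^ 2 * g ∨ g * c0 = c0 ^ 3 * g ∨ g * c0 = c0 ^ 4 * g)

instance (g : S6) : Decidable (Fpred g) := by unfold Fpred; infer_instance

def chiN (i j : ℕ) : ℕ :=
  ([[0, 0, 1, 2, 3, 4], [0, 0, 2, 3, 4, 1], [1, 2, 0, 4, 0, 3], [2, 3, 4, 0, 1, 0],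
    [3, 4, 0, 1, 0, 2], [4, 1, 3, 0, 2, 0]].getD i []).getD j 0

def T0pred (t : S6) : Prop :=
  ∀ i j k l : Fin 6, i ≠ j → k ≠ l →
    (chiN i.val j.val = chiN k.val l.val ↔ chiN (t i).val (t j).val = chiN (t k).val (t l).val)

instance (t : S6) : Decidable (T0pred t) := by unfold T0pred; infer_instance

set_option maxRecDepth 1000000 in
theorem D1 : ∀ c : S6, c ^ 5 = 1 → c ≠ 1 → ∃ f : Fin 6, c f = f ∧ ∃ g : S6, g 5 = 5 ∧
    g * (Equiv.swap f 5 * c * Equiv.swap f 5) * g⁻¹ = c0 := by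
  decide +kernel

set_option maxRecDepth 1000000 in
theorem D2 : ∀ g : S6, g 5 = 5 → ¬ Fpred g → ∀ i j i' j' : Fin 5,
    c0 ^ i.val * (g * c0 * g⁻¹) ^ j.val = c0 ^ i'.val * (g * c0 * g⁻¹) ^ j'.val → i = i' ∧ j = j' := by
  decide +kernel

set_option maxRecDepth 1000000 in
theorem D2' : ∀ g : S6, g 5 = 5 → ∀ i j : Fin 5,
    (c0 ^ i.val * (g * c0 * g⁻¹) ^ j.val) 5 = 5 := by
  decide +kernel

theorem D3 : ∀ x y : Fin 6, x ≠ 5 → y ≠ 5 → ∃ k : Fin 5, (c0 ^ k.val) x = y := by
  decide +kernel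

set_option maxRecDepth 1000000 in
theorem D4 : ∀ t : S6, t 5 ≠ 5 → T0pred t ∨ ∃ i j : Fin 5,
    (t * c0 ^ i.val * t * c0 ^ j.val * t) 5 = 5 ∧ ¬ Fpred (t * c0 ^ i.val * t * c0 ^ j.val * t) := by
  decide +kernel

set_option maxRecDepth 1000000 in
theorem D5 : ∀ g : S6, Fpred g → T0pred g := by
  decide +kernel

set_option maxRecDepth 1000000 in
theorem D6 : ∀ a : Fin 6, ∃ x : S6, T0pred x ∧ x a ≠ a := by
  decide +kernel

set_option maxRecDepth 1000000 in
theorem cT0 : (Finset.univ.filter (fun t : S6 => T0pred t)).card = 120 := by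
  decide +kernel

set_option maxRecDepth 1000000 in
theorem cSt : (Finset.univ.filter (fun t : S6 => t 5 = 5)).card = 120 := by
  decide +kernel

def T0 : Subgroup S6 where
  carrier := {t | T0pred t}
  one_mem' := fun _ _ _ _ _ _ => Iff.rfl
  mul_mem' := by
    intro a b ha hb i j k l hij hkl
    exact (hb i j k l hij hkl).trans (ha (b i) (b j) (b k) (b l)
      (fun h => hij (b.injective h)) (fun h => hkl (b.injective h)))
  inv_mem' := by
    intro a ha i j k l hij hkl
    have h := ha (a⁻¹ i) (a⁻¹ j) (a⁻¹ k) (a⁻¹ l) (fun h => hij (a⁻¹.injective h))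
      (fun h => hkl (a⁻¹.injective h))
    have e : ∀ x, a (a⁻¹ x) = x := fun x => by simp
    rw [e, e, e, e] at h
    exact h.symm

def St5 : Subgroup S6 where
  carrier := {g | g 5 = 5}
  one_mem' := rfl
  mul_mem' := by
    intro a b ha hb
    have ha' : a 5 = 5 := ha
    have hb' : b 5 = 5 := hb
    show a (b 5) = 5
    rw [hb', ha']
  inv_mem' := by
    intro a ha
    have ha' : a 5 = 5 := ha
    have h : a⁻¹ (a 5) = 5 := by simp
    rw [ha'] at h
    exact h

theorem card_S6 : Nat.card S6 = 720 := by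
  rw [Nat.card_eq_fintype_card, Fintype.card_perm, Fintype.card_fin]
  rfl

theorem card_T0 : Nat.card T0 = 120 := by
  have h : Nat.card {t : S6 // T0pred t} = 120 := by
    rw [Nat.card_eq_fintype_card, Fintype.card_subtype]
    exact cT0
  exact h

theorem card_St5 : Nat.card St5 = 120 := by
  have h : Nat.card {t : S6 // t 5 = 5} = 120 := by
    rw [Nat.card_eq_fintype_card, Fintype.card_subtype]
    exact cSt
  exact h

theorem index_of_card (K : Subgroup S6) (h : Nat.card K = 120) : K.index = 6 := by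
  have h1 := K.index_mul_card
  rw [h, card_S6] at h1
  omega

theorem card_of_index (K : Subgroup S6) (h : K.index = 6) : Nat.card K = 120 := by
  have h1 := K.index_mul_card
  rw [h, card_S6] at h1
  omega

theorem core (H : Subgroup S6) (hidx : H.index = 6) (hc : c0 ∈ H) : H = St5 ∨ H = T0 := by
  have hcard := card_of_index H hidx
  by_cases hfix : ∀ h ∈ H, h 5 = 5
  · left
    exact Subgroup.eq_of_le_of_card_ge (fun h hh => hfix h hh) (by rw [card_St5, hcard])
  · right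
    push Not at hfix
    obtain ⟨t, htH, ht5⟩ := hfix
    have htr : ∀ a : Fin 6, ∃ h ∈ H, h 5 = a := by
      intro a
      by_cases ha : a = 5
      · exact ⟨1, H.one_mem, ha.symm⟩
      · obtain ⟨k, hk⟩ := D3 (t 5) a ht5 ha
        exact ⟨c0 ^ k.val * t, H.mul_mem (H.pow_mem hc _) htH, hk⟩
    choose τ hτH hτ5 using htr
    have stepA : ∀ g ∈ H, g 5 = 5 → Fpred g := by
      intro g hgH hg5
      by_contra hF
      let f : Fin 6 × Fin 5 × Fin 5 → H := fun x =>
        ⟨τ x.1 * (c0 ^ x.2.1.val * (g * c0 * g⁻¹) ^ x.2.2.val),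
          H.mul_mem (hτH _) (H.mul_mem (H.pow_mem hc _)
            (H.pow_mem (H.mul_mem (H.mul_mem hgH hc) (H.inv_mem hgH)) _))⟩
      have hinj : Function.Injective f := by
        rintro ⟨a, i, j⟩ ⟨a', i', j'⟩ h
        have h1 : τ a * (c0 ^ i.val * (g * c0 * g⁻¹) ^ j.val)
            = τ a' * (c0 ^ i'.val * (g * c0 * g⁻¹) ^ j'.val) := congrArg Subtype.val h
        have e1 : (τ a * (c0 ^ i.val * (g * c0 * g⁻¹) ^ j.val)) 5 = a := by
          show τ a ((c0 ^ i.val * (g * c0 * g⁻¹) ^ j.val) 5) = a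
          rw [D2' g hg5 i j, hτ5]
        have e2 : (τ a' * (c0 ^ i'.val * (g * c0 * g⁻¹) ^ j'.val)) 5 = a' := by
          show τ a' ((c0 ^ i'.val * (g * c0 * g⁻¹) ^ j'.val) 5) = a'
          rw [D2' g hg5 i' j', hτ5]
        have h2 : a = a' := by
          calc a = (τ a * (c0 ^ i.val * (g * c0 * g⁻¹) ^ j.val)) 5 := e1.symm
            _ = (τ a' * (c0 ^ i'.val * (g * c0 * g⁻¹) ^ j'.val)) 5 := by rw [h1]
            _ = a' := e2
        subst h2
        have h3 := D2 g hg5 hF i j i' j' (mul_left_cancel h1)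
        rw [h3.1, h3.2]
      have hle := Nat.card_le_card_of_injective f hinj
      have h150 : Nat.card (Fin 6 × Fin 5 × Fin 5) = 150 := by
        simp [Nat.card_eq_fintype_card]
      omega
    have stepB : ∀ h ∈ H, T0pred h := by
      intro h hh
      by_cases h5 : h 5 = 5
      · exact D5 h (stepA h hh h5)
      · rcases D4 h h5 with hT | ⟨i, j, hw5, hwF⟩
        · exact hT
        · exact absurd (stepA _ (H.mul_mem (H.mul_mem (H.mul_mem (H.mul_mem hh
            (H.pow_mem hc _)) hh) (H.pow_mem hc _)) hh) hw5) hwF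
    exact Subgroup.eq_of_le_of_card_ge (fun h hh => stepB h hh) (by rw [card_T0, hcard])

theorem mem_map_conj {G : Type*} [Group G] (K : Subgroup G) (g x : G) :
    x ∈ K.map (MulAut.conj g).toMonoidHom ↔ g⁻¹ * x * g ∈ K := by
  constructor
  · rintro ⟨y, hy, rfl⟩
    have h : g⁻¹ * ((MulAut.conj g).toMonoidHom y) * g = y := by
      show g⁻¹ * (g * y * g⁻¹) * g = y
      group
    rw [h]
    exact hy
  · intro h
    refine ⟨g⁻¹ * x * g, h, ?_⟩
    show g * (g⁻¹ * x * g) * g⁻¹ = x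
    group

theorem fin6 (H : Subgroup S6) (hidx : H.index = 6) :
    ∃ γ : S6, (∀ x, x ∈ H ↔ γ * x * γ⁻¹ ∈ St5) ∨ (∀ x, x ∈ H ↔ γ * x * γ⁻¹ ∈ T0) := by
  have hcard := card_of_index H hidx
  have hp5 : Fact (Nat.Prime 5) := ⟨by norm_num⟩
  obtain ⟨c, hc⟩ := exists_prime_orderOf_dvd_card' (G := H) 5
    (show 5 ∣ Nat.card H by rw [hcard]; norm_num)
  have hc5 : (c : S6) ^ 5 = 1 := by
    have h := pow_orderOf_eq_one c
    rw [hc] at h
    have h' := congrArg Subtype.val h
    exact h'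
  have hc1 : (c : S6) ≠ 1 := by
    intro h
    have h' : c = 1 := Subtype.ext h
    rw [h', orderOf_one] at hc
    norm_num at hc
  obtain ⟨f, hf, g, hg5, hg⟩ := D1 c hc5 hc1
  have hH' : ∀ x, x ∈ H.map (MulAut.conj (g * Equiv.swap f 5)).toMonoidHom
      ↔ (g * Equiv.swap f 5)⁻¹ * x * (g * Equiv.swap f 5) ∈ H :=
    fun x => mem_map_conj H _ x
  have hc0 : c0 ∈ H.map (MulAut.conj (g * Equiv.swap f 5)).toMonoidHom := by
    rw [hH']
    have h : (g * Equiv.swap f 5)⁻¹ * c0 * (g * Equiv.swap f 5) = c := by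
      rw [← hg, mul_inv_rev, Equiv.swap_inv]
      have h1 : Equiv.swap f 5 * g⁻¹ * (g * (Equiv.swap f 5 * (c : S6) * Equiv.swap f 5) * g⁻¹)
          * (g * Equiv.swap f 5)
          = Equiv.swap f 5 * (Equiv.swap f 5 * ((c : S6) * (Equiv.swap f 5 * Equiv.swap f 5))) := by
        group
      rw [h1, Equiv.swap_mul_self, mul_one, Equiv.swap_mul_self_mul]
    rw [h]
    exact c.2
  have hidx' : (H.map (MulAut.conj (g * Equiv.swap f 5)).toMonoidHom).index = 6 :=
    (Subgroup.index_map_equiv H (MulAut.conj (g * Equiv.swap f 5))).trans hidx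
  have hx : ∀ x : S6, (g * Equiv.swap f 5)⁻¹ * ((g * Equiv.swap f 5) * x * (g * Equiv.swap f 5)⁻¹)
      * (g * Equiv.swap f 5) = x := fun x => by group
  rcases core _ hidx' hc0 with h | h
  · refine ⟨g * Equiv.swap f 5, Or.inl (fun x => ?_)⟩
    rw [← h, hH', hx]
  · refine ⟨g * Equiv.swap f 5, Or.inr (fun x => ?_)⟩
    rw [← h, hH', hx]

/-- The symmetric group on a 6-element set Ω has exactly two conjugacy classes of subgroups of index 6: there are two non-conjugate subgroups of index 6 (a point stabilizer and a transitive subgroup isomorphic to S₅), and every subgroup of index 6 is conjugate to one of them. -/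
theorem result {Ω : Type*} [Fintype Ω] [DecidableEq Ω] (h6 : Fintype.card Ω = 6) :
    ∃ H₁ H₂ : Subgroup (Equiv.Perm Ω), H₁.index = 6 ∧ H₂.index = 6 ∧
      (¬ ∃ g : Equiv.Perm Ω, Subgroup.map (MulAut.conj g).toMonoidHom H₁ = H₂) ∧
      ∀ H : Subgroup (Equiv.Perm Ω), H.index = 6 →
        ∃ g : Equiv.Perm Ω, Subgroup.map (MulAut.conj g).toMonoidHom H₁ = H ∨ Subgroup.map (MulAut.conj g).toMonoidHom H₂ = H := by
  let e : Ω ≃ Fin 6 := Fintype.equivFinOfCardEq h6
  let φ : Equiv.Perm Ω ≃* S6 := e.permCongrHom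
  have hsurj : Function.Surjective φ.toMonoidHom := φ.surjective
  refine ⟨St5.comap φ.toMonoidHom, T0.comap φ.toMonoidHom, ?_, ?_, ?_, ?_⟩
  · rw [Subgroup.index_comap_of_surjective _ hsurj]
    exact index_of_card St5 card_St5
  · rw [Subgroup.index_comap_of_surjective _ hsurj]
    exact index_of_card T0 card_T0
  · rintro ⟨g, hg⟩
    obtain ⟨x, hxT, hxa⟩ := D6 (φ g 5)
    have h1 : φ.symm x ∈ T0.comap φ.toMonoidHom := by
      show φ (φ.symm x) ∈ T0
      rw [MulEquiv.apply_symm_apply]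
      exact hxT
    rw [← hg, mem_map_conj] at h1
    have h2 : φ (g⁻¹ * φ.symm x * g) 5 = 5 := h1
    rw [map_mul, map_mul, MulEquiv.apply_symm_apply, map_inv] at h2
    apply hxa
    have h3 : (φ g) (((φ g)⁻¹ * x * φ g) 5) = (φ g) 5 := by rw [h2]
    simpa using h3
  · intro H hH
    have hidx : (H.map φ.toMonoidHom).index = 6 := (Subgroup.index_map_equiv H φ).trans hH
    obtain ⟨γ, hγ⟩ := fin6 _ hidx
    refine ⟨φ.symm γ⁻¹, ?_⟩
    have key : ∀ (K : Subgroup S6), (∀ x, x ∈ H.map φ.toMonoidHom ↔ γ * x * γ⁻¹ ∈ K) →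
        Subgroup.map (MulAut.conj (φ.symm γ⁻¹)).toMonoidHom (K.comap φ.toMonoidHom) = H := by
      intro K hK
      ext x
      rw [mem_map_conj]
      show φ ((φ.symm γ⁻¹)⁻¹ * x * φ.symm γ⁻¹) ∈ K ↔ x ∈ H
      rw [map_mul, map_mul, map_inv, MulEquiv.apply_symm_apply, inv_inv, ← hK]
      constructor
      · rintro ⟨y, hy, hyx⟩
        have h : y = x := φ.injective hyx
        rw [← h]
        exact hy
      · intro hx
        exact ⟨x, hx, rfl⟩
    rcases hγ with h | h
    · exact Or.inl (key St5 h)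
    · exact Or.inr (key T0 h)

end Cfsg.Agent.S5912
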