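import Cfsg.Statements.S5946

set_option autoImplicit false
open Cfsg

namespace Cfsg.Agent.S5946

theorem result {F K : Type*} [Field F] [Fintype F] [Field K] [Fintype K] [Algebra F K] (n : ℕ) (hn : 2 ≤ n) (hdim : Module.finrank F K = n) :
    Subgroup.centralizer (((Units.map ((Algebra.lmul F K : K →ₐ[F] Module.End F K) : K →* Module.End F K)).range : Subgroup (Module.End F K)ˣ) : Set (Module.End F K)ˣ) = (Units.map ((Algebra.lmul F K : K →ₐ[F] Module.End F K) : K →* Module.End F K)).range := by
  apply le_antisymm
  · intro u hu
    rw [Subgroup.mem_centralizer_iff] at hu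
    have key : ∀ k : K, k ≠ 0 → ∀ x : K, (u : Module.End F K) (k * x) = k * (u : Module.End F K) x := by
      intro k hk x
      have h := hu (Units.map ((Algebra.lmul F K : K →ₐ[F] Module.End F K) : K →* Module.End F K) (Units.mk0 k hk)) ⟨_, rfl⟩
      have h2 := congrArg (fun w : (Module.End F K)ˣ => (w : Module.End F K) x) h
      simpa using h2.symm
    have ha : (u : Module.End F K) 1 ≠ 0 := by
      intro h0
      have h1 : ((u⁻¹ : (Module.End F K)ˣ) : Module.End F K) ((u : Module.End F K) 1) = 1 := by
        have h3 : ((u⁻¹ : (Module.End F K)ˣ) : Module.End F K) * (u : Module.End F K) = 1 := by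
          rw [← Units.val_mul, inv_mul_cancel, Units.val_one]
        have h4 := congrArg (fun w : Module.End F K => w 1) h3
        exact h4
      rw [h0, map_zero] at h1
      exact zero_ne_one h1
    refine ⟨Units.mk0 _ ha, ?_⟩
    apply Units.ext
    apply LinearMap.ext
    intro x
    by_cases hx : x = 0
    · subst hx; simp
    · have := key x hx 1
      rw [mul_one] at this
      rw [this]
      simp [mul_comm]
  · rintro _ ⟨k, rfl⟩
    rw [Subgroup.mem_centralizer_iff]
    rintro _ ⟨l, rfl⟩
    rw [← map_mul, ← map_mul, mul_comm]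

end Cfsg.Agent.S5946
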